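import Mathlib
import Cfsg.Statements.S4204

set_option autoImplicit false
open Cfsg

namespace Cfsg.Agent.S4204

variable {G : Type*} [Group G]

theorem comm_le_iff (X B Y : Subgroup G) [Y.Normal] :
    ⁅X, B⁆ ≤ Y ↔ X.map (QuotientGroup.mk' Y) ≤
      Subgroup.centralizer (B.map (QuotientGroup.mk' Y) : Set (G ⧸ Y)) := by
  rw [← Subgroup.commutator_eq_bot_iff_le_centralizer, ← Subgroup.map_commutator,
    Subgroup.map_eq_bot_iff, QuotientGroup.ker_mk']

theorem comm_sup_le {ι : Sort*} (X : ι → Subgroup G) (B C Y : Subgroup G) [Y.Normal]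
    (h1 : ∀ i, ⁅X i, B⁆ ≤ Y) (h2 : ∀ i, ⁅X i, C⁆ ≤ Y) : ⁅⨆ i, X i, B ⊔ C⁆ ≤ Y := by
  rw [comm_le_iff, Subgroup.map_iSup, iSup_le_iff]
  intro i
  rw [Subgroup.le_centralizer_iff, Subgroup.map_sup]
  refine sup_le ?_ ?_
  · rw [Subgroup.le_centralizer_iff, ← comm_le_iff]; exact h1 i
  · rw [Subgroup.le_centralizer_iff, ← comm_le_iff]; exact h2 i

/-- shifted lower central series: `hs H 0 = ⊤`, `hs H (i+1) = γ_i(H)` -/
def hs (H : Subgroup G) : ℕ → Subgroup G
  | 0 => ⊤
  | (i + 1) => H.lowerCentralSeries i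

theorem lcs_normal (H : Subgroup G) [H.Normal] (i : ℕ) : (H.lowerCentralSeries i).Normal := by
  induction i with
  | zero => simpa using (inferInstance : H.Normal)
  | succ i ih =>
    rw [Subgroup.lowerCentralSeries_succ]
    exact Subgroup.commutator_normal _ _

theorem hs_normal (H : Subgroup G) [H.Normal] (i : ℕ) : (hs H i).Normal := by
  cases i with
  | zero => exact Subgroup.normal_top
  | succ i => exact lcs_normal H i

theorem hs_comm_self (H : Subgroup G) [H.Normal] (i : ℕ) : ⁅hs H i, H⁆ ≤ hs H (i + 1) := by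
  cases i with
  | zero => exact Subgroup.commutator_le_right _ _
  | succ i => exact le_rfl

theorem hs_comm_other (H K : Subgroup G) [H.Normal] (i : ℕ) : ⁅hs H i, K⁆ ≤ hs H i := by
  have := hs_normal H i
  exact Subgroup.commutator_le_left _ _

/-- the n-th layer -/
def L (H K : Subgroup G) (n : ℕ) : Subgroup G :=
  ⨆ p : {p : ℕ × ℕ // p.1 + p.2 = n}, hs H p.1.1 ⊓ hs K p.1.2

theorem L_normal (H K : Subgroup G) [H.Normal] [K.Normal] (n : ℕ) : (L H K n).Normal := by
  unfold L
  rw [iSup]
  apply Subgroup.sSup_normal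
  rintro _ ⟨p, rfl⟩
  have := hs_normal H p.1.1
  have := hs_normal K p.1.2
  exact Subgroup.normal_inf_normal _ _

theorem main (H K : Subgroup G) [H.Normal] [K.Normal] (n : ℕ) :
    (H ⊔ K).lowerCentralSeries n ≤ L H K (n + 1) := by
  induction n with
  | zero =>
    rw [Subgroup.lowerCentralSeries_zero]
    refine sup_le ?_ ?_
    · refine le_trans ?_ (le_iSup _ ⟨(1, 0), rfl⟩)
      simp [hs]
    · refine le_trans ?_ (le_iSup _ ⟨(0, 1), by simp⟩)
      simp [hs]
  | succ n ih =>
    rw [Subgroup.lowerCentralSeries_succ]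
    refine le_trans (Subgroup.commutator_mono ih le_rfl) ?_
    have := L_normal H K (n + 1 + 1)
    unfold L at this ⊢
    apply comm_sup_le
    · rintro ⟨⟨i, j⟩, hij⟩
      simp only at hij ⊢
      refine le_trans ?_ (le_iSup _ ⟨(i + 1, j), by simp; omega⟩)
      refine le_inf ?_ ?_
      · exact (Subgroup.commutator_mono inf_le_left le_rfl).trans (hs_comm_self H i)
      · exact (Subgroup.commutator_mono inf_le_right le_rfl).trans (hs_comm_other K H j)
    · rintro ⟨⟨i, j⟩, hij⟩
      simp only at hij ⊢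
      refine le_trans ?_ (le_iSup _ ⟨(i, j + 1), by simp; omega⟩)
      refine le_inf ?_ ?_
      · exact (Subgroup.commutator_mono inf_le_left le_rfl).trans (hs_comm_other H K i)
      · exact (Subgroup.commutator_mono inf_le_right le_rfl).trans (hs_comm_self K j)

/-- If `H` and `K` are normal subgroups of a finite group with `H` nilpotent of class at most `c` and `K` nilpotent of class at most `d` (the terms with index `c`, respectively `d`, of their lower central series are trivial, indices starting at `0`), then `HK` is nilpotent of class at most `c + d`. -/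
theorem result {G : Type*} [Group G] [Finite G] (H K : Subgroup G) [H.Normal] [K.Normal] (c d : ℕ) (hH : H.lowerCentralSeries c = ⊥) (hK : K.lowerCentralSeries d = ⊥) : (H ⊔ K).lowerCentralSeries (c + d) = ⊥ := by
  rw [eq_bot_iff]
  refine (main H K (c + d)).trans ?_
  unfold L
  rw [iSup_le_iff]
  rintro ⟨⟨i, j⟩, hij⟩
  simp only at hij ⊢
  by_cases hi : c + 1 ≤ i
  · obtain ⟨i', rfl⟩ : ∃ i', i = i' + 1 := ⟨i - 1, by omega⟩
    refine inf_le_left.trans ?_
    show H.lowerCentralSeries i' ≤ ⊥
    rw [← hH]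
    exact H.lowerCentralSeries_antitone (by omega)
  · obtain ⟨j', rfl⟩ : ∃ j', j = j' + 1 := ⟨j - 1, by omega⟩
    refine inf_le_right.trans ?_
    show K.lowerCentralSeries j' ≤ ⊥
    rw [← hK]
    exact K.lowerCentralSeries_antitone (by omega)

end Cfsg.Agent.S4204
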