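import Mathlib
import Cfsg.Statements.S4263
import Cfsg.Agent.S4204
import Cfsg.Agent.Lib.Helper7.Basic

set_option autoImplicit false
open Cfsg
open scoped Pointwise

namespace Cfsg.Agent.S4263

/-- In a finite nilpotent group, `y ^ [Γ : R] ∈ R` for every subgroup `R`. -/
lemma pow_index_mem_of_nilpotent {Γ : Type*} [Group Γ] [Finite Γ] [Group.IsNilpotent Γ] :
    ∀ (n : ℕ) (R : Subgroup Γ), R.index = n → ∀ y : Γ, y ^ R.index ∈ R := by
  intro n
  induction n using Nat.strong_induction_on with
  | _ n ih =>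
    intro R hR y
    by_cases htop : R = ⊤
    · rw [htop]; exact Subgroup.mem_top _
    · have hlt : R < Subgroup.normalizer (R : Set Γ) :=
        Group.normalizerCondition_of_isNilpotent R (lt_top_iff_ne_top.2 htop)
      have hidx : R.relIndex (Subgroup.normalizer (R : Set Γ)) *
          (Subgroup.normalizer (R : Set Γ)).index = R.index := Subgroup.relIndex_mul_index hlt.le
      have hrel1 : R.relIndex (Subgroup.normalizer (R : Set Γ)) ≠ 1 := by
        intro h
        rw [Subgroup.relIndex_eq_one] at h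
        exact (not_le_of_gt hlt) h
      have hrel0 : R.relIndex (Subgroup.normalizer (R : Set Γ)) ≠ 0 := by
        intro h
        rw [h, zero_mul] at hidx
        exact Subgroup.index_ne_zero_of_finite hidx.symm
      have hN0 : (Subgroup.normalizer (R : Set Γ)).index ≠ 0 := Subgroup.index_ne_zero_of_finite
      have hNlt : (Subgroup.normalizer (R : Set Γ)).index < n := by
        rw [← hR, ← hidx]
        have h2 : 2 ≤ R.relIndex (Subgroup.normalizer (R : Set Γ)) := by omega
        nlinarith [Nat.pos_of_ne_zero hN0]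
      have h1 : y ^ (Subgroup.normalizer (R : Set Γ)).index ∈ Subgroup.normalizer (R : Set Γ) :=
        ih _ hNlt _ rfl y
      have h2 : ∀ z : Subgroup.normalizer (R : Set Γ),
          z ^ (R.subgroupOf (Subgroup.normalizer (R : Set Γ))).index ∈
            R.subgroupOf (Subgroup.normalizer (R : Set Γ)) := by
        intro z
        rw [← QuotientGroup.eq_one_iff, QuotientGroup.mk_pow, Subgroup.index_eq_card]
        exact pow_card_eq_one'
      have h3 := h2 ⟨y ^ (Subgroup.normalizer (R : Set Γ)).index, h1⟩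
      rw [Subgroup.mem_subgroupOf] at h3
      have h4 : y ^ R.index = (y ^ (Subgroup.normalizer (R : Set Γ)).index) ^
          R.relIndex (Subgroup.normalizer (R : Set Γ)) := by
        rw [← hidx, ← pow_mul, mul_comm]
      rw [h4]
      have h5 : (y ^ (Subgroup.normalizer (R : Set Γ)).index) ^
          (R.subgroupOf (Subgroup.normalizer (R : Set Γ))).index ∈ R := by
        simpa using h3
      exact h5

lemma fitting_normal (G : Type*) [Group G] : (Cfsg.fittingSubgroup G).Normal :=
  Subgroup.sSup_normal _ (fun _ h => h.1)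

lemma fitting_nilpotent (G : Type*) [Group G] [Finite G] :
    Group.IsNilpotent (Cfsg.fittingSubgroup G) := by
  have hfin : ({N : Subgroup G | N.Normal ∧ Group.IsNilpotent N}).Finite := Set.toFinite _
  have hne : ({N : Subgroup G | N.Normal ∧ Group.IsNilpotent N}).Nonempty :=
    ⟨⊥, inferInstance, inferInstance⟩
  obtain ⟨F₀, hF₀S, hmax⟩ := hfin.exists_maximal hne
  have hle : Cfsg.fittingSubgroup G ≤ F₀ := by
    apply sSup_le
    intro N hN
    have hjoin : F₀ ⊔ N ∈ {N : Subgroup G | N.Normal ∧ Group.IsNilpotent N} := by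
      haveI := hF₀S.1
      haveI := hN.1
      refine ⟨inferInstance, ?_⟩
      obtain ⟨c, hc⟩ := (Subgroup.isNilpotent_iff_lowerCentralSeries F₀).1 hF₀S.2
      obtain ⟨d, hd⟩ := (Subgroup.isNilpotent_iff_lowerCentralSeries N).1 hN.2
      exact (Subgroup.isNilpotent_iff_lowerCentralSeries (F₀ ⊔ N)).2
        ⟨c + d, Cfsg.Agent.S4204.result F₀ N c d hc hd⟩
    have h1 : F₀ ⊔ N ≤ F₀ := hmax hjoin le_sup_left
    exact le_trans le_sup_right h1
  have hge : F₀ ≤ Cfsg.fittingSubgroup G := le_sSup hF₀S
  have heq : Cfsg.fittingSubgroup G = F₀ := le_antisymm hle hge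
  rw [heq]
  exact hF₀S.2

lemma relIndex_mul_card' {G : Type*} [Group G] {H K : Subgroup G} (h : H ≤ K) :
    H.relIndex K * Nat.card H = Nat.card K := by
  have h1 := (H.subgroupOf K).card_mul_index
  rw [Nat.card_congr (Subgroup.subgroupOfEquivOfLe h).toEquiv] at h1
  rw [mul_comm]
  exact h1

/-- For `F` normal in a finite group, `[F : F ∩ H]` divides `[G : H]`. -/
lemma relIndex_dvd_index_of_normal_right {G : Type*} [Group G] [Finite G] (F H : Subgroup G)
    [F.Normal] : H.relIndex F ∣ H.index := by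
  have h1 : F.relIndex (H ⊔ F) = F.relIndex H := Subgroup.relIndex_sup_right H F
  have hF : F.relIndex (H ⊔ F) * Nat.card F = Nat.card (H ⊔ F : Subgroup G) :=
    relIndex_mul_card' le_sup_right
  have hH : H.relIndex (H ⊔ F) * Nat.card H = Nat.card (H ⊔ F : Subgroup G) :=
    relIndex_mul_card' le_sup_left
  have hFH : F.relIndex H * Nat.card (F ⊓ H : Subgroup G) = Nat.card H := by
    rw [← Subgroup.inf_relIndex_right]
    exact relIndex_mul_card' inf_le_right
  have hHF : H.relIndex F * Nat.card (F ⊓ H : Subgroup G) = Nat.card F := by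
    rw [← Subgroup.inf_relIndex_right, inf_comm]
    exact relIndex_mul_card' inf_le_left
  have hc : 0 < Nat.card (F ⊓ H : Subgroup G) := Nat.card_pos
  have hr : 0 < F.relIndex H := by
    rcases Nat.eq_zero_or_pos (F.relIndex H) with h | h
    · rw [h, zero_mul] at hFH
      have : 0 < Nat.card H := Nat.card_pos
      omega
    · exact h
  have key : H.relIndex F = H.relIndex (H ⊔ F) := by
    have e1 : F.relIndex H * (H.relIndex F * Nat.card (F ⊓ H : Subgroup G)) =
        H.relIndex (H ⊔ F) * (F.relIndex H * Nat.card (F ⊓ H : Subgroup G)) := by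
      rw [hHF, hFH, hH, ← h1, hF]
    have e2 : (F.relIndex H * Nat.card (F ⊓ H : Subgroup G)) * H.relIndex F =
        (F.relIndex H * Nat.card (F ⊓ H : Subgroup G)) * H.relIndex (H ⊔ F) := by
      calc (F.relIndex H * Nat.card (F ⊓ H : Subgroup G)) * H.relIndex F
          = F.relIndex H * (H.relIndex F * Nat.card (F ⊓ H : Subgroup G)) := by ring
        _ = H.relIndex (H ⊔ F) * (F.relIndex H * Nat.card (F ⊓ H : Subgroup G)) := e1
        _ = (F.relIndex H * Nat.card (F ⊓ H : Subgroup G)) * H.relIndex (H ⊔ F) := by ring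
    exact Nat.eq_of_mul_eq_mul_left (Nat.mul_pos hr hc) e2
  rw [key]
  exact Subgroup.relIndex_dvd_index_of_le le_sup_left

lemma forward {G : Type*} [Group G] [Finite G] (x : G) (hx : x ∈ Cfsg.fittingSubgroup G)
    (H : Subgroup G) : x ^ H.index ∈ H := by
  haveI := fitting_normal G
  haveI := fitting_nilpotent G
  have h1 := pow_index_mem_of_nilpotent (Γ := Cfsg.fittingSubgroup G) _
    (H.subgroupOf (Cfsg.fittingSubgroup G)) rfl ⟨x, hx⟩
  rw [Subgroup.mem_subgroupOf] at h1
  have h2 : x ^ H.relIndex (Cfsg.fittingSubgroup G) ∈ H := by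
    have h1' : x ^ (H.subgroupOf (Cfsg.fittingSubgroup G)).index ∈ H := by
      simpa using h1
    exact h1'
  obtain ⟨k, hk⟩ := relIndex_dvd_index_of_normal_right (Cfsg.fittingSubgroup G) H
  rw [hk, pow_mul]
  exact H.pow_mem h2 k

lemma sylow_inf_le_fitting {G : Type*} [Group G] [Finite G] (q : ℕ) [Fact q.Prime] :
    (⨅ P : Sylow q G, (P : Subgroup G)) ≤ Cfsg.fittingSubgroup G := by
  apply le_sSup
  refine ⟨⟨?_⟩, ?_⟩
  · intro n hn g
    rw [Subgroup.mem_iInf] at hn ⊢
    intro P
    have h1 := hn (g⁻¹ • P)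
    rw [Sylow.coe_subgroup_smul, Cfsg.Agent.Lib.Helper7.mem_conj_smul_iff] at h1
    simpa using h1
  · obtain ⟨P⟩ : Nonempty (Sylow q G) := inferInstance
    have hle : (⨅ P : Sylow q G, (P : Subgroup G)) ≤ P := iInf_le _ P
    have hpg : IsPGroup q (⨅ P : Sylow q G, (P : Subgroup G) : Subgroup G) := P.isPGroup'.to_le hle
    exact hpg.isNilpotent

lemma backward {G : Type*} [Group G] [Finite G] (x : G)
    (h : ∀ H : Subgroup G, x ^ H.index ∈ H) : x ∈ Cfsg.fittingSubgroup G := by
  haveI := fitting_normal G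
  by_contra hx
  have hne : orderOf (QuotientGroup.mk x : G ⧸ Cfsg.fittingSubgroup G) ≠ 1 := by
    intro h1
    rw [orderOf_eq_one_iff, QuotientGroup.eq_one_iff] at h1
    exact hx h1
  obtain ⟨q, hq, hqd⟩ := Nat.exists_prime_and_dvd hne
  haveI : Fact q.Prime := ⟨hq⟩
  obtain ⟨P⟩ : Nonempty (Sylow q G) := inferInstance
  have hidx : ∀ Q : Sylow q G, (Q : Subgroup G).index = (P : Subgroup G).index := by
    intro Q
    have h1 := (Q : Subgroup G).card_mul_index
    have h2 := (P : Subgroup G).card_mul_index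
    have h3 : Nat.card (Q : Subgroup G) = Nat.card (P : Subgroup G) := by
      rw [Q.card_eq_multiplicity, P.card_eq_multiplicity]
    rw [h3] at h1
    have hpos : 0 < Nat.card (P : Subgroup G) := Nat.card_pos
    exact Nat.eq_of_mul_eq_mul_left hpos (h1.trans h2.symm)
  have hmem : x ^ (P : Subgroup G).index ∈ (⨅ Q : Sylow q G, (Q : Subgroup G)) := by
    rw [Subgroup.mem_iInf]
    intro Q
    rw [← hidx Q]
    exact h Q
  have hmemF : x ^ (P : Subgroup G).index ∈ Cfsg.fittingSubgroup G := sylow_inf_le_fitting q hmem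
  have hpow : (QuotientGroup.mk x : G ⧸ Cfsg.fittingSubgroup G) ^ (P : Subgroup G).index = 1 := by
    rw [← QuotientGroup.mk_pow, QuotientGroup.eq_one_iff]
    exact hmemF
  have hdvd : orderOf (QuotientGroup.mk x : G ⧸ Cfsg.fittingSubgroup G) ∣ (P : Subgroup G).index :=
    orderOf_dvd_of_pow_eq_one hpow
  exact P.not_dvd_index (hqd.trans hdvd)

/-- Let G be a finite group. An element x lies in the Fitting subgroup F(G) if and only if, for every subgroup H of G, the power x^[G : H] lies in H. -/
theorem result {G : Type*} [Group G] [Finite G] (x : G) :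
    x ∈ Cfsg.fittingSubgroup G ↔ ∀ H : Subgroup G, x ^ H.index ∈ H := by
  exact ⟨fun hx H => forward x hx H, backward x⟩

end Cfsg.Agent.S4263
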