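import Mathlib
import Cfsg.Statements.S4496
import Cfsg.Agent.Lib.Helper7.Basic
import Cfsg.Agent.S4263

set_option autoImplicit false
open Cfsg

namespace Cfsg.Agent.S4496

open Cfsg.Agent.Lib.Helper7
open scoped commutatorElement

theorem sylow_eq_zpowers {G : Type*} [Group G] [Finite G] (p : ℕ) (hp : p.Prime) (x : G)
    (hx : orderOf x = p)
    (hC : Subgroup.centralizer ({x} : Set G) = Subgroup.zpowers x) :
    ∃ P : Sylow p G, (P : Subgroup G) = Subgroup.zpowers x := by
  haveI : Fact p.Prime := ⟨hp⟩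
  have hpg : IsPGroup p (Subgroup.zpowers x) :=
    IsPGroup.of_card (n := 1) (by rw [Nat.card_zpowers, hx, pow_one])
  obtain ⟨P, hP⟩ := hpg.exists_le_sylow
  refine ⟨P, le_antisymm ?_ hP⟩
  have hxP : x ∈ (P : Subgroup G) := hP (Subgroup.mem_zpowers x)
  haveI : Nontrivial (P : Subgroup G) := ⟨⟨⟨x, hxP⟩, 1, by
    intro h
    have h1 : x = 1 := congrArg Subtype.val h
    rw [h1, orderOf_one] at hx
    exact hp.one_lt.ne hx⟩⟩
  haveI := P.2.center_nontrivial
  obtain ⟨z, hz⟩ := exists_ne (1 : Subgroup.center (P : Subgroup G))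
  obtain ⟨z', hz'⟩ : ∃ z' : G, z' = ((z : (P : Subgroup G)) : G) := ⟨_, rfl⟩
  have hz1 : z' ≠ 1 := by
    intro h
    apply hz
    apply Subtype.ext; apply Subtype.ext
    rw [← hz']; exact h
  have hzcomm : ∀ y ∈ (P : Subgroup G), y * z' = z' * y := by
    intro y hy
    have := Subgroup.mem_center_iff.mp z.2 ⟨y, hy⟩
    have h2 := congrArg Subtype.val this
    rw [hz']; exact h2
  have hzx : z' ∈ Subgroup.zpowers x := by
    rw [← hC, Subgroup.mem_centralizer_iff]
    intro y hy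
    rw [Set.mem_singleton_iff] at hy
    subst hy
    exact hzcomm y hxP
  have hzeq : Subgroup.zpowers z' = Subgroup.zpowers x := by
    apply Subgroup.eq_of_le_of_card_ge
    · exact (Subgroup.zpowers_le).mpr hzx
    · rw [Nat.card_zpowers, Nat.card_zpowers, hx]
      have h1 : orderOf z' ∣ p := by
        rw [← hx]; exact orderOf_dvd_of_mem_zpowers hzx
      rcases (Nat.dvd_prime hp).mp h1 with h | h
      · exact absurd (orderOf_eq_one_iff.mp h) hz1
      · exact h.ge
  intro y hy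
  rw [← hC, Subgroup.mem_centralizer_iff]
  intro w hw
  rw [Set.mem_singleton_iff] at hw
  subst hw
  have hw : w ∈ Subgroup.zpowers z' := by rw [hzeq]; exact Subgroup.mem_zpowers w
  obtain ⟨j, rfl⟩ := Subgroup.mem_zpowers_iff.mp hw
  have hcomm : Commute y z' := hzcomm y hy
  exact ((hcomm.zpow_right j).eq).symm

theorem card_zpowers_eq {G : Type*} [Group G] (p : ℕ) (x : G) (hx : orderOf x = p) :
    Nat.card (Subgroup.zpowers x) = p := by
  rw [Nat.card_zpowers, hx]

theorem x_mem_of_dvd {G : Type*} [Group G] [Finite G] (p : ℕ) (hp : p.Prime) (x : G)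
    (hx : orderOf x = p)
    (hC : Subgroup.centralizer ({x} : Set G) = Subgroup.zpowers x) (S : Subgroup G) [S.Normal]
    (hdvd : p ∣ Nat.card S) : x ∈ S := by
  haveI : Fact p.Prime := ⟨hp⟩
  obtain ⟨P, hP⟩ := sylow_eq_zpowers p hp x hx hC
  obtain ⟨y, hy⟩ := exists_prime_orderOf_dvd_card' (G := S) p hdvd
  have hyG : orderOf (y : G) = p := by rw [Subgroup.orderOf_coe]; exact hy
  have hpg : IsPGroup p (Subgroup.zpowers (y : G)) :=
    IsPGroup.of_card (n := 1) (by rw [Nat.card_zpowers, hyG, pow_one])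
  obtain ⟨Q, hQ⟩ := hpg.exists_le_sylow
  obtain ⟨g, hg⟩ := MulAction.exists_smul_eq G P Q
  have hyQ : (y : G) ∈ (Q : Subgroup G) := hQ (Subgroup.mem_zpowers _)
  rw [← hg, Sylow.coe_subgroup_smul, mem_conj_smul_iff, hP] at hyQ
  have hyS : g⁻¹ * (y : G) * g ∈ S := by
    have := ‹S.Normal›.conj_mem (y : G) y.2 g⁻¹
    simpa using this
  have hord : orderOf (g⁻¹ * (y : G) * g) = p := by
    have h := orderOf_injective (MulAut.conj g⁻¹).toMonoidHom (MulEquiv.injective _) (y : G)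
    have e : (MulAut.conj g⁻¹).toMonoidHom (y : G) = g⁻¹ * (y : G) * g := by
      simp [MulAut.conj_apply]
    rw [e, hyG] at h; exact h
  have heq : Subgroup.zpowers (g⁻¹ * (y : G) * g) = Subgroup.zpowers x := by
    apply Subgroup.eq_of_le_of_card_ge
    · exact (Subgroup.zpowers_le).mpr hyQ
    · rw [Nat.card_zpowers, Nat.card_zpowers, hx, hord]
  have : x ∈ Subgroup.zpowers (g⁻¹ * (y : G) * g) := by rw [heq]; exact Subgroup.mem_zpowers x
  exact (Subgroup.zpowers_le).mpr hyS this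

theorem exists_zpow_of_normalizer {G : Type*} [Group G] (x n : G)
    (hn : n ∈ Subgroup.normalizer ((Subgroup.zpowers x : Subgroup G) : Set G)) :
    ∃ k : ℤ, n * x * n⁻¹ = x ^ k := by
  have := (Subgroup.mem_normalizer_iff.mp hn x).mp (Subgroup.mem_zpowers x)
  obtain ⟨k, hk⟩ := Subgroup.mem_zpowers_iff.mp this
  exact ⟨k, hk.symm⟩

theorem comm_mem_of_normalizer {G : Type*} [Group G] (x : G)
    (hC : Subgroup.centralizer ({x} : Set G) = Subgroup.zpowers x) (S : Subgroup G) [S.Normal]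
    (hxS : x ∈ S) (n₁ n₂ : G)
    (h₁ : n₁ ∈ Subgroup.normalizer ((Subgroup.zpowers x : Subgroup G) : Set G))
    (h₂ : n₂ ∈ Subgroup.normalizer ((Subgroup.zpowers x : Subgroup G) : Set G)) :
    ⁅n₁, n₂⁆ ∈ S := by
  obtain ⟨k₁, hk₁⟩ := exists_zpow_of_normalizer x n₁ h₁
  obtain ⟨k₂, hk₂⟩ := exists_zpow_of_normalizer x n₂ h₂
  have e1 : (n₁ * n₂) * x * (n₁ * n₂)⁻¹ = x ^ (k₁ * k₂) := by
    have : (n₁ * n₂) * x * (n₁ * n₂)⁻¹ = n₁ * (n₂ * x * n₂⁻¹) * n₁⁻¹ := by group
    rw [this, hk₂, ← MulAut.conj_apply, map_zpow, MulAut.conj_apply, hk₁, ← zpow_mul]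
  have e2 : (n₂ * n₁) * x * (n₂ * n₁)⁻¹ = x ^ (k₁ * k₂) := by
    have : (n₂ * n₁) * x * (n₂ * n₁)⁻¹ = n₂ * (n₁ * x * n₁⁻¹) * n₂⁻¹ := by group
    rw [this, hk₁, ← MulAut.conj_apply, map_zpow, MulAut.conj_apply, hk₂, ← zpow_mul, mul_comm]
  have hc : (n₂ * n₁)⁻¹ * (n₁ * n₂) ∈ Subgroup.centralizer ({x} : Set G) := by
    rw [Subgroup.mem_centralizer_iff]
    intro y hy
    rw [Set.mem_singleton_iff] at hy
    subst hy
    have h3 : (n₁ * n₂) * y * (n₁ * n₂)⁻¹ = (n₂ * n₁) * y * (n₂ * n₁)⁻¹ := by rw [e1, e2]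
    calc y * ((n₂ * n₁)⁻¹ * (n₁ * n₂))
        = (n₂ * n₁)⁻¹ * ((n₂ * n₁) * y * (n₂ * n₁)⁻¹) * (n₁ * n₂) := by group
      _ = (n₂ * n₁)⁻¹ * ((n₁ * n₂) * y * (n₁ * n₂)⁻¹) * (n₁ * n₂) := by rw [h3]
      _ = (n₂ * n₁)⁻¹ * (n₁ * n₂) * y := by group
  rw [hC] at hc
  have hcS : (n₂ * n₁)⁻¹ * (n₁ * n₂) ∈ S := (Subgroup.zpowers_le).mpr hxS hc
  have := ‹S.Normal›.conj_mem _ hcS (n₂ * n₁)
  have e : ⁅n₁, n₂⁆ = (n₂ * n₁) * ((n₂ * n₁)⁻¹ * (n₁ * n₂)) * (n₂ * n₁)⁻¹ := by
    rw [commutatorElement_def]; group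
  rw [e]; exact this

theorem part_a {G : Type*} [Group G] [Finite G] (p : ℕ) (hp : p.Prime) (x : G)
    (hx : orderOf x = p)
    (hC : Subgroup.centralizer ({x} : Set G) = Subgroup.zpowers x) (S : Subgroup G) [S.Normal]
    (hdvd : p ∣ Nat.card S) : commutator G ≤ S := by
  haveI : Fact p.Prime := ⟨hp⟩
  obtain ⟨P, hP⟩ := sylow_eq_zpowers p hp x hx hC
  have hxS := x_mem_of_dvd p hp x hx hC S hdvd
  have hPS : (P : Subgroup G) ≤ S := by rw [hP]; exact (Subgroup.zpowers_le).mpr hxS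
  have hfr : Subgroup.normalizer ((Subgroup.zpowers x : Subgroup G) : Set G) ⊔ S = ⊤ := by
    rw [← hP]; exact Sylow.normalizer_sup_eq_top' P hPS
  have hdecomp : ∀ a : G, ∃ n ∈ Subgroup.normalizer ((Subgroup.zpowers x : Subgroup G) : Set G),
      ∃ s ∈ S, n * s = a := by
    intro a
    have ha : a ∈ ((Subgroup.normalizer ((Subgroup.zpowers x : Subgroup G) : Set G) ⊔ S : Subgroup G) : Set G) := by
      rw [hfr]; trivial
    rw [Subgroup.mul_normal] at ha
    exact Set.mem_mul.mp ha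
  rw [commutator_def, Subgroup.commutator_le]
  intro a _ b _
  obtain ⟨n₁, hn₁, s₁, hs₁, rfl⟩ := hdecomp a
  obtain ⟨n₂, hn₂, s₂, hs₂, rfl⟩ := hdecomp b
  have hc := comm_mem_of_normalizer x hC S hxS n₁ n₂ hn₁ hn₂
  rw [← QuotientGroup.eq_one_iff] at hc ⊢
  have e1 : ((s₁ : G) : G ⧸ S) = 1 := (QuotientGroup.eq_one_iff _).mpr hs₁
  have e2 : ((s₂ : G) : G ⧸ S) = 1 := (QuotientGroup.eq_one_iff _).mpr hs₂
  rw [commutatorElement_def] at hc ⊢
  simp only [QuotientGroup.mk_mul, QuotientGroup.mk_inv, e1, e2, mul_one] at hc ⊢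
  exact hc

theorem inf_bot {G : Type*} [Group G] [Finite G] (p : ℕ) (hp : p.Prime) (x : G)
    (hx : orderOf x = p) (S : Subgroup G) (hnd : ¬ p ∣ Nat.card S) :
    S ⊓ Subgroup.zpowers x = ⊥ := by
  apply Disjoint.eq_bot
  apply Subgroup.disjoint_of_coprime_natCard
  rw [card_zpowers_eq p x hx]
  exact ((Nat.Prime.coprime_iff_not_dvd hp).mpr hnd).symm

theorem cent_inf {G : Type*} [Group G] [Finite G] (p : ℕ) (hp : p.Prime) (x : G)
    (hx : orderOf x = p)
    (hC : Subgroup.centralizer ({x} : Set G) = Subgroup.zpowers x) (S : Subgroup G)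
    (hnd : ¬ p ∣ Nat.card S) : ∀ s ∈ S, s * x = x * s → s = 1 := by
  intro s hs hcomm
  have h1 : s ∈ Subgroup.centralizer ({x} : Set G) := by
    rw [Subgroup.mem_centralizer_iff]
    intro y hy
    rw [Set.mem_singleton_iff] at hy
    subst hy
    exact hcomm.symm
  rw [hC] at h1
  have h2 : s ∈ S ⊓ Subgroup.zpowers x := ⟨hs, h1⟩
  rw [inf_bot p hp x hx S hnd] at h2
  exact Subgroup.mem_bot.mp h2

theorem order_quot {G : Type*} [Group G] [Finite G] (p : ℕ) (hp : p.Prime) (x : G)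
    (hx : orderOf x = p)
    (hC : Subgroup.centralizer ({x} : Set G) = Subgroup.zpowers x) (S : Subgroup G) [S.Normal]
    (hnd : ¬ p ∣ Nat.card S) : orderOf (QuotientGroup.mk x : G ⧸ S) = p := by
  haveI : Fact p.Prime := ⟨hp⟩
  apply orderOf_eq_prime
  · rw [← QuotientGroup.mk_pow, ← hx, pow_orderOf_eq_one]; rfl
  · intro h
    have hxS : x ∈ S := (QuotientGroup.eq_one_iff x).mp h
    have h1 := cent_inf p hp x hx hC S hnd x hxS rfl
    rw [h1, orderOf_one] at hx
    exact hp.one_lt.ne hx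

theorem comm_x_mem {G : Type*} [Group G] (x : G) (S : Subgroup G) [hS : S.Normal] (s : G)
    (hs : s ∈ S) : s * x * s⁻¹ * x⁻¹ ∈ S := by
  have h1 : x * s⁻¹ * x⁻¹ ∈ S := hS.conj_mem _ (S.inv_mem hs) x
  have h2 : s * x * s⁻¹ * x⁻¹ = s * (x * s⁻¹ * x⁻¹) := by group
  rw [h2]; exact S.mul_mem hs h1

theorem cent_quot {G : Type*} [Group G] [Finite G] (p : ℕ) (hp : p.Prime) (x : G)
    (hx : orderOf x = p)
    (hC : Subgroup.centralizer ({x} : Set G) = Subgroup.zpowers x) (S : Subgroup G) [S.Normal]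
    (hnd : ¬ p ∣ Nat.card S) :
    Subgroup.centralizer ({(QuotientGroup.mk x : G ⧸ S)} : Set (G ⧸ S)) =
      Subgroup.zpowers (QuotientGroup.mk x : G ⧸ S) := by
  apply le_antisymm
  · intro q hq
    obtain ⟨g, rfl⟩ := QuotientGroup.mk_surjective q
    rw [Subgroup.mem_centralizer_iff] at hq
    have hq' := hq _ (Set.mem_singleton _)
    have hgS : g * x * g⁻¹ * x⁻¹ ∈ S := by
      rw [← QuotientGroup.eq_one_iff]
      simp only [QuotientGroup.mk_mul, QuotientGroup.mk_inv]
      rw [← hq']; group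
    let φ : S → S := fun s => ⟨(s : G) * x * (s : G)⁻¹ * x⁻¹, comm_x_mem x S s s.2⟩
    have hinj : Function.Injective φ := by
      intro s t hst
      have h1 : (s : G) * x * (s : G)⁻¹ * x⁻¹ = (t : G) * x * (t : G)⁻¹ * x⁻¹ :=
        congrArg Subtype.val hst
      have h3 : (s : G) * x * (s : G)⁻¹ = (t : G) * x * (t : G)⁻¹ := mul_right_cancel h1
      have h2 : ((t : G)⁻¹ * (s : G)) * x = x * ((t : G)⁻¹ * (s : G)) := by
        calc (t : G)⁻¹ * s * x = (t : G)⁻¹ * (s * x * (s : G)⁻¹) * s := by group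
          _ = (t : G)⁻¹ * (t * x * (t : G)⁻¹) * s := by rw [h3]
          _ = x * ((t : G)⁻¹ * s) := by group
      have h4 := cent_inf p hp x hx hC S hnd ((t : G)⁻¹ * s) (S.mul_mem (S.inv_mem t.2) s.2) h2
      apply Subtype.ext
      exact (inv_mul_eq_one.mp h4).symm
    have hsurj : Function.Surjective φ := Finite.injective_iff_surjective.mp hinj
    obtain ⟨s, hs⟩ := hsurj ⟨_, hgS⟩
    have h1 : (s : G) * x * (s : G)⁻¹ * x⁻¹ = g * x * g⁻¹ * x⁻¹ := congrArg Subtype.val hs
    have h3 : (s : G) * x * (s : G)⁻¹ = g * x * g⁻¹ := mul_right_cancel h1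
    have h5 : (s : G)⁻¹ * g ∈ Subgroup.centralizer ({x} : Set G) := by
      rw [Subgroup.mem_centralizer_iff]
      intro y hy
      rw [Set.mem_singleton_iff] at hy
      subst hy
      calc y * ((s : G)⁻¹ * g) = (s : G)⁻¹ * (s * y * (s : G)⁻¹) * g := by group
        _ = (s : G)⁻¹ * (g * y * g⁻¹) * g := by rw [h3]
        _ = (s : G)⁻¹ * g * y := by group
    rw [hC] at h5
    obtain ⟨k, hk⟩ := Subgroup.mem_zpowers_iff.mp h5
    rw [Subgroup.mem_zpowers_iff]
    refine ⟨k, ?_⟩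
    rw [← QuotientGroup.mk_zpow, hk, QuotientGroup.mk_mul, QuotientGroup.mk_inv,
      (QuotientGroup.eq_one_iff _).mpr s.2]
    simp
  · rw [Subgroup.zpowers_le, Subgroup.mem_centralizer_iff]
    intro h hh
    rw [Set.mem_singleton_iff] at hh
    rw [hh]

theorem card_mod {G : Type*} [Group G] [Finite G] (p : ℕ) (hp : p.Prime) (x : G)
    (hx : orderOf x = p)
    (hC : Subgroup.centralizer ({x} : Set G) = Subgroup.zpowers x) (S : Subgroup G) [S.Normal]
    (hnd : ¬ p ∣ Nat.card S) : Nat.card S % p = 1 := by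
  haveI : Fact p.Prime := ⟨hp⟩
  letI act : MulAction (Subgroup.zpowers x) S :=
    MulAction.compHom S ((MulAut.conjNormal (H := S)).comp (Subgroup.zpowers x).subtype)
  have hZ : IsPGroup p (Subgroup.zpowers x) :=
    IsPGroup.of_card (n := 1) (by rw [card_zpowers_eq p x hx, pow_one])
  have h := hZ.card_modEq_card_fixedPoints S
  have hfix : Nat.card (MulAction.fixedPoints (Subgroup.zpowers x) S) = 1 := by
    rw [Nat.card_eq_one_iff_unique]
    refine ⟨⟨?_⟩, ⟨⟨1, ?_⟩⟩⟩
    · intro a b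
      have key : ∀ c : MulAction.fixedPoints (Subgroup.zpowers x) S, (c : S) = 1 := by
        intro c
        have hc := c.2 ⟨x, Subgroup.mem_zpowers x⟩
        have hc' : x * ((c : S) : G) * x⁻¹ = ((c : S) : G) := by
          have := congrArg Subtype.val hc
          exact this
        have h2 : ((c : S) : G) * x = x * ((c : S) : G) := by
          calc ((c : S) : G) * x = (x * ((c : S) : G) * x⁻¹) * x := by rw [hc']
            _ = x * ((c : S) : G) := by group
        have h3 := cent_inf p hp x hx hC S hnd _ (c : S).2 h2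
        exact Subtype.ext h3
      apply Subtype.ext
      rw [key a, key b]
    · intro z
      apply Subtype.ext
      show (z : G) * 1 * (z : G)⁻¹ = 1
      group
  rw [hfix] at h
  have h' : Nat.card S % p = 1 % p := h
  rw [h', Nat.mod_eq_of_lt hp.one_lt]

theorem card_dvd {G : Type*} [Group G] [Finite G] (p : ℕ) (hp : p.Prime) (x : G)
    (hx : orderOf x = p)
    (hC : Subgroup.centralizer ({x} : Set G) = Subgroup.zpowers x) (S : Subgroup G) [S.Normal]
    (hnd : ¬ p ∣ Nat.card S) : Nat.card S ∣ Nat.card {H : Subgroup G // Nat.card H = p} := by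
  haveI : Fact p.Prime := ⟨hp⟩
  obtain ⟨P, hP⟩ := sylow_eq_zpowers p hp x hx hC
  have hfac : (Nat.card G).factorization p = 1 := by
    have h1 := Sylow.card_eq_multiplicity P
    have h2 : Nat.card (P : Subgroup G) = p := by rw [hP]; exact card_zpowers_eq p x hx
    rw [h2] at h1
    have h3 : p ^ 1 = p ^ (Nat.card G).factorization p := by rw [pow_one]; exact h1
    exact (Nat.pow_right_injective hp.two_le h3).symm
  have e : {H : Subgroup G // Nat.card H = p} ≃ Sylow p G :=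
    { toFun := fun H => Sylow.ofCard H.1 (by rw [H.2, hfac, pow_one])
      invFun := fun Q => ⟨(Q : Subgroup G), by rw [Sylow.card_eq_multiplicity, hfac, pow_one]⟩
      left_inv := fun H => by apply Subtype.ext; rfl
      right_inv := fun Q => by apply Sylow.ext; rfl }
  rw [Nat.card_congr e, Sylow.card_eq_index_normalizer P]
  have hinf : Subgroup.normalizer ((P : Subgroup G) : Set G) ⊓ S = ⊥ := by
    rw [eq_bot_iff]
    rintro s ⟨hsN, hsS⟩
    rw [hP] at hsN
    obtain ⟨k, hk⟩ := exists_zpow_of_normalizer x s hsN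
    have h1 : s * x * s⁻¹ * x⁻¹ ∈ S ⊓ Subgroup.zpowers x := by
      refine ⟨comm_x_mem x S s hsS, ?_⟩
      rw [hk]
      exact Subgroup.mul_mem _ (Subgroup.zpow_mem_zpowers x k)
        (Subgroup.inv_mem _ (Subgroup.mem_zpowers x))
    rw [inf_bot p hp x hx S hnd, Subgroup.mem_bot] at h1
    have h2 : s * x = x * s := by
      calc s * x = (s * x * s⁻¹ * x⁻¹) * x * s := by group
        _ = x * s := by rw [h1]; group
    rw [Subgroup.mem_bot]
    exact cent_inf p hp x hx hC S hnd s hsS h2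
  have hN : (Subgroup.normalizer ((P : Subgroup G) : Set G)).relIndex S = Nat.card S := by
    rw [← Subgroup.inf_relIndex_right, hinf, Subgroup.relIndex_bot_left]
  rw [← hN]
  exact Cfsg.Agent.S4263.relIndex_dvd_index_of_normal_right S _

/-- Let the finite group G contain an element x of prime order p with C_G(x) = ⟨x⟩. Then: (a) every normal subgroup of order divisible by p contains the commutator subgroup; (b) every normal subgroup S of order prime to p has order dividing the number of subgroups of order p of G and congruent to 1 modulo p, and in G/S the image of x again has prime order p and commutes only with its own powers. -/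
theorem result {G : Type*} [Group G] [Finite G] (p : ℕ) (hp : p.Prime) (x : G) (hx : orderOf x = p) (hC : Subgroup.centralizer ({x} : Set G) = Subgroup.zpowers x) (S : Subgroup G) [S.Normal] : (p ∣ Nat.card S → commutator G ≤ S) ∧ (¬ p ∣ Nat.card S → Nat.card S ∣ Nat.card {H : Subgroup G // Nat.card H = p} ∧ Nat.card S % p = 1 ∧ orderOf (QuotientGroup.mk x : G ⧸ S) = p ∧ Subgroup.centralizer ({(QuotientGroup.mk x : G ⧸ S)} : Set (G ⧸ S)) = Subgroup.zpowers (QuotientGroup.mk x : G ⧸ S)) := by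
  refine ⟨part_a p hp x hx hC S, fun hnd => ⟨card_dvd p hp x hx hC S hnd, card_mod p hp x hx hC S hnd,
    order_quot p hp x hx hC S hnd, cent_quot p hp x hx hC S hnd⟩⟩

end Cfsg.Agent.S4496
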