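import Cfsg.Statements.S0840
import Mathlib
import Cfsg.Agent.Lib.Lead.Char5

set_option autoImplicit false
open scoped ComplexConjugate
open Cfsg

namespace Cfsg.Agent.S0840

open Cfsg.Agent.Lib.Lead Module

theorem conv_char {G : Type*} [Group G] [Fintype G] (fa fb : G → ℂ)
    (ha : Cfsg.IsClassFunction G fa) (hb : Cfsg.IsClassFunction G fb)
    (χ : Cfsg.IrrCharacter G) :
    (∑ x : G, (∑ u : G, fa u * fb (u⁻¹ * x)) * χ.1 x) * χ.1 1 =
      (∑ g : G, fa g * χ.1 g) * (∑ g : G, fb g * χ.1 g) := by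
  obtain ⟨n, ρ, hρ, hρχ⟩ := χ.2
  have := hρ
  obtain ⟨ca, hca, hca'⟩ := Top_irr fa ha ρ
  obtain ⟨cb, hcb, hcb'⟩ := Top_irr fb hb ρ
  have hconv : Lib.Lead.Top (fun x => ∑ u : G, fa u * fb (u⁻¹ * x)) ρ =
      Lib.Lead.Top fa ρ * Lib.Lead.Top fb ρ := by
    unfold Lib.Lead.Top
    rw [Finset.sum_mul]
    simp only [Finset.mul_sum, Finset.sum_smul]
    rw [Finset.sum_comm]
    apply Finset.sum_congr rfl
    intro u _
    apply Fintype.sum_equiv (Equiv.mulLeft u⁻¹)
    intro x
    simp only [Equiv.coe_mulLeft]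
    rw [smul_mul_smul_comm, ← map_mul]
    congr 2
    group
  have htr := congrArg (LinearMap.trace ℂ (Fin n → ℂ)) hconv
  rw [Top_trace, hca, hcb, smul_mul_smul_comm, mul_one, map_smul, LinearMap.trace_one,
    smul_eq_mul] at htr
  rw [hρχ] at htr hca' hcb'
  have h1 : χ.1 1 = (finrank ℂ (Fin n → ℂ) : ℂ) := by rw [← hρχ, Representation.char_one]
  rw [htr, h1, ← hca', ← hcb']
  ring

theorem ind_cf {G : Type*} [Group G] (a : G) [DecidablePred (IsConj a)] :
    Cfsg.IsClassFunction G (fun g => if IsConj a g then (1 : ℂ) else 0) := by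
  intro g h
  have : IsConj a (h * g * h⁻¹) ↔ IsConj a g := by
    have hc : IsConj g (h * g * h⁻¹) := isConj_iff.mpr ⟨h, rfl⟩
    exact ⟨fun h' => h'.trans hc.symm, fun h' => h'.trans hc⟩
  simp only [this]

theorem ind_sum {G : Type*} [Group G] [Fintype G] (a : G) [DecidablePred (IsConj a)]
    (χ : Cfsg.IrrCharacter G) :
    ∑ g : G, (if IsConj a g then (1 : ℂ) else 0) * χ.1 g =
      (Nat.card {x : G // IsConj a x} : ℂ) * χ.1 a := by
  have : ∀ g : G, (if IsConj a g then (1 : ℂ) else 0) * χ.1 g =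
      if IsConj a g then χ.1 a else 0 := by
    intro g
    split_ifs with h
    · rw [one_mul]; exact (isClassFunction_conj_eq (isClassFunction_of_irr χ) h).symm
    · rw [zero_mul]
  rw [Finset.sum_congr rfl (fun g _ => this g), ← Finset.sum_filter, Finset.sum_const,
    nsmul_eq_mul]
  congr 1
  rw [Nat.card_eq_fintype_card, Fintype.card_subtype]

theorem conv_cf {G : Type*} [Group G] [Fintype G] (fa fb : G → ℂ)
    (ha : Cfsg.IsClassFunction G fa) (hb : Cfsg.IsClassFunction G fb) :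
    Cfsg.IsClassFunction G (fun x => ∑ u : G, fa u * fb (u⁻¹ * x)) := by
  intro g h
  show ∑ u : G, fa u * fb (u⁻¹ * (h * g * h⁻¹)) = ∑ u : G, fa u * fb (u⁻¹ * g)
  apply Fintype.sum_equiv (MulAut.conj h⁻¹).toEquiv
  intro u
  have e1 : fa ((MulAut.conj h⁻¹).toEquiv u) = fa u := by
    have := ha u h⁻¹
    simpa using this
  have e2 : fb (((MulAut.conj h⁻¹).toEquiv u)⁻¹ * g) = fb (u⁻¹ * (h * g * h⁻¹)) := by
    have := hb (u⁻¹ * (h * g * h⁻¹)) h⁻¹
    rw [← this]
    congr 1
    simp [mul_assoc]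
  rw [e1, e2]

/-- Class multiplication coefficients from the character table: for elements a, b, c of a finite group G, the number of ordered pairs (x, y) with x conjugate to a, y conjugate to b and x * y = c equals the product of the sizes of the conjugacy classes of a and b, divided by the order of G, times the sum over the irreducible characters χ of χ a * χ b * conj (χ c) / χ 1. -/
theorem result {G : Type*} [Group G] [Finite G] (a b c : G) : (Nat.card {p : G × G // IsConj a p.1 ∧ IsConj b p.2 ∧ p.1 * p.2 = c} : ℂ) = (Nat.card {x : G // IsConj a x} : ℂ) * (Nat.card {x : G // IsConj b x} : ℂ) / (Nat.card G : ℂ) * ∑ᶠ χ : Cfsg.IrrCharacter G, (χ : G → ℂ) a * (χ : G → ℂ) b * conj ((χ : G → ℂ) c) / (χ : G → ℂ) 1 := by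
  classical
  have : Fintype G := Fintype.ofFinite G
  have : Fintype (Cfsg.IrrCharacter G) := Fintype.ofFinite _
  rw [finsum_eq_sum_of_fintype]
  obtain ⟨fa, hfa⟩ : ∃ fa : G → ℂ, fa = fun g => if IsConj a g then (1 : ℂ) else 0 := ⟨_, rfl⟩
  obtain ⟨fb, hfb⟩ : ∃ fb : G → ℂ, fb = fun g => if IsConj b g then (1 : ℂ) else 0 := ⟨_, rfl⟩
  have hfa_cf : Cfsg.IsClassFunction G fa := by rw [hfa]; exact ind_cf a
  have hfb_cf : Cfsg.IsClassFunction G fb := by rw [hfb]; exact ind_cf b
  obtain ⟨F, hF⟩ : ∃ F : G → ℂ, F = fun x => ∑ u : G, fa u * fb (u⁻¹ * x) := ⟨_, rfl⟩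
  have hF_cf : Cfsg.IsClassFunction G F := by
    rw [hF]
    exact conv_cf fa fb hfa_cf hfb_cf
  have hconv : ∀ χ : Cfsg.IrrCharacter G, (∑ x : G, F x * χ.1 x) * χ.1 1 =
      ((Nat.card {x : G // IsConj a x} : ℂ) * χ.1 a) *
        ((Nat.card {x : G // IsConj b x} : ℂ) * χ.1 b) := by
    intro χ
    have h1 := ind_sum a χ
    have h2 := ind_sum b χ
    rw [← h1, ← h2, hF]
    have h3 := conv_char fa fb hfa_cf hfb_cf χ
    rw [hfa, hfb] at h3
    rw [hfa, hfb]
    exact h3
  have hcol : ∑ χ : Cfsg.IrrCharacter G, (∑ x : G, F x * χ.1 x) * conj (χ.1 c) =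
      F c * (Nat.card G : ℂ) := by
    have e1 : ∀ χ : Cfsg.IrrCharacter G, (∑ x : G, F x * χ.1 x) * conj (χ.1 c) =
        ∑ x : G, F x * (χ.1 x * conj (χ.1 c)) := by
      intro χ
      rw [Finset.sum_mul]
      apply Finset.sum_congr rfl
      intro x _
      ring
    rw [Finset.sum_congr rfl (fun χ _ => e1 χ), Finset.sum_comm]
    have e2 : ∀ x : G, ∑ χ : Cfsg.IrrCharacter G, F x * (χ.1 x * conj (χ.1 c)) =
        if IsConj c x then F c * (Nat.card (Subgroup.centralizer ({c} : Set G)) : ℂ) else 0 := by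
      intro x
      rw [← Finset.mul_sum]
      by_cases h : IsConj c x
      · rw [if_pos h, ← isClassFunction_conj_eq hF_cf h]
        congr 1
        have e3 : ∀ χ : Cfsg.IrrCharacter G, χ.1 x * conj (χ.1 c) = χ.1 c * conj (χ.1 c) := by
          intro χ
          rw [isClassFunction_conj_eq (isClassFunction_of_irr χ) h]
        rw [Finset.sum_congr rfl (fun χ _ => e3 χ), col_orth' c c, if_pos (IsConj.refl c)]
      · rw [if_neg h, col_orth' x c, if_neg (fun h' => h h'.symm), mul_zero]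
    rw [Finset.sum_congr rfl (fun x _ => e2 x), ← Finset.sum_filter, Finset.sum_const,
      nsmul_eq_mul]
    have h3 := card_conj_mul_card_centralizer c
    have h4 : ((Finset.univ.filter (fun x => IsConj c x)).card : ℂ) =
        (Nat.card {x : G // IsConj c x} : ℂ) := by
      rw [Nat.card_eq_fintype_card, Fintype.card_subtype]
    rw [h4, ← h3]
    push_cast
    ring
  have hcount : (Nat.card {p : G × G // IsConj a p.1 ∧ IsConj b p.2 ∧ p.1 * p.2 = c} : ℂ) =
      F c := by
    have e : {p : G × G // IsConj a p.1 ∧ IsConj b p.2 ∧ p.1 * p.2 = c} ≃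
        {u : G // IsConj a u ∧ IsConj b (u⁻¹ * c)} :=
      { toFun := fun p => ⟨p.1.1, p.2.1, by
          have h := eq_inv_mul_of_mul_eq p.2.2.2
          rw [← h]
          exact p.2.2.1⟩
        invFun := fun u => ⟨(u.1, u.1⁻¹ * c), u.2.1, u.2.2, by simp⟩
        left_inv := by
          rintro ⟨⟨p1, p2⟩, h1, h2, h3⟩
          apply Subtype.ext
          apply Prod.ext
          · rfl
          · show p1⁻¹ * c = p2
            rw [← h3]
            simp
        right_inv := by
          rintro ⟨u, h1, h2⟩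
          rfl }
    rw [Nat.card_congr e, hF, Nat.card_eq_fintype_card, Fintype.card_subtype]
    have e4 : ∀ u : G, fa u * fb (u⁻¹ * c) =
          if (IsConj a u ∧ IsConj b (u⁻¹ * c)) then 1 else 0 := by
      intro u
      rw [hfa, hfb]
      beta_reduce
      by_cases h1 : IsConj a u
      · by_cases h2 : IsConj b (u⁻¹ * c)
        · rw [if_pos h1, if_pos h2, if_pos ⟨h1, h2⟩, mul_one]
        · rw [if_neg h2, if_neg (fun h : IsConj a u ∧ IsConj b (u⁻¹ * c) => h2 h.2), mul_zero]
      · rw [if_neg h1, if_neg (fun h : IsConj a u ∧ IsConj b (u⁻¹ * c) => h1 h.1), zero_mul]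
    show _ = ∑ u : G, fa u * fb (u⁻¹ * c)
    rw [Finset.sum_congr rfl (fun u _ => e4 u), Finset.sum_boole]
  rw [hcount]
  have hG : (Nat.card G : ℂ) ≠ 0 := by
    have : 0 < Nat.card G := Nat.card_pos
    exact_mod_cast this.ne'
  have hterm : ∀ χ : Cfsg.IrrCharacter G, (Nat.card {x : G // IsConj a x} : ℂ) *
      (Nat.card {x : G // IsConj b x} : ℂ) * (χ.1 a * χ.1 b * conj (χ.1 c) / χ.1 1) =
        (∑ x : G, F x * χ.1 x) * conj (χ.1 c) := by
    intro χ
    have h1 := hconv χ
    have h2 := irr_deg_ne_zero χ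
    field_simp
    linear_combination (-(conj (χ.1 c))) * h1
  rw [div_mul_eq_mul_div, Finset.mul_sum, Finset.sum_congr rfl (fun χ _ => hterm χ), hcol]
  field_simp

end Cfsg.Agent.S0840
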