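import Mathlib
import Cfsg.Statements.S0873

set_option autoImplicit false
open Cfsg

namespace Cfsg.Agent.S0873

theorem trace_mul_fin_one (f g : (Fin 1 → ℂ) →ₗ[ℂ] (Fin 1 → ℂ)) :
    LinearMap.trace ℂ _ (f * g) = LinearMap.trace ℂ _ f * LinearMap.trace ℂ _ g := by
  rw [LinearMap.trace_eq_matrix_trace ℂ (Pi.basisFun ℂ (Fin 1)),
    LinearMap.trace_eq_matrix_trace ℂ (Pi.basisFun ℂ (Fin 1)) f,
    LinearMap.trace_eq_matrix_trace ℂ (Pi.basisFun ℂ (Fin 1)) g, LinearMap.toMatrix_mul]
  simp [Matrix.trace_fin_one, Matrix.mul_apply]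

theorem result {G : Type*} [Group G] [Finite G] (p : ℕ) [Fact p.Prime] (C P : Subgroup G) [hC : C.Normal] (hP : IsPGroup p P) (hcop : Nat.Coprime (Nat.card C) p) (hCP : C ⊔ P = ⊤) (lam : C → ℂ) (hlam : Cfsg.IsCharacter C lam ∧ lam 1 = 1) (hinv : ∀ (g : G) (c : C), lam ⟨g * c * g⁻¹, hC.conj_mem (c : G) c.2 g⟩ = lam c) (hker : ∀ c : C, (c : G) ∈ Subgroup.centralizer (P : Set G) → lam c = 1) : lam = fun _ => 1 := by
  obtain ⟨⟨n, ρ, hρ⟩, h1⟩ := hlam
  have hn : n = 1 := by
    have h : lam 1 = (n : ℂ) := by rw [← hρ, Representation.char_one]; simp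
    rw [h1] at h; exact_mod_cast h.symm
  subst hn
  have hmul : ∀ c d : C, lam (c * d) = lam c * lam d := by
    intro c d
    rw [← hρ]
    show LinearMap.trace ℂ _ (ρ (c * d)) = LinearMap.trace ℂ _ (ρ c) * LinearMap.trace ℂ _ (ρ d)
    rw [map_mul]; exact trace_mul_fin_one _ _
  have hinvl : ∀ c : C, lam c * lam c⁻¹ = 1 := by intro c; rw [← hmul, mul_inv_cancel, h1]
  let K : Subgroup C :=
    { carrier := {d | lam d = 1}
      mul_mem' := by
        intro a b ha hb
        show lam (a * b) = 1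
        rw [hmul, ha, hb, one_mul]
      one_mem' := h1
      inv_mem' := by
        intro a ha
        show lam a⁻¹ = 1
        have := hinvl a
        rw [ha, one_mul] at this
        exact this }
  funext c
  letI act : MulAction P {d : C // lam d = lam c} :=
    { smul := fun t d => ⟨⟨(t : G) * d.1 * (t : G)⁻¹, hC.conj_mem d.1.1 d.1.2 t⟩,
        (hinv t d.1).trans d.2⟩
      one_smul := by
        intro d
        apply Subtype.ext; apply Subtype.ext
        show ((1 : P) : G) * (d.1 : G) * ((1 : P) : G)⁻¹ = (d.1 : G)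
        simp
      mul_smul := by
        intro s t d
        apply Subtype.ext; apply Subtype.ext
        show ((s * t : P) : G) * (d.1 : G) * ((s * t : P) : G)⁻¹
          = (s : G) * ((t : G) * (d.1 : G) * (t : G)⁻¹) * (s : G)⁻¹
        simp [mul_assoc] }
  have hcard : Nat.card {d : C // lam d = lam c} = Nat.card K := by
    apply Nat.card_congr
    refine
      { toFun := fun d => ⟨c⁻¹ * d.1, ?_⟩
        invFun := fun k => ⟨c * k.1, ?_⟩
        left_inv := ?_
        right_inv := ?_ }
    · show lam (c⁻¹ * d.1) = 1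
      rw [hmul, d.2, mul_comm]; exact hinvl c
    · have hk : lam k.1 = 1 := k.2
      rw [hmul, hk, mul_one]
    · intro d; apply Subtype.ext; show c * (c⁻¹ * d.1) = d.1; group
    · intro k; apply Subtype.ext; show c⁻¹ * (c * k.1) = k.1; group
  have hnd : ¬ p ∣ Nat.card {d : C // lam d = lam c} := by
    rw [hcard]; intro hdiv
    have h2 : p ∣ Nat.card C := hdiv.trans (Subgroup.card_subgroup_dvd_card K)
    exact (Nat.Prime.coprime_iff_not_dvd Fact.out).mp hcop.symm h2
  have hmod := hP.card_modEq_card_fixedPoints {d : C // lam d = lam c}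
  have hne : Nat.card (MulAction.fixedPoints P {d : C // lam d = lam c}) ≠ 0 := by
    intro h0
    rw [h0] at hmod
    exact hnd ((Nat.modEq_zero_iff_dvd).mp hmod)
  have hnonempty : Nonempty (MulAction.fixedPoints P {d : C // lam d = lam c}) := by
    by_contra hempty
    rw [not_nonempty_iff] at hempty
    exact hne (Nat.card_of_isEmpty)
  obtain ⟨⟨d, hd⟩⟩ := hnonempty
  have hdc : (d.1 : G) ∈ Subgroup.centralizer (P : Set G) := by
    rw [Subgroup.mem_centralizer_iff]
    intro t ht
    have h3 := congrArg (fun w : {d : C // lam d = lam c} => ((w.1 : C) : G)) (hd ⟨t, ht⟩)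
    exact (mul_inv_eq_iff_eq_mul.mp h3)
  rw [← d.2]; exact hker d.1 hdc

end Cfsg.Agent.S0873
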