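import Mathlib
import Cfsg.Statements.S0869

set_option autoImplicit false
open Cfsg

namespace Cfsg.Agent.S0869

theorem result {S : Type*} [Finite S] [Nonempty S] (R : AddSubgroup (S → ℤ)) (hmul : ∀ f ∈ R, ∀ g ∈ R, f * g ∈ R) (h1 : (1 : S → ℤ) ∉ R) : ∃ (x : S) (p : ℕ), p.Prime ∧ ∀ f ∈ R, (p : ℤ) ∣ f x := by
  classical
  by_contra hcon
  push Not at hcon
  have hone : ∀ x : S, ∃ f ∈ R, f x = 1 := by
    intro x
    obtain ⟨d, hd⟩ := Int.subgroup_cyclic (R.map (Pi.evalAddMonoidHom (fun _ : S => ℤ) x))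
    by_cases h : d.natAbs = 1
    · have hmem : (1 : ℤ) ∈ R.map (Pi.evalAddMonoidHom (fun _ : S => ℤ) x) := by
        rw [hd, AddSubgroup.mem_closure_singleton]
        refine ⟨d, ?_⟩
        rw [smul_eq_mul]
        rcases Int.natAbs_eq d with h' | h' <;> rw [h'] <;> simp [h]
      obtain ⟨f, hf, hfx⟩ := AddSubgroup.mem_map.mp hmem
      exact ⟨f, hf, hfx⟩
    · obtain ⟨p, hp, hpd⟩ := Nat.exists_prime_and_dvd h
      obtain ⟨f, hf, hnd⟩ := hcon x p hp
      exfalso; apply hnd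
      have hmem : f x ∈ R.map (Pi.evalAddMonoidHom (fun _ : S => ℤ) x) :=
        AddSubgroup.mem_map.mpr ⟨f, hf, rfl⟩
      rw [hd, AddSubgroup.mem_closure_singleton] at hmem
      obtain ⟨n, hn⟩ := hmem
      rw [← hn, smul_eq_mul]
      exact Dvd.dvd.mul_left (Int.natCast_dvd.mpr hpd) n
  choose f hfR hfx using hone
  haveI := Fintype.ofFinite S
  have hprod : (1 : S → ℤ) - ∏ x : S, (1 - f x) ∈ R := by
    apply Finset.prod_induction (fun x => 1 - f x) (fun g => (1 : S → ℤ) - g ∈ R)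
    · intro a b ha hb
      have : (1 : S → ℤ) - a * b = (1 - a) + (1 - b) - (1 - a) * (1 - b) := by ring
      rw [this]
      exact R.sub_mem (R.add_mem ha hb) (hmul _ ha _ hb)
    · simp
    · intro x _
      simp [hfR x]
  have hzero : ∏ x : S, (1 - f x) = 0 := by
    funext y
    rw [Finset.prod_apply]
    exact Finset.prod_eq_zero (Finset.mem_univ y) (by simp [hfx y])
  rw [hzero, sub_zero] at hprod
  exact h1 hprod

end Cfsg.Agent.S0869
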