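import Cfsg.Statements.S0870
import Mathlib
import Cfsg.Agent.S0190
-- import your own Cfsg.Agent.* helpers here

set_option autoImplicit false
open Cfsg

namespace Cfsg.Agent.S0870

/-- For subgroups H and K of a finite group G, the pointwise product of the functions induced from the constant function 1 on H and on K is a sum, over subgroups U of H with natural-number coefficients, of the functions induced from the constant function 1 on U. -/
theorem result {G : Type*} [Group G] [Fintype G] (H K : Subgroup G) : ∃ a : Subgroup G → ℕ, (∀ U, a U ≠ 0 → U ≤ H) ∧ Cfsg.indFun H (fun _ => 1) * Cfsg.indFun K (fun _ => 1) = ∑ U : Subgroup G, (a U : ℂ) • Cfsg.indFun U (fun _ => 1) := by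
  classical
  have hcongr : ∀ U V : Subgroup G, U = V →
      Cfsg.indFun U (fun _ => (1 : ℂ)) = Cfsg.indFun V (fun _ => (1 : ℂ)) := by
    intro U V h; subst h; rfl
  have hfixQ : ∀ L : Subgroup G, Cfsg.indFun L (fun _ => (1 : ℂ)) =
      fun g : G => (Nat.card (MulAction.fixedBy (G ⧸ L) g) : ℂ) := by
    intro L
    rw [Cfsg.Agent.S0190.result (G ⧸ L) ((1 : G) : G ⧸ L)]
    exact hcongr _ _ (MulAction.stabilizer_quotient L).symm
  obtain ⟨X, hX⟩ : ∃ X : Type _, X = ((G ⧸ H) × (G ⧸ K)) := ⟨_, rfl⟩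
  subst hX
  haveI : Fintype ((G ⧸ H) × (G ⧸ K)) := Fintype.ofFinite _
  haveI : Fintype (MulAction.orbitRel.Quotient G ((G ⧸ H) × (G ⧸ K))) := Fintype.ofFinite _
  have hrep : ∀ ω : MulAction.orbitRel.Quotient G ((G ⧸ H) × (G ⧸ K)),
      ∃ q : G ⧸ K, (Quotient.mk'' (((1 : G) : G ⧸ H), q) :
        MulAction.orbitRel.Quotient G ((G ⧸ H) × (G ⧸ K))) = ω := by
    intro ω
    induction ω using Quotient.inductionOn' with
    | h ab =>
      obtain ⟨a, b⟩ := ab
      obtain ⟨x, rfl⟩ := QuotientGroup.mk_surjective a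
      refine ⟨x⁻¹ • b, ?_⟩
      apply Quotient.sound'
      show (((1 : G) : G ⧸ H), x⁻¹ • b) ∈ MulAction.orbit G ((x : G ⧸ H), b)
      refine ⟨x⁻¹, ?_⟩
      show (x⁻¹ • (x : G ⧸ H), x⁻¹ • b) = _
      congr 1
      show ((x⁻¹ * x : G) : G ⧸ H) = _
      rw [inv_mul_cancel]
  choose r hr using hrep
  let s : MulAction.orbitRel.Quotient G ((G ⧸ H) × (G ⧸ K)) → Subgroup G :=
    fun ω => MulAction.stabilizer G ((((1 : G) : G ⧸ H), r ω) : (G ⧸ H) × (G ⧸ K))
  have hsH : ∀ ω, s ω ≤ H := by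
    intro ω g hg
    have h1 : g • ((((1 : G) : G ⧸ H), r ω) : (G ⧸ H) × (G ⧸ K)) = (((1 : G) : G ⧸ H), r ω) := hg
    have h2 : g • ((1 : G) : G ⧸ H) = ((1 : G) : G ⧸ H) := congrArg Prod.fst h1
    have h3 : g ∈ MulAction.stabilizer G ((1 : G) : G ⧸ H) := h2
    rwa [MulAction.stabilizer_quotient] at h3
  have hfix : ∀ g : G, (Nat.card (MulAction.fixedBy (G ⧸ H) g) : ℂ) *
      (Nat.card (MulAction.fixedBy (G ⧸ K) g) : ℂ) =
      ∑ ω, Cfsg.indFun (s ω) (fun _ => (1 : ℂ)) g := by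
    intro g
    have h1 : Nat.card (MulAction.fixedBy (G ⧸ H) g) * Nat.card (MulAction.fixedBy (G ⧸ K) g)
        = (Finset.univ.filter (fun x : (G ⧸ H) × (G ⧸ K) => g • x = x)).card := by
      rw [← Nat.card_prod, ← Nat.card_eq_finsetCard]
      apply Nat.card_congr
      exact
        { toFun := fun p => ⟨(p.1.1, p.2.1), by
            rw [Finset.mem_filter]
            exact ⟨Finset.mem_univ _, Prod.ext p.1.2 p.2.2⟩⟩
          invFun := fun x => (⟨x.1.1, congrArg Prod.fst (Finset.mem_filter.1 x.2).2⟩,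
            ⟨x.1.2, congrArg Prod.snd (Finset.mem_filter.1 x.2).2⟩)
          left_inv := fun p => rfl
          right_inv := fun x => rfl }
    rw [← Nat.cast_mul, h1,
      Finset.card_eq_sum_card_fiberwise (f := fun x : (G ⧸ H) × (G ⧸ K) =>
        (Quotient.mk'' x : MulAction.orbitRel.Quotient G ((G ⧸ H) × (G ⧸ K))))
        (t := Finset.univ) (fun x _ => Finset.mem_univ _), Nat.cast_sum]
    refine Finset.sum_congr rfl (fun ω _ => ?_)
    have h2 := congrFun (Cfsg.Agent.S0190.result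
      (MulAction.orbit G ((((1 : G) : G ⧸ H), r ω) : (G ⧸ H) × (G ⧸ K)))
      ⟨_, MulAction.mem_orbit_self _⟩) g
    have h3 : MulAction.stabilizer G
        (⟨_, MulAction.mem_orbit_self _⟩ :
          MulAction.orbit G ((((1 : G) : G ⧸ H), r ω) : (G ⧸ H) × (G ⧸ K))) = s ω := by
      ext u
      rw [MulAction.mem_stabilizer_iff, MulAction.mem_stabilizer_iff, Subtype.ext_iff]
      rfl
    rw [← hcongr _ _ h3, ← h2]
    congr 1
    rw [← Nat.card_eq_finsetCard]
    apply Nat.card_congr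
    have hmem : ∀ x : (G ⧸ H) × (G ⧸ K),
        (Quotient.mk'' x : MulAction.orbitRel.Quotient G ((G ⧸ H) × (G ⧸ K))) = ω ↔
        x ∈ MulAction.orbit G ((((1 : G) : G ⧸ H), r ω) : (G ⧸ H) × (G ⧸ K)) := by
      intro x
      rw [← hr ω]
      rw [Quotient.eq'']
      rw [hr ω]
      rfl
    exact
      { toFun := fun x => ⟨⟨x.1, (hmem _).1 (Finset.mem_filter.1 x.2).2⟩,
          Subtype.ext (Finset.mem_filter.1 (Finset.mem_filter.1 x.2).1).2⟩
        invFun := fun y => ⟨y.1.1, by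
          rw [Finset.mem_filter, Finset.mem_filter]
          exact ⟨⟨Finset.mem_univ _, congrArg Subtype.val y.2⟩, (hmem _).2 y.1.2⟩⟩
        left_inv := fun x => rfl
        right_inv := fun y => rfl }
  refine ⟨fun U => (Finset.univ.filter (fun ω => s ω = U)).card, ?_, ?_⟩
  · intro U hU
    obtain ⟨ω, hω⟩ := Finset.card_pos.1 (Nat.pos_of_ne_zero hU)
    rw [← (Finset.mem_filter.1 hω).2]
    exact hsH ω
  · funext g
    rw [Pi.mul_apply, hfixQ H, hfixQ K]
    show (Nat.card (MulAction.fixedBy (G ⧸ H) g) : ℂ) * (Nat.card (MulAction.fixedBy (G ⧸ K) g) : ℂ) = _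
    rw [hfix g, Finset.sum_apply, ← Finset.sum_fiberwise Finset.univ s]
    refine Finset.sum_congr rfl (fun U _ => ?_)
    rw [Pi.smul_apply, smul_eq_mul, ← nsmul_eq_mul, ← Finset.sum_const]
    refine Finset.sum_congr rfl (fun ω hω => ?_)
    rw [(Finset.mem_filter.1 hω).2]

end Cfsg.Agent.S0870
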