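import Cfsg.Statements.S0871
import Mathlib
import Cfsg.Agent.S0190
-- import your own Cfsg.Agent.* helpers here

set_option autoImplicit false
open Cfsg

namespace Cfsg.Agent.S0871

/-- Let x be an element of the finite group G and p a prime. Then there is a subgroup H having a cyclic normal subgroup C of order prime to p and p-power index in H, such that the value at x of the function induced from the constant function 1 on H is a natural number not divisible by p. -/
theorem result {G : Type*} [Group G] [Fintype G] (x : G) (p : ℕ) (hp : p.Prime) : ∃ H : Subgroup G, (∃ C : Subgroup G, C ≤ H ∧ H ≤ Subgroup.normalizer (C : Set G) ∧ IsCyclic C ∧ Nat.Coprime (Nat.card C) p ∧ ∃ k : ℕ, C.relIndex H = p ^ k) ∧ ∃ n : ℕ, Cfsg.indFun H (fun _ => 1) x = (n : ℂ) ∧ ¬ p ∣ n := by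
  classical
  haveI : Fact p.Prime := ⟨hp⟩
  obtain ⟨a, r, hr, hor⟩ := Nat.exists_eq_pow_mul_and_not_dvd (orderOf_pos x).ne' p hp.ne_one
  have hrpos : 0 < r := by
    rcases Nat.eq_zero_or_pos r with h | h
    · exfalso; rw [h, mul_zero] at hor; exact (orderOf_pos x).ne' hor
    · exact h
  have hcop : Nat.Coprime (p ^ a) r :=
    Nat.Coprime.pow_left a ((Nat.Prime.coprime_iff_not_dvd hp).2 hr)
  obtain ⟨c, hc⟩ : ∃ c : G, c = x ^ (p ^ a) := ⟨_, rfl⟩
  have hcord : orderOf c = r := by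
    rw [hc, orderOf_pow_of_dvd (pow_pos hp.pos a).ne' (by rw [hor]; exact dvd_mul_right _ _), hor,
      Nat.mul_div_cancel_left _ (pow_pos hp.pos a)]
  obtain ⟨C, hC⟩ : ∃ C : Subgroup G, C = Subgroup.zpowers c := ⟨_, rfl⟩
  have hCcard : Nat.card C = r := by rw [hC, Nat.card_zpowers, hcord]
  have hcC : c ∈ C := by rw [hC]; exact Subgroup.mem_zpowers c
  obtain ⟨A, B, hAB⟩ : ∃ A B : ℤ, ((p ^ a : ℕ) : ℤ) * A + ((r : ℕ) : ℤ) * B = 1 := by
    have h := Nat.gcd_eq_gcd_ab (p ^ a) r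
    rw [hcop.gcd_eq_one] at h
    exact ⟨_, _, by exact_mod_cast h.symm⟩
  obtain ⟨N, hN⟩ : ∃ N : Subgroup G, N = Subgroup.normalizer (C : Set G) := ⟨_, rfl⟩
  have hCN : C ≤ N := by rw [hN]; exact Subgroup.le_normalizer
  have hnorm : ∀ y : G, y * c * y⁻¹ ∈ C → y ∈ N := by
    intro y hy
    rw [hN]
    apply Subgroup.mem_normalizer_fintype
    intro n hn
    have hn' : n ∈ C := hn
    rw [hC] at hn'
    obtain ⟨j, rfl⟩ := Subgroup.mem_zpowers_iff.1 hn'
    have h1 : y * c ^ j * y⁻¹ = (y * c * y⁻¹) ^ j := by rw [conj_zpow]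
    rw [h1]
    exact C.zpow_mem hy j
  have hxN : x ∈ N := by
    apply hnorm
    have h1 : x * c * x⁻¹ = c := by
      rw [hc, mul_inv_eq_iff_eq_mul, ← pow_succ', ← pow_succ]
    rw [h1]; exact hcC
  obtain ⟨C', hC'⟩ : ∃ C' : Subgroup N, C' = C.subgroupOf N := ⟨_, rfl⟩
  haveI hC'n : C'.Normal := by
    rw [hC']; subst hN; exact Subgroup.normal_in_normalizer
  let x' : N := ⟨x, hxN⟩
  have hx'ord : orderOf (x' ^ r) = p ^ a := by
    have h1 : orderOf x' = orderOf x := Subgroup.orderOf_mk _ _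
    rw [orderOf_pow_of_dvd hrpos.ne' (by rw [h1, hor]; exact dvd_mul_left _ _), h1, hor,
      Nat.mul_div_cancel _ hrpos]
  have hpg : IsPGroup p (Subgroup.zpowers (x' ^ r)) := by
    apply IsPGroup.of_card (n := a)
    rw [Nat.card_zpowers, hx'ord]
  obtain ⟨P, hP⟩ := hpg.exists_le_sylow
  obtain ⟨H', hH'⟩ : ∃ H' : Subgroup N, H' = C' ⊔ (P : Subgroup N) := ⟨_, rfl⟩
  have hC'H' : C' ≤ H' := by rw [hH']; exact le_sup_left
  have hPH' : (P : Subgroup N) ≤ H' := by rw [hH']; exact le_sup_right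
  have hx'H' : x' ∈ H' := by
    have h1 : x' = (x' ^ (p ^ a)) ^ A * (x' ^ r) ^ B := by
      rw [← zpow_natCast x' (p ^ a), ← zpow_natCast x' r, ← zpow_mul, ← zpow_mul, ← zpow_add, hAB,
        zpow_one]
    rw [h1]
    refine H'.mul_mem (H'.zpow_mem (hC'H' ?_) A) (H'.zpow_mem (hPH' (hP (Subgroup.mem_zpowers _))) B)
    rw [hC', Subgroup.mem_subgroupOf]
    show (x ^ (p ^ a)) ∈ C
    rw [← hc]; exact hcC
  obtain ⟨k, hk⟩ : ∃ k, C'.relIndex H' = p ^ k := by
    have h1 : C'.relIndex H' = C'.relIndex (P : Subgroup N) := by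
      rw [hH', Subgroup.relIndex_sup_left]
    have h2 : C'.relIndex (P : Subgroup N) ∣ Nat.card (P : Subgroup N) := by
      rw [Subgroup.relIndex]; exact Subgroup.index_dvd_card _
    obtain ⟨n, hn⟩ := (P.isPGroup').exists_card_eq
    rw [hn] at h2
    obtain ⟨k, _, hk⟩ := (Nat.dvd_prime_pow hp).1 h2
    exact ⟨k, h1.trans hk⟩
  have hpidx : ¬ p ∣ H'.index := fun h =>
    P.not_dvd_index (h.trans (Subgroup.index_dvd_of_le hPH'))
  have hpowC : ∀ h : N, h ∈ H' → h ^ (p ^ k) ∈ C' := by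
    intro h hh
    have h1 := Subgroup.pow_index_mem (C'.subgroupOf H') (⟨h, hh⟩ : H')
    rw [Subgroup.mem_subgroupOf] at h1
    have h2 : (C'.subgroupOf H').index = p ^ k := hk
    rw [h2] at h1
    exact h1
  obtain ⟨H, hH⟩ : ∃ H : Subgroup G, H = H'.map N.subtype := ⟨_, rfl⟩
  have hHN : H ≤ N := by rw [hH]; exact Subgroup.map_subtype_le H'
  have hmemH : ∀ y : G, y ∈ H ↔ ∃ hy : y ∈ N, (⟨y, hy⟩ : N) ∈ H' := by
    intro y
    rw [hH, Subgroup.mem_map]
    constructor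
    · rintro ⟨z, hz, rfl⟩; exact ⟨z.2, hz⟩
    · rintro ⟨hy, h⟩; exact ⟨⟨y, hy⟩, h, rfl⟩
  have hCH : C ≤ H := by
    intro y hy
    rw [hmemH]
    refine ⟨hCN hy, hC'H' ?_⟩
    rw [hC', Subgroup.mem_subgroupOf]; exact hy
  have hsub : H.subgroupOf N = H' := by
    rw [hH]; exact Subgroup.comap_map_eq_self_of_injective N.subtype_injective H'
  have hrel : C.relIndex H = p ^ k := by
    rw [← Subgroup.relIndex_subgroupOf hHN, hsub, ← hC']; exact hk
  have hHC : ∀ h ∈ H, h ^ r = 1 → h ∈ C := by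
    intro h hh hr1
    obtain ⟨hhN, hh'⟩ := (hmemH h).1 hh
    have h1 := hpowC _ hh'
    rw [hC', Subgroup.mem_subgroupOf] at h1
    have h2 : h ^ (p ^ k) ∈ C := h1
    have hcop' : Nat.Coprime (p ^ k) r :=
      Nat.Coprime.pow_left k ((Nat.Prime.coprime_iff_not_dvd hp).2 hr)
    have hb := Nat.gcd_eq_gcd_ab (p ^ k) r
    rw [hcop'.gcd_eq_one] at hb
    have h3 : h = (h ^ (p ^ k)) ^ (Nat.gcdA (p ^ k) r) * (h ^ r) ^ (Nat.gcdB (p ^ k) r) := by
      rw [← zpow_natCast h (p ^ k), ← zpow_natCast h r, ← zpow_mul, ← zpow_mul, ← zpow_add, ← hb]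
      simp
    rw [h3, hr1, one_zpow, mul_one]
    exact C.zpow_mem h2 _
  have hfixN : ∀ y : G, y⁻¹ * x * y ∈ H → y ∈ N := by
    intro y hy
    have hconj : ∀ (z : G) (i : ℕ), (y⁻¹ * z * y) ^ i = y⁻¹ * z ^ i * y := by
      intro z i
      have h := conj_pow (a := y⁻¹) (b := z) (i := i)
      simpa using h
    have h1 : y⁻¹ * c * y ∈ C := by
      apply hHC
      · have h2 : y⁻¹ * c * y = (y⁻¹ * x * y) ^ (p ^ a) := by rw [hc, hconj]
        rw [h2]; exact H.pow_mem hy _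
      · rw [hconj, ← hcord, pow_orderOf_eq_one]; simp
    have h2 : y⁻¹ ∈ N := hnorm y⁻¹ (by simpa using h1)
    simpa using N.inv_mem h2
  have hfixQ : Cfsg.indFun H (fun _ => (1 : ℂ)) x
      = (Nat.card (MulAction.fixedBy (G ⧸ H) x) : ℂ) := by
    have h1 := congrFun (Cfsg.Agent.S0190.result (G ⧸ H) ((1 : G) : G ⧸ H)) x
    have hcongr : ∀ U V : Subgroup G, U = V →
        Cfsg.indFun U (fun _ => (1 : ℂ)) = Cfsg.indFun V (fun _ => (1 : ℂ)) := by
      intro U V h; subst h; rfl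
    rw [hcongr _ _ (MulAction.stabilizer_quotient H)] at h1
    exact h1.symm
  refine ⟨H, ⟨C, hCH, hHN.trans (by rw [hN]), ?_, ?_, k, hrel⟩,
    Nat.card (MulAction.fixedBy (G ⧸ H) x), hfixQ, ?_⟩
  · rw [hC]; infer_instance
  · rw [hCcard]; exact ((Nat.Prime.coprime_iff_not_dvd hp).2 hr).symm
  · let Y : Set (G ⧸ H) := MulAction.orbit N ((1 : G) : G ⧸ H)
    haveI : Fintype Y := Fintype.ofFinite _
    let f : Function.End Y := fun q => x' • q
    have hfpow : ∀ j : ℕ, ∀ q : Y, (f ^ j) q = x' ^ j • q := by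
      intro j
      induction j with
      | zero => intro q; rw [pow_zero, pow_zero, one_smul]; rfl
      | succ j ih =>
        intro q
        rw [pow_succ]
        show (f ^ j) (f q) = _
        rw [ih]
        show x' ^ j • (x' • q) = _
        rw [smul_smul, ← pow_succ]
    have hf : f ^ (p ^ a) = 1 := by
      funext q
      rw [hfpow]
      show x' ^ (p ^ a) • q = q
      obtain ⟨q, z, rfl⟩ := q
      apply Subtype.ext
      show (((x ^ (p ^ a)) * ((z : G) * 1) : G) : G ⧸ H) = (((z : G) * 1 : G) : G ⧸ H)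
      rw [QuotientGroup.eq, ← hc, mul_one]
      apply hCH
      have hz : (z : G)⁻¹ ∈ Subgroup.normalizer (C : Set G) := by
        rw [← hN]; exact N.inv_mem z.2
      have h1 := (Subgroup.mem_normalizer_iff.1 hz c⁻¹).1 (C.inv_mem hcC)
      have h2 : (c * (z : G))⁻¹ * (z : G) = (z : G)⁻¹ * c⁻¹ * (z : G)⁻¹⁻¹ := by group
      rw [h2]; exact h1
    have hmod := Equiv.Perm.card_fixedPoints_modEq (p := p) (n := a) hf
    have hYcard : Fintype.card Y = H'.index := by
      rw [← Nat.card_eq_fintype_card, Nat.card_coe_set_eq, ← MulAction.index_stabilizer]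
      congr 1
      rw [← hsub]
      ext z
      rw [MulAction.mem_stabilizer_iff, Subgroup.mem_subgroupOf]
      show ((z : G) • ((1 : G) : G ⧸ H) = ((1 : G) : G ⧸ H)) ↔ _
      rw [← MulAction.mem_stabilizer_iff, MulAction.stabilizer_quotient]
    have hfixcard : Fintype.card (Function.fixedPoints f)
        = Nat.card (MulAction.fixedBy (G ⧸ H) x) := by
      rw [← Nat.card_eq_fintype_card]
      apply Nat.card_congr
      refine Equiv.ofBijective (fun q => ⟨(q.1 : G ⧸ H), ?_⟩) ⟨?_, ?_⟩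
      · have h1 : f q.1 = q.1 := q.2
        exact congrArg Subtype.val h1
      · intro q1 q2 h
        have h5 : ((q1.1 : Y) : G ⧸ H) = ((q2.1 : Y) : G ⧸ H) := by
          have h6 := congrArg (fun t : MulAction.fixedBy (G ⧸ H) x => (t : G ⧸ H)) h
          exact h6
        exact Subtype.ext (Subtype.ext h5)
      · rintro ⟨q, hq⟩
        obtain ⟨y, rfl⟩ := QuotientGroup.mk_surjective q
        have hy : y⁻¹ * x * y ∈ H := by
          have h1 : x • (y : G ⧸ H) = y := hq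
          have h2 : ((x * y : G) : G ⧸ H) = (y : G ⧸ H) := h1
          rw [QuotientGroup.eq] at h2
          have h3 := H.inv_mem h2
          have h4 : ((x * y)⁻¹ * y)⁻¹ = y⁻¹ * x * y := by group
          rwa [h4] at h3
        have hyN := hfixN y hy
        have hyY : (y : G ⧸ H) ∈ Y :=
          ⟨⟨y, hyN⟩, by show ((y * 1 : G) : G ⧸ H) = _; rw [mul_one]⟩
        refine ⟨⟨⟨_, hyY⟩, ?_⟩, rfl⟩
        show f ⟨_, hyY⟩ = ⟨_, hyY⟩
        apply Subtype.ext
        exact hq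
    rw [hYcard, hfixcard] at hmod
    intro hdvd
    apply hpidx
    exact (Nat.modEq_zero_iff_dvd.1 (hmod.trans (Nat.modEq_zero_iff_dvd.2 hdvd)))

end Cfsg.Agent.S0871
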