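import Mathlib
import Cfsg.Statements.S0903

set_option autoImplicit false
open Cfsg

namespace Cfsg.Agent.S0903

abbrev X {G : Type*} [Group G] (c g h : G) : Type _ :=
  {xy : G × G // IsConj g xy.1 ∧ IsConj h xy.2 ∧ xy.1 * xy.2 = c}

theorem hconj {G : Type*} [Group G] (a x t : G) (hax : IsConj a x) : IsConj a (t * x * t⁻¹) :=
  hax.trans (isConj_iff.mpr ⟨t, rfl⟩)

theorem hcc {G : Type*} [Group G] (P : Subgroup G) (c : G)
    (hc : c ∈ Subgroup.centralizer (P : Set G)) (t : G) (ht : t ∈ P) : t * c * t⁻¹ = c := by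
  have := Subgroup.mem_centralizer_iff.mp hc t ht
  rw [this]; group

def act {G : Type*} [Group G] (P : Subgroup G) (c : G)
    (hc : c ∈ Subgroup.centralizer (P : Set G)) (g h : G) : MulAction P (X c g h) where
  smul := fun t xy => ⟨((t : G) * xy.1.1 * (t : G)⁻¹, (t : G) * xy.1.2 * (t : G)⁻¹),
        hconj _ _ _ xy.2.1, hconj _ _ _ xy.2.2.1, by
          have := xy.2.2.2
          show (t : G) * xy.1.1 * (t : G)⁻¹ * ((t : G) * xy.1.2 * (t : G)⁻¹) = c
          calc (t : G) * xy.1.1 * (t : G)⁻¹ * ((t : G) * xy.1.2 * (t : G)⁻¹)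
              = (t : G) * (xy.1.1 * xy.1.2) * (t : G)⁻¹ := by group
            _ = c := by rw [this]; exact hcc P c hc t t.2⟩
  one_smul := by
    rintro ⟨⟨x, y⟩, hxy⟩
    apply Subtype.ext
    show (((1 : P) : G) * x * ((1 : P) : G)⁻¹, ((1 : P) : G) * y * ((1 : P) : G)⁻¹) = (x, y)
    simp
  mul_smul := by
    rintro s t ⟨⟨x, y⟩, hxy⟩
    apply Subtype.ext
    show (((s * t : P) : G) * x * ((s * t : P) : G)⁻¹, ((s * t : P) : G) * y * ((s * t : P) : G)⁻¹)
      = ((s : G) * ((t : G) * x * (t : G)⁻¹) * (s : G)⁻¹, (s : G) * ((t : G) * y * (t : G)⁻¹) * (s : G)⁻¹)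
    simp [mul_assoc]

theorem result {G : Type*} [Group G] [Finite G] (p : ℕ) [Fact p.Prime] (P : Subgroup G) (hP : IsPGroup p P) (c : G) (hc : c ∈ Subgroup.centralizer (P : Set G)) (g h : G) : Nat.card {xy : G × G // IsConj g xy.1 ∧ IsConj h xy.2 ∧ xy.1 * xy.2 = c} ≡ Nat.card {xy : G × G // IsConj g xy.1 ∧ IsConj h xy.2 ∧ xy.1 * xy.2 = c ∧ xy.1 ∈ Subgroup.centralizer (P : Set G) ∧ xy.2 ∈ Subgroup.centralizer (P : Set G)} [MOD p] := by
  letI := act P c hc g h
  have h1 := hP.card_modEq_card_fixedPoints (X c g h)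
  refine h1.trans ?_
  have e : (MulAction.fixedPoints P (X c g h)) ≃ {xy : G × G // IsConj g xy.1 ∧ IsConj h xy.2 ∧ xy.1 * xy.2 = c ∧ xy.1 ∈ Subgroup.centralizer (P : Set G) ∧ xy.2 ∈ Subgroup.centralizer (P : Set G)} :=
    { toFun := fun z => ⟨z.1.1, z.1.2.1, z.1.2.2.1, z.1.2.2.2, by
          rw [Subgroup.mem_centralizer_iff]
          intro t ht
          have := congrArg (fun w : X c g h => w.1.1) (z.2 ⟨t, ht⟩)
          exact mul_inv_eq_iff_eq_mul.mp this, by
          rw [Subgroup.mem_centralizer_iff]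
          intro t ht
          have := congrArg (fun w : X c g h => w.1.2) (z.2 ⟨t, ht⟩)
          exact mul_inv_eq_iff_eq_mul.mp this⟩
      invFun := fun z => ⟨⟨z.1, z.2.1, z.2.2.1, z.2.2.2.1⟩, by
          intro t
          apply Subtype.ext
          have hx := Subgroup.mem_centralizer_iff.mp z.2.2.2.2.1 t t.2
          have hy := Subgroup.mem_centralizer_iff.mp z.2.2.2.2.2 t t.2
          show ((t : G) * z.1.1 * (t : G)⁻¹, (t : G) * z.1.2 * (t : G)⁻¹) = z.1
          rw [hx, hy]; simp⟩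
      left_inv := fun z => rfl
      right_inv := fun z => rfl }
  rw [Nat.card_congr e]

end Cfsg.Agent.S0903
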