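import Mathlib
import Cfsg.Statements.S0916
import Cfsg.Agent.Lib.Helper1.Conj
import Cfsg.Agent.Lib.Helper1.Conj2
import Cfsg.Agent.Lib.Helper1.Orbit

set_option autoImplicit false
open Cfsg

namespace Cfsg.Agent.S0916

open scoped Pointwise
open Cfsg.Agent.Lib.Helper1

theorem part_one {G : Type*} [Group G] [Finite G] (p : ℕ) [Fact p.Prime] (P : Subgroup G)
    (g : G) (hPle : P ≤ Subgroup.centralizer ({g} : Set G))
    (hPc : Nat.card P = p ^ (Nat.card (Subgroup.centralizer ({g} : Set G))).factorization p)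
    (c : G) (hc : IsConj g c) (hcP : c ∈ Subgroup.centralizer (P : Set G)) :
    ∃ m ∈ Subgroup.normalizer (P : Set G), m * c * m⁻¹ = g := by
  obtain ⟨x, hx⟩ := isConj_iff.mp hc
  subst hx
  have hP1 : P ≤ Subgroup.centralizer ({x * g * x⁻¹} : Set G) := by
    intro u hu
    rw [Subgroup.mem_centralizer_iff]
    intro k hk
    rw [Set.mem_singleton_iff] at hk
    rw [hk]
    exact ((Subgroup.mem_centralizer_iff.mp hcP) u hu).symm
  have hQ1 : (MulAut.conj x • P : Subgroup G) ≤ Subgroup.centralizer ({x * g * x⁻¹} : Set G) := by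
    intro t ht
    obtain ⟨u, hu, rfl⟩ := exists_of_mem_conj_smul ht
    have hug := Subgroup.mem_centralizer_iff.mp (hPle hu) g rfl
    rw [Subgroup.mem_centralizer_iff]
    intro k hk
    rw [Set.mem_singleton_iff] at hk
    rw [hk]
    calc x * g * x⁻¹ * (x * u * x⁻¹) = x * (g * u) * x⁻¹ := by group
      _ = x * (u * g) * x⁻¹ := by rw [hug]
      _ = x * u * x⁻¹ * (x * g * x⁻¹) := by group
  have hc1 : Nat.card P = p ^ (Nat.card (Subgroup.centralizer ({x * g * x⁻¹} : Set G))).factorization p := by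
    rw [card_centralizer_conj]; exact hPc
  have hc2 : Nat.card (MulAut.conj x • P : Subgroup G) =
      p ^ (Nat.card (Subgroup.centralizer ({x * g * x⁻¹} : Set G))).factorization p := by
    rw [card_conj_smul]; exact hc1
  obtain ⟨y, hyK, hy⟩ := exists_conj_of_sylow_card hP1 hQ1 hc1 hc2
  refine ⟨x⁻¹ * y, ?_, ?_⟩
  · apply mem_normalizer_of_conj_le
    intro u hu
    obtain ⟨v, hv, hv2⟩ := exists_of_mem_conj_smul (hy u hu)
    have : x⁻¹ * y * u * (x⁻¹ * y)⁻¹ = v := by
      calc x⁻¹ * y * u * (x⁻¹ * y)⁻¹ = x⁻¹ * (y * u * y⁻¹) * x := by group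
        _ = x⁻¹ * (x * v * x⁻¹) * x := by rw [hv2]
        _ = v := by group
    rw [this]; exact hv
  · have hyc := Subgroup.mem_centralizer_iff.mp hyK (x * g * x⁻¹) rfl
    calc x⁻¹ * y * (x * g * x⁻¹) * (x⁻¹ * y)⁻¹ = x⁻¹ * (y * (x * g * x⁻¹)) * y⁻¹ * x := by group
      _ = x⁻¹ * ((x * g * x⁻¹) * y) * y⁻¹ * x := by rw [hyc]
      _ = g := by group

/-- Let P be a p-subgroup of the finite group G, C its centralizer and N its normalizer. Say that a conjugacy class (of G, or of N) has defect group P when P is a Sylow p-subgroup of the centralizer (in G, respectively in N) of some element of the class. Then: (i) if the class of g in G has defect group P, the elements of that class lying in C form a single N-class, again with defect group P; (ii) every N-class with defect group P arises this way from exactly one G-class with defect group P. -/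
theorem result {G : Type*} [Group G] [Finite G] (p : ℕ) [Fact p.Prime] (P : Subgroup G) (hP : IsPGroup p P) : (∀ g : G, (∃ S : Sylow p (Subgroup.centralizer ({g} : Set G)), (S : Subgroup (Subgroup.centralizer ({g} : Set G))).map (Subgroup.centralizer ({g} : Set G)).subtype = P) → (∃ c : G, IsConj g c ∧ c ∈ Subgroup.centralizer (P : Set G)) ∧ (∀ c₁ c₂ : G, IsConj g c₁ → IsConj g c₂ → c₁ ∈ Subgroup.centralizer (P : Set G) → c₂ ∈ Subgroup.centralizer (P : Set G) → ∃ n ∈ Subgroup.normalizer (P : Set G), n * c₁ * n⁻¹ = c₂)) ∧ (∀ c : G, c ∈ Subgroup.centralizer (P : Set G) → (∃ S : Sylow p (Subgroup.centralizer ({c} : Set G) ⊓ Subgroup.normalizer (P : Set G) : Subgroup G), (S : Subgroup ↥(Subgroup.centralizer ({c} : Set G) ⊓ Subgroup.normalizer (P : Set G))).map (Subgroup.centralizer ({c} : Set G) ⊓ Subgroup.normalizer (P : Set G)).subtype = P) → ∃ S : Sylow p (Subgroup.centralizer ({c} : Set G)), (S : Subgroup (Subgroup.centralizer ({c} : Set G))).map (Subgroup.centralizer ({c} : Set G)).subtype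 = P) := by
  constructor
  · intro g hS
    obtain ⟨S, hS⟩ := hS
    have hPle : P ≤ Subgroup.centralizer ({g} : Set G) := by
      rw [← hS]; exact Subgroup.map_subtype_le _
    have hPc : Nat.card P = p ^ (Nat.card (Subgroup.centralizer ({g} : Set G))).factorization p := by
      rw [← S.card_eq_multiplicity, ← hS]
      exact Subgroup.card_map_of_injective (Subgroup.subtype_injective _)
    have hgP : g ∈ Subgroup.centralizer (P : Set G) := by
      rw [Subgroup.mem_centralizer_iff]
      intro u hu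
      exact (Subgroup.mem_centralizer_iff.mp (hPle hu) g rfl).symm
    refine ⟨⟨g, IsConj.refl g, hgP⟩, ?_⟩
    intro c₁ c₂ h1 h2 h1P h2P
    obtain ⟨m₁, hm₁, e₁⟩ := part_one p P g hPle hPc c₁ h1 h1P
    obtain ⟨m₂, hm₂, e₂⟩ := part_one p P g hPle hPc c₂ h2 h2P
    refine ⟨m₂⁻¹ * m₁, Subgroup.mul_mem _ (Subgroup.inv_mem _ hm₂) hm₁, ?_⟩
    calc m₂⁻¹ * m₁ * c₁ * (m₂⁻¹ * m₁)⁻¹ = m₂⁻¹ * (m₁ * c₁ * m₁⁻¹) * m₂ := by group
      _ = m₂⁻¹ * (m₂ * c₂ * m₂⁻¹) * m₂ := by rw [e₁, e₂]
      _ = c₂ := by group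
  · intro c hcP hS
    obtain ⟨S, hS⟩ := hS
    have hPle : P ≤ Subgroup.centralizer ({c} : Set G) := by
      intro u hu
      rw [Subgroup.mem_centralizer_iff]
      intro k hk
      rw [Set.mem_singleton_iff] at hk
      rw [hk]
      exact ((Subgroup.mem_centralizer_iff.mp hcP) u hu).symm
    obtain ⟨S', hS'⟩ := IsPGroup.exists_le_sylow
      (hP.comap_subtype (K := Subgroup.centralizer ({c} : Set G)))
    refine ⟨S', ?_⟩
    have hPQ : P ≤ (S' : Subgroup (Subgroup.centralizer ({c} : Set G))).map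
        (Subgroup.centralizer ({c} : Set G)).subtype := by
      intro u hu
      refine ⟨⟨u, hPle hu⟩, hS' ?_, rfl⟩
      exact hu
    by_contra hne
    have hlt : P < (S' : Subgroup (Subgroup.centralizer ({c} : Set G))).map
        (Subgroup.centralizer ({c} : Set G)).subtype := lt_of_le_of_ne hPQ (fun h => hne h.symm)
    have hQp : IsPGroup p ((S' : Subgroup (Subgroup.centralizer ({c} : Set G))).map
        (Subgroup.centralizer ({c} : Set G)).subtype) := S'.isPGroup'.map _
    obtain ⟨z, hzQ, hzP, hzN⟩ := exists_normalizing_of_lt hQp hlt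
    have hzC : z ∈ Subgroup.centralizer ({c} : Set G) := Subgroup.map_subtype_le _ hzQ
    have hRp : IsPGroup p ((((S' : Subgroup (Subgroup.centralizer ({c} : Set G))).map
        (Subgroup.centralizer ({c} : Set G)).subtype) ⊓ Subgroup.normalizer (P : Set G)).subgroupOf
        (Subgroup.centralizer ({c} : Set G) ⊓ Subgroup.normalizer (P : Set G))) :=
      (hQp.to_le inf_le_left).comap_subtype
    have hSR : (S : Subgroup ↥(Subgroup.centralizer ({c} : Set G) ⊓ Subgroup.normalizer (P : Set G))) ≤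
        ((((S' : Subgroup (Subgroup.centralizer ({c} : Set G))).map
        (Subgroup.centralizer ({c} : Set G)).subtype) ⊓ Subgroup.normalizer (P : Set G)).subgroupOf
        (Subgroup.centralizer ({c} : Set G) ⊓ Subgroup.normalizer (P : Set G))) := by
      intro s hs
      rw [Subgroup.mem_subgroupOf]
      have h1 : (s : G) ∈ (S : Subgroup ↥(Subgroup.centralizer ({c} : Set G) ⊓ Subgroup.normalizer (P : Set G))).map
          (Subgroup.centralizer ({c} : Set G) ⊓ Subgroup.normalizer (P : Set G)).subtype := ⟨s, hs, rfl⟩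
      exact ⟨hPQ (hS.le h1), (Subgroup.mem_inf.mp s.2).2⟩
    have hR := S.is_maximal' hRp hSR
    apply hzP
    have hzM : z ∈ Subgroup.centralizer ({c} : Set G) ⊓ Subgroup.normalizer (P : Set G) :=
      Subgroup.mem_inf.mpr ⟨hzC, hzN⟩
    have h2 : (⟨z, hzM⟩ : ↥(Subgroup.centralizer ({c} : Set G) ⊓ Subgroup.normalizer (P : Set G))) ∈
        (S : Subgroup ↥(Subgroup.centralizer ({c} : Set G) ⊓ Subgroup.normalizer (P : Set G))) :=
      hR.le (Subgroup.mem_subgroupOf.mpr (Subgroup.mem_inf.mpr ⟨hzQ, hzN⟩))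
    exact hS.le ⟨⟨z, hzM⟩, h2, rfl⟩

end Cfsg.Agent.S0916
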