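import Cfsg.Statements.S0058
import Mathlib
import Cfsg.Statements.S0058
import Cfsg.Agent.Lib.Helper4.CoprimeGen

set_option autoImplicit false
open Cfsg
open scoped commutatorElement

namespace Cfsg.Agent.S0058

open scoped commutatorElement

theorem card_tors_le58 {A : Type*} [CommGroup A] [Finite A] (p m : ℕ) :
    Nat.card ↥(powMonoidHom (p * m) : A →* A).ker ≤
      Nat.card ↥(powMonoidHom m : A →* A).ker * Nat.card ↥(powMonoidHom p : A →* A).ker := by
  have h1 := Subgroup.card_mul_index
    (((powMonoidHom m : A →* A).comp (Subgroup.subtype (powMonoidHom (p * m) : A →* A).ker)).ker)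
  rw [Subgroup.index_ker] at h1
  rw [← h1]
  apply Nat.mul_le_mul
  · apply Nat.card_le_card_of_injective
      (fun x : ↥(((powMonoidHom m : A →* A).comp (Subgroup.subtype (powMonoidHom (p * m) : A →* A).ker)).ker) =>
        (⟨((x : ↥(powMonoidHom (p * m) : A →* A).ker) : A), by
          have := x.2
          rw [MonoidHom.mem_ker] at this ⊢
          exact this⟩ : ↥(powMonoidHom m : A →* A).ker))
    intro x y hxy
    apply Subtype.ext
    apply Subtype.ext
    have := congrArg Subtype.val hxy
    exact this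
  · apply Subgroup.card_le_of_le
    rintro _ ⟨x, rfl⟩
    rw [MonoidHom.mem_ker]
    have := x.2
    rw [MonoidHom.mem_ker] at this
    simp only [MonoidHom.comp_apply, Subgroup.coe_subtype, powMonoidHom_apply] at this ⊢
    rw [← pow_mul, mul_comm m p]
    exact this

theorem exists_rank_two58 {A : Type*} [Group A] [Finite A] (hcomm : ∀ x y : A, x * y = y * x)
    (hA : ¬ IsCyclic A) :
    ∃ p : ℕ, p.Prime ∧ ∃ a b : A, a ^ p = 1 ∧ b ^ p = 1 ∧ b ≠ 1 ∧ ∀ i : ℕ, a * b ^ i ≠ 1 := by
  classical
  letI : CommGroup A := { (inferInstance : Group A) with mul_comm := hcomm }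
  have hex : ∃ n : ℕ, 0 < n ∧ n < Nat.card ↥(powMonoidHom n : A →* A).ker := by
    refine ⟨Monoid.exponent A, Monoid.exponent_pos.mpr Monoid.ExponentExists.of_finite, ?_⟩
    have htop : (powMonoidHom (Monoid.exponent A) : A →* A).ker = ⊤ := by
      rw [eq_top_iff]
      intro x _
      rw [MonoidHom.mem_ker]
      exact Monoid.pow_exponent_eq_one x
    rw [htop, Subgroup.card_top]
    refine lt_of_le_of_ne (Nat.le_of_dvd Nat.card_pos (Monoid.exponent_dvd_of_forall_pow_eq_one (fun g => pow_card_eq_one'))) (fun h => hA ?_)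
    exact IsCyclic.of_exponent_eq_card h
  have hmin := fun m => Nat.find_min hex (m := m)
  obtain ⟨hn0, hn⟩ := Nat.find_spec hex
  have hn1 : Nat.find hex ≠ 1 := by
    intro h1
    rw [h1] at hn
    have hb : (powMonoidHom 1 : A →* A).ker = ⊥ := by
      rw [eq_bot_iff]
      intro x hx
      rw [MonoidHom.mem_ker] at hx
      simpa using hx
    rw [hb, Subgroup.card_bot] at hn
    exact lt_irrefl _ hn
  have hpp : (Nat.find hex).minFac.Prime := Nat.minFac_prime hn1
  obtain ⟨m, hm⟩ := Nat.minFac_dvd (Nat.find hex)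
  have hm0 : 0 < m := by
    rcases Nat.eq_zero_or_pos m with h | h
    · rw [h, mul_zero] at hm; omega
    · exact h
  have hmlt : m < Nat.find hex := by
    have h2 := hpp.two_le
    nlinarith
  have hmle : Nat.card ↥(powMonoidHom m : A →* A).ker ≤ m := by
    by_contra hcon
    exact hmin m hmlt ⟨hm0, not_le.mp hcon⟩
  have hplt : (Nat.find hex).minFac < Nat.card ↥(powMonoidHom (Nat.find hex).minFac : A →* A).ker := by
    have h3 := card_tors_le58 (A := A) (Nat.find hex).minFac m
    rw [← hm] at h3
    have h4 : (Nat.find hex).minFac * m < m * Nat.card ↥(powMonoidHom (Nat.find hex).minFac : A →* A).ker := by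
      calc (Nat.find hex).minFac * m = Nat.find hex := hm.symm
        _ < Nat.card ↥(powMonoidHom (Nat.find hex) : A →* A).ker := hn
        _ ≤ _ := h3
        _ ≤ m * Nat.card ↥(powMonoidHom (Nat.find hex).minFac : A →* A).ker := Nat.mul_le_mul_right _ hmle
    rw [mul_comm] at h4
    exact lt_of_mul_lt_mul_left h4 (Nat.zero_le m)
  refine ⟨(Nat.find hex).minFac, hpp, ?_⟩
  have hnt : Nontrivial ↥(powMonoidHom (Nat.find hex).minFac : A →* A).ker := by
    rw [← Finite.one_lt_card_iff_nontrivial]
    exact lt_trans hpp.one_lt hplt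
  obtain ⟨⟨b, hb⟩, hb1⟩ := exists_ne (1 : ↥(powMonoidHom (Nat.find hex).minFac : A →* A).ker)
  have hbp : b ^ (Nat.find hex).minFac = 1 := by
    rw [MonoidHom.mem_ker] at hb; simpa using hb
  have hzle : Subgroup.zpowers b ≤ (powMonoidHom (Nat.find hex).minFac : A →* A).ker := by
    rw [Subgroup.zpowers_le]; exact hb
  have hzlt : Subgroup.zpowers b < (powMonoidHom (Nat.find hex).minFac : A →* A).ker := by
    refine lt_of_le_of_ne hzle (fun h => ?_)
    have h5 : Nat.card ↥(Subgroup.zpowers b) ≤ (Nat.find hex).minFac := by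
      rw [Nat.card_zpowers]
      exact Nat.le_of_dvd hpp.pos (orderOf_dvd_of_pow_eq_one hbp)
    rw [h] at h5
    exact absurd hplt (not_lt.mpr h5)
  obtain ⟨a, ha, haz⟩ := SetLike.exists_of_lt hzlt
  refine ⟨a, b, ?_, hbp, ?_, ?_⟩
  · rw [MonoidHom.mem_ker] at ha; simpa using ha
  · intro h
    apply hb1
    exact Subtype.ext h
  · intro i hi
    apply haz
    have : a = (b ^ i)⁻¹ := eq_inv_of_mul_eq_one_left hi
    rw [this]
    exact Subgroup.inv_mem _ (Subgroup.pow_mem _ (Subgroup.mem_zpowers b) i)

/-- Generation by centralisers: when a noncyclic abelian group A normalises K with coprime orders, K is generated by the fixed-point subgroups of the nonidentity elements of A. -/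
theorem result {G : Type*} [Group G] [Finite G] (A K : Subgroup G)
    [IsMulCommutative A] (hA : ¬ IsCyclic A) (hAK : A ≤ Subgroup.normalizer (K : Set G)) (hcop : (Nat.card A).Coprime (Nat.card K)) :
    (⨆ a ∈ {a : G | a ∈ A ∧ a ≠ 1}, K ⊓ Subgroup.centralizer {a}) = K := by
  have hcomm : ∀ x y : ↥A, x * y = y * x := fun x y => (inferInstance : IsMulCommutative ↥A).is_comm.comm x y
  obtain ⟨p, hp, a, b, ha, hb, hb1, hab⟩ := exists_rank_two58 hcomm hA
  haveI : Fact p.Prime := ⟨hp⟩
  apply le_antisymm
  · exact iSup₂_le (fun a _ => inf_le_left)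
  · have hpA : p ∣ Nat.card ↥A := by
      have : orderOf b = p := orderOf_eq_prime hb hb1
      rw [← this]; exact orderOf_dvd_natCard b
    have hcopK : (Nat.card ↥K).Coprime p := (Nat.Coprime.coprime_dvd_left hpA hcop).symm
    have ha' : (a : G) ^ p = 1 := by
      have := congrArg Subtype.val ha
      simpa using this
    have hb' : (b : G) ^ p = 1 := by
      have := congrArg Subtype.val hb
      simpa using this
    have hab' : (a : G) * (b : G) = (b : G) * (a : G) := by
      have := congrArg Subtype.val (hcomm a b)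
      simpa using this
    apply Cfsg.Agent.Lib.Helper4.coprime_generation (a : G) (b : G) ha' hb' hab' K (hAK a.2) (hAK b.2) hcopK
    · exact le_iSup₂ (f := fun a (_ : a ∈ {a : G | a ∈ A ∧ a ≠ 1}) => K ⊓ Subgroup.centralizer {a}) (b : G)
        ⟨b.2, fun h => hb1 (Subtype.ext h)⟩
    · intro i
      exact le_iSup₂ (f := fun a (_ : a ∈ {a : G | a ∈ A ∧ a ≠ 1}) => K ⊓ Subgroup.centralizer {a})
        ((a : G) * (b : G) ^ i)
        ⟨A.mul_mem a.2 (A.pow_mem b.2 i), fun h => hab i (Subtype.ext (by simpa using h))⟩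

end Cfsg.Agent.S0058
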