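import Cfsg.Statements.S0045
import Cfsg.Agent.Lib.Lead.Hall
import Cfsg.Agent.Lib.Helper6.NilpComm
import Cfsg.Agent.Lib.Helper7.PPrime

set_option autoImplicit false
open Pointwise
open Cfsg

namespace Cfsg.Agent.S0045

universe u

open scoped Pointwise

/-- Carter subgroup -/
def IsC {G : Type*} [Group G] (C : Subgroup G) : Prop :=
  Group.IsNilpotent C ∧ Subgroup.normalizer (C : Set G) = C

/-- Carter subgroup relative to a subgroup `K` -/
def IsCR {G : Type*} [Group G] (K C : Subgroup G) : Prop :=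
  Group.IsNilpotent C ∧ C ≤ K ∧ ∀ y ∈ K, y ∈ Subgroup.normalizer (C : Set G) → y ∈ C

theorem mem_normalizer_of_conj_mem {G : Type*} [Group G] [Finite G] (H : Subgroup G) (g : G)
    (h : ∀ x ∈ H, g * x * g⁻¹ ∈ H) : g ∈ Subgroup.normalizer (H : Set G) := by
  rw [Subgroup.mem_normalizer_iff]
  intro x
  refine ⟨h x, fun hx => ?_⟩
  let f : H → H := fun y => ⟨g * y * g⁻¹, h y y.2⟩
  have hinj : Function.Injective f := by
    intro a b hab
    have h1 : g * (a : G) * g⁻¹ = g * (b : G) * g⁻¹ := congrArg Subtype.val hab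
    exact Subtype.ext (mul_left_cancel (mul_right_cancel h1))
  obtain ⟨y, hy⟩ := (Finite.injective_iff_surjective.mp hinj) ⟨g * x * g⁻¹, hx⟩
  have h1 : g * (y : G) * g⁻¹ = g * x * g⁻¹ := congrArg Subtype.val hy
  have hxy : (y : G) = x := mul_left_cancel (mul_right_cancel h1)
  rw [← hxy]; exact y.2

theorem normalizer_conj {G : Type*} [Group G] (g : G) (C : Subgroup G) :
    Subgroup.normalizer ((MulAut.conj g • C : Subgroup G) : Set G)
      = MulAut.conj g • Subgroup.normalizer (C : Set G) := by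
  have h1 := Subgroup.map_equiv_normalizer_eq C (MulAut.conj g)
  exact h1.symm

theorem isC_top {G : Type*} [Group G] {C : Subgroup G} (hC : IsC C) : IsCR ⊤ C :=
  ⟨hC.1, le_top, fun y _ hy => by rw [hC.2] at hy; exact hy⟩

theorem isCR_conj {G : Type*} [Group G] {K C : Subgroup G} (x : G) (hx : x ∈ K) (hC : IsCR K C) :
    IsCR K (MulAut.conj x • C) := by
  obtain ⟨hnil, hCK, hself⟩ := hC
  refine ⟨?_, ?_, ?_⟩
  · haveI := hnil
    exact Group.nilpotent_of_mulEquiv (Subgroup.equivSMul (MulAut.conj x) C)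
  · intro y hy
    rw [Cfsg.Agent.Lib.Lead.mem_conj_smul] at hy
    have h1 : x * (x⁻¹ * y * x) * x⁻¹ ∈ K := K.mul_mem (K.mul_mem hx (hCK hy)) (K.inv_mem hx)
    simpa [mul_assoc] using h1
  · intro y hyK hy
    rw [normalizer_conj, Cfsg.Agent.Lib.Lead.mem_conj_smul] at hy
    rw [Cfsg.Agent.Lib.Lead.mem_conj_smul]
    exact hself _ (K.mul_mem (K.mul_mem (K.inv_mem hx) hyK) hx) hy

theorem isC_conj {G : Type*} [Group G] (g : G) {C : Subgroup G} (hC : IsC C) :
    IsC (MulAut.conj g • C) := by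
  obtain ⟨hnil, hnorm⟩ := hC
  refine ⟨?_, ?_⟩
  · haveI := hnil
    exact Group.nilpotent_of_mulEquiv (Subgroup.equivSMul (MulAut.conj g) C)
  · rw [normalizer_conj, hnorm]

theorem isCR_subgroupOf {G : Type*} [Group G] {C L K : Subgroup G} (hCL : C ≤ L) (hLK : L ≤ K)
    (hC : IsCR K C) : IsC (C.subgroupOf L) := by
  obtain ⟨hnil, hCK, hself⟩ := hC
  refine ⟨?_, ?_⟩
  · haveI := hnil
    exact Group.nilpotent_of_mulEquiv (Subgroup.subgroupOfEquivOfLe hCL).symm
  · apply le_antisymm _ Subgroup.le_normalizer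
    intro x hx
    rw [Subgroup.mem_subgroupOf]
    apply hself _ (hLK x.2)
    rw [Subgroup.mem_normalizer_iff] at hx ⊢
    intro h
    constructor
    · intro hh
      have h1 := (hx ⟨h, hCL hh⟩).mp (Subgroup.mem_subgroupOf.mpr hh)
      exact Subgroup.mem_subgroupOf.mp h1
    · intro hh
      have hhL : h ∈ L := by
        have h1 : (x : G)⁻¹ * ((x : G) * h * (x : G)⁻¹) * (x : G) ∈ L :=
          L.mul_mem (L.mul_mem (L.inv_mem x.2) (hCL hh)) x.2
        simpa [mul_assoc] using h1
      have h1 := (hx ⟨h, hhL⟩).mpr (Subgroup.mem_subgroupOf.mpr hh)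
      exact Subgroup.mem_subgroupOf.mp h1

theorem isC_subgroupOf {G : Type*} [Group G] {C L : Subgroup G} (hCL : C ≤ L) (hC : IsC C) :
    IsC (C.subgroupOf L) := isCR_subgroupOf hCL le_top (isC_top hC)

theorem isC_map_subtype {G : Type*} [Group G] {K : Subgroup G} {C' : Subgroup K} (hC : IsC C') :
    IsCR K (C'.map K.subtype) := by
  obtain ⟨hnil, hnorm⟩ := hC
  refine ⟨?_, Subgroup.map_subtype_le C', ?_⟩
  · haveI := hnil
    exact Group.nilpotent_of_mulEquiv (C'.equivMapOfInjective K.subtype K.subtype_injective)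
  · intro x hxK hx
    have h1 : (⟨x, hxK⟩ : K) ∈ Subgroup.normalizer (C' : Set K) := by
      rw [Subgroup.mem_normalizer_iff] at hx ⊢
      intro h
      have h2 := hx (h : G)
      constructor
      · intro hh
        have h3 := h2.mp (Subgroup.mem_map.mpr ⟨h, hh, rfl⟩)
        obtain ⟨z, hz, hzz⟩ := Subgroup.mem_map.mp h3
        have h4 : z = ⟨x, hxK⟩ * h * ⟨x, hxK⟩⁻¹ := Subtype.ext hzz
        rw [← h4]; exact hz
      · intro hh
        have h3 := h2.mpr (Subgroup.mem_map.mpr ⟨_, hh, rfl⟩)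
        obtain ⟨z, hz, hzz⟩ := Subgroup.mem_map.mp h3
        have h4 : z = h := Subtype.ext hzz
        rw [← h4]; exact hz
    rw [hnorm] at h1
    exact Subgroup.mem_map.mpr ⟨_, h1, rfl⟩

theorem eq_of_isC_le_nilpotent {G : Type*} [Group G] {E N : Subgroup G} (hE : IsC E)
    (hEN : E ≤ N) (hN : Group.IsNilpotent N) : E = N := by
  by_contra hne
  have h1 : IsC (E.subgroupOf N) := isC_subgroupOf hEN hE
  have h2 : E.subgroupOf N < ⊤ := by
    rw [lt_top_iff_ne_top]; intro h
    rw [Subgroup.subgroupOf_eq_top] at h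
    exact hne (le_antisymm hEN h)
  haveI := hN
  have h3 := Group.normalizerCondition_of_isNilpotent (G := N) _ h2
  rw [h1.2] at h3
  exact lt_irrefl _ h3

theorem lemmaA {G : Type u} [Group G] [Finite G] (p : ℕ) [Fact p.Prime]
    (P Q : Subgroup G) [hPn : P.Normal] (hP : IsPGroup p P) (hQ : (Nat.card Q).Coprime p)
    (hPQ : P ⊔ Q = ⊤) (hQn : Group.IsNilpotent Q) :
    IsC (Subgroup.normalizer (Q : Set G)) := by
  obtain ⟨NQ, hNQ⟩ : ∃ NQ : Subgroup G, NQ = Subgroup.normalizer (Q : Set G) := ⟨_, rfl⟩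
  rw [← hNQ]
  have hQNQ : Q ≤ NQ := hNQ ▸ Subgroup.le_normalizer
  obtain ⟨R, hR⟩ : ∃ R : Subgroup G, R = P ⊓ NQ := ⟨_, rfl⟩
  have hRNQ : R ≤ NQ := hR ▸ inf_le_right
  have hRP : R ≤ P := hR ▸ inf_le_left
  have hcopPQ : (Nat.card P).Coprime (Nat.card Q) := by
    obtain ⟨k, hk⟩ := IsPGroup.iff_card.mp hP
    rw [hk]; exact Nat.Coprime.pow_left _ hQ.symm
  have hdisj : P ⊓ Q = ⊥ := disjoint_iff.mp (Subgroup.disjoint_of_coprime_natCard hcopPQ)
  have hcomm : ∀ u ∈ R, ∀ b ∈ Q, u * b = b * u := by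
    intro u hu b hb
    have huN : u ∈ Subgroup.normalizer (Q : Set G) := hNQ ▸ hRNQ hu
    have h1 : u * b * u⁻¹ ∈ Q := (Subgroup.mem_normalizer_iff.mp huN b).mp hb
    have h2 : u * b * u⁻¹ * b⁻¹ ∈ Q := Q.mul_mem h1 (Q.inv_mem hb)
    have h3 : u * b * u⁻¹ * b⁻¹ ∈ P := by
      have h4 : u * (b * u⁻¹ * b⁻¹) ∈ P :=
        P.mul_mem (hRP hu) (hPn.conj_mem _ (P.inv_mem (hRP hu)) b)
      simpa [mul_assoc] using h4
    have h4 : u * b * u⁻¹ * b⁻¹ ∈ P ⊓ Q := ⟨h3, h2⟩
    rw [hdisj, Subgroup.mem_bot] at h4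
    calc u * b = u * b * u⁻¹ * b⁻¹ * (b * u) := by group
      _ = b * u := by rw [h4, one_mul]
  have hdec : ∀ g ∈ NQ, ∃ u ∈ R, ∃ a ∈ Q, g = u * a := by
    intro g hg
    have hgt : g ∈ P ⊔ Q := hPQ ▸ Subgroup.mem_top g
    obtain ⟨u, hu, a, ha, rfl⟩ := Subgroup.mem_sup_of_normal_left.mp hgt
    refine ⟨u, ?_, a, ha, rfl⟩
    rw [hR]
    refine ⟨hu, ?_⟩
    have h1 : u * a * a⁻¹ ∈ NQ := NQ.mul_mem hg (NQ.inv_mem (hQNQ ha))
    simpa using h1
  refine ⟨?_, ?_⟩
  · haveI := hQn
    haveI : Group.IsNilpotent R := (hP.to_le hRP).isNilpotent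
    let f1 : R →* NQ := Subgroup.inclusion hRNQ
    let f2 : Q →* NQ := Subgroup.inclusion hQNQ
    have hc : ∀ (m : R) (n : Q), Commute (f1 m) (f2 n) := by
      intro m n
      apply Subtype.ext
      exact hcomm m m.2 n n.2
    apply Group.nilpotent_of_surjective (f1.noncommCoprod f2 hc)
    intro g
    obtain ⟨u, hu, a, ha, hg⟩ := hdec g g.2
    refine ⟨(⟨u, hu⟩, ⟨a, ha⟩), ?_⟩
    apply Subtype.ext
    rw [MonoidHom.noncommCoprod_apply]
    exact hg.symm
  · apply le_antisymm _ Subgroup.le_normalizer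
    intro g hg
    rw [hNQ]
    apply mem_normalizer_of_conj_mem
    intro a ha
    have h1 : g * a * g⁻¹ ∈ NQ := (Subgroup.mem_normalizer_iff.mp hg a).mp (hQNQ ha)
    obtain ⟨u, hu, a', ha', hx⟩ := hdec _ h1
    have hcua : Commute u a' := hcomm u hu a' ha'
    have hpowQ : ∀ b ∈ Q, b ^ Nat.card Q = 1 := by
      intro b hb
      have h2 := pow_card_eq_one' (G := Q) (x := ⟨b, hb⟩)
      exact congrArg Subtype.val h2
    have hpow : (g * a * g⁻¹) ^ Nat.card Q = 1 := by
      rw [conj_pow, hpowQ a ha]; group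
    rw [hx, hcua.mul_pow, hpowQ a' ha', mul_one] at hpow
    have hu1 : u = 1 := by
      obtain ⟨k, hk⟩ := (IsPGroup.iff_orderOf.mp hP) ⟨u, hRP hu⟩
      rw [Subgroup.orderOf_mk] at hk
      have hd : orderOf u ∣ Nat.card Q := orderOf_dvd_of_pow_eq_one hpow
      have hcop : Nat.Coprime (orderOf u) (Nat.card Q) := by
        rw [hk]; exact Nat.Coprime.pow_left _ hQ.symm
      exact orderOf_eq_one_iff.mp (Nat.Coprime.eq_one_of_dvd hcop hd)
    rw [hx, hu1, one_mul]; exact ha'

theorem lemmaB {G : Type u} [Group G] [Finite G] (p : ℕ) [Fact p.Prime] (M : Subgroup G)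
    [M.Normal] (hM : IsPGroup p M) (hnil : Group.IsNilpotent (G ⧸ M)) :
    ∃ P : Subgroup G, P.Normal ∧ IsPGroup p P ∧ M ≤ P ∧ (P.index).Coprime p := by
  have hsyl := ((Group.isNilpotent_of_finite_tfae (G := G ⧸ M)).out 0 3).mp hnil
  obtain ⟨Pb⟩ : Nonempty (Sylow p (G ⧸ M)) := inferInstance
  have hPbn : (Pb : Subgroup (G ⧸ M)).Normal := hsyl p inferInstance Pb
  refine ⟨(Pb : Subgroup (G ⧸ M)).comap (QuotientGroup.mk' M), hPbn.comap _, ?_, ?_, ?_⟩
  · apply IsPGroup.comap_of_ker_isPGroup Pb.isPGroup'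
    rw [QuotientGroup.ker_mk']; exact hM
  · intro x hx
    rw [Subgroup.mem_comap, QuotientGroup.mk'_apply, (QuotientGroup.eq_one_iff x).mpr hx]
    exact Subgroup.one_mem _
  · rw [Subgroup.index_comap_of_surjective _ (QuotientGroup.mk'_surjective M)]
    exact ((Nat.Prime.coprime_iff_not_dvd (Fact.out)).mpr Pb.not_dvd_index).symm

theorem exists_compl {G : Type u} [Group G] [Finite G] (p : ℕ) [Fact p.Prime] (P : Subgroup G)
    [P.Normal] (hP : IsPGroup p P) (hidx : (P.index).Coprime p) :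
    ∃ Q : Subgroup G, Nat.card Q = P.index ∧ P ⊔ Q = ⊤ := by
  have hcop : (Nat.card P).Coprime P.index := by
    obtain ⟨k, hk⟩ := IsPGroup.iff_card.mp hP
    rw [hk]; exact Nat.Coprime.pow_left _ hidx.symm
  obtain ⟨Q, hQ⟩ := Subgroup.exists_left_complement'_of_coprime hcop
  refine ⟨Q, ?_, ?_⟩
  · have h1 := hQ.card_mul_card
    have h2 := P.card_mul_index
    have hpos : 0 < Nat.card P := Nat.card_pos
    exact Nat.eq_of_mul_eq_mul_right hpos (h1.trans (h2.symm.trans (mul_comm _ _)))
  · rw [sup_comm]; exact hQ.sup_eq_top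

theorem lemmaQ {G : Type u} [Group G] [Finite G] [Group.IsSolvable G] (p : ℕ) [Fact p.Prime]
    (P E : Subgroup G) [hPn : P.Normal] (hP : IsPGroup p P) (hidx : (P.index).Coprime p)
    (hE : Group.IsNilpotent E) (hEP : E ⊔ P = ⊤) :
    ∃ Q : Subgroup G, Q ≤ E ∧ Nat.card Q = P.index ∧ E ≤ Subgroup.normalizer (Q : Set G) := by
  have h1 := Cfsg.Agent.Lib.Helper7.card_sup_mul_card_inf E P
  rw [hEP, Subgroup.card_top] at h1
  have h2 := P.card_mul_index
  have hPE : IsPGroup p (P.subgroupOf E) := hP.comap_subtype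
  have hcardPE : Nat.card (P.subgroupOf E) = Nat.card (P ⊓ E : Subgroup G) := by
    rw [← Subgroup.inf_subgroupOf_right, Cfsg.Agent.Lib.Lead.card_subgroupOf_of_le inf_le_right]
  have hcardE : Nat.card E = P.index * Nat.card (P.subgroupOf E) := by
    rw [hcardPE]
    have hpos : 0 < Nat.card P := Nat.card_pos
    apply Nat.eq_of_mul_eq_mul_left hpos
    rw [← mul_assoc, h2, h1, mul_comm]
  have hcop : (P.index).Coprime (Nat.card (P.subgroupOf E)) := by
    obtain ⟨k, hk⟩ := IsPGroup.iff_card.mp hPE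
    rw [hk]; exact Nat.Coprime.pow_right _ hidx
  obtain ⟨Q', hQ', -⟩ := Cfsg.Agent.Lib.Lead.hallD_all _ E rfl P.index
    (Nat.card (P.subgroupOf E)) hcardE hcop ⊥
    (by rw [Subgroup.card_bot]; exact Nat.coprime_one_left _)
  have hsup : P.subgroupOf E ⊔ Q' = ⊤ := by
    apply Subgroup.IsComplement'.sup_eq_top
    apply Subgroup.isComplement'_of_coprime
    · rw [hQ', hcardE, mul_comm]
    · rw [hQ']; exact hcop.symm
  refine ⟨Q'.map E.subtype, Subgroup.map_subtype_le Q', ?_, ?_⟩
  · rw [Subgroup.card_map_of_injective E.subtype_injective, hQ']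
  · intro e he
    apply mem_normalizer_of_conj_mem
    intro x hx
    obtain ⟨x', hx', rfl⟩ := Subgroup.mem_map.mp hx
    have het : (⟨e, he⟩ : E) ∈ P.subgroupOf E ⊔ Q' := hsup ▸ Subgroup.mem_top _
    obtain ⟨u, hu, q, hq, hmul⟩ := Subgroup.mem_sup_of_normal_left.mp het
    have hmem : q * x' * q⁻¹ ∈ Q' := Q'.mul_mem (Q'.mul_mem hq hx') (Q'.inv_mem hq)
    have hcomm : Commute u (q * x' * q⁻¹) := by
      obtain ⟨i, hi⟩ := (IsPGroup.iff_orderOf.mp hPE) ⟨u, hu⟩
      apply Cfsg.Agent.Lib.Helper6.commute_of_pelt_of_coprime hE (p := p) (i := i)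
      · rw [Subgroup.orderOf_mk] at hi; exact hi
      · have hd : orderOf (q * x' * q⁻¹) ∣ Nat.card Q' := by
          have h3 := orderOf_dvd_natCard (⟨_, hmem⟩ : Q')
          rwa [Subgroup.orderOf_mk] at h3
        exact Nat.Coprime.coprime_dvd_left hd (hQ' ▸ hidx)
    refine Subgroup.mem_map.mpr ⟨q * x' * q⁻¹, hmem, ?_⟩
    have h3 : (⟨e, he⟩ : E) * x' * (⟨e, he⟩ : E)⁻¹ = q * x' * q⁻¹ := by
      rw [← hmul]
      calc u * q * x' * (u * q)⁻¹ = u * (q * x' * q⁻¹) * u⁻¹ := by group
        _ = (q * x' * q⁻¹) * u * u⁻¹ := by rw [hcomm.eq]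
        _ = q * x' * q⁻¹ := by group
    have h4 := congrArg Subtype.val h3
    simpa using h4.symm

theorem carter_eq_normalizer {G : Type u} [Group G] [Finite G] [Group.IsSolvable G] (p : ℕ)
    [Fact p.Prime] (P E : Subgroup G) [P.Normal] (hP : IsPGroup p P)
    (hidx : (P.index).Coprime p) (hE : IsC E) (hEP : E ⊔ P = ⊤) :
    ∃ Q : Subgroup G, Nat.card Q = P.index ∧ E = Subgroup.normalizer (Q : Set G) := by
  obtain ⟨Q, hQE, hcard, hEN⟩ := lemmaQ p P E hP hidx hE.1 hEP
  refine ⟨Q, hcard, ?_⟩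
  have hQnil : Group.IsNilpotent Q := by
    haveI := hE.1
    exact Group.nilpotent_of_mulEquiv (Subgroup.subgroupOfEquivOfLe hQE)
  have hcop : (Nat.card P).Coprime (Nat.card Q) := by
    rw [hcard]; obtain ⟨k, hk⟩ := IsPGroup.iff_card.mp hP
    rw [hk]; exact Nat.Coprime.pow_left _ hidx.symm
  have hPQ : P ⊔ Q = ⊤ := by
    apply Subgroup.IsComplement'.sup_eq_top
    apply Subgroup.isComplement'_of_coprime
    · rw [hcard]; exact P.card_mul_index
    · exact hcop
  have hA := lemmaA p P Q hP (hcard ▸ hidx) hPQ hQnil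
  exact eq_of_isC_le_nilpotent hE hEN hA.1

theorem main : ∀ (n : ℕ) (G : Type u) [Group G] [Finite G] [Group.IsSolvable G], Nat.card G = n →
    (∃ C : Subgroup G, IsC C) ∧
    (∀ C D : Subgroup G, IsC C → IsC D → ∃ g : G, MulAut.conj g • C = D) := by
  intro n
  induction n using Nat.strong_induction_on with
  | _ n ih =>
  intro G _ _ _ hn
  by_cases htriv : Subsingleton G
  · refine ⟨⟨⊤, inferInstance, Subgroup.normalizer_eq_top_iff.mpr inferInstance⟩, ?_⟩
    intro C D _ _
    refine ⟨1, ?_⟩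
    ext x
    rw [Subsingleton.elim x 1]
    simp [Subgroup.one_mem]
  · rw [not_subsingleton_iff_nontrivial] at htriv
    obtain ⟨p, hp, M, hMn, hM1, hMp⟩ := Cfsg.Agent.Lib.Lead.exists_normal_pgroup_of_solvable G
    haveI := Fact.mk hp
    haveI := hMn
    have hcardQ : Nat.card (G ⧸ M) < n := by
      have h1 := M.card_mul_index
      have h2 : 1 < Nat.card M := by
        rw [Finite.one_lt_card_iff_nontrivial]
        exact (Subgroup.nontrivial_iff_ne_bot M).mpr hM1
      have h3 : 0 < M.index := Nat.pos_of_ne_zero Subgroup.index_ne_zero_of_finite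
      rw [← hn, ← h1]
      show M.index < _
      nlinarith
    have ihQ := ih _ hcardQ (G ⧸ M) rfl
    have ihS : ∀ K : Subgroup G, K ≠ ⊤ → (∃ C : Subgroup K, IsC C) ∧
        (∀ C D : Subgroup K, IsC C → IsC D → ∃ g : K, MulAut.conj g • C = D) := by
      intro K hK
      have hlt : Nat.card K < n := by
        rw [← hn]
        exact lt_of_le_of_ne (Subgroup.card_le_card_group K)
          (fun h => hK ((Subgroup.card_eq_iff_eq_top K).mp h))
      exact ih _ hlt K rfl
    -- image lemma (relative form)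
    have himgR : ∀ K C : Subgroup G, M ≤ K → IsCR K C → ∀ x ∈ K,
        x ∈ Subgroup.normalizer ((C ⊔ M : Subgroup G) : Set G) → x ∈ C ⊔ M := by
      intro K C hMK hC x hxK hx
      by_cases hL : C ⊔ M = ⊤
      · rw [hL]; exact Subgroup.mem_top x
      · obtain ⟨L, hLdef⟩ : ∃ L : Subgroup G, L = C ⊔ M := ⟨_, rfl⟩
        rw [← hLdef] at hx hL ⊢
        have hCL : C ≤ L := hLdef ▸ le_sup_left
        have hLK : L ≤ K := hLdef ▸ sup_le hC.2.1 hMK
        have hDL : MulAut.conj x • C ≤ L := by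
          intro y hy
          rw [Cfsg.Agent.Lib.Lead.mem_conj_smul] at hy
          have h1 : x * (x⁻¹ * y * x) * x⁻¹ ∈ L :=
            (Subgroup.mem_normalizer_iff.mp hx _).mp (hCL hy)
          simpa [mul_assoc] using h1
        obtain ⟨l, hl⟩ := (ihS L hL).2 _ _ (isCR_subgroupOf hCL hLK hC)
          (isCR_subgroupOf hDL hLK (isCR_conj x hxK hC))
        have h2 := Cfsg.Agent.Lib.Lead.conj_smul_eq_of_subgroupOf hCL hDL l hl
        have h3 : (l : G)⁻¹ * x ∈ Subgroup.normalizer (C : Set G) := by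
          apply mem_normalizer_of_conj_mem
          intro c hc
          have h4 : x * c * x⁻¹ ∈ MulAut.conj (l : G) • C := by
            rw [h2, Cfsg.Agent.Lib.Lead.mem_conj_smul]
            have h5 : x⁻¹ * (x * c * x⁻¹) * x = c := by group
            rw [h5]; exact hc
          rw [Cfsg.Agent.Lib.Lead.mem_conj_smul] at h4
          have h5 : (l : G)⁻¹ * x * c * ((l : G)⁻¹ * x)⁻¹ = (l : G)⁻¹ * (x * c * x⁻¹) * (l : G) := by
            group
          rw [h5]; exact h4
        have h4 := hC.2.2 _ (K.mul_mem (K.inv_mem (hLK l.2)) hxK) h3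
        have h5 : x = (l : G) * ((l : G)⁻¹ * x) := by group
        rw [h5]; exact L.mul_mem l.2 (hCL h4)
    have himg : ∀ C : Subgroup G, IsC C →
        Subgroup.normalizer ((C ⊔ M : Subgroup G) : Set G) = C ⊔ M := by
      intro C hC
      apply le_antisymm _ Subgroup.le_normalizer
      intro x hx
      exact himgR ⊤ C le_top (isC_top hC) x (Subgroup.mem_top x) hx
    have hquot : ∀ C : Subgroup G, IsC C → IsC (C.map (QuotientGroup.mk' M)) := by
      intro C hC
      refine ⟨?_, ?_⟩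
      · haveI := hC.1
        exact Group.nilpotent_of_surjective _ ((QuotientGroup.mk' M).subgroupMap_surjective C)
      · apply Subgroup.comap_injective (QuotientGroup.mk'_surjective M)
        rw [Subgroup.comap_normalizer_eq_of_surjective _ (QuotientGroup.mk'_surjective M),
          Subgroup.comap_map_eq, QuotientGroup.ker_mk']
        exact himg C hC
    have hexists : ∃ C : Subgroup G, IsC C := by
      obtain ⟨Kb, hKb⟩ := ihQ.1
      by_cases hKb_top : Kb = ⊤
      · subst hKb_top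
        have hnil : Group.IsNilpotent (G ⧸ M) := by
          haveI := hKb.1
          exact Group.nilpotent_of_mulEquiv Subgroup.topEquiv
        obtain ⟨P, hPn, hPp, hMP, hidx⟩ := lemmaB p M hMp hnil
        haveI := hPn
        obtain ⟨Q, hQc, hPQ⟩ := exists_compl p P hPp hidx
        have hcop : (Nat.card P).Coprime (Nat.card Q) := by
          rw [hQc]; obtain ⟨k, hk⟩ := IsPGroup.iff_card.mp hPp
          rw [hk]; exact Nat.Coprime.pow_left _ hidx.symm
        have hdisj : P ⊓ Q = ⊥ := disjoint_iff.mp (Subgroup.disjoint_of_coprime_natCard hcop)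
        have hQnil : Group.IsNilpotent Q := by
          have hinj : Function.Injective ((QuotientGroup.mk' M).comp Q.subtype) := by
            rw [injective_iff_map_eq_one]
            intro a ha
            have h1 : (a : G) ∈ M := by
              rw [MonoidHom.comp_apply, QuotientGroup.mk'_apply, QuotientGroup.eq_one_iff] at ha
              exact ha
            have h2 : (a : G) ∈ P ⊓ Q := ⟨hMP h1, a.2⟩
            rw [hdisj, Subgroup.mem_bot] at h2
            exact Subtype.ext h2
          haveI := hnil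
          exact Group.nilpotent_of_mulEquiv (MonoidHom.ofInjective hinj).symm
        exact ⟨_, lemmaA p P Q hPp (hQc ▸ hidx) hPQ hQnil⟩
      · obtain ⟨K, hKdef⟩ : ∃ K : Subgroup G, K = Kb.comap (QuotientGroup.mk' M) := ⟨_, rfl⟩
        have hMK : M ≤ K := by
          intro x hx
          rw [hKdef, Subgroup.mem_comap, QuotientGroup.mk'_apply, (QuotientGroup.eq_one_iff x).mpr hx]
          exact Subgroup.one_mem _
        have hKmap : K.map (QuotientGroup.mk' M) = Kb := by
          rw [hKdef]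
          exact Subgroup.map_comap_eq_self_of_surjective (QuotientGroup.mk'_surjective M) Kb
        have hK : K ≠ ⊤ := by
          intro h
          apply hKb_top
          rw [← hKmap, h]
          exact Subgroup.map_top_of_surjective _ (QuotientGroup.mk'_surjective M)
        have hKnorm : Subgroup.normalizer (K : Set G) = K := by
          rw [hKdef, ← Subgroup.comap_normalizer_eq_of_surjective _ (QuotientGroup.mk'_surjective M),
            hKb.2]
        obtain ⟨C', hC'⟩ := (ihS K hK).1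
        have hCR := isC_map_subtype hC'
        obtain ⟨C, hCdef⟩ : ∃ C : Subgroup G, C = C'.map K.subtype := ⟨_, rfl⟩
        rw [← hCdef] at hCR
        obtain ⟨L, hLdef⟩ : ∃ L : Subgroup G, L = C ⊔ M := ⟨_, rfl⟩
        have hLK : L ≤ K := hLdef ▸ sup_le hCR.2.1 hMK
        have hML : M ≤ L := hLdef ▸ le_sup_right
        have hcomapL : (L.map (QuotientGroup.mk' M)).comap (QuotientGroup.mk' M) = L := by
          rw [Subgroup.comap_map_eq, QuotientGroup.ker_mk']
          exact sup_eq_left.mpr hML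
        -- step 2 : L = K
        have hLeqK : L = K := by
          by_contra hne
          obtain ⟨Lb, hLbdef⟩ : ∃ Lb : Subgroup (G ⧸ M), Lb = L.map (QuotientGroup.mk' M) :=
            ⟨_, rfl⟩
          have hLbKb : Lb ≤ Kb := by
            rw [hLbdef, ← hKmap]; exact Subgroup.map_mono hLK
          have hlt : Lb.subgroupOf Kb < ⊤ := by
            rw [lt_top_iff_ne_top]; intro h
            rw [Subgroup.subgroupOf_eq_top] at h
            apply hne
            apply le_antisymm hLK
            intro x hx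
            rw [← hcomapL, Subgroup.mem_comap, ← hLbdef]
            apply h
            rw [← hKmap]
            exact Subgroup.mem_map_of_mem _ hx
          haveI := hKb.1
          have h3 := Group.normalizerCondition_of_isNilpotent (G := Kb) _ hlt
          obtain ⟨xb, hxb, hxbL⟩ := SetLike.exists_of_lt h3
          obtain ⟨x, hx⟩ := QuotientGroup.mk'_surjective M (xb : G ⧸ M)
          have hxK : x ∈ K := by
            rw [hKdef, Subgroup.mem_comap, hx]; exact xb.2
          have hxN : x ∈ Subgroup.normalizer (L : Set G) := by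
            apply mem_normalizer_of_conj_mem
            intro y hy
            have hyb : QuotientGroup.mk' M y ∈ Lb := by
              rw [hLbdef]; exact Subgroup.mem_map_of_mem _ hy
            have h4 := (Subgroup.mem_normalizer_iff.mp hxb ⟨_, hLbKb hyb⟩).mp
              (Subgroup.mem_subgroupOf.mpr hyb)
            have h5 : QuotientGroup.mk' M (x * y * x⁻¹) ∈ Lb := by
              have h6 := Subgroup.mem_subgroupOf.mp h4
              rw [map_mul, map_mul, map_inv, hx]
              exact h6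
            rw [← hcomapL, Subgroup.mem_comap, ← hLbdef]
            exact h5
          have hxL : x ∈ L := by
            have h4 := himgR K C hMK hCR x hxK (hLdef ▸ hxN)
            rw [hLdef]; exact h4
          apply hxbL
          rw [Subgroup.mem_subgroupOf, ← hx, hLbdef]
          exact Subgroup.mem_map_of_mem _ hxL
        refine ⟨C, hCR.1, ?_⟩
        apply le_antisymm _ Subgroup.le_normalizer
        intro g hg
        have hgK : g ∈ K := by
          rw [← hKnorm, ← hLeqK, hLdef]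
          apply mem_normalizer_of_conj_mem
          intro y hy
          obtain ⟨c, hc, m, hm, rfl⟩ := Subgroup.mem_sup_of_normal_right.mp hy
          have h1 : g * (c * m) * g⁻¹ = (g * c * g⁻¹) * (g * m * g⁻¹) := by group
          rw [h1]
          exact Subgroup.mul_mem_sup ((Subgroup.mem_normalizer_iff.mp hg c).mp hc)
            (hMn.conj_mem m hm g)
        exact hCR.2.2 g hgK hg
    have hconj : ∀ C D : Subgroup G, IsC C → IsC D → ∃ g : G, MulAut.conj g • C = D := by
      intro C D hC hD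
      obtain ⟨gb, hgb⟩ := ihQ.2 _ _ (hquot C hC) (hquot D hD)
      obtain ⟨g, rfl⟩ := QuotientGroup.mk'_surjective M gb
      obtain ⟨C1, hC1def⟩ : ∃ C1 : Subgroup G, C1 = MulAut.conj g • C := ⟨_, rfl⟩
      have hC1 : IsC C1 := hC1def ▸ isC_conj g hC
      have hsup : C1 ⊔ M = D ⊔ M := by
        have h1 : C1.map (QuotientGroup.mk' M) = D.map (QuotientGroup.mk' M) := by
          rw [hC1def, Cfsg.Agent.Lib.Lead.map_conj_smul]; exact hgb
        have h2 := congrArg (Subgroup.comap (QuotientGroup.mk' M)) h1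
        rwa [Subgroup.comap_map_eq, Subgroup.comap_map_eq, QuotientGroup.ker_mk'] at h2
      suffices h : ∃ h : G, MulAut.conj h • C1 = D by
        obtain ⟨h, hh⟩ := h
        refine ⟨h * g, ?_⟩
        rw [map_mul, mul_smul, ← hC1def]; exact hh
      by_cases hL : C1 ⊔ M = ⊤
      · have hnil : Group.IsNilpotent (G ⧸ M) := by
          haveI := hC1.1
          apply Group.nilpotent_of_surjective ((QuotientGroup.mk' M).comp C1.subtype)
          intro y
          obtain ⟨x, rfl⟩ := QuotientGroup.mk'_surjective M y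
          have hx : x ∈ C1 ⊔ M := hL ▸ Subgroup.mem_top x
          obtain ⟨c, hc, m, hm, rfl⟩ := Subgroup.mem_sup_of_normal_right.mp hx
          refine ⟨⟨c, hc⟩, ?_⟩
          rw [MonoidHom.comp_apply, QuotientGroup.mk'_apply, QuotientGroup.mk'_apply]
          apply QuotientGroup.eq.mpr
          have h1 : (C1.subtype ⟨c, hc⟩)⁻¹ * (c * m) = m := by
            show c⁻¹ * (c * m) = m
            group
          rw [h1]; exact hm
        obtain ⟨P, hPn, hPp, hMP, hidx⟩ := lemmaB p M hMp hnil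
        haveI := hPn
        have hC1P : C1 ⊔ P = ⊤ := top_le_iff.mp (hL ▸ sup_le_sup_left hMP C1)
        have hDP : D ⊔ P = ⊤ := top_le_iff.mp ((hsup ▸ hL) ▸ sup_le_sup_left hMP D)
        obtain ⟨Q1, hQ1c, hQ1⟩ := carter_eq_normalizer p P C1 hPp hidx hC1 hC1P
        obtain ⟨Q2, hQ2c, hQ2⟩ := carter_eq_normalizer p P D hPp hidx hD hDP
        have hG : Nat.card G = P.index * Nat.card P := by
          rw [mul_comm]; exact P.card_mul_index.symm
        have hcop : (P.index).Coprime (Nat.card P) := by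
          obtain ⟨k, hk⟩ := IsPGroup.iff_card.mp hPp
          rw [hk]; exact Nat.Coprime.pow_right _ hidx
        obtain ⟨h, hh⟩ := Cfsg.Agent.Lib.Lead.hallC_all _ G rfl P.index (Nat.card P) hG hcop Q1 Q2
          hQ1c hQ2c
        refine ⟨h, ?_⟩
        rw [hQ1, hQ2, ← hh, normalizer_conj]
      · obtain ⟨L, hLdef⟩ : ∃ L : Subgroup G, L = C1 ⊔ M := ⟨_, rfl⟩
        have hC1L : C1 ≤ L := hLdef ▸ le_sup_left
        have hDL : D ≤ L := by rw [hLdef, hsup]; exact le_sup_left
        obtain ⟨l, hl⟩ := (ihS L (hLdef ▸ hL)).2 _ _ (isC_subgroupOf hC1L hC1)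
          (isC_subgroupOf hDL hD)
        exact ⟨l, Cfsg.Agent.Lib.Lead.conj_smul_eq_of_subgroupOf hC1L hDL l hl⟩
    exact ⟨hexists, hconj⟩

theorem result {G : Type*} [Group G] [Finite G] [Group.IsSolvable G] :
    (∃ C : Subgroup G, Group.IsNilpotent C ∧ Subgroup.normalizer (C : Set G) = C) ∧
    ∀ C D : Subgroup G, Group.IsNilpotent C → Subgroup.normalizer (C : Set G) = C →
      Group.IsNilpotent D → Subgroup.normalizer (D : Set G) = D → ∃ g : G, MulAut.conj g • C = D := by
  obtain ⟨h1, h2⟩ := main _ G rfl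
  exact ⟨h1, fun C D a b c d => h2 C D ⟨a, b⟩ ⟨c, d⟩⟩

end Cfsg.Agent.S0045
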