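import Cfsg.Statements.S4333
import Mathlib
import Cfsg.Agent.Lib.Helper6.WZipper

set_option autoImplicit false
open Pointwise
open Cfsg

namespace Cfsg.Agent.S4333

universe u

open scoped Pointwise in
theorem aux : ∀ (n : ℕ) (G : Type u) [Group G] [Finite G], Nat.card G = n → ∀ A : Subgroup G,
    (∀ a ∈ A, ∀ g : G, (A.subgroupOf (A ⊔ MulAut.conj (g⁻¹ * a * g) • A)).IsSubnormal) →
    A.IsSubnormal := by
  intro n
  induction n using Nat.strong_induction_on with
  | _ n ih =>
  intro G _ _ hn A h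
  by_contra hns
  have hstar : ∀ H : Subgroup G, H ≠ ⊤ → A ≤ H → (A.subgroupOf H).IsSubnormal := by
    intro H hH hAH
    have hlt : Nat.card H < n := by
      rw [← hn]
      have := Cfsg.Agent.Lib.Helper6.card_lt_card_of_lt (lt_top_iff_ne_top.mpr hH)
      rwa [Subgroup.card_top] at this
    apply ih _ hlt ↥H rfl
    intro a ha g
    have h1 := h (a : G) (Subgroup.mem_subgroupOf.mp ha) (g : G)
    refine Cfsg.Agent.Lib.Helper6.isSubnormal_subgroupOf_of_hom H.subtype (A.subgroupOf H) _ A _
      ?_ ?_ h1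
    · intro z hz
      have hle : A.subgroupOf H ⊔ MulAut.conj (g⁻¹ * a * g) • A.subgroupOf H ≤
          (A ⊔ MulAut.conj ((g : G)⁻¹ * (a : G) * (g : G)) • A).comap H.subtype := by
        apply sup_le
        · intro w hw
          rw [Subgroup.mem_comap]
          exact Subgroup.mem_sup_left (Subgroup.mem_subgroupOf.mp hw)
        · intro w hw
          rw [Cfsg.Agent.Lib.Helper6.mem_conj_smul_iff] at hw
          rw [Subgroup.mem_comap]
          apply Subgroup.mem_sup_right
          rw [Cfsg.Agent.Lib.Helper6.mem_conj_smul_iff]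
          have := Subgroup.mem_subgroupOf.mp hw
          simpa using this
      exact hle hz
    · intro z _
      exact Subgroup.mem_subgroupOf
  have hAtop : A ≠ ⊤ := fun h' => hns (h' ▸ Subgroup.IsSubnormal.top)
  obtain ⟨M, hM, hAM⟩ := (eq_top_or_exists_le_coatom A).resolve_left hAtop
  have huniq := Cfsg.Agent.Lib.Helper6.wielandt_zipper _ A rfl hstar hns
  have hxM : ∀ a ∈ A, ∀ g : G, g⁻¹ * a * g ∈ Subgroup.normalizer (M : Set G) := by
    intro a ha g
    have h1 := h a ha g
    generalize g⁻¹ * a * g = x at h1 ⊢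
    have hJ : A ⊔ MulAut.conj x • A ≠ ⊤ := by
      intro hJ
      rw [hJ] at h1
      exact hns (Subgroup.IsSubnormal.trans le_top h1 Subgroup.IsSubnormal.top)
    obtain ⟨M', hM', hJM'⟩ := (eq_top_or_exists_le_coatom _).resolve_left hJ
    have hM'M : M' = M := huniq M' M hM' hM (le_sup_left.trans hJM') hAM
    rw [hM'M] at hJM'
    have hcM : MulAut.conj x • A ≤ M := le_sup_right.trans hJM'
    have hA' : A ≤ MulAut.conj x⁻¹ • M := by
      intro s hs
      rw [Cfsg.Agent.Lib.Helper6.mem_conj_smul_iff]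
      have h2 : x * s * x⁻¹ ∈ MulAut.conj x • A := by
        rw [Cfsg.Agent.Lib.Helper6.mem_conj_smul_iff]
        have e : x⁻¹ * (x * s * x⁻¹) * x = s := by group
        rw [e]; exact hs
      simpa using hcM h2
    have hM2 : MulAut.conj x⁻¹ • M ≠ ⊤ := by
      intro htop
      apply hM.1
      rw [eq_top_iff]
      intro y _
      have h2 : x⁻¹ * y * x⁻¹⁻¹ ∈ MulAut.conj x⁻¹ • M := by rw [htop]; trivial
      rw [Cfsg.Agent.Lib.Helper6.mem_conj_smul_iff] at h2
      have e : x⁻¹⁻¹ * (x⁻¹ * y * x⁻¹⁻¹) * x⁻¹ = y := by group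
      rwa [e] at h2
    obtain ⟨M₃, hM₃, hle₃⟩ := (eq_top_or_exists_le_coatom _).resolve_left hM2
    have hM₃M : M₃ = M := huniq M₃ M hM₃ hM (hA'.trans hle₃) hAM
    rw [hM₃M] at hle₃
    have h3 : x⁻¹ ∈ Subgroup.normalizer (M : Set G) := by
      apply Cfsg.Agent.Lib.Helper6.mem_normalizer_of_conj_mem
      intro m hm
      apply hle₃
      rw [Cfsg.Agent.Lib.Helper6.mem_conj_smul_iff]
      have e : x⁻¹⁻¹ * (x⁻¹ * m * x⁻¹⁻¹) * x⁻¹ = m := by group
      rw [e]; exact hm
    simpa using inv_mem h3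
  have hNC : Subgroup.normalClosure (A : Set G) ≤ Subgroup.normalizer (M : Set G) := by
    rw [Subgroup.normalClosure, Subgroup.closure_le]
    intro y hy
    obtain ⟨a, ha, hya⟩ := Group.mem_conjugatesOfSet_iff.mp hy
    obtain ⟨c, hc⟩ := isConj_iff.mp hya
    have h1 := hxM a ha c⁻¹
    rw [inv_inv] at h1
    rw [← hc]; exact h1
  by_cases hNtop : Subgroup.normalClosure (A : Set G) = ⊤
  · have hMn : M.Normal := Subgroup.normalizer_eq_top_iff.mp (top_le_iff.mp (hNtop ▸ hNC))
    exact hns (Subgroup.IsSubnormal.trans hAM (hstar M hM.1 hAM) hMn.isSubnormal)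
  · have hAN : A ≤ Subgroup.normalClosure (A : Set G) := Subgroup.le_normalClosure
    exact hns (Subgroup.IsSubnormal.trans hAN (hstar _ hNtop hAN)
      (Subgroup.normalClosure_normal).isSubnormal)


/-- Let A be a subgroup of a finite group G. If A is subnormal in the subgroup generated by A and its conjugate by g⁻¹ a g, for every a ∈ A and every g ∈ G, then A is subnormal in G. (A sharpening of Wielandt's subnormality criterion: only conjugates of A by conjugates of elements of A are needed.) -/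
theorem result {G : Type*} [Group G] [Finite G]
    (A : Subgroup G)
    (h : ∀ a ∈ A, ∀ g : G, (A.subgroupOf (A ⊔ MulAut.conj (g⁻¹ * a * g) • A)).IsSubnormal) :
    A.IsSubnormal := by
  exact aux _ G rfl A h

end Cfsg.Agent.S4333
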