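import Cfsg.Statements.S0073
import Mathlib
import Cfsg.Agent.Lib.Lead.PRank
import Cfsg.Agent.Lib.Helper6.AbelSylow
-- import your own Cfsg.Agent.* helpers here

set_option autoImplicit false
open Cfsg

namespace Cfsg.Agent.S0073

/-- For a finite non-abelian simple group, either the cube of the least prime divisor of the order divides the order, or 12 does. -/
theorem result {G : Type*} [Group G] [Finite G] [IsSimpleGroup G] (hG : ∃ x y : G, x * y ≠ y * x) : (Nat.card G).minFac ^ 3 ∣ Nat.card G ∨ 12 ∣ Nat.card G := by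
  classical
  obtain ⟨x, y, hxy⟩ := hG
  have hcard1 : Nat.card G ≠ 1 := by
    intro h
    haveI := (Nat.card_eq_one_iff_unique.mp h).1
    exact hxy (Subsingleton.elim _ _)
  obtain ⟨p, hpdef⟩ : ∃ p, p = (Nat.card G).minFac := ⟨_, rfl⟩
  have hp : p.Prime := hpdef ▸ Nat.minFac_prime hcard1
  haveI : Fact p.Prime := ⟨hp⟩
  have hpd : p ∣ Nat.card G := hpdef ▸ Nat.minFac_dvd _
  rw [← hpdef]
  let P : Sylow p G := default
  obtain ⟨k, hk⟩ : ∃ k, k = (Nat.card G).factorization p := ⟨_, rfl⟩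
  have hPcard : Nat.card (P : Subgroup G) = p ^ k := by rw [hk]; exact Sylow.card_eq_multiplicity P
  have hk1 : 1 ≤ k := hk ▸ hp.factorization_pos_of_dvd Nat.card_pos.ne' hpd
  have hpk : p ^ k ∣ Nat.card G := hk ▸ Nat.ordProj_dvd _ _
  by_cases hk3 : 3 ≤ k
  · left; exact (pow_dvd_pow p hk3).trans hpk
  right
  have hab : ∀ a ∈ (P : Subgroup G), ∀ b ∈ (P : Subgroup G), a * b = b * a := by
    have hk' : k = 1 ∨ k = 2 := by omega
    intro a ha b hb
    rcases hk' with h | h
    · rw [h, pow_one] at hPcard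
      haveI : IsCyclic (P : Subgroup G) := isCyclic_of_prime_card hPcard
      obtain ⟨g, hg⟩ := IsCyclic.exists_generator (α := (P : Subgroup G))
      obtain ⟨m, hm⟩ := Subgroup.mem_zpowers_iff.mp (hg ⟨a, ha⟩)
      obtain ⟨n, hn⟩ := Subgroup.mem_zpowers_iff.mp (hg ⟨b, hb⟩)
      have h1 : (⟨a, ha⟩ : (P : Subgroup G)) * ⟨b, hb⟩ = ⟨b, hb⟩ * ⟨a, ha⟩ := by
        rw [← hm, ← hn, ← zpow_add, ← zpow_add, add_comm]
      exact congrArg Subtype.val h1
    · rw [h] at hPcard
      have h1 := IsPGroup.commutative_of_card_eq_prime_sq hPcard ⟨a, ha⟩ ⟨b, hb⟩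
      exact congrArg Subtype.val h1
  have hNC : ¬ (Subgroup.normalizer ((P : Subgroup G) : Set G) ≤
      Subgroup.centralizer ((P : Subgroup G) : Set G)) := by
    intro h
    have hc := MonoidHom.ker_transferSylow_isComplement' P h
    rcases Subgroup.Normal.eq_bot_or_eq_top (inferInstance : (MonoidHom.transferSylow P h).ker.Normal)
      with h0 | h0
    · rw [h0, Subgroup.isComplement'_bot_left] at hc
      exact hxy (hab x (hc ▸ Subgroup.mem_top x) y (hc ▸ Subgroup.mem_top y))
    · rw [h0, Subgroup.isComplement'_top_left] at hc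
      rw [hc, Subgroup.card_bot] at hPcard
      have h2 : p ^ 1 ≤ p ^ k := Nat.pow_le_pow_right hp.pos hk1
      have := hp.two_le
      rw [pow_one, ← hPcard] at h2
      omega
  by_contra h12
  apply hNC
  apply Cfsg.Agent.Lib.Helper6.normalizer_le_centralizer_of_abelian P hab
  intro q hq hqp hqd i hi1 hi2 hdvd
  have hrank : Group.rank (P : Subgroup G) ≤ k :=
    Cfsg.Agent.Lib.Lead.rank_le_of_card_eq_pow p k hPcard
  have hi2' : i ≤ 2 := by omega
  have hpq : p ≤ q := hpdef ▸ Nat.minFac_le_of_dvd hq.two_le hqd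
  have hpq' : p < q := lt_of_le_of_ne hpq (Ne.symm hqp)
  have hp2le := hp.two_le
  have hi : i = 1 ∨ i = 2 := by omega
  rcases hi with rfl | rfl
  · rw [pow_one] at hdvd
    have h1 : q ≤ p - 1 := Nat.le_of_dvd (by omega) hdvd
    omega
  · have e : p ^ 2 - 1 = (p + 1) * (p - 1) := by
      obtain ⟨m, rfl⟩ : ∃ m, p = m + 1 := ⟨p - 1, by omega⟩
      have e1 : (m + 1) ^ 2 - 1 = (m + 1 + 1) * m := by
        have e2 : (m + 1) ^ 2 = (m + 1 + 1) * m + 1 := by ring
        rw [e2, Nat.add_sub_cancel]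
      rw [e1, Nat.add_sub_cancel]
    rw [e] at hdvd
    rcases (Nat.Prime.dvd_mul hq).mp hdvd with h | h
    · have h1 : q ≤ p + 1 := Nat.le_of_dvd (by omega) h
      have h2 : q = p + 1 := by omega
      have hp2 : p = 2 := by
        rcases hp.eq_two_or_odd with h' | h'
        · exact h'
        · have h3 : 2 ∣ q := by rw [h2]; omega
          have h4 : q = 2 := ((Nat.prime_dvd_prime_iff_eq Nat.prime_two hq).mp h3).symm
          omega
      have hk2 : k = 2 := by omega
      apply h12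
      have h3 : 3 ∣ Nat.card G := by
        rw [hp2] at h2
        have h5 : q = 3 := h2
        exact h5 ▸ hqd
      have h4 : 4 ∣ Nat.card G := by
        rw [hk2, hp2] at hpk
        exact hpk
      exact Nat.Coprime.mul_dvd_of_dvd_of_dvd (by norm_num : Nat.Coprime 4 3) h4 h3
    · have h1 : q ≤ p - 1 := Nat.le_of_dvd (by omega) h
      omega

end Cfsg.Agent.S0073
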