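import Cfsg.Statements.S0079
import Mathlib
import Cfsg.Agent.Lib.Helper6.CFus
import Cfsg.Agent.Lib.Helper6.NilpComm
import Cfsg.Agent.Lib.Helper6.CycSylow

set_option autoImplicit false
open Cfsg

namespace Cfsg.Agent.S0079


open Cfsg.Agent.Lib.Helper6

/-- a `p`-subgroup of index prime to `p` inside a Sylow subgroup is that Sylow subgroup -/
theorem sylow_eq_of_not_dvd_index {G : Type*} [Group G] [Finite G] {p : ℕ} [Fact p.Prime]
    (P : Sylow p G) (U : Subgroup G) (hU : U ≤ (P : Subgroup G)) (hUi : ¬ p ∣ U.index) :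
    (P : Subgroup G) = U := by
  have hp : p.Prime := Fact.out
  apply le_antisymm _ hU
  rw [← Subgroup.relIndex_eq_one]
  have h1 : U.relIndex (P : Subgroup G) ∣ Nat.card (P : Subgroup G) := Subgroup.relIndex_dvd_card _ _
  obtain ⟨k, hk⟩ := IsPGroup.iff_card.mp P.isPGroup'
  rw [hk] at h1
  obtain ⟨j, -, hj⟩ := (Nat.dvd_prime_pow hp).mp h1
  have h2 : U.relIndex (P : Subgroup G) ∣ U.index := Subgroup.relIndex_dvd_index_of_le hU
  rcases Nat.eq_zero_or_pos j with h0 | h0
  · rw [hj, h0, pow_zero]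
  · exfalso
    apply hUi
    refine dvd_trans ?_ h2
    rw [hj]
    exact dvd_pow_self p (by omega)

/-- a nilpotent Hall subgroup controlling fusion of its elements gives normal `p`-complements -/
theorem npc_of_nilpotent_hall {G : Type*} [Group G] [Finite G] (H : Subgroup G)
    (hH : Group.IsNilpotent H) (hHall : Nat.Coprime (Nat.card H) H.index)
    (hfus : ∀ x ∈ H, ∀ y ∈ H, (∃ g : G, g * x * g⁻¹ = y) → ∃ h ∈ H, h * x * h⁻¹ = y)
    (p : ℕ) [Fact p.Prime] (hpH : p ∣ Nat.card H) : Cfsg.HasNormalPComplement p G := by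
  have hp : p.Prime := Fact.out
  let PH : Sylow p ↥H := default
  have hsyl := ((Group.isNilpotent_of_finite_tfae (G := ↥H)).out 0 3).mp hH
  have hPHn : (PH : Subgroup ↥H).Normal := hsyl p inferInstance PH
  have hUp : IsPGroup p ((PH : Subgroup ↥H).map H.subtype) := PH.isPGroup'.map _
  obtain ⟨P, hP⟩ := hUp.exists_le_sylow
  have hidx : ¬ p ∣ ((PH : Subgroup ↥H).map H.subtype).index := by
    rw [Subgroup.index_map_subtype]
    intro hdvd
    rcases (Nat.Prime.dvd_mul hp).mp hdvd with h1 | h1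
    · exact PH.not_dvd_index h1
    · have h2 : p ∣ Nat.gcd (Nat.card H) H.index := Nat.dvd_gcd hpH h1
      rw [hHall] at h2
      exact hp.one_lt.ne' (Nat.dvd_one.mp h2)
  have hPeq : (P : Subgroup G) = (PH : Subgroup ↥H).map H.subtype :=
    sylow_eq_of_not_dvd_index P _ hP hidx
  apply npc_of_ctrlFus P
  intro x hx y hy hconj
  have hx' : x ∈ (PH : Subgroup ↥H).map H.subtype := by rw [← hPeq]; exact hx
  have hy' : y ∈ (PH : Subgroup ↥H).map H.subtype := by rw [← hPeq]; exact hy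
  obtain ⟨x₀, hx₀, rfl⟩ := hx'
  obtain ⟨y₀, hy₀, rfl⟩ := hy'
  obtain ⟨h, hhH, hh⟩ := hfus _ x₀.2 _ y₀.2 hconj
  obtain ⟨a, b, hab, ha, hb, ⟨k, hak⟩, hbcop⟩ := exists_p_decomp' p hp (⟨h, hhH⟩ : ↥H)
  -- `b` commutes with `x₀`
  obtain ⟨i, hi⟩ := (IsPGroup.iff_orderOf.mp PH.isPGroup') ⟨x₀, hx₀⟩
  rw [Subgroup.orderOf_mk] at hi
  have hcomm : Commute x₀ b := commute_of_pelt_of_coprime hH hi hbcop
  -- `a` lies in the normal Sylow subgroup
  have haP : a ∈ (PH : Subgroup ↥H) := by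
    have hzp : IsPGroup p (Subgroup.zpowers a) := by
      apply IsPGroup.of_card (n := k)
      rw [Nat.card_zpowers, hak]
    obtain ⟨Q', hQ'⟩ := hzp.exists_le_sylow
    obtain ⟨g, hg⟩ := MulAction.exists_smul_eq ↥H PH Q'
    haveI := hPHn
    rw [Sylow.smul_eq_of_normal] at hg
    rw [hg]
    exact hQ' (Subgroup.mem_zpowers a)
  refine ⟨(a : G), ?_, ?_⟩
  · show (a : G) ∈ (P : Subgroup G)
    rw [hPeq]; exact ⟨a, haP, rfl⟩
  · show (a : G) * (x₀ : G) * (a : G)⁻¹ = (y₀ : G)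
    rw [← hh]
    have h1 : (h : G) = (a : G) * (b : G) := by
      have := congrArg Subtype.val hab
      simpa using this.symm
    have h2 : (b : G) * (x₀ : G) * (b : G)⁻¹ = (x₀ : G) := by
      have h3 : (x₀ : G) * (b : G) = (b : G) * (x₀ : G) := by
        have := congrArg Subtype.val hcomm.eq
        simpa using this
      calc (b : G) * (x₀ : G) * (b : G)⁻¹ = ((b : G) * (x₀ : G)) * (b : G)⁻¹ := by group
        _ = ((x₀ : G) * (b : G)) * (b : G)⁻¹ := by rw [h3]
        _ = (x₀ : G) := by group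
    rw [h1]
    calc (a : G) * (x₀ : G) * (a : G)⁻¹ = (a : G) * ((b : G) * (x₀ : G) * (b : G)⁻¹) * (a : G)⁻¹ := by
          rw [h2]
      _ = (a : G) * (b : G) * (x₀ : G) * ((a : G) * (b : G))⁻¹ := by group

/-- A nilpotent Hall subgroup has a normal complement exactly when elements of it that are conjugate in the whole group are already conjugate inside it. -/
theorem result {G : Type*} [Group G] [Finite G] (H : Subgroup G) (hH : Group.IsNilpotent H) (hHall : Nat.Coprime (Nat.card H) H.index) : (∃ N : Subgroup G, N.Normal ∧ N.IsComplement' H) ↔ ∀ x ∈ H, ∀ y ∈ H, (∃ g : G, g * x * g⁻¹ = y) → ∃ h ∈ H, h * x * h⁻¹ = y := by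
  constructor
  · rintro ⟨N, hNn, hc⟩ x hx y hy ⟨g, hg⟩
    obtain ⟨⟨⟨n, hn⟩, ⟨h, hh⟩⟩, hnh⟩ := hc.2 g
    have hnh' : n * h = g := hnh
    refine ⟨h, hh, ?_⟩
    have hdis := hc.disjoint
    have h1 : y * (h * x * h⁻¹)⁻¹ ∈ N := by
      have e : y * (h * x * h⁻¹)⁻¹ = n * ((h * x * h⁻¹) * n⁻¹ * (h * x * h⁻¹)⁻¹) := by
        rw [← hg, ← hnh']; group
      rw [e]
      exact mul_mem hn (hNn.conj_mem _ (inv_mem hn) _)
    have h2 : y * (h * x * h⁻¹)⁻¹ ∈ H := mul_mem hy (inv_mem (mul_mem (mul_mem hh hx) (inv_mem hh)))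
    have h3 : y * (h * x * h⁻¹)⁻¹ = 1 := by
      have h4 : y * (h * x * h⁻¹)⁻¹ ∈ N ⊓ H := Subgroup.mem_inf.mpr ⟨h1, h2⟩
      rw [disjoint_iff.mp hdis, Subgroup.mem_bot] at h4
      exact h4
    exact (mul_inv_eq_one.mp h3).symm
  · intro hfus
    have hex : ∀ p : ℕ, ∃ K : Subgroup G, K.Normal ∧
        (p.Prime → p ∣ Nat.card H → (Nat.card K).Coprime p ∧ ∃ e : ℕ, K.index = p ^ e) ∧
        (¬ (p.Prime ∧ p ∣ Nat.card H) → K = ⊤) := by
      intro p
      by_cases hp : p.Prime ∧ p ∣ Nat.card H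
      · haveI : Fact p.Prime := ⟨hp.1⟩
        obtain ⟨P, K, hKn, hc⟩ := npc_of_nilpotent_hall H hH hHall hfus p hp.2
        refine ⟨K, hKn, ?_, fun h => absurd hp h⟩
        intro _ _
        refine ⟨?_, ?_⟩
        · rw [← hc.index_eq_card]
          exact ((Nat.Prime.coprime_iff_not_dvd hp.1).mpr P.not_dvd_index).symm
        · obtain ⟨e, he⟩ := P.isPGroup'.exists_card_eq
          exact ⟨e, by rw [hc.symm.index_eq_card, he]⟩
      · exact ⟨⊤, inferInstance, fun h1 h2 => absurd ⟨h1, h2⟩ hp, fun _ => rfl⟩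
    choose K hKn hK1 hK2 using hex
    obtain ⟨N, hNdef⟩ : ∃ N : Subgroup G, N = ⨅ p : ℕ, K p := ⟨_, rfl⟩
    have hNn : N.Normal := by rw [hNdef]; exact Subgroup.normal_iInf_normal hKn
    have hNle : ∀ p, N ≤ K p := by intro p; rw [hNdef]; exact iInf_le _ p
    have hdis : N ⊓ H = ⊥ := by
      rw [eq_bot_iff]
      intro x hx
      rw [Subgroup.mem_bot]
      obtain ⟨hxN, hxH⟩ := Subgroup.mem_inf.mp hx
      by_contra hx1
      have hord : orderOf x ≠ 1 := fun h => hx1 (orderOf_eq_one_iff.mp h)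
      obtain ⟨p, hp, hpd⟩ := Nat.exists_prime_and_dvd hord
      have hpH : p ∣ Nat.card H := by
        have h1 : orderOf (⟨x, hxH⟩ : ↥H) ∣ Nat.card H := orderOf_dvd_natCard _
        rw [Subgroup.orderOf_mk] at h1
        exact hpd.trans h1
      have hcop := (hK1 p hp hpH).1
      have h2 : orderOf (⟨x, hNle p hxN⟩ : ↥(K p)) ∣ Nat.card (K p) := orderOf_dvd_natCard _
      rw [Subgroup.orderOf_mk] at h2
      have h3 : p ∣ Nat.gcd (Nat.card (K p)) p := Nat.dvd_gcd (hpd.trans h2) dvd_rfl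
      rw [hcop] at h3
      exact hp.one_lt.ne' (Nat.dvd_one.mp h3)
    have hidxcop : (N.index).Coprime H.index := by
      by_contra hnc
      obtain ⟨q, hq, hqd⟩ := Nat.exists_prime_and_dvd hnc
      have hq1 : q ∣ N.index := hqd.trans (Nat.gcd_dvd_left _ _)
      have hq2 : q ∣ H.index := hqd.trans (Nat.gcd_dvd_right _ _)
      haveI : Fact q.Prime := ⟨hq⟩
      have hqH : ¬ q ∣ Nat.card H := by
        intro h1
        have h3 : q ∣ Nat.gcd (Nat.card H) H.index := Nat.dvd_gcd h1 hq2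
        rw [hHall] at h3
        exact hq.one_lt.ne' (Nat.dvd_one.mp h3)
      let Q : Sylow q G := default
      have hQN : (Q : Subgroup G) ≤ N := by
        rw [hNdef]
        apply le_iInf
        intro p
        by_cases hp : p.Prime ∧ p ∣ Nat.card H
        · obtain ⟨hcop, e, he⟩ := hK1 p hp.1 hp.2
          haveI := hKn p
          intro x hx
          rw [← QuotientGroup.eq_one_iff]
          obtain ⟨j, hj⟩ := (IsPGroup.iff_orderOf.mp Q.isPGroup') ⟨x, hx⟩
          rw [Subgroup.orderOf_mk] at hj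
          have h1 : (x : G ⧸ K p) ^ q ^ j = 1 := by
            rw [← QuotientGroup.mk_pow, ← hj, pow_orderOf_eq_one]; rfl
          have h2 : (x : G ⧸ K p) ^ p ^ e = 1 := by
            rw [← he, Subgroup.index_eq_card]; exact pow_card_eq_one'
          have hpq : p ≠ q := by
            rintro rfl
            exact hqH hp.2
          have h3 : (q ^ j).Coprime (p ^ e) :=
            Nat.Coprime.pow _ _ ((Nat.coprime_primes hq hp.1).mpr (Ne.symm hpq))
          have h4 := pow_gcd_eq_one.mpr ⟨h1, h2⟩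
          rwa [Nat.Coprime.gcd_eq_one h3, pow_one] at h4
        · rw [hK2 p hp]; exact le_top
      have h5 : N.index ∣ (Q : Subgroup G).index := Subgroup.index_dvd_of_le hQN
      exact Q.not_dvd_index (hq1.trans h5)
    have hdvd : N.index ∣ Nat.card H := by
      have h1 : N.index ∣ Nat.card H * H.index := by
        rw [Subgroup.card_mul_index]; exact Subgroup.index_dvd_card N
      exact hidxcop.dvd_of_dvd_mul_right h1
    have hle1 : N.index ≤ Nat.card H := Nat.le_of_dvd Nat.card_pos hdvd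
    haveI := hNn
    have hle2 : Nat.card H ≤ N.index := by
      rw [Subgroup.index_eq_card]
      apply Nat.card_le_card_of_injective (fun h : ↥H => ((h : G) : G ⧸ N))
      intro h₁ h₂ heq
      have h1 : (h₁ : G)⁻¹ * (h₂ : G) ∈ N := QuotientGroup.eq.mp heq
      have h2 : (h₁ : G)⁻¹ * (h₂ : G) ∈ N ⊓ H :=
        Subgroup.mem_inf.mpr ⟨h1, mul_mem (inv_mem h₁.2) h₂.2⟩
      rw [hdis, Subgroup.mem_bot] at h2
      apply Subtype.ext
      exact (inv_mul_eq_one.mp h2)
    refine ⟨N, hNn, ?_⟩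
    apply Subgroup.isComplement'_of_card_mul_and_disjoint
    · rw [← le_antisymm hle1 hle2, Subgroup.card_mul_index]
    · exact disjoint_iff.mpr hdis

end Cfsg.Agent.S0079
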