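import Cfsg.Statements.S0085
import Mathlib
import Cfsg.Agent.Lib.Lead.PRank
import Cfsg.Agent.Lib.Helper6.AbelSylow
-- import your own Cfsg.Agent.* helpers here

set_option autoImplicit false
open Cfsg

namespace Cfsg.Agent.S0085

/-- A group whose Sylow 2-subgroups are elementary abelian of order 8 and whose order is prime to 3 and to 7 has a normal 2-complement. -/
theorem result {G : Type*} [Group G] [Finite G] (T : Sylow 2 G) (h8 : Nat.card T = 8) (he : ∀ x : T, x * x = 1) (h3 : ¬ 3 ∣ Nat.card G) (h7 : ¬ 7 ∣ Nat.card G) : Cfsg.HasNormalPComplement 2 G := by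
  classical
  haveI : Fact (Nat.Prime 2) := ⟨Nat.prime_two⟩
  have hab : ∀ x ∈ (T : Subgroup G), ∀ y ∈ (T : Subgroup G), x * y = y * x := by
    intro x hx y hy
    have h1 : x * x = 1 := congrArg Subtype.val (he ⟨x, hx⟩)
    have h2 : y * y = 1 := congrArg Subtype.val (he ⟨y, hy⟩)
    have h3 : (x * y) * (x * y) = 1 := congrArg Subtype.val (he (⟨x, hx⟩ * ⟨y, hy⟩))
    calc x * y = (y * y) * (x * y) * (x * x) := by rw [h1, h2, one_mul, mul_one]
      _ = y * ((y * x) * (y * x)) * x := by group
      _ = y * (y * x * (y * x)) * x := rfl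
      _ = y * x := by
        have h4 : (y * x) * (y * x) = 1 := by
          have h5 : y * x = (x * y)⁻¹ := by
            rw [mul_inv_rev, inv_eq_of_mul_eq_one_left h1, inv_eq_of_mul_eq_one_left h2]
          rw [h5, ← mul_inv_rev, h3, inv_one]
        rw [h4, mul_one]
  have hrank : Group.rank (T : Subgroup G) ≤ 3 :=
    Cfsg.Agent.Lib.Lead.rank_le_of_card_eq_pow 2 3 (by rw [h8]; norm_num)
  have hNC := Cfsg.Agent.Lib.Helper6.normalizer_le_centralizer_of_abelian T hab (by
    intro q hq hq2 hqd i hi1 hi2 hdvd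
    have hi3 : i ≤ 3 := hi2.trans hrank
    interval_cases i
    · have h1 : q = 1 := by simpa using hdvd
      exact hq.one_lt.ne' h1
    · have h1 : q = 3 := (Nat.prime_dvd_prime_iff_eq hq Nat.prime_three).mp (by simpa using hdvd)
      exact h3 (h1 ▸ hqd)
    · have h1 : q = 7 := (Nat.prime_dvd_prime_iff_eq hq (by norm_num)).mp (by simpa using hdvd)
      exact h7 (h1 ▸ hqd))
  exact ⟨T, (MonoidHom.transferSylow T hNC).ker, inferInstance,
    MonoidHom.ker_transferSylow_isComplement' T hNC⟩

end Cfsg.Agent.S0085
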