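import Cfsg.Statements.S0112
import Mathlib

set_option autoImplicit false
open Cfsg

namespace Cfsg.Agent.S0112

universe u

theorem aux (p : ℕ) [Fact p.Prime] : ∀ (n : ℕ) (X : Type u) [Group X] [Finite X],
    Nat.card X = p ^ n → ∀ A : Subgroup X, Nat.card A = p ^ 2 →
    Subgroup.centralizer (A : Set X) = A → Group.nilpotencyClass X = n - 1 := by
  have hp : p.Prime := Fact.out
  intro n
  induction n with
  | zero =>
    intro X _ _ hX A hA hC
    exfalso
    have h1 : Nat.card A ∣ Nat.card X := Subgroup.card_subgroup_dvd_card A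
    rw [hA, hX, pow_zero, Nat.dvd_one] at h1
    have : 1 < p ^ 2 := Nat.one_lt_pow (by norm_num) hp.one_lt
    omega
  | succ n ih =>
    intro X _ _ hX A hA hC
    have hXp : IsPGroup p X := IsPGroup.of_card hX
    haveI : Group.IsNilpotent X := hXp.isNilpotent
    haveI : Nontrivial X := by
      rw [← Finite.one_lt_card_iff_nontrivial, hX]
      exact Nat.one_lt_pow (by omega) hp.one_lt
    rw [Group.nilpotencyClass_eq_quotient_center_plus_one]
    have hZA : Subgroup.center X ≤ A := by
      conv_rhs => rw [← hC]
      exact Subgroup.center_le_centralizer _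
    have hAab : ∀ x ∈ A, ∀ y ∈ A, x * y = y * x := by
      intro x hx y hy
      have hy' : y ∈ Subgroup.centralizer (A : Set X) := by rw [hC]; exact hy
      exact (Subgroup.mem_centralizer_iff.mp hy' x hx)
    by_cases hAtop : A = ⊤
    · have hn : n = 1 := by
        have h1 : Nat.card A = Nat.card X := by rw [hAtop, Subgroup.card_top]
        rw [hA, hX] at h1
        have := Nat.pow_right_injective hp.two_le h1
        omega
      have hZtop : Subgroup.center X = ⊤ := by
        rw [eq_top_iff]
        intro x _
        rw [Subgroup.mem_center_iff]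
        intro y
        exact hAab y (hAtop ▸ Subgroup.mem_top y) x (hAtop ▸ Subgroup.mem_top x)
      haveI : Subsingleton (X ⧸ Subgroup.center X) := by
        refine ⟨fun u v => ?_⟩
        obtain ⟨x, rfl⟩ := QuotientGroup.mk_surjective u
        obtain ⟨y, rfl⟩ := QuotientGroup.mk_surjective v
        exact QuotientGroup.eq.mpr (by rw [hZtop]; exact Subgroup.mem_top _)
      rw [Group.nilpotencyClass_zero_iff_subsingleton.mpr inferInstance, hn]
    · obtain ⟨Z, hZdef⟩ : ∃ Z : Subgroup X, Z = Subgroup.center X := ⟨_, rfl⟩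
      haveI hZn : Z.Normal := by rw [hZdef]; infer_instance
      have hZA' : Z ≤ A := hZdef ▸ hZA
      have hZc : ∀ z ∈ Z, ∀ g : X, g * z = z * g := by
        intro z hz g
        rw [hZdef] at hz
        exact Subgroup.mem_center_iff.mp hz g
      have hn2 : 2 ≤ n := by
        have h1 : Nat.card A ∣ Nat.card X := Subgroup.card_subgroup_dvd_card A
        rw [hA, hX] at h1
        have h2 := (Nat.pow_dvd_pow_iff_le_right hp.one_lt).mp h1
        have h3 : n + 1 ≠ 2 := by
          intro h
          apply hAtop
          apply (Subgroup.card_eq_iff_eq_top A).mp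
          rw [hA, hX, h]
        omega
      have hZne : Z ≠ A := by
        intro h
        apply hAtop
        rw [← hC, ← h, hZdef]
        exact Subgroup.centralizer_eq_top_iff_subset.mpr (fun x hx => hx)
      have hcardZ : Nat.card Z = p := by
        obtain ⟨k, hk, hkeq⟩ := (Nat.dvd_prime_pow hp).mp (hA ▸ Subgroup.card_dvd_of_le hZA')
        have hk0 : k ≠ 0 := by
          intro h0; rw [h0, pow_zero] at hkeq
          have h1 := Subgroup.card_eq_one.mp hkeq
          have hnt := hXp.center_nontrivial
          rw [hZdef] at h1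
          exact (Subgroup.nontrivial_iff_ne_bot _).mp hnt h1
        have hk2 : k ≠ 2 := by
          intro h2; rw [h2] at hkeq
          exact hZne (Subgroup.eq_of_le_of_card_ge hZA' (by rw [hkeq, hA]))
        have : k = 1 := by omega
        rw [hkeq, this, pow_one]
      have hcardQ : Nat.card (X ⧸ Z) = p ^ n := by
        have h1 := Subgroup.card_eq_card_quotient_mul_card_subgroup Z
        rw [hX, hcardZ, pow_succ] at h1
        exact (Nat.eq_of_mul_eq_mul_right hp.pos h1).symm
      obtain ⟨a, haA, haZ⟩ : ∃ a ∈ A, a ∉ Z := by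
        by_contra hcon; push_neg at hcon
        exact hZne (le_antisymm hZA' hcon)
      have hAsup : Subgroup.zpowers a ⊔ Z = A := by
        have hle : Subgroup.zpowers a ⊔ Z ≤ A := sup_le (Subgroup.zpowers_le.mpr haA) hZA'
        apply Subgroup.eq_of_le_of_card_ge hle
        have h1 : Z ≠ Subgroup.zpowers a ⊔ Z := fun h =>
          haZ (h ▸ (le_sup_left : Subgroup.zpowers a ≤ _) (Subgroup.mem_zpowers a))
        have h2 : Nat.card Z ∣ Nat.card ↥(Subgroup.zpowers a ⊔ Z) :=
          Subgroup.card_dvd_of_le le_sup_right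
        have h3 : Nat.card ↥(Subgroup.zpowers a ⊔ Z) ∣ Nat.card A := Subgroup.card_dvd_of_le hle
        obtain ⟨k, hk, hkeq⟩ := (Nat.dvd_prime_pow hp).mp (hA ▸ h3)
        have hk1 : k ≠ 1 := by
          intro h; rw [h, pow_one] at hkeq
          exact h1 (Subgroup.eq_of_le_of_card_ge le_sup_right (by rw [hkeq, hcardZ]))
        have hk0 : k ≠ 0 := by
          intro h; rw [h, pow_zero] at hkeq; rw [hkeq, hcardZ] at h2
          exact hp.one_lt.ne' (Nat.dvd_one.mp h2)
        have : k = 2 := by omega
        rw [hA, hkeq, this]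
      have hCa : ∀ g : X, g * a = a * g → g ∈ A := by
        intro g hg
        rw [← hC, Subgroup.mem_centralizer_iff]
        have hle : A ≤ Subgroup.centralizer ({g} : Set X) := by
          rw [← hAsup]
          refine sup_le (Subgroup.zpowers_le.mpr ?_) (hZdef ▸ Subgroup.center_le_centralizer _)
          rw [Subgroup.mem_centralizer_iff]
          intro y hy; rw [Set.mem_singleton_iff.mp hy]; exact hg
        intro h hh
        exact (Subgroup.mem_centralizer_iff.mp (hle hh) g (Set.mem_singleton g)).symm
      obtain ⟨ab, habdef⟩ : ∃ ab : X ⧸ Z, ab = QuotientGroup.mk' Z a := ⟨_, rfl⟩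
      have hab1 : ab ≠ 1 := by
        rw [habdef]; intro h; exact haZ ((QuotientGroup.eq_one_iff a).mp h)
      obtain ⟨Nb, hNbdef⟩ : ∃ Nb : Subgroup (X ⧸ Z), Nb = Subgroup.centralizer {ab} := ⟨_, rfl⟩
      have habN : ab ∈ Nb := by
        rw [hNbdef, Subgroup.mem_centralizer_iff]
        intro y hy; rw [Set.mem_singleton_iff.mp hy]
      obtain ⟨N0, hN0def⟩ : ∃ N0 : Subgroup X, N0 = Nb.comap (QuotientGroup.mk' Z) := ⟨_, rfl⟩
      have hN0z : ∀ g ∈ N0, g * a * g⁻¹ * a⁻¹ ∈ Z := by
        intro g hg
        rw [hN0def, Subgroup.mem_comap, hNbdef, Subgroup.mem_centralizer_iff] at hg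
        have h1 := hg ab (Set.mem_singleton ab)
        rw [habdef] at h1
        rw [← QuotientGroup.eq_one_iff (N := Z)]
        have h2 : ((g * a * g⁻¹ * a⁻¹ : X) : X ⧸ Z) =
            QuotientGroup.mk' Z g * QuotientGroup.mk' Z a * (QuotientGroup.mk' Z g)⁻¹ *
              (QuotientGroup.mk' Z a)⁻¹ := rfl
        rw [h2, ← h1]; group
      obtain ⟨φ, hφ⟩ : ∃ φ : N0 →* Z, ∀ g : N0, ((φ g : Z) : X) = (g : X) * a * (g : X)⁻¹ * a⁻¹ := by
        refine ⟨MonoidHom.mk' (fun g => ⟨(g : X) * a * (g : X)⁻¹ * a⁻¹, hN0z g g.2⟩) ?_, fun g => rfl⟩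
        intro g h
        apply Subtype.ext
        show ((g : X) * (h : X)) * a * ((g : X) * (h : X))⁻¹ * a⁻¹ =
          ((g : X) * a * (g : X)⁻¹ * a⁻¹) * ((h : X) * a * (h : X)⁻¹ * a⁻¹)
        have hz := hZc _ (hN0z h h.2) (g : X)
        calc ((g : X) * (h : X)) * a * ((g : X) * (h : X))⁻¹ * a⁻¹
            = ((g : X) * ((h : X) * a * (h : X)⁻¹ * a⁻¹)) * a * (g : X)⁻¹ * a⁻¹ := by group
          _ = (((h : X) * a * (h : X)⁻¹ * a⁻¹) * (g : X)) * a * (g : X)⁻¹ * a⁻¹ := by rw [hz]
          _ = ((h : X) * a * (h : X)⁻¹ * a⁻¹) * ((g : X) * a * (g : X)⁻¹ * a⁻¹) := by group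
          _ = ((g : X) * a * (g : X)⁻¹ * a⁻¹) * ((h : X) * a * (h : X)⁻¹ * a⁻¹) :=
              (hZc _ (hN0z h h.2) _).symm
      have hker : Nat.card φ.ker ≤ p ^ 2 := by
        rw [← hA]
        have hmem : ∀ g : φ.ker, ((g : N0) : X) ∈ A := by
          intro g
          apply hCa
          have h1 : φ (g : N0) = 1 := g.2
          have h2 : ((g : N0) : X) * a * ((g : N0) : X)⁻¹ * a⁻¹ = 1 := by
            rw [← hφ, h1]; rfl
          calc ((g : N0) : X) * a = (((g : N0) : X) * a * ((g : N0) : X)⁻¹ * a⁻¹) * a * ((g : N0) : X) := by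
                group
            _ = a * ((g : N0) : X) := by rw [h2, one_mul]
        apply Nat.card_le_card_of_injective (fun g : φ.ker => (⟨((g : N0) : X), hmem g⟩ : A))
        intro g h hgh
        have hgh' : (⟨((g : N0) : X), hmem g⟩ : A) = ⟨((h : N0) : X), hmem h⟩ := hgh
        have h3 : ((g : N0) : X) = ((h : N0) : X) := Subtype.mk.inj hgh'
        exact Subtype.ext (Subtype.ext h3)
      have hrange : Nat.card φ.range ≤ p := by
        rw [← hcardZ]
        exact Subgroup.card_le_card_group _
      have hcardN0 : Nat.card N0 ≤ p ^ 3 := by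
        have h1 := Subgroup.card_eq_card_quotient_mul_card_subgroup φ.ker
        have h2 : Nat.card (↥N0 ⧸ φ.ker) = Nat.card φ.range :=
          Nat.card_congr (QuotientGroup.quotientKerEquivRange φ).toEquiv
        rw [h1, h2]
        calc Nat.card φ.range * Nat.card φ.ker ≤ p * p ^ 2 := Nat.mul_le_mul hrange hker
          _ = p ^ 3 := by ring
      have hcardNb_le : Nat.card Nb ≤ p ^ 2 := by
        have h1 : N0.index = Nb.index := by
          rw [hN0def]; exact Subgroup.index_comap_of_surjective _ (QuotientGroup.mk'_surjective Z)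
        have h2 := Subgroup.card_mul_index N0
        have h3 := Subgroup.card_mul_index Nb
        rw [hX, h1] at h2
        rw [hcardQ] at h3
        have h4 : Nat.card N0 * Nb.index = p * (Nat.card Nb * Nb.index) := by
          rw [h2, h3, pow_succ]; ring
        have h5 : Nb.index ≠ 0 := Subgroup.index_ne_zero_of_finite
        have h6 : Nat.card N0 = p * Nat.card Nb := by
          have : Nat.card N0 * Nb.index = (p * Nat.card Nb) * Nb.index := by rw [h4]; ring
          exact Nat.eq_of_mul_eq_mul_right (Nat.pos_of_ne_zero h5) this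
        have h7 : p * Nat.card Nb ≤ p * p ^ 2 := by
          rw [← h6]; calc Nat.card N0 ≤ p ^ 3 := hcardN0
            _ = p * p ^ 2 := by ring
        exact Nat.le_of_mul_le_mul_left h7 hp.pos
      have hQp : IsPGroup p (X ⧸ Z) := IsPGroup.of_card hcardQ
      have hcardNb : Nat.card Nb = p ^ 2 := by
        obtain ⟨k, hkeq⟩ := IsPGroup.iff_card.mp (hQp.to_subgroup Nb)
        have hk0 : k ≠ 0 := by
          intro h; rw [h, pow_zero] at hkeq
          have h1 := Subgroup.card_eq_one.mp hkeq
          rw [h1, Subgroup.mem_bot] at habN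
          exact hab1 habN
        have hk1 : k ≠ 1 := by
          intro h; rw [h, pow_one] at hkeq
          haveI : Nontrivial (X ⧸ Z) := by
            rw [← Finite.one_lt_card_iff_nontrivial, hcardQ]
            exact Nat.one_lt_pow (by omega) hp.one_lt
          have hnt := hQp.center_nontrivial
          have hcle : Subgroup.center (X ⧸ Z) ≤ Nb := hNbdef ▸ Subgroup.center_le_centralizer _
          have hceq : Subgroup.center (X ⧸ Z) = Nb := by
            apply Subgroup.eq_of_le_of_card_ge hcle
            rw [hkeq]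
            obtain ⟨j, hj⟩ := IsPGroup.iff_card.mp (hQp.to_subgroup (Subgroup.center (X ⧸ Z)))
            rw [hj]
            have hj0 : j ≠ 0 := by
              intro h0; rw [h0, pow_zero] at hj
              exact (Subgroup.nontrivial_iff_ne_bot _).mp hnt (Subgroup.card_eq_one.mp hj)
            calc p = p ^ 1 := (pow_one p).symm
              _ ≤ p ^ j := Nat.pow_le_pow_right hp.pos (by omega)
          have habc : ab ∈ Subgroup.center (X ⧸ Z) := hceq ▸ habN
          have htop : Nb = ⊤ := by
            rw [hNbdef, Subgroup.centralizer_eq_top_iff_subset]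
            intro y hy; rw [Set.mem_singleton_iff.mp hy]; exact habc
          rw [htop, Subgroup.card_top, hcardQ] at hkeq
          have := Nat.pow_right_injective hp.two_le (hkeq.trans (pow_one p).symm)
          omega
        have hk2 : k ≤ 2 := by
          rw [hkeq] at hcardNb_le
          exact (Nat.pow_le_pow_iff_right hp.one_lt).mp hcardNb_le
        have : k = 2 := by omega
        rw [hkeq, this]
      have hCN : Subgroup.centralizer (Nb : Set (X ⧸ Z)) = Nb := by
        apply le_antisymm
        · intro x hx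
          rw [hNbdef, Subgroup.mem_centralizer_iff]
          intro y hy
          rw [Set.mem_singleton_iff.mp hy]
          exact Subgroup.mem_centralizer_iff.mp hx ab habN
        · intro x hx
          rw [Subgroup.mem_centralizer_iff]
          intro y hy
          have := IsPGroup.commutative_of_card_eq_prime_sq hcardNb ⟨y, hy⟩ ⟨x, hx⟩
          exact congrArg Subtype.val this
      have key := ih (X ⧸ Z) hcardQ Nb hcardNb hCN
      subst hZdef
      rw [key]
      omega

theorem result {X : Type*} [Group X] [Finite X] {p : ℕ} [Fact p.Prime] (n : ℕ) (hX : Nat.card X = p ^ n) (A : Subgroup X) (hA : Nat.card A = p ^ 2) (hC : Subgroup.centralizer (A : Set X) = A) : Group.nilpotencyClass X = n - 1 := by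
  exact aux p n X hX A hA hC

end Cfsg.Agent.S0112
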