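import Cfsg.Statements.S0206
import Mathlib
import Cfsg.Agent.Lib.Lead.Dihedral
-- import your own Cfsg.Agent.* helpers here

set_option autoImplicit false
open Cfsg

namespace Cfsg.Agent.S0206

/-- Two distinct involutions x, y of a finite group generate a subgroup isomorphic to the dihedral group of order 2·|xy|. -/
theorem result {G : Type*} [Group G] [Finite G] (x y : G) (hx : orderOf x = 2) (hy : orderOf y = 2) (hxy : x ≠ y) : Nonempty (↥(Subgroup.closure ({x, y} : Set G)) ≃* DihedralGroup (orderOf (x * y))) := by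
  classical
  have hxx := Cfsg.Agent.Lib.Lead.mul_self_of_orderOf_eq_two hx
  have hyy := Cfsg.Agent.Lib.Lead.mul_self_of_orderOf_eq_two hy
  have hx1 := Cfsg.Agent.Lib.Lead.ne_one_of_orderOf_eq_two hx
  have hy1 := Cfsg.Agent.Lib.Lead.ne_one_of_orderOf_eq_two hy
  have hn : 0 < orderOf (x * y) := orderOf_pos (x * y)
  haveI : NeZero (orderOf (x * y)) := ⟨hn.ne'⟩
  have hn1 : orderOf (x * y) ≠ 1 := by
    intro h1
    rw [orderOf_eq_one_iff] at h1
    apply hxy
    calc x = x * (y * y) := by rw [hyy, mul_one]
      _ = (x * y) * y := by rw [mul_assoc]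
      _ = y := by rw [h1, one_mul]
  haveI : Fact (1 < orderOf (x * y)) := ⟨by omega⟩
  let f : ZMod (orderOf (x * y)) → G := fun i => (x * y) ^ i.val
  have hadd : ∀ i j, f (i + j) = f i * f j := by
    intro i j
    show (x * y) ^ (i + j).val = (x * y) ^ i.val * (x * y) ^ j.val
    rw [ZMod.val_add, ← pow_add, pow_mod_orderOf]
  have hsub : ∀ i j, f (j - i) = (f i)⁻¹ * f j := by
    intro i j
    have h1 := hadd i (j - i)
    rw [add_sub_cancel] at h1
    rw [h1, inv_mul_cancel_left]
  have hfx : ∀ i, f i * x = x * (f i)⁻¹ := by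
    intro i
    have h1 := Cfsg.Agent.Lib.Lead.invol_mul_zpow hx hy (-(i.val : ℤ))
    rw [neg_neg, zpow_neg, zpow_natCast] at h1
    exact h1.symm
  have hxnot : x ∉ Subgroup.zpowers (x * y) := by
    intro hxz
    obtain ⟨k, hk⟩ := Subgroup.mem_zpowers_iff.mp hxz
    have hcomm : Commute ((x * y) ^ k) (x * y) := (Commute.refl (x * y)).zpow_left k
    rw [hk] at hcomm
    have h1 : x * (x * y) = (x * y) * x := hcomm.eq
    have h2 : (x * y) * (x * y) = 1 := by
      calc (x * y) * (x * y) = ((x * y) * x) * y := by group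
        _ = (x * (x * y)) * y := by rw [h1]
        _ = (x * x) * (y * y) := by group
        _ = 1 := by rw [hxx, hyy, one_mul]
    rcases Int.even_or_odd k with ⟨m, hm⟩ | ⟨m, hm⟩
    · apply hx1
      rw [← hk, hm, ← two_mul, zpow_mul, zpow_two, h2, one_zpow]
    · apply hy1
      have h3 : (x * y) ^ k = x * y := by
        rw [hm, zpow_add, zpow_one, zpow_mul, zpow_two, h2, one_zpow, one_mul]
      rw [hk] at h3
      have h4 : x * 1 = x * y := by rw [mul_one]; exact h3
      exact (mul_left_cancel h4).symm
  let φ : DihedralGroup (orderOf (x * y)) →* G := MonoidHom.mk' (fun d => match d with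
      | DihedralGroup.r i => f i
      | DihedralGroup.sr i => x * f i) (by
    intro d e
    cases d with
    | r i =>
      cases e with
      | r j =>
        rw [DihedralGroup.r_mul_r]
        exact hadd i j
      | sr j =>
        rw [DihedralGroup.r_mul_sr]
        show x * f (j - i) = f i * (x * f j)
        rw [hsub, ← mul_assoc (f i), hfx, mul_assoc]
    | sr i =>
      cases e with
      | r j =>
        rw [DihedralGroup.sr_mul_r]
        show x * f (i + j) = x * f i * f j
        rw [hadd, mul_assoc]
      | sr j =>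
        rw [DihedralGroup.sr_mul_sr]
        show f (j - i) = x * f i * (x * f j)
        rw [hsub, mul_assoc x, ← mul_assoc (f i), hfx, mul_assoc x, ← mul_assoc x x, hxx, one_mul])
  have hφr : ∀ i, φ (DihedralGroup.r i) = f i := fun i => rfl
  have hφs : ∀ i, φ (DihedralGroup.sr i) = x * f i := fun i => rfl
  have hinj : Function.Injective φ := by
    rw [injective_iff_map_eq_one]
    intro d hd
    cases d with
    | r i =>
      rw [hφr] at hd
      have h1 : orderOf (x * y) ∣ i.val := orderOf_dvd_of_pow_eq_one hd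
      have h2 : i.val = 0 := Nat.eq_zero_of_dvd_of_lt h1 (ZMod.val_lt i)
      rw [(ZMod.val_eq_zero i).mp h2]
      rfl
    | sr i =>
      exfalso
      rw [hφs] at hd
      apply hxnot
      have h1 : x = (f i)⁻¹ := eq_inv_of_mul_eq_one_left hd
      have h2 : (f i)⁻¹ ∈ Subgroup.zpowers (x * y) :=
        Subgroup.inv_mem _ (Subgroup.pow_mem _ (Subgroup.mem_zpowers _) _)
      rw [← h1] at h2
      exact h2
  have hxc : x ∈ Subgroup.closure ({x, y} : Set G) := Subgroup.subset_closure (by simp)
  have hyc : y ∈ Subgroup.closure ({x, y} : Set G) := Subgroup.subset_closure (by simp)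
  have hrange : φ.range = Subgroup.closure ({x, y} : Set G) := by
    apply le_antisymm
    · rintro _ ⟨d, rfl⟩
      cases d with
      | r i =>
        rw [hφr]
        exact Subgroup.pow_mem _ (Subgroup.mul_mem _ hxc hyc) _
      | sr i =>
        rw [hφs]
        exact Subgroup.mul_mem _ hxc (Subgroup.pow_mem _ (Subgroup.mul_mem _ hxc hyc) _)
    · rw [Subgroup.closure_le]
      intro z hz
      rcases hz with hz | hz
      · rw [hz]
        refine ⟨DihedralGroup.sr 0, ?_⟩
        rw [hφs]
        show x * (x * y) ^ (0 : ZMod (orderOf (x * y))).val = x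
        rw [ZMod.val_zero, pow_zero, mul_one]
      · rw [Set.mem_singleton_iff] at hz
        rw [hz]
        refine ⟨DihedralGroup.sr 1, ?_⟩
        rw [hφs]
        show x * (x * y) ^ (1 : ZMod (orderOf (x * y))).val = y
        rw [ZMod.val_one, pow_one, ← mul_assoc, hxx, one_mul]
  exact ⟨((MonoidHom.ofInjective hinj).trans (MulEquiv.subgroupCongr hrange)).symm⟩

end Cfsg.Agent.S0206
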