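import Cfsg.Statements.S0436
import Cfsg.Agent.Lib.Helper1.Invol

set_option autoImplicit false
open Cfsg

namespace Cfsg.Agent.S0436

open Cfsg.Agent.Lib.Helper1

/-- For distinct commuting members a, b of a set of 3-transpositions E, a member e of E centralises the product a * b if and only if it centralises both a and b. -/
theorem result {G : Type*} [Group G] {E : Set G} (hE : Cfsg.IsThreeTranspositionSet E) {a b e : G} (ha : a ∈ E) (hb : b ∈ E) (he : e ∈ E) (hab : a ≠ b) (hcomm : Commute a b) : Commute e (a * b) ↔ (Commute e a ∧ Commute e b) := by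
  have a2 := sq_one_of_orderOf_two (hE.1 a ha)
  have b2 := sq_one_of_orderOf_two (hE.1 b hb)
  have e2 := sq_one_of_orderOf_two (hE.1 e he)
  constructor
  · intro h
    have h1 : e * (a * b) = a * b * e := h
    have h2 : e * (b * a) = b * a * e := by rw [← hcomm.eq]; exact h1
    exact ⟨key2 a2 b2 e2 hab (hE.2 e he a ha) (hE.2 e he b hb) h1,
      key2 b2 a2 e2 (Ne.symm hab) (hE.2 e he b hb) (hE.2 e he a ha) h2⟩
  · rintro ⟨h1, h2⟩
    exact h1.mul_right h2

end Cfsg.Agent.S0436
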