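import Cfsg.Statements.S0437
import Cfsg.Agent.Lib.Helper1.Invol

set_option autoImplicit false
open Cfsg

namespace Cfsg.Agent.S0437

open Cfsg.Agent.Lib.Helper1

/-- For three distinct, pairwise commuting members a, b, c of a set of 3-transpositions E, a member e of E centralises a * b * c if and only if it centralises each of a, b and c. -/
theorem result {G : Type*} [Group G] {E : Set G} (hE : Cfsg.IsThreeTranspositionSet E) {a b c e : G} (ha : a ∈ E) (hb : b ∈ E) (hc : c ∈ E) (he : e ∈ E) (hab : a ≠ b) (hac : a ≠ c) (hbc : b ≠ c) (h₁ : Commute a b) (h₂ : Commute a c) (h₃ : Commute b c) : Commute e (a * b * c) ↔ (Commute e a ∧ Commute e b ∧ Commute e c) := by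
  have a2 := sq_one_of_orderOf_two (hE.1 a ha)
  have b2 := sq_one_of_orderOf_two (hE.1 b hb)
  have c2 := sq_one_of_orderOf_two (hE.1 c hc)
  have e2 := sq_one_of_orderOf_two (hE.1 e he)
  have tea := hE.2 e he a ha
  have teb := hE.2 e he b hb
  have tec := hE.2 e he c hc
  have cab : a * b = b * a := h₁.eq
  have cac : a * c = c * a := h₂.eq
  have cbc : b * c = c * b := h₃.eq
  constructor
  · intro h
    have h0 : e * (a * b * c) = a * b * c * e := h
    have h0' : e * (a * (b * c)) = a * (b * (c * e)) := by simpa only [mul_assoc] using h0
    -- three cases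
    have caseA : e * a = a * e → (Commute e a ∧ Commute e b ∧ Commute e c) := by
      intro hea
      have hbc' : e * (b * c) = b * c * e := by
        calc e * (b * c) = a * ((a * e) * (b * c)) := by
              simp only [mul_assoc, cancel' a2]
          _ = a * ((e * a) * (b * c)) := by rw [hea]
          _ = a * (e * (a * (b * c))) := by simp only [mul_assoc]
          _ = a * (a * (b * (c * e))) := by rw [h0']
          _ = b * c * e := by rw [cancel' a2]; simp only [mul_assoc]
      have hcb' : e * (c * b) = c * b * e := by rw [← cbc]; exact hbc'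
      exact ⟨hea, key2 b2 c2 e2 hbc teb tec hbc', key2 c2 b2 e2 (Ne.symm hbc) tec teb hcb'⟩
    have caseB : e * b = b * e → (Commute e a ∧ Commute e b ∧ Commute e c) := by
      intro heb
      have hac' : e * (a * c) = a * c * e := by
        have t : (e * (a * c)) * b = (a * c * e) * b := by
          calc (e * (a * c)) * b = e * (a * (c * b)) := by simp only [mul_assoc]
            _ = e * (a * (b * c)) := by rw [cbc]
            _ = a * (b * (c * e)) := h0'
            _ = a * ((b * c) * e) := by simp only [mul_assoc]
            _ = a * ((c * b) * e) := by rw [cbc]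
            _ = a * (c * (b * e)) := by simp only [mul_assoc]
            _ = a * (c * (e * b)) := by rw [heb]
            _ = (a * c * e) * b := by simp only [mul_assoc]
        exact mul_right_cancel t
      have hca' : e * (c * a) = c * a * e := by rw [← cac]; exact hac'
      exact ⟨key2 a2 c2 e2 hac tea tec hac', heb, key2 c2 a2 e2 (Ne.symm hac) tec tea hca'⟩
    have caseC : e * c = c * e → (Commute e a ∧ Commute e b ∧ Commute e c) := by
      intro hec
      have hab' : e * (a * b) = a * b * e := by
        have t : (e * (a * b)) * c = (a * b * e) * c := by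
          calc (e * (a * b)) * c = e * (a * (b * c)) := by simp only [mul_assoc]
            _ = a * (b * (c * e)) := h0'
            _ = a * (b * (e * c)) := by rw [hec]
            _ = (a * b * e) * c := by simp only [mul_assoc]
        exact mul_right_cancel t
      have hba' : e * (b * a) = b * a * e := by rw [← cab]; exact hab'
      exact ⟨key2 a2 b2 e2 hab tea teb hab', key2 b2 a2 e2 (Ne.symm hab) teb tea hba', hec⟩
    by_cases hea : e * a = a * e
    · exact caseA hea
    by_cases heb : e * b = b * e
    · exact caseB heb
    by_cases hec : e * c = c * e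
    · exact caseC hec
    exfalso
    have h3a : (e * a) ^ 3 = 1 := tea.resolve_left (fun h2 => hea (comm_of_sq e2 a2 h2))
    have h3b : (e * b) ^ 3 = 1 := teb.resolve_left (fun h2 => heb (comm_of_sq e2 b2 h2))
    have h3c : (e * c) ^ 3 = 1 := tec.resolve_left (fun h2 => hec (comm_of_sq e2 c2 h2))
    exact hea (key3 a2 b2 c2 e2 cab cac cbc h3a h3b h3c h0)
  · rintro ⟨h1, h2, h3⟩
    exact (h1.mul_right h2).mul_right h3

end Cfsg.Agent.S0437
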