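import Cfsg.Statements.S0438
import Cfsg.Agent.Lib.Helper1.Invol

set_option autoImplicit false
open Cfsg

namespace Cfsg.Agent.S0438

open Cfsg.Agent.Lib.Helper1

/-- Let E be a set of 3-transpositions closed under conjugation, and x an involutory automorphism of the group mapping E to itself. If some a in E fails to commute with its image x a, then x fixes an element of E. -/
theorem result {G : Type*} [Group G] {E : Set G} (hE : Cfsg.IsThreeTranspositionSet E) (hconj : ∀ g : G, ∀ d ∈ E, g * d * g⁻¹ ∈ E) (x : G ≃* G) (hx : ∀ g : G, x (x g) = g) (hxE : ∀ d ∈ E, x d ∈ E) {a : G} (ha : a ∈ E) (h : ¬ Commute a (x a)) : ∃ d ∈ E, x d = d := by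
  have hb := hxE a ha
  have a2 := sq_one_of_orderOf_two (hE.1 a ha)
  have b2 := sq_one_of_orderOf_two (hE.1 (x a) hb)
  have h3 : (a * x a) ^ 3 = 1 := (hE.2 a ha (x a) hb).resolve_left (fun h2 => h (comm_of_sq a2 b2 h2))
  have br := braid_of_cube a2 b2 h3
  refine ⟨a * x a * a⁻¹, hconj a (x a) hb, ?_⟩
  rw [map_mul, map_mul, map_inv, hx, inv_self_of_sq a2, inv_self_of_sq b2]
  simp only [mul_assoc]
  exact br

end Cfsg.Agent.S0438
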