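import Mathlib
import Cfsg.Statements.S4261

set_option autoImplicit false
open Cfsg
open scoped commutatorElement

namespace Cfsg.Agent.S4261

def omegaSub {G : Type*} [Group G] (A : Subgroup G) (hAab : ∀ a ∈ A, ∀ b ∈ A, a * b = b * a)
    (p : ℕ) : Subgroup G where
  carrier := {a | a ∈ A ∧ a ^ p = 1}
  mul_mem' := by
    rintro a b ⟨ha, ha'⟩ ⟨hb, hb'⟩
    refine ⟨A.mul_mem ha hb, ?_⟩
    have hc : Commute a b := hAab a ha b hb
    rw [hc.mul_pow, ha', hb', one_mul]
  one_mem' := ⟨A.one_mem, one_pow _⟩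
  inv_mem' := by
    rintro a ⟨ha, ha'⟩
    exact ⟨A.inv_mem ha, by rw [inv_pow, ha', inv_one]⟩

lemma mem_omegaSub {G : Type*} [Group G] (A : Subgroup G)
    (hAab : ∀ a ∈ A, ∀ b ∈ A, a * b = b * a) (p : ℕ) (a : G) :
    a ∈ omegaSub A hAab p ↔ a ∈ A ∧ a ^ p = 1 := Iff.rfl

lemma exists_abelian_normal {G : Type*} [Group G] [Nontrivial G] (hG : Group.IsSolvable G) :
    ∃ A : Subgroup G, A.Normal ∧ A ≠ ⊥ ∧ ∀ a ∈ A, ∀ b ∈ A, a * b = b * a := by
  obtain ⟨n, hn⟩ := hG.solvable
  induction n with
  | zero =>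
    exfalso
    rw [derivedSeries_zero] at hn
    exact top_ne_bot hn
  | succ k ih =>
    by_cases hk : derivedSeries G k = ⊥
    · exact ih hk
    · refine ⟨derivedSeries G k, inferInstance, hk, ?_⟩
      intro a ha b hb
      have h1 : ⁅a, b⁆ ∈ derivedSeries G (k+1) := by
        rw [derivedSeries_succ]
        exact Subgroup.commutator_mem_commutator ha hb
      rw [hn, Subgroup.mem_bot] at h1
      exact commutatorElement_eq_one_iff_mul_comm.1 h1

lemma exists_normal_abelian_pgroup {G : Type*} [Group G] [Finite G] [Nontrivial G]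
    (hG : Group.IsSolvable G) :
    ∃ (p : ℕ) (N : Subgroup G), p.Prime ∧ N.Normal ∧ N ≠ ⊥ ∧
      (∀ a ∈ N, ∀ b ∈ N, a * b = b * a) ∧ ∀ a ∈ N, a ^ p = 1 := by
  obtain ⟨A, hAn, hAbot, hAab⟩ := exists_abelian_normal hG
  have hcard : Nat.card A ≠ 1 := fun h => hAbot (Subgroup.eq_bot_of_card_eq _ h)
  obtain ⟨p, hp, hpdvd⟩ := Nat.exists_prime_and_dvd hcard
  haveI : Fact p.Prime := ⟨hp⟩
  obtain ⟨x, hx⟩ := exists_prime_orderOf_dvd_card' p hpdvd
  refine ⟨p, omegaSub A hAab p, hp, ⟨?_⟩, ?_, ?_, ?_⟩
  · intro a ha g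
    rw [mem_omegaSub] at ha ⊢
    refine ⟨hAn.conj_mem a ha.1 g, ?_⟩
    rw [conj_pow, ha.2, mul_one, mul_inv_cancel]
  · intro h
    have hxm : (x : G) ∈ omegaSub A hAab p := by
      rw [mem_omegaSub]
      refine ⟨x.2, ?_⟩
      have := pow_orderOf_eq_one x
      rw [hx] at this
      have h2 := congrArg (Subtype.val) this
      simpa using h2
    rw [h, Subgroup.mem_bot] at hxm
    have hx1 : x = 1 := Subtype.ext hxm
    rw [hx1, orderOf_one] at hx
    exact hp.one_lt.ne hx
  · intro a ha b hb
    rw [mem_omegaSub] at ha hb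
    exact hAab a ha.1 b hb.1
  · intro a ha
    rw [mem_omegaSub] at ha
    exact ha.2

lemma corefree_case {G : Type*} [Group G] [Finite G] (hG : Group.IsSolvable G) (M : Subgroup G)
    (hM : IsCoatom M) (hcore : M.normalCore = ⊥) (hexp : ∀ x : G, x ^ M.index ∈ M) :
    M.Normal := by
  haveI : Nontrivial G := by
    by_contra hnt
    rw [not_nontrivial_iff_subsingleton] at hnt
    exact hM.1 (Subsingleton.elim _ _)
  obtain ⟨p, N, hp, hNn, hNbot, hNab, hNp⟩ := exists_normal_abelian_pgroup hG
  haveI := hNn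
  haveI : Fact p.Prime := ⟨hp⟩
  have hNM : ¬ N ≤ M := fun h => hNbot (by
    have h1 : N ≤ M.normalCore := Subgroup.normal_le_normalCore.2 h
    rw [hcore] at h1
    exact le_bot_iff.1 h1)
  have hsup : N ⊔ M = ⊤ := by
    apply hM.2
    refine lt_of_le_of_ne le_sup_right (fun h => hNM ?_)
    rw [h]
    exact le_sup_left
  have hdecomp : ∀ g : G, ∃ a ∈ N, ∃ m ∈ M, g = a * m := by
    intro g
    have hg : g ∈ ((N ⊔ M : Subgroup G) : Set G) := by
      rw [hsup]; exact Set.mem_univ g
    rw [Subgroup.normal_mul, Set.mem_mul] at hg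
    obtain ⟨a, ha, m, hm, rfl⟩ := hg
    exact ⟨a, ha, m, hm, rfl⟩
  have key : ∀ c ∈ M, (∀ m ∈ M, ∀ a ∈ N, a * (m * c * m⁻¹) = (m * c * m⁻¹) * a) → c = 1 := by
    intro c hc hcomm
    have h1 : c ∈ M.normalCore := by
      intro g
      obtain ⟨a, ha, m, hm, rfl⟩ := hdecomp g
      have h2 : a * m * c * (a * m)⁻¹ = a * (m * c * m⁻¹) * a⁻¹ := by group
      rw [h2, hcomm m hm a ha, mul_inv_cancel_right]
      exact M.mul_mem (M.mul_mem hm hc) (M.inv_mem hm)
    rw [hcore, Subgroup.mem_bot] at h1
    exact h1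
  have hinf : ∀ x ∈ N, x ∈ M → x = 1 := by
    intro x hxN hxM
    apply key x hxM
    intro m hm a ha
    exact hNab a ha _ (hNn.conj_mem x hxN m)
  have hcommute : ∀ y ∈ M, ∀ a ∈ N, a * y ^ M.index = y ^ M.index * a := by
    intro y hy a ha
    have h1 : (y ^ M.index)⁻¹ * (y * a) ^ M.index ∈ N := by
      rw [← QuotientGroup.eq_one_iff]
      have ha1 : ((a : G) : G ⧸ N) = 1 := (QuotientGroup.eq_one_iff a).2 ha
      simp [ha1]
    have h2 : (y ^ M.index)⁻¹ * (y * a) ^ M.index ∈ M :=
      M.mul_mem (M.inv_mem (M.pow_mem hy _)) (hexp _)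
    have h3 := hinf _ h1 h2
    have h4 : (y * a) ^ M.index = y ^ M.index := by
      rw [inv_mul_eq_one] at h3
      exact h3.symm
    have h5 : (y * a) * (y * a) ^ M.index = (y * a) ^ M.index * (y * a) :=
      ((Commute.refl (y * a)).pow_right _).eq
    rw [h4] at h5
    have h6 : y * y ^ M.index = y ^ M.index * y := ((Commute.refl y).pow_right _).eq
    have h7 : y * (a * y ^ M.index) = y * (y ^ M.index * a) := by
      calc y * (a * y ^ M.index) = y * a * y ^ M.index := (mul_assoc _ _ _).symm
        _ = y ^ M.index * (y * a) := h5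
        _ = y ^ M.index * y * a := (mul_assoc _ _ _).symm
        _ = y * y ^ M.index * a := by rw [h6]
        _ = y * (y ^ M.index * a) := mul_assoc _ _ _
    exact mul_left_cancel h7
  have hpow1 : ∀ y ∈ M, y ^ M.index = 1 := by
    intro y hy
    apply key _ (M.pow_mem hy _)
    intro m hm a ha
    rw [← conj_pow]
    exact hcommute _ (M.mul_mem (M.mul_mem hm hy) (M.inv_mem hm)) a ha
  have hNpg : IsPGroup p N := by
    intro a
    refine ⟨1, ?_⟩
    apply Subtype.ext
    simpa using hNp a a.2
  obtain ⟨k, hk⟩ := IsPGroup.iff_card.1 hNpg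
  have hdisj : Disjoint N M := by
    rw [Subgroup.disjoint_def]
    intro x hxN hxM
    exact hinf x hxN hxM
  have hcompl : Subgroup.IsComplement' N M := by
    apply Subgroup.isComplement'_of_disjoint_and_mul_eq_univ hdisj
    rw [← Subgroup.normal_mul, hsup]
    rfl
  have hidx : M.index = p ^ k := by
    rw [hcompl.index_eq_card, hk]
  have hMpg : IsPGroup p M := by
    intro y
    refine ⟨k, ?_⟩
    apply Subtype.ext
    have := hpow1 y y.2
    rw [hidx] at this
    simpa using this
  obtain ⟨j, hj⟩ := IsPGroup.iff_card.1 hMpg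
  have hGpg : IsPGroup p G := by
    apply IsPGroup.of_card (n := j + k)
    rw [← M.card_mul_index, hj, hidx, pow_add]
  haveI : Group.IsNilpotent G := hGpg.isNilpotent
  exact Subgroup.NormalizerCondition.normal_of_coatom M Group.normalizerCondition_of_isNilpotent hM

/-- Let M be a maximal subgroup of a finite solvable group G such that x^[G : M] lies in M for every x in G. Then M is normal in G. -/
theorem result {G : Type*} [Group G] [Finite G] (hG : Group.IsSolvable G) (M : Subgroup G) (hM : IsCoatom M)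
    (hexp : ∀ x : G, x ^ M.index ∈ M) : M.Normal := by
  set K := M.normalCore with hK
  have hKM : K ≤ M := M.normalCore_le
  set π := QuotientGroup.mk' K with hπ
  have hsurj : Function.Surjective π := QuotientGroup.mk'_surjective K
  have hker : π.ker = K := QuotientGroup.ker_mk' K
  have hcomap : (M.map π).comap π = M := by
    rw [Subgroup.comap_map_eq, hker, sup_eq_left.2 hKM]
  have hidx : (M.map π).index = M.index := M.index_map_eq hsurj (by rw [hker]; exact hKM)
  haveI : Group.IsSolvable (G ⧸ K) := by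
    haveI := hG
    infer_instance
  have hcoatom : IsCoatom (M.map π) := by
    constructor
    · intro h
      apply hM.1
      rw [← hcomap, h, Subgroup.comap_top]
    · intro L hL
      have h1 : M < L.comap π := by
        refine lt_of_le_of_ne ?_ ?_
        · calc M = (M.map π).comap π := hcomap.symm
            _ ≤ L.comap π := Subgroup.comap_mono hL.le
        · intro h
          have h2 := congrArg (Subgroup.map π) h
          rw [Subgroup.map_comap_eq_self_of_surjective hsurj] at h2
          exact hL.ne h2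
      have h3 := hM.2 _ h1
      have h4 := congrArg (Subgroup.map π) h3
      rw [Subgroup.map_comap_eq_self_of_surjective hsurj, Subgroup.map_top_of_surjective π hsurj] at h4
      exact h4
  have hcore : (M.map π).normalCore = ⊥ := by
    rw [eq_bot_iff]
    intro x hx
    obtain ⟨g, rfl⟩ := hsurj x
    have h1 : ((M.map π).normalCore).comap π ≤ M.normalCore := by
      apply Subgroup.normal_le_normalCore.2
      calc ((M.map π).normalCore).comap π ≤ (M.map π).comap π :=
            Subgroup.comap_mono (Subgroup.normalCore_le _)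
        _ = M := hcomap
    have h2 : g ∈ K := h1 hx
    rw [Subgroup.mem_bot]
    exact (QuotientGroup.eq_one_iff g).2 h2
  have hexp' : ∀ x : G ⧸ K, x ^ (M.map π).index ∈ M.map π := by
    intro x
    obtain ⟨g, rfl⟩ := hsurj x
    rw [hidx, ← map_pow]
    exact Subgroup.mem_map_of_mem π (hexp g)
  have hnorm : (M.map π).Normal := corefree_case inferInstance (M.map π) hcoatom hcore hexp'
  rw [← hcomap]
  exact hnorm.comap π

end Cfsg.Agent.S4261
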