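import Cfsg.Statements.S0553
import Mathlib
import Cfsg.Agent.S4261
import Cfsg.Agent.Lib.Helper1.MaxPrime
import Cfsg.Agent.Lib.Helper1.SylowCard
import Cfsg.Agent.Lib.Lead.Basic
import Cfsg.Agent.Lib.Lead.Hall

set_option autoImplicit false
open Cfsg

namespace Cfsg.Agent.S0553

universe u

open Cfsg.Agent.Lib.Helper1 in
theorem aux : ∀ (n : ℕ) (G : Type u) [Group G] [Finite G] [Group.IsSolvable G] [Nontrivial G],
    Nat.card G ≤ n → (∀ M : Subgroup G, IsCoatom M → (Nat.card M).Coprime M.index) →
    ∃ p : ℕ, p.Prime ∧ p ∣ Nat.card G ∧ ∀ P : Sylow p G, (P : Subgroup G).Normal := by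
  intro n
  induction n with
  | zero =>
    intro G _ _ _ _ hn
    exact absurd hn (by have := Nat.card_pos (α := G); omega)
  | succ n ih =>
    intro G _ _ hsol _ hn h
    obtain ⟨p, N, hp, hNn, hNbot, hNab, hNp⟩ := Cfsg.Agent.S4261.exists_normal_abelian_pgroup hsol
    have : Fact p.Prime := ⟨hp⟩
    have hNpg : IsPGroup p N := by
      intro g
      refine ⟨1, ?_⟩
      rw [pow_one]
      exact Subtype.ext (hNp g g.2)
    obtain ⟨k, hk⟩ := IsPGroup.iff_card.mp hNpg
    have hk0 : k ≠ 0 := by
      rintro rfl
      rw [pow_zero] at hk
      exact hNbot (Subgroup.eq_bot_of_card_eq _ hk)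
    have hpN : p ∣ Nat.card N := by rw [hk]; exact dvd_pow_self p hk0
    have hpG : p ∣ Nat.card G := hpN.trans (Subgroup.card_subgroup_dvd_card N)
    have hsurj := QuotientGroup.mk'_surjective N
    by_cases hnt : Nontrivial (G ⧸ N)
    · have hcard := Subgroup.card_eq_card_quotient_mul_card_subgroup N
      have hle : Nat.card (G ⧸ N) ≤ n := by
        have h2 : 2 ≤ Nat.card N := le_trans hp.two_le (Nat.le_of_dvd Nat.card_pos hpN)
        have hpos := Nat.card_pos (α := G ⧸ N)
        nlinarith
      have hq : ∀ Mb : Subgroup (G ⧸ N), IsCoatom Mb → (Nat.card Mb).Coprime Mb.index := by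
        intro Mb hMb
        have h1 := h _ (isCoatom_comap_mk N Mb hMb)
        rw [Subgroup.index_comap_of_surjective _ hsurj, Cfsg.Agent.Lib.Lead.card_comap_mk] at h1
        exact Nat.Coprime.coprime_mul_left h1
      obtain ⟨q, hqp, hqd, hqn⟩ := ih (G ⧸ N) hle hq
      have : Fact q.Prime := ⟨hqp⟩
      by_cases hqeq : q = p
      · subst hqeq
        refine ⟨q, hp, hpG, ?_⟩
        intro P
        have h1 := hqn (P.mapSurjective hsurj)
        have h2 : (P : Subgroup G) = ((P.mapSurjective hsurj : Sylow q (G ⧸ N)) :
            Subgroup (G ⧸ N)).comap (QuotientGroup.mk' N) := by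
          rw [Sylow.coe_mapSurjective, Subgroup.comap_map_eq, QuotientGroup.ker_mk',
            sup_eq_left.mpr (normal_le_sylow N hNpg P)]
        rw [h2]
        exact Subgroup.Normal.comap h1 _
      · obtain ⟨Q⟩ := (inferInstance : Nonempty (Sylow q G))
        by_cases hQn : (Q : Subgroup G).Normal
        · refine ⟨q, hqp, ?_, ?_⟩
          · exact hqd.trans ⟨Nat.card N, hcard⟩
          · intro P
            have := Sylow.unique_of_normal Q hQn
            rw [Subsingleton.elim P Q]
            exact hQn
        · refine ⟨p, hp, hpG, ?_⟩
          have h1 := hqn (Q.mapSurjective hsurj)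
          obtain ⟨D, hD⟩ : ∃ D : Subgroup G, D = ((Q.mapSurjective hsurj : Sylow q (G ⧸ N)) :
            Subgroup (G ⧸ N)).comap (QuotientGroup.mk' N) := ⟨_, rfl⟩
          have hDn : D.Normal := by rw [hD]; exact Subgroup.Normal.comap h1 _
          have hDeq : D = (Q : Subgroup G) ⊔ N := by
            rw [hD, Sylow.coe_mapSurjective, Subgroup.comap_map_eq, QuotientGroup.ker_mk']
          have hQD : (Q : Subgroup G) ≤ D := by rw [hDeq]; exact le_sup_left
          have hfr := Sylow.normalizer_sup_eq_top' Q hQD
          have hfr2 : Subgroup.normalizer ((Q : Subgroup G) : Set G) ⊔ N = ⊤ := by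
            rw [hDeq] at hfr
            rw [eq_top_iff, ← hfr]
            exact sup_le le_sup_left (sup_le (le_sup_of_le_left Subgroup.le_normalizer) le_sup_right)
          have hNQ : Subgroup.normalizer ((Q : Subgroup G) : Set G) ≠ ⊤ := by
            intro htop
            exact hQn (Subgroup.normalizer_eq_top_iff.mp htop)
          rcases eq_top_or_exists_le_coatom (Subgroup.normalizer ((Q : Subgroup G) : Set G))
            with h2 | h2
          · exact absurd h2 hNQ
          · obtain ⟨M, hM, hle2⟩ := h2
            have hMN : M ⊔ N = ⊤ := by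
              rw [eq_top_iff, ← hfr2]
              exact sup_le_sup hle2 le_rfl
            have e1 : N.relIndex (M ⊔ N) = N.relIndex M := Subgroup.relIndex_sup_right M N
            rw [hMN, Subgroup.relIndex_top_right] at e1
            have e2 := Subgroup.card_mul_index N
            have e3 : (N ⊓ M).relIndex M * Nat.card ↥(N ⊓ M) = Nat.card M :=
              Cfsg.Agent.Lib.Lead.relIndex_mul_card_of_le inf_le_right
            rw [Subgroup.inf_relIndex_right] at e3
            have e4 := Subgroup.index_mul_card M
            have hrpos : 0 < N.relIndex M := by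
              rw [← e1]
              exact Nat.pos_of_ne_zero Subgroup.index_ne_zero_of_finite
            have e5 : M.index * Nat.card ↥(N ⊓ M) = Nat.card N := by
              apply Nat.eq_of_mul_eq_mul_left hrpos
              calc N.relIndex M * (M.index * Nat.card ↥(N ⊓ M))
                  = M.index * (N.relIndex M * Nat.card ↥(N ⊓ M)) := by ring
                _ = M.index * Nat.card M := by rw [e3]
                _ = Nat.card G := e4
                _ = Nat.card N * N.index := e2.symm
                _ = N.relIndex M * Nat.card N := by rw [e1]; ring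
            have hidx1 : M.index ≠ 1 := by
              intro h1
              exact hM.1 (Subgroup.index_eq_one.mp h1)
            have hpidx : p ∣ M.index := by
              have h3 : M.index ∣ p ^ k := by rw [← hk, ← e5]; exact dvd_mul_right _ _
              obtain ⟨j, -, hj⟩ := (Nat.dvd_prime_pow hp).mp h3
              rw [hj]
              apply dvd_pow_self
              rintro rfl
              exact hidx1 (by rw [hj, pow_zero])
            have hcopM := h M hM
            have hpM : ¬ p ∣ Nat.card M := by
              intro h3
              have h4 : p ∣ Nat.gcd (Nat.card M) M.index := Nat.dvd_gcd h3 hpidx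
              rw [Nat.Coprime.gcd_eq_one hcopM] at h4
              exact hp.one_lt.ne' (Nat.dvd_one.mp h4)
            have hinf1 : Nat.card ↥(N ⊓ M) = 1 := by
              have h3 : Nat.card ↥(N ⊓ M) ∣ p ^ k := by
                rw [← hk]; exact Subgroup.card_dvd_of_le inf_le_left
              obtain ⟨j, -, hj⟩ := (Nat.dvd_prime_pow hp).mp h3
              rcases Nat.eq_zero_or_pos j with rfl | hjpos
              · rw [hj, pow_zero]
              · exfalso
                apply hpM
                have h4 : p ∣ Nat.card ↥(N ⊓ M) := by rw [hj]; exact dvd_pow_self p hjpos.ne'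
                exact h4.trans (Subgroup.card_dvd_of_le inf_le_right)
            rw [hinf1, mul_one] at e5
            intro P
            have hNP : N ≤ (P : Subgroup G) := normal_le_sylow N hNpg P
            have hPcard : Nat.card (P : Subgroup G) ∣ Nat.card N := by
              have h3 : Nat.card (P : Subgroup G) ∣ Nat.card N * Nat.card M := by
                rw [← e5, e4]
                exact Subgroup.card_subgroup_dvd_card _
              obtain ⟨m, hm⟩ := IsPGroup.iff_card.mp P.isPGroup'
              have hcop : Nat.Coprime (Nat.card (P : Subgroup G)) (Nat.card M) := by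
                rw [hm]
                exact Nat.Coprime.pow_left m ((Nat.Prime.coprime_iff_not_dvd hp).mpr hpM)
              exact hcop.dvd_of_dvd_mul_right h3
            have hPN : N = (P : Subgroup G) :=
              Subgroup.eq_of_le_of_card_ge hNP (Nat.le_of_dvd Nat.card_pos hPcard)
            rw [← hPN]
            exact hNn
    · rw [not_nontrivial_iff_subsingleton] at hnt
      have hNtop : N = ⊤ := QuotientGroup.subgroup_eq_top_of_subsingleton N hnt
      refine ⟨p, hp, hpG, ?_⟩
      intro P
      have hNP : N ≤ (P : Subgroup G) := normal_le_sylow N hNpg P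
      rw [hNtop, top_le_iff] at hNP
      rw [hNP]
      infer_instance

/-- Let G be a nontrivial finite solvable group in which every maximal subgroup has order coprime to its index. Then for some prime p dividing the order of G the Sylow p-subgroups of G are normal. -/
theorem result {G : Type*} [Group G] [Finite G] [Group.IsSolvable G] [Nontrivial G] (h : ∀ M : Subgroup G, IsCoatom M → (Nat.card M).Coprime M.index) : ∃ p : ℕ, p.Prime ∧ p ∣ Nat.card G ∧ ∀ P : Sylow p G, (P : Subgroup G).Normal := by
  exact aux (Nat.card G) G le_rfl h

end Cfsg.Agent.S0553
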