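import Cfsg.Statements.S0631
import Cfsg.Agent.Lib.Helper2.Comp17

set_option autoImplicit false
open Cfsg

namespace Cfsg.Agent.S0631

open Cfsg.Agent.Lib.Helper2.Comp in
theorem result {G : Type*} [Group G] [Finite G] {p : ℕ} [Fact p.Prime] (hG : Cfsg.IsPConstrained p G) (P : Subgroup G) (hP : IsPGroup p P) : Cfsg.IsPConstrained p ↥(Subgroup.normalizer (P : Set G)) ∧ Cfsg.IsPConstrained p ↥(Subgroup.centralizer (P : Set G)) := by
  have hL := (isPConstrained_iff_pLayer p).mp hG
  exact ⟨(isPConstrained_iff_pLayer p).mpr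
      (pLayer_eq_bot_of_local p hL hP le_rfl (Subgroup.centralizer_le_normalizer _)
        (Or.inl Subgroup.le_normalizer)),
    (isPConstrained_iff_pLayer p).mpr
      (pLayer_eq_bot_of_local p hL hP (Subgroup.centralizer_le_normalizer _) le_rfl
        (Or.inr le_rfl))⟩

end Cfsg.Agent.S0631
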