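import Cfsg.Statements.S0749
import Mathlib
import Cfsg.Statements.S0749

set_option autoImplicit false
open Cfsg
open scoped commutatorElement

namespace Cfsg.Agent.S0749

theorem realize49 {F V : Type*} [Field F] [AddCommGroup V] [Module F V] [FiniteDimensional F V]
    (B : LinearMap.BilinForm F V) (hB : B.Nondegenerate) {k : ℕ} (y : Fin k → V) (hy : LinearIndependent F y) (c : Fin k → F) :
    ∃ w, ∀ i, B w (y i) = c i := by
  let bs := Module.Basis.span hy
  obtain ⟨f, hf⟩ := LinearMap.exists_extend (bs.constr F c : Submodule.span F (Set.range y) →ₗ[F] F)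
  refine ⟨(B.toDual hB).symm f, fun i => ?_⟩
  rw [LinearMap.BilinForm.apply_toDual_symm_apply]
  have h1 : f (y i) = (f.comp (Submodule.span F (Set.range y)).subtype) (bs i) := by
    simp [bs, Module.Basis.span_apply]
  rw [h1, hf, Module.Basis.constr_basis]

theorem orth_span49 {F V : Type*} [Field F] [AddCommGroup V] [Module F V]
    (B : LinearMap.BilinForm F V) {k : ℕ} (x : Fin k → V) (m : V) :
    m ∈ B.orthogonal (Submodule.span F (Set.range x)) ↔ ∀ j, B (x j) m = 0 := by
  rw [LinearMap.BilinForm.mem_orthogonal_iff]
  constructor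
  · intro h j; exact h _ (Submodule.subset_span ⟨j, rfl⟩)
  · intro h n hn
    induction hn using Submodule.span_induction with
    | mem z hz => obtain ⟨j, rfl⟩ := hz; exact h j
    | zero => simp
    | add a b _ _ ha hb => simp [ha, hb]
    | smul r a _ ha => simp [ha]

theorem escape49 {F V : Type*} [Field F] [AddCommGroup V] [Module F V] [FiniteDimensional F V]
    (B : LinearMap.BilinForm F V) (hB : B.Nondegenerate) {k : ℕ} (x y : Fin k → V)
    (hx : LinearIndependent F x) (hy : LinearIndependent F y)
    (hG : ∀ i j, B (x i) (x j) = B (y i) (y j))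
    (u : V) (hu : ∀ j, B (x j) u = 0) (hux : u ∉ Submodule.span F (Set.range x)) :
    ∃ v', (∀ j, B (y j) v' = 0) ∧ v' ∉ Submodule.span F (Set.range y) := by
  by_contra hcon
  push Not at hcon
  set Tx : (Fin k → F) →ₗ[F] V := Fintype.linearCombination F x with hTx
  set Ty : (Fin k → F) →ₗ[F] V := Fintype.linearCombination F y with hTy
  have hTxi : Function.Injective Tx := hx.fintypeLinearCombination_injective
  have hTyi : Function.Injective Ty := hy.fintypeLinearCombination_injective
  have hrx : LinearMap.range Tx = Submodule.span F (Set.range x) := Fintype.range_linearCombination F x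
  have hry : LinearMap.range Ty = Submodule.span F (Set.range y) := Fintype.range_linearCombination F y
  set Ox := B.orthogonal (Submodule.span F (Set.range x)) with hOx
  set Oy := B.orthogonal (Submodule.span F (Set.range y)) with hOy
  set K := Oy.comap Ty with hKdef
  have hK : K = Ox.comap Tx := by
    ext c
    rw [hKdef, Submodule.mem_comap, Submodule.mem_comap, hOx, hOy, orth_span49, orth_span49]
    simp only [hTx, hTy, Fintype.linearCombination_apply, map_sum, map_smul, smul_eq_mul, hG]
  have hOyle : Oy ≤ LinearMap.range Ty := by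
    intro w hw
    rw [hry]
    exact hcon w ((orth_span49 B y w).mp hw)
  have hmapy : K.map Ty = Oy := Submodule.map_comap_eq_of_le hOyle
  have hfK : Module.finrank F K = Module.finrank F Oy := by
    rw [← hmapy]; exact (Submodule.equivMapOfInjective Ty hTyi K).finrank_eq
  have hmapx : K.map Tx ≤ Ox := by rw [hK]; exact Submodule.map_comap_le _ _
  have hfx : Module.finrank F (K.map Tx) = Module.finrank F Ox := by
    rw [← (Submodule.equivMapOfInjective Tx hTxi K).finrank_eq, hfK, hOx, hOy,
      LinearMap.BilinForm.finrank_orthogonal hB, LinearMap.BilinForm.finrank_orthogonal hB,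
      finrank_span_eq_card hx, finrank_span_eq_card hy]
  have heq : K.map Tx = Ox := Submodule.eq_of_le_of_finrank_eq hmapx hfx
  have huO : u ∈ Ox := (orth_span49 B x u).mpr hu
  rw [← heq] at huO
  obtain ⟨c, _, rfl⟩ := huO
  exact hux (by rw [← hrx]; exact ⟨c, rfl⟩)

theorem witt_fam49 {F V : Type*} [Field F] [AddCommGroup V] [Module F V] [FiniteDimensional F V]
    (B : LinearMap.BilinForm F V) (hB : B.Nondegenerate) (hA : B.IsAlt) :
    ∀ (d k : ℕ) (x y : Fin k → V), k + d = Module.finrank F V → LinearIndependent F x → LinearIndependent F y →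
      (∀ i j, B (x i) (x j) = B (y i) (y j)) →
      ∃ g : V ≃ₗ[F] V, (∀ u v, B (g u) (g v) = B u v) ∧ ∀ i, g (x i) = y i := by
  intro d
  induction d with
  | zero =>
    intro k x y hk hx hy hG
    have hspx : Submodule.span F (Set.range x) = ⊤ := hx.span_eq_top_of_card_eq_finrank' (by simpa using hk)
    have hspy : Submodule.span F (Set.range y) = ⊤ := hy.span_eq_top_of_card_eq_finrank' (by simpa using hk)
    let bx := Module.Basis.mk hx (by rw [hspx])
    let by' := Module.Basis.mk hy (by rw [hspy])
    have hbx : ∀ i, bx i = x i := fun i => by simp [bx]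
    have hby : ∀ i, by' i = y i := fun i => by simp [by']
    have hgx : ∀ i, (bx.equiv by' (Equiv.refl _)) (x i) = y i := by
      intro i
      rw [← hbx, Module.Basis.equiv_apply, ← hby]; rfl
    refine ⟨bx.equiv by' (Equiv.refl _), ?_, hgx⟩
    have h1 : B.compl₁₂ (bx.equiv by' (Equiv.refl _)).toLinearMap (bx.equiv by' (Equiv.refl _)).toLinearMap = B := by
      apply LinearMap.BilinForm.ext_basis bx
      intro i j
      rw [LinearMap.compl₁₂_apply, hbx, hbx]
      simp only [LinearEquiv.coe_coe, hgx, hG]
    intro u v
    have h2 := congrArg (fun C : LinearMap.BilinForm F V => C u v) h1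
    simpa using h2
  | succ d ih =>
    intro k x y hk hx hy hG
    have hlt : Submodule.span F (Set.range x) ≠ ⊤ := by
      intro h
      have h3 := finrank_span_eq_card hx
      rw [h, finrank_top] at h3
      simp at h3; omega
    obtain ⟨v, hv⟩ : ∃ v, v ∉ Submodule.span F (Set.range x) := by
      by_contra hcon; push Not at hcon
      exact hlt (eq_top_iff.mpr (fun z _ => hcon z))
    obtain ⟨w0, hw0⟩ := realize49 B hB y hy (fun i => B v (x i))
    have key : ∃ v v', v ∉ Submodule.span F (Set.range x) ∧ v' ∉ Submodule.span F (Set.range y) ∧ ∀ i, B v (x i) = B v' (y i) := by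
      by_cases hw : w0 ∈ Submodule.span F (Set.range y)
      · obtain ⟨c, hc⟩ := (Submodule.mem_span_range_iff_exists_fun F).mp hw
        set u := v - ∑ i, c i • x i with hu
        have hux : u ∉ Submodule.span F (Set.range x) := by
          intro h
          apply hv
          have h4 : v = u + ∑ i, c i • x i := by rw [hu]; abel
          rw [h4]
          exact Submodule.add_mem _ h (Submodule.sum_mem _ (fun i _ => Submodule.smul_mem _ _ (Submodule.subset_span ⟨i, rfl⟩)))
        have hu0 : ∀ j, B u (x j) = 0 := by
          intro j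
          rw [hu, map_sub, LinearMap.sub_apply, ← hw0 j, ← hc]
          simp only [map_sum, map_smul, LinearMap.sum_apply, LinearMap.smul_apply, hG]
          simp
        have hu0' : ∀ j, B (x j) u = 0 := by
          intro j; rw [← hA.neg_eq, hu0 j, neg_zero]
        obtain ⟨v', hv', hv'y⟩ := escape49 B hB x y hx hy hG u hu0' hux
        refine ⟨u, v', hux, hv'y, fun i => ?_⟩
        rw [hu0 i, ← hA.neg_eq, hv' i, neg_zero]
      · exact ⟨v, w0, hv, hw, fun i => (hw0 i).symm⟩
    obtain ⟨v, v', hvx, hvy, hvv⟩ := key
    have hx' : LinearIndependent F (Fin.cons v x : Fin (k+1) → V) := linearIndependent_fin_cons.mpr ⟨hx, hvx⟩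
    have hy' : LinearIndependent F (Fin.cons v' y : Fin (k+1) → V) := linearIndependent_fin_cons.mpr ⟨hy, hvy⟩
    obtain ⟨g, hg, hgx⟩ := ih (k+1) (Fin.cons v x) (Fin.cons v' y) (by omega) hx' hy' (by
      intro i j
      refine Fin.cases ?_ (fun i => ?_) i <;> refine Fin.cases ?_ (fun j => ?_) j
      · simp [hA v, hA v']
      · simpa using hvv j
      · simp only [Fin.cons_zero, Fin.cons_succ]; rw [← hA.neg_eq, ← hA.neg_eq v' (y i), hvv i]
      · simpa using hG i j)
    refine ⟨g, hg, fun i => ?_⟩
    have h5 := hgx i.succ
    simpa using h5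

/-- Witt's Lemma for alternating forms. If B is a non-degenerate alternating bilinear form on a finite-dimensional vector space V (over any field) and φ is a linear equivalence between subspaces X and Y of V preserving B, then φ extends to a B-preserving linear automorphism of V. -/
theorem result {F V : Type*} [Field F] [AddCommGroup V] [Module F V] [FiniteDimensional F V] (B : LinearMap.BilinForm F V) (hB : B.Nondegenerate) (hA : B.IsAlt) (X Y : Submodule F V) (φ : X ≃ₗ[F] Y) (hφ : ∀ x x' : X, B (φ x : V) (φ x' : V) = B (x : V) (x' : V)) : ∃ g : V ≃ₗ[F] V, (∀ u v : V, B (g u) (g v) = B u v) ∧ ∀ x : X, g (x : V) = (φ x : V) := by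
  let bX := Module.finBasis F X
  have hk : Module.finrank F X ≤ Module.finrank F V := Submodule.finrank_le X
  have hx : LinearIndependent F (fun i => (bX i : V)) := bX.linearIndependent.map' X.subtype (Submodule.ker_subtype X)
  have hy : LinearIndependent F (fun i => (φ (bX i) : V)) := by
    have h6 := bX.linearIndependent.map' (Y.subtype ∘ₗ φ.toLinearMap) (by
      rw [LinearMap.ker_comp]; simp)
    exact h6
  obtain ⟨g, hg, hgx⟩ := witt_fam49 B hB hA (Module.finrank F V - Module.finrank F X) _ _ _ (by omega) hx hy (fun i j => (hφ _ _).symm)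
  refine ⟨g, hg, fun x => ?_⟩
  have h7 : g.toLinearMap ∘ₗ X.subtype = Y.subtype ∘ₗ φ.toLinearMap := by
    apply bX.ext
    intro i
    simpa using hgx i
  exact LinearMap.congr_fun h7 x

end Cfsg.Agent.S0749
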