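import Cfsg.Statements.S0750
import Mathlib
import Cfsg.Statements.S0750

set_option autoImplicit false
open Cfsg
open scoped commutatorElement

namespace Cfsg.Agent.S0750

theorem Qadd50 {F V : Type*} [Field F] [AddCommGroup V] [Module F V] (Q : QuadraticForm F V) (u v : V) :
    Q (u + v) = Q u + Q v + QuadraticMap.polarBilin Q u v := by
  rw [QuadraticMap.polarBilin_apply_apply, QuadraticMap.polar]; ring

theorem Qsmul50 {F V : Type*} [Field F] [AddCommGroup V] [Module F V] (Q : QuadraticForm F V) (a : F) (u : V) :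
    Q (a • u) = a * a * Q u := by
  rw [QuadraticMap.map_smul, smul_eq_mul]

theorem Bsymm50 {F V : Type*} [Field F] [AddCommGroup V] [Module F V] (Q : QuadraticForm F V) (u v : V) :
    QuadraticMap.polarBilin Q u v = QuadraticMap.polarBilin Q v u := by
  rw [QuadraticMap.polarBilin_apply_apply, QuadraticMap.polarBilin_apply_apply, QuadraticMap.polar_comm]

theorem Q3_50 {F V : Type*} [Field F] [AddCommGroup V] [Module F V] (Q : QuadraticForm F V) (x p z : V) (a b : F) :
    Q (x + a • p + b • z) = Q x + a * a * Q p + b * b * Q z + a * QuadraticMap.polarBilin Q x p +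
      b * QuadraticMap.polarBilin Q x z + a * b * QuadraticMap.polarBilin Q p z := by
  rw [Qadd50, Qadd50, Qsmul50, Qsmul50]
  simp only [map_add, map_smul, LinearMap.add_apply, LinearMap.smul_apply, smul_eq_mul]
  ring

theorem isoB50 {F V : Type*} [Field F] [AddCommGroup V] [Module F V] (Q : QuadraticForm F V)
    (g : V →ₗ[F] V) (hg : ∀ v, Q (g v) = Q v) (u v : V) :
    QuadraticMap.polarBilin Q (g u) (g v) = QuadraticMap.polarBilin Q u v := by
  have h1 := Qadd50 Q (g u) (g v)
  rw [← map_add, hg, hg, hg, Qadd50 Q u v] at h1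
  linear_combination -h1

theorem iso_equiv50 {F V : Type*} [Field F] [AddCommGroup V] [Module F V] [FiniteDimensional F V]
    (Q : QuadraticForm F V) (hQ : (QuadraticMap.polarBilin Q).Nondegenerate) (g : V →ₗ[F] V)
    (hg : ∀ v, Q (g v) = Q v) : ∃ e : V ≃ₗ[F] V, ∀ v, e v = g v := by
  have hinj : Function.Injective g := by
    rw [← LinearMap.ker_eq_bot, LinearMap.ker_eq_bot']
    intro x hx
    apply hQ.1
    intro y
    rw [← isoB50 Q g hg, hx, map_zero, LinearMap.zero_apply]
  exact ⟨LinearEquiv.ofInjectiveEndo g hinj, fun v => by rw [LinearEquiv.coe_ofInjectiveEndo]⟩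

theorem dual_vec50 {F V : Type*} [Field F] [AddCommGroup V] [Module F V] [FiniteDimensional F V]
    (Q : QuadraticForm F V) (hQ : (QuadraticMap.polarBilin Q).Nondegenerate) (S : Submodule F V) (u : V)
    (hu : u ∉ S) :
    ∃ z, (∀ s ∈ S, QuadraticMap.polarBilin Q s z = 0) ∧ QuadraticMap.polarBilin Q u z = 1 := by
  have hrefl : (QuadraticMap.polarBilin Q).IsRefl := fun x y h => by rw [Bsymm50]; exact h
  have h1 := LinearMap.BilinForm.orthogonal_orthogonal hQ hrefl S
  rw [← h1, LinearMap.BilinForm.mem_orthogonal_iff] at hu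
  push Not at hu
  obtain ⟨z, hz, hzu⟩ := hu
  rw [LinearMap.BilinForm.mem_orthogonal_iff] at hz
  have hzu' : QuadraticMap.polarBilin Q u z ≠ 0 := by rw [Bsymm50]; exact hzu
  refine ⟨(QuadraticMap.polarBilin Q u z)⁻¹ • z, fun s hs => ?_, ?_⟩
  · rw [map_smul, smul_eq_mul, (hz s hs : QuadraticMap.polarBilin Q s z = 0), mul_zero]
  · rw [map_smul, smul_eq_mul, inv_mul_cancel₀ hzu']

theorem step50 {F V : Type*} [Field F] [AddCommGroup V] [Module F V] [FiniteDimensional F V]
    (Q : QuadraticForm F V) (hQ : (QuadraticMap.polarBilin Q).Nondegenerate) (H : Submodule F V) (u0 p : V)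
    (h0 : u0 ∉ H) (h1 : u0 + p ∉ H)
    (hp : ∀ h ∈ H, QuadraticMap.polarBilin Q h p = 0) (hQ01 : Q (u0 + p) = Q u0) :
    ∃ g : V ≃ₗ[F] V, (∀ v, Q (g v) = Q v) ∧ (∀ h ∈ H, g h = h) ∧ g u0 = u0 + p := by
  have hrel : Q p + QuadraticMap.polarBilin Q u0 p = 0 := by
    have h2 := Qadd50 Q u0 p
    rw [hQ01] at h2
    linear_combination -h2
  suffices hs : ∃ g0 : V →ₗ[F] V, (∀ v, Q (g0 v) = Q v) ∧ (∀ h ∈ H, g0 h = h) ∧ g0 u0 = u0 + p by
    obtain ⟨g0, hg1, hg2, hg3⟩ := hs
    obtain ⟨e, he⟩ := iso_equiv50 Q hQ g0 hg1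
    exact ⟨e, fun v => by rw [he, hg1], fun h hh => by rw [he, hg2 h hh], by rw [he, hg3]⟩
  by_cases hQp : Q p = 0
  · have hBu0p : QuadraticMap.polarBilin Q u0 p = 0 := by rw [hQp, zero_add] at hrel; exact hrel
    have hBpp : QuadraticMap.polarBilin Q p p = 0 := by
      rw [QuadraticMap.polarBilin_apply_apply, QuadraticMap.polar_self, hQp, smul_zero]
    by_cases hmem : u0 ∈ H ⊔ Submodule.span F {p}
    · obtain ⟨h0', hh0', y, hy, hsum⟩ := Submodule.mem_sup.mp hmem
      obtain ⟨c, rfl⟩ := Submodule.mem_span_singleton.mp hy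
      have hc0 : c ≠ 0 := by
        intro hc
        apply h0
        rw [← hsum, hc, zero_smul, add_zero]
        exact hh0'
      have hc1 : c + 1 ≠ 0 := by
        intro hc
        apply h1
        have h3 : u0 + p = h0' + (c + 1) • p := by rw [← hsum, add_smul, one_smul]; abel
        rw [h3, hc, zero_smul, add_zero]
        exact hh0'
      have hpH : p ∉ H := by
        intro hpH
        apply h0
        rw [← hsum]
        exact H.add_mem hh0' (H.smul_mem c hpH)
      obtain ⟨q0, hq0H, hq0p⟩ := dual_vec50 Q hQ H p hpH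
      have hqH : ∀ h ∈ H, QuadraticMap.polarBilin Q h (q0 + (-(Q q0)) • p) = 0 := by
        intro h hh
        rw [map_add, map_smul, hq0H h hh, hp h hh]
        simp
      have hpq : QuadraticMap.polarBilin Q p (q0 + (-(Q q0)) • p) = 1 := by
        rw [map_add, map_smul, hq0p, hBpp]
        simp
      have hQq : Q (q0 + (-(Q q0)) • p) = 0 := by
        rw [Qadd50, Qsmul50, hQp, map_smul, Bsymm50 Q q0 p, hq0p]
        simp
      generalize q0 + (-(Q q0)) • p = q at hqH hpq hQq
      have hlam : (c + 1) * c⁻¹ ≠ 0 := mul_ne_zero hc1 (inv_ne_zero hc0)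
      have hlam1 : ((c + 1) * c⁻¹ - 1) * c = 1 := by field_simp; ring
      generalize (c + 1) * c⁻¹ = lam at hlam hlam1
      have hll : lam * lam⁻¹ = 1 := mul_inv_cancel₀ hlam
      have e1 : ∀ v, (LinearMap.id + (lam - 1) • (QuadraticMap.polarBilin Q q).smulRight p +
          (lam⁻¹ - 1) • (QuadraticMap.polarBilin Q p).smulRight q : V →ₗ[F] V) v =
          v + ((lam - 1) * QuadraticMap.polarBilin Q q v) • p + ((lam⁻¹ - 1) * QuadraticMap.polarBilin Q p v) • q := by
        intro v
        simp only [LinearMap.add_apply, LinearMap.smul_apply, LinearMap.id_apply, LinearMap.smulRight_apply, smul_smul]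
      refine ⟨LinearMap.id + (lam - 1) • (QuadraticMap.polarBilin Q q).smulRight p +
          (lam⁻¹ - 1) • (QuadraticMap.polarBilin Q p).smulRight q, ?_, ?_, ?_⟩
      · intro v
        rw [e1, Q3_50, hQp, hQq, hpq, Bsymm50 Q v p, Bsymm50 Q v q]
        linear_combination (QuadraticMap.polarBilin Q p v * QuadraticMap.polarBilin Q q v) * hll
      · intro h hh
        rw [e1, Bsymm50 Q q h, hqH h hh, Bsymm50 Q p h, hp h hh]
        simp
      · rw [e1, Bsymm50 Q p u0, hBu0p]
        have h4 : QuadraticMap.polarBilin Q q u0 = c := by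
          rw [← hsum, map_add, map_smul, Bsymm50 Q q h0', hqH h0' hh0', Bsymm50 Q q p, hpq]
          simp
        rw [h4, hlam1]
        simp
    · obtain ⟨z, hzS, hzu⟩ := dual_vec50 Q hQ _ u0 hmem
      have hzH : ∀ h ∈ H, QuadraticMap.polarBilin Q h z = 0 := fun h hh => hzS h (Submodule.mem_sup_left hh)
      have hzp : QuadraticMap.polarBilin Q p z = 0 :=
        hzS p (Submodule.mem_sup_right (Submodule.mem_span_singleton_self p))
      have e1 : ∀ v, (LinearMap.id + (QuadraticMap.polarBilin Q z).smulRight p +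
          (-(Q z)) • (QuadraticMap.polarBilin Q p).smulRight p + (-1 : F) • (QuadraticMap.polarBilin Q p).smulRight z :
            V →ₗ[F] V) v =
          v + (QuadraticMap.polarBilin Q z v + (-(Q z)) * QuadraticMap.polarBilin Q p v) • p +
            ((-1 : F) * QuadraticMap.polarBilin Q p v) • z := by
        intro v
        simp only [LinearMap.add_apply, LinearMap.smul_apply, LinearMap.id_apply, LinearMap.smulRight_apply, smul_smul]
        rw [add_assoc v, ← add_smul]
      refine ⟨LinearMap.id + (QuadraticMap.polarBilin Q z).smulRight p +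
          (-(Q z)) • (QuadraticMap.polarBilin Q p).smulRight p + (-1 : F) • (QuadraticMap.polarBilin Q p).smulRight z, ?_, ?_, ?_⟩
      · intro v
        rw [e1, Q3_50, hQp, hzp, Bsymm50 Q v p, Bsymm50 Q v z]
        ring
      · intro h hh
        rw [e1, Bsymm50 Q z h, hzH h hh, Bsymm50 Q p h, hp h hh]
        simp
      · rw [e1, Bsymm50 Q z u0, hzu, Bsymm50 Q p u0, hBu0p]
        simp
  · have e1 : ∀ v, (LinearMap.id + (-(Q p)⁻¹) • (QuadraticMap.polarBilin Q p).smulRight p : V →ₗ[F] V) v =
        v + (-(Q p)⁻¹ * QuadraticMap.polarBilin Q p v) • p + (0 : F) • p := by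
      intro v
      rw [zero_smul, add_zero]
      simp only [LinearMap.add_apply, LinearMap.smul_apply, LinearMap.id_apply, LinearMap.smulRight_apply, smul_smul]
    refine ⟨LinearMap.id + (-(Q p)⁻¹) • (QuadraticMap.polarBilin Q p).smulRight p, ?_, ?_, ?_⟩
    · intro v
      rw [e1, Q3_50, Bsymm50 Q v p]
      field_simp
      ring
    · intro h hh
      rw [e1, Bsymm50 Q p h, hp h hh]
      simp
    · rw [e1, Bsymm50 Q p u0]
      have h5 : QuadraticMap.polarBilin Q u0 p = -(Q p) := by linear_combination hrel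
      rw [h5]
      have h6 : -(Q p)⁻¹ * -(Q p) = 1 := by field_simp
      rw [h6]
      simp

theorem witt_fam50 {F V : Type*} [Field F] [AddCommGroup V] [Module F V] [FiniteDimensional F V]
    (Q : QuadraticForm F V) (hQ : (QuadraticMap.polarBilin Q).Nondegenerate) :
    ∀ (k : ℕ) (x y : Fin k → V), LinearIndependent F x → LinearIndependent F y →
      (∀ i, Q (x i) = Q (y i)) →
      (∀ i j, QuadraticMap.polarBilin Q (x i) (x j) = QuadraticMap.polarBilin Q (y i) (y j)) →
      ∃ g : V ≃ₗ[F] V, (∀ v, Q (g v) = Q v) ∧ ∀ i, g (x i) = y i := by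
  intro k
  induction k with
  | zero =>
    intro x y _ _ _ _
    exact ⟨LinearEquiv.refl F V, fun v => rfl, fun i => i.elim0⟩
  | succ k ih =>
    intro x y hx hy hQxy hBxy
    obtain ⟨τ, hτ, hτx⟩ := ih (fun i => x i.castSucc) (fun i => y i.castSucc)
      (hx.comp _ (Fin.castSucc_injective k)) (hy.comp _ (Fin.castSucc_injective k))
      (fun i => hQxy _) (fun i j => hBxy _ _)
    have hτB : ∀ u v, QuadraticMap.polarBilin Q (τ u) (τ v) = QuadraticMap.polarBilin Q u v :=
      fun u v => isoB50 Q τ.toLinearMap hτ u v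
    have hlast : Fin.last k ∉ Set.range (Fin.castSucc : Fin k → Fin (k + 1)) := by
      rintro ⟨j, hj⟩
      exact Fin.castSucc_ne_last j hj
    have h1 : y (Fin.last k) ∉ Submodule.span F (Set.range (fun i : Fin k => y i.castSucc)) := by
      have h2 := hy.notMem_span_image hlast
      rw [← Set.range_comp] at h2
      exact h2
    have h0 : τ (x (Fin.last k)) ∉ Submodule.span F (Set.range (fun i : Fin k => y i.castSucc)) := by
      have hτx' : LinearIndependent F (fun i => τ (x i)) := hx.map' τ.toLinearMap (LinearEquiv.ker τ)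
      have h2 := hτx'.notMem_span_image hlast
      rw [← Set.range_comp] at h2
      have h3 : ((fun i => τ (x i)) ∘ (Fin.castSucc : Fin k → Fin (k + 1))) = fun i : Fin k => y i.castSucc := by
        funext i
        exact hτx i
      rw [h3] at h2
      exact h2
    have hpH : ∀ h ∈ Submodule.span F (Set.range (fun i : Fin k => y i.castSucc)),
        QuadraticMap.polarBilin Q h (y (Fin.last k) - τ (x (Fin.last k))) = 0 := by
      intro h hh
      induction hh using Submodule.span_induction with
      | mem z hz =>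
        obtain ⟨i, rfl⟩ := hz
        show QuadraticMap.polarBilin Q (y i.castSucc) (y (Fin.last k) - τ (x (Fin.last k))) = 0
        rw [map_sub, ← hBxy, ← hτx i, hτB, sub_self]
      | zero => simp
      | add a b _ _ ha hb => rw [map_add, LinearMap.add_apply, ha, hb, add_zero]
      | smul r a _ ha => rw [map_smul, LinearMap.smul_apply, ha, smul_zero]
    have hsum : τ (x (Fin.last k)) + (y (Fin.last k) - τ (x (Fin.last k))) = y (Fin.last k) := by abel
    obtain ⟨g, hg, hgH, hgu⟩ := step50 Q hQ _ (τ (x (Fin.last k))) (y (Fin.last k) - τ (x (Fin.last k))) h0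
      (by rw [hsum]; exact h1) hpH (by rw [hsum, hτ, hQxy])
    rw [hsum] at hgu
    refine ⟨τ.trans g, fun v => ?_, fun i => ?_⟩
    · show Q (g (τ v)) = Q v
      rw [hg, hτ]
    · refine Fin.lastCases ?_ (fun j => ?_) i
      · exact hgu
      · show g (τ (x j.castSucc)) = y j.castSucc
        rw [hτx j]
        exact hgH _ (Submodule.subset_span ⟨j, rfl⟩)

/-- Witt's Lemma for quadratic forms over a finite field, in any characteristic: if Q is a quadratic form on a finite-dimensional space V whose polar bilinear form is non-degenerate, then every linear equivalence between subspaces X, Y of V that preserves Q extends to a Q-preserving linear automorphism of V. (In odd characteristic this is the symmetric-bilinear case; in characteristic two it is the statement for non-degenerate quadratic forms.) -/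
theorem result {F V : Type*} [Field F] [Finite F] [AddCommGroup V] [Module F V] [FiniteDimensional F V] (Q : QuadraticForm F V) (hQ : (QuadraticMap.polarBilin Q).Nondegenerate) (X Y : Submodule F V) (φ : X ≃ₗ[F] Y) (hφ : ∀ x : X, Q (φ x : V) = Q (x : V)) : ∃ g : V ≃ₗ[F] V, (∀ v : V, Q (g v) = Q v) ∧ ∀ x : X, g (x : V) = (φ x : V) := by
  let bX := Module.finBasis F X
  have hx : LinearIndependent F (fun i => (bX i : V)) := bX.linearIndependent.map' X.subtype (Submodule.ker_subtype X)
  have hy : LinearIndependent F (fun i => (φ (bX i) : V)) := by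
    have h6 := bX.linearIndependent.map' (Y.subtype ∘ₗ φ.toLinearMap) (by
      rw [LinearMap.ker_comp]; simp)
    exact h6
  have hG : ∀ i j, QuadraticMap.polarBilin Q (bX i : V) (bX j : V) =
      QuadraticMap.polarBilin Q (φ (bX i) : V) (φ (bX j) : V) := by
    intro i j
    rw [QuadraticMap.polarBilin_apply_apply, QuadraticMap.polarBilin_apply_apply, QuadraticMap.polar,
      QuadraticMap.polar]
    have h1 := hφ (bX i + bX j)
    rw [map_add, Submodule.coe_add, Submodule.coe_add] at h1
    rw [h1, hφ, hφ]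
  obtain ⟨g, hg, hgx⟩ := witt_fam50 Q hQ _ _ _ hx hy (fun i => (hφ _).symm) hG
  refine ⟨g, hg, fun x => ?_⟩
  have h7 : g.toLinearMap ∘ₗ X.subtype = Y.subtype ∘ₗ φ.toLinearMap := by
    apply bX.ext
    intro i
    simpa using hgx i
  exact LinearMap.congr_fun h7 x

end Cfsg.Agent.S0750
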