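import Cfsg.Statements.S0756
import Mathlib
import Cfsg.Statements.S0756

set_option autoImplicit false
open Cfsg
open scoped commutatorElement

namespace Cfsg.Agent.S0756

open Module
open Polynomial

universe u

theorem nonsq_mul56 {F : Type*} [Field F] [Finite F] (a α : F)
    (ha : ¬ IsSquare a) (hα : ¬ IsSquare α) : IsSquare (a * α) := by
  classical
  haveI := Fintype.ofFinite F
  have h1 := quadraticChar_neg_one_iff_not_isSquare.mpr ha
  have h2 := quadraticChar_neg_one_iff_not_isSquare.mpr hα
  have ha0 : a ≠ 0 := by rintro rfl; exact ha IsSquare.zero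
  have hα0 : α ≠ 0 := by rintro rfl; exact hα IsSquare.zero
  rw [← quadraticChar_one_iff_isSquare (mul_ne_zero ha0 hα0), map_mul, h1, h2]
  norm_num

theorem li_of_orth56 {F V : Type*} [Field F] [AddCommGroup V] [Module F V] {n : ℕ}
    (B : LinearMap.BilinForm F V) (b : Fin n → V)
    (horth : ∀ i j, i ≠ j → B (b i) (b j) = 0) (hne : ∀ i, B (b i) (b i) ≠ 0) :
    LinearIndependent F b := by
  rw [Fintype.linearIndependent_iff]
  intro g hg i
  have h1 : B (∑ j, g j • b j) (b i) = 0 := by rw [hg]; simp
  simp only [map_sum, LinearMap.sum_apply, map_smul, LinearMap.smul_apply, smul_eq_mul] at h1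
  rw [Finset.sum_eq_single i (fun j _ hj => by rw [horth j i hj, mul_zero])
    (fun h => absurd (Finset.mem_univ i) h)] at h1
  rcases mul_eq_zero.mp h1 with h | h
  · exact h
  · exact absurd h (hne i)

theorem exists_aniso56 {F V : Type*} [Field F] [AddCommGroup V] [Module F V]
    (B : LinearMap.BilinForm F V) (hS : B.IsSymm) (hB : B.Nondegenerate) (h2 : (2 : F) ≠ 0)
    (hV : ∃ v : V, v ≠ 0) : ∃ u : V, B u u ≠ 0 := by
  by_contra hcon
  push Not at hcon
  obtain ⟨v, hv⟩ := hV
  obtain ⟨w, hw⟩ : ∃ w, B v w ≠ 0 := by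
    by_contra hc; push Not at hc; exact hv (hB.1 v hc)
  have h1 := hcon (v + w)
  simp only [map_add, LinearMap.add_apply, hcon v, hcon w, hS.eq w v, zero_add, add_zero] at h1
  have h3 : (2 : F) * B v w = 0 := by rw [two_mul]; exact h1
  rcases mul_eq_zero.mp h3 with h | h
  · exact h2 h
  · exact hw h

theorem exists_one56 {F V : Type*} [Field F] [Finite F] [AddCommGroup V] [Module F V]
    [FiniteDimensional F V]
    (B : LinearMap.BilinForm F V) (hS : B.IsSymm) (hB : B.Nondegenerate) (h2 : (2 : F) ≠ 0)
    (hd : 2 ≤ finrank F V) : ∃ v : V, B v v = 1 := by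
  classical
  haveI := Fintype.ofFinite F
  have hodd : Fintype.card F % 2 = 1 := by
    apply FiniteField.odd_card_of_char_ne_two
    intro h
    apply h2
    have := ringChar.Nat.cast_ringChar (R := F)
    rw [h] at this
    exact_mod_cast this
  obtain ⟨u, hu⟩ := exists_aniso56 B hS hB h2 (by
    have : 0 < finrank F V := by omega
    exact Module.finrank_pos_iff_exists_ne_zero.mp this)
  have hu0 : u ≠ 0 := by rintro rfl; simp at hu
  have hnd := LinearMap.BilinForm.restrict_nondegenerate_orthogonal_spanSingleton B hB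
    hS.isRefl hu
  have hfr := LinearMap.BilinForm.finrank_orthogonal hB (F ∙ u)
  rw [finrank_span_singleton hu0] at hfr
  obtain ⟨w, hw⟩ := exists_aniso56 (B.restrict (B.orthogonal (F ∙ u))) (hS.restrict _) hnd h2 (by
    have : 0 < finrank F (B.orthogonal (F ∙ u)) := by omega
    exact Module.finrank_pos_iff_exists_ne_zero.mp this)
  have hw' : B (w : V) (w : V) ≠ 0 := hw
  have huw : B u (w : V) = 0 := by
    have := w.2
    rw [LinearMap.BilinForm.mem_orthogonal_iff] at this
    exact this u (Submodule.mem_span_singleton_self u)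
  have hwu : B (w : V) u = 0 := by rw [hS.eq]; exact huw
  obtain ⟨x, y, hxy⟩ := FiniteField.exists_root_sum_quadratic
    (f := C (B u u) * X ^ 2) (g := C (B (w : V) (w : V)) * X ^ 2 + C (-1))
    (Polynomial.degree_C_mul_X_pow 2 hu)
    (by rw [Polynomial.degree_add_C (by rw [Polynomial.degree_C_mul_X_pow 2 hw']; norm_num),
      Polynomial.degree_C_mul_X_pow 2 hw']; rfl) hodd
  simp only [eval_mul, eval_C, eval_pow, eval_X, eval_add] at hxy
  refine ⟨x • u + y • (w : V), ?_⟩
  simp only [map_add, map_smul, LinearMap.add_apply, LinearMap.smul_apply, huw, hwu, smul_eq_mul]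
  linear_combination hxy

theorem main56 {F : Type*} [Field F] [Finite F] (h2 : (2 : F) ≠ 0) (α : F) (hα : ¬ IsSquare α)
    (n : ℕ) :
    ∀ (V : Type u) [AddCommGroup V] [Module F V] [FiniteDimensional F V]
      (B : LinearMap.BilinForm F V), finrank F V = n + 1 → B.IsSymm → B.Nondegenerate →
      ∃ b : Fin (n + 1) → V, (∀ i j, i ≠ j → B (b i) (b j) = 0) ∧
        (∀ i, i ≠ Fin.last n → B (b i) (b i) = 1) ∧
        (B (b (Fin.last n)) (b (Fin.last n)) = 1 ∨ B (b (Fin.last n)) (b (Fin.last n)) = α) := by
  induction n with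
  | zero =>
    intro V _ _ _ B hV hS hB
    obtain ⟨u, hu⟩ := exists_aniso56 B hS hB h2 (by
      have : 0 < finrank F V := by omega
      exact Module.finrank_pos_iff_exists_ne_zero.mp this)
    have hsub : ∀ i j : Fin (0 + 1), i = j := fun i j => Fin.ext (by omega)
    by_cases hsq : IsSquare (B u u)
    · obtain ⟨s, hs⟩ := hsq
      have hs0 : s ≠ 0 := by rintro rfl; apply hu; rw [hs]; ring
      refine ⟨fun _ => s⁻¹ • u, fun i j hij => absurd (hsub i j) hij,
        fun i hi => absurd (hsub i _) hi, Or.inl ?_⟩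
      simp only [map_smul, LinearMap.smul_apply, smul_eq_mul]
      rw [hs]; field_simp
    · obtain ⟨r, hr⟩ := nonsq_mul56 (B u u) α hsq hα
      have hα0 : α ≠ 0 := by rintro rfl; exact hα IsSquare.zero
      have hr0 : r ≠ 0 := by
        rintro rfl
        rcases mul_eq_zero.mp (hr.trans (mul_zero 0)) with h | h
        · exact hu h
        · exact hα0 h
      refine ⟨fun _ => (α / r) • u, fun i j hij => absurd (hsub i j) hij,
        fun i hi => absurd (hsub i _) hi, Or.inr ?_⟩
      simp only [map_smul, LinearMap.smul_apply, smul_eq_mul]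
      have e1 : (α / r) * ((α / r) * B u u) = α * (B u u * α) / (r * r) := by field_simp
      rw [e1, hr]
      field_simp
  | succ n ih =>
    intro V _ _ _ B hV hS hB
    obtain ⟨v, hv⟩ := exists_one56 B hS hB h2 (by omega)
    have hvv : B v v ≠ 0 := by rw [hv]; exact one_ne_zero
    have hv0 : v ≠ 0 := by rintro rfl; simp at hv
    have hfr := LinearMap.BilinForm.finrank_orthogonal hB (F ∙ v)
    rw [finrank_span_singleton hv0, hV] at hfr
    have hnd := LinearMap.BilinForm.restrict_nondegenerate_orthogonal_spanSingleton B hB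
      hS.isRefl hvv
    have hWv : ∀ x : B.orthogonal (F ∙ v), B v (x : V) = 0 := by
      intro x
      have := x.2
      rw [LinearMap.BilinForm.mem_orthogonal_iff] at this
      exact this v (Submodule.mem_span_singleton_self v)
    obtain ⟨b', hb1, hb2, hb3⟩ := ih (B.orthogonal (F ∙ v)) (B.restrict (B.orthogonal (F ∙ v)))
      (by rw [hfr]; omega) (hS.restrict _) hnd
    refine ⟨Fin.cons v (fun i => ((b' i : B.orthogonal (F ∙ v)) : V)), ?_, ?_, ?_⟩
    · intro i j
      refine Fin.cases ?_ (fun i' => ?_) i <;> refine Fin.cases ?_ (fun j' => ?_) j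
      · intro h; exact absurd rfl h
      · intro _
        simp only [Fin.cons_zero, Fin.cons_succ]
        exact hWv _
      · intro _
        simp only [Fin.cons_zero, Fin.cons_succ]
        rw [hS.eq]; exact hWv _
      · intro hij
        simp only [Fin.cons_succ]
        exact hb1 i' j' (fun h => hij (by rw [h]))
    · intro i
      refine Fin.cases ?_ (fun i' => ?_) i
      · intro _; simp only [Fin.cons_zero]; exact hv
      · intro hi
        simp only [Fin.cons_succ]
        exact hb2 i' (fun h => hi (by rw [h, Fin.succ_last]))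
    · rw [← Fin.succ_last]
      simp only [Fin.cons_succ]
      exact hb3

/-- Classification of symmetric bilinear forms over finite fields of odd characteristic: if B is non-degenerate symmetric on V of dimension n + 1 and α is a fixed non-square of F, there is an orthogonal basis b_0, ..., b_n with B(b_i, b_i) = 1 for i < n and B(b_n, b_n) ∈ {1, α}. -/
theorem result {F V : Type*} [Field F] [Finite F] [AddCommGroup V] [Module F V] [FiniteDimensional F V] (h2 : (2 : F) ≠ 0) (B : LinearMap.BilinForm F V) (hS : B.IsSymm) (hB : B.Nondegenerate) {n : ℕ} (hn : Module.finrank F V = n + 1) (α : F) (hα : ¬ IsSquare α) : ∃ b : Module.Basis (Fin (n + 1)) F V, (∀ i j, i ≠ j → B (b i) (b j) = 0) ∧ (∀ i, i ≠ Fin.last n → B (b i) (b i) = 1) ∧ (B (b (Fin.last n)) (b (Fin.last n)) = 1 ∨ B (b (Fin.last n)) (b (Fin.last n)) = α) := by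
  obtain ⟨b, hb1, hb2, hb3⟩ := main56 h2 α hα n V B hn hS hB
  have hα0 : α ≠ 0 := by rintro rfl; exact hα IsSquare.zero
  have hne : ∀ i, B (b i) (b i) ≠ 0 := by
    intro i
    by_cases hi : i = Fin.last n
    · subst hi
      rcases hb3 with h | h
      · rw [h]; exact one_ne_zero
      · rw [h]; exact hα0
    · rw [hb2 i hi]; exact one_ne_zero
  have hli := li_of_orth56 B b hb1 hne
  have hsp := hli.span_eq_top_of_card_eq_finrank' (by simp [hn])
  refine ⟨Basis.mk hli (by rw [hsp]), ?_⟩
  simp only [Basis.coe_mk]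
  exact ⟨hb1, hb2, hb3⟩

end Cfsg.Agent.S0756
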