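import Cfsg.Statements.S0760
import Mathlib
import Cfsg.Statements.S0760

set_option autoImplicit false
open Cfsg
open scoped commutatorElement

namespace Cfsg.Agent.S0760

open Module

theorem orth_sup60 {F V : Type*} [Field F] [AddCommGroup V] [Module F V]
    (B : LinearMap.BilinForm F V) (A C : Submodule F V) :
    B.orthogonal (A ⊔ C) = B.orthogonal A ⊓ B.orthogonal C := by
  ext m
  simp only [LinearMap.BilinForm.mem_orthogonal_iff, Submodule.mem_inf]
  constructor
  · intro h
    exact ⟨fun n hn => h n (Submodule.mem_sup_left hn), fun n hn => h n (Submodule.mem_sup_right hn)⟩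
  · rintro ⟨h1, h2⟩ n hn
    obtain ⟨a, ha, c, hc, rfl⟩ := Submodule.mem_sup.mp hn
    rw [map_add, LinearMap.add_apply, h1 a ha, h2 c hc, add_zero]

theorem ts_le_orth60 {F V : Type*} [Field F] [AddCommGroup V] [Module F V]
    (Q : QuadraticForm F V) (W : Submodule F V) (h : ∀ w ∈ W, Q w = 0) :
    W ≤ LinearMap.BilinForm.orthogonal (QuadraticMap.polarBilin Q) W := by
  intro w hw
  rw [LinearMap.BilinForm.mem_orthogonal_iff]
  intro n hn
  rw [QuadraticMap.polarBilin_apply_apply, QuadraticMap.polar, h _ (W.add_mem hn hw), h n hn,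
    h w hw]
  simp

theorem max_ts60 {F V : Type*} [Field F] [AddCommGroup V] [Module F V]
    (Q : QuadraticForm F V) (W₁ W₂ : Submodule F V)
    (h₁ : ∀ w ∈ W₁, Q w = 0) (h₂ : ∀ w ∈ W₂, Q w = 0)
    (hmax₁ : ∀ W : Submodule F V, W₁ ≤ W → (∀ w ∈ W, Q w = 0) → W = W₁) :
    W₂ ⊓ LinearMap.BilinForm.orthogonal (QuadraticMap.polarBilin Q) W₁ = W₁ ⊓ W₂ := by
  apply le_antisymm
  · have hX : (W₂ ⊓ LinearMap.BilinForm.orthogonal (QuadraticMap.polarBilin Q) W₁) ⊔ W₁ = W₁ := by
      apply hmax₁ _ le_sup_right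
      intro w hw
      obtain ⟨a, ha, b, hb, rfl⟩ := Submodule.mem_sup.mp hw
      obtain ⟨ha2, haP⟩ := Submodule.mem_inf.mp ha
      rw [LinearMap.BilinForm.mem_orthogonal_iff] at haP
      have h5 := haP b hb
      rw [QuadraticMap.polarBilin_apply_apply, QuadraticMap.polar_comm] at h5
      rw [QuadraticMap.map_add (⇑Q) a b, h₂ a ha2, h₁ b hb, h5]
      simp
    have hle : W₂ ⊓ LinearMap.BilinForm.orthogonal (QuadraticMap.polarBilin Q) W₁ ≤ W₁ := by
      have hl : W₂ ⊓ LinearMap.BilinForm.orthogonal (QuadraticMap.polarBilin Q) W₁ ≤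
          (W₂ ⊓ LinearMap.BilinForm.orthogonal (QuadraticMap.polarBilin Q) W₁) ⊔ W₁ := le_sup_left
      rw [hX] at hl
      exact hl
    exact le_inf hle inf_le_left
  · exact le_inf inf_le_right (inf_le_left.trans (ts_le_orth60 Q W₁ h₁))

/-- Witt index is well defined: if Q is a quadratic form on a finite-dimensional space V over a finite field with non-degenerate polar form, and W₁, W₂ are subspaces on which Q vanishes that are maximal with this property, then W₁ and W₂ have the same dimension, and twice this dimension is at most dim V. -/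
theorem result {F V : Type*} [Field F] [Finite F] [AddCommGroup V] [Module F V] [FiniteDimensional F V] (Q : QuadraticForm F V) (hQ : (QuadraticMap.polarBilin Q).Nondegenerate) (W₁ W₂ : Submodule F V) (h₁ : ∀ w ∈ W₁, Q w = 0) (h₂ : ∀ w ∈ W₂, Q w = 0) (hmax₁ : ∀ W : Submodule F V, W₁ ≤ W → (∀ w ∈ W, Q w = 0) → W = W₁) (hmax₂ : ∀ W : Submodule F V, W₂ ≤ W → (∀ w ∈ W, Q w = 0) → W = W₂) : Module.finrank F W₁ = Module.finrank F W₂ ∧ 2 * Module.finrank F W₁ ≤ Module.finrank F V := by
  have hrefl : (QuadraticMap.polarBilin Q).IsRefl :=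
    LinearMap.BilinForm.IsSymm.isRefl ⟨fun x y => by
      rw [QuadraticMap.polarBilin_apply_apply, QuadraticMap.polarBilin_apply_apply,
        QuadraticMap.polar_comm]⟩
  have e1 := max_ts60 Q W₁ W₂ h₁ h₂ hmax₁
  have e2 := max_ts60 Q W₂ W₁ h₂ h₁ hmax₂
  have hA : LinearMap.BilinForm.orthogonal (QuadraticMap.polarBilin Q) (LinearMap.BilinForm.orthogonal (QuadraticMap.polarBilin Q) W₁ ⊔ W₂) = W₁ ⊓ W₂ := by
    rw [orth_sup60, LinearMap.BilinForm.orthogonal_orthogonal hQ hrefl, e2, inf_comm]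
  have f1 := LinearMap.BilinForm.finrank_orthogonal hQ
    (LinearMap.BilinForm.orthogonal (QuadraticMap.polarBilin Q) W₁ ⊔ W₂)
  rw [hA] at f1
  have f2 := Submodule.finrank_sup_add_finrank_inf_eq
    (LinearMap.BilinForm.orthogonal (QuadraticMap.polarBilin Q) W₁) W₂
  rw [inf_comm, e1] at f2
  have f3 := LinearMap.BilinForm.finrank_orthogonal hQ W₁
  rw [f3] at f2
  have f4 : finrank F (LinearMap.BilinForm.orthogonal (QuadraticMap.polarBilin Q) W₁ ⊔ W₂ : Submodule F V) ≤
      finrank F V := Submodule.finrank_le _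
  have f5 : finrank F W₁ ≤ finrank F V := Submodule.finrank_le _
  have f6 : finrank F W₂ ≤ finrank F V := Submodule.finrank_le _
  have f7 := Submodule.finrank_mono (ts_le_orth60 Q W₁ h₁)
  rw [f3] at f7
  constructor <;> omega

end Cfsg.Agent.S0760
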