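import Cfsg.Statements.S2618
import Mathlib
import Cfsg.Statements.S2618

set_option autoImplicit false
open Cfsg
open scoped commutatorElement

namespace Cfsg.Agent.S2618

open Module
open Polynomial

universe u

/-- hyperbolic family -/
def HypFam18 {F V : Type*} [Field F] [AddCommGroup V] [Module F V] (Q : QuadraticForm F V) {k : ℕ}
    (e f : Fin k → V) : Prop :=
  (∀ i, Q (e i) = 0 ∧ Q (f i) = 0) ∧
  (∀ i j, QuadraticMap.polar ⇑Q (e i) (f j) = if i = j then 1 else 0) ∧
  (∀ i j, QuadraticMap.polar ⇑Q (e i) (e j) = 0 ∧ QuadraticMap.polar ⇑Q (f i) (f j) = 0)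

theorem rad18 {F V : Type*} [Field F] [AddCommGroup V] [Module F V] (Q : QuadraticForm F V)
    (hQ : (QuadraticMap.polarBilin Q).Nondegenerate) (x : V)
    (h : ∀ y, QuadraticMap.polar ⇑Q x y = 0) : x = 0 :=
  hQ.1 x (fun y => by rw [QuadraticMap.polarBilin_apply_apply]; exact h y)

theorem finrank_ker_ge18 {F V W : Type*} [Field F] [AddCommGroup V] [Module F V]
    [FiniteDimensional F V] [AddCommGroup W] [Module F W] [FiniteDimensional F W]
    (φ : V →ₗ[F] W) : finrank F V ≤ finrank F (LinearMap.ker φ) + finrank F W := by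
  have h1 := LinearMap.finrank_range_add_finrank_ker φ
  have h2 : finrank F (LinearMap.range φ) ≤ finrank F W := Submodule.finrank_le _
  omega

theorem exists_singular18 {F V : Type*} [Field F] [Finite F] [AddCommGroup V] [Module F V]
    [FiniteDimensional F V] (Q : QuadraticForm F V)
    (hQ : (QuadraticMap.polarBilin Q).Nondegenerate) (h3 : 3 ≤ finrank F V) :
    ∃ v : V, v ≠ 0 ∧ Q v = 0 := by
  classical
  haveI := Fintype.ofFinite F
  by_contra hcon
  push Not at hcon
  obtain ⟨u, hu⟩ : ∃ u : V, u ≠ 0 := by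
    have : 0 < finrank F V := by omega
    exact Module.finrank_pos_iff_exists_ne_zero.mp this
  have hQu := hcon u hu
  have hK : 2 ≤ finrank F (LinearMap.ker (QuadraticMap.polarBilin Q u)) := by
    have := finrank_ker_ge18 (QuadraticMap.polarBilin Q u)
    rw [Module.finrank_self] at this
    omega
  by_cases h2 : (2 : F) = 0
  · haveI : CharP F 2 := CharTwo.of_one_ne_zero_of_two_eq_zero one_ne_zero h2
    obtain ⟨w, hwK, hwu⟩ : ∃ w ∈ LinearMap.ker (QuadraticMap.polarBilin Q u),
        w ∉ Submodule.span F {u} := by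
      by_contra hc
      push Not at hc
      have hle : LinearMap.ker (QuadraticMap.polarBilin Q u) ≤ Submodule.span F {u} := hc
      have := Submodule.finrank_mono hle
      rw [finrank_span_singleton hu] at this
      omega
    have hw0 : w ≠ 0 := by rintro rfl; exact hwu (Submodule.zero_mem _)
    have hQw := hcon w hw0
    obtain ⟨s, hs⟩ := isSquare_of_charTwo' (Q w / Q u)
    have hpol : QuadraticMap.polar ⇑Q u w = 0 := by
      have := LinearMap.mem_ker.mp hwK
      rwa [QuadraticMap.polarBilin_apply_apply] at this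
    have hv : Q (w + s • u) = 0 := by
      rw [QuadraticMap.map_add (⇑Q) w (s • u), QuadraticMap.map_smul,
        QuadraticMap.polar_smul_right, QuadraticMap.polar_comm, hpol]
      simp only [smul_eq_mul, mul_zero, add_zero]
      rw [← hs]
      field_simp
      linear_combination Q w * h2
    apply hcon (w + s • u) ?_ hv
    intro h0
    apply hwu
    rw [Submodule.mem_span_singleton]
    exact ⟨-s, by rw [neg_smul]; exact (eq_neg_of_add_eq_zero_left h0).symm⟩
  · have hodd : Fintype.card F % 2 = 1 := by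
      apply FiniteField.odd_card_of_char_ne_two
      intro h
      apply h2
      have := ringChar.Nat.cast_ringChar (R := F)
      rw [h] at this
      exact_mod_cast this
    obtain ⟨w, hwK, hw0⟩ : ∃ w ∈ LinearMap.ker (QuadraticMap.polarBilin Q u), w ≠ 0 := by
      have : LinearMap.ker (QuadraticMap.polarBilin Q u) ≠ ⊥ := by
        intro hbot; rw [hbot, finrank_bot] at hK; omega
      exact Submodule.exists_mem_ne_zero_of_ne_bot this
    have hQw := hcon w hw0
    have hK2 : 1 ≤ finrank F (LinearMap.ker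
        ((QuadraticMap.polarBilin Q u).prod (QuadraticMap.polarBilin Q w))) := by
      have := finrank_ker_ge18
        ((QuadraticMap.polarBilin Q u).prod (QuadraticMap.polarBilin Q w))
      rw [Module.finrank_prod, Module.finrank_self] at this
      omega
    obtain ⟨z, hzK, hz0⟩ : ∃ z ∈ LinearMap.ker
        ((QuadraticMap.polarBilin Q u).prod (QuadraticMap.polarBilin Q w)), z ≠ 0 := by
      have : LinearMap.ker
          ((QuadraticMap.polarBilin Q u).prod (QuadraticMap.polarBilin Q w)) ≠ ⊥ := by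
        intro hbot; rw [hbot, finrank_bot] at hK2; omega
      exact Submodule.exists_mem_ne_zero_of_ne_bot this
    have hQz := hcon z hz0
    have huw : QuadraticMap.polar ⇑Q u w = 0 := by
      have := LinearMap.mem_ker.mp hwK
      rwa [QuadraticMap.polarBilin_apply_apply] at this
    have huz : QuadraticMap.polar ⇑Q u z = 0 := congrArg Prod.fst (LinearMap.mem_ker.mp hzK)
    have hwz : QuadraticMap.polar ⇑Q w z = 0 := congrArg Prod.snd (LinearMap.mem_ker.mp hzK)
    obtain ⟨a, b, hab⟩ := FiniteField.exists_root_sum_quadratic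
      (f := C (Q u) * X ^ 2) (g := C (Q w) * X ^ 2 + C (Q z))
      (Polynomial.degree_C_mul_X_pow 2 hQu)
      (by rw [Polynomial.degree_add_C (by rw [Polynomial.degree_C_mul_X_pow 2 hQw]; norm_num),
        Polynomial.degree_C_mul_X_pow 2 hQw]; rfl) hodd
    simp only [eval_mul, eval_C, eval_pow, eval_X, eval_add] at hab
    have hv : Q (a • u + b • w + z) = 0 := by
      rw [QuadraticMap.map_add (⇑Q) (a • u + b • w) z, QuadraticMap.map_add (⇑Q) (a • u) (b • w)]
      simp only [QuadraticMap.map_smul, QuadraticMap.polar_add_left,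
        QuadraticMap.polar_smul_left, QuadraticMap.polar_smul_right, huw, huz, hwz, smul_eq_mul]
      linear_combination hab
    apply hcon _ ?_ hv
    intro h0
    have h5 := congrArg (fun x => QuadraticMap.polar ⇑Q x z) h0
    simp only [QuadraticMap.polar_add_left, QuadraticMap.polar_smul_left, huz, hwz,
      QuadraticMap.polar_self, smul_eq_mul, mul_zero, zero_add] at h5
    have h6 : QuadraticMap.polar ⇑Q (0 : V) z = 0 := by simp [QuadraticMap.polar]
    rw [h6] at h5
    have h7 : (2 : F) * Q z = 0 := by rw [← h5]; simp [two_mul]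
    rcases mul_eq_zero.mp h7 with h | h
    · exact h2 h
    · exact hQz h

theorem exists_hyp_pair18 {F V : Type*} [Field F] [AddCommGroup V] [Module F V]
    (Q : QuadraticForm F V) (hQ : (QuadraticMap.polarBilin Q).Nondegenerate)
    (v : V) (hv : v ≠ 0) (hQv : Q v = 0) :
    ∃ f : V, Q f = 0 ∧ QuadraticMap.polar ⇑Q v f = 1 := by
  obtain ⟨f₀, hf₀⟩ : ∃ f₀, QuadraticMap.polar ⇑Q v f₀ ≠ 0 := by
    by_contra hcon; push Not at hcon; exact hv (rad18 Q hQ v hcon)
  obtain ⟨f₁, h1⟩ : ∃ f₁, QuadraticMap.polar ⇑Q v f₁ = 1 :=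
    ⟨(QuadraticMap.polar ⇑Q v f₀)⁻¹ • f₀, by
      rw [QuadraticMap.polar_smul_right, smul_eq_mul, inv_mul_cancel₀ hf₀]⟩
  refine ⟨f₁ + (-Q f₁) • v, ?_, ?_⟩
  · rw [QuadraticMap.map_add (⇑Q) f₁ ((-Q f₁) • v), QuadraticMap.map_smul, hQv,
      QuadraticMap.polar_smul_right, QuadraticMap.polar_comm, h1]
    simp
  · rw [QuadraticMap.polar_add_right, QuadraticMap.polar_smul_right, QuadraticMap.polar_self,
      hQv, h1]
    simp

/-- the orthogonal complement of a pair -/
def perp18 {F V : Type*} [Field F] [AddCommGroup V] [Module F V] (Q : QuadraticForm F V)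
    (e f : V) : Submodule F V :=
  LinearMap.ker ((QuadraticMap.polarBilin Q e).prod (QuadraticMap.polarBilin Q f))

theorem mem_perp18 {F V : Type*} [Field F] [AddCommGroup V] [Module F V] (Q : QuadraticForm F V)
    (e f x : V) : x ∈ perp18 Q e f ↔
      QuadraticMap.polar ⇑Q e x = 0 ∧ QuadraticMap.polar ⇑Q f x = 0 := by
  unfold perp18
  constructor
  · intro h
    exact ⟨congrArg Prod.fst (LinearMap.mem_ker.mp h), congrArg Prod.snd (LinearMap.mem_ker.mp h)⟩
  · rintro ⟨h1, h2⟩
    exact LinearMap.mem_ker.mpr (Prod.ext h1 h2)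

theorem finrank_perp18 {F V : Type*} [Field F] [AddCommGroup V] [Module F V]
    [FiniteDimensional F V] (Q : QuadraticForm F V) (e f : V) (he : Q e = 0) (hf : Q f = 0)
    (hef : QuadraticMap.polar ⇑Q e f = 1) :
    finrank F (perp18 Q e f) + 2 = finrank F V := by
  have h1 := LinearMap.finrank_range_add_finrank_ker
    ((QuadraticMap.polarBilin Q e).prod (QuadraticMap.polarBilin Q f))
  have hsurj : LinearMap.range
      ((QuadraticMap.polarBilin Q e).prod (QuadraticMap.polarBilin Q f)) = ⊤ := by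
    rw [LinearMap.range_eq_top]
    rintro ⟨a, b⟩
    refine ⟨a • f + b • e, Prod.ext ?_ ?_⟩
    · show QuadraticMap.polar ⇑Q e (a • f + b • e) = a
      simp only [QuadraticMap.polar_add_right, QuadraticMap.polar_smul_right,
        QuadraticMap.polar_self, he, hf, hef, QuadraticMap.polar_comm (⇑Q) f e]
      simp
    · show QuadraticMap.polar ⇑Q f (a • f + b • e) = b
      simp only [QuadraticMap.polar_add_right, QuadraticMap.polar_smul_right,
        QuadraticMap.polar_self, he, hf, hef, QuadraticMap.polar_comm (⇑Q) f e]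
      simp
  rw [hsurj, finrank_top, Module.finrank_prod, Module.finrank_self] at h1
  unfold perp18
  omega

theorem nondeg_perp18 {F V : Type*} [Field F] [AddCommGroup V] [Module F V]
    (Q : QuadraticForm F V) (hQ : (QuadraticMap.polarBilin Q).Nondegenerate)
    (e f : V) (he : Q e = 0) (hf : Q f = 0)
    (hef : QuadraticMap.polar ⇑Q e f = 1) :
    (QuadraticMap.polarBilin (Q.comp (perp18 Q e f).subtype)).Nondegenerate := by
  have key : ∀ x : perp18 Q e f,
      (∀ y : perp18 Q e f, QuadraticMap.polar ⇑Q (x : V) (y : V) = 0) → x = 0 := by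
    intro x hx
    apply Subtype.ext
    apply rad18 Q hQ
    intro v
    obtain ⟨hxe, hxf⟩ := (mem_perp18 Q e f x).mp x.2
    have hmem : v + (-QuadraticMap.polar ⇑Q f v) • e + (-QuadraticMap.polar ⇑Q e v) • f ∈
        perp18 Q e f := by
      rw [mem_perp18]
      simp only [QuadraticMap.polar_add_right, QuadraticMap.polar_smul_right,
        QuadraticMap.polar_self, he, hf, hef, QuadraticMap.polar_comm (⇑Q) f e]
      constructor <;> simp
    have h1 := hx ⟨_, hmem⟩
    simp only [QuadraticMap.polar_add_right, QuadraticMap.polar_smul_right,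
      QuadraticMap.polar_comm (⇑Q) (x : V) e, QuadraticMap.polar_comm (⇑Q) (x : V) f, hxe, hxf]
      at h1
    simpa using h1
  constructor
  · intro x hx
    apply key
    intro y
    have := hx y
    rw [QuadraticMap.polarBilin_apply_apply] at this
    exact this
  · intro x hx
    apply key
    intro y
    have := hx y
    rw [QuadraticMap.polarBilin_apply_apply, QuadraticMap.polar_comm] at this
    exact this

theorem hypFam_cons18 {F V : Type*} [Field F] [AddCommGroup V] [Module F V]
    (Q : QuadraticForm F V) (e₀ f₀ : V) (he : Q e₀ = 0) (hf : Q f₀ = 0)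
    (hef : QuadraticMap.polar ⇑Q e₀ f₀ = 1) {k : ℕ} (e' f' : Fin k → perp18 Q e₀ f₀)
    (h : HypFam18 (Q.comp (perp18 Q e₀ f₀).subtype) e' f') :
    HypFam18 Q (Fin.cons e₀ (fun i => (e' i : V)) : Fin (k + 1) → V)
      (Fin.cons f₀ (fun i => (f' i : V)) : Fin (k + 1) → V) := by
  obtain ⟨h1, h2, h3⟩ := h
  have hm := fun (x : perp18 Q e₀ f₀) => (mem_perp18 Q e₀ f₀ x).mp x.2
  refine ⟨?_, ?_, ?_⟩
  · intro i
    refine Fin.cases ?_ (fun i' => ?_) i
    · simp [he, hf]
    · simp only [Fin.cons_succ]; exact h1 i'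
  · intro i j
    refine Fin.cases ?_ (fun i' => ?_) i <;> refine Fin.cases ?_ (fun j' => ?_) j
    · simp [hef]
    · simp only [Fin.cons_zero, Fin.cons_succ]
      rw [(hm (f' j')).1, if_neg (Fin.succ_ne_zero j').symm]
    · simp only [Fin.cons_zero, Fin.cons_succ]
      rw [QuadraticMap.polar_comm, (hm (e' i')).2, if_neg (Fin.succ_ne_zero i')]
    · simp only [Fin.cons_succ, Fin.succ_inj]; exact h2 i' j'
  · intro i j
    refine Fin.cases ?_ (fun i' => ?_) i <;> refine Fin.cases ?_ (fun j' => ?_) j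
    · simp [QuadraticMap.polar_self, he, hf]
    · simp only [Fin.cons_zero, Fin.cons_succ]; exact ⟨(hm (e' j')).1, (hm (f' j')).2⟩
    · simp only [Fin.cons_zero, Fin.cons_succ]
      rw [QuadraticMap.polar_comm, QuadraticMap.polar_comm (⇑Q) _ f₀]
      exact ⟨(hm (e' i')).1, (hm (f' i')).2⟩
    · simp only [Fin.cons_succ]; exact h3 i' j'

theorem hyp_li18 {F V : Type*} [Field F] [AddCommGroup V] [Module F V]
    (Q : QuadraticForm F V) {k : ℕ} (e f : Fin k → V) (h : HypFam18 Q e f)
    {ι : Type*} [Fintype ι] (z : ι → V)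
    (hz : ∀ i j, QuadraticMap.polar ⇑Q (e i) (z j) = 0 ∧ QuadraticMap.polar ⇑Q (f i) (z j) = 0)
    (hzli : LinearIndependent F z) (a b : Fin k → F) (c : ι → F)
    (hsum : ∑ i, a i • e i + ∑ i, b i • f i + ∑ j, c j • z j = 0) :
    a = 0 ∧ b = 0 ∧ c = 0 := by
  classical
  obtain ⟨h1, h2, h3⟩ := h
  have ha : a = 0 := by
    funext j
    have h5 : QuadraticMap.polarBilin Q
        (∑ i, a i • e i + ∑ i, b i • f i + ∑ j, c j • z j) (f j) = 0 := by
      rw [hsum]; simp
    simp only [map_add, map_sum, map_smul, LinearMap.add_apply, LinearMap.sum_apply,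
      LinearMap.smul_apply, QuadraticMap.polarBilin_apply_apply, h2, (h3 _ _).2,
      QuadraticMap.polar_comm (⇑Q) (z _) (f j), (hz _ _).2, smul_eq_mul, mul_zero,
      Finset.sum_const_zero, add_zero, mul_ite, mul_one, Finset.sum_ite_eq', Finset.mem_univ,
      if_true, LinearMap.zero_apply] at h5
    exact h5
  have hb : b = 0 := by
    funext j
    have h5 : QuadraticMap.polarBilin Q
        (∑ i, a i • e i + ∑ i, b i • f i + ∑ j, c j • z j) (e j) = 0 := by
      rw [hsum]; simp
    simp only [map_add, map_sum, map_smul, LinearMap.add_apply, LinearMap.sum_apply,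
      LinearMap.smul_apply, QuadraticMap.polarBilin_apply_apply, (h3 _ _).1,
      QuadraticMap.polar_comm (⇑Q) (z _) (e j), QuadraticMap.polar_comm (⇑Q) (f _) (e j), h2,
      (hz _ _).1, smul_eq_mul, mul_zero,
      Finset.sum_const_zero, add_zero, zero_add, mul_ite, mul_one, Finset.sum_ite_eq,
      Finset.mem_univ, if_true, LinearMap.zero_apply] at h5
    exact h5
  refine ⟨ha, hb, ?_⟩
  subst ha hb
  simp only [Pi.zero_apply, zero_smul, Finset.sum_const_zero, zero_add] at hsum
  funext j
  exact Fintype.linearIndependent_iff.mp hzli c hsum j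

theorem main18 {F : Type*} [Field F] [Finite F] (m : ℕ) :
    ∀ (V : Type u) [AddCommGroup V] [Module F V] [FiniteDimensional F V]
      (Q : QuadraticForm F V), finrank F V = 2 * m + 1 →
      (QuadraticMap.polarBilin Q).Nondegenerate →
      ∃ (x : V) (e f : Fin m → V), Q x ≠ 0 ∧
        (∀ i, QuadraticMap.polar ⇑Q x (e i) = 0 ∧ QuadraticMap.polar ⇑Q x (f i) = 0) ∧
        HypFam18 Q e f := by
  induction m with
  | zero =>
    intro V _ _ _ Q hV hQ
    obtain ⟨x, hx⟩ : ∃ x : V, x ≠ 0 := by
      have : 0 < finrank F V := by omega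
      exact Module.finrank_pos_iff_exists_ne_zero.mp this
    refine ⟨x, Fin.elim0, Fin.elim0, ?_, fun i => i.elim0,
      fun i => i.elim0, fun i => i.elim0, fun i => i.elim0⟩
    intro hQx
    apply hx
    apply rad18 Q hQ
    intro y
    obtain ⟨c, rfl⟩ := (finrank_eq_one_iff_of_nonzero' x hx).mp (by omega) y
    rw [QuadraticMap.polar_smul_right, QuadraticMap.polar_self, hQx]
    simp
  | succ m ih =>
    intro V _ _ _ Q hV hQ
    obtain ⟨e₀, he₀, hQe₀⟩ := exists_singular18 Q hQ (by omega)
    obtain ⟨f₀, hQf₀, hef⟩ := exists_hyp_pair18 Q hQ e₀ he₀ hQe₀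
    have hfr := finrank_perp18 Q e₀ f₀ hQe₀ hQf₀ hef
    have hnd := nondeg_perp18 Q hQ e₀ f₀ hQe₀ hQf₀ hef
    obtain ⟨x, e', f', hx, hxe, hH⟩ := ih (perp18 Q e₀ f₀) (Q.comp (perp18 Q e₀ f₀).subtype)
      (by omega) hnd
    have hm := fun (x : perp18 Q e₀ f₀) => (mem_perp18 Q e₀ f₀ x).mp x.2
    refine ⟨(x : V), Fin.cons e₀ (fun i => (e' i : V)), Fin.cons f₀ (fun i => (f' i : V)),
      hx, ?_, hypFam_cons18 Q e₀ f₀ hQe₀ hQf₀ hef e' f' hH⟩
    intro i
    refine Fin.cases ?_ (fun i' => ?_) i
    · simp only [Fin.cons_zero]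
      rw [QuadraticMap.polar_comm, QuadraticMap.polar_comm (⇑Q) _ f₀]
      exact hm x
    · simp only [Fin.cons_succ]
      exact hxe i'

/-- Standard (parabolic) basis of a non-degenerate quadratic space of odd dimension 2m + 1 over a finite field (the non-degeneracy of the polar form forces the characteristic to be odd): there is a basis e_i, f_i (i < m), x with Q(e_i) = Q(f_i) = 0, B(e_i, f_j) = δ_ij (B the polar form), the e's pairwise orthogonal and the f's pairwise orthogonal, x orthogonal to all of them and Q(x) ≠ 0. -/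
theorem result {F V : Type*} [Field F] [Finite F] [AddCommGroup V] [Module F V] [FiniteDimensional F V] {m : ℕ} (hV : Module.finrank F V = 2 * m + 1) (Q : QuadraticForm F V) (hQ : (QuadraticMap.polarBilin Q).Nondegenerate) : ∃ b : Module.Basis (Unit ⊕ (Fin m ⊕ Fin m)) F V, Q (b (Sum.inl ())) ≠ 0 ∧ (∀ i, QuadraticMap.polar ⇑Q (b (Sum.inl ())) (b (Sum.inr (Sum.inl i))) = 0 ∧ QuadraticMap.polar ⇑Q (b (Sum.inl ())) (b (Sum.inr (Sum.inr i))) = 0) ∧ (∀ i, Q (b (Sum.inr (Sum.inl i))) = 0 ∧ Q (b (Sum.inr (Sum.inr i))) = 0) ∧ (∀ i j, QuadraticMap.polar ⇑Q (b (Sum.inr (Sum.inl i))) (b (Sum.inr (Sum.inr j))) = if i = j then 1 else 0) ∧ (∀ i j, QuadraticMap.polar ⇑Q (b (Sum.inr (Sum.inl i))) (b (Sum.inr (Sum.inl j))) = 0 ∧ QuadraticMap.polar ⇑Q (b (Sum.inr (Sum.inr i))) (b (Sum.inr (Sum.inr j))) = 0) := by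
  obtain ⟨x, e, f, hx, hxe, hH⟩ := main18 m V Q hV hQ
  have hx0 : x ≠ 0 := by
    rintro rfl
    exact hx (QuadraticMap.map_zero Q)
  have hli : LinearIndependent F
      (Sum.elim (fun _ : Unit => x) (Sum.elim e f) : Unit ⊕ (Fin m ⊕ Fin m) → V) := by
    rw [Fintype.linearIndependent_iff]
    intro g hg
    simp only [Fintype.sum_sum_type, Sum.elim_inl, Sum.elim_inr] at hg
    have h5 := hyp_li18 Q e f hH (fun _ : Unit => x)
      (fun i j => by
        rw [QuadraticMap.polar_comm, QuadraticMap.polar_comm (⇑Q) (f i)]; exact hxe i)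
      (linearIndependent_unique_iff.mpr hx0)
      (fun i => g (Sum.inr (Sum.inl i))) (fun i => g (Sum.inr (Sum.inr i)))
      (fun _ => g (Sum.inl ())) (by rw [← hg]; abel)
    obtain ⟨ha, hb, hc⟩ := h5
    rintro (u | i | i)
    · exact congrFun hc ()
    · exact congrFun ha i
    · exact congrFun hb i
  have hsp := hli.span_eq_top_of_card_eq_finrank' (by simp [hV]; ring)
  refine ⟨Basis.mk hli (by rw [hsp]), ?_⟩
  simp only [Basis.coe_mk, Sum.elim_inl, Sum.elim_inr]
  exact ⟨hx, hxe, hH.1, hH.2.1, hH.2.2⟩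

end Cfsg.Agent.S2618
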