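import Cfsg.Statements.S2616
import Mathlib
import Cfsg.Statements.S2616
import Cfsg.Agent.S2618

set_option autoImplicit false
open Cfsg
open scoped commutatorElement

namespace Cfsg.Agent.S2616

open Module
open Polynomial
open Cfsg.Agent.S2618

universe u

theorem exists_one16 {F V : Type*} [Field F] [Finite F] [AddCommGroup V] [Module F V]
    [FiniteDimensional F V] (Q : QuadraticForm F V)
    (h2 : finrank F V = 2) (han : ∀ v : V, v ≠ 0 → Q v ≠ 0) :
    ∃ x : V, Q x = 1 := by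
  classical
  haveI := Fintype.ofFinite F
  obtain ⟨u, hu⟩ : ∃ u : V, u ≠ 0 := by
    have : 0 < finrank F V := by omega
    exact Module.finrank_pos_iff_exists_ne_zero.mp this
  have hQu := han u hu
  by_cases h2' : (2 : F) = 0
  · haveI : CharP F 2 := CharTwo.of_one_ne_zero_of_two_eq_zero one_ne_zero h2'
    obtain ⟨s, hs⟩ := isSquare_of_charTwo' (Q u)
    have hs0 : s ≠ 0 := by
      rintro rfl
      apply hQu
      rw [hs]; ring
    refine ⟨s⁻¹ • u, ?_⟩
    rw [QuadraticMap.map_smul, hs, smul_eq_mul]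
    field_simp
  · have hodd : Fintype.card F % 2 = 1 := by
      apply FiniteField.odd_card_of_char_ne_two
      intro h
      apply h2'
      have := ringChar.Nat.cast_ringChar (R := F)
      rw [h] at this
      exact_mod_cast this
    have hK : 1 ≤ finrank F (LinearMap.ker (QuadraticMap.polarBilin Q u)) := by
      have := finrank_ker_ge18 (QuadraticMap.polarBilin Q u)
      rw [Module.finrank_self] at this
      omega
    obtain ⟨w, hwK, hw0⟩ : ∃ w ∈ LinearMap.ker (QuadraticMap.polarBilin Q u), w ≠ 0 := by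
      have : LinearMap.ker (QuadraticMap.polarBilin Q u) ≠ ⊥ := by
        intro hbot; rw [hbot, finrank_bot] at hK; omega
      exact Submodule.exists_mem_ne_zero_of_ne_bot this
    have hQw := han w hw0
    have huw : QuadraticMap.polar ⇑Q u w = 0 := by
      have := LinearMap.mem_ker.mp hwK
      rwa [QuadraticMap.polarBilin_apply_apply] at this
    obtain ⟨a, b, hab⟩ := FiniteField.exists_root_sum_quadratic
      (f := C (Q u) * X ^ 2) (g := C (Q w) * X ^ 2 + C (-1))
      (Polynomial.degree_C_mul_X_pow 2 hQu)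
      (by rw [Polynomial.degree_add_C (by rw [Polynomial.degree_C_mul_X_pow 2 hQw]; norm_num),
        Polynomial.degree_C_mul_X_pow 2 hQw]; rfl) hodd
    simp only [eval_mul, eval_C, eval_pow, eval_X, eval_add] at hab
    refine ⟨a • u + b • w, ?_⟩
    rw [QuadraticMap.map_add (⇑Q) (a • u) (b • w)]
    simp only [QuadraticMap.map_smul, QuadraticMap.polar_smul_left,
      QuadraticMap.polar_smul_right, huw, smul_eq_mul]
    linear_combination hab

theorem aniso_plane16 {F V : Type*} [Field F] [Finite F] [AddCommGroup V] [Module F V]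
    [FiniteDimensional F V] (Q : QuadraticForm F V)
    (hQ : (QuadraticMap.polarBilin Q).Nondegenerate)
    (h2 : finrank F V = 2) (han : ∀ v : V, v ≠ 0 → Q v ≠ 0) :
    ∃ (x y : V) (ζ : F), (∀ t : F, t ^ 2 + t + ζ ≠ 0) ∧ Q x = 1 ∧
      QuadraticMap.polar ⇑Q x y = 1 ∧ Q y = ζ := by
  classical
  obtain ⟨x, hx⟩ := exists_one16 Q h2 han
  have hx0 : x ≠ 0 := by
    rintro rfl
    rw [QuadraticMap.map_zero] at hx
    exact zero_ne_one hx
  obtain ⟨y₀, hy₀⟩ : ∃ y₀, QuadraticMap.polar ⇑Q x y₀ ≠ 0 := by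
    by_contra hcon; push Not at hcon; exact hx0 (rad18 Q hQ x hcon)
  obtain ⟨y₁, hy₁⟩ : ∃ y₁ : V, y₁ ∉ Submodule.span F {x} := by
    by_contra hcon
    push Not at hcon
    have htop : Submodule.span F {x} = ⊤ := by
      rw [eq_top_iff]; intro v _; exact hcon v
    have := finrank_span_singleton (K := F) hx0
    rw [htop, finrank_top] at this
    omega
  obtain ⟨y', hy'1, hy'2⟩ : ∃ y' : V, y' ∉ Submodule.span F {x} ∧
      QuadraticMap.polar ⇑Q x y' ≠ 0 := by
    by_cases h : y₀ ∈ Submodule.span F {x}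
    · by_cases h' : QuadraticMap.polar ⇑Q x y₁ = 0
      · refine ⟨y₁ + y₀, ?_, ?_⟩
        · intro hmem
          apply hy₁
          have := Submodule.sub_mem _ hmem h
          simpa using this
        · rw [QuadraticMap.polar_add_right, h', zero_add]; exact hy₀
      · exact ⟨y₁, hy₁, h'⟩
    · exact ⟨y₀, h, hy₀⟩
  have hy1 : (QuadraticMap.polar ⇑Q x y')⁻¹ • y' ∉ Submodule.span F {x} := by
    intro hmem
    apply hy'1
    have := Submodule.smul_mem _ (QuadraticMap.polar ⇑Q x y') hmem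
    rwa [smul_smul, mul_inv_cancel₀ hy'2, one_smul] at this
  have hy2 : QuadraticMap.polar ⇑Q x ((QuadraticMap.polar ⇑Q x y')⁻¹ • y') = 1 := by
    rw [QuadraticMap.polar_smul_right, smul_eq_mul, inv_mul_cancel₀ hy'2]
  generalize (QuadraticMap.polar ⇑Q x y')⁻¹ • y' = y at hy1 hy2
  refine ⟨x, y, Q y, ?_, hx, hy2, rfl⟩
  intro t ht
  have h5 : Q (t • x + y) = t ^ 2 + t + Q y := by
    rw [QuadraticMap.map_add (⇑Q) (t • x) y, QuadraticMap.map_smul,
      QuadraticMap.polar_smul_left, hx, hy2]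
    simp only [smul_eq_mul]
    ring
  rw [ht] at h5
  have h6 : t • x + y = 0 := by
    by_contra hne
    exact han _ hne h5
  apply hy1
  rw [Submodule.mem_span_singleton]
  exact ⟨-t, by rw [neg_smul]; exact (eq_neg_of_add_eq_zero_right h6).symm⟩

theorem main16 {F : Type*} [Field F] [Finite F] (k : ℕ) :
    ∀ (V : Type u) [AddCommGroup V] [Module F V] [FiniteDimensional F V]
      (Q : QuadraticForm F V), finrank F V = 2 * k + 2 →
      (QuadraticMap.polarBilin Q).Nondegenerate →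
      (∃ e f : Fin (k + 1) → V, HypFam18 Q e f) ∨
      (∃ (e f : Fin k → V) (x y : V) (ζ : F), HypFam18 Q e f ∧ (∀ t : F, t ^ 2 + t + ζ ≠ 0) ∧
        (∀ i, QuadraticMap.polar ⇑Q (e i) x = 0 ∧ QuadraticMap.polar ⇑Q (e i) y = 0 ∧
          QuadraticMap.polar ⇑Q (f i) x = 0 ∧ QuadraticMap.polar ⇑Q (f i) y = 0) ∧
        Q x = 1 ∧ QuadraticMap.polar ⇑Q x y = 1 ∧ Q y = ζ) := by
  induction k with
  | zero =>
    intro V _ _ _ Q hV hQ
    by_cases hs : ∃ v : V, v ≠ 0 ∧ Q v = 0
    · obtain ⟨e₀, he₀, hQe₀⟩ := hs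
      obtain ⟨f₀, hQf₀, hef⟩ := exists_hyp_pair18 Q hQ e₀ he₀ hQe₀
      left
      exact ⟨_, _, hypFam_cons18 Q e₀ f₀ hQe₀ hQf₀ hef Fin.elim0 Fin.elim0
        ⟨fun i => i.elim0, fun i => i.elim0, fun i => i.elim0⟩⟩
    · push Not at hs
      obtain ⟨x, y, ζ, h1, h2, h3, h4⟩ := aniso_plane16 Q hQ (by omega) hs
      right
      exact ⟨Fin.elim0, Fin.elim0, x, y, ζ,
        ⟨fun i => i.elim0, fun i => i.elim0, fun i => i.elim0⟩, h1, fun i => i.elim0, h2, h3, h4⟩
  | succ k ih =>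
    intro V _ _ _ Q hV hQ
    obtain ⟨e₀, he₀, hQe₀⟩ := exists_singular18 Q hQ (by omega)
    obtain ⟨f₀, hQf₀, hef⟩ := exists_hyp_pair18 Q hQ e₀ he₀ hQe₀
    have hfr := finrank_perp18 Q e₀ f₀ hQe₀ hQf₀ hef
    have hnd := nondeg_perp18 Q hQ e₀ f₀ hQe₀ hQf₀ hef
    have hm := fun (x : perp18 Q e₀ f₀) => (mem_perp18 Q e₀ f₀ x).mp x.2
    rcases ih (perp18 Q e₀ f₀) (Q.comp (perp18 Q e₀ f₀).subtype) (by omega) hnd with
      ⟨e', f', hH⟩ | ⟨e', f', x, y, ζ, hH, h1, h2, h3, h4, h5⟩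
    · left
      exact ⟨_, _, hypFam_cons18 Q e₀ f₀ hQe₀ hQf₀ hef e' f' hH⟩
    · right
      refine ⟨_, _, (x : V), (y : V), ζ, hypFam_cons18 Q e₀ f₀ hQe₀ hQf₀ hef e' f' hH, h1, ?_,
        h3, h4, h5⟩
      intro i
      refine Fin.cases ?_ (fun i' => ?_) i
      · simp only [Fin.cons_zero]
        exact ⟨(hm x).1, (hm y).1, (hm x).2, (hm y).2⟩
      · simp only [Fin.cons_succ]
        exact h2 i'

/-- Standard bases of a non-degenerate quadratic space of even dimension 2m over a finite field: either there is a hyperbolic basis e_i, f_i (Q(e_i) = Q(f_i) = 0, B(e_i, f_j) = δ_ij, the e's pairwise orthogonal and the f's pairwise orthogonal, B the polar form), or there is an elliptic basis: hyperbolic pairs e_i, f_i for i < m − 1 together with x, y orthogonal to them with Q(x) = 1, B(x, y) = 1, Q(y) = ζ where t² + t + ζ has no root in the field. -/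
theorem result {F V : Type*} [Field F] [Finite F] [AddCommGroup V] [Module F V] [FiniteDimensional F V] {m : ℕ} (hm : 1 ≤ m) (hV : Module.finrank F V = 2 * m) (Q : QuadraticForm F V) (hQ : (QuadraticMap.polarBilin Q).Nondegenerate) : (∃ b : Module.Basis (Fin m ⊕ Fin m) F V, (∀ i, Q (b (Sum.inl i)) = 0 ∧ Q (b (Sum.inr i)) = 0) ∧ (∀ i j, QuadraticMap.polar ⇑Q (b (Sum.inl i)) (b (Sum.inr j)) = if i = j then 1 else 0) ∧ (∀ i j, QuadraticMap.polar ⇑Q (b (Sum.inl i)) (b (Sum.inl j)) = 0 ∧ QuadraticMap.polar ⇑Q (b (Sum.inr i)) (b (Sum.inr j)) = 0)) ∨ (∃ (b : Module.Basis ((Fin (m - 1) ⊕ Fin (m - 1)) ⊕ Fin 2) F V) (ζ : F), (∀ t : F, t ^ 2 + t + ζ ≠ 0) ∧ (∀ i, Q (b (Sum.inl (Sum.inl i))) = 0 ∧ Q (b (Sum.inl (Sum.inr i))) = 0) ∧ (∀ i j, QuadraticMap.polar ⇑Q (b (Sum.inl (Sum.inl i))) (b (Sum.inl (Sum.inr j))) = if i = j then 1 else 0) ∧ (∀ i j, QuadraticMap.polar ⇑Q (b (Sum.inl (Sum.inl i))) (b (Sum.inl (Sum.inl j))) = 0 ∧ QuadraticMap.polar ⇑Q (b (Sum.inl (Sum.inr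 i))) (b (Sum.inl (Sum.inr j))) = 0) ∧ (∀ i (k : Fin 2), QuadraticMap.polar ⇑Q (b (Sum.inl (Sum.inl i))) (b (Sum.inr k)) = 0 ∧ QuadraticMap.polar ⇑Q (b (Sum.inl (Sum.inr i))) (b (Sum.inr k)) = 0) ∧ Q (b (Sum.inr 0)) = 1 ∧ QuadraticMap.polar ⇑Q (b (Sum.inr 0)) (b (Sum.inr 1)) = 1 ∧ Q (b (Sum.inr 1)) = ζ) := by
  obtain ⟨k, rfl⟩ : ∃ k, m = k + 1 := ⟨m - 1, by omega⟩
  rcases main16 k V Q (by omega) hQ with ⟨e, f, hH⟩ | ⟨e, f, x, y, ζ, hH, h1, h2, h3, h4, h5⟩
  · left
    have hli : LinearIndependent F (Sum.elim e f : Fin (k + 1) ⊕ Fin (k + 1) → V) := by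
      rw [Fintype.linearIndependent_iff]
      intro g hg
      simp only [Fintype.sum_sum_type, Sum.elim_inl, Sum.elim_inr] at hg
      have h5 := hyp_li18 Q e f hH (fun i : Fin 0 => i.elim0) (fun i j => j.elim0)
        (linearIndependent_empty_type)
        (fun i => g (Sum.inl i)) (fun i => g (Sum.inr i))
        (fun i => i.elim0) (by rw [← hg]; simp)
      obtain ⟨ha, hb, -⟩ := h5
      rintro (i | i)
      · exact congrFun ha i
      · exact congrFun hb i
    have hsp := hli.span_eq_top_of_card_eq_finrank' (by simp [hV]; ring)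
    refine ⟨Basis.mk hli (by rw [hsp]), ?_⟩
    simp only [Basis.coe_mk, Sum.elim_inl, Sum.elim_inr]
    exact ⟨hH.1, hH.2.1, hH.2.2⟩
  · right
    have hxy : LinearIndependent F ![x, y] := by
      rw [LinearIndependent.pair_iff]
      intro c d hcd
      have h6 : Q (c • x + d • y) = c ^ 2 + c * d + ζ * d ^ 2 := by
        rw [QuadraticMap.map_add (⇑Q) (c • x) (d • y), QuadraticMap.map_smul,
          QuadraticMap.map_smul, QuadraticMap.polar_smul_left, QuadraticMap.polar_smul_right,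
          h3, h4, h5]
        simp only [smul_eq_mul]
        ring
      rw [hcd, QuadraticMap.map_zero] at h6
      have hd : d = 0 := by
        by_contra hd
        apply h1 (c / d)
        field_simp
        linear_combination -h6
      subst hd
      refine ⟨?_, rfl⟩
      have : c ^ 2 = 0 := by linear_combination -h6
      exact pow_eq_zero_iff (two_ne_zero) |>.mp this
    have hli : LinearIndependent F
        (Sum.elim (Sum.elim e f) ![x, y] : (Fin k ⊕ Fin k) ⊕ Fin 2 → V) := by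
      rw [Fintype.linearIndependent_iff]
      intro g hg
      simp only [Fintype.sum_sum_type, Sum.elim_inl, Sum.elim_inr] at hg
      have h7 := hyp_li18 Q e f hH ![x, y]
        (fun i j => by
          have := h2 i
          fin_cases j
          · exact ⟨this.1, this.2.2.1⟩
          · exact ⟨this.2.1, this.2.2.2⟩)
        hxy
        (fun i => g (Sum.inl (Sum.inl i))) (fun i => g (Sum.inl (Sum.inr i)))
        (fun j => g (Sum.inr j)) hg
      obtain ⟨ha, hb, hc⟩ := h7
      rintro ((i | i) | j)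
      · exact congrFun ha i
      · exact congrFun hb i
      · exact congrFun hc j
    have hsp := hli.span_eq_top_of_card_eq_finrank' (by simp [hV]; ring)
    refine ⟨Basis.mk hli (by rw [hsp]), ζ, ?_⟩
    simp only [Basis.coe_mk, Sum.elim_inl, Sum.elim_inr, Matrix.cons_val_zero,
      Matrix.cons_val_one]
    refine ⟨h1, hH.1, hH.2.1, hH.2.2, ?_, h3, h4, h5⟩
    intro i j
    have := h2 i
    fin_cases j
    · exact ⟨this.1, this.2.2.1⟩
    · exact ⟨this.2.1, this.2.2.2⟩

end Cfsg.Agent.S2616
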