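import Cfsg.Statements.S2624
import Mathlib
import Cfsg.Statements.S2624
import Cfsg.Agent.S2618
import Cfsg.Agent.S2616

set_option autoImplicit false
open Cfsg
open scoped commutatorElement

namespace Cfsg.Agent.S2624

open Module
open Polynomial
open Cfsg.Agent.S2618

theorem quad_ext24 {F V ι : Type*} [Field F] [AddCommGroup V] [Module F V]
    (Q₁ Q₂ : QuadraticForm F V) (b : Basis ι F V)
    (h1 : ∀ i, Q₁ (b i) = Q₂ (b i))
    (h2 : ∀ i j, QuadraticMap.polar ⇑Q₁ (b i) (b j) = QuadraticMap.polar ⇑Q₂ (b i) (b j)) :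
    ∀ v, Q₁ v = Q₂ v := by
  have hB : QuadraticMap.polarBilin Q₁ = QuadraticMap.polarBilin Q₂ := by
    apply LinearMap.BilinForm.ext_basis b
    intro i j
    rw [QuadraticMap.polarBilin_apply_apply, QuadraticMap.polarBilin_apply_apply]
    exact h2 i j
  have hpol : ∀ x y, QuadraticMap.polar ⇑Q₁ x y = QuadraticMap.polar ⇑Q₂ x y := by
    intro x y
    have := congrArg (fun B => B x y) hB
    simpa [QuadraticMap.polarBilin_apply_apply] using this
  intro v
  have hv : v ∈ Submodule.span F (Set.range b) := by rw [b.span_eq]; exact Submodule.mem_top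
  induction hv using Submodule.span_induction with
  | mem x hx =>
    obtain ⟨i, rfl⟩ := hx
    exact h1 i
  | zero => rw [QuadraticMap.map_zero, QuadraticMap.map_zero]
  | add x y _ _ hx hy =>
    rw [QuadraticMap.map_add (⇑Q₁) x y, QuadraticMap.map_add (⇑Q₂) x y, hx, hy, hpol]
  | smul a x _ hx =>
    rw [QuadraticMap.map_smul, QuadraticMap.map_smul, hx]

theorem sim_of_basis24 {F V ι : Type*} [Field F] [AddCommGroup V] [Module F V]
    [FiniteDimensional F V] (Q : QuadraticForm F V)
    (hQ : (QuadraticMap.polarBilin Q).Nondegenerate) (b : Basis ι F V) (w : ι → V) (c : F)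
    (hc : c ≠ 0) (h1 : ∀ i, Q (w i) = c * Q (b i))
    (h2 : ∀ i j, QuadraticMap.polar ⇑Q (w i) (w j) = c * QuadraticMap.polar ⇑Q (b i) (b j)) :
    ∃ g : V ≃ₗ[F] V, ∀ v, Q (g v) = c * Q v := by
  have hQg : ∀ v, Q (b.constr F w v) = c * Q v := by
    intro v
    have := quad_ext24 (Q.comp (b.constr F w)) (c • Q) b
      (by
        intro i
        rw [QuadraticMap.comp_apply, Basis.constr_basis, QuadraticMap.smul_apply, smul_eq_mul]
        exact h1 i)
      (by
        intro i j
        simp only [QuadraticMap.polar, QuadraticMap.comp_apply, QuadraticMap.smul_apply,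
          smul_eq_mul, map_add, Basis.constr_basis]
        have := h2 i j
        simp only [QuadraticMap.polar] at this
        rw [this]; ring) v
    rw [QuadraticMap.comp_apply, QuadraticMap.smul_apply, smul_eq_mul] at this
    exact this
  have hinj : Function.Injective (b.constr F w) := by
    rw [← LinearMap.ker_eq_bot, LinearMap.ker_eq_bot']
    intro v hv
    apply rad18 Q hQ
    intro y
    have h5 : QuadraticMap.polar ⇑Q (b.constr F w v) (b.constr F w y) =
        c * QuadraticMap.polar ⇑Q v y := by
      simp only [QuadraticMap.polar, ← map_add, hQg]; ring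
    rw [hv] at h5
    have h6 : QuadraticMap.polar ⇑Q (0 : V) (b.constr F w y) = 0 := by
      simp [QuadraticMap.polar]
    rw [h6] at h5
    rcases mul_eq_zero.mp h5.symm with h | h
    · exact absurd h hc
    · exact h
  refine ⟨LinearEquiv.ofInjectiveEndo _ hinj, ?_⟩
  intro v
  rw [LinearEquiv.coe_ofInjectiveEndo]
  exact hQg v

theorem exists_norm24 {F : Type*} [Field F] [Fintype F] (ζ c : F)
    (hζ : ∀ t : F, t ^ 2 + t + ζ ≠ 0) : ∃ u v : F, u ^ 2 + u * v + ζ * v ^ 2 = c := by
  classical
  by_cases h2' : (2 : F) = 0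
  · haveI : CharP F 2 := CharTwo.of_one_ne_zero_of_two_eq_zero one_ne_zero h2'
    obtain ⟨s, hs⟩ := isSquare_of_charTwo' c
    exact ⟨s, 0, by rw [hs]; ring⟩
  · have hodd : Fintype.card F % 2 = 1 := by
      apply FiniteField.odd_card_of_char_ne_two
      intro h
      apply h2'
      have := ringChar.Nat.cast_ringChar (R := F)
      rw [h] at this
      exact_mod_cast this
    have h4 : (4 : F) ≠ 0 := by
      have : (4 : F) = 2 * 2 := by norm_num
      rw [this]; exact mul_ne_zero h2' h2'
    have hd : ζ - 1 / 4 ≠ 0 := by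
      intro h
      apply hζ (-1 / 2)
      have hz : ζ = 1 / 4 := by linear_combination h
      rw [hz]
      field_simp
      ring
    obtain ⟨a, b, hab⟩ := FiniteField.exists_root_sum_quadratic
      (f := (X : F[X]) ^ 2) (g := C (ζ - 1 / 4) * X ^ 2 + C (-c))
      (Polynomial.degree_X_pow 2)
      (by rw [Polynomial.degree_add_C (by rw [Polynomial.degree_C_mul_X_pow 2 hd]; norm_num),
        Polynomial.degree_C_mul_X_pow 2 hd]; rfl) hodd
    simp only [eval_mul, eval_C, eval_pow, eval_X, eval_add] at hab
    refine ⟨a - b / 2, b, ?_⟩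
    field_simp
    field_simp at hab
    linear_combination hab

/-- For a quadratic form Q on F^n with non-degenerate polar form, F finite and n ≥ 2 even, every non-zero scalar c is the multiplier of some similarity: there is an invertible linear map g with Q(g v) = c·Q(v) for all v. -/
theorem result {F : Type*} [Field F] [Fintype F] {n : ℕ} (hn : 2 ≤ n) (he : Even n) (Q : QuadraticForm F (Fin n → F)) (hQ : (QuadraticMap.polarBilin Q).Nondegenerate) (c : F) (hc : c ≠ 0) : ∃ g : (Fin n → F) ≃ₗ[F] (Fin n → F), ∀ v, Q (g v) = c * Q v := by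
  obtain ⟨m, hm⟩ := he
  have hm1 : 1 ≤ m := by omega
  have hV : Module.finrank F (Fin n → F) = 2 * m := by rw [Module.finrank_fin_fun]; omega
  rcases Cfsg.Agent.S2616.result hm1 hV Q hQ with ⟨b, hb1, hb2, hb3⟩ |
    ⟨b, ζ, ht, hb1, hb2, hb3, hb4, hx, hxy, hy⟩
  · refine sim_of_basis24 Q hQ b
      (Sum.elim (fun i => c • b (Sum.inl i)) (fun i => b (Sum.inr i))) c hc ?_ ?_
    · rintro (i | i)
      · simp [QuadraticMap.map_smul, (hb1 i).1]
      · simp [(hb1 i).2]
    · rintro (i | i) (j | j)
      · simp [QuadraticMap.polar_smul_left, QuadraticMap.polar_smul_right, (hb3 i j).1]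
      · simp [QuadraticMap.polar_smul_left]
      · simp [QuadraticMap.polar_smul_right]
      · simp [(hb3 i j).2]
  · obtain ⟨u, v, huv⟩ := exists_norm24 ζ c ht
    have hxx : QuadraticMap.polar ⇑Q (b (Sum.inr 0)) (b (Sum.inr 0)) = 2 := by
      rw [QuadraticMap.polar_self, hx]; simp
    have hyy : QuadraticMap.polar ⇑Q (b (Sum.inr 1)) (b (Sum.inr 1)) = 2 * ζ := by
      rw [QuadraticMap.polar_self, hy]; simp
    have hyx : QuadraticMap.polar ⇑Q (b (Sum.inr 1)) (b (Sum.inr 0)) = 1 := by
      rw [QuadraticMap.polar_comm]; exact hxy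
    have hb4' : ∀ i (k : Fin 2), QuadraticMap.polar ⇑Q (b (Sum.inr k)) (b (Sum.inl (Sum.inl i))) = 0 ∧
        QuadraticMap.polar ⇑Q (b (Sum.inr k)) (b (Sum.inl (Sum.inr i))) = 0 := by
      intro i k
      rw [QuadraticMap.polar_comm, QuadraticMap.polar_comm (⇑Q) (b (Sum.inr k))]
      exact hb4 i k
    have hQ0 : Q (u • b (Sum.inr 0) + v • b (Sum.inr 1)) = c := by
      rw [QuadraticMap.map_add (⇑Q) (u • b (Sum.inr 0)) (v • b (Sum.inr 1))]
      simp only [QuadraticMap.map_smul, QuadraticMap.polar_smul_left,
        QuadraticMap.polar_smul_right, hx, hy, hxy, smul_eq_mul]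
      linear_combination huv
    have hQ1 : Q ((-(ζ * v)) • b (Sum.inr 0) + (u + v) • b (Sum.inr 1)) = c * ζ := by
      rw [QuadraticMap.map_add (⇑Q) ((-(ζ * v)) • b (Sum.inr 0)) ((u + v) • b (Sum.inr 1))]
      simp only [QuadraticMap.map_smul, QuadraticMap.polar_smul_left,
        QuadraticMap.polar_smul_right, hx, hy, hxy, smul_eq_mul]
      linear_combination ζ * huv
    have hP01 : QuadraticMap.polar ⇑Q (u • b (Sum.inr 0) + v • b (Sum.inr 1))
        ((-(ζ * v)) • b (Sum.inr 0) + (u + v) • b (Sum.inr 1)) = c := by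
      simp only [QuadraticMap.polar_add_left, QuadraticMap.polar_add_right,
        QuadraticMap.polar_smul_left, QuadraticMap.polar_smul_right, hxx, hyy, hxy, hyx,
        smul_eq_mul]
      linear_combination huv
    refine sim_of_basis24 Q hQ b
      (Sum.elim (Sum.elim (fun i => c • b (Sum.inl (Sum.inl i))) (fun i => b (Sum.inl (Sum.inr i))))
        ![u • b (Sum.inr 0) + v • b (Sum.inr 1),
          (-(ζ * v)) • b (Sum.inr 0) + (u + v) • b (Sum.inr 1)]) c hc ?_ ?_
    · rintro ((i | i) | j)
      · simp [QuadraticMap.map_smul, (hb1 i).1]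
      · simp [(hb1 i).2]
      · fin_cases j
        · simp only [Sum.elim_inr, Fin.zero_eta, Matrix.cons_val_zero]
          rw [hQ0, hx, mul_one]
        · simp only [Sum.elim_inr, Fin.mk_one, Matrix.cons_val_one, Matrix.cons_val_zero,
            Matrix.cons_val_fin_one]
          rw [hQ1, hy]
    · rintro ((i | i) | j) ((i' | i') | j')
      · simp [QuadraticMap.polar_smul_left, QuadraticMap.polar_smul_right, (hb3 i i').1]
      · simp [QuadraticMap.polar_smul_left]
      · fin_cases j' <;>
          simp [QuadraticMap.polar_smul_left, QuadraticMap.polar_smul_right,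
            QuadraticMap.polar_add_right, (hb4 i 0).1, (hb4 i 1).1]
      · simp [QuadraticMap.polar_smul_right]
      · simp [(hb3 i i').2]
      · fin_cases j' <;>
          simp [QuadraticMap.polar_smul_left, QuadraticMap.polar_smul_right,
            QuadraticMap.polar_add_right, (hb4 i 0).2, (hb4 i 1).2]
      · fin_cases j <;>
          simp [QuadraticMap.polar_smul_left, QuadraticMap.polar_smul_right,
            QuadraticMap.polar_add_left, (hb4' i' 0).1, (hb4' i' 1).1]
      · fin_cases j <;>
          simp [QuadraticMap.polar_smul_left, QuadraticMap.polar_smul_right,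
            QuadraticMap.polar_add_left, (hb4' i' 0).2, (hb4' i' 1).2]
      · fin_cases j <;> fin_cases j'
        · simp only [Sum.elim_inr, Fin.zero_eta, Matrix.cons_val_zero]
          rw [QuadraticMap.polar_self, hQ0, hxx]; simp [two_mul, mul_two]
        · simp only [Sum.elim_inr, Fin.zero_eta, Fin.mk_one, Matrix.cons_val_zero,
            Matrix.cons_val_one, Matrix.cons_val_fin_one]
          rw [hP01, hxy, mul_one]
        · simp only [Sum.elim_inr, Fin.zero_eta, Fin.mk_one, Matrix.cons_val_zero,
            Matrix.cons_val_one, Matrix.cons_val_fin_one]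
          rw [QuadraticMap.polar_comm, hP01, hyx, mul_one]
        · simp only [Sum.elim_inr, Fin.mk_one, Matrix.cons_val_one, Matrix.cons_val_zero,
            Matrix.cons_val_fin_one]
          rw [QuadraticMap.polar_self, hQ1, hyy]; simp [two_mul, mul_two]; ring

end Cfsg.Agent.S2624
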