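import Cfsg.Statements.S0838
import Mathlib
import Cfsg.Statements.S0838
import Cfsg.Agent.S2618
import Cfsg.Agent.S2624

set_option autoImplicit false
open Cfsg
open scoped commutatorElement

namespace Cfsg.Agent.S0838

open Module
open Cfsg.Agent.S2618
open Cfsg.Agent.S2624

theorem sim_of_basis38 {F V ι : Type*} [Field F] [AddCommGroup V] [Module F V]
    [FiniteDimensional F V] (Q₁ Q₂ : QuadraticForm F V)
    (hQ : (QuadraticMap.polarBilin Q₁).Nondegenerate) (b : Basis ι F V) (w : ι → V) (c : F)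
    (hc : c ≠ 0) (h1 : ∀ i, Q₂ (w i) = c * Q₁ (b i))
    (h2 : ∀ i j, QuadraticMap.polar ⇑Q₂ (w i) (w j) = c * QuadraticMap.polar ⇑Q₁ (b i) (b j)) :
    ∃ g : V ≃ₗ[F] V, ∀ v, Q₂ (g v) = c * Q₁ v := by
  have hQg : ∀ v, Q₂ (b.constr F w v) = c * Q₁ v := by
    intro v
    have := quad_ext24 (Q₂.comp (b.constr F w)) (c • Q₁) b
      (by
        intro i
        rw [QuadraticMap.comp_apply, Basis.constr_basis, QuadraticMap.smul_apply, smul_eq_mul]
        exact h1 i)
      (by
        intro i j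
        simp only [QuadraticMap.polar, QuadraticMap.comp_apply, QuadraticMap.smul_apply,
          smul_eq_mul, map_add, Basis.constr_basis]
        have := h2 i j
        simp only [QuadraticMap.polar] at this
        rw [this]; ring) v
    rw [QuadraticMap.comp_apply, QuadraticMap.smul_apply, smul_eq_mul] at this
    exact this
  have hinj : Function.Injective (b.constr F w) := by
    rw [← LinearMap.ker_eq_bot, LinearMap.ker_eq_bot']
    intro v hv
    apply rad18 Q₁ hQ
    intro y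
    have h5 : QuadraticMap.polar ⇑Q₂ (b.constr F w v) (b.constr F w y) =
        c * QuadraticMap.polar ⇑Q₁ v y := by
      simp only [QuadraticMap.polar, ← map_add, hQg]; ring
    rw [hv] at h5
    have h6 : QuadraticMap.polar ⇑Q₂ (0 : V) (b.constr F w y) = 0 := by
      simp [QuadraticMap.polar]
    rw [h6] at h5
    rcases mul_eq_zero.mp h5.symm with h | h
    · exact absurd h hc
    · exact h
  refine ⟨LinearEquiv.ofInjectiveEndo _ hinj, ?_⟩
  intro v
  rw [LinearEquiv.coe_ofInjectiveEndo]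
  exact hQg v

/-- Over a finite field with 2 ≠ 0 and n odd: two quadratic forms Q₁, Q₂ on F^n with non-degenerate polar forms are similar — there are an invertible linear map g and a scalar c ≠ 0 with Q₂ (g v) = c · Q₁ v for all v. -/
theorem result {F : Type*} [Field F] [Fintype F] (h2 : (2 : F) ≠ 0) {n : ℕ} (hn : Odd n) (Q₁ Q₂ : QuadraticForm F (Fin n → F)) (h₁ : (QuadraticMap.polarBilin Q₁).Nondegenerate) (h₂ : (QuadraticMap.polarBilin Q₂).Nondegenerate) : ∃ (g : (Fin n → F) ≃ₗ[F] (Fin n → F)) (c : F), c ≠ 0 ∧ ∀ v, Q₂ (g v) = c * Q₁ v := by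
  obtain ⟨m, hm⟩ := hn
  have hV : Module.finrank F (Fin n → F) = 2 * m + 1 := by rw [Module.finrank_fin_fun]; omega
  obtain ⟨b, hx, hxe, hb1, hb2, hb3⟩ := Cfsg.Agent.S2618.result hV Q₁ h₁
  obtain ⟨b', hx', hxe', hb1', hb2', hb3'⟩ := Cfsg.Agent.S2618.result hV Q₂ h₂
  obtain ⟨c, hcdef⟩ : ∃ c : F, c = Q₂ (b' (Sum.inl ())) / Q₁ (b (Sum.inl ())) := ⟨_, rfl⟩
  have hc : c ≠ 0 := by rw [hcdef]; exact div_ne_zero hx' hx
  have hca : c * Q₁ (b (Sum.inl ())) = Q₂ (b' (Sum.inl ())) := by rw [hcdef]; field_simp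
  have key := sim_of_basis38 Q₁ Q₂ h₁ b
    (Sum.elim (fun _ => b' (Sum.inl ()))
      (Sum.elim (fun i => c • b' (Sum.inr (Sum.inl i)))
        (fun i => b' (Sum.inr (Sum.inr i))))) c hc ?_ ?_
  · obtain ⟨g, hg⟩ := key
    exact ⟨g, c, hc, hg⟩
  · rintro (u | i | i)
    · simp only [Sum.elim_inl]
      exact hca.symm
    · simp [QuadraticMap.map_smul, (hb1 i).1, (hb1' i).1]
    · simp [(hb1 i).2, (hb1' i).2]
  · have hex : ∀ i, QuadraticMap.polar ⇑Q₁ (b (Sum.inr (Sum.inl i))) (b (Sum.inl ())) = 0 ∧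
        QuadraticMap.polar ⇑Q₁ (b (Sum.inr (Sum.inr i))) (b (Sum.inl ())) = 0 := by
      intro i
      rw [QuadraticMap.polar_comm, QuadraticMap.polar_comm (⇑Q₁) (b (Sum.inr (Sum.inr i)))]
      exact hxe i
    have hex' : ∀ i, QuadraticMap.polar ⇑Q₂ (b' (Sum.inr (Sum.inl i))) (b' (Sum.inl ())) = 0 ∧
        QuadraticMap.polar ⇑Q₂ (b' (Sum.inr (Sum.inr i))) (b' (Sum.inl ())) = 0 := by
      intro i
      rw [QuadraticMap.polar_comm, QuadraticMap.polar_comm (⇑Q₂) (b' (Sum.inr (Sum.inr i)))]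
      exact hxe' i
    have hfe : ∀ i j, QuadraticMap.polar ⇑Q₁ (b (Sum.inr (Sum.inr i))) (b (Sum.inr (Sum.inl j))) =
        if j = i then 1 else 0 := by
      intro i j; rw [QuadraticMap.polar_comm]; exact hb2 j i
    have hfe' : ∀ i j, QuadraticMap.polar ⇑Q₂ (b' (Sum.inr (Sum.inr i)))
        (b' (Sum.inr (Sum.inl j))) = if j = i then 1 else 0 := by
      intro i j; rw [QuadraticMap.polar_comm]; exact hb2' j i
    rintro (u | i | i) (u' | j | j)
    · simp only [Sum.elim_inl]
      rw [QuadraticMap.polar_self, QuadraticMap.polar_self, ← hca]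
      simp only [nsmul_eq_mul, Nat.cast_ofNat]
      ring
    · simp [QuadraticMap.polar_smul_right, (hxe j).1, (hxe' j).1]
    · simp [(hxe j).2, (hxe' j).2]
    · simp [QuadraticMap.polar_smul_left, (hex i).1, (hex' i).1]
    · simp [QuadraticMap.polar_smul_left, QuadraticMap.polar_smul_right, (hb3 i j).1,
        (hb3' i j).1]
    · simp [QuadraticMap.polar_smul_left, hb2, hb2']
    · simp [(hex i).2, (hex' i).2]
    · simp [QuadraticMap.polar_smul_right, hfe, hfe']
    · simp [(hb3 i j).2, (hb3' i j).2]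

end Cfsg.Agent.S0838
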