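import Cfsg.Statements.S2623
import Mathlib
import Cfsg.Statements.S2623
import Cfsg.Agent.S2618
import Cfsg.Agent.S2616
import Cfsg.Agent.S0838
import Cfsg.Agent.S0756

set_option autoImplicit false
open Cfsg
open scoped commutatorElement

namespace Cfsg.Agent.S2623

open Module
open Cfsg.Agent.S2618

/-- the Gram matrix of a quadratic form on `F^n` in the standard basis -/
noncomputable def gstd23 {F : Type*} [Field F] {n : ℕ} (Q : QuadraticForm F (Fin n → F)) :
    Matrix (Fin n) (Fin n) F :=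
  Matrix.of (fun i j : Fin n => QuadraticMap.polar ⇑Q (Pi.single i 1) (Pi.single j 1))

theorem gstd_eq23 {F : Type*} [Field F] {n : ℕ} (Q : QuadraticForm F (Fin n → F)) :
    LinearMap.BilinForm.toMatrix (Pi.basisFun F (Fin n)) (QuadraticMap.polarBilin Q) = gstd23 Q := by
  ext i j
  rw [LinearMap.BilinForm.toMatrix_apply, Pi.basisFun_apply, Pi.basisFun_apply,
    QuadraticMap.polarBilin_apply_apply]
  rfl

theorem gstd_det_ne23 {F : Type*} [Field F] {n : ℕ} (Q : QuadraticForm F (Fin n → F))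
    (hQ : (QuadraticMap.polarBilin Q).Nondegenerate) : (gstd23 Q).det ≠ 0 := by
  rw [← gstd_eq23]
  exact (LinearMap.BilinForm.nondegenerate_iff_det_ne_zero _).mp hQ

theorem disc_change23 {F ι : Type*} [Field F] [Fintype ι] [DecidableEq ι] {n : ℕ}
    (b : Basis ι F (Fin n → F)) :
    ∃ p : F, ∀ Q : QuadraticForm F (Fin n → F),
      (LinearMap.BilinForm.toMatrix b (QuadraticMap.polarBilin Q)).det = p ^ 2 * (gstd23 Q).det := by
  have hcard : Fintype.card ι = n := by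
    rw [← Module.finrank_eq_card_basis b, Module.finrank_fin_fun]
  refine ⟨((Pi.basisFun F (Fin n)).toMatrix (b.reindex (Fintype.equivFinOfCardEq hcard))).det, ?_⟩
  intro Q
  have h1 := LinearMap.BilinForm.toMatrix_mul_basis_toMatrix (Pi.basisFun F (Fin n))
    (b.reindex (Fintype.equivFinOfCardEq hcard)) (QuadraticMap.polarBilin Q)
  have h2 : LinearMap.BilinForm.toMatrix (b.reindex (Fintype.equivFinOfCardEq hcard))
      (QuadraticMap.polarBilin Q) =
      (LinearMap.BilinForm.toMatrix b (QuadraticMap.polarBilin Q)).submatrix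
        (Fintype.equivFinOfCardEq hcard).symm (Fintype.equivFinOfCardEq hcard).symm := by
    ext i j
    simp [LinearMap.BilinForm.toMatrix_apply, Basis.reindex_apply]
  rw [← Matrix.det_submatrix_equiv_self (Fintype.equivFinOfCardEq hcard).symm, ← h2, ← h1,
    Matrix.det_mul, Matrix.det_mul, Matrix.det_transpose, gstd_eq23]
  ring

/-- hyperbolic Gram block -/
def mh23 (F : Type*) [Field F] (k : ℕ) : Matrix (Fin k ⊕ Fin k) (Fin k ⊕ Fin k) F :=
  Matrix.fromBlocks 0 1 1 0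

/-- Gram matrix of `k` hyperbolic pairs plus a plane -/
def gp23 {F : Type*} [Field F] (k : ℕ) (α β γ : F) :
    Matrix ((Fin k ⊕ Fin k) ⊕ Fin 2) ((Fin k ⊕ Fin k) ⊕ Fin 2) F :=
  Matrix.fromBlocks (mh23 F k) 0 0 !![2 * α, β; β, 2 * γ]

theorem det_gp23 {F : Type*} [Field F] (k : ℕ) (α β γ : F) :
    (gp23 k α β γ).det = (mh23 F k).det * (4 * α * γ - β ^ 2) := by
  unfold gp23
  rw [Matrix.det_fromBlocks_zero₂₁, Matrix.det_fin_two_of]
  ring

/-- `k` hyperbolic pairs plus an orthogonal plane with Gram data `α β γ` -/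
def PlaneFam23 {F V : Type*} [Field F] [AddCommGroup V] [Module F V] (Q : QuadraticForm F V)
    {k : ℕ} (e f : Fin k → V) (x y : V) (α β γ : F) : Prop :=
  HypFam18 Q e f ∧
    (∀ i, QuadraticMap.polar ⇑Q (e i) x = 0 ∧ QuadraticMap.polar ⇑Q (e i) y = 0 ∧
      QuadraticMap.polar ⇑Q (f i) x = 0 ∧ QuadraticMap.polar ⇑Q (f i) y = 0) ∧
    Q x = α ∧ QuadraticMap.polar ⇑Q x y = β ∧ Q y = γ

theorem gram_plane23 {F V : Type*} [Field F] [AddCommGroup V] [Module F V] (Q : QuadraticForm F V)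
    {k : ℕ} (e f : Fin k → V) (x y : V) (α β γ : F) (h : PlaneFam23 Q e f x y α β γ) :
    ∀ i j, QuadraticMap.polar ⇑Q ((Sum.elim (Sum.elim e f) ![x, y] :
      (Fin k ⊕ Fin k) ⊕ Fin 2 → V) i) ((Sum.elim (Sum.elim e f) ![x, y] :
      (Fin k ⊕ Fin k) ⊕ Fin 2 → V) j) = gp23 k α β γ i j := by
  obtain ⟨⟨h1, h2, h3⟩, h4, h5, h6, h7⟩ := h
  have hxx : QuadraticMap.polar ⇑Q x x = 2 * α := by
    rw [QuadraticMap.polar_self, h5]; simp
  have hyy : QuadraticMap.polar ⇑Q y y = 2 * γ := by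
    rw [QuadraticMap.polar_self, h7]; simp
  have hyx : QuadraticMap.polar ⇑Q y x = β := by rw [QuadraticMap.polar_comm]; exact h6
  have h2' : ∀ i j, QuadraticMap.polar ⇑Q (f i) (e j) = if i = j then 1 else 0 := by
    intro i j
    rw [QuadraticMap.polar_comm, h2 j i]
    by_cases hij : i = j
    · subst hij; simp
    · rw [if_neg hij, if_neg (fun h => hij h.symm)]
  have h4' : ∀ i, QuadraticMap.polar ⇑Q x (e i) = 0 ∧ QuadraticMap.polar ⇑Q y (e i) = 0 ∧
      QuadraticMap.polar ⇑Q x (f i) = 0 ∧ QuadraticMap.polar ⇑Q y (f i) = 0 := by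
    intro i
    rw [QuadraticMap.polar_comm (⇑Q) x, QuadraticMap.polar_comm (⇑Q) y,
      QuadraticMap.polar_comm (⇑Q) x, QuadraticMap.polar_comm (⇑Q) y]
    exact h4 i
  rintro ((i | i) | i) ((j | j) | j)
  · simp [gp23, mh23, (h3 i j).1]
  · simp [gp23, mh23, h2, Matrix.one_apply]
  · fin_cases j <;> simp [gp23, (h4 i).1, (h4 i).2.1]
  · simp [gp23, mh23, h2', Matrix.one_apply]
  · simp [gp23, mh23, (h3 i j).2]
  · fin_cases j <;> simp [gp23, (h4 i).2.2.1, (h4 i).2.2.2]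
  · fin_cases i <;> simp [gp23, (h4' j).1, (h4' j).2.1]
  · fin_cases i <;> simp [gp23, (h4' j).2.2.1, (h4' j).2.2.2]
  · fin_cases i <;> fin_cases j <;> simp [gp23, hxx, hyy, hyx, h6]

theorem qval_plane23 {F V : Type*} [Field F] [AddCommGroup V] [Module F V] (Q : QuadraticForm F V)
    {k : ℕ} (e f : Fin k → V) (x y : V) (α β γ : F) (h : PlaneFam23 Q e f x y α β γ) :
    ∀ i, Q ((Sum.elim (Sum.elim e f) ![x, y] : (Fin k ⊕ Fin k) ⊕ Fin 2 → V) i) =
      (Sum.elim (fun _ => 0) ![α, γ] : (Fin k ⊕ Fin k) ⊕ Fin 2 → F) i := by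
  obtain ⟨⟨h1, h2, h3⟩, h4, h5, h6, h7⟩ := h
  rintro ((i | i) | i)
  · simp [(h1 i).1]
  · simp [(h1 i).2]
  · fin_cases i <;> simp [h5, h7]

theorem li_plane23 {F V : Type*} [Field F] [AddCommGroup V] [Module F V] (Q : QuadraticForm F V)
    {k : ℕ} (e f : Fin k → V) (x y : V) (α β γ : F) (h : PlaneFam23 Q e f x y α β γ)
    (hne : 4 * α * γ - β ^ 2 ≠ 0) :
    LinearIndependent F (Sum.elim (Sum.elim e f) ![x, y] : (Fin k ⊕ Fin k) ⊕ Fin 2 → V) := by
  obtain ⟨hH, h4, h5, h6, h7⟩ := h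
  have hxx : QuadraticMap.polar ⇑Q x x = 2 * α := by
    rw [QuadraticMap.polar_self, h5]; simp
  have hyy : QuadraticMap.polar ⇑Q y y = 2 * γ := by
    rw [QuadraticMap.polar_self, h7]; simp
  have hyx : QuadraticMap.polar ⇑Q y x = β := by rw [QuadraticMap.polar_comm]; exact h6
  have hxy : LinearIndependent F ![x, y] := by
    rw [LinearIndependent.pair_iff]
    intro c d hcd
    have e1 : QuadraticMap.polar ⇑Q (c • x + d • y) x = 2 * α * c + β * d := by
      simp only [QuadraticMap.polar_add_left, QuadraticMap.polar_smul_left, hxx, hyx, smul_eq_mul]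
      ring
    have e2 : QuadraticMap.polar ⇑Q (c • x + d • y) y = β * c + 2 * γ * d := by
      simp only [QuadraticMap.polar_add_left, QuadraticMap.polar_smul_left, hyy, h6, smul_eq_mul]
      ring
    have h0 : ∀ z : V, QuadraticMap.polar ⇑Q (0 : V) z = 0 := by
      intro z; simp [QuadraticMap.polar]
    rw [hcd, h0] at e1 e2
    have hc : (4 * α * γ - β ^ 2) * c = 0 := by linear_combination -(2 * γ) * e1 + β * e2
    have hd : (4 * α * γ - β ^ 2) * d = 0 := by linear_combination -(2 * α) * e2 + β * e1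
    exact ⟨(mul_eq_zero.mp hc).resolve_left hne, (mul_eq_zero.mp hd).resolve_left hne⟩
  rw [Fintype.linearIndependent_iff]
  intro g hg
  simp only [Fintype.sum_sum_type, Sum.elim_inl, Sum.elim_inr] at hg
  have h8 := hyp_li18 Q e f hH ![x, y]
    (fun i j => by
      have := h4 i
      fin_cases j
      · exact ⟨this.1, this.2.2.1⟩
      · exact ⟨this.2.1, this.2.2.2⟩)
    hxy
    (fun i => g (Sum.inl (Sum.inl i))) (fun i => g (Sum.inl (Sum.inr i)))
    (fun j => g (Sum.inr j)) hg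
  obtain ⟨ha, hb, hc⟩ := h8
  rintro ((i | i) | j)
  · exact congrFun ha i
  · exact congrFun hb i
  · exact congrFun hc j

theorem det_plane23 {F : Type*} [Field F] {k n : ℕ} (hn : n = 2 * k + 2)
    (Q : QuadraticForm F (Fin n → F)) (hQ : (QuadraticMap.polarBilin Q).Nondegenerate)
    (e f : Fin k → (Fin n → F)) (x y : Fin n → F) (α β γ : F)
    (h : PlaneFam23 Q e f x y α β γ) (hne : 4 * α * γ - β ^ 2 ≠ 0) :
    ∃ p : F, p ≠ 0 ∧ (mh23 F k).det * (4 * α * γ - β ^ 2) = p ^ 2 * (gstd23 Q).det := by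
  have hli := li_plane23 Q e f x y α β γ h hne
  have hsp := hli.span_eq_top_of_card_eq_finrank' (by simp [hn]; ring)
  obtain ⟨p, hp⟩ := disc_change23 (Basis.mk hli (by rw [hsp]))
  have h1 := hp Q
  have h2 : LinearMap.BilinForm.toMatrix (Basis.mk hli (by rw [hsp]))
      (QuadraticMap.polarBilin Q) = gp23 k α β γ := by
    ext i j
    rw [LinearMap.BilinForm.toMatrix_apply, Basis.coe_mk, QuadraticMap.polarBilin_apply_apply]
    exact gram_plane23 Q e f x y α β γ h i j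
  have h3 := (LinearMap.BilinForm.nondegenerate_iff_det_ne_zero
    (Basis.mk hli (by rw [hsp]))).mp hQ
  rw [h1] at h3
  rw [h2, det_gp23] at h1
  refine ⟨p, ?_, h1⟩
  rintro rfl
  apply h3
  ring

theorem iso_plane23 {F : Type*} [Field F] {k n : ℕ} (hn : n = 2 * k + 2)
    (Q₁ Q₂ : QuadraticForm F (Fin n → F)) (hQ : (QuadraticMap.polarBilin Q₁).Nondegenerate)
    (e f e' f' : Fin k → (Fin n → F)) (x y x' y' : Fin n → F) (α β γ : F)
    (h : PlaneFam23 Q₁ e f x y α β γ) (h' : PlaneFam23 Q₂ e' f' x' y' α β γ)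
    (hne : 4 * α * γ - β ^ 2 ≠ 0) :
    ∃ g : (Fin n → F) ≃ₗ[F] (Fin n → F), ∀ v, Q₂ (g v) = Q₁ v := by
  have hli := li_plane23 Q₁ e f x y α β γ h hne
  have hsp := hli.span_eq_top_of_card_eq_finrank' (by simp [hn]; ring)
  obtain ⟨g, hg⟩ := Cfsg.Agent.S0838.sim_of_basis38 Q₁ Q₂ hQ (Basis.mk hli (by rw [hsp]))
    (Sum.elim (Sum.elim e' f') ![x', y']) 1 one_ne_zero
    (by
      intro i
      rw [one_mul, Basis.coe_mk, qval_plane23 Q₂ e' f' x' y' α β γ h' i,
        qval_plane23 Q₁ e f x y α β γ h i])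
    (by
      intro i j
      rw [one_mul, Basis.coe_mk, gram_plane23 Q₂ e' f' x' y' α β γ h' i j,
        gram_plane23 Q₁ e f x y α β γ h i j])
  exact ⟨g, fun v => by rw [hg v, one_mul]⟩

theorem nonsq_disc23 {F : Type*} [Field F] (h2 : (2 : F) ≠ 0) (ζ : F)
    (hζ : ∀ t : F, t ^ 2 + t + ζ ≠ 0) : ¬ IsSquare (1 - 4 * ζ) := by
  rintro ⟨r, hr⟩
  apply hζ ((r - 1) / 2)
  field_simp
  linear_combination -hr

theorem zeta_change23 {F V : Type*} [Field F] [Finite F] [AddCommGroup V] [Module F V]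
    (h2 : (2 : F) ≠ 0) (Q : QuadraticForm F V) {k : ℕ} (e f : Fin k → V) (x y : V) (ζ ζ' : F)
    (h : PlaneFam23 Q e f x y 1 1 ζ') (hζ : ¬ IsSquare (1 - 4 * ζ))
    (hζ' : ¬ IsSquare (1 - 4 * ζ')) :
    ∃ y'' : V, PlaneFam23 Q e f x y'' 1 1 ζ := by
  obtain ⟨ρ, hρ⟩ := Cfsg.Agent.S0756.nonsq_mul56 (1 - 4 * ζ) (1 - 4 * ζ') hζ hζ'
  have hne : 1 - 4 * ζ' ≠ 0 := by
    intro h0; apply hζ'; rw [h0]; exact IsSquare.zero
  obtain ⟨β₀, hβ₀⟩ : ∃ β₀ : F, β₀ = ρ / (1 - 4 * ζ') := ⟨_, rfl⟩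
  obtain ⟨α₀, hα₀⟩ : ∃ α₀ : F, α₀ = (1 - β₀) / 2 := ⟨_, rfl⟩
  have hβ : β₀ ^ 2 * (1 - 4 * ζ') = 1 - 4 * ζ := by
    rw [hβ₀]
    field_simp
    linear_combination -hρ
  obtain ⟨hH, h4, h5, h6, h7⟩ := h
  have hxx : QuadraticMap.polar ⇑Q x x = 2 := by
    rw [QuadraticMap.polar_self, h5]; simp
  refine ⟨α₀ • x + β₀ • y, hH, ?_, h5, ?_, ?_⟩
  · intro i
    obtain ⟨a1, a2, a3, a4⟩ := h4 i
    simp only [QuadraticMap.polar_add_right, QuadraticMap.polar_smul_right, a1, a2, a3, a4]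
    simp
  · simp only [QuadraticMap.polar_add_right, QuadraticMap.polar_smul_right, hxx, h6, smul_eq_mul]
    rw [hα₀]; field_simp; ring
  · rw [QuadraticMap.map_add (⇑Q) (α₀ • x) (β₀ • y)]
    simp only [QuadraticMap.map_smul, QuadraticMap.polar_smul_left,
      QuadraticMap.polar_smul_right, h5, h6, h7, smul_eq_mul]
    rw [hα₀]
    field_simp
    linear_combination -hβ

theorem hyp_to_plane23 {F V : Type*} [Field F] [AddCommGroup V] [Module F V]
    (Q : QuadraticForm F V) {k : ℕ} (e f : Fin (k + 1) → V) (h : HypFam18 Q e f) :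
    PlaneFam23 Q (fun i => e (Fin.castSucc i)) (fun i => f (Fin.castSucc i))
      (e (Fin.last k)) (f (Fin.last k)) 0 1 0 := by
  obtain ⟨h1, h2, h3⟩ := h
  refine ⟨⟨fun i => h1 _, fun i j => ?_, fun i j => h3 _ _⟩, fun i => ⟨(h3 _ _).1, ?_, ?_,
    (h3 _ _).2⟩, (h1 _).1, ?_, (h1 _).2⟩
  · rw [h2]; simp [Fin.castSucc_inj]
  · rw [h2, if_neg (Fin.castSucc_lt_last i).ne]
  · rw [QuadraticMap.polar_comm, h2, if_neg (Fin.castSucc_lt_last i).ne']
  · rw [h2, if_pos rfl]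

theorem polar_iso23 {F V : Type*} [Field F] [AddCommGroup V] [Module F V]
    (Q₁ Q₂ : QuadraticForm F V) (g : V ≃ₗ[F] V) (c : F) (hg : ∀ v, Q₂ (g v) = c * Q₁ v)
    (x y : V) : QuadraticMap.polar ⇑Q₂ (g x) (g y) = c * QuadraticMap.polar ⇑Q₁ x y := by
  simp only [QuadraticMap.polar, ← map_add, hg]; ring

theorem disc_sim23 {F : Type*} [Field F] {n : ℕ} (Q₁ Q₂ : QuadraticForm F (Fin n → F))
    (g : (Fin n → F) ≃ₗ[F] (Fin n → F)) (c : F) (hg : ∀ v, Q₂ (g v) = c * Q₁ v) :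
    ∃ p : F, c ^ n * (gstd23 Q₁).det = p ^ 2 * (gstd23 Q₂).det := by
  obtain ⟨p, hp⟩ := disc_change23 ((Pi.basisFun F (Fin n)).map g)
  refine ⟨p, ?_⟩
  rw [← hp Q₂]
  have h2 : LinearMap.BilinForm.toMatrix ((Pi.basisFun F (Fin n)).map g)
      (QuadraticMap.polarBilin Q₂) = c • gstd23 Q₁ := by
    ext i j
    rw [LinearMap.BilinForm.toMatrix_apply, Basis.map_apply, Basis.map_apply,
      QuadraticMap.polarBilin_apply_apply, polar_iso23 Q₁ Q₂ g c hg, Pi.basisFun_apply,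
      Pi.basisFun_apply]
    rfl
  rw [h2, Matrix.det_smul, Fintype.card_fin]

/-- Over a finite field of odd order, two quadratic forms on F^n with non-degenerate polar forms are isometric (related by an invertible linear change of variables) if and only if their discriminants (determinants of the Gram matrices of their polar forms) lie in the same square class. -/
theorem result {F : Type*} [Field F] [Fintype F] (h2 : (2 : F) ≠ 0) {n : ℕ} (Q₁ Q₂ : QuadraticForm F (Fin n → F)) (h₁ : (QuadraticMap.polarBilin Q₁).Nondegenerate) (h₂ : (QuadraticMap.polarBilin Q₂).Nondegenerate) : (∃ g : (Fin n → F) ≃ₗ[F] (Fin n → F), ∀ v, Q₂ (g v) = Q₁ v) ↔ IsSquare ((Matrix.of (fun i j : Fin n => QuadraticMap.polar ⇑Q₁ (Pi.single i 1) (Pi.single j 1))).det * (Matrix.of (fun i j : Fin n => QuadraticMap.polar ⇑Q₂ (Pi.single i 1) (Pi.single j 1))).det) := by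
  show _ ↔ IsSquare ((gstd23 Q₁).det * (gstd23 Q₂).det)
  have hd1 := gstd_det_ne23 Q₁ h₁
  have hd2 := gstd_det_ne23 Q₂ h₂
  constructor
  · rintro ⟨g, hg⟩
    obtain ⟨p, hp⟩ := disc_sim23 Q₁ Q₂ g 1 (fun v => by rw [hg v, one_mul])
    rw [one_pow, one_mul] at hp
    exact ⟨p * (gstd23 Q₂).det, by rw [hp]; ring⟩
  · rintro ⟨s, hs⟩
    have hs0 : s ≠ 0 := by
      rintro rfl
      rw [mul_zero] at hs
      exact (mul_ne_zero hd1 hd2) hs
    rcases Nat.even_or_odd n with hev | hodd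
    · obtain ⟨m, hm⟩ := hev
      rcases Nat.eq_zero_or_pos m with hm0 | hmpos
      · refine ⟨LinearEquiv.refl F _, fun v => ?_⟩
        have hn0 : n = 0 := by omega
        subst hn0
        have hv : v = 0 := Subsingleton.elim _ _
        show Q₂ v = Q₁ v
        rw [hv, QuadraticMap.map_zero, QuadraticMap.map_zero]
      · obtain ⟨k, rfl⟩ : ∃ k, m = k + 1 := ⟨m - 1, by omega⟩
        have hn : n = 2 * k + 2 := by omega
        have hV : finrank F (Fin n → F) = 2 * k + 2 := by rw [Module.finrank_fin_fun]; exact hn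
        have hA : ∀ (Q : QuadraticForm F (Fin n → F)),
            (QuadraticMap.polarBilin Q).Nondegenerate →
            (∃ (e f : Fin k → (Fin n → F)) (x y : Fin n → F), PlaneFam23 Q e f x y 0 1 0) ∨
            (∃ (e f : Fin k → (Fin n → F)) (x y : Fin n → F) (ζ : F),
              PlaneFam23 Q e f x y 1 1 ζ ∧ ¬ IsSquare (1 - 4 * ζ)) := by
          intro Q hQ
          rcases Cfsg.Agent.S2616.main16 k (Fin n → F) Q hV hQ with
            ⟨e, f, hH⟩ | ⟨e, f, x, y, ζ, hH, h1, h2', h3, h4, h5⟩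
          · exact Or.inl ⟨_, _, _, _, hyp_to_plane23 Q e f hH⟩
          · exact Or.inr ⟨e, f, x, y, ζ, ⟨hH, h2', h3, h4, h5⟩, nonsq_disc23 h2 ζ h1⟩
        have hneH : (4 : F) * 0 * 0 - 1 ^ 2 ≠ 0 := by norm_num
        have hneE : ∀ ζ : F, ¬ IsSquare (1 - 4 * ζ) → (4 : F) * 1 * ζ - 1 ^ 2 ≠ 0 := by
          intro ζ hζ h0
          apply hζ
          have : 1 - 4 * ζ = 0 := by linear_combination -h0
          rw [this]; exact IsSquare.zero
        have hmixed : ∀ (Qa Qb : QuadraticForm F (Fin n → F)),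
            (QuadraticMap.polarBilin Qa).Nondegenerate →
            (QuadraticMap.polarBilin Qb).Nondegenerate →
            (gstd23 Qa).det * (gstd23 Qb).det = s * s →
            ∀ (e f : Fin k → (Fin n → F)) (x y : Fin n → F), PlaneFam23 Qa e f x y 0 1 0 →
            ∀ (e' f' : Fin k → (Fin n → F)) (x' y' : Fin n → F) (ζ : F),
              PlaneFam23 Qb e' f' x' y' 1 1 ζ → ¬ IsSquare (1 - 4 * ζ) → False := by
          intro Qa Qb ha hb hab e f x y hP e' f' x' y' ζ hP' hζ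
          obtain ⟨p, hp0, hp⟩ := det_plane23 hn Qa ha e f x y 0 1 0 hP hneH
          obtain ⟨p', hp0', hp'⟩ := det_plane23 hn Qb hb e' f' x' y' 1 1 ζ hP' (hneE ζ hζ)
          have hD : (mh23 F k).det ≠ 0 := by
            intro h0
            rw [h0, zero_mul] at hp
            exact (mul_ne_zero (pow_ne_zero 2 hp0) (gstd_det_ne23 Qa ha)) hp.symm
          apply hζ
          refine ⟨p * p' * s / (mh23 F k).det, ?_⟩
          field_simp
          have e1 : (mh23 F k).det ^ 2 * (1 - 4 * ζ) =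
              ((mh23 F k).det * (4 * 0 * 0 - 1 ^ 2)) * ((mh23 F k).det * (4 * 1 * ζ - 1 ^ 2)) := by
            ring
          rw [mul_comm, e1, hp, hp']
          linear_combination p ^ 2 * p' ^ 2 * hab
        rcases hA Q₁ h₁ with ⟨e, f, x, y, hP⟩ | ⟨e, f, x, y, ζ, hP, hζ⟩ <;>
          rcases hA Q₂ h₂ with ⟨e', f', x', y', hP'⟩ | ⟨e', f', x', y', ζ', hP', hζ'⟩
        · exact iso_plane23 hn Q₁ Q₂ h₁ e f e' f' x y x' y' 0 1 0 hP hP' hneH
        · exact (hmixed Q₁ Q₂ h₁ h₂ hs e f x y hP e' f' x' y' ζ' hP' hζ').elim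
        · exact (hmixed Q₂ Q₁ h₂ h₁ (by rw [mul_comm]; exact hs) e' f' x' y' hP'
            e f x y ζ hP hζ).elim
        · obtain ⟨y'', hP''⟩ := zeta_change23 h2 Q₂ e' f' x' y' ζ ζ' hP' hζ hζ'
          exact iso_plane23 hn Q₁ Q₂ h₁ e f e' f' x y x' y'' 1 1 ζ hP hP'' (hneE ζ hζ)
    · obtain ⟨g, c, hc, hg⟩ := Cfsg.Agent.S0838.result h2 hodd Q₁ Q₂ h₁ h₂
      obtain ⟨p, hp⟩ := disc_sim23 Q₁ Q₂ g c hg
      obtain ⟨m, hm⟩ := hodd
      have hp0 : p ≠ 0 := by
        rintro rfl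
        have h0 : c ^ n * (gstd23 Q₁).det = 0 := by rw [hp]; ring
        exact (mul_ne_zero (pow_ne_zero n hc) hd1) h0
      obtain ⟨τ, hτ⟩ : ∃ τ : F, c = τ * τ := by
        refine ⟨p * s / ((gstd23 Q₁).det * c ^ m), ?_⟩
        have hcn : c ^ n = c * (c ^ m) ^ 2 := by rw [hm]; ring
        field_simp
        linear_combination (gstd23 Q₁).det * hp + p ^ 2 * hs - (gstd23 Q₁).det ^ 2 * hcn
      have hτ0 : τ ≠ 0 := by
        rintro rfl
        apply hc
        rw [hτ, mul_zero]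
      refine ⟨g.trans (LinearEquiv.smulOfNeZero F (Fin n → F) τ⁻¹ (inv_ne_zero hτ0)), fun v => ?_⟩
      have e2 : (g.trans (LinearEquiv.smulOfNeZero F (Fin n → F) τ⁻¹ (inv_ne_zero hτ0))) v =
          τ⁻¹ • g v := rfl
      rw [e2, QuadraticMap.map_smul, hg v, hτ, smul_eq_mul]
      field_simp

end Cfsg.Agent.S2623
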