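import Cfsg.Statements.S2620
import Mathlib
import Cfsg.Statements.S2620
import Cfsg.Agent.S2623

set_option autoImplicit false
open Cfsg
open scoped commutatorElement

namespace Cfsg.Agent.S2620

open Module
open Cfsg.Agent.S2623

theorem det_mh20 {F : Type*} [Field F] (k : ℕ) : (mh23 F k).det = (-1) ^ k := by
  have h1 : mh23 F k * Matrix.fromBlocks (1 : Matrix (Fin k) (Fin k) F)
      (0 : Matrix (Fin k) (Fin k) F) (1 : Matrix (Fin k) (Fin k) F)
      (1 : Matrix (Fin k) (Fin k) F) =
      Matrix.fromBlocks (1 : Matrix (Fin k) (Fin k) F) (1 : Matrix (Fin k) (Fin k) F)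
        (1 : Matrix (Fin k) (Fin k) F) (0 : Matrix (Fin k) (Fin k) F) := by
    unfold mh23
    rw [Matrix.fromBlocks_multiply]; simp
  have h2 := congrArg Matrix.det h1
  rw [Matrix.det_mul, Matrix.det_fromBlocks_zero₁₂, Matrix.det_one, mul_one, mul_one,
    Matrix.det_fromBlocks_one₁₁] at h2
  rw [h2]
  simp [Matrix.det_neg]

theorem disc_change20 {F κ ι : Type*} [Field F] [Fintype κ] [DecidableEq κ] [Fintype ι]
    [DecidableEq ι] (b : Basis ι F (κ → F)) :
    ∃ p : F, p ≠ 0 ∧ ∀ B : LinearMap.BilinForm F (κ → F),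
      (LinearMap.BilinForm.toMatrix b B).det =
        p ^ 2 * (LinearMap.BilinForm.toMatrix (Pi.basisFun F κ) B).det := by
  have hcard : Fintype.card ι = Fintype.card κ := by
    rw [← Module.finrank_eq_card_basis b, Module.finrank_fintype_fun_eq_card]
  obtain ⟨σ⟩ : Nonempty (ι ≃ κ) := Fintype.card_eq.mp hcard
  refine ⟨((Pi.basisFun F κ).toMatrix (b.reindex σ)).det, ?_, ?_⟩
  · intro h0
    have h1 := Basis.toMatrix_mul_toMatrix_flip (Pi.basisFun F κ) (b.reindex σ)
    have h2 := congrArg Matrix.det h1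
    rw [Matrix.det_mul, h0, zero_mul, Matrix.det_one] at h2
    exact zero_ne_one h2
  · intro B
    have h1 := LinearMap.BilinForm.toMatrix_mul_basis_toMatrix (Pi.basisFun F κ)
      (b.reindex σ) B
    have h2 : LinearMap.BilinForm.toMatrix (b.reindex σ) B =
        (LinearMap.BilinForm.toMatrix b B).submatrix σ.symm σ.symm := by
      ext i j
      simp [LinearMap.BilinForm.toMatrix_apply, Basis.reindex_apply]
    rw [← Matrix.det_submatrix_equiv_self σ.symm, ← h2, ← h1,
      Matrix.det_mul, Matrix.det_mul, Matrix.det_transpose]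
    ring

theorem sq_mul_iff20 {F : Type*} [Field F] (p d : F) (hp : p ≠ 0) :
    IsSquare (p ^ 2 * d) ↔ IsSquare d := by
  constructor
  · rintro ⟨r, hr⟩
    exact ⟨r / p, by field_simp; linear_combination hr⟩
  · rintro ⟨r, hr⟩
    exact ⟨p * r, by rw [hr]; ring⟩

theorem neg_one_pow_sq20 {F : Type*} [Field F] [Fintype F] {q : ℕ} (hF : Fintype.card F = q)
    (hq : Odd q) (m : ℕ) : IsSquare ((-1 : F) ^ m) ↔ Even (m * (q - 1) / 2) := by
  obtain ⟨j, hj⟩ := hq
  have e1 : m * (q - 1) / 2 = m * j := by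
    rw [hj, Nat.add_sub_cancel, Nat.mul_comm 2 j, ← Nat.mul_assoc,
      Nat.mul_div_cancel _ (by norm_num)]
  rw [e1, Nat.even_mul]
  have hneg := FiniteField.isSquare_neg_one_iff (F := F)
  rw [hF] at hneg
  rcases Nat.even_or_odd m with hm | hm
  · obtain ⟨i, hi⟩ := hm
    constructor
    · intro _; exact Or.inl ⟨i, hi⟩
    · intro _
      rw [hi, ← two_mul, pow_mul]
      simp
  · rw [hm.neg_one_pow, hneg]
    have hnm : ¬ Even m := Nat.not_even_iff_odd.mpr hm
    constructor
    · intro h
      right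
      rcases Nat.even_or_odd j with hj' | hj'
      · exact hj'
      · exfalso
        obtain ⟨i, hi⟩ := hj'
        omega
    · rintro (h | h)
      · exact absurd h hnm
      · obtain ⟨i, hi⟩ := h
        omega

/-- Discriminant of the hyperbolic quadratic form Σ_(i<m) x_i y_i over a field with q elements, q odd, m ≥ 1: the determinant of the Gram matrix of its polar form in any basis is a square if and only if m(q − 1)/2 is even (equivalently q^m ≡ 1 (mod 4)). -/
theorem result {F : Type*} [Field F] [Fintype F] {q : ℕ} (hF : Fintype.card F = q) (hq : Odd q) {m : ℕ} (hm : 1 ≤ m) {ι : Type*} [Fintype ι] [DecidableEq ι] (b : Module.Basis ι F (Fin m ⊕ Fin m → F)) : IsSquare (Matrix.of (fun i j : ι => QuadraticMap.polar (Cfsg.quadFormPlus m F) (b i) (b j))).det ↔ Even (m * (q - 1) / 2) := by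
  obtain ⟨p, hp0, hp⟩ := disc_change20 b
  have hB : ∀ x y : Fin m ⊕ Fin m → F, QuadraticMap.polar (Cfsg.quadFormPlus m F) x y =
      Matrix.toBilin' (mh23 F m) x y := by
    intro x y
    rw [Matrix.toBilin'_apply']
    simp only [QuadraticMap.polar, Cfsg.quadFormPlus, dotProduct, Matrix.mulVec, mh23,
      Fintype.sum_sum_type, Matrix.fromBlocks_apply₁₁, Matrix.fromBlocks_apply₁₂,
      Matrix.fromBlocks_apply₂₁, Matrix.fromBlocks_apply₂₂, Matrix.zero_apply, Matrix.one_apply,
      Pi.add_apply, zero_mul, Finset.sum_const_zero, zero_add, add_zero, ite_mul, one_mul,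
      Finset.sum_ite_eq, Finset.mem_univ, if_true]
    rw [← Finset.sum_add_distrib, ← Finset.sum_sub_distrib, ← Finset.sum_sub_distrib]
    apply Finset.sum_congr rfl
    intro i _
    ring
  have h1 : Matrix.of (fun i j : ι => QuadraticMap.polar (Cfsg.quadFormPlus m F) (b i) (b j)) =
      LinearMap.BilinForm.toMatrix b
        (Matrix.toBilin' (mh23 F m)) := by
    ext i j
    rw [LinearMap.BilinForm.toMatrix_apply, Matrix.of_apply, hB]
  rw [h1, hp, LinearMap.BilinForm.toMatrix_basisFun, LinearMap.BilinForm.toMatrix'_toBilin', det_mh20,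
    sq_mul_iff20 _ _ hp0]
  exact neg_one_pow_sq20 hF hq m

end Cfsg.Agent.S2620
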