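import Cfsg.Statements.S0759
import Mathlib
import Cfsg.Statements.S0759
import Cfsg.Agent.S2618
import Cfsg.Agent.S2616
import Cfsg.Agent.S2623
import Cfsg.Agent.S2620
import Cfsg.Agent.S0760

set_option autoImplicit false
open Cfsg
open scoped commutatorElement

namespace Cfsg.Agent.S0759

open Module
open Cfsg.Agent.S2618
open Cfsg.Agent.S2623
open Cfsg.Agent.S2620

theorem ts_span59 {F V : Type*} [Field F] [AddCommGroup V] [Module F V] (Q : QuadraticForm F V)
    {k : ℕ} (e f : Fin k → V) (h : HypFam18 Q e f) :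
    ∀ w ∈ Submodule.span F (Set.range e), Q w = 0 := by
  classical
  intro w hw
  obtain ⟨c, rfl⟩ := (Submodule.mem_span_range_iff_exists_fun F).mp hw
  have key : ∀ s : Finset (Fin k), Q (∑ i ∈ s, c i • e i) = 0 := by
    intro s
    induction s using Finset.induction_on with
    | empty => simp
    | insert a s ha ih =>
      rw [Finset.sum_insert ha, QuadraticMap.map_add (⇑Q), QuadraticMap.map_smul, (h.1 a).1, ih]
      have h5 : QuadraticMap.polar ⇑Q (c a • e a) (∑ i ∈ s, c i • e i) = 0 := by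
        rw [← QuadraticMap.polarBilin_apply_apply, map_sum]
        apply Finset.sum_eq_zero
        intro i _
        rw [QuadraticMap.polarBilin_apply_apply, QuadraticMap.polar_smul_left,
          QuadraticMap.polar_smul_right, (h.2.2 a i).1]
        simp
      rw [h5]; simp
  exact key Finset.univ

theorem li_e59 {F V : Type*} [Field F] [AddCommGroup V] [Module F V] (Q : QuadraticForm F V)
    {k : ℕ} (e f : Fin k → V) (h : HypFam18 Q e f) : LinearIndependent F e := by
  classical
  rw [Fintype.linearIndependent_iff]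
  intro g hg j
  have h5 : QuadraticMap.polarBilin Q (∑ i, g i • e i) (f j) = 0 := by rw [hg]; simp
  simp only [map_sum, map_smul, LinearMap.sum_apply, LinearMap.smul_apply,
    QuadraticMap.polarBilin_apply_apply, h.2.1, smul_eq_mul, mul_ite, mul_one, mul_zero,
    Finset.sum_ite_eq', Finset.mem_univ, if_true] at h5
  exact h5

theorem exists_max_ts59 {F V : Type*} [Field F] [AddCommGroup V] [Module F V]
    [FiniteDimensional F V] (Q : QuadraticForm F V) (d : ℕ) :
    ∀ W : Submodule F V, (∀ w ∈ W, Q w = 0) → finrank F V - finrank F W ≤ d →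
      ∃ W' : Submodule F V, W ≤ W' ∧ (∀ w ∈ W', Q w = 0) ∧
        ∀ U : Submodule F V, W' ≤ U → (∀ w ∈ U, Q w = 0) → U = W' := by
  induction d with
  | zero =>
    intro W hW hd
    refine ⟨W, le_rfl, hW, ?_⟩
    intro U hWU _
    have h1 := Submodule.finrank_le W
    have hWtop : W = ⊤ := Submodule.eq_top_of_finrank_eq (by omega)
    rw [hWtop] at hWU ⊢
    exact top_le_iff.mp hWU
  | succ d ih =>
    intro W hW hd
    by_cases hmax : ∀ U : Submodule F V, W ≤ U → (∀ w ∈ U, Q w = 0) → U = W
    · exact ⟨W, le_rfl, hW, hmax⟩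
    · push Not at hmax
      obtain ⟨U, hWU, hU, hne⟩ := hmax
      have hlt : W < U := lt_of_le_of_ne hWU (Ne.symm hne)
      have h1 := Submodule.finrank_lt_finrank_of_lt hlt
      have h2 := Submodule.finrank_le U
      obtain ⟨W', hUW', hW', hmax'⟩ := ih U hU (by omega)
      exact ⟨W', hWU.trans hUW', hW', hmax'⟩

theorem ell_max59 {F V : Type*} [Field F] [AddCommGroup V] [Module F V] (Q : QuadraticForm F V)
    {k : ℕ} (e f : Fin k → V) (x y : V) (ζ : F) (h : PlaneFam23 Q e f x y 1 1 ζ)
    (hζ : ∀ t : F, t ^ 2 + t + ζ ≠ 0)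
    (hsp : Submodule.span F (Set.range (Sum.elim (Sum.elim e f) ![x, y] :
      (Fin k ⊕ Fin k) ⊕ Fin 2 → V)) = ⊤)
    (U : Submodule F V) (hle : Submodule.span F (Set.range e) ≤ U) (hU : ∀ w ∈ U, Q w = 0) :
    U = Submodule.span F (Set.range e) := by
  classical
  obtain ⟨⟨h1, h2, h3⟩, h4, h5, h6, h7⟩ := h
  apply le_antisymm _ hle
  intro u hu
  have hts : ∀ a ∈ U, ∀ b ∈ U, QuadraticMap.polar ⇑Q a b = 0 := by
    intro a ha b hb
    rw [QuadraticMap.polar, hU _ (U.add_mem ha hb), hU a ha, hU b hb]; simp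
  have heU : ∀ j, e j ∈ U := fun j => hle (Submodule.subset_span ⟨j, rfl⟩)
  have hue : ∀ j, QuadraticMap.polar ⇑Q u (e j) = 0 := fun j => hts u hu (e j) (heU j)
  have hu'U : u - ∑ i, QuadraticMap.polar ⇑Q u (f i) • e i ∈ U :=
    U.sub_mem hu (U.sum_mem (fun i _ => U.smul_mem _ (heU i)))
  have hu'f : ∀ j, QuadraticMap.polarBilin Q (u - ∑ i, QuadraticMap.polar ⇑Q u (f i) • e i)
      (f j) = 0 := by
    intro j
    simp only [map_sub, map_sum, map_smul, LinearMap.sub_apply, LinearMap.sum_apply,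
      LinearMap.smul_apply, QuadraticMap.polarBilin_apply_apply, h2, smul_eq_mul, mul_ite,
      mul_one, mul_zero, Finset.sum_ite_eq', Finset.mem_univ, if_true, sub_self]
  have hu'e : ∀ j, QuadraticMap.polarBilin Q (u - ∑ i, QuadraticMap.polar ⇑Q u (f i) • e i)
      (e j) = 0 := by
    intro j
    simp only [map_sub, map_sum, map_smul, LinearMap.sub_apply, LinearMap.sum_apply,
      LinearMap.smul_apply, QuadraticMap.polarBilin_apply_apply, (h3 _ _).1, hue, smul_eq_mul,
      mul_zero, Finset.sum_const_zero, sub_self]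
  have hmem : u - ∑ i, QuadraticMap.polar ⇑Q u (f i) • e i ∈
      Submodule.span F (Set.range (Sum.elim (Sum.elim e f) ![x, y] :
        (Fin k ⊕ Fin k) ⊕ Fin 2 → V)) := by rw [hsp]; exact Submodule.mem_top
  obtain ⟨g, hg⟩ := (Submodule.mem_span_range_iff_exists_fun F).mp hmem
  simp only [Fintype.sum_sum_type, Sum.elim_inl, Sum.elim_inr, Fin.sum_univ_two,
    Matrix.cons_val_zero, Matrix.cons_val_one, Matrix.cons_val_fin_one] at hg
  have hxf : ∀ j, QuadraticMap.polar ⇑Q x (f j) = 0 := by
    intro j; rw [QuadraticMap.polar_comm]; exact (h4 j).2.2.1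
  have hyf : ∀ j, QuadraticMap.polar ⇑Q y (f j) = 0 := by
    intro j; rw [QuadraticMap.polar_comm]; exact (h4 j).2.2.2
  have hxe : ∀ j, QuadraticMap.polar ⇑Q x (e j) = 0 := by
    intro j; rw [QuadraticMap.polar_comm]; exact (h4 j).1
  have hye : ∀ j, QuadraticMap.polar ⇑Q y (e j) = 0 := by
    intro j; rw [QuadraticMap.polar_comm]; exact (h4 j).2.1
  have hfe : ∀ i j, QuadraticMap.polar ⇑Q (f i) (e j) = if j = i then 1 else 0 := by
    intro i j; rw [QuadraticMap.polar_comm]; exact h2 j i
  have ha : ∀ j, g (Sum.inl (Sum.inl j)) = 0 := by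
    intro j
    have h8 := hu'f j
    rw [← hg] at h8
    simp only [map_add, map_sum, map_smul, LinearMap.add_apply, LinearMap.sum_apply,
      LinearMap.smul_apply, QuadraticMap.polarBilin_apply_apply, h2, (h3 _ _).2, hxf, hyf,
      smul_eq_mul, mul_zero, Finset.sum_const_zero, add_zero, mul_ite, mul_one,
      Finset.sum_ite_eq', Finset.mem_univ, if_true] at h8
    exact h8
  have hb : ∀ j, g (Sum.inl (Sum.inr j)) = 0 := by
    intro j
    have h8 := hu'e j
    rw [← hg] at h8
    simp only [map_add, map_sum, map_smul, LinearMap.add_apply, LinearMap.sum_apply,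
      LinearMap.smul_apply, QuadraticMap.polarBilin_apply_apply, (h3 _ _).1, hfe, hxe, hye,
      smul_eq_mul, mul_zero, Finset.sum_const_zero, add_zero, zero_add, mul_ite, mul_one,
      Finset.sum_ite_eq, Finset.mem_univ, if_true] at h8
    exact h8
  simp only [ha, hb, zero_smul, Finset.sum_const_zero, zero_add] at hg
  have hQ0 := hU _ hu'U
  rw [← hg, QuadraticMap.map_add (⇑Q), QuadraticMap.map_smul, QuadraticMap.map_smul,
    QuadraticMap.polar_smul_left, QuadraticMap.polar_smul_right, h5, h6, h7] at hQ0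
  simp only [smul_eq_mul, mul_one] at hQ0
  have hd : g (Sum.inr 1) = 0 := by
    by_contra hd
    apply hζ (g (Sum.inr 0) / g (Sum.inr 1))
    field_simp
    linear_combination hQ0
  rw [hd] at hQ0 hg
  have hc : g (Sum.inr 0) = 0 := by
    have : g (Sum.inr 0) * g (Sum.inr 0) = 0 := by linear_combination hQ0
    exact mul_self_eq_zero.mp this
  rw [hc] at hg
  simp only [zero_smul, add_zero] at hg
  have hu_eq : u = ∑ i, QuadraticMap.polar ⇑Q u (f i) • e i := sub_eq_zero.mp hg.symm
  rw [hu_eq]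
  exact Submodule.sum_mem _ (fun i _ => Submodule.smul_mem _ _ (Submodule.subset_span ⟨i, rfl⟩))

/-- the sum of squares form -/
noncomputable def q059 (F : Type*) [Field F] (n : ℕ) : QuadraticForm F (Fin n → F) :=
  QuadraticMap.weightedSumSquares F (fun _ : Fin n => (1 : F))

theorem q0_apply59 {F : Type*} [Field F] (n : ℕ) (v : Fin n → F) :
    q059 F n v = ∑ i, v i ^ 2 := by
  unfold q059
  rw [QuadraticMap.weightedSumSquares_apply]
  apply Finset.sum_congr rfl
  intro i _
  rw [one_smul, pow_two]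

theorem q0_polar59 {F : Type*} [Field F] (n : ℕ) (x y : Fin n → F) :
    QuadraticMap.polar ⇑(q059 F n) x y = 2 * ∑ i, x i * y i := by
  rw [QuadraticMap.polar, q0_apply59, q0_apply59, q0_apply59, Finset.mul_sum,
    ← Finset.sum_sub_distrib, ← Finset.sum_sub_distrib]
  apply Finset.sum_congr rfl
  intro i _
  simp only [Pi.add_apply]
  ring

theorem q0_nondeg59 {F : Type*} [Field F] (h2 : (2 : F) ≠ 0) (n : ℕ) :
    (QuadraticMap.polarBilin (q059 F n)).Nondegenerate := by
  classical
  have key : ∀ x : Fin n → F, (∀ y, QuadraticMap.polar ⇑(q059 F n) x y = 0) → x = 0 := by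
    intro x hx
    funext j
    have h1 := hx (Pi.single j 1)
    rw [q0_polar59] at h1
    simp only [Pi.single_apply, mul_ite, mul_one, mul_zero, Finset.sum_ite_eq',
      Finset.mem_univ, if_true] at h1
    rcases mul_eq_zero.mp h1 with h | h
    · exact absurd h h2
    · exact h
  constructor
  · intro x hx
    exact key x (fun y => by rw [← QuadraticMap.polarBilin_apply_apply]; exact hx y)
  · intro y hy
    exact key y (fun x => by
      rw [QuadraticMap.polar_comm, ← QuadraticMap.polarBilin_apply_apply]; exact hy x)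

theorem q0_det59 {F : Type*} [Field F] (n : ℕ) : (gstd23 (q059 F n)).det = 2 ^ n := by
  classical
  have h1 : gstd23 (q059 F n) = (2 : F) • (1 : Matrix (Fin n) (Fin n) F) := by
    ext i j
    simp only [gstd23, Matrix.of_apply, q0_polar59, Matrix.smul_apply, Matrix.one_apply,
      Pi.single_apply, smul_eq_mul]
    by_cases hij : i = j
    · subst hij
      simp
    · rw [if_neg hij]
      simp only [mul_zero]
      rw [Finset.sum_eq_zero]
      · simp
      · intro l _
        by_cases hl : l = i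
        · subst hl
          rw [if_neg hij]; simp
        · rw [if_neg hl]; simp
  rw [h1, Matrix.det_smul, Matrix.det_one, Fintype.card_fin, mul_one]

theorem neg_one_pow_sq59 {F : Type*} [Field F] [Fintype F] (m : ℕ) :
    IsSquare ((-1 : F) ^ m) ↔ ¬ (Fintype.card F % 4 = 3 ∧ Odd m) := by
  rcases Nat.even_or_odd m with hm | hm
  · obtain ⟨i, hi⟩ := hm
    constructor
    · intro _ h
      obtain ⟨j, hj⟩ := h.2
      omega
    · intro _
      rw [hi, ← two_mul, pow_mul]
      simp
  · rw [hm.neg_one_pow, FiniteField.isSquare_neg_one_iff]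
    constructor
    · intro h h'
      exact h h'.1
    · intro h h'
      exact h ⟨h', hm⟩

/-- Type of the orthonormal form: over a finite field of odd order q and for m ≥ 1, the quadratic form Σ_(i<2m) x_i² on F^(2m) admits an m-dimensional subspace on which it vanishes identically if and only if it is not the case that q ≡ 3 (mod 4) and m is odd. -/
theorem result {F : Type*} [Field F] [Fintype F] (h2 : (2 : F) ≠ 0) (m : ℕ) (hm : 1 ≤ m) : (∃ W : Submodule F (Fin (2 * m) → F), Module.finrank F W = m ∧ ∀ w ∈ W, ∑ i, w i ^ 2 = 0) ↔ ¬ (Fintype.card F % 4 = 3 ∧ Odd m) := by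
  rw [← neg_one_pow_sq59]
  obtain ⟨k, rfl⟩ : ∃ k, m = k + 1 := ⟨m - 1, by omega⟩
  have hn : 2 * (k + 1) = 2 * k + 2 := by ring
  have hV : finrank F (Fin (2 * (k + 1)) → F) = 2 * k + 2 := by
    rw [Module.finrank_fin_fun]; exact hn
  have hnd := q0_nondeg59 h2 (2 * (k + 1))
  have hdet := q0_det59 (F := F) (2 * (k + 1))
  have hW : ∀ W : Submodule F (Fin (2 * (k + 1)) → F),
      (∀ w ∈ W, ∑ i, w i ^ 2 = 0) ↔ (∀ w ∈ W, q059 F (2 * (k + 1)) w = 0) := by
    intro W
    constructor
    · intro h w hw; rw [q0_apply59]; exact h w hw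
    · intro h w hw; rw [← q0_apply59]; exact h w hw
  have hpow : ((-1 : F) ^ (k + 1)) = (-1) ^ k * (4 * 0 * 0 - 1 ^ 2) := by rw [pow_succ]; ring
  rcases Cfsg.Agent.S2616.main16 k (Fin (2 * (k + 1)) → F) (q059 F (2 * (k + 1))) hV hnd with
    ⟨e, f, hH⟩ | ⟨e, f, x, y, ζ, hH, h1, h2', h3, h4, h5⟩
  · have hP := hyp_to_plane23 _ e f hH
    obtain ⟨p, hp0, hp⟩ := det_plane23 hn _ hnd _ _ _ _ 0 1 0 hP (by norm_num)
    rw [det_mh20, hdet] at hp
    have hsq : IsSquare ((-1 : F) ^ (k + 1)) := by
      refine ⟨p * 2 ^ (k + 1), ?_⟩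
      rw [hpow, hp]; ring
    constructor
    · intro _; exact hsq
    · intro _
      refine ⟨Submodule.span F (Set.range e), ?_, ?_⟩
      · rw [finrank_span_eq_card (li_e59 _ e f hH)]; simp
      · rw [hW]; exact ts_span59 _ e f hH
  · have hP : PlaneFam23 (q059 F (2 * (k + 1))) e f x y 1 1 ζ := ⟨hH, h2', h3, h4, h5⟩
    have hζ := nonsq_disc23 h2 ζ h1
    have hne : (4 : F) * 1 * ζ - 1 ^ 2 ≠ 0 := by
      intro h0
      apply hζ
      have : 1 - 4 * ζ = 0 := by linear_combination -h0
      rw [this]; exact IsSquare.zero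
    obtain ⟨p, hp0, hp⟩ := det_plane23 hn _ hnd _ _ _ _ 1 1 ζ hP hne
    rw [det_mh20, hdet] at hp
    have hnsq : ¬ IsSquare ((-1 : F) ^ (k + 1)) := by
      rintro ⟨r, hr⟩
      have hr0 : r ≠ 0 := by
        rintro rfl
        have : ((-1 : F) ^ (k + 1)) ≠ 0 := pow_ne_zero _ (neg_ne_zero.mpr one_ne_zero)
        apply this
        rw [hr]; ring
      apply hζ
      refine ⟨p * 2 ^ (k + 1) / r, ?_⟩
      field_simp
      have e1 : r ^ 2 * (1 - 4 * ζ) = (-1) ^ k * (4 * 1 * ζ - 1 ^ 2) := by
        have : r ^ 2 = (-1 : F) ^ (k + 1) := by rw [hr]; ring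
        rw [this, pow_succ]; ring
      rw [mul_comm, e1, hp]; ring
    constructor
    · rintro ⟨W, hWdim, hWts⟩
      exfalso
      rw [hW] at hWts
      have hli := li_plane23 _ e f x y 1 1 ζ hP hne
      have hsp := hli.span_eq_top_of_card_eq_finrank' (by simp [hn]; ring)
      obtain ⟨W', hWW', hW'ts, hW'max⟩ := exists_max_ts59 (q059 F (2 * (k + 1))) _ W hWts le_rfl
      have hEmax := ell_max59 _ e f x y ζ hP h1 hsp
      have hEts := ts_span59 _ e f hH
      have h8 := (Cfsg.Agent.S0760.result (q059 F (2 * (k + 1))) hnd W'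
        (Submodule.span F (Set.range e)) hW'ts hEts hW'max
        (fun U hle hU => hEmax U hle hU)).1
      rw [finrank_span_eq_card (li_e59 _ e f hH)] at h8
      have h9 := Submodule.finrank_mono hWW'
      simp at h8
      omega
    · intro h; exact absurd h hnsq

end Cfsg.Agent.S0759
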