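import Cfsg.Statements.S0794
import Mathlib
import Cfsg.Statements.S0794
import Cfsg.Agent.S0750

set_option autoImplicit false
open Cfsg
open scoped commutatorElement

namespace Cfsg.Agent.S0794

open Cfsg.Agent.S0750 Matrix
open scoped commutatorElement

theorem mat_ext94 {F : Type*} [Field F] {n : ℕ} (M N : Matrix (Fin n) (Fin n) F) (h : ∀ x, M *ᵥ x = N *ᵥ x) :
    M = N := by
  apply Matrix.toLin'.injective
  apply LinearMap.ext
  intro x
  rw [Matrix.toLin'_apply, Matrix.toLin'_apply]
  exact h x

theorem pv_dot94 {F : Type*} [Field F] {n : ℕ} (Q : QuadraticForm F (Fin n → F)) (u x : Fin n → F) :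
    polarVec (⇑Q) u ⬝ᵥ x = QuadraticMap.polarBilin Q u x := by
  have hx : x = ∑ j, x j • (Pi.single j (1 : F) : Fin n → F) := by
    ext i
    simp [Finset.sum_apply, Pi.single_apply]
  conv_rhs => rw [hx]
  rw [map_sum]
  unfold polarVec dotProduct
  apply Finset.sum_congr rfl
  intro j _
  rw [map_smul, smul_eq_mul, QuadraticMap.polarBilin_apply_apply, mul_comm]

theorem siegel_mulVec94 {F : Type*} [Field F] {n : ℕ} (Q : QuadraticForm F (Fin n → F)) (u v x : Fin n → F) (c : F) :
    siegelMatrix (⇑Q) u v c *ᵥ x =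
      x + (c * QuadraticMap.polarBilin Q u x) • v + (-(c * QuadraticMap.polarBilin Q v x)) • u := by
  unfold siegelMatrix
  rw [Matrix.add_mulVec, Matrix.one_mulVec, Matrix.smul_mulVec, Matrix.sub_mulVec, Matrix.vecMulVec_mulVec,
    Matrix.vecMulVec_mulVec, op_smul_eq_smul, op_smul_eq_smul, pv_dot94, pv_dot94, smul_sub, smul_smul, smul_smul,
    neg_smul]
  abel

/-- For q odd, n ≥ 5 and Q with non-degenerate polar form: an isometry whose matrix is a Siegel transformation T_(u,v)(c) (u, v singular and orthogonal) is a commutator in the isometry group, so lies in Ω. -/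
theorem result {F : Type*} [Field F] [Fintype F] (h2 : (2 : F) ≠ 0) {n : ℕ} (hn : 5 ≤ n) (Q : QuadraticForm F (Fin n → F)) (hQ : (QuadraticMap.polarBilin Q).Nondegenerate) (u v : Fin n → F) (hu : Q u = 0) (hv : Q v = 0) (huv : QuadraticMap.polar ⇑Q u v = 0) (c : F) (g : ↥(Cfsg.isometryGroup F ⇑Q)) (hg : ((g : Matrix.GeneralLinearGroup (Fin n) F) : Matrix (Fin n) (Fin n) F) = Cfsg.siegelMatrix ⇑Q u v c) : g ∈ commutatorSet ↥(Cfsg.isometryGroup F ⇑Q) ∧ g ∈ Cfsg.Omega F ⇑Q := by
  classical
  have hBuu : QuadraticMap.polarBilin Q u u = 0 := by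
    rw [QuadraticMap.polarBilin_apply_apply, QuadraticMap.polar_self, hu, smul_zero]
  have hBvv : QuadraticMap.polarBilin Q v v = 0 := by
    rw [QuadraticMap.polarBilin_apply_apply, QuadraticMap.polar_self, hv, smul_zero]
  have hBuv : QuadraticMap.polarBilin Q u v = 0 := by
    rw [QuadraticMap.polarBilin_apply_apply]; exact huv
  have hBvu : QuadraticMap.polarBilin Q v u = 0 := by rw [Bsymm50]; exact hBuv
  have hgx : ∀ x, ((g : Matrix.GeneralLinearGroup (Fin n) F) : Matrix (Fin n) (Fin n) F) *ᵥ x =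
      x + (c * QuadraticMap.polarBilin Q u x) • v + (-(c * QuadraticMap.polarBilin Q v x)) • u := by
    intro x
    rw [hg, siegel_mulVec94]
  suffices hs : ∃ a : ↥(Cfsg.isometryGroup F ⇑Q), g = ⁅a, g⁆ by
    obtain ⟨a, ha⟩ := hs
    have hmem : g ∈ commutatorSet ↥(Cfsg.isometryGroup F ⇑Q) := ⟨a, g, ha.symm⟩
    refine ⟨hmem, ?_⟩
    show g ∈ commutator ↥(Cfsg.isometryGroup F ⇑Q)
    rw [commutator_eq_closure]
    exact Subgroup.subset_closure hmem
  by_cases hind : LinearIndependent F ![u, v]
  · have hind' : LinearIndependent F ![(2 : F) • u, v] := by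
      rw [LinearIndependent.pair_iff] at hind ⊢
      intro s t hst
      rw [smul_smul] at hst
      obtain ⟨h1, h2'⟩ := hind _ _ hst
      exact ⟨(mul_eq_zero.mp h1).resolve_right h2, h2'⟩
    obtain ⟨a, ha, hax⟩ := witt_fam50 Q hQ 2 ![u, v] ![(2 : F) • u, v] hind hind' (by
      intro i
      fin_cases i
      · show Q u = Q ((2 : F) • u)
        rw [Qsmul50, hu, mul_zero]
      · rfl) (by
      intro i j
      fin_cases i <;> fin_cases j
      · show QuadraticMap.polarBilin Q u u = QuadraticMap.polarBilin Q ((2 : F) • u) ((2 : F) • u)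
        simp only [map_smul, LinearMap.smul_apply, smul_eq_mul, hBuu, mul_zero]
      · show QuadraticMap.polarBilin Q u v = QuadraticMap.polarBilin Q ((2 : F) • u) v
        simp only [map_smul, LinearMap.smul_apply, smul_eq_mul, hBuv, mul_zero]
      · show QuadraticMap.polarBilin Q v u = QuadraticMap.polarBilin Q v ((2 : F) • u)
        simp only [map_smul, LinearMap.smul_apply, smul_eq_mul, hBvu, mul_zero]
      · rfl)
    have hau : a u = (2 : F) • u := hax 0
    have hav : a v = v := hax 1
    have haB : ∀ x y, QuadraticMap.polarBilin Q (a x) (a y) = QuadraticMap.polarBilin Q x y :=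
      fun x y => isoB50 Q a.toLinearMap ha x y
    have hAA' : LinearMap.toMatrix' (a : (Fin n → F) →ₗ[F] (Fin n → F)) *
        LinearMap.toMatrix' (a.symm : (Fin n → F) →ₗ[F] (Fin n → F)) = 1 := by
      rw [← LinearMap.toMatrix'_comp, ← LinearMap.toMatrix'_id]
      congr 1
      apply LinearMap.ext
      intro x
      simp
    have hA'A : LinearMap.toMatrix' (a.symm : (Fin n → F) →ₗ[F] (Fin n → F)) *
        LinearMap.toMatrix' (a : (Fin n → F) →ₗ[F] (Fin n → F)) = 1 := by
      rw [← LinearMap.toMatrix'_comp, ← LinearMap.toMatrix'_id]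
      congr 1
      apply LinearMap.ext
      intro x
      simp
    have hAx : ∀ x, LinearMap.toMatrix' (a : (Fin n → F) →ₗ[F] (Fin n → F)) *ᵥ x = a x :=
      fun x => LinearMap.toMatrix'_mulVec _ x
    refine ⟨⟨⟨LinearMap.toMatrix' (a : (Fin n → F) →ₗ[F] (Fin n → F)),
      LinearMap.toMatrix' (a.symm : (Fin n → F) →ₗ[F] (Fin n → F)), hAA', hA'A⟩, fun x _ => by
        show Q (LinearMap.toMatrix' (a : (Fin n → F) →ₗ[F] (Fin n → F)) *ᵥ x) = Q x
        rw [hAx]
        exact ha x⟩, ?_⟩
    rw [commutatorElement_def, eq_mul_inv_iff_mul_eq, eq_mul_inv_iff_mul_eq]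
    apply Subtype.ext
    apply Units.ext
    show ((g : Matrix.GeneralLinearGroup (Fin n) F) : Matrix (Fin n) (Fin n) F) *
      ((g : Matrix.GeneralLinearGroup (Fin n) F) : Matrix (Fin n) (Fin n) F) *
      LinearMap.toMatrix' (a : (Fin n → F) →ₗ[F] (Fin n → F)) =
      LinearMap.toMatrix' (a : (Fin n → F) →ₗ[F] (Fin n → F)) *
      ((g : Matrix.GeneralLinearGroup (Fin n) F) : Matrix (Fin n) (Fin n) F)
    apply mat_ext94
    intro x
    have hT2 : ∀ y, ((g : Matrix.GeneralLinearGroup (Fin n) F) : Matrix (Fin n) (Fin n) F) *ᵥ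
        (((g : Matrix.GeneralLinearGroup (Fin n) F) : Matrix (Fin n) (Fin n) F) *ᵥ y) =
        y + (2 * c * QuadraticMap.polarBilin Q u y) • v + (-(2 * c * QuadraticMap.polarBilin Q v y)) • u := by
      intro y
      rw [hgx y, hgx]
      have e1 : QuadraticMap.polarBilin Q u (y + (c * QuadraticMap.polarBilin Q u y) • v +
          (-(c * QuadraticMap.polarBilin Q v y)) • u) = QuadraticMap.polarBilin Q u y := by
        rw [map_add, map_add, map_smul, map_smul, hBuv, hBuu]
        simp
      have e2 : QuadraticMap.polarBilin Q v (y + (c * QuadraticMap.polarBilin Q u y) • v +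
          (-(c * QuadraticMap.polarBilin Q v y)) • u) = QuadraticMap.polarBilin Q v y := by
        rw [map_add, map_add, map_smul, map_smul, hBvv, hBvu]
        simp
      rw [e1, e2]
      module
    have h5 : 2 * QuadraticMap.polarBilin Q u (a x) = QuadraticMap.polarBilin Q u x := by
      rw [← haB u x, hau, map_smul, LinearMap.smul_apply, smul_eq_mul]
    have h6 : QuadraticMap.polarBilin Q v (a x) = QuadraticMap.polarBilin Q v x := by
      rw [← haB v x, hav]
    have h7 : 2 * c * QuadraticMap.polarBilin Q u (a x) = c * QuadraticMap.polarBilin Q u x := by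
      rw [← h5]; ring
    rw [← Matrix.mulVec_mulVec, ← Matrix.mulVec_mulVec, ← Matrix.mulVec_mulVec, hAx, hT2, hgx, hAx, h6, h7,
      map_add, map_add, map_smul, map_smul, hau, hav]
    module
  · rw [LinearIndependent.pair_iff] at hind
    push Not at hind
    obtain ⟨s, t, hst, hne⟩ := hind
    have key : ∀ x, QuadraticMap.polarBilin Q u x • v = QuadraticMap.polarBilin Q v x • u := by
      intro x
      by_cases hs : s = 0
      · have ht := hne hs
        rw [hs, zero_smul, zero_add] at hst
        have hv0 : v = 0 := (smul_eq_zero.mp hst).resolve_left ht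
        rw [hv0]
        simp
      · have hu' : u = (-(s⁻¹ * t)) • v := by
          have h8 : s • u = -(t • v) := eq_neg_of_add_eq_zero_left hst
          rw [← inv_smul_smul₀ hs u, h8, smul_neg, smul_smul, neg_smul]
        rw [hu', map_smul, LinearMap.smul_apply, smul_eq_mul, smul_smul, mul_comm]
    have hg1 : g = 1 := by
      apply Subtype.ext
      apply Units.ext
      show ((g : Matrix.GeneralLinearGroup (Fin n) F) : Matrix (Fin n) (Fin n) F) = 1
      apply mat_ext94
      intro x
      rw [hgx, Matrix.one_mulVec, mul_smul, key x, neg_smul, mul_smul]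
      abel
    refine ⟨1, ?_⟩
    rw [hg1]
    simp

end Cfsg.Agent.S0794
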