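import Cfsg.Statements.S0792
import Mathlib
import Cfsg.Statements.S0792
import Cfsg.Agent.S0794

set_option autoImplicit false
open Cfsg
open scoped commutatorElement

namespace Cfsg.Agent.S0792

open Cfsg.Agent.S0750 Cfsg.Agent.S0794 Matrix

theorem Q2_92 {F V : Type*} [Field F] [AddCommGroup V] [Module F V] (Q : QuadraticForm F V) (x p : V) (a : F) :
    Q (x + a • p) = Q x + a * a * Q p + a * QuadraticMap.polarBilin Q x p := by
  rw [Qadd50, Qsmul50, map_smul, smul_eq_mul]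

theorem Bself92 {F V : Type*} [Field F] [AddCommGroup V] [Module F V] (Q : QuadraticForm F V) (x : V) :
    QuadraticMap.polarBilin Q x x = 2 * Q x := by
  rw [QuadraticMap.polarBilin_apply_apply, QuadraticMap.polar_self]
  simp

theorem refl_mulVec92 {F : Type*} [Field F] {n : ℕ} (Q : QuadraticForm F (Fin n → F)) (v x : Fin n → F) :
    reflectionMatrix (⇑Q) v *ᵥ x = x + (-((Q v)⁻¹ * QuadraticMap.polarBilin Q v x)) • v := by
  unfold reflectionMatrix
  rw [Matrix.sub_mulVec, Matrix.one_mulVec, Matrix.smul_mulVec, Matrix.vecMulVec_mulVec, op_smul_eq_smul, pv_dot94,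
    smul_smul, neg_smul, sub_eq_add_neg]

theorem refl_iso92 {F : Type*} [Field F] {n : ℕ} (Q : QuadraticForm F (Fin n → F)) (v : Fin n → F) (hv : Q v ≠ 0)
    (x : Fin n → F) : Q (reflectionMatrix (⇑Q) v *ᵥ x) = Q x := by
  rw [refl_mulVec92, Q2_92, Bsymm50 Q x v]
  field_simp
  ring

theorem refl_sq92 {F : Type*} [Field F] {n : ℕ} (Q : QuadraticForm F (Fin n → F)) (v : Fin n → F) (hv : Q v ≠ 0) :
    reflectionMatrix (⇑Q) v * reflectionMatrix (⇑Q) v = 1 := by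
  apply mat_ext94
  intro x
  rw [← Matrix.mulVec_mulVec, refl_mulVec92 Q v x, refl_mulVec92, Matrix.one_mulVec, map_add, map_smul, Bself92,
    smul_eq_mul]
  have h1 : -((Q v)⁻¹ * (QuadraticMap.polarBilin Q v x + -((Q v)⁻¹ * QuadraticMap.polarBilin Q v x) * (2 * Q v))) =
      (Q v)⁻¹ * QuadraticMap.polarBilin Q v x := by
    field_simp
    ring
  rw [h1]
  module

def reflEl92 {F : Type*} [Field F] {n : ℕ} (Q : QuadraticForm F (Fin n → F)) (v : Fin n → F) (hv : Q v ≠ 0) :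
    ↥(Cfsg.isometryGroup F ⇑Q) :=
  ⟨⟨reflectionMatrix (⇑Q) v, reflectionMatrix (⇑Q) v, refl_sq92 Q v hv, refl_sq92 Q v hv⟩,
    fun x _ => refl_iso92 Q v hv x⟩

theorem isoB92 {F : Type*} [Field F] {n : ℕ} (Q : QuadraticForm F (Fin n → F)) (g : ↥(Cfsg.isometryGroup F ⇑Q))
    (x y : Fin n → F) :
    QuadraticMap.polarBilin Q (((g : Matrix.GeneralLinearGroup (Fin n) F) : Matrix (Fin n) (Fin n) F) *ᵥ x)
      (((g : Matrix.GeneralLinearGroup (Fin n) F) : Matrix (Fin n) (Fin n) F) *ᵥ y) =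
      QuadraticMap.polarBilin Q x y := by
  have h := isoB50 Q (Matrix.toLin' ((g : Matrix.GeneralLinearGroup (Fin n) F) : Matrix (Fin n) (Fin n) F))
    (fun v => by rw [Matrix.toLin'_apply]; exact g.2 v v) x y
  rwa [Matrix.toLin'_apply, Matrix.toLin'_apply] at h

theorem refl_fix92 {F : Type*} [Field F] {n : ℕ} (Q : QuadraticForm F (Fin n → F)) (v x : Fin n → F)
    (h : QuadraticMap.polarBilin Q v x = 0) : reflectionMatrix (⇑Q) v *ᵥ x = x := by
  rw [refl_mulVec92, h, mul_zero, neg_zero, zero_smul, add_zero]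

theorem refl_move92 {F : Type*} [Field F] {n : ℕ} (Q : QuadraticForm F (Fin n → F)) (u0 u1 : Fin n → F)
    (hv : Q (u1 - u0) ≠ 0) (hQ01 : Q u0 = Q u1) : reflectionMatrix (⇑Q) (u1 - u0) *ᵥ u0 = u1 := by
  have e2 : Q (u1 - u0) = Q u1 + Q u0 - QuadraticMap.polarBilin Q u0 u1 := by
    have h3 := Q2_92 Q u1 u0 (-1)
    rw [neg_one_smul, ← sub_eq_add_neg] at h3
    rw [h3, Bsymm50 Q u1 u0]
    ring
  have hB : QuadraticMap.polarBilin Q (u1 - u0) u0 = -Q (u1 - u0) := by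
    rw [map_sub, LinearMap.sub_apply, Bself92, Bsymm50 Q u1 u0, e2, hQ01]
    ring
  rw [refl_mulVec92, hB]
  have h1 : -((Q (u1 - u0))⁻¹ * -Q (u1 - u0)) = 1 := by field_simp
  rw [h1, one_smul]
  abel

theorem refl_sum92 {F : Type*} [Field F] {n : ℕ} (Q : QuadraticForm F (Fin n → F)) (u0 u1 : Fin n → F)
    (hv : Q (u0 + u1) ≠ 0) (hQ01 : Q u0 = Q u1) : reflectionMatrix (⇑Q) (u0 + u1) *ᵥ u0 = -u1 := by
  have hB : QuadraticMap.polarBilin Q (u0 + u1) u0 = Q (u0 + u1) := by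
    rw [map_add, LinearMap.add_apply, Bself92, Bsymm50 Q u1 u0, Qadd50, hQ01]
    ring
  rw [refl_mulVec92, hB]
  have h1 : -((Q (u0 + u1))⁻¹ * Q (u0 + u1)) = -1 := by field_simp
  rw [h1, neg_one_smul]
  abel

theorem refl_neg92 {F : Type*} [Field F] {n : ℕ} (Q : QuadraticForm F (Fin n → F)) (v : Fin n → F)
    (hv : Q v ≠ 0) : reflectionMatrix (⇑Q) v *ᵥ (-v) = v := by
  rw [refl_mulVec92, map_neg, Bself92]
  have h1 : -((Q v)⁻¹ * -(2 * Q v)) = 2 := by field_simp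
  rw [h1, two_smul]
  abel

theorem gen_fam92 {F : Type*} [Field F] (h2 : (2 : F) ≠ 0) {n : ℕ} (Q : QuadraticForm F (Fin n → F)) :
    ∀ (k : ℕ) (x y : Fin k → (Fin n → F)), (∀ i, Q (x i) ≠ 0) → (∀ i, Q (y i) = Q (x i)) →
      (∀ i j, i ≠ j → QuadraticMap.polarBilin Q (x i) (x j) = 0) →
      (∀ i j, i ≠ j → QuadraticMap.polarBilin Q (y i) (y j) = 0) →
      ∃ ρ ∈ Subgroup.closure {g : ↥(Cfsg.isometryGroup F ⇑Q) | ∃ v : Fin n → F, Q v ≠ 0 ∧
          ((g : Matrix.GeneralLinearGroup (Fin n) F) : Matrix (Fin n) (Fin n) F) = Cfsg.reflectionMatrix ⇑Q v},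
        ∀ i, ((ρ : Matrix.GeneralLinearGroup (Fin n) F) : Matrix (Fin n) (Fin n) F) *ᵥ x i = y i := by
  intro k
  induction k with
  | zero =>
    intro x y _ _ _ _
    exact ⟨1, Subgroup.one_mem _, fun i => i.elim0⟩
  | succ k ih =>
    intro x y hx hy hox hoy
    obtain ⟨τ, hτ, hτx⟩ := ih (fun i => x i.castSucc) (fun i => y i.castSucc) (fun i => hx _) (fun i => hy _)
      (fun i j hij => hox _ _ (fun h => hij (Fin.castSucc_injective k h)))
      (fun i j hij => hoy _ _ (fun h => hij (Fin.castSucc_injective k h)))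
    have hQu0 : Q (((τ : Matrix.GeneralLinearGroup (Fin n) F) : Matrix (Fin n) (Fin n) F) *ᵥ x (Fin.last k)) =
        Q (y (Fin.last k)) := by
      rw [hy]
      exact τ.2 _ (x (Fin.last k))
    have hQu1 : Q (y (Fin.last k)) ≠ 0 := by
      rw [hy]
      exact hx _
    have hy0 : ∀ i : Fin k, QuadraticMap.polarBilin Q (y i.castSucc)
        (((τ : Matrix.GeneralLinearGroup (Fin n) F) : Matrix (Fin n) (Fin n) F) *ᵥ x (Fin.last k)) = 0 := by
      intro i
      rw [← hτx i, isoB92]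
      exact hox _ _ (Fin.castSucc_lt_last i).ne
    have hy1 : ∀ i : Fin k, QuadraticMap.polarBilin Q (y i.castSucc) (y (Fin.last k)) = 0 :=
      fun i => hoy _ _ (Fin.castSucc_lt_last i).ne
    generalize hu0 : ((τ : Matrix.GeneralLinearGroup (Fin n) F) : Matrix (Fin n) (Fin n) F) *ᵥ x (Fin.last k) = u0
      at hQu0 hy0
    generalize hu1 : y (Fin.last k) = u1 at hQu0 hQu1 hy1
    have hS : ∀ (w : Fin n → F) (hw : Q w ≠ 0), reflEl92 Q w hw ∈
        Subgroup.closure {g : ↥(Cfsg.isometryGroup F ⇑Q) | ∃ v : Fin n → F, Q v ≠ 0 ∧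
          ((g : Matrix.GeneralLinearGroup (Fin n) F) : Matrix (Fin n) (Fin n) F) = Cfsg.reflectionMatrix ⇑Q v} :=
      fun w hw => Subgroup.subset_closure ⟨w, hw, rfl⟩
    have e2 : Q (u1 - u0) = Q u1 + Q u0 - QuadraticMap.polarBilin Q u0 u1 := by
      have h3 := Q2_92 Q u1 u0 (-1)
      rw [neg_one_smul, ← sub_eq_add_neg] at h3
      rw [h3, Bsymm50 Q u1 u0]
      ring
    have e1 := Qadd50 Q u0 u1
    by_cases hp : Q (u1 - u0) = 0
    · have hB : QuadraticMap.polarBilin Q u0 u1 = 2 * Q u1 := by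
        rw [e2, hQu0] at hp
        linear_combination -hp
      have hs : Q (u0 + u1) ≠ 0 := by
        rw [e1, hB, hQu0]
        intro h0
        have h4 : (2 : F) * 2 * Q u1 = 0 := by linear_combination h0
        rcases mul_eq_zero.mp h4 with h5 | h5
        · exact h2 ((mul_self_eq_zero).mp h5)
        · exact hQu1 h5
      refine ⟨reflEl92 Q u1 hQu1 * reflEl92 Q (u0 + u1) hs * τ,
        Subgroup.mul_mem _ (Subgroup.mul_mem _ (hS _ _) (hS _ _)) hτ, fun i => ?_⟩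
      refine Fin.lastCases ?_ (fun j => ?_) i
      · show (reflectionMatrix (⇑Q) u1 * reflectionMatrix (⇑Q) (u0 + u1) *
          ((τ : Matrix.GeneralLinearGroup (Fin n) F) : Matrix (Fin n) (Fin n) F)) *ᵥ x (Fin.last k) = y (Fin.last k)
        rw [← Matrix.mulVec_mulVec, ← Matrix.mulVec_mulVec, hu0, refl_sum92 Q u0 u1 hs hQu0, refl_neg92 Q u1 hQu1, hu1]
      · show (reflectionMatrix (⇑Q) u1 * reflectionMatrix (⇑Q) (u0 + u1) *
          ((τ : Matrix.GeneralLinearGroup (Fin n) F) : Matrix (Fin n) (Fin n) F)) *ᵥ x j.castSucc = y j.castSucc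
        rw [← Matrix.mulVec_mulVec, ← Matrix.mulVec_mulVec, hτx j,
          refl_fix92 Q (u0 + u1) _ (by rw [map_add, LinearMap.add_apply, Bsymm50 Q u0, hy0 j, Bsymm50 Q u1, hy1 j, add_zero]),
          refl_fix92 Q u1 _ (by rw [Bsymm50 Q u1, hy1 j])]
    · refine ⟨reflEl92 Q (u1 - u0) hp * τ, Subgroup.mul_mem _ (hS _ _) hτ, fun i => ?_⟩
      refine Fin.lastCases ?_ (fun j => ?_) i
      · show (reflectionMatrix (⇑Q) (u1 - u0) *
          ((τ : Matrix.GeneralLinearGroup (Fin n) F) : Matrix (Fin n) (Fin n) F)) *ᵥ x (Fin.last k) = y (Fin.last k)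
        rw [← Matrix.mulVec_mulVec, hu0, refl_move92 Q u0 u1 hp hQu0, hu1]
      · show (reflectionMatrix (⇑Q) (u1 - u0) *
          ((τ : Matrix.GeneralLinearGroup (Fin n) F) : Matrix (Fin n) (Fin n) F)) *ᵥ x j.castSucc = y j.castSucc
        rw [← Matrix.mulVec_mulVec, hτx j,
          refl_fix92 Q (u1 - u0) _ (by rw [map_sub, LinearMap.sub_apply, Bsymm50 Q u1, hy1 j, Bsymm50 Q u0, hy0 j, sub_zero])]

theorem gen_odd92 {F : Type*} [Field F] (h2 : (2 : F) ≠ 0) {n : ℕ} (Q : QuadraticForm F (Fin n → F))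
    (hQ : (QuadraticMap.polarBilin Q).Nondegenerate) :
    Subgroup.closure {g : ↥(Cfsg.isometryGroup F ⇑Q) | ∃ v : Fin n → F, Q v ≠ 0 ∧
      ((g : Matrix.GeneralLinearGroup (Fin n) F) : Matrix (Fin n) (Fin n) F) = Cfsg.reflectionMatrix ⇑Q v} = ⊤ := by
  rw [eq_top_iff]
  intro g _
  haveI : Invertible (2 : F) := invertibleOfNonzero h2
  obtain ⟨b, hb⟩ := LinearMap.BilinForm.exists_orthogonal_basis (B := QuadraticMap.polarBilin Q)
    ⟨fun x y => Bsymm50 Q x y⟩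
  have hb' := LinearMap.isOrthoᵢ_def.mp hb
  have hbQ : ∀ i, Q (b i) ≠ 0 := by
    intro i h0
    have h1 := hb.not_isOrtho_basis_self_of_separatingLeft hQ.1 i
    apply h1
    show QuadraticMap.polarBilin Q (b i) (b i) = 0
    rw [Bself92, h0, mul_zero]
  obtain ⟨ρ, hρ, hρx⟩ := gen_fam92 h2 Q _ (fun i => b i)
    (fun i => ((g : Matrix.GeneralLinearGroup (Fin n) F) : Matrix (Fin n) (Fin n) F) *ᵥ b i) hbQ
    (fun i => g.2 _ (b i)) hb' (fun i j hij => by rw [isoB92]; exact hb' i j hij)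
  have hρg : ρ = g := by
    apply Subtype.ext
    apply Units.ext
    apply Matrix.toLin'.injective
    apply b.ext
    intro i
    rw [Matrix.toLin'_apply, Matrix.toLin'_apply]
    exact hρx i
  rw [← hρg]
  exact hρ

theorem refl_det92 {F : Type*} [Field F] {n : ℕ} (Q : QuadraticForm F (Fin n → F)) (v : Fin n → F) (hv : Q v ≠ 0) :
    (reflectionMatrix (⇑Q) v).det = -1 := by
  have h1 := Matrix.det_one_add_replicateCol_mul_replicateRow (ι := Fin 1) ((-(Q v)⁻¹) • v) (polarVec (⇑Q) v)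
  rw [← Matrix.vecMulVec_eq (Fin 1), Matrix.smul_vecMulVec, neg_smul, ← sub_eq_add_neg] at h1
  unfold reflectionMatrix
  rw [h1, dotProduct_smul, pv_dot94, Bself92, smul_eq_mul]
  field_simp
  ring

def Sset92 {F : Type*} [Field F] {n : ℕ} (Q : QuadraticForm F (Fin n → F)) : Set ↥(Cfsg.isometryGroup F ⇑Q) :=
  {g : ↥(Cfsg.isometryGroup F ⇑Q) | ∃ v : Fin n → F, Q v ≠ 0 ∧
      ((g : Matrix.GeneralLinearGroup (Fin n) F) : Matrix (Fin n) (Fin n) F) = Cfsg.reflectionMatrix ⇑Q v}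

def Tset92 {F : Type*} [Field F] {n : ℕ} (Q : QuadraticForm F (Fin n → F)) : Set ↥(Cfsg.isometryGroup F ⇑Q) :=
  {g : ↥(Cfsg.isometryGroup F ⇑Q) | ∃ u v : Fin n → F, Q u ≠ 0 ∧ Q v ≠ 0 ∧ ((g : Matrix.GeneralLinearGroup (Fin n) F) : Matrix (Fin n) (Fin n) F) = Cfsg.reflectionMatrix ⇑Q u * Cfsg.reflectionMatrix ⇑Q v}

theorem sdet92 {F : Type*} [Field F] {n : ℕ} (Q : QuadraticForm F (Fin n → F)) (g : ↥(Cfsg.isometryGroup F ⇑Q)) :
    g ∈ Cfsg.specialIsometryGroup F ⇑Q ↔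
      (((g : Matrix.GeneralLinearGroup (Fin n) F) : Matrix (Fin n) (Fin n) F)).det = 1 := by
  unfold Cfsg.specialIsometryGroup
  rw [MonoidHom.mem_ker]
  constructor
  · intro h
    have h1 := congrArg Units.val h
    exact h1
  · intro h
    apply Units.ext
    exact h

theorem T_le92 {F : Type*} [Field F] {n : ℕ} (Q : QuadraticForm F (Fin n → F)) :
    Subgroup.closure (Tset92 Q) ≤ Cfsg.specialIsometryGroup F ⇑Q := by
  rw [Subgroup.closure_le]
  rintro g ⟨u, v, hu, hv, hg⟩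
  show g ∈ Cfsg.specialIsometryGroup F ⇑Q
  rw [sdet92, hg, Matrix.det_mul, refl_det92 Q u hu, refl_det92 Q v hv]
  norm_num

theorem claim92 {F : Type*} [Field F] {n : ℕ} (Q : QuadraticForm F (Fin n → F)) (v₀ : Fin n → F) (hv₀ : Q v₀ ≠ 0)
    (x : ↥(Cfsg.isometryGroup F ⇑Q)) (hx : x ∈ Subgroup.closure (Sset92 Q)) :
    x ∈ Subgroup.closure (Tset92 Q) ∨ reflEl92 Q v₀ hv₀ * x ∈ Subgroup.closure (Tset92 Q) := by
  have hr : reflEl92 Q v₀ hv₀ * reflEl92 Q v₀ hv₀ = 1 := by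
    apply Subtype.ext
    apply Units.ext
    exact refl_sq92 Q v₀ hv₀
  have hinv : (reflEl92 Q v₀ hv₀)⁻¹ = reflEl92 Q v₀ hv₀ := inv_eq_of_mul_eq_one_right hr
  have hc : ∀ p ∈ Subgroup.closure (Tset92 Q),
      reflEl92 Q v₀ hv₀ * p * (reflEl92 Q v₀ hv₀)⁻¹ ∈ Subgroup.closure (Tset92 Q) := by
    have h1 : Subgroup.closure (Tset92 Q) ≤
        (Subgroup.closure (Tset92 Q)).comap (MulAut.conj (reflEl92 Q v₀ hv₀)).toMonoidHom := by
      rw [Subgroup.closure_le]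
      rintro t ⟨u, v, hu, hv, ht⟩
      show reflEl92 Q v₀ hv₀ * t * (reflEl92 Q v₀ hv₀)⁻¹ ∈ Subgroup.closure (Tset92 Q)
      have e2 : t = reflEl92 Q u hu * reflEl92 Q v hv := by
        apply Subtype.ext
        apply Units.ext
        exact ht
      have e1 : reflEl92 Q v₀ hv₀ * t * (reflEl92 Q v₀ hv₀)⁻¹ =
          (reflEl92 Q v₀ hv₀ * reflEl92 Q u hu) * (reflEl92 Q v hv * reflEl92 Q v₀ hv₀) := by
        rw [e2, hinv]
        group
      rw [e1]
      exact Subgroup.mul_mem _ (Subgroup.subset_closure ⟨v₀, u, hv₀, hu, rfl⟩)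
        (Subgroup.subset_closure ⟨v, v₀, hv, hv₀, rfl⟩)
    exact fun p hp => h1 hp
  induction hx using Subgroup.closure_induction with
  | mem x hx =>
    obtain ⟨v, hv, hxv⟩ := hx
    right
    apply Subgroup.subset_closure
    refine ⟨v₀, v, hv₀, hv, ?_⟩
    show reflectionMatrix (⇑Q) v₀ * ((x : Matrix.GeneralLinearGroup (Fin n) F) : Matrix (Fin n) (Fin n) F) = _
    rw [hxv]
  | one => exact Or.inl (Subgroup.one_mem _)
  | mul x y _ _ hx hy =>
    rcases hx with hx | hx <;> rcases hy with hy | hy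
    · exact Or.inl (Subgroup.mul_mem _ hx hy)
    · right
      have e : reflEl92 Q v₀ hv₀ * (x * y) =
          (reflEl92 Q v₀ hv₀ * x * (reflEl92 Q v₀ hv₀)⁻¹) * (reflEl92 Q v₀ hv₀ * y) := by group
      rw [e]
      exact Subgroup.mul_mem _ (hc x hx) hy
    · right
      rw [← mul_assoc]
      exact Subgroup.mul_mem _ hx hy
    · left
      have e : x * y = (reflEl92 Q v₀ hv₀ * (reflEl92 Q v₀ hv₀ * x) * (reflEl92 Q v₀ hv₀)⁻¹) *
          (reflEl92 Q v₀ hv₀ * y) := by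
        calc x * y = (reflEl92 Q v₀ hv₀ * reflEl92 Q v₀ hv₀) * (x * y) := by rw [hr, one_mul]
          _ = (reflEl92 Q v₀ hv₀ * (reflEl92 Q v₀ hv₀ * x) * (reflEl92 Q v₀ hv₀)⁻¹) *
              (reflEl92 Q v₀ hv₀ * y) := by group
      rw [e]
      exact Subgroup.mul_mem _ (hc _ hx) hy
  | inv x _ hx =>
    rcases hx with hx | hx
    · exact Or.inl (Subgroup.inv_mem _ hx)
    · right
      have e : reflEl92 Q v₀ hv₀ * x⁻¹ = reflEl92 Q v₀ hv₀ * (reflEl92 Q v₀ hv₀ * x)⁻¹ * (reflEl92 Q v₀ hv₀)⁻¹ *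
          (reflEl92 Q v₀ hv₀ * reflEl92 Q v₀ hv₀) := by group
      rw [e, hr, mul_one]
      exact hc _ (Subgroup.inv_mem _ hx)

/-- For q odd and Q with non-degenerate polar form on F^n, the determinant-one isometries form the subgroup generated by all products r_u r_v of two reflections (Q(u), Q(v) ≠ 0). -/
theorem result {F : Type*} [Field F] [Fintype F] (h2 : (2 : F) ≠ 0) {n : ℕ} (Q : QuadraticForm F (Fin n → F)) (hQ : (QuadraticMap.polarBilin Q).Nondegenerate) : Cfsg.specialIsometryGroup F ⇑Q = Subgroup.closure {g : ↥(Cfsg.isometryGroup F ⇑Q) | ∃ u v : Fin n → F, Q u ≠ 0 ∧ Q v ≠ 0 ∧ ((g : Matrix.GeneralLinearGroup (Fin n) F) : Matrix (Fin n) (Fin n) F) = Cfsg.reflectionMatrix ⇑Q u * Cfsg.reflectionMatrix ⇑Q v} := by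
  classical
  show Cfsg.specialIsometryGroup F ⇑Q = Subgroup.closure (Tset92 Q)
  apply le_antisymm _ (T_le92 Q)
  intro g hg
  have hgen : g ∈ Subgroup.closure (Sset92 Q) := by
    have h1 := gen_odd92 h2 Q hQ
    show g ∈ Subgroup.closure {g : ↥(Cfsg.isometryGroup F ⇑Q) | ∃ v : Fin n → F, Q v ≠ 0 ∧
      ((g : Matrix.GeneralLinearGroup (Fin n) F) : Matrix (Fin n) (Fin n) F) = Cfsg.reflectionMatrix ⇑Q v}
    rw [h1]
    exact Subgroup.mem_top _
  by_cases hex : ∃ v₀ : Fin n → F, Q v₀ ≠ 0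
  · obtain ⟨v₀, hv₀⟩ := hex
    rcases claim92 Q v₀ hv₀ g hgen with h | h
    · exact h
    · exfalso
      have h1 := (sdet92 Q _).mp (T_le92 Q h)
      have h3 : (((reflEl92 Q v₀ hv₀ * g : ↥(Cfsg.isometryGroup F ⇑Q)) : Matrix.GeneralLinearGroup (Fin n) F) :
          Matrix (Fin n) (Fin n) F) = reflectionMatrix (⇑Q) v₀ *
            ((g : Matrix.GeneralLinearGroup (Fin n) F) : Matrix (Fin n) (Fin n) F) := rfl
      rw [h3, Matrix.det_mul, refl_det92 Q v₀ hv₀, (sdet92 Q g).mp hg] at h1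
      apply h2
      linear_combination -h1
  · have hS : Sset92 Q = ∅ := by
      ext x
      simp only [Set.mem_empty_iff_false, iff_false]
      rintro ⟨v, hv, -⟩
      exact hex ⟨v, hv⟩
    rw [hS, Subgroup.closure_empty, Subgroup.mem_bot] at hgen
    rw [hgen]
    exact Subgroup.one_mem _

end Cfsg.Agent.S0792
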