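import Cfsg.Statements.S0786
import Mathlib
import Cfsg.Statements.S0786
import Cfsg.Agent.S0792
import Cfsg.Agent.S0749

set_option autoImplicit false
open Cfsg
open scoped commutatorElement

namespace Cfsg.Agent.S0786

open Cfsg.Agent.S0750 Cfsg.Agent.S0794 Cfsg.Agent.S0792 Cfsg.Agent.S0749 Matrix

def rL86 {F : Type*} [Field F] {n : ℕ} (Q : QuadraticForm F (Fin n → F)) (v : Fin n → F) :
    (Fin n → F) →ₗ[F] (Fin n → F) :=
  LinearMap.id + (-(Q v)⁻¹) • (QuadraticMap.polarBilin Q v).smulRight v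

theorem rL_apply86 {F : Type*} [Field F] {n : ℕ} (Q : QuadraticForm F (Fin n → F)) (v x : Fin n → F) :
    rL86 Q v x = x + (-((Q v)⁻¹ * QuadraticMap.polarBilin Q v x)) • v := by
  unfold rL86
  simp only [LinearMap.add_apply, LinearMap.smul_apply, LinearMap.id_apply, LinearMap.smulRight_apply, smul_smul,
    neg_mul]

def eL86 {F : Type*} [Field F] {n : ℕ} (Q : QuadraticForm F (Fin n → F)) (p z : Fin n → F) :
    (Fin n → F) →ₗ[F] (Fin n → F) :=
  LinearMap.id + (QuadraticMap.polarBilin Q z).smulRight p +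
    (-(Q z)) • (QuadraticMap.polarBilin Q p).smulRight p + (-1 : F) • (QuadraticMap.polarBilin Q p).smulRight z

theorem eL_apply86 {F : Type*} [Field F] {n : ℕ} (Q : QuadraticForm F (Fin n → F)) (p z x : Fin n → F) :
    eL86 Q p z x = x + (QuadraticMap.polarBilin Q z x + (-(Q z)) * QuadraticMap.polarBilin Q p x) • p +
      ((-1 : F) * QuadraticMap.polarBilin Q p x) • z := by
  unfold eL86
  simp only [LinearMap.add_apply, LinearMap.smul_apply, LinearMap.id_apply, LinearMap.smulRight_apply, smul_smul]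
  rw [add_assoc x, ← add_smul]

def hL86 {F : Type*} [Field F] {n : ℕ} (Q : QuadraticForm F (Fin n → F)) (p q : Fin n → F) (lam : F) :
    (Fin n → F) →ₗ[F] (Fin n → F) :=
  LinearMap.id + (lam - 1) • (QuadraticMap.polarBilin Q q).smulRight p +
    (lam⁻¹ - 1) • (QuadraticMap.polarBilin Q p).smulRight q

theorem hL_apply86 {F : Type*} [Field F] {n : ℕ} (Q : QuadraticForm F (Fin n → F)) (p q x : Fin n → F) (lam : F) :
    hL86 Q p q lam x = x + ((lam - 1) * QuadraticMap.polarBilin Q q x) • p +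
      ((lam⁻¹ - 1) * QuadraticMap.polarBilin Q p x) • q := by
  unfold hL86
  simp only [LinearMap.add_apply, LinearMap.smul_apply, LinearMap.id_apply, LinearMap.smulRight_apply, smul_smul]

def InR86 {F : Type*} [Field F] {n : ℕ} (Q : QuadraticForm F (Fin n → F))
    (f : (Fin n → F) →ₗ[F] (Fin n → F)) : Prop :=
  ∃ ρ ∈ Subgroup.closure (Sset92 Q),
    ∀ x, ((ρ : Matrix.GeneralLinearGroup (Fin n) F) : Matrix (Fin n) (Fin n) F) *ᵥ x = f x

theorem inR_id86 {F : Type*} [Field F] {n : ℕ} (Q : QuadraticForm F (Fin n → F)) : InR86 Q LinearMap.id :=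
  ⟨1, Subgroup.one_mem _, fun x => by
    show (1 : Matrix (Fin n) (Fin n) F) *ᵥ x = x
    rw [Matrix.one_mulVec]⟩

theorem inR_comp86 {F : Type*} [Field F] {n : ℕ} (Q : QuadraticForm F (Fin n → F))
    (f g : (Fin n → F) →ₗ[F] (Fin n → F)) (hf : InR86 Q f) (hg : InR86 Q g) : InR86 Q (f ∘ₗ g) := by
  obtain ⟨a, ha, hax⟩ := hf
  obtain ⟨b, hb, hbx⟩ := hg
  refine ⟨a * b, Subgroup.mul_mem _ ha hb, fun x => ?_⟩
  show (((a : Matrix.GeneralLinearGroup (Fin n) F) : Matrix (Fin n) (Fin n) F) *
    ((b : Matrix.GeneralLinearGroup (Fin n) F) : Matrix (Fin n) (Fin n) F)) *ᵥ x = f (g x)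
  rw [← Matrix.mulVec_mulVec, hbx, hax]

theorem inR_refl86 {F : Type*} [Field F] {n : ℕ} (Q : QuadraticForm F (Fin n → F)) (v : Fin n → F) (hv : Q v ≠ 0) :
    InR86 Q (rL86 Q v) :=
  ⟨reflEl92 Q v hv, Subgroup.subset_closure ⟨v, hv, rfl⟩, fun x => by
    show reflectionMatrix (⇑Q) v *ᵥ x = _
    rw [refl_mulVec92, rL_apply86]⟩

theorem inR_iso86 {F : Type*} [Field F] {n : ℕ} (Q : QuadraticForm F (Fin n → F))
    (f : (Fin n → F) →ₗ[F] (Fin n → F)) (hf : InR86 Q f) (x : Fin n → F) : Q (f x) = Q x := by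
  obtain ⟨ρ, -, hρ⟩ := hf
  rw [← hρ]
  exact ρ.2 x x

theorem eich_comp86 {F : Type*} [Field F] {n : ℕ} (Q : QuadraticForm F (Fin n → F)) (p z1 z2 : Fin n → F)
    (hp : Q p = 0) (h1 : QuadraticMap.polarBilin Q p z1 = 0) (h2 : QuadraticMap.polarBilin Q p z2 = 0) :
    eL86 Q p z1 ∘ₗ eL86 Q p z2 = eL86 Q p (z1 + z2) := by
  have hpp : QuadraticMap.polarBilin Q p p = 0 := by rw [Bself92, hp, mul_zero]
  apply LinearMap.ext
  intro x
  rw [LinearMap.comp_apply, eL_apply86 Q p z2 x, eL_apply86, eL_apply86, Qadd50 Q z1 z2]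
  simp only [map_add, map_smul, LinearMap.add_apply, LinearMap.smul_apply, smul_eq_mul, hpp, h1, h2,
    Bsymm50 Q z1 p, Bsymm50 Q z2 p, Bsymm50 Q z1 z2, mul_zero, add_zero]
  funext i
  simp only [Pi.add_apply, Pi.smul_apply, smul_eq_mul]
  ring

theorem eich_refl86 {F : Type*} [Field F] {n : ℕ} (Q : QuadraticForm F (Fin n → F)) (p w : Fin n → F)
    (hp : Q p = 0) (hpw : QuadraticMap.polarBilin Q p w = 0) (hw : Q w ≠ 0) :
    eL86 Q p w = rL86 Q ((-(Q w)⁻¹) • w) ∘ₗ rL86 Q ((-(Q w)⁻¹) • w + p) := by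
  have hpp : QuadraticMap.polarBilin Q p p = 0 := by rw [Bself92, hp, mul_zero]
  have hQz : Q ((-(Q w)⁻¹) • w) = (Q w)⁻¹ := by
    rw [Qsmul50]
    field_simp
  have hQzp : Q ((-(Q w)⁻¹) • w + p) = (Q w)⁻¹ := by
    rw [Qadd50, hQz, hp, map_smul, LinearMap.smul_apply, Bsymm50 Q w p, hpw]
    simp
  apply LinearMap.ext
  intro x
  rw [LinearMap.comp_apply, eL_apply86, rL_apply86 Q _ x, rL_apply86, hQz, hQzp, inv_inv]
  simp only [map_add, map_smul, map_neg, LinearMap.add_apply, LinearMap.smul_apply, LinearMap.neg_apply, smul_eq_mul,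
    hpp, hpw, Bsymm50 Q w p, Bself92 Q w, mul_zero, add_zero]
  funext i
  simp only [Pi.add_apply, Pi.smul_apply, smul_eq_mul, Pi.neg_apply]
  field_simp
  ring

theorem rot_refl86 {F : Type*} [Field F] {n : ℕ} (Q : QuadraticForm F (Fin n → F)) (p q : Fin n → F) (lam : F)
    (hp : Q p = 0) (hq : Q q = 0) (hpq : QuadraticMap.polarBilin Q p q = 1) (hl : lam ≠ 0) :
    hL86 Q p q lam = rL86 Q (p + q) ∘ₗ rL86 Q (p + lam • q) := by
  have hpp : QuadraticMap.polarBilin Q p p = 0 := by rw [Bself92, hp, mul_zero]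
  have hqq : QuadraticMap.polarBilin Q q q = 0 := by rw [Bself92, hq, mul_zero]
  have hqp : QuadraticMap.polarBilin Q q p = 1 := by rw [Bsymm50, hpq]
  have hQ1 : Q (p + q) = 1 := by rw [Qadd50, hp, hq, hpq]; ring
  have hQ2 : Q (p + lam • q) = lam := by rw [Q2_92, hp, hq, hpq]; ring
  apply LinearMap.ext
  intro x
  rw [LinearMap.comp_apply, hL_apply86, rL_apply86 Q _ x, rL_apply86, hQ1, hQ2]
  simp only [map_add, map_smul, map_neg, LinearMap.add_apply, LinearMap.smul_apply, LinearMap.neg_apply, smul_eq_mul,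
    hpp, hqq, hpq, hqp, mul_zero, add_zero, zero_add, mul_one]
  funext i
  simp only [Pi.add_apply, Pi.smul_apply, smul_eq_mul, Pi.neg_apply]
  field_simp
  ring

theorem exists_split86 {F : Type*} [Field F] {n : ℕ} (Q : QuadraticForm F (Fin n → F))
    (hQ : (QuadraticMap.polarBilin Q).Nondegenerate) (hF : (∃ s : F, s ≠ 0 ∧ s ≠ 1) ∨ n ≠ 4)
    (p z : Fin n → F) (hp0 : p ≠ 0) (hp : Q p = 0) (hz : Q z = 0) (hpz : QuadraticMap.polarBilin Q p z = 0)
    (hzp : z ∉ Submodule.span F {p}) :
    ∃ w, QuadraticMap.polarBilin Q p w = 0 ∧ Q w ≠ 0 ∧ Q (z - w) ≠ 0 := by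
  have hQsub : ∀ w, Q (z - w) = Q w - QuadraticMap.polarBilin Q z w := by
    intro w
    have h3 := Q2_92 Q z w (-1)
    rw [neg_one_smul, ← sub_eq_add_neg] at h3
    rw [h3, hz]
    ring
  have hpp : QuadraticMap.polarBilin Q p p = 0 := by rw [Bself92, hp, mul_zero]
  have hzz : QuadraticMap.polarBilin Q z z = 0 := by rw [Bself92, hz, mul_zero]
  have hzp' : QuadraticMap.polarBilin Q z p = 0 := by rw [Bsymm50, hpz]
  rcases hF with ⟨s, hs0, hs1⟩ | hn
  · obtain ⟨y, hyS, hzy⟩ := dual_vec50 Q hQ (Submodule.span F {p}) z hzp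
    have hpy : QuadraticMap.polarBilin Q p y = 0 := hyS p (Submodule.mem_span_singleton_self p)
    refine ⟨y + (s - Q y) • z, ?_, ?_, ?_⟩
    · rw [map_add, map_smul, hpy, hpz]
      simp
    · rw [Q2_92, hz, Bsymm50 Q y z, hzy]
      intro h
      apply hs0
      linear_combination h
    · rw [hQsub, Q2_92, hz, Bsymm50 Q y z, hzy, map_add, map_smul, hzy, hzz, smul_zero, add_zero]
      intro h
      apply hs1
      linear_combination h
  · by_contra hcon
    push Not at hcon
    have hrefl : (QuadraticMap.polarBilin Q).IsRefl := fun x y h => by rw [Bsymm50]; exact h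
    have hU0 : ∀ w ∈ LinearMap.BilinForm.orthogonal (QuadraticMap.polarBilin Q) (Submodule.span F (Set.range ![p, z])), Q w = 0 := by
      intro w hw
      rw [orth_span49] at hw
      by_contra hw0
      have h1 := hcon w (hw 0) hw0
      rw [hQsub] at h1
      have h2 : QuadraticMap.polarBilin Q z w = 0 := hw 1
      rw [h2, sub_zero] at h1
      exact hw0 h1
    have hUU : LinearMap.BilinForm.orthogonal (QuadraticMap.polarBilin Q) (Submodule.span F (Set.range ![p, z])) ≤
        Submodule.span F (Set.range ![p, z]) := by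
      have h1 : LinearMap.BilinForm.orthogonal (QuadraticMap.polarBilin Q) (Submodule.span F (Set.range ![p, z])) ≤
          LinearMap.BilinForm.orthogonal (QuadraticMap.polarBilin Q)
            (LinearMap.BilinForm.orthogonal (QuadraticMap.polarBilin Q) (Submodule.span F (Set.range ![p, z]))) := by
        intro w hw
        rw [LinearMap.BilinForm.mem_orthogonal_iff]
        intro w' hw'
        show QuadraticMap.polarBilin Q w' w = 0
        have h3 := Qadd50 Q w' w
        rw [hU0 _ (Submodule.add_mem _ hw' hw), hU0 w' hw', hU0 w hw] at h3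
        linear_combination -h3
      rw [LinearMap.BilinForm.orthogonal_orthogonal hQ hrefl] at h1
      exact h1
    have hSU : Submodule.span F (Set.range ![p, z]) ≤
        LinearMap.BilinForm.orthogonal (QuadraticMap.polarBilin Q) (Submodule.span F (Set.range ![p, z])) := by
      rw [Submodule.span_le]
      rintro _ ⟨j, rfl⟩
      show ![p, z] j ∈ LinearMap.BilinForm.orthogonal (QuadraticMap.polarBilin Q) (Submodule.span F (Set.range ![p, z]))
      rw [orth_span49]
      intro j'
      fin_cases j <;> fin_cases j'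
      · exact hpp
      · exact hzp'
      · exact hpz
      · exact hzz
    have d1 := Submodule.finrank_mono hUU
    have d2 := Submodule.finrank_mono hSU
    have d3 := LinearMap.BilinForm.finrank_orthogonal hQ (Submodule.span F (Set.range ![p, z]))
    rw [Module.finrank_fin_fun] at d3
    have d4 : Module.finrank F (Submodule.span F (Set.range ![p, z])) ≤ 2 := by
      have h5 := finrank_range_le_card (R := F) ![p, z]
      rw [Fintype.card_fin] at h5
      exact h5
    have d5 : 2 ≤ Module.finrank F (Submodule.span F (Set.range ![p, z])) := by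
      have hlt : Submodule.span F {p} < Submodule.span F (Set.range ![p, z]) := by
        rw [SetLike.lt_iff_le_and_exists]
        refine ⟨?_, z, Submodule.subset_span ⟨1, rfl⟩, hzp⟩
        rw [Submodule.span_le]
        rintro _ rfl
        exact Submodule.subset_span ⟨0, rfl⟩
      have h6 := Submodule.finrank_lt_finrank_of_lt hlt
      rw [finrank_span_singleton hp0] at h6
      omega
    omega

theorem eich_id86 {F : Type*} [Field F] {n : ℕ} (Q : QuadraticForm F (Fin n → F)) (p : Fin n → F) (c : F)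
    (hp : Q p = 0) : eL86 Q p (c • p) = LinearMap.id := by
  apply LinearMap.ext
  intro x
  rw [eL_apply86, Qsmul50, hp, LinearMap.id_apply]
  simp only [map_smul, LinearMap.smul_apply, smul_eq_mul]
  funext i
  simp only [Pi.add_apply, Pi.smul_apply, smul_eq_mul]
  ring

theorem inR_eich86 {F : Type*} [Field F] {n : ℕ} (Q : QuadraticForm F (Fin n → F))
    (hQ : (QuadraticMap.polarBilin Q).Nondegenerate) (hF : (∃ s : F, s ≠ 0 ∧ s ≠ 1) ∨ n ≠ 4)
    (p z : Fin n → F) (hp0 : p ≠ 0) (hp : Q p = 0) (hpz : QuadraticMap.polarBilin Q p z = 0) :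
    InR86 Q (eL86 Q p z) := by
  have hpp : QuadraticMap.polarBilin Q p p = 0 := by rw [Bself92, hp, mul_zero]
  have key : ∀ w, QuadraticMap.polarBilin Q p w = 0 → Q w ≠ 0 → InR86 Q (eL86 Q p w) := by
    intro w hpw hw
    have hQz : Q ((-(Q w)⁻¹) • w) = (Q w)⁻¹ := by
      rw [Qsmul50]
      field_simp
    have hQzp : Q ((-(Q w)⁻¹) • w + p) = (Q w)⁻¹ := by
      rw [Qadd50, hQz, hp, map_smul, LinearMap.smul_apply, Bsymm50 Q w p, hpw]
      simp
    rw [eich_refl86 Q p w hp hpw hw]
    apply inR_comp86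
    · apply inR_refl86
      rw [hQz]
      exact inv_ne_zero hw
    · apply inR_refl86
      rw [hQzp]
      exact inv_ne_zero hw
  by_cases hz : Q z = 0
  · by_cases hzp : z ∈ Submodule.span F {p}
    · obtain ⟨c, rfl⟩ := Submodule.mem_span_singleton.mp hzp
      rw [eich_id86 Q p c hp]
      exact inR_id86 Q
    · obtain ⟨w, hpw, hw, hzw⟩ := exists_split86 Q hQ hF p z hp0 hp hz hpz hzp
      have h1 : eL86 Q p z = eL86 Q p w ∘ₗ eL86 Q p (z - w) := by
        rw [eich_comp86 Q p w (z - w) hp hpw (by rw [map_sub, hpz, hpw, sub_zero])]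
        congr 1
        abel
      rw [h1]
      exact inR_comp86 Q _ _ (key w hpw hw) (key (z - w) (by rw [map_sub, hpz, hpw, sub_zero]) hzw)
  · exact key z hpz hz

theorem stepR86 {F : Type*} [Field F] {n : ℕ} (Q : QuadraticForm F (Fin n → F))
    (hQ : (QuadraticMap.polarBilin Q).Nondegenerate) (hF : (∃ s : F, s ≠ 0 ∧ s ≠ 1) ∨ n ≠ 4)
    (H : Submodule F (Fin n → F)) (u0 p : Fin n → F)
    (h0 : u0 ∉ H) (h1 : u0 + p ∉ H)
    (hp : ∀ h ∈ H, QuadraticMap.polarBilin Q h p = 0) (hQ01 : Q (u0 + p) = Q u0) :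
    ∃ f : (Fin n → F) →ₗ[F] (Fin n → F), InR86 Q f ∧ (∀ h ∈ H, f h = h) ∧ f u0 = u0 + p := by
  by_cases hp0 : p = 0
  · refine ⟨LinearMap.id, inR_id86 Q, fun h _ => rfl, ?_⟩
    rw [hp0, add_zero, LinearMap.id_apply]
  have hrel : Q p + QuadraticMap.polarBilin Q u0 p = 0 := by
    have h2 := Qadd50 Q u0 p
    rw [hQ01] at h2
    linear_combination -h2
  by_cases hQp : Q p = 0
  · have hBu0p : QuadraticMap.polarBilin Q u0 p = 0 := by rw [hQp, zero_add] at hrel; exact hrel
    have hBpp : QuadraticMap.polarBilin Q p p = 0 := by rw [Bself92, hQp, mul_zero]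
    by_cases hmem : u0 ∈ H ⊔ Submodule.span F {p}
    · obtain ⟨h0', hh0', y, hy, hsum⟩ := Submodule.mem_sup.mp hmem
      obtain ⟨c, rfl⟩ := Submodule.mem_span_singleton.mp hy
      have hc0 : c ≠ 0 := by
        intro hc
        apply h0
        rw [← hsum, hc, zero_smul, add_zero]
        exact hh0'
      have hc1 : c + 1 ≠ 0 := by
        intro hc
        apply h1
        have h3 : u0 + p = h0' + (c + 1) • p := by rw [← hsum, add_smul, one_smul]; abel
        rw [h3, hc, zero_smul, add_zero]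
        exact hh0'
      have hpH : p ∉ H := by
        intro hpH
        apply h0
        rw [← hsum]
        exact H.add_mem hh0' (H.smul_mem c hpH)
      obtain ⟨q0, hq0H, hq0p⟩ := dual_vec50 Q hQ H p hpH
      have hqH : ∀ h ∈ H, QuadraticMap.polarBilin Q h (q0 + (-(Q q0)) • p) = 0 := by
        intro h hh
        rw [map_add, map_smul, hq0H h hh, hp h hh]
        simp
      have hpq : QuadraticMap.polarBilin Q p (q0 + (-(Q q0)) • p) = 1 := by
        rw [map_add, map_smul, hq0p, hBpp]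
        simp
      have hQq : Q (q0 + (-(Q q0)) • p) = 0 := by
        rw [Qadd50, Qsmul50, hQp, map_smul, Bsymm50 Q q0 p, hq0p]
        simp
      generalize q0 + (-(Q q0)) • p = q at hqH hpq hQq
      have hlam : (c + 1) * c⁻¹ ≠ 0 := mul_ne_zero hc1 (inv_ne_zero hc0)
      have hlam1 : ((c + 1) * c⁻¹ - 1) * c = 1 := by field_simp; ring
      generalize (c + 1) * c⁻¹ = lam at hlam hlam1
      refine ⟨hL86 Q p q lam, ?_, ?_, ?_⟩
      · rw [rot_refl86 Q p q lam hQp hQq hpq hlam]
        apply inR_comp86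
        · apply inR_refl86
          rw [Qadd50, hQp, hQq, hpq]
          simp
        · apply inR_refl86
          rw [Q2_92, hQp, hQq, hpq]
          simpa using hlam
      · intro h hh
        rw [hL_apply86, Bsymm50 Q q h, hqH h hh, Bsymm50 Q p h, hp h hh]
        simp
      · rw [hL_apply86, Bsymm50 Q p u0, hBu0p]
        have h4 : QuadraticMap.polarBilin Q q u0 = c := by
          rw [← hsum, map_add, map_smul, Bsymm50 Q q h0', hqH h0' hh0', Bsymm50 Q q p, hpq]
          simp
        rw [h4, hlam1]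
        simp
    · obtain ⟨z, hzS, hzu⟩ := dual_vec50 Q hQ _ u0 hmem
      have hzH : ∀ h ∈ H, QuadraticMap.polarBilin Q h z = 0 := fun h hh => hzS h (Submodule.mem_sup_left hh)
      have hzp : QuadraticMap.polarBilin Q p z = 0 :=
        hzS p (Submodule.mem_sup_right (Submodule.mem_span_singleton_self p))
      refine ⟨eL86 Q p z, inR_eich86 Q hQ hF p z hp0 hQp hzp, ?_, ?_⟩
      · intro h hh
        rw [eL_apply86, Bsymm50 Q z h, hzH h hh, Bsymm50 Q p h, hp h hh]
        simp
      · rw [eL_apply86, Bsymm50 Q z u0, hzu, Bsymm50 Q p u0, hBu0p]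
        simp
  · refine ⟨rL86 Q p, inR_refl86 Q p hQp, ?_, ?_⟩
    · intro h hh
      rw [rL_apply86, Bsymm50 Q p h, hp h hh]
      simp
    · rw [rL_apply86, Bsymm50 Q p u0]
      have h5 : QuadraticMap.polarBilin Q u0 p = -(Q p) := by linear_combination hrel
      rw [h5]
      have h6 : -((Q p)⁻¹ * -(Q p)) = 1 := by field_simp
      rw [h6]
      simp

theorem gen_fam86 {F : Type*} [Field F] {n : ℕ} (Q : QuadraticForm F (Fin n → F))
    (hQ : (QuadraticMap.polarBilin Q).Nondegenerate) (hF : (∃ s : F, s ≠ 0 ∧ s ≠ 1) ∨ n ≠ 4) :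
    ∀ (k : ℕ) (x y : Fin k → (Fin n → F)), LinearIndependent F x → LinearIndependent F y →
      (∀ i, Q (x i) = Q (y i)) →
      (∀ i j, QuadraticMap.polarBilin Q (x i) (x j) = QuadraticMap.polarBilin Q (y i) (y j)) →
      ∃ g : (Fin n → F) →ₗ[F] (Fin n → F), InR86 Q g ∧ ∀ i, g (x i) = y i := by
  intro k
  induction k with
  | zero =>
    intro x y _ _ _ _
    exact ⟨LinearMap.id, inR_id86 Q, fun i => i.elim0⟩
  | succ k ih =>
    intro x y hx hy hQxy hBxy
    obtain ⟨τ0, hτR, hτx0⟩ := ih (fun i => x i.castSucc) (fun i => y i.castSucc)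
      (hx.comp _ (Fin.castSucc_injective k)) (hy.comp _ (Fin.castSucc_injective k))
      (fun i => hQxy _) (fun i j => hBxy _ _)
    obtain ⟨τ, hτe⟩ := iso_equiv50 Q hQ τ0 (inR_iso86 Q τ0 hτR)
    have hτ : ∀ v, Q (τ v) = Q v := fun v => by rw [hτe]; exact inR_iso86 Q τ0 hτR v
    have hτx : ∀ i : Fin k, τ (x i.castSucc) = y i.castSucc := fun i => by rw [hτe]; exact hτx0 i
    have hτB : ∀ u v, QuadraticMap.polarBilin Q (τ u) (τ v) = QuadraticMap.polarBilin Q u v :=
      fun u v => isoB50 Q τ.toLinearMap hτ u v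
    have hlast : Fin.last k ∉ Set.range (Fin.castSucc : Fin k → Fin (k + 1)) := by
      rintro ⟨j, hj⟩
      exact Fin.castSucc_ne_last j hj
    have h1 : y (Fin.last k) ∉ Submodule.span F (Set.range (fun i : Fin k => y i.castSucc)) := by
      have h2 := hy.notMem_span_image hlast
      rw [← Set.range_comp] at h2
      exact h2
    have h0 : τ (x (Fin.last k)) ∉ Submodule.span F (Set.range (fun i : Fin k => y i.castSucc)) := by
      have hτx' : LinearIndependent F (fun i => τ (x i)) := hx.map' τ.toLinearMap (LinearEquiv.ker τ)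
      have h2 := hτx'.notMem_span_image hlast
      rw [← Set.range_comp] at h2
      have h3 : ((fun i => τ (x i)) ∘ (Fin.castSucc : Fin k → Fin (k + 1))) = fun i : Fin k => y i.castSucc := by
        funext i
        exact hτx i
      rw [h3] at h2
      exact h2
    have hpH : ∀ h ∈ Submodule.span F (Set.range (fun i : Fin k => y i.castSucc)),
        QuadraticMap.polarBilin Q h (y (Fin.last k) - τ (x (Fin.last k))) = 0 := by
      intro h hh
      induction hh using Submodule.span_induction with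
      | mem z hz =>
        obtain ⟨i, rfl⟩ := hz
        show QuadraticMap.polarBilin Q (y i.castSucc) (y (Fin.last k) - τ (x (Fin.last k))) = 0
        rw [map_sub, ← hBxy, ← hτx i, hτB, sub_self]
      | zero => simp
      | add a b _ _ ha hb => rw [map_add, LinearMap.add_apply, ha, hb, add_zero]
      | smul r a _ ha => rw [map_smul, LinearMap.smul_apply, ha, smul_zero]
    have hsum : τ (x (Fin.last k)) + (y (Fin.last k) - τ (x (Fin.last k))) = y (Fin.last k) := by abel
    obtain ⟨g, hgR, hgH, hgu⟩ := stepR86 Q hQ hF _ (τ (x (Fin.last k))) (y (Fin.last k) - τ (x (Fin.last k))) h0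
      (by rw [hsum]; exact h1) hpH (by rw [hsum, hτ, hQxy])
    rw [hsum] at hgu
    refine ⟨g ∘ₗ τ0, inR_comp86 Q g τ0 hgR hτR, fun i => ?_⟩
    refine Fin.lastCases ?_ (fun j => ?_) i
    · show g (τ0 (x (Fin.last k))) = y (Fin.last k)
      rw [← hτe]
      exact hgu
    · show g (τ0 (x j.castSucc)) = y j.castSucc
      rw [hτx0 j]
      exact hgH _ (Submodule.subset_span ⟨j, rfl⟩)

/-- Generation by reflections: if F is finite, Q is a quadratic form on F^n with non-degenerate polar form, and (|F|, n) ≠ (2, 4), then the isometry group of Q is generated by the reflections r_v, Q(v) ≠ 0. -/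
theorem result {F : Type*} [Field F] [Fintype F] {n : ℕ} (Q : QuadraticForm F (Fin n → F)) (hQ : (QuadraticMap.polarBilin Q).Nondegenerate) (h : Fintype.card F ≠ 2 ∨ n ≠ 4) : Subgroup.closure {g : ↥(Cfsg.isometryGroup F ⇑Q) | ∃ v : Fin n → F, Q v ≠ 0 ∧ ((g : Matrix.GeneralLinearGroup (Fin n) F) : Matrix (Fin n) (Fin n) F) = Cfsg.reflectionMatrix ⇑Q v} = ⊤ := by
  classical
  have hF : (∃ s : F, s ≠ 0 ∧ s ≠ 1) ∨ n ≠ 4 := by
    rcases h with h | h
    · left
      by_contra hcon
      push Not at hcon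
      apply h
      have hsub : (Finset.univ : Finset F) ⊆ {0, 1} := by
        intro a _
        by_cases ha : a = 0
        · simp [ha]
        · simp [hcon a ha]
      have h5 := Finset.card_le_card hsub
      have h3 : ({0, 1} : Finset F).card ≤ 2 := Finset.card_le_two
      rw [Finset.card_univ] at h5
      have h6 : 1 < Fintype.card F := Fintype.one_lt_card
      omega
    · exact Or.inr h
  show Subgroup.closure (Sset92 Q) = ⊤
  rw [eq_top_iff]
  intro g _
  obtain ⟨e, he⟩ := iso_equiv50 Q hQ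
    (Matrix.toLin' ((g : Matrix.GeneralLinearGroup (Fin n) F) : Matrix (Fin n) (Fin n) F))
    (fun v => by rw [Matrix.toLin'_apply]; exact g.2 v v)
  have hx : LinearIndependent F (fun i : Fin n => (Pi.single i (1 : F) : Fin n → F)) := by
    have h1 := (Pi.basisFun F (Fin n)).linearIndependent
    have h2 : (fun i : Fin n => (Pi.single i (1 : F) : Fin n → F)) = ⇑(Pi.basisFun F (Fin n)) := by
      funext i
      rw [Pi.basisFun_apply]
    rw [h2]
    exact h1
  have hy : LinearIndependent F (fun i : Fin n =>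
      ((g : Matrix.GeneralLinearGroup (Fin n) F) : Matrix (Fin n) (Fin n) F) *ᵥ (Pi.single i (1 : F) : Fin n → F)) := by
    have h1 := hx.map' e.toLinearMap (LinearEquiv.ker e)
    have h2 : (fun i : Fin n =>
        ((g : Matrix.GeneralLinearGroup (Fin n) F) : Matrix (Fin n) (Fin n) F) *ᵥ (Pi.single i (1 : F) : Fin n → F)) =
        ⇑e.toLinearMap ∘ (fun i : Fin n => (Pi.single i (1 : F) : Fin n → F)) := by
      funext i
      show _ = e (Pi.single i 1)
      rw [he, Matrix.toLin'_apply]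
    rw [h2]
    exact h1
  obtain ⟨f, ⟨ρ, hρ, hρf⟩, hfx⟩ := gen_fam86 Q hQ hF n _ _ hx hy (fun i => (g.2 _ (Pi.single i 1)).symm)
    (fun i j => (isoB92 Q g _ _).symm)
  have hρg : ρ = g := by
    apply Subtype.ext
    apply Units.ext
    apply Matrix.toLin'.injective
    apply (Pi.basisFun F (Fin n)).ext
    intro i
    rw [Matrix.toLin'_apply, Matrix.toLin'_apply, Pi.basisFun_apply, hρf, hfx]
  rw [← hρg]
  exact hρ

end Cfsg.Agent.S0786
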