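import Cfsg.Statements.S2635
import Mathlib
import Cfsg.Statements.S2635
import Cfsg.Agent.S0786

set_option autoImplicit false
open Cfsg
open scoped commutatorElement

namespace Cfsg.Agent.S2635

open Cfsg.Agent.S0750 Cfsg.Agent.S0794 Cfsg.Agent.S0792 Cfsg.Agent.S0786 Matrix
open scoped commutatorElement

theorem refl_conj35 {F : Type*} [Field F] {n : ℕ} (Q : QuadraticForm F (Fin n → F))
    (g : ↥(Cfsg.isometryGroup F ⇑Q)) (u : Fin n → F) :
    ((g : Matrix.GeneralLinearGroup (Fin n) F) : Matrix (Fin n) (Fin n) F) * reflectionMatrix (⇑Q) u =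
      reflectionMatrix (⇑Q) (((g : Matrix.GeneralLinearGroup (Fin n) F) : Matrix (Fin n) (Fin n) F) *ᵥ u) *
        ((g : Matrix.GeneralLinearGroup (Fin n) F) : Matrix (Fin n) (Fin n) F) := by
  apply mat_ext94
  intro x
  have h1 : Q (((g : Matrix.GeneralLinearGroup (Fin n) F) : Matrix (Fin n) (Fin n) F) *ᵥ u) = Q u := g.2 u u
  rw [← Matrix.mulVec_mulVec, ← Matrix.mulVec_mulVec, refl_mulVec92, refl_mulVec92, isoB92, h1,
    Matrix.mulVec_add, Matrix.mulVec_smul]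

theorem refl_smul35 {F : Type*} [Field F] {n : ℕ} (Q : QuadraticForm F (Fin n → F)) (u : Fin n → F) (c : F)
    (hc : c ≠ 0) (hu : Q u ≠ 0) : reflectionMatrix (⇑Q) (c • u) = reflectionMatrix (⇑Q) u := by
  apply mat_ext94
  intro x
  rw [refl_mulVec92, refl_mulVec92, Qsmul50, map_smul, LinearMap.smul_apply, smul_smul, smul_eq_mul]
  congr 2
  field_simp

theorem hF_of35 {F : Type*} [Field F] [Fintype F] {n : ℕ} (h : Fintype.card F ≠ 2 ∨ n ≠ 4) :
    (∃ s : F, s ≠ 0 ∧ s ≠ 1) ∨ n ≠ 4 := by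
  classical
  rcases h with h | h
  · left
    by_contra hcon
    push Not at hcon
    apply h
    have hsub : (Finset.univ : Finset F) ⊆ {0, 1} := by
      intro a _
      by_cases ha : a = 0
      · simp [ha]
      · simp [hcon a ha]
    have h5 := Finset.card_le_card hsub
    have h3 : ({0, 1} : Finset F).card ≤ 2 := Finset.card_le_two
    rw [Finset.card_univ] at h5
    have h6 : 1 < Fintype.card F := Fintype.one_lt_card
    omega
  · exact Or.inr h

theorem refl_conj_all35 {F : Type*} [Field F] [Fintype F] [CharP F 2] {n : ℕ}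
    (hF : (∃ s : F, s ≠ 0 ∧ s ≠ 1) ∨ n ≠ 4) (Q : QuadraticForm F (Fin n → F))
    (hQ : (QuadraticMap.polarBilin Q).Nondegenerate) (u v : Fin n → F) (hu : Q u ≠ 0) (hv : Q v ≠ 0) :
    ∃ g : ↥(Cfsg.isometryGroup F ⇑Q), g * reflEl92 Q u hu * g⁻¹ = reflEl92 Q v hv ∧
      ∃ c : F, c ≠ 0 ∧ ((g : Matrix.GeneralLinearGroup (Fin n) F) : Matrix (Fin n) (Fin n) F) *ᵥ (c • u) = v := by
  obtain ⟨c, hc⟩ : ∃ c : F, c ^ 2 = Q v * (Q u)⁻¹ := by
    have hsurj := Finite.injective_iff_surjective.mp (frobenius_inj F 2)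
    obtain ⟨c, hc⟩ := hsurj (Q v * (Q u)⁻¹)
    exact ⟨c, hc⟩
  have hc0 : c ≠ 0 := by
    rintro rfl
    have h1 : Q v * (Q u)⁻¹ ≠ 0 := mul_ne_zero hv (inv_ne_zero hu)
    apply h1
    rw [← hc]
    simp
  have hQcu : Q (c • u) = Q v := by
    rw [Qsmul50, ← pow_two, hc]
    field_simp
  have hcu0 : c • u ≠ 0 := by
    intro h0
    rw [h0, map_zero] at hQcu
    exact hv hQcu.symm
  have hv0 : v ≠ 0 := by
    intro h0
    rw [h0, map_zero] at hv
    exact hv rfl
  obtain ⟨f, ⟨ρ, hρ, hρf⟩, hfx⟩ := gen_fam86 Q hQ hF 1 ![c • u] ![v]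
    (linearIndependent_unique_iff.mpr (by simpa using hcu0))
    (linearIndependent_unique_iff.mpr (by simpa using hv0))
    (fun i => by
      fin_cases i
      exact hQcu)
    (fun i j => by
      fin_cases i
      fin_cases j
      show QuadraticMap.polarBilin Q (c • u) (c • u) = QuadraticMap.polarBilin Q v v
      rw [Bself92, Bself92, hQcu])
  have hρu : ((ρ : Matrix.GeneralLinearGroup (Fin n) F) : Matrix (Fin n) (Fin n) F) *ᵥ (c • u) = v := by
    rw [hρf]
    exact hfx 0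
  refine ⟨ρ, ?_, c, hc0, hρu⟩
  rw [mul_inv_eq_iff_eq_mul]
  apply Subtype.ext
  apply Units.ext
  show ((ρ : Matrix.GeneralLinearGroup (Fin n) F) : Matrix (Fin n) (Fin n) F) * reflectionMatrix (⇑Q) u =
    reflectionMatrix (⇑Q) v * ((ρ : Matrix.GeneralLinearGroup (Fin n) F) : Matrix (Fin n) (Fin n) F)
  rw [← refl_smul35 Q u c hc0 hu, refl_conj35, hρu]

theorem T_le_comm35 {F : Type*} [Field F] [Fintype F] [CharP F 2] {n : ℕ}
    (hF : (∃ s : F, s ≠ 0 ∧ s ≠ 1) ∨ n ≠ 4) (Q : QuadraticForm F (Fin n → F))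
    (hQ : (QuadraticMap.polarBilin Q).Nondegenerate) :
    Subgroup.closure (Tset92 Q) ≤ commutator ↥(Cfsg.isometryGroup F ⇑Q) := by
  rw [Subgroup.closure_le]
  rintro t ⟨u, v, hu, hv, ht⟩
  show t ∈ commutator ↥(Cfsg.isometryGroup F ⇑Q)
  obtain ⟨g, hg, -⟩ := refl_conj_all35 hF Q hQ u v hu hv
  have ha : (reflEl92 Q u hu)⁻¹ = reflEl92 Q u hu :=
    inv_eq_of_mul_eq_one_right (Subtype.ext (Units.ext (refl_sq92 Q u hu)))
  have e : t = ⁅reflEl92 Q u hu, g⁆ := by
    rw [commutatorElement_def, ha]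
    have h1 : reflEl92 Q u hu * g * reflEl92 Q u hu * g⁻¹ = reflEl92 Q u hu * (g * reflEl92 Q u hu * g⁻¹) := by
      group
    rw [h1, hg]
    apply Subtype.ext
    apply Units.ext
    exact ht
  rw [e, commutator_def]
  exact Subgroup.commutator_mem_commutator (Subgroup.mem_top _) (Subgroup.mem_top _)

theorem T_normal35 {F : Type*} [Field F] {n : ℕ} (Q : QuadraticForm F (Fin n → F)) :
    (Subgroup.closure (Tset92 Q)).Normal := by
  constructor
  intro p hp g
  have h1 : Subgroup.closure (Tset92 Q) ≤ (Subgroup.closure (Tset92 Q)).comap (MulAut.conj g).toMonoidHom := by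
    rw [Subgroup.closure_le]
    rintro t ⟨u, v, hu, hv, ht⟩
    show g * t * g⁻¹ ∈ Subgroup.closure (Tset92 Q)
    have hgu : Q (((g : Matrix.GeneralLinearGroup (Fin n) F) : Matrix (Fin n) (Fin n) F) *ᵥ u) ≠ 0 := by
      rw [show Q (((g : Matrix.GeneralLinearGroup (Fin n) F) : Matrix (Fin n) (Fin n) F) *ᵥ u) = Q u from g.2 u u]
      exact hu
    have hgv : Q (((g : Matrix.GeneralLinearGroup (Fin n) F) : Matrix (Fin n) (Fin n) F) *ᵥ v) ≠ 0 := by
      rw [show Q (((g : Matrix.GeneralLinearGroup (Fin n) F) : Matrix (Fin n) (Fin n) F) *ᵥ v) = Q v from g.2 v v]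
      exact hv
    have e : g * t * g⁻¹ = reflEl92 Q _ hgu * reflEl92 Q _ hgv := by
      rw [mul_inv_eq_iff_eq_mul]
      apply Subtype.ext
      apply Units.ext
      show ((g : Matrix.GeneralLinearGroup (Fin n) F) : Matrix (Fin n) (Fin n) F) *
        ((t : Matrix.GeneralLinearGroup (Fin n) F) : Matrix (Fin n) (Fin n) F) =
        reflectionMatrix (⇑Q) (((g : Matrix.GeneralLinearGroup (Fin n) F) : Matrix (Fin n) (Fin n) F) *ᵥ u) *
          reflectionMatrix (⇑Q) (((g : Matrix.GeneralLinearGroup (Fin n) F) : Matrix (Fin n) (Fin n) F) *ᵥ v) *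
          ((g : Matrix.GeneralLinearGroup (Fin n) F) : Matrix (Fin n) (Fin n) F)
      rw [ht, ← Matrix.mul_assoc, refl_conj35, Matrix.mul_assoc, refl_conj35, ← Matrix.mul_assoc]
    rw [e]
    exact Subgroup.subset_closure ⟨_, _, hgu, hgv, rfl⟩
  exact h1 hp

theorem exists_aniso35 {F : Type*} [Field F] {n : ℕ} (hn : 1 ≤ n) (Q : QuadraticForm F (Fin n → F))
    (hQ : (QuadraticMap.polarBilin Q).Nondegenerate) : ∃ v₀ : Fin n → F, Q v₀ ≠ 0 := by
  classical
  by_contra hcon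
  push Not at hcon
  have h1 : (Pi.single (⟨0, hn⟩ : Fin n) (1 : F) : Fin n → F) = 0 := by
    apply hQ.1
    intro y
    have h3 := Qadd50 Q (Pi.single (⟨0, hn⟩ : Fin n) (1 : F)) y
    rw [hcon, hcon, hcon] at h3
    linear_combination -h3
  have h2 := congrFun h1 ⟨0, hn⟩
  simp at h2

theorem comm_le_T35 {F : Type*} [Field F] [Fintype F] {n : ℕ} (hn : 1 ≤ n) (h : Fintype.card F ≠ 2 ∨ n ≠ 4)
    (Q : QuadraticForm F (Fin n → F)) (hQ : (QuadraticMap.polarBilin Q).Nondegenerate) :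
    commutator ↥(Cfsg.isometryGroup F ⇑Q) ≤ Subgroup.closure (Tset92 Q) := by
  obtain ⟨v₀, hv₀⟩ := exists_aniso35 hn Q hQ
  have hgen : Subgroup.closure (Sset92 Q) = ⊤ := Cfsg.Agent.S0786.result Q hQ h
  haveI hPn := T_normal35 Q
  have hinv : (reflEl92 Q v₀ hv₀)⁻¹ = reflEl92 Q v₀ hv₀ :=
    inv_eq_of_mul_eq_one_right (Subtype.ext (Units.ext (refl_sq92 Q v₀ hv₀)))
  have hval : ∀ z : ↥(Cfsg.isometryGroup F ⇑Q),
      (z : ↥(Cfsg.isometryGroup F ⇑Q) ⧸ Subgroup.closure (Tset92 Q)) = 1 ∨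
      (z : ↥(Cfsg.isometryGroup F ⇑Q) ⧸ Subgroup.closure (Tset92 Q)) =
        (reflEl92 Q v₀ hv₀ : ↥(Cfsg.isometryGroup F ⇑Q) ⧸ Subgroup.closure (Tset92 Q)) := by
    intro z
    rcases claim92 Q v₀ hv₀ z (by rw [hgen]; exact Subgroup.mem_top _) with hz | hz
    · left
      exact (QuotientGroup.eq_one_iff z).mpr hz
    · right
      have h4 : ((reflEl92 Q v₀ hv₀ * z : ↥(Cfsg.isometryGroup F ⇑Q)) :
          ↥(Cfsg.isometryGroup F ⇑Q) ⧸ Subgroup.closure (Tset92 Q)) = 1 := (QuotientGroup.eq_one_iff _).mpr hz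
      rw [QuotientGroup.mk_mul] at h4
      rw [eq_inv_of_mul_eq_one_right h4, ← QuotientGroup.mk_inv, hinv]
  rw [commutator_def, Subgroup.commutator_le]
  intro x _ y _
  rw [← QuotientGroup.eq_one_iff]
  have h3 : ((⁅x, y⁆ : ↥(Cfsg.isometryGroup F ⇑Q)) : ↥(Cfsg.isometryGroup F ⇑Q) ⧸ Subgroup.closure (Tset92 Q)) =
      ⁅(x : ↥(Cfsg.isometryGroup F ⇑Q) ⧸ Subgroup.closure (Tset92 Q)),
        (y : ↥(Cfsg.isometryGroup F ⇑Q) ⧸ Subgroup.closure (Tset92 Q))⁆ :=
    map_commutatorElement (QuotientGroup.mk' (Subgroup.closure (Tset92 Q))) x y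
  rw [h3]
  rcases hval x with h1 | h1 <;> rcases hval y with h2 | h2 <;> rw [h1, h2] <;> simp

/-- Over a finite field of characteristic two, for a quadratic form Q on F^n with non-degenerate polar form, n ≥ 2, other than dimension 4 over the field of two elements, Ω (the commutator subgroup of the orthogonal group) is exactly the subgroup generated by the products of two reflections (orthogonal transvections) x ↦ x − Q(v)⁻¹ f(x, v) v, Q(v) ≠ 0: the products of an even number of reflections. -/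
theorem result {F : Type*} [Field F] [Fintype F] [CharP F 2] {n : ℕ} (hn : 2 ≤ n) (h : Fintype.card F ≠ 2 ∨ n ≠ 4) (Q : QuadraticForm F (Fin n → F)) (hQ : (QuadraticMap.polarBilin Q).Nondegenerate) : Cfsg.Omega F ⇑Q = Subgroup.closure {g : ↥(Cfsg.isometryGroup F ⇑Q) | ∃ u v : Fin n → F, Q u ≠ 0 ∧ Q v ≠ 0 ∧ ((g : Matrix.GeneralLinearGroup (Fin n) F) : Matrix (Fin n) (Fin n) F) = Cfsg.reflectionMatrix ⇑Q u * Cfsg.reflectionMatrix ⇑Q v} := by
  show commutator ↥(Cfsg.isometryGroup F ⇑Q) = Subgroup.closure (Tset92 Q)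
  exact le_antisymm (comm_le_T35 (by omega) h Q hQ) (T_le_comm35 (hF_of35 h) Q hQ)

end Cfsg.Agent.S2635
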