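import Cfsg.Statements.S0789
import Mathlib
import Cfsg.Statements.S0789
import Cfsg.Agent.S2635

set_option autoImplicit false
open Cfsg
open scoped commutatorElement

namespace Cfsg.Agent.S0789

open Cfsg.Agent.S0750 Cfsg.Agent.S0794 Cfsg.Agent.S0792 Cfsg.Agent.S0786 Cfsg.Agent.S2635 Matrix Module
open scoped commutatorElement

theorem ker_fun89 {F V : Type*} [Field F] [AddCommGroup V] [Module F V] [FiniteDimensional F V]
    (K K' : Submodule F V) (φ : V →ₗ[F] F) (h : ∀ x, x ∈ K' ↔ x ∈ K ∧ φ x = 0) (hne : ∃ x ∈ K, φ x ≠ 0) :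
    finrank F K' + 1 = finrank F K := by
  obtain ⟨x₁, hx₁, hφ⟩ := hne
  have h1 := LinearMap.finrank_range_add_finrank_ker (φ ∘ₗ K.subtype)
  have hr : LinearMap.range (φ ∘ₗ K.subtype) = ⊤ := by
    rw [LinearMap.range_eq_top]
    intro c
    refine ⟨(c / φ x₁) • ⟨x₁, hx₁⟩, ?_⟩
    simp [hφ]
  rw [hr, finrank_top, finrank_self] at h1
  have hK' : K' = (LinearMap.ker (φ ∘ₗ K.subtype)).map K.subtype := by
    ext x
    rw [h, Submodule.mem_map]
    constructor
    · rintro ⟨hx, hx0⟩
      exact ⟨⟨x, hx⟩, by simpa using hx0, rfl⟩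
    · rintro ⟨y, hy, rfl⟩
      exact ⟨y.2, by simpa using hy⟩
  have h2 := (Submodule.equivSubtypeMap K (LinearMap.ker (φ ∘ₗ K.subtype))).finrank_eq
  rw [hK', ← h2]
  omega

def fix89 {F : Type*} [Field F] {n : ℕ} (Q : QuadraticForm F (Fin n → F)) (g : ↥(Cfsg.isometryGroup F ⇑Q)) :
    Submodule F (Fin n → F) :=
  LinearMap.ker (Matrix.toLin' ((g : Matrix.GeneralLinearGroup (Fin n) F) : Matrix (Fin n) (Fin n) F) -
    LinearMap.id)

theorem mem_fix89 {F : Type*} [Field F] {n : ℕ} (Q : QuadraticForm F (Fin n → F))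
    (g : ↥(Cfsg.isometryGroup F ⇑Q)) (x : Fin n → F) :
    x ∈ fix89 Q g ↔ ((g : Matrix.GeneralLinearGroup (Fin n) F) : Matrix (Fin n) (Fin n) F) *ᵥ x = x := by
  unfold fix89
  rw [LinearMap.mem_ker, LinearMap.sub_apply, Matrix.toLin'_apply, LinearMap.id_apply, sub_eq_zero]

theorem flip89 {F : Type*} [Field F] {n : ℕ} (Q : QuadraticForm F (Fin n → F))
    (hQ : (QuadraticMap.polarBilin Q).Nondegenerate) (g : ↥(Cfsg.isometryGroup F ⇑Q)) (v : Fin n → F)
    (hv : Q v ≠ 0) :
    finrank F (fix89 Q (reflEl92 Q v hv * g)) + 1 = finrank F (fix89 Q g) ∨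
    finrank F (fix89 Q g) + 1 = finrank F (fix89 Q (reflEl92 Q v hv * g)) := by
  have hmem' : ∀ x, x ∈ fix89 Q (reflEl92 Q v hv * g) ↔
      ((g : Matrix.GeneralLinearGroup (Fin n) F) : Matrix (Fin n) (Fin n) F) *ᵥ x +
        (-((Q v)⁻¹ * QuadraticMap.polarBilin Q v
          (((g : Matrix.GeneralLinearGroup (Fin n) F) : Matrix (Fin n) (Fin n) F) *ᵥ x))) • v = x := by
    intro x
    rw [mem_fix89]
    show (reflectionMatrix (⇑Q) v * ((g : Matrix.GeneralLinearGroup (Fin n) F) : Matrix (Fin n) (Fin n) F)) *ᵥ x = x ↔ _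
    rw [← Matrix.mulVec_mulVec, refl_mulVec92]
  have hF1 : ∀ x ∈ fix89 Q g, ∀ y, QuadraticMap.polarBilin Q
      (((g : Matrix.GeneralLinearGroup (Fin n) F) : Matrix (Fin n) (Fin n) F) *ᵥ y - y) x = 0 := by
    intro x hx y
    rw [mem_fix89] at hx
    rw [map_sub, LinearMap.sub_apply]
    have h1 := isoB92 Q g y x
    rw [hx] at h1
    rw [h1, sub_self]
  by_cases hvr : ∃ x₀, ((g : Matrix.GeneralLinearGroup (Fin n) F) : Matrix (Fin n) (Fin n) F) *ᵥ x₀ - x₀ = v
  · right
    obtain ⟨x₀, hx₀⟩ := hvr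
    have hgx : ((g : Matrix.GeneralLinearGroup (Fin n) F) : Matrix (Fin n) (Fin n) F) *ᵥ x₀ = x₀ + v := by
      rw [← hx₀]; abel
    have hψ : QuadraticMap.polarBilin Q v (x₀ + v) = Q v := by
      have h1 : Q (x₀ + v) = Q x₀ := by rw [← hgx]; exact g.2 x₀ x₀
      rw [Qadd50] at h1
      rw [map_add, Bself92, Bsymm50 Q v x₀]
      linear_combination h1
    apply ker_fun89 (fix89 Q (reflEl92 Q v hv * g)) (fix89 Q g)
      ((QuadraticMap.polarBilin Q v) ∘ₗ
        Matrix.toLin' ((g : Matrix.GeneralLinearGroup (Fin n) F) : Matrix (Fin n) (Fin n) F))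
    · intro x
      rw [hmem', mem_fix89, LinearMap.comp_apply, Matrix.toLin'_apply]
      constructor
      · intro hx
        have hBvx : QuadraticMap.polarBilin Q v x = 0 := by
          rw [← hx₀]
          exact hF1 x ((mem_fix89 Q g x).mpr hx) x₀
        refine ⟨?_, ?_⟩
        · rw [hx, hBvx]
          simp
        · rw [hx, hBvx]
      · rintro ⟨hx, hψ0⟩
        rw [hψ0] at hx
        simpa using hx
    · refine ⟨x₀, ?_, ?_⟩
      · rw [hmem', hgx, hψ]
        have h1 : -((Q v)⁻¹ * Q v) = -1 := by field_simp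
        rw [h1, neg_one_smul]
        abel
      · rw [LinearMap.comp_apply, Matrix.toLin'_apply, hgx, hψ]
        exact hv
  · left
    apply ker_fun89 (fix89 Q g) (fix89 Q (reflEl92 Q v hv * g)) (QuadraticMap.polarBilin Q v)
    · intro x
      rw [hmem', mem_fix89]
      constructor
      · intro hx
        generalize hc : (Q v)⁻¹ * QuadraticMap.polarBilin Q v
          (((g : Matrix.GeneralLinearGroup (Fin n) F) : Matrix (Fin n) (Fin n) F) *ᵥ x) = c at hx
        have h1 : ((g : Matrix.GeneralLinearGroup (Fin n) F) : Matrix (Fin n) (Fin n) F) *ᵥ x = x - (-c) • v :=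
          eq_sub_of_add_eq hx
        have hgx : ((g : Matrix.GeneralLinearGroup (Fin n) F) : Matrix (Fin n) (Fin n) F) *ᵥ x - x = c • v := by
          rw [h1]
          module
        have hc0 : c = 0 := by
          by_contra hc0
          apply hvr
          refine ⟨c⁻¹ • x, ?_⟩
          rw [Matrix.mulVec_smul, ← smul_sub, hgx, smul_smul, inv_mul_cancel₀ hc0, one_smul]
        rw [hc0, zero_smul, sub_eq_zero] at hgx
        refine ⟨hgx, ?_⟩
        rw [hc0, hgx] at hc
        rcases mul_eq_zero.mp hc with h3 | h3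
        · exact absurd (inv_eq_zero.mp h3) hv
        · exact h3
      · rintro ⟨hx, hB⟩
        rw [hx, hB]
        simp
    · by_contra hcon
      push Not at hcon
      have hle : LinearMap.range (Matrix.toLin' ((g : Matrix.GeneralLinearGroup (Fin n) F) :
          Matrix (Fin n) (Fin n) F) - LinearMap.id) ≤
          LinearMap.BilinForm.orthogonal (QuadraticMap.polarBilin Q) (fix89 Q g) := by
        rintro _ ⟨y, rfl⟩
        rw [LinearMap.BilinForm.mem_orthogonal_iff]
        intro x hx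
        have h0 := hF1 x hx y
        rw [Bsymm50] at h0
        simpa only [LinearMap.sub_apply, Matrix.toLin'_apply, LinearMap.id_apply] using h0
      have hdim : finrank F (LinearMap.range (Matrix.toLin' ((g : Matrix.GeneralLinearGroup (Fin n) F) :
          Matrix (Fin n) (Fin n) F) - LinearMap.id)) =
          finrank F (LinearMap.BilinForm.orthogonal (QuadraticMap.polarBilin Q) (fix89 Q g)) := by
        have h1 := LinearMap.finrank_range_add_finrank_ker (Matrix.toLin' ((g : Matrix.GeneralLinearGroup (Fin n) F) :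
          Matrix (Fin n) (Fin n) F) - LinearMap.id)
        have h2 := LinearMap.BilinForm.finrank_orthogonal hQ (fix89 Q g)
        unfold fix89 at h2 ⊢
        omega
      have heq := Submodule.eq_of_le_of_finrank_eq hle hdim
      have hv_mem : v ∈ LinearMap.BilinForm.orthogonal (QuadraticMap.polarBilin Q) (fix89 Q g) := by
        rw [LinearMap.BilinForm.mem_orthogonal_iff]
        intro x hx
        show QuadraticMap.polarBilin Q x v = 0
        rw [Bsymm50]
        exact hcon x hx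
      rw [← heq] at hv_mem
      obtain ⟨y, hy⟩ := hv_mem
      apply hvr
      refine ⟨y, ?_⟩
      rw [LinearMap.sub_apply, Matrix.toLin'_apply, LinearMap.id_apply] at hy
      exact hy

theorem parity89 {F : Type*} [Field F] {n : ℕ} (Q : QuadraticForm F (Fin n → F))
    (hQ : (QuadraticMap.polarBilin Q).Nondegenerate) (x : ↥(Cfsg.isometryGroup F ⇑Q))
    (hx : x ∈ Subgroup.closure (Tset92 Q)) :
    ∀ g : ↥(Cfsg.isometryGroup F ⇑Q), Even (finrank F (fix89 Q (x * g))) ↔ Even (finrank F (fix89 Q g)) := by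
  induction hx using Subgroup.closure_induction with
  | mem t ht =>
    obtain ⟨u, v, hu, hv, htm⟩ := ht
    intro g
    have e : t * g = reflEl92 Q u hu * (reflEl92 Q v hv * g) := by
      rw [← mul_assoc]
      congr 1
      apply Subtype.ext
      apply Units.ext
      exact htm
    rw [e]
    have p1 : Even (finrank F (fix89 Q (reflEl92 Q u hu * (reflEl92 Q v hv * g)))) ↔
        ¬ Even (finrank F (fix89 Q (reflEl92 Q v hv * g))) := by
      rcases flip89 Q hQ (reflEl92 Q v hv * g) u hu with h | h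
      · rw [← h, Nat.even_add_one, not_not]
      · rw [← h, Nat.even_add_one]
    have p2 : Even (finrank F (fix89 Q (reflEl92 Q v hv * g))) ↔ ¬ Even (finrank F (fix89 Q g)) := by
      rcases flip89 Q hQ g v hv with h | h
      · rw [← h, Nat.even_add_one, not_not]
      · rw [← h, Nat.even_add_one]
    rw [p1, p2, not_not]
  | one =>
    intro g
    rw [one_mul]
  | mul x y _ _ hx hy =>
    intro g
    rw [mul_assoc, hx, hy]
  | inv x _ hx =>
    intro g
    have h1 := hx (x⁻¹ * g)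
    rw [mul_inv_cancel_left] at h1
    exact h1.symm

theorem refl_notMem89 {F : Type*} [Field F] {n : ℕ} (Q : QuadraticForm F (Fin n → F))
    (hQ : (QuadraticMap.polarBilin Q).Nondegenerate) (v₀ : Fin n → F) (hv₀ : Q v₀ ≠ 0) :
    reflEl92 Q v₀ hv₀ ∉ Subgroup.closure (Tset92 Q) := by
  intro hmem
  have h1 := parity89 Q hQ _ hmem 1
  rcases flip89 Q hQ 1 v₀ hv₀ with h2 | h2
  · rw [← h2, Nat.even_add_one] at h1
    exact iff_not_self h1
  · rw [← h2, Nat.even_add_one] at h1
    exact not_iff_self h1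

theorem index_T89 {F : Type*} [Field F] [Fintype F] {n : ℕ} (hn : 1 ≤ n) (h : Fintype.card F ≠ 2 ∨ n ≠ 4)
    (Q : QuadraticForm F (Fin n → F)) (hQ : (QuadraticMap.polarBilin Q).Nondegenerate) :
    (Subgroup.closure (Tset92 Q)).index = 2 := by
  rw [Subgroup.index_eq_two_iff]
  obtain ⟨v₀, hv₀⟩ := exists_aniso35 hn Q hQ
  have hgen : Subgroup.closure (Sset92 Q) = ⊤ := Cfsg.Agent.S0786.result Q hQ h
  have hPn := T_normal35 Q
  have hr : reflEl92 Q v₀ hv₀ * reflEl92 Q v₀ hv₀ = 1 := Subtype.ext (Units.ext (refl_sq92 Q v₀ hv₀))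
  have hinv : (reflEl92 Q v₀ hv₀)⁻¹ = reflEl92 Q v₀ hv₀ := inv_eq_of_mul_eq_one_right hr
  have hr₀ := refl_notMem89 Q hQ v₀ hv₀
  refine ⟨reflEl92 Q v₀ hv₀, fun b => ?_⟩
  by_cases hb : b ∈ Subgroup.closure (Tset92 Q)
  · right
    refine ⟨hb, fun hbr => hr₀ ?_⟩
    have h1 := Subgroup.mul_mem _ (Subgroup.inv_mem _ hb) hbr
    rwa [inv_mul_cancel_left] at h1
  · left
    refine ⟨?_, hb⟩
    rcases claim92 Q v₀ hv₀ b (by rw [hgen]; exact Subgroup.mem_top _) with h1 | h1
    · exact absurd h1 hb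
    · have h2 := hPn.conj_mem _ h1 (reflEl92 Q v₀ hv₀)
      have e : reflEl92 Q v₀ hv₀ * (reflEl92 Q v₀ hv₀ * b) * (reflEl92 Q v₀ hv₀)⁻¹ = b * reflEl92 Q v₀ hv₀ := by
        rw [← mul_assoc, hr, one_mul, hinv]
      rw [e] at h2
      exact h2

/-- Ω has index 2 in O for q even: if F is finite of characteristic two, n ≥ 2, Q is a quadratic form on F^n with non-degenerate polar form, and (|F|, n) ≠ (2, 4), then the commutator subgroup of the isometry group of Q has index 2 in it. -/
theorem result {F : Type*} [Field F] [Fintype F] [CharP F 2] {n : ℕ} (hn : 2 ≤ n) (Q : QuadraticForm F (Fin n → F)) (hQ : (QuadraticMap.polarBilin Q).Nondegenerate) (h : Fintype.card F ≠ 2 ∨ n ≠ 4) : (Cfsg.Omega F ⇑Q).index = 2 := by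
  have hΩ : Cfsg.Omega F ⇑Q = Subgroup.closure (Tset92 Q) := Cfsg.Agent.S2635.result hn h Q hQ
  rw [hΩ]
  exact index_T89 (by omega) h Q hQ

end Cfsg.Agent.S0789
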