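import Cfsg.Statements.S0832
import Mathlib
import Cfsg.Statements.S0832
import Cfsg.Agent.S0759
import Cfsg.Agent.S0760

set_option autoImplicit false
open Cfsg
open scoped commutatorElement

namespace Cfsg.Agent.S0832

open Cfsg.Agent.S0759 Cfsg.Agent.S0760
open Module

noncomputable def qp32 (F : Type*) [Field F] (m : ℕ) : QuadraticForm F (Fin m ⊕ Fin m → F) :=
  LinearMap.BilinMap.toQuadraticMap (Matrix.toBilin' (Matrix.fromBlocks 0 1 0 0 : Matrix (Fin m ⊕ Fin m) (Fin m ⊕ Fin m) F))

theorem qp_apply32 {F : Type*} [Field F] (m : ℕ) (v : Fin m ⊕ Fin m → F) :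
    qp32 F m v = Cfsg.quadFormPlus m F v := by
  classical
  unfold qp32 Cfsg.quadFormPlus
  rw [LinearMap.BilinMap.toQuadraticMap_apply, Matrix.toBilin'_apply']
  simp only [dotProduct, Matrix.mulVec,
      Fintype.sum_sum_type, Matrix.fromBlocks_apply₁₁, Matrix.fromBlocks_apply₁₂,
      Matrix.fromBlocks_apply₂₁, Matrix.fromBlocks_apply₂₂, Matrix.zero_apply, Matrix.one_apply,
      zero_mul, Finset.sum_const_zero, zero_add, add_zero, ite_mul, one_mul,
      Finset.sum_ite_eq, Finset.mem_univ, if_true, mul_zero]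

theorem qp_polar32 {F : Type*} [Field F] (m : ℕ) (x y : Fin m ⊕ Fin m → F) :
    QuadraticMap.polar ⇑(qp32 F m) x y = ∑ i, (x (Sum.inl i) * y (Sum.inr i) + x (Sum.inr i) * y (Sum.inl i)) := by
  simp only [QuadraticMap.polar, qp_apply32, Cfsg.quadFormPlus, Pi.add_apply]
  rw [← Finset.sum_sub_distrib, ← Finset.sum_sub_distrib]
  apply Finset.sum_congr rfl
  intro i _
  ring

theorem qp_nondeg32 {F : Type*} [Field F] (m : ℕ) :
    (QuadraticMap.polarBilin (qp32 F m)).Nondegenerate := by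
  classical
  have key : ∀ x : Fin m ⊕ Fin m → F, (∀ y, QuadraticMap.polar ⇑(qp32 F m) x y = 0) → x = 0 := by
    intro x hx
    funext j
    rcases j with i | i
    · have h1 := hx (Pi.single (Sum.inr i) 1)
      rw [qp_polar32] at h1
      simpa [Pi.single_apply] using h1
    · have h1 := hx (Pi.single (Sum.inl i) 1)
      rw [qp_polar32] at h1
      simpa [Pi.single_apply] using h1
  constructor
  · intro x hx
    exact key x (fun y => by rw [← QuadraticMap.polarBilin_apply_apply]; exact hx y)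
  · intro y hy
    exact key y (fun x => by
      rw [QuadraticMap.polar_comm, ← QuadraticMap.polarBilin_apply_apply]; exact hy x)

theorem sup_eq32 {F V : Type*} [Field F] [AddCommGroup V] [Module F V] [FiniteDimensional F V]
    (U W : Submodule F V) (hUW : U ≤ W) (hfin : finrank F W ≤ finrank F U + 1) (x : V) (hxW : x ∈ W) (hxU : x ∉ U) :
    U ⊔ Submodule.span F {x} = W := by
  have hle : U ⊔ Submodule.span F {x} ≤ W := sup_le hUW ((Submodule.span_singleton_le_iff_mem x W).mpr hxW)
  have hlt : U < U ⊔ Submodule.span F {x} := by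
    refine lt_of_le_of_ne le_sup_left (fun h => hxU ?_)
    rw [h]; exact Submodule.mem_sup_right (Submodule.mem_span_singleton_self x)
  have h1 := Submodule.finrank_lt_finrank_of_lt hlt
  have h2 := Submodule.finrank_mono hle
  exact Submodule.eq_of_le_of_finrank_eq hle (by omega)

/-- For the form Σ x_i y_i on F^(2m) over a finite field, m ≥ 1: an (m−1)-dimensional subspace on which the form vanishes is contained in exactly two m-dimensional subspaces on which it vanishes. -/
theorem result {F : Type*} [Field F] [Finite F] (m : ℕ) (hm : 1 ≤ m) (U : Submodule F (Fin m ⊕ Fin m → F)) (hU : Module.finrank F U + 1 = m ∧ ∀ u ∈ U, Cfsg.quadFormPlus m F u = 0) : Nat.card {W : Submodule F (Fin m ⊕ Fin m → F) // Module.finrank F W = m ∧ (∀ w ∈ W, Cfsg.quadFormPlus m F w = 0) ∧ U ≤ W} = 2 := by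
  classical
  obtain ⟨hUd, hUts⟩ := hU
  have hnd : (QuadraticMap.polarBilin (qp32 F m)).Nondegenerate := qp_nondeg32 m
  have hV : finrank F (Fin m ⊕ Fin m → F) = 2 * m := by
    rw [Module.finrank_fintype_fun_eq_card, Fintype.card_sum, Fintype.card_fin]; ring
  have hbound : ∀ W : Submodule F (Fin m ⊕ Fin m → F), (∀ w ∈ W, qp32 F m w = 0) → finrank F W ≤ m := by
    intro W hW
    have h1 := Submodule.finrank_mono (ts_le_orth60 (qp32 F m) W hW)
    rw [LinearMap.BilinForm.finrank_orthogonal hnd, hV] at h1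
    have h2 := Submodule.finrank_le W
    rw [hV] at h2
    omega
  set L : Submodule F (Fin m ⊕ Fin m → F) := LinearMap.ker (LinearMap.pi (fun i : Fin m => LinearMap.proj (Sum.inr i)) : (Fin m ⊕ Fin m → F) →ₗ[F] (Fin m → F)) with hL
  have hLmem : ∀ v, v ∈ L ↔ ∀ i, v (Sum.inr i) = 0 := by
    intro v; rw [hL, LinearMap.mem_ker]
    constructor
    · intro h i; exact congrFun h i
    · intro h; funext i; exact h i
  have hLts : ∀ w ∈ L, qp32 F m w = 0 := by
    intro w hw
    rw [qp_apply32]; unfold Cfsg.quadFormPlus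
    apply Finset.sum_eq_zero; intro i _; rw [(hLmem w).mp hw i, mul_zero]
  have hLd : finrank F L = m := by
    have h1 : finrank F (LinearMap.range (LinearMap.pi (fun i : Fin m => LinearMap.proj (Sum.inr i)) : (Fin m ⊕ Fin m → F) →ₗ[F] (Fin m → F))) + finrank F L = finrank F (Fin m ⊕ Fin m → F) := LinearMap.finrank_range_add_finrank_ker (LinearMap.pi (fun i : Fin m => LinearMap.proj (Sum.inr i)) : (Fin m ⊕ Fin m → F) →ₗ[F] (Fin m → F))
    have hsurj : Function.Surjective (LinearMap.pi (fun i : Fin m => LinearMap.proj (Sum.inr i)) : (Fin m ⊕ Fin m → F) →ₗ[F] (Fin m → F)) := by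
      intro c
      exact ⟨Sum.elim 0 c, by funext i; simp⟩
    rw [LinearMap.range_eq_top.mpr hsurj, finrank_top, Module.finrank_fin_fun, hV] at h1
    omega
  have hLmax : ∀ W : Submodule F (Fin m ⊕ Fin m → F), L ≤ W → (∀ w ∈ W, qp32 F m w = 0) → W = L := by
    intro W hLW hW
    exact (Submodule.eq_of_le_of_finrank_le hLW (by rw [hLd]; exact hbound W hW)).symm
  have hUts' : ∀ u ∈ U, qp32 F m u = 0 := fun u hu => by rw [qp_apply32]; exact hUts u hu
  obtain ⟨W₁, hUW₁, hW₁ts, hW₁max⟩ := exists_max_ts59 (qp32 F m) (2 * m) U hUts' (by omega)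
  have hW₁d : finrank F W₁ = m := by
    rw [(Cfsg.Agent.S0760.result (qp32 F m) hnd W₁ L hW₁ts hLts hW₁max hLmax).1, hLd]
  set O := LinearMap.BilinForm.orthogonal (QuadraticMap.polarBilin (qp32 F m)) U with hO
  have hOd : finrank F O = m + 1 := by
    rw [hO, LinearMap.BilinForm.finrank_orthogonal hnd, hV]; omega
  have hW₁O : W₁ ≤ O := (ts_le_orth60 (qp32 F m) W₁ hW₁ts).trans (LinearMap.BilinForm.orthogonal_le hUW₁)
  obtain ⟨w, hwW, hwU⟩ : ∃ w ∈ W₁, w ∉ U := by
    by_contra hcon; push Not at hcon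
    have h1 := Submodule.finrank_mono (show W₁ ≤ U from hcon)
    omega
  have hW₁eq : U ⊔ Submodule.span F {w} = W₁ := sup_eq32 U W₁ hUW₁ (by omega) w hwW hwU
  obtain ⟨z0, hz0O, hz0W⟩ : ∃ z ∈ O, z ∉ W₁ := by
    by_contra hcon; push Not at hcon
    have h1 := Submodule.finrank_mono (show O ≤ W₁ from hcon)
    omega
  have hUz : ∀ u ∈ U, ∀ z ∈ O, QuadraticMap.polar ⇑(qp32 F m) u z = 0 := by
    intro u hu z hz
    have h1 := (LinearMap.BilinForm.mem_orthogonal_iff.mp hz) u hu
    rwa [QuadraticMap.polarBilin_apply_apply] at h1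
  have hW₁pol : ∀ a ∈ W₁, ∀ b ∈ W₁, QuadraticMap.polar ⇑(qp32 F m) a b = 0 := by
    intro a ha b hb
    rw [QuadraticMap.polar, hW₁ts _ (W₁.add_mem ha hb), hW₁ts a ha, hW₁ts b hb]; ring
  have hb0 : QuadraticMap.polar ⇑(qp32 F m) w z0 ≠ 0 := by
    intro h0
    have hz0 : z0 ∈ LinearMap.BilinForm.orthogonal (QuadraticMap.polarBilin (qp32 F m)) W₁ := by
      rw [LinearMap.BilinForm.mem_orthogonal_iff]
      intro n hn
      rw [← hW₁eq] at hn
      obtain ⟨u, hu, y, hy, rfl⟩ := Submodule.mem_sup.mp hn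
      obtain ⟨a, rfl⟩ := Submodule.mem_span_singleton.mp hy
      rw [QuadraticMap.polarBilin_apply_apply, QuadraticMap.polar_add_left, QuadraticMap.polar_smul_left, hUz u hu z0 hz0O, h0]
      simp
    have hle := ts_le_orth60 (qp32 F m) W₁ hW₁ts
    have hfr : finrank F (LinearMap.BilinForm.orthogonal (QuadraticMap.polarBilin (qp32 F m)) W₁) = m := by
      rw [LinearMap.BilinForm.finrank_orthogonal hnd, hV, hW₁d]; omega
    have heq := Submodule.eq_of_le_of_finrank_eq hle (by rw [hfr, hW₁d])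
    rw [← heq] at hz0; exact hz0W hz0
  set a0 := - (qp32 F m z0) / QuadraticMap.polar ⇑(qp32 F m) w z0 with ha0
  set z := z0 + a0 • w with hz
  have hzO : z ∈ O := O.add_mem hz0O (O.smul_mem _ (hW₁O hwW))
  have hzW : z ∉ W₁ := by
    intro h
    apply hz0W
    have h1 : z0 = z - a0 • w := by rw [hz]; abel
    rw [h1]; exact W₁.sub_mem h (W₁.smul_mem _ hwW)
  have hQz : qp32 F m z = 0 := by
    have h1 : qp32 F m z = qp32 F m z0 + qp32 F m (a0 • w) + QuadraticMap.polar ⇑(qp32 F m) z0 (a0 • w) := by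
      rw [hz, QuadraticMap.polar]; ring
    rw [h1, QuadraticMap.map_smul, hW₁ts w hwW, QuadraticMap.polar_smul_right, QuadraticMap.polar_comm, ha0]
    simp only [smul_eq_mul, mul_zero, add_zero]
    field_simp
    ring
  have hbz : QuadraticMap.polar ⇑(qp32 F m) w z ≠ 0 := by
    rw [hz, QuadraticMap.polar_add_right, QuadraticMap.polar_smul_right, hW₁pol w hwW w hwW]
    simpa using hb0
  have hOeq : W₁ ⊔ Submodule.span F {z} = O := sup_eq32 W₁ O hW₁O (by omega) z hzO hzW
  set W₂ := U ⊔ Submodule.span F {z} with hW₂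
  have hzU : z ∉ U := fun h => hzW (hUW₁ h)
  have hzW₂ : z ∈ W₂ := Submodule.mem_sup_right (Submodule.mem_span_singleton_self z)
  have hW₂ts : ∀ y ∈ W₂, qp32 F m y = 0 := by
    intro y hy
    obtain ⟨u, hu, y', hy', rfl⟩ := Submodule.mem_sup.mp hy
    obtain ⟨c, rfl⟩ := Submodule.mem_span_singleton.mp hy'
    have h1 : qp32 F m (u + c • z) = qp32 F m u + qp32 F m (c • z) + QuadraticMap.polar ⇑(qp32 F m) u (c • z) := by
      rw [QuadraticMap.polar]; ring
    rw [h1, QuadraticMap.map_smul, hQz, hUts' u hu, QuadraticMap.polar_smul_right, hUz u hu z hzO]; simp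
  have hW₂d : finrank F W₂ = m := by
    have h1 := hbound W₂ hW₂ts
    have hlt : U < W₂ := by
      refine lt_of_le_of_ne le_sup_left (fun h => hzU ?_)
      rw [h]; exact hzW₂
    have h2 := Submodule.finrank_lt_finrank_of_lt hlt
    omega
  have hne : W₁ ≠ W₂ := by
    intro h; apply hzW; rw [h]; exact hzW₂
  have hclass : ∀ W : Submodule F (Fin m ⊕ Fin m → F), finrank F W = m → (∀ w ∈ W, qp32 F m w = 0) → U ≤ W → W = W₁ ∨ W = W₂ := by
    intro W hWd hWts hUW
    obtain ⟨x, hxW, hxU⟩ : ∃ x ∈ W, x ∉ U := by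
      by_contra hcon; push Not at hcon
      have h1 := Submodule.finrank_mono (show W ≤ U from hcon)
      omega
    have hWeq : U ⊔ Submodule.span F {x} = W := sup_eq32 U W hUW (by omega) x hxW hxU
    have hWO : W ≤ O := (ts_le_orth60 (qp32 F m) W hWts).trans (LinearMap.BilinForm.orthogonal_le hUW)
    have hxO := hWO hxW
    rw [← hOeq] at hxO
    obtain ⟨y, hy, y', hy', hxy⟩ := Submodule.mem_sup.mp hxO
    obtain ⟨c, rfl⟩ := Submodule.mem_span_singleton.mp hy'
    have hy2 := hy
    rw [← hW₁eq] at hy2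
    obtain ⟨u, hu, w', hw', huw⟩ := Submodule.mem_sup.mp hy2
    obtain ⟨a, rfl⟩ := Submodule.mem_span_singleton.mp hw'
    have hQx : qp32 F m x = c * a * QuadraticMap.polar ⇑(qp32 F m) w z := by
      rw [← hxy]
      have h1 : qp32 F m (y + c • z) = qp32 F m y + qp32 F m (c • z) + QuadraticMap.polar ⇑(qp32 F m) y (c • z) := by
        rw [QuadraticMap.polar]; ring
      rw [h1, QuadraticMap.map_smul, hQz, hW₁ts y hy, QuadraticMap.polar_smul_right, ← huw,
        QuadraticMap.polar_add_left, QuadraticMap.polar_smul_left, hUz u hu z hzO]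
      simp only [smul_eq_mul, mul_zero, add_zero, zero_add]
      ring
    rw [hWts x hxW] at hQx
    have hca : c = 0 ∨ a = 0 := by
      rcases mul_eq_zero.mp hQx.symm with h | h
      · exact mul_eq_zero.mp h
      · exact absurd h hbz
    rcases hca with hc | ha
    · left
      have hxW₁ : x ∈ W₁ := by
        rw [← hxy, hc, zero_smul, add_zero]; exact hy
      have hle : W ≤ W₁ := by rw [← hWeq]; exact sup_le hUW₁ ((Submodule.span_singleton_le_iff_mem x W₁).mpr hxW₁)
      exact Submodule.eq_of_le_of_finrank_eq hle (by rw [hWd, hW₁d])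
    · right
      have hxW₂ : x ∈ W₂ := by
        rw [← hxy, ← huw, ha, zero_smul, add_zero]
        exact Submodule.add_mem _ (Submodule.mem_sup_left hu) (Submodule.smul_mem _ _ hzW₂)
      have hle : W ≤ W₂ := by rw [← hWeq]; exact sup_le le_sup_left ((Submodule.span_singleton_le_iff_mem x W₂).mpr hxW₂)
      exact Submodule.eq_of_le_of_finrank_eq hle (by rw [hWd, hW₂d])
  have hset : {W : Submodule F (Fin m ⊕ Fin m → F) | Module.finrank F W = m ∧ (∀ w ∈ W, Cfsg.quadFormPlus m F w = 0) ∧ U ≤ W} = {W₁, W₂} := by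
    ext W
    simp only [Set.mem_ofPred_eq, Set.mem_insert_iff, Set.mem_singleton_iff]
    constructor
    · rintro ⟨h1, h2, h3⟩
      exact hclass W h1 (fun w hw => by rw [qp_apply32]; exact h2 w hw) h3
    · rintro (h | h)
      · rw [h]; exact ⟨hW₁d, fun w hw => by rw [← qp_apply32]; exact hW₁ts w hw, hUW₁⟩
      · rw [h]; exact ⟨hW₂d, fun w hw => by rw [← qp_apply32]; exact hW₂ts w hw, le_sup_left⟩
  have hcard : Nat.card {W : Submodule F (Fin m ⊕ Fin m → F) // Module.finrank F W = m ∧ (∀ w ∈ W, Cfsg.quadFormPlus m F w = 0) ∧ U ≤ W} = Set.ncard {W : Submodule F (Fin m ⊕ Fin m → F) | Module.finrank F W = m ∧ (∀ w ∈ W, Cfsg.quadFormPlus m F w = 0) ∧ U ≤ W} := rfl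
  rw [hcard, hset, Set.ncard_pair hne]

end Cfsg.Agent.S0832
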