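import Cfsg.Statements.S2562
import Mathlib
import Cfsg.Statements.S2562
import Cfsg.Agent.S0759
import Cfsg.Agent.S0760
import Cfsg.Agent.S0832
import Cfsg.Agent.S2618
import Cfsg.Agent.S2623

set_option autoImplicit false
open Cfsg
open scoped commutatorElement

namespace Cfsg.Agent.S2562

open Cfsg.Agent.S0759 Cfsg.Agent.S0760 Cfsg.Agent.S0832 Cfsg.Agent.S2618 Cfsg.Agent.S2623
open Module

/-- the minus-type form as a quadratic form -/
noncomputable def qm62 (F : Type*) [Field F] (k : ℕ) (a b : F) : QuadraticForm F ((Fin k ⊕ Fin k) ⊕ Fin 2 → F) :=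
  (qp32 F k).comp (LinearMap.funLeft F F Sum.inl) +
    (LinearMap.BilinMap.toQuadraticMap (Matrix.toBilin' (!![1, a; 0, b] : Matrix (Fin 2) (Fin 2) F))).comp (LinearMap.funLeft F F Sum.inr)

theorem qm_apply62 {F : Type*} [Field F] (k : ℕ) (a b : F) (v : (Fin k ⊕ Fin k) ⊕ Fin 2 → F) :
    qm62 F k a b v = Cfsg.quadFormMinus k F a b v := by
  unfold qm62 Cfsg.quadFormMinus
  rw [QuadraticMap.add_apply, QuadraticMap.comp_apply, QuadraticMap.comp_apply, qp_apply32, LinearMap.BilinMap.toQuadraticMap_apply, Matrix.toBilin'_apply']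
  simp [Cfsg.quadFormPlus, LinearMap.funLeft_apply, dotProduct, Matrix.mulVec, Fin.sum_univ_two]
  ring

theorem qm_polar62 {F : Type*} [Field F] (k : ℕ) (a b : F) (u v : (Fin k ⊕ Fin k) ⊕ Fin 2 → F) :
    QuadraticMap.polar ⇑(qm62 F k a b) u v =
      ∑ i, (u (Sum.inl (Sum.inl i)) * v (Sum.inl (Sum.inr i)) + u (Sum.inl (Sum.inr i)) * v (Sum.inl (Sum.inl i)))
        + (2 * u (Sum.inr 0) * v (Sum.inr 0) + a * (u (Sum.inr 0) * v (Sum.inr 1) + u (Sum.inr 1) * v (Sum.inr 0)) + 2 * b * u (Sum.inr 1) * v (Sum.inr 1)) := by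
  simp only [QuadraticMap.polar, qm_apply62, Cfsg.quadFormMinus, Pi.add_apply]
  rw [show ∀ (A B C D E G : F), A + B - (C + D) - (E + G) = (A - C - E) + (B - D - G) from fun _ _ _ _ _ _ => by ring]
  rw [← Finset.sum_sub_distrib, ← Finset.sum_sub_distrib]
  congr 1
  · apply Finset.sum_congr rfl; intro i _; ring
  · ring

theorem qm_nondeg62 {F : Type*} [Field F] (k : ℕ) (a b : F) (hab : 4 * b - a ^ 2 ≠ 0) :
    (QuadraticMap.polarBilin (qm62 F k a b)).Nondegenerate := by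
  classical
  have key : ∀ x, (∀ y, QuadraticMap.polar ⇑(qm62 F k a b) x y = 0) → x = 0 := by
    intro x hx
    have h0 := hx (Pi.single (Sum.inr 0) 1)
    have h1 := hx (Pi.single (Sum.inr 1) 1)
    rw [qm_polar62] at h0 h1
    simp [Pi.single_apply] at h0 h1
    have hx1 : x (Sum.inr 1) = 0 := by
      have h3 : (4 * b - a ^ 2) * x (Sum.inr 1) = 0 := by linear_combination 2 * h1 - a * h0
      exact (mul_eq_zero.mp h3).resolve_left hab
    have hx0 : x (Sum.inr 0) = 0 := by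
      have h3 : (4 * b - a ^ 2) * x (Sum.inr 0) = 0 := by linear_combination 2 * b * h0 - a * h1
      exact (mul_eq_zero.mp h3).resolve_left hab
    funext j
    rcases j with (i | i) | i
    · have h2 := hx (Pi.single (Sum.inl (Sum.inr i)) 1)
      rw [qm_polar62] at h2
      simpa [Pi.single_apply] using h2
    · have h2 := hx (Pi.single (Sum.inl (Sum.inl i)) 1)
      rw [qm_polar62] at h2
      simpa [Pi.single_apply] using h2
    · fin_cases i
      · exact hx0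
      · exact hx1
  constructor
  · intro x hx
    exact key x (fun y => by rw [← QuadraticMap.polarBilin_apply_apply]; exact hx y)
  · intro y hy
    exact key y (fun x => by
      rw [QuadraticMap.polar_comm, ← QuadraticMap.polarBilin_apply_apply]; exact hy x)

theorem plane_std62 (F : Type*) [Field F] (k : ℕ) (a b : F) :
    PlaneFam23 (qm62 F k a b) (fun i : Fin k => Pi.single (Sum.inl (Sum.inl i)) 1)
      (fun i : Fin k => Pi.single (Sum.inl (Sum.inr i)) 1) (Pi.single (Sum.inr 0) 1) (Pi.single (Sum.inr 1) 1) 1 a b := by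
  classical
  refine ⟨⟨fun i => ⟨?_, ?_⟩, fun i j => ?_, fun i j => ⟨?_, ?_⟩⟩, fun i => ⟨?_, ?_, ?_, ?_⟩, ?_, ?_, ?_⟩
  · rw [qm_apply62]; simp [Cfsg.quadFormMinus, Pi.single_apply]
  · rw [qm_apply62]; simp [Cfsg.quadFormMinus, Pi.single_apply]
  · rw [qm_polar62]; simp [Pi.single_apply, eq_comm]
  · rw [qm_polar62]; simp [Pi.single_apply]
  · rw [qm_polar62]; simp [Pi.single_apply]
  · rw [qm_polar62]; simp [Pi.single_apply]
  · rw [qm_polar62]; simp [Pi.single_apply]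
  · rw [qm_polar62]; simp [Pi.single_apply]
  · rw [qm_polar62]; simp [Pi.single_apply]
  · rw [qm_apply62]; simp [Cfsg.quadFormMinus, Pi.single_apply]
  · rw [qm_polar62]; simp [Pi.single_apply]
  · rw [qm_apply62]; simp [Cfsg.quadFormMinus, Pi.single_apply]

theorem span_std62 (F : Type*) [Field F] (k : ℕ) :
    Submodule.span F (Set.range (Sum.elim (Sum.elim (fun i : Fin k => (Pi.single (Sum.inl (Sum.inl i)) 1 : (Fin k ⊕ Fin k) ⊕ Fin 2 → F))
      (fun i : Fin k => Pi.single (Sum.inl (Sum.inr i)) 1)) ![Pi.single (Sum.inr 0) 1, Pi.single (Sum.inr 1) 1] :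
      (Fin k ⊕ Fin k) ⊕ Fin 2 → ((Fin k ⊕ Fin k) ⊕ Fin 2 → F))) = ⊤ := by
  classical
  have h1 : (Sum.elim (Sum.elim (fun i : Fin k => (Pi.single (Sum.inl (Sum.inl i)) 1 : (Fin k ⊕ Fin k) ⊕ Fin 2 → F))
      (fun i : Fin k => Pi.single (Sum.inl (Sum.inr i)) 1)) ![Pi.single (Sum.inr 0) 1, Pi.single (Sum.inr 1) 1] :
      (Fin k ⊕ Fin k) ⊕ Fin 2 → ((Fin k ⊕ Fin k) ⊕ Fin 2 → F)) = ⇑(Pi.basisFun F ((Fin k ⊕ Fin k) ⊕ Fin 2)) := by
    funext j
    rcases j with (i | i) | i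
    · simp
    · simp
    · fin_cases i <;> simp
  rw [h1]
  exact (Pi.basisFun F ((Fin k ⊕ Fin k) ⊕ Fin 2)).span_eq

theorem ell_bound62 {F : Type*} [Field F] [Finite F] (k : ℕ) (ζ : F) (hζ : ∀ t : F, t ^ 2 + t + ζ ≠ 0)
    (U : Submodule F ((Fin k ⊕ Fin k) ⊕ Fin 2 → F)) (hU : ∀ u ∈ U, qm62 F k 1 ζ u = 0) : finrank F U ≤ k := by
  classical
  have hab : (4 : F) * ζ - 1 ^ 2 ≠ 0 := by
    intro h0
    by_cases h2 : (2 : F) = 0
    · have h4 : (4 : F) = 0 := by linear_combination 2 * h2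
      rw [h4] at h0; simp at h0
    · apply hζ (-(1/2))
      field_simp
      linear_combination h0
  have hnd := qm_nondeg62 k 1 ζ hab
  have hP := plane_std62 F k 1 ζ
  have hsp := span_std62 F k
  obtain ⟨U', hUU', hU'ts, hU'max⟩ := exists_max_ts59 (qm62 F k 1 ζ) (finrank F ((Fin k ⊕ Fin k) ⊕ Fin 2 → F)) U hU (Nat.sub_le _ _)
  have hEmax : ∀ W : Submodule F ((Fin k ⊕ Fin k) ⊕ Fin 2 → F), Submodule.span F (Set.range (fun i : Fin k => (Pi.single (Sum.inl (Sum.inl i)) 1 : (Fin k ⊕ Fin k) ⊕ Fin 2 → F))) ≤ W → (∀ w ∈ W, qm62 F k 1 ζ w = 0) → W = Submodule.span F (Set.range (fun i : Fin k => (Pi.single (Sum.inl (Sum.inl i)) 1 : (Fin k ⊕ Fin k) ⊕ Fin 2 → F))) :=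
    fun W hle hW => ell_max59 _ _ _ _ _ ζ hP hζ hsp W hle hW
  have hEts := ts_span59 _ _ _ hP.1
  have h1 := (Cfsg.Agent.S0760.result (qm62 F k 1 ζ) hnd U' _ hU'ts hEts hU'max hEmax).1
  have h2 : finrank F (Submodule.span F (Set.range (fun i : Fin k => (Pi.single (Sum.inl (Sum.inl i)) 1 : (Fin k ⊕ Fin k) ⊕ Fin 2 → F)))) = k := by
    rw [finrank_span_eq_card (li_e59 _ _ _ hP.1)]; simp
  have h3 := Submodule.finrank_mono hUU'
  omega

theorem ell_exists62 (F : Type*) [Field F] (k : ℕ) (a b : F) :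
    ∃ U : Submodule F ((Fin k ⊕ Fin k) ⊕ Fin 2 → F), (∀ u ∈ U, qm62 F k a b u = 0) ∧ finrank F U = k := by
  classical
  have hP := plane_std62 F k a b
  refine ⟨Submodule.span F (Set.range (fun i : Fin k => (Pi.single (Sum.inl (Sum.inl i)) 1 : (Fin k ⊕ Fin k) ⊕ Fin 2 → F))), ts_span59 _ _ _ hP.1, ?_⟩
  rw [finrank_span_eq_card (li_e59 _ _ _ hP.1)]; simp

theorem plus_bound62 {F : Type*} [Field F] (m : ℕ) (W : Submodule F (Fin m ⊕ Fin m → F)) (hW : ∀ w ∈ W, qp32 F m w = 0) :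
    finrank F W ≤ m := by
  have hV : finrank F (Fin m ⊕ Fin m → F) = 2 * m := by
    rw [Module.finrank_fintype_fun_eq_card, Fintype.card_sum, Fintype.card_fin]; ring
  have h1 := Submodule.finrank_mono (ts_le_orth60 (qp32 F m) W hW)
  rw [LinearMap.BilinForm.finrank_orthogonal (qp_nondeg32 m), hV] at h1
  have h2 := Submodule.finrank_le W
  rw [hV] at h2
  omega

theorem plus_exists62 (F : Type*) [Field F] (m : ℕ) :
    ∃ L : Submodule F (Fin m ⊕ Fin m → F), (∀ w ∈ L, qp32 F m w = 0) ∧ finrank F L = m := by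
  have hV : finrank F (Fin m ⊕ Fin m → F) = 2 * m := by
    rw [Module.finrank_fintype_fun_eq_card, Fintype.card_sum, Fintype.card_fin]; ring
  refine ⟨LinearMap.ker (LinearMap.pi (fun i : Fin m => LinearMap.proj (Sum.inr i)) : (Fin m ⊕ Fin m → F) →ₗ[F] (Fin m → F)), ?_, ?_⟩
  · intro w hw
    rw [qp_apply32]; unfold Cfsg.quadFormPlus
    apply Finset.sum_eq_zero; intro i _
    have h1 : w (Sum.inr i) = 0 := congrFun (LinearMap.mem_ker.mp hw) i
    rw [h1, mul_zero]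
  · have h1 := LinearMap.finrank_range_add_finrank_ker (LinearMap.pi (fun i : Fin m => LinearMap.proj (Sum.inr i)) : (Fin m ⊕ Fin m → F) →ₗ[F] (Fin m → F))
    have hsurj : Function.Surjective (LinearMap.pi (fun i : Fin m => LinearMap.proj (Sum.inr i)) : (Fin m ⊕ Fin m → F) →ₗ[F] (Fin m → F)) := by
      intro c
      exact ⟨Sum.elim 0 c, by funext i; simp⟩
    rw [LinearMap.range_eq_top.mpr hsurj, finrank_top, Module.finrank_fin_fun, hV] at h1
    omega

/-- Witt indices over the field of two elements, m ≥ 1: for the plus-type form Σ xᵢyᵢ in dimension 2m some m-dimensional subspace is totally singular and no totally singular subspace has larger dimension; for the minus-type form Σ xᵢyᵢ + (z₁² + z₁z₂ + z₂²) in dimension 2m the maximal dimension of a totally singular subspace is m − 1. -/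
theorem result (m : ℕ) (hm : 1 ≤ m) :
    (∃ U : Submodule (ZMod 2) (Fin m ⊕ Fin m → ZMod 2), (∀ u ∈ U, Cfsg.quadFormPlus m (ZMod 2) u = 0) ∧ Module.finrank (ZMod 2) ↥U = m) ∧
    (∀ U : Submodule (ZMod 2) (Fin m ⊕ Fin m → ZMod 2), (∀ u ∈ U, Cfsg.quadFormPlus m (ZMod 2) u = 0) → Module.finrank (ZMod 2) ↥U ≤ m) ∧
    (∃ U : Submodule (ZMod 2) ((Fin (m - 1) ⊕ Fin (m - 1)) ⊕ Fin 2 → ZMod 2), (∀ u ∈ U, Cfsg.quadFormMinus (m - 1) (ZMod 2) 1 1 u = 0) ∧ Module.finrank (ZMod 2) ↥U = m - 1) ∧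
    (∀ U : Submodule (ZMod 2) ((Fin (m - 1) ⊕ Fin (m - 1)) ⊕ Fin 2 → ZMod 2), (∀ u ∈ U, Cfsg.quadFormMinus (m - 1) (ZMod 2) 1 1 u = 0) → Module.finrank (ZMod 2) ↥U ≤ m - 1) := by
  refine ⟨?_, ?_, ?_, ?_⟩
  · obtain ⟨L, hL, hLd⟩ := plus_exists62 (ZMod 2) m
    exact ⟨L, fun u hu => by rw [← qp_apply32]; exact hL u hu, hLd⟩
  · intro U hU
    exact plus_bound62 m U (fun u hu => by rw [qp_apply32]; exact hU u hu)
  · obtain ⟨U, hU, hUd⟩ := ell_exists62 (ZMod 2) (m - 1) 1 1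
    exact ⟨U, fun u hu => by rw [← qm_apply62]; exact hU u hu, hUd⟩
  · intro U hU
    exact ell_bound62 (m - 1) 1 (by decide) U (fun u hu => by rw [qm_apply62]; exact hU u hu)

end Cfsg.Agent.S2562
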