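import Cfsg.Statements.S0831
import Mathlib
import Cfsg.Statements.S0831
import Cfsg.Agent.S0760
import Cfsg.Agent.S0832
import Cfsg.Agent.S2562

set_option autoImplicit false
open Cfsg
open scoped commutatorElement

namespace Cfsg.Agent.S0831

open Cfsg.Agent.S0760 Cfsg.Agent.S0832 Cfsg.Agent.S2562
open Module

theorem hV31 (F : Type*) [Field F] (m : ℕ) : finrank F (Fin m ⊕ Fin m → F) = 2 * m := by
  rw [Module.finrank_fintype_fun_eq_card, Fintype.card_sum, Fintype.card_fin]; ring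

theorem orth_self31 {F : Type*} [Field F] (m : ℕ) (W : Submodule F (Fin m ⊕ Fin m → F))
    (hW : ∀ w ∈ W, qp32 F m w = 0) (hd : finrank F W = m) :
    LinearMap.BilinForm.orthogonal (QuadraticMap.polarBilin (qp32 F m)) W = W := by
  have hle := ts_le_orth60 (qp32 F m) W hW
  have hfr : finrank F (LinearMap.BilinForm.orthogonal (QuadraticMap.polarBilin (qp32 F m)) W) = m := by
    rw [LinearMap.BilinForm.finrank_orthogonal (qp_nondeg32 m), hV31, hd]; omega
  exact (Submodule.eq_of_le_of_finrank_eq hle (by rw [hfr, hd])).symm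

theorem classA31 {F : Type*} [Field F] (m : ℕ) (H W₁ W₂ W : Submodule F (Fin m ⊕ Fin m → F))
    (hHd : finrank F H + 1 = m)
    (h₁ : ∀ w ∈ W₁, qp32 F m w = 0) (hd₁ : finrank F W₁ = m) (hH₁ : H ≤ W₁)
    (h₂ : ∀ w ∈ W₂, qp32 F m w = 0) (hd₂ : finrank F W₂ = m) (hH₂ : H ≤ W₂)
    (hne : W₁ ≠ W₂)
    (hW : ∀ w ∈ W, qp32 F m w = 0) (hd : finrank F W = m) (hHW : H ≤ W) : W = W₁ ∨ W = W₂ := by
  have hnd := qp_nondeg32 (F := F) m
  have hV := hV31 F m
  set O := LinearMap.BilinForm.orthogonal (QuadraticMap.polarBilin (qp32 F m)) H with hO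
  have hOd : finrank F O = m + 1 := by
    rw [hO, LinearMap.BilinForm.finrank_orthogonal hnd, hV]; omega
  have hW₁O : W₁ ≤ O := (ts_le_orth60 (qp32 F m) W₁ h₁).trans (LinearMap.BilinForm.orthogonal_le hH₁)
  have hW₂O : W₂ ≤ O := (ts_le_orth60 (qp32 F m) W₂ h₂).trans (LinearMap.BilinForm.orthogonal_le hH₂)
  obtain ⟨w, hwW, hwH⟩ : ∃ w ∈ W₁, w ∉ H := by
    by_contra hcon; push Not at hcon
    have h1 := Submodule.finrank_mono (show W₁ ≤ H from hcon)
    omega
  have hW₁eq : H ⊔ Submodule.span F {w} = W₁ := sup_eq32 H W₁ hH₁ (by omega) w hwW hwH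
  obtain ⟨z, hzW, hzH⟩ : ∃ z ∈ W₂, z ∉ H := by
    by_contra hcon; push Not at hcon
    have h1 := Submodule.finrank_mono (show W₂ ≤ H from hcon)
    omega
  have hW₂eq : H ⊔ Submodule.span F {z} = W₂ := sup_eq32 H W₂ hH₂ (by omega) z hzW hzH
  have hzW₁ : z ∉ W₁ := by
    intro hz
    apply hne
    have hle : W₂ ≤ W₁ := by rw [← hW₂eq]; exact sup_le hH₁ ((Submodule.span_singleton_le_iff_mem z W₁).mpr hz)
    exact (Submodule.eq_of_le_of_finrank_eq hle (by rw [hd₁, hd₂])).symm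
  have hzO : z ∈ O := hW₂O hzW
  have hOeq : W₁ ⊔ Submodule.span F {z} = O := sup_eq32 W₁ O hW₁O (by omega) z hzO hzW₁
  have hUz : ∀ u ∈ H, ∀ y ∈ O, QuadraticMap.polar ⇑(qp32 F m) u y = 0 := by
    intro u hu y hy
    have h1 := (LinearMap.BilinForm.mem_orthogonal_iff.mp hy) u hu
    rwa [QuadraticMap.polarBilin_apply_apply] at h1
  have hQz : qp32 F m z = 0 := h₂ z hzW
  have hbz : QuadraticMap.polar ⇑(qp32 F m) w z ≠ 0 := by
    intro h0
    have hz0 : z ∈ LinearMap.BilinForm.orthogonal (QuadraticMap.polarBilin (qp32 F m)) W₁ := by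
      rw [LinearMap.BilinForm.mem_orthogonal_iff]
      intro n hn
      rw [← hW₁eq] at hn
      obtain ⟨u, hu, y, hy, rfl⟩ := Submodule.mem_sup.mp hn
      obtain ⟨a, rfl⟩ := Submodule.mem_span_singleton.mp hy
      rw [QuadraticMap.polarBilin_apply_apply, QuadraticMap.polar_add_left, QuadraticMap.polar_smul_left, hUz u hu z hzO, h0]
      simp
    rw [orth_self31 m W₁ h₁ hd₁] at hz0
    exact hzW₁ hz0
  obtain ⟨x, hxW, hxH⟩ : ∃ x ∈ W, x ∉ H := by
    by_contra hcon; push Not at hcon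
    have h1 := Submodule.finrank_mono (show W ≤ H from hcon)
    omega
  have hWeq : H ⊔ Submodule.span F {x} = W := sup_eq32 H W hHW (by omega) x hxW hxH
  have hWO : W ≤ O := (ts_le_orth60 (qp32 F m) W hW).trans (LinearMap.BilinForm.orthogonal_le hHW)
  have hxO := hWO hxW
  rw [← hOeq] at hxO
  obtain ⟨y, hy, y', hy', hxy⟩ := Submodule.mem_sup.mp hxO
  obtain ⟨c, rfl⟩ := Submodule.mem_span_singleton.mp hy'
  have hy2 := hy
  rw [← hW₁eq] at hy2
  obtain ⟨u, hu, w', hw', huw⟩ := Submodule.mem_sup.mp hy2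
  obtain ⟨a, rfl⟩ := Submodule.mem_span_singleton.mp hw'
  have hQx : qp32 F m x = c * a * QuadraticMap.polar ⇑(qp32 F m) w z := by
    rw [← hxy]
    have h1 : qp32 F m (y + c • z) = qp32 F m y + qp32 F m (c • z) + QuadraticMap.polar ⇑(qp32 F m) y (c • z) := by
      rw [QuadraticMap.polar]; ring
    rw [h1, QuadraticMap.map_smul, hQz, h₁ y hy, QuadraticMap.polar_smul_right, ← huw,
      QuadraticMap.polar_add_left, QuadraticMap.polar_smul_left, hUz u hu z hzO]
    simp only [smul_eq_mul, mul_zero, add_zero, zero_add]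
    ring
  rw [hW x hxW] at hQx
  have hca : c = 0 ∨ a = 0 := by
    rcases mul_eq_zero.mp hQx.symm with h | h
    · exact mul_eq_zero.mp h
    · exact absurd h hbz
  rcases hca with hc | ha
  · left
    have hxW₁ : x ∈ W₁ := by
      rw [← hxy, hc, zero_smul, add_zero]; exact hy
    have hle : W ≤ W₁ := by rw [← hWeq]; exact sup_le hH₁ ((Submodule.span_singleton_le_iff_mem x W₁).mpr hxW₁)
    exact Submodule.eq_of_le_of_finrank_eq hle (by rw [hd, hd₁])
  · right
    have hxW₂ : x ∈ W₂ := by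
      rw [← hxy, ← huw, ha, zero_smul, add_zero]
      exact Submodule.add_mem _ (hH₂ hu) (Submodule.smul_mem _ _ hzW)
    have hle : W ≤ W₂ := by rw [← hWeq]; exact sup_le hH₂ ((Submodule.span_singleton_le_iff_mem x W₂).mpr hxW₂)
    exact Submodule.eq_of_le_of_finrank_eq hle (by rw [hd, hd₂])

theorem adj31 {F : Type*} [Field F] (m : ℕ) (U W X : Submodule F (Fin m ⊕ Fin m → F))
    (hU : ∀ w ∈ U, qp32 F m w = 0) (hUd : finrank F U = m)
    (hW : ∀ w ∈ W, qp32 F m w = 0) (hWd : finrank F W = m)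
    (hX : ∀ w ∈ X, qp32 F m w = 0) (hXd : finrank F X = m)
    (hUW : finrank F ↥(U ⊓ W) + 1 = m) :
    finrank F ↥(X ⊓ U) = finrank F ↥(X ⊓ W) + 1 ∨ finrank F ↥(X ⊓ W) = finrank F ↥(X ⊓ U) + 1 := by
  have hnd := qp_nondeg32 (F := F) m
  have hV := hV31 F m
  have hHts : ∀ w ∈ U ⊓ W, qp32 F m w = 0 := fun w hw => hU w hw.1
  have hUO : U ≤ LinearMap.BilinForm.orthogonal (QuadraticMap.polarBilin (qp32 F m)) (U ⊓ W) :=
    (ts_le_orth60 _ U hU).trans (LinearMap.BilinForm.orthogonal_le inf_le_left)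
  have hWO : W ≤ LinearMap.BilinForm.orthogonal (QuadraticMap.polarBilin (qp32 F m)) (U ⊓ W) :=
    (ts_le_orth60 _ W hW).trans (LinearMap.BilinForm.orthogonal_le inf_le_right)
  have hHO : U ⊓ W ≤ LinearMap.BilinForm.orthogonal (QuadraticMap.polarBilin (qp32 F m)) (U ⊓ W) := inf_le_left.trans hUO
  have hXO : X ⊓ LinearMap.BilinForm.orthogonal (QuadraticMap.polarBilin (qp32 F m)) (U ⊓ W) = LinearMap.BilinForm.orthogonal (QuadraticMap.polarBilin (qp32 F m)) (X ⊔ (U ⊓ W)) := by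
    rw [orth_sup60, orth_self31 m X hX hXd]
  have hrle : finrank F ↥(X ⊓ (U ⊓ W)) ≤ finrank F ↥(U ⊓ W) := Submodule.finrank_mono inf_le_right
  have hr : finrank F ↥(X ⊓ LinearMap.BilinForm.orthogonal (QuadraticMap.polarBilin (qp32 F m)) (U ⊓ W)) = finrank F ↥(X ⊓ (U ⊓ W)) + 1 := by
    rw [hXO, LinearMap.BilinForm.finrank_orthogonal hnd, hV]
    have h1 := Submodule.finrank_sup_add_finrank_inf_eq X (U ⊓ W)
    omega
  have hX'ts : ∀ y ∈ (X ⊓ LinearMap.BilinForm.orthogonal (QuadraticMap.polarBilin (qp32 F m)) (U ⊓ W)) ⊔ (U ⊓ W), qp32 F m y = 0 := by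
    intro y hy
    obtain ⟨a, ha, h, hh, rfl⟩ := Submodule.mem_sup.mp hy
    have h1 : qp32 F m (a + h) = qp32 F m a + qp32 F m h + QuadraticMap.polar ⇑(qp32 F m) a h := by
      rw [QuadraticMap.polar]; ring
    have h2 : QuadraticMap.polar ⇑(qp32 F m) h a = 0 := by
      have h3 := (LinearMap.BilinForm.mem_orthogonal_iff.mp ha.2) h hh
      rwa [QuadraticMap.polarBilin_apply_apply] at h3
    rw [h1, hX a ha.1, hHts h hh, QuadraticMap.polar_comm, h2]; simp
  have hX'd : finrank F ↥((X ⊓ LinearMap.BilinForm.orthogonal (QuadraticMap.polarBilin (qp32 F m)) (U ⊓ W)) ⊔ (U ⊓ W)) = m := by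
    have h1 := plus_bound62 m _ hX'ts
    have h2 := Submodule.finrank_sup_add_finrank_inf_eq (X ⊓ LinearMap.BilinForm.orthogonal (QuadraticMap.polarBilin (qp32 F m)) (U ⊓ W)) (U ⊓ W)
    have h3 : (X ⊓ LinearMap.BilinForm.orthogonal (QuadraticMap.polarBilin (qp32 F m)) (U ⊓ W)) ⊓ (U ⊓ W) = X ⊓ (U ⊓ W) := by
      rw [inf_assoc, inf_eq_right.mpr hHO]
    rw [h3] at h2
    omega
  have hne : U ≠ W := by
    intro h
    rw [h, inf_idem] at hUW
    omega
  rcases classA31 m (U ⊓ W) U W _ hUW hU hUd inf_le_left hW hWd inf_le_right hne hX'ts hX'd le_sup_right with h | h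
  · left
    have e1 : X ⊓ U = X ⊓ LinearMap.BilinForm.orthogonal (QuadraticMap.polarBilin (qp32 F m)) (U ⊓ W) :=
      le_antisymm (inf_le_inf_left X hUO) (le_inf inf_le_left (le_sup_left.trans h.le))
    have e2 : X ⊓ W = X ⊓ (U ⊓ W) := by
      apply le_antisymm
      · rintro x ⟨hx1, hx2⟩
        have hx3 : x ∈ X ⊓ U := by rw [e1]; exact ⟨hx1, hWO hx2⟩
        exact ⟨hx1, hx3.2, hx2⟩
      · exact inf_le_inf_left X inf_le_right
    rw [e1, e2, hr]
  · right
    have e1 : X ⊓ W = X ⊓ LinearMap.BilinForm.orthogonal (QuadraticMap.polarBilin (qp32 F m)) (U ⊓ W) :=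
      le_antisymm (inf_le_inf_left X hWO) (le_inf inf_le_left (le_sup_left.trans h.le))
    have e2 : X ⊓ U = X ⊓ (U ⊓ W) := by
      apply le_antisymm
      · rintro x ⟨hx1, hx2⟩
        have hx3 : x ∈ X ⊓ W := by rw [e1]; exact ⟨hx1, hUO hx2⟩
        exact ⟨hx1, hx2, hx3.2⟩
      · exact inf_le_inf_left X inf_le_left
    rw [e1, e2, hr]

theorem step31 {F : Type*} [Field F] (m : ℕ) (U W : Submodule F (Fin m ⊕ Fin m → F))
    (hU : ∀ w ∈ U, qp32 F m w = 0) (hUd : finrank F U = m)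
    (hW : ∀ w ∈ W, qp32 F m w = 0) (hWd : finrank F W = m) (hne : U ≠ W) :
    ∃ U' : Submodule F (Fin m ⊕ Fin m → F), (∀ w ∈ U', qp32 F m w = 0) ∧ finrank F U' = m ∧
      finrank F ↥(U ⊓ U') + 1 = m ∧ finrank F ↥(U' ⊓ W) = finrank F ↥(U ⊓ W) + 1 := by
  have hnd := qp_nondeg32 (F := F) m
  have hV := hV31 F m
  obtain ⟨h, hhW, hhU⟩ : ∃ h ∈ W, h ∉ U := by
    by_contra hcon; push Not at hcon
    exact hne (Submodule.eq_of_le_of_finrank_eq (show W ≤ U from hcon) (by rw [hUd, hWd])).symm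
  have hh0 : h ≠ 0 := fun h0 => hhU (h0 ▸ U.zero_mem)
  obtain ⟨S, hSdef⟩ : ∃ S : Submodule F (Fin m ⊕ Fin m → F), S = Submodule.span F {h} := ⟨_, rfl⟩
  have hhS : h ∈ S := by rw [hSdef]; exact Submodule.mem_span_singleton_self h
  have hSd : finrank F S = 1 := by rw [hSdef]; exact finrank_span_singleton hh0
  obtain ⟨O, hOdef⟩ : ∃ O : Submodule F (Fin m ⊕ Fin m → F), O = LinearMap.BilinForm.orthogonal (QuadraticMap.polarBilin (qp32 F m)) S := ⟨_, rfl⟩
  have hOmem : ∀ x, x ∈ O ↔ QuadraticMap.polar ⇑(qp32 F m) h x = 0 := by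
    intro x
    rw [hOdef, LinearMap.BilinForm.mem_orthogonal_iff]
    constructor
    · intro hx
      have h1 := hx h hhS
      rwa [QuadraticMap.polarBilin_apply_apply] at h1
    · intro hx n hn
      rw [hSdef] at hn
      obtain ⟨c, rfl⟩ := Submodule.mem_span_singleton.mp hn
      rw [QuadraticMap.polarBilin_apply_apply, QuadraticMap.polar_smul_left, hx]; simp
  have hU₀eq : U ⊓ O = LinearMap.BilinForm.orthogonal (QuadraticMap.polarBilin (qp32 F m)) (U ⊔ S) := by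
    rw [hOdef, orth_sup60, orth_self31 m U hU hUd]
  have hdisj : U ⊓ S = ⊥ := by
    rw [eq_bot_iff]
    rintro x ⟨hx1, hx2⟩
    have hx2' : x ∈ S := hx2
    rw [hSdef] at hx2'
    obtain ⟨c, rfl⟩ := Submodule.mem_span_singleton.mp hx2'
    by_cases hc : c = 0
    · rw [hc, zero_smul]; exact Submodule.zero_mem _
    · exfalso; apply hhU
      have h1 := U.smul_mem c⁻¹ hx1
      rwa [smul_smul, inv_mul_cancel₀ hc, one_smul] at h1
  obtain ⟨U₀, hU₀def⟩ : ∃ U₀ : Submodule F (Fin m ⊕ Fin m → F), U₀ = U ⊓ O := ⟨_, rfl⟩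
  have hU₀U : U₀ ≤ U := by rw [hU₀def]; exact inf_le_left
  have hU₀O : U₀ ≤ O := by rw [hU₀def]; exact inf_le_right
  have hU₀d : finrank F U₀ + 1 = m := by
    have h1 : finrank F ↥(U ⊔ S) + finrank F ↥(U ⊓ S) = finrank F U + finrank F S :=
      Submodule.finrank_sup_add_finrank_inf_eq U S
    have h2 : finrank F ↥(U ⊓ S) = 0 := by rw [hdisj]; exact finrank_bot F _
    have h3 : finrank F U₀ = finrank F (Fin m ⊕ Fin m → F) - finrank F ↥(U ⊔ S) := by
      rw [hU₀def, hU₀eq]; exact LinearMap.BilinForm.finrank_orthogonal hnd _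
    have h4 : finrank F ↥(U ⊔ S) ≤ finrank F (Fin m ⊕ Fin m → F) := Submodule.finrank_le _
    omega
  obtain ⟨U', hU'def⟩ : ∃ U' : Submodule F (Fin m ⊕ Fin m → F), U' = U₀ ⊔ S := ⟨_, rfl⟩
  have hU₀U' : U₀ ≤ U' := by rw [hU'def]; exact le_sup_left
  have hhU' : h ∈ U' := by rw [hU'def]; exact Submodule.mem_sup_right hhS
  have hU'ts : ∀ y ∈ U', qp32 F m y = 0 := by
    intro y hy
    rw [hU'def] at hy
    obtain ⟨u, hu, y', hy', rfl⟩ := Submodule.mem_sup.mp hy
    rw [hSdef] at hy'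
    obtain ⟨c, rfl⟩ := Submodule.mem_span_singleton.mp hy'
    have h1 : qp32 F m (u + c • h) = qp32 F m u + qp32 F m (c • h) + QuadraticMap.polar ⇑(qp32 F m) u (c • h) := by
      rw [QuadraticMap.polar]; ring
    rw [h1, QuadraticMap.map_smul, hW h hhW, hU u (hU₀U hu), QuadraticMap.polar_smul_right, QuadraticMap.polar_comm, (hOmem u).mp (hU₀O hu)]; simp
  have hU'd : finrank F U' = m := by
    have h1 : finrank F U' ≤ m := plus_bound62 m U' hU'ts
    have hlt : U₀ < U' := by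
      refine lt_of_le_of_ne hU₀U' (fun heq => hhU ?_)
      have h3 : h ∈ U₀ := by rw [heq]; exact hhU'
      exact hU₀U h3
    have h2 : finrank F U₀ < finrank F U' := Submodule.finrank_lt_finrank_of_lt hlt
    omega
  have hUU' : finrank F ↥(U ⊓ U') + 1 = m := by
    have hle : U₀ ≤ U ⊓ U' := le_inf hU₀U hU₀U'
    have h1 : finrank F U₀ ≤ finrank F ↥(U ⊓ U') := Submodule.finrank_mono hle
    have hlt : U ⊓ U' < U' := by
      refine lt_of_le_of_ne inf_le_right (fun heq => hhU ?_)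
      have h3 : h ∈ U ⊓ U' := by rw [heq]; exact hhU'
      exact h3.1
    have h2 : finrank F ↥(U ⊓ U') < finrank F U' := Submodule.finrank_lt_finrank_of_lt hlt
    omega
  refine ⟨U', hU'ts, hU'd, hUU', ?_⟩
  have hWpol : ∀ a ∈ W, ∀ b ∈ W, QuadraticMap.polar ⇑(qp32 F m) a b = 0 := by
    intro a ha b hb
    rw [QuadraticMap.polar, hW _ (W.add_mem ha hb), hW a ha, hW b hb]; ring
  have hUWle : U ⊓ W ≤ U₀ := by
    rintro x ⟨hx1, hx2⟩
    have hx1' : x ∈ U := hx1
    have hx2' : x ∈ W := hx2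
    show x ∈ U₀
    rw [hU₀def]
    exact ⟨hx1', (hOmem x).mpr (hWpol h hhW x hx2')⟩
  have hlt : U ⊓ W < U' ⊓ W := by
    refine lt_of_le_of_ne (le_inf (hUWle.trans hU₀U') inf_le_right) (fun heq => hhU ?_)
    have h3 : h ∈ U ⊓ W := by rw [heq]; exact ⟨hhU', hhW⟩
    exact h3.1
  have h1 : finrank F ↥(U ⊓ W) < finrank F ↥(U' ⊓ W) := Submodule.finrank_lt_finrank_of_lt hlt
  have hadj := adj31 m U U' W hU hUd hU'ts hU'd hW hWd hUU'
  rw [inf_comm W U, inf_comm W U'] at hadj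
  omega

theorem parity31 {F : Type*} [Field F] (m : ℕ) :
    ∀ (d : ℕ) (U W X : Submodule F (Fin m ⊕ Fin m → F)),
      (∀ w ∈ U, qp32 F m w = 0) → finrank F U = m → (∀ w ∈ W, qp32 F m w = 0) → finrank F W = m →
      (∀ w ∈ X, qp32 F m w = 0) → finrank F X = m → m - finrank F ↥(U ⊓ W) = d →
      Even ((m - finrank F ↥(U ⊓ W)) + (m - finrank F ↥(W ⊓ X)) + (m - finrank F ↥(U ⊓ X))) := by
  intro d
  induction d with
  | zero =>
    intro U W X hU hUd hW hWd hX hXd hd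
    have h1 : finrank F ↥(U ⊓ W) ≤ finrank F U := Submodule.finrank_mono inf_le_left
    have h2 : U ⊓ W = U := Submodule.eq_of_le_of_finrank_eq inf_le_left (by omega)
    have h3 : U ≤ W := inf_eq_left.mp h2
    have h4 : U = W := Submodule.eq_of_le_of_finrank_eq h3 (by rw [hUd, hWd])
    subst h4
    rw [inf_idem, hUd, Nat.even_iff]
    omega
  | succ d ih =>
    intro U W X hU hUd hW hWd hX hXd hd
    have hne : U ≠ W := by
      intro h; subst h; rw [inf_idem, hUd] at hd; omega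
    obtain ⟨U', hU'ts, hU'd, hUU', hU'W⟩ := step31 m U W hU hUd hW hWd hne
    have ih' := ih U' W X hU'ts hU'd hW hWd hX hXd (by omega)
    have hadj := adj31 m U U' X hU hUd hU'ts hU'd hX hXd hUU'
    rw [inf_comm X U, inf_comm X U'] at hadj
    have b1 : finrank F ↥(U ⊓ X) ≤ finrank F U := Submodule.finrank_mono inf_le_left
    have b2 : finrank F ↥(U' ⊓ X) ≤ finrank F U' := Submodule.finrank_mono inf_le_left
    have b3 : finrank F ↥(W ⊓ X) ≤ finrank F W := Submodule.finrank_mono inf_le_left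
    have b4 : finrank F ↥(U' ⊓ W) ≤ finrank F U' := Submodule.finrank_mono inf_le_left
    rw [Nat.even_iff] at ih' ⊢
    omega

theorem plus_exists31 (F : Type*) [Field F] (m : ℕ) :
    ∃ L : Submodule F (Fin m ⊕ Fin m → F), (∀ w ∈ L, qp32 F m w = 0) ∧ finrank F L = m ∧ ∀ w ∈ L, ∀ i, w (Sum.inl i) = 0 := by
  have hV := hV31 F m
  refine ⟨LinearMap.ker (LinearMap.pi (fun i : Fin m => LinearMap.proj (Sum.inl i)) : (Fin m ⊕ Fin m → F) →ₗ[F] (Fin m → F)), ?_, ?_, ?_⟩
  · intro w hw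
    rw [qp_apply32]; unfold Cfsg.quadFormPlus
    apply Finset.sum_eq_zero; intro i _
    have h1 : w (Sum.inl i) = 0 := congrFun (LinearMap.mem_ker.mp hw) i
    rw [h1, zero_mul]
  · have h1 := LinearMap.finrank_range_add_finrank_ker (LinearMap.pi (fun i : Fin m => LinearMap.proj (Sum.inl i)) : (Fin m ⊕ Fin m → F) →ₗ[F] (Fin m → F))
    have hsurj : Function.Surjective (LinearMap.pi (fun i : Fin m => LinearMap.proj (Sum.inl i)) : (Fin m ⊕ Fin m → F) →ₗ[F] (Fin m → F)) := by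
      intro c
      exact ⟨Sum.elim c 0, by funext i; simp⟩
    rw [LinearMap.range_eq_top.mpr hsurj, finrank_top, Module.finrank_fin_fun, hV] at h1
    omega
  · intro w hw i
    exact congrFun (LinearMap.mem_ker.mp hw) i

theorem plus_exists31' (F : Type*) [Field F] (m : ℕ) (hm : 1 ≤ m) :
    ∃ L : Submodule F (Fin m ⊕ Fin m → F), (∀ w ∈ L, qp32 F m w = 0) ∧ finrank F L = m ∧ ∃ w ∈ L, w (Sum.inl ⟨0, hm⟩) ≠ 0 := by
  classical
  have hV := hV31 F m
  refine ⟨LinearMap.ker (LinearMap.pi (fun i : Fin m => LinearMap.proj (Sum.inr i)) : (Fin m ⊕ Fin m → F) →ₗ[F] (Fin m → F)), ?_, ?_, ?_⟩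
  · intro w hw
    rw [qp_apply32]; unfold Cfsg.quadFormPlus
    apply Finset.sum_eq_zero; intro i _
    have h1 : w (Sum.inr i) = 0 := congrFun (LinearMap.mem_ker.mp hw) i
    rw [h1, mul_zero]
  · have h1 := LinearMap.finrank_range_add_finrank_ker (LinearMap.pi (fun i : Fin m => LinearMap.proj (Sum.inr i)) : (Fin m ⊕ Fin m → F) →ₗ[F] (Fin m → F))
    have hsurj : Function.Surjective (LinearMap.pi (fun i : Fin m => LinearMap.proj (Sum.inr i)) : (Fin m ⊕ Fin m → F) →ₗ[F] (Fin m → F)) := by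
      intro c
      exact ⟨Sum.elim 0 c, by funext i; simp⟩
    rw [LinearMap.range_eq_top.mpr hsurj, finrank_top, Module.finrank_fin_fun, hV] at h1
    omega
  · refine ⟨Pi.single (Sum.inl ⟨0, hm⟩) 1, ?_, by simp⟩
    rw [LinearMap.mem_ker]
    funext i
    simp

/-- The two families of maximal totally singular subspaces of the hyperbolic quadric: for the form Σ x_i y_i on F^(2m), m ≥ 1, and m-dimensional subspaces U, W, X on which it vanishes, the parities of m − dim(U ∩ W), m − dim(W ∩ X) and m − dim(U ∩ X) sum to an even number (so 'even codimension of the intersection' is an equivalence relation), and there exist two such subspaces meeting in codimension 1 (so there are exactly two classes). -/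
theorem result {F : Type*} [Field F] (m : ℕ) (hm : 1 ≤ m) : (∀ U W X : Submodule F (Fin m ⊕ Fin m → F), (Module.finrank F U = m ∧ ∀ w ∈ U, Cfsg.quadFormPlus m F w = 0) → (Module.finrank F W = m ∧ ∀ w ∈ W, Cfsg.quadFormPlus m F w = 0) → (Module.finrank F X = m ∧ ∀ w ∈ X, Cfsg.quadFormPlus m F w = 0) → Even ((m - Module.finrank F ↥(U ⊓ W)) + (m - Module.finrank F ↥(W ⊓ X)) + (m - Module.finrank F ↥(U ⊓ X)))) ∧ ∃ U W : Submodule F (Fin m ⊕ Fin m → F), (Module.finrank F U = m ∧ ∀ w ∈ U, Cfsg.quadFormPlus m F w = 0) ∧ (Module.finrank F W = m ∧ ∀ w ∈ W, Cfsg.quadFormPlus m F w = 0) ∧ Module.finrank F ↥(U ⊓ W) + 1 = m := by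
  refine ⟨?_, ?_⟩
  · rintro U W X ⟨hUd, hU⟩ ⟨hWd, hW⟩ ⟨hXd, hX⟩
    exact parity31 m _ U W X (fun w hw => by rw [qp_apply32]; exact hU w hw) hUd
      (fun w hw => by rw [qp_apply32]; exact hW w hw) hWd
      (fun w hw => by rw [qp_apply32]; exact hX w hw) hXd rfl
  · obtain ⟨L, hL, hLd, hL0⟩ := plus_exists31 F m
    obtain ⟨L', hL', hL'd, w, hw, hw0⟩ := plus_exists31' F m hm
    have hne : L' ≠ L := by
      intro h
      rw [h] at hw
      exact hw0 (hL0 w hw _)
    obtain ⟨U', hU'ts, hU'd, hUU', -⟩ := step31 m L' L hL' hL'd hL hLd hne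
    exact ⟨L', U', ⟨hL'd, fun w hw => by rw [← qp_apply32]; exact hL' w hw⟩,
      ⟨hU'd, fun w hw => by rw [← qp_apply32]; exact hU'ts w hw⟩, hUU'⟩

end Cfsg.Agent.S0831
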