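import Cfsg.Statements.S2629
import Mathlib
import Cfsg.Statements.S2629
import Cfsg.Agent.S0789
import Cfsg.Agent.S0831

set_option autoImplicit false
open Cfsg
open scoped commutatorElement

namespace Cfsg.Agent.S2629

open Cfsg.Agent.S0750 Cfsg.Agent.S0794 Cfsg.Agent.S0792 Cfsg.Agent.S0786 Cfsg.Agent.S2635 Cfsg.Agent.S0789 Cfsg.Agent.S0832 Cfsg.Agent.S0831 Matrix
open scoped commutatorElement

theorem par_cls29 {F : Type*} [Field F] {n : ℕ} (Q : QuadraticForm F (Fin n → F))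
    (P : ↥(Cfsg.isometryGroup F ⇑Q) → Prop)
    (hflip : ∀ (v : Fin n → F) (hv : Q v ≠ 0) (g : ↥(Cfsg.isometryGroup F ⇑Q)),
      P (reflEl92 Q v hv * g) ↔ ¬ P g)
    (x : ↥(Cfsg.isometryGroup F ⇑Q)) (hx : x ∈ Subgroup.closure (Tset92 Q)) :
    ∀ g, P (x * g) ↔ P g := by
  induction hx using Subgroup.closure_induction with
  | mem t ht =>
    obtain ⟨u, v, hu, hv, htm⟩ := ht
    intro g
    have e : t * g = reflEl92 Q u hu * (reflEl92 Q v hv * g) := by
      rw [← mul_assoc]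
      congr 1
      apply Subtype.ext
      apply Units.ext
      exact htm
    rw [e, hflip, hflip, not_not]
  | one =>
    intro g
    rw [one_mul]
  | mul x y _ _ hx hy =>
    intro g
    rw [mul_assoc, hx, hy]
  | inv x _ hx =>
    intro g
    have h1 := hx (x⁻¹ * g)
    rw [mul_inv_cancel_left] at h1
    exact h1.symm

theorem par_main29 {F : Type*} [Field F] [Fintype F] {n : ℕ} (hn : 1 ≤ n) (h : Fintype.card F ≠ 2 ∨ n ≠ 4)
    (Q : QuadraticForm F (Fin n → F)) (hQ : (QuadraticMap.polarBilin Q).Nondegenerate)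
    (P : ↥(Cfsg.isometryGroup F ⇑Q) → Prop) (h1 : P 1)
    (hflip : ∀ (v : Fin n → F) (hv : Q v ≠ 0) (g : ↥(Cfsg.isometryGroup F ⇑Q)),
      P (reflEl92 Q v hv * g) ↔ ¬ P g)
    (g : ↥(Cfsg.isometryGroup F ⇑Q)) : P g ↔ g ∈ Subgroup.closure (Tset92 Q) := by
  obtain ⟨v₀, hv₀⟩ := exists_aniso35 hn Q hQ
  have hgen : Subgroup.closure (Sset92 Q) = ⊤ := Cfsg.Agent.S0786.result Q hQ h
  have hmem : ∀ x ∈ Subgroup.closure (Tset92 Q), P x := by
    intro x hx
    have h2 := par_cls29 Q P hflip x hx 1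
    rw [mul_one] at h2
    exact h2.mpr h1
  constructor
  · intro hP
    rcases claim92 Q v₀ hv₀ g (by rw [hgen]; exact Subgroup.mem_top _) with h2 | h2
    · exact h2
    · exact absurd hP ((hflip v₀ hv₀ g).mp (hmem _ h2))
  · exact hmem g

noncomputable def glE29 {ι κ : Type} [Fintype ι] [DecidableEq ι] [Fintype κ] [DecidableEq κ] (F : Type*) [Field F]
    (σ : ι ≃ κ) : Matrix.GeneralLinearGroup ι F ≃* Matrix.GeneralLinearGroup κ F :=
  Units.mapEquiv (Matrix.reindexAlgEquiv F F σ).toMulEquiv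

theorem glE_coe29 {ι κ : Type} [Fintype ι] [DecidableEq ι] [Fintype κ] [DecidableEq κ] {F : Type*} [Field F]
    (σ : ι ≃ κ) (x : Matrix.GeneralLinearGroup ι F) :
    ((glE29 F σ x : Matrix.GeneralLinearGroup κ F) : Matrix κ κ F) = (x : Matrix ι ι F).submatrix σ.symm σ.symm :=
  rfl

theorem glE_symm_coe29 {ι κ : Type} [Fintype ι] [DecidableEq ι] [Fintype κ] [DecidableEq κ] {F : Type*} [Field F]
    (σ : ι ≃ κ) (y : Matrix.GeneralLinearGroup κ F) :
    (((glE29 F σ).symm y : Matrix.GeneralLinearGroup ι F) : Matrix ι ι F) = (y : Matrix κ κ F).submatrix σ σ :=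
  rfl

theorem mem_iso29 {ι : Type} [Fintype ι] [DecidableEq ι] {F : Type*} [Field F] (Q : (ι → F) → F)
    (x : Matrix.GeneralLinearGroup ι F) :
    x ∈ Cfsg.isometryGroup F Q ↔ ∀ u : ι → F, Q ((x : Matrix ι ι F) *ᵥ u) = Q u := by
  constructor
  · intro h u
    exact h u u
  · intro h u _
    exact h u

theorem glE_mem29 {ι κ : Type} [Fintype ι] [DecidableEq ι] [Fintype κ] [DecidableEq κ] {F : Type*} [Field F]
    (σ : ι ≃ κ) (Q₀ : (ι → F) → F) (Q₁ : (κ → F) → F) (hQ : ∀ w, Q₁ w = Q₀ (w ∘ σ))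
    (x : Matrix.GeneralLinearGroup ι F) :
    glE29 F σ x ∈ Cfsg.isometryGroup F Q₁ ↔ x ∈ Cfsg.isometryGroup F Q₀ := by
  rw [mem_iso29, mem_iso29]
  have key : ∀ w : κ → F, ((glE29 F σ x : Matrix.GeneralLinearGroup κ F) : Matrix κ κ F) *ᵥ w =
      ((x : Matrix ι ι F) *ᵥ (w ∘ σ)) ∘ σ.symm := by
    intro w
    rw [glE_coe29, Matrix.submatrix_mulVec_equiv]
    rfl
  have e2 : ∀ z : ι → F, (z ∘ σ.symm) ∘ σ = z := by
    intro z
    funext i
    simp
  constructor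
  · intro h u
    have h1 := h (u ∘ σ.symm)
    rw [key, hQ, hQ, e2, e2] at h1
    exact h1
  · intro h w
    rw [key, hQ, hQ, e2]
    exact h (w ∘ σ)

noncomputable def psi29 {ι κ : Type} [Fintype ι] [DecidableEq ι] [Fintype κ] [DecidableEq κ] {F : Type*} [Field F]
    (σ : ι ≃ κ) (Q₀ : (ι → F) → F) (Q₁ : (κ → F) → F) (hQ : ∀ w, Q₁ w = Q₀ (w ∘ σ)) :
    ↥(Cfsg.isometryGroup F Q₀) ≃* ↥(Cfsg.isometryGroup F Q₁) where
  toFun g := ⟨glE29 F σ g.1, (glE_mem29 σ Q₀ Q₁ hQ g.1).mpr g.2⟩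
  invFun g := ⟨(glE29 F σ).symm g.1, (glE_mem29 σ Q₀ Q₁ hQ _).mp (by
    rw [MulEquiv.apply_symm_apply]
    exact g.2)⟩
  left_inv g := Subtype.ext ((glE29 F σ).symm_apply_apply g.1)
  right_inv g := Subtype.ext ((glE29 F σ).apply_symm_apply g.1)
  map_mul' a b := Subtype.ext (map_mul (glE29 F σ) a.1 b.1)

theorem psi_symm_mulVec29 {ι κ : Type} [Fintype ι] [DecidableEq ι] [Fintype κ] [DecidableEq κ] {F : Type*}
    [Field F] (σ : ι ≃ κ) (Q₀ : (ι → F) → F) (Q₁ : (κ → F) → F) (hQ : ∀ w, Q₁ w = Q₀ (w ∘ σ))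
    (g' : ↥(Cfsg.isometryGroup F Q₁)) (x : ι → F) :
    ((((psi29 σ Q₀ Q₁ hQ).symm g' : ↥(Cfsg.isometryGroup F Q₀)) : Matrix.GeneralLinearGroup ι F) :
      Matrix ι ι F) *ᵥ x =
      (((g' : Matrix.GeneralLinearGroup κ F) : Matrix κ κ F) *ᵥ (x ∘ σ.symm)) ∘ σ := by
  show (((g' : Matrix.GeneralLinearGroup κ F) : Matrix κ κ F).submatrix σ σ) *ᵥ x = _
  rw [Matrix.submatrix_mulVec_equiv]

theorem psi_det29 {ι κ : Type} [Fintype ι] [DecidableEq ι] [Fintype κ] [DecidableEq κ] {F : Type*}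
    [Field F] (σ : ι ≃ κ) (Q₀ : (ι → F) → F) (Q₁ : (κ → F) → F) (hQ : ∀ w, Q₁ w = Q₀ (w ∘ σ))
    (g : ↥(Cfsg.isometryGroup F Q₀)) :
    (((psi29 σ Q₀ Q₁ hQ g : ↥(Cfsg.isometryGroup F Q₁)) : Matrix.GeneralLinearGroup κ F) : Matrix κ κ F).det =
      ((g : Matrix.GeneralLinearGroup ι F) : Matrix ι ι F).det := by
  show (((g : Matrix.GeneralLinearGroup ι F) : Matrix ι ι F).submatrix σ.symm σ.symm).det = _
  rw [Matrix.det_submatrix_equiv_self]

theorem comm_equiv29 {G H : Type*} [Group G] [Group H] (e : G ≃* H) (g : G) :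
    g ∈ commutator G ↔ e g ∈ commutator H := by
  have h1 : (commutator G).map e.toMonoidHom = commutator H := by
    rw [commutator_def, commutator_def, Subgroup.map_commutator]
    have h2 : (⊤ : Subgroup G).map e.toMonoidHom = ⊤ := by
      rw [← MonoidHom.range_eq_map]
      exact MonoidHom.range_eq_top.mpr e.surjective
    rw [h2]
  rw [← h1]
  constructor
  · intro hg
    exact Subgroup.mem_map_of_mem _ hg
  · rintro ⟨y, hy, hye⟩
    have h3 : y = g := e.injective hye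
    rw [← h3]
    exact hy

theorem gl_inj29 {ι : Type} [Fintype ι] [DecidableEq ι] {F : Type*} [Field F]
    (x : Matrix.GeneralLinearGroup ι F) : Function.Injective (Matrix.mulVecLin (x : Matrix ι ι F)) := by
  intro a b hab
  rw [Matrix.mulVecLin_apply, Matrix.mulVecLin_apply] at hab
  have h3 := congrArg (fun z => ((x⁻¹ : Matrix.GeneralLinearGroup ι F) : Matrix ι ι F) *ᵥ z) hab
  simp only [Matrix.mulVec_mulVec] at h3
  have h1 : ((x⁻¹ : Matrix.GeneralLinearGroup ι F) : Matrix ι ι F) * (x : Matrix ι ι F) = 1 := by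
    rw [← Units.val_mul, inv_mul_cancel, Units.val_one]
  rw [h1, Matrix.one_mulVec, Matrix.one_mulVec] at h3
  exact h3

theorem map_ts29 {F : Type*} [Field F] (m : ℕ) (W : Submodule F (Fin m ⊕ Fin m → F))
    (hW : ∀ w ∈ W, Cfsg.quadFormPlus m F w = 0) (hWd : Module.finrank F W = m)
    (g : ↥(Cfsg.isometryGroup F (Cfsg.quadFormPlus m F))) :
    (∀ w ∈ W.map (Matrix.mulVecLin ((g : Matrix.GeneralLinearGroup (Fin m ⊕ Fin m) F) :
      Matrix (Fin m ⊕ Fin m) (Fin m ⊕ Fin m) F)), qp32 F m w = 0) ∧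
    Module.finrank F (W.map (Matrix.mulVecLin ((g : Matrix.GeneralLinearGroup (Fin m ⊕ Fin m) F) :
      Matrix (Fin m ⊕ Fin m) (Fin m ⊕ Fin m) F))) = m := by
  constructor
  · rintro _ ⟨w, hw, rfl⟩
    rw [Matrix.mulVecLin_apply, qp_apply32]
    have h1 : Cfsg.quadFormPlus m F (((g : Matrix.GeneralLinearGroup (Fin m ⊕ Fin m) F) :
      Matrix (Fin m ⊕ Fin m) (Fin m ⊕ Fin m) F) *ᵥ w) = Cfsg.quadFormPlus m F w := g.2 w w
    rw [h1]
    exact hW w hw
  · rw [← (Submodule.equivMapOfInjective _ (gl_inj29 (g : Matrix.GeneralLinearGroup (Fin m ⊕ Fin m) F)) W).finrank_eq]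
    exact hWd

theorem flip_aux29 {F : Type*} [Field F] (m : ℕ) (W U : Submodule F (Fin m ⊕ Fin m → F))
    (hW : ∀ w ∈ W, qp32 F m w = 0) (hWd : Module.finrank F W = m)
    (hU : ∀ w ∈ U, qp32 F m w = 0) (hUd : Module.finrank F U = m)
    (f : (Fin m ⊕ Fin m → F) →ₗ[F] (Fin m ⊕ Fin m → F)) (v : Fin m ⊕ Fin m → F) (hv : qp32 F m v ≠ 0)
    (hf : ∀ x, f x = x + (-((qp32 F m v)⁻¹ * QuadraticMap.polarBilin (qp32 F m) v x)) • v)
    (hU' : ∀ w ∈ U.map f, qp32 F m w = 0) (hUd' : Module.finrank F (U.map f) = m) :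
    Even (m - Module.finrank F ↥(W ⊓ U.map f)) ↔ ¬ Even (m - Module.finrank F ↥(W ⊓ U)) := by
  have hvU : v ∉ U := fun hvU => hv (hU v hvU)
  have hint : Module.finrank F ↥(U ⊓ U.map f) + 1 = m := by
    have h8 := ker_fun89 U (U ⊓ U.map f) (QuadraticMap.polarBilin (qp32 F m) v) ?_ ?_
    · rw [hUd] at h8
      exact h8
    · intro x
      constructor
      · rintro ⟨hxU, hxU'⟩
        refine ⟨hxU, ?_⟩
        obtain ⟨y, hy, hyx⟩ := hxU'
        rw [hf] at hyx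
        have hc : -((qp32 F m v)⁻¹ * QuadraticMap.polarBilin (qp32 F m) v y) = 0 := by
          by_contra hc
          apply hvU
          have h5 : v = (-((qp32 F m v)⁻¹ * QuadraticMap.polarBilin (qp32 F m) v y))⁻¹ • (x - y) := by
            rw [← hyx, add_sub_cancel_left, smul_smul, inv_mul_cancel₀ hc, one_smul]
          rw [h5]
          exact U.smul_mem _ (U.sub_mem hxU hy)
        rw [hc, zero_smul, add_zero] at hyx
        rw [← hyx]
        have h6 := neg_eq_zero.mp hc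
        rcases mul_eq_zero.mp h6 with h7 | h7
        · exact absurd (inv_eq_zero.mp h7) hv
        · exact h7
      · rintro ⟨hxU, hB⟩
        refine ⟨hxU, x, hxU, ?_⟩
        rw [hf, hB, mul_zero, neg_zero, zero_smul, add_zero]
    · by_contra hcon
      push Not at hcon
      apply hvU
      rw [← orth_self31 m U hU hUd, LinearMap.BilinForm.mem_orthogonal_iff]
      intro x hx
      show QuadraticMap.polarBilin (qp32 F m) x v = 0
      rw [Bsymm50]
      exact hcon x hx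
  have hadj := adj31 m U (U.map f) W hU hUd hU' hUd' hW hWd hint
  have b1 : Module.finrank F ↥(W ⊓ U) ≤ m := by
    have := Submodule.finrank_mono (inf_le_left : W ⊓ U ≤ W)
    rw [hWd] at this
    exact this
  have b2 : Module.finrank F ↥(W ⊓ U.map f) ≤ m := by
    have := Submodule.finrank_mono (inf_le_left : W ⊓ U.map f ≤ W)
    rw [hWd] at this
    exact this
  rw [Nat.even_iff, Nat.even_iff]
  omega

theorem flip_sum29 {F : Type*} [Field F] (m : ℕ) (W : Submodule F (Fin m ⊕ Fin m → F))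
    (hW : ∀ w ∈ W, Cfsg.quadFormPlus m F w = 0) (hWd : Module.finrank F W = m)
    (g r : ↥(Cfsg.isometryGroup F (Cfsg.quadFormPlus m F))) (v : Fin m ⊕ Fin m → F)
    (hv : qp32 F m v ≠ 0)
    (hr : ∀ x, ((r : Matrix.GeneralLinearGroup (Fin m ⊕ Fin m) F) : Matrix (Fin m ⊕ Fin m) (Fin m ⊕ Fin m) F) *ᵥ x =
      x + (-((qp32 F m v)⁻¹ * QuadraticMap.polarBilin (qp32 F m) v x)) • v) :
    Even (m - Module.finrank F ↥(W ⊓ W.map (Matrix.mulVecLin
      (((r * g : ↥(Cfsg.isometryGroup F (Cfsg.quadFormPlus m F))) : Matrix.GeneralLinearGroup (Fin m ⊕ Fin m) F) :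
        Matrix (Fin m ⊕ Fin m) (Fin m ⊕ Fin m) F)))) ↔
    ¬ Even (m - Module.finrank F ↥(W ⊓ W.map (Matrix.mulVecLin
      ((g : Matrix.GeneralLinearGroup (Fin m ⊕ Fin m) F) : Matrix (Fin m ⊕ Fin m) (Fin m ⊕ Fin m) F)))) := by
  obtain ⟨hU, hUd⟩ := map_ts29 m W hW hWd g
  obtain ⟨hU', hUd'⟩ := map_ts29 m W hW hWd (r * g)
  have hmap : W.map (Matrix.mulVecLin
      (((r * g : ↥(Cfsg.isometryGroup F (Cfsg.quadFormPlus m F))) : Matrix.GeneralLinearGroup (Fin m ⊕ Fin m) F) :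
        Matrix (Fin m ⊕ Fin m) (Fin m ⊕ Fin m) F)) =
      (W.map (Matrix.mulVecLin
      ((g : Matrix.GeneralLinearGroup (Fin m ⊕ Fin m) F) : Matrix (Fin m ⊕ Fin m) (Fin m ⊕ Fin m) F))).map
      (Matrix.mulVecLin
      ((r : Matrix.GeneralLinearGroup (Fin m ⊕ Fin m) F) : Matrix (Fin m ⊕ Fin m) (Fin m ⊕ Fin m) F)) := by
    rw [← Submodule.map_comp, ← Matrix.mulVecLin_mul]
    rfl
  rw [hmap] at hU' hUd' ⊢
  exact flip_aux29 m W _ (fun w hw => by rw [qp_apply32]; exact hW w hw) hWd hU hUd _ v hv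
    (fun x => by rw [Matrix.mulVecLin_apply]; exact hr x) hU' hUd'

def sg29 (m : ℕ) : Fin m ⊕ Fin m ≃ Fin (m + m) := finSumFinEquiv

noncomputable def qf29 (F : Type*) [Field F] (m : ℕ) : QuadraticForm F (Fin (m + m) → F) :=
  (qp32 F m).comp (LinearMap.funLeft F F (sg29 m))

theorem qf_apply29 {F : Type*} [Field F] (m : ℕ) (w : Fin (m + m) → F) :
    qf29 F m w = qp32 F m (w ∘ sg29 m) := rfl

theorem qf_apply29' {F : Type*} [Field F] (m : ℕ) (w : Fin (m + m) → F) :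
    (⇑(qf29 F m) : (Fin (m + m) → F) → F) w = Cfsg.quadFormPlus m F (w ∘ sg29 m) := by
  rw [qf_apply29, qp_apply32]

theorem qf_polar29 {F : Type*} [Field F] (m : ℕ) (a b : Fin (m + m) → F) :
    QuadraticMap.polarBilin (qf29 F m) a b = QuadraticMap.polarBilin (qp32 F m) (a ∘ sg29 m) (b ∘ sg29 m) := by
  have h1 := Qadd50 (qf29 F m) a b
  have h2 := Qadd50 (qp32 F m) (a ∘ sg29 m) (b ∘ sg29 m)
  rw [qf_apply29, qf_apply29, qf_apply29] at h1
  have h3 : (a + b) ∘ sg29 m = a ∘ sg29 m + b ∘ sg29 m := rfl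
  rw [h3] at h1
  linear_combination h2 - h1

theorem qf_nondeg29 (F : Type*) [Field F] (m : ℕ) : (QuadraticMap.polarBilin (qf29 F m)).Nondegenerate := by
  have key : ∀ x, (∀ y, QuadraticMap.polarBilin (qf29 F m) x y = 0) → x = 0 := by
    intro x hx
    have h1 : x ∘ sg29 m = 0 := by
      apply (qp_nondeg32 (F := F) m).1
      intro y
      have h2 := hx (y ∘ (sg29 m).symm)
      rw [qf_polar29] at h2
      have e : (y ∘ (sg29 m).symm) ∘ sg29 m = y := by
        funext i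
        simp
      rw [e] at h2
      exact h2
    funext j
    have h3 := congrFun h1 ((sg29 m).symm j)
    simpa using h3
  exact ⟨key, fun y hy => key y (fun x => by rw [Bsymm50]; exact hy x)⟩

noncomputable def Psi29 (F : Type*) [Field F] (m : ℕ) :
    ↥(Cfsg.isometryGroup F (Cfsg.quadFormPlus m F)) ≃* ↥(Cfsg.isometryGroup F ⇑(qf29 F m)) :=
  psi29 (sg29 m) (Cfsg.quadFormPlus m F) (⇑(qf29 F m)) (fun w => qf_apply29' m w)

theorem main_sum29 {F : Type*} [Field F] [Fintype F] {m : ℕ} (hm : 1 ≤ m) (h : Fintype.card F ≠ 2 ∨ m ≠ 2)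
    (W : Submodule F (Fin m ⊕ Fin m → F)) (hW : ∀ w ∈ W, Cfsg.quadFormPlus m F w = 0)
    (hWd : Module.finrank F W = m) (g : ↥(Cfsg.isometryGroup F (Cfsg.quadFormPlus m F))) :
    Even (m - Module.finrank F ↥(W ⊓ W.map (Matrix.mulVecLin
      ((g : Matrix.GeneralLinearGroup (Fin m ⊕ Fin m) F) : Matrix (Fin m ⊕ Fin m) (Fin m ⊕ Fin m) F)))) ↔
      Psi29 F m g ∈ Subgroup.closure (Tset92 (qf29 F m)) := by
  have h' : Fintype.card F ≠ 2 ∨ m + m ≠ 4 := by
    rcases h with h | h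
    · exact Or.inl h
    · right
      omega
  have key := par_main29 (by omega : 1 ≤ m + m) h' (qf29 F m) (qf_nondeg29 F m)
    (fun g' => Even (m - Module.finrank F ↥(W ⊓ W.map (Matrix.mulVecLin
      ((((Psi29 F m).symm g' : ↥(Cfsg.isometryGroup F (Cfsg.quadFormPlus m F))) :
        Matrix.GeneralLinearGroup (Fin m ⊕ Fin m) F) : Matrix (Fin m ⊕ Fin m) (Fin m ⊕ Fin m) F)))))
    ?_ ?_ (Psi29 F m g)
  · rw [MulEquiv.symm_apply_apply] at key
    exact key
  · show Even (m - Module.finrank F ↥(W ⊓ W.map (Matrix.mulVecLin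
      ((((Psi29 F m).symm 1 : ↥(Cfsg.isometryGroup F (Cfsg.quadFormPlus m F))) :
        Matrix.GeneralLinearGroup (Fin m ⊕ Fin m) F) : Matrix (Fin m ⊕ Fin m) (Fin m ⊕ Fin m) F))))
    rw [map_one]
    have h3 : W.map (Matrix.mulVecLin
      (((1 : ↥(Cfsg.isometryGroup F (Cfsg.quadFormPlus m F))) :
        Matrix.GeneralLinearGroup (Fin m ⊕ Fin m) F) : Matrix (Fin m ⊕ Fin m) (Fin m ⊕ Fin m) F)) = W := by
      show W.map (Matrix.mulVecLin (1 : Matrix (Fin m ⊕ Fin m) (Fin m ⊕ Fin m) F)) = W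
      rw [Matrix.mulVecLin_one, Submodule.map_id]
    rw [h3, inf_idem, hWd, Nat.sub_self]
    exact ⟨0, rfl⟩
  · intro v' hv' g'
    show Even (m - Module.finrank F ↥(W ⊓ W.map (Matrix.mulVecLin
      ((((Psi29 F m).symm (reflEl92 (qf29 F m) v' hv' * g') : ↥(Cfsg.isometryGroup F (Cfsg.quadFormPlus m F))) :
        Matrix.GeneralLinearGroup (Fin m ⊕ Fin m) F) : Matrix (Fin m ⊕ Fin m) (Fin m ⊕ Fin m) F)))) ↔
      ¬ Even (m - Module.finrank F ↥(W ⊓ W.map (Matrix.mulVecLin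
      ((((Psi29 F m).symm g' : ↥(Cfsg.isometryGroup F (Cfsg.quadFormPlus m F))) :
        Matrix.GeneralLinearGroup (Fin m ⊕ Fin m) F) : Matrix (Fin m ⊕ Fin m) (Fin m ⊕ Fin m) F))))
    rw [map_mul]
    have hv : qp32 F m (v' ∘ sg29 m) ≠ 0 := by
      rw [← qf_apply29]
      exact hv'
    apply flip_sum29 m W hW hWd _ _ (v' ∘ sg29 m) hv
    intro x
    have h4 := psi_symm_mulVec29 (sg29 m) (Cfsg.quadFormPlus m F) (⇑(qf29 F m)) (fun w => qf_apply29' m w)
      (reflEl92 (qf29 F m) v' hv') x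
    have h5 : ((reflEl92 (qf29 F m) v' hv' : Matrix.GeneralLinearGroup (Fin (m + m)) F) :
        Matrix (Fin (m + m)) (Fin (m + m)) F) = reflectionMatrix (⇑(qf29 F m)) v' := rfl
    rw [h5, refl_mulVec92, qf_polar29, qf_apply29] at h4
    have e : (x ∘ (sg29 m).symm) ∘ sg29 m = x := by
      funext i
      simp
    rw [e] at h4
    show ((((Psi29 F m).symm (reflEl92 (qf29 F m) v' hv') : ↥(Cfsg.isometryGroup F (Cfsg.quadFormPlus m F))) :
        Matrix.GeneralLinearGroup (Fin m ⊕ Fin m) F) : Matrix (Fin m ⊕ Fin m) (Fin m ⊕ Fin m) F) *ᵥ x = _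
    unfold Psi29
    rw [h4]
    funext i
    simp

theorem w0_ts29 (F : Type*) [Field F] (m : ℕ) :
    ∀ w ∈ LinearMap.ker (LinearMap.funLeft F F (Sum.inr : Fin m → Fin m ⊕ Fin m)),
      Cfsg.quadFormPlus m F w = 0 := by
  intro w hw
  unfold Cfsg.quadFormPlus
  apply Finset.sum_eq_zero
  intro i _
  have h1 : w (Sum.inr i) = 0 := congrFun (LinearMap.mem_ker.mp hw) i
  rw [h1, mul_zero]

theorem w0_dim29 (F : Type*) [Field F] (m : ℕ) :
    Module.finrank F (LinearMap.ker (LinearMap.funLeft F F (Sum.inr : Fin m → Fin m ⊕ Fin m))) = m := by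
  have h1 := LinearMap.finrank_range_add_finrank_ker (LinearMap.funLeft F F (Sum.inr : Fin m → Fin m ⊕ Fin m))
  have hsurj : Function.Surjective (LinearMap.funLeft F F (Sum.inr : Fin m → Fin m ⊕ Fin m)) := by
    intro c
    exact ⟨Sum.elim 0 c, by funext i; simp [LinearMap.funLeft_apply]⟩
  rw [LinearMap.range_eq_top.mpr hsurj, finrank_top, Module.finrank_fin_fun, hV31] at h1
  omega

/-- For the hyperbolic form Σ x_i y_i on F^(2m) over a finite field of odd order (m ≥ 1), an isometry g preserves the class of the maximal totally singular subspace U₀ = {y = 0} (that is, m − dim(U₀ ∩ gU₀) is even) if and only if det g = 1: the stabiliser of each of the two classes of maximal totally singular subspaces is SO. -/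
theorem result {F : Type*} [Field F] [Fintype F] (h2 : (2 : F) ≠ 0) {m : ℕ} (hm : 1 ≤ m) (g : ↥(Cfsg.isometryGroup F (Cfsg.quadFormPlus m F))) : Even (m - Module.finrank F ↥(LinearMap.ker (LinearMap.funLeft F F (Sum.inr : Fin m → Fin m ⊕ Fin m)) ⊓ (LinearMap.ker (LinearMap.funLeft F F (Sum.inr : Fin m → Fin m ⊕ Fin m))).map (Matrix.mulVecLin ((g : Matrix.GeneralLinearGroup (Fin m ⊕ Fin m) F) : Matrix (Fin m ⊕ Fin m) (Fin m ⊕ Fin m) F)))) ↔ ((g : Matrix.GeneralLinearGroup (Fin m ⊕ Fin m) F) : Matrix (Fin m ⊕ Fin m) (Fin m ⊕ Fin m) F).det = 1 := by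
  have hcard : Fintype.card F ≠ 2 := by
    intro hc
    apply h2
    have h3 := Nat.cast_card_eq_zero F
    rw [hc] at h3
    exact_mod_cast h3
  rw [main_sum29 hm (Or.inl hcard) _ (w0_ts29 F m) (w0_dim29 F m) g]
  have hSO := Cfsg.Agent.S0792.result h2 (qf29 F m) (qf_nondeg29 F m)
  have hT : Subgroup.closure (Tset92 (qf29 F m)) = Cfsg.specialIsometryGroup F ⇑(qf29 F m) := hSO.symm
  rw [hT, sdet92]
  unfold Psi29
  rw [psi_det29]

end Cfsg.Agent.S2629
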