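import Cfsg.Statements.S2169
import Mathlib
import Cfsg.Statements.S2169
import Cfsg.Agent.S2629

set_option autoImplicit false
open Cfsg
open scoped commutatorElement

namespace Cfsg.Agent.S2169

open Cfsg.Agent.S0750 Cfsg.Agent.S0794 Cfsg.Agent.S0792 Cfsg.Agent.S0786 Cfsg.Agent.S2635 Cfsg.Agent.S0789 Cfsg.Agent.S0832 Cfsg.Agent.S0831 Cfsg.Agent.S2629 Matrix Module
open scoped commutatorElement

theorem fix_par69 {F : Type*} [Field F] [Fintype F] {n : ℕ} (hn : 1 ≤ n) (h : Fintype.card F ≠ 2 ∨ n ≠ 4)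
    (Q : QuadraticForm F (Fin n → F)) (hQ : (QuadraticMap.polarBilin Q).Nondegenerate)
    (g : ↥(Cfsg.isometryGroup F ⇑Q)) :
    (Even (finrank F (fix89 Q g)) ↔ Even n) ↔ g ∈ Subgroup.closure (Tset92 Q) := by
  apply par_main29 hn h Q hQ (fun g => (Even (finrank F (fix89 Q g)) ↔ Even n))
  · show Even (finrank F (fix89 Q 1)) ↔ Even n
    have h1 : fix89 Q 1 = ⊤ := by
      rw [eq_top_iff]
      intro x _
      rw [mem_fix89]
      show (1 : Matrix (Fin n) (Fin n) F) *ᵥ x = x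
      rw [Matrix.one_mulVec]
    rw [h1, finrank_top, Module.finrank_fin_fun]
  · intro v hv g
    show (Even (finrank F (fix89 Q (reflEl92 Q v hv * g))) ↔ Even n) ↔
      ¬ (Even (finrank F (fix89 Q g)) ↔ Even n)
    have p : Even (finrank F (fix89 Q (reflEl92 Q v hv * g))) ↔ ¬ Even (finrank F (fix89 Q g)) := by
      rcases flip89 Q hQ g v hv with h | h
      · rw [← h, Nat.even_add_one, not_not]
      · rw [← h, Nat.even_add_one]
    rw [p]
    exact not_iff.symm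

theorem rank_fix69 {F : Type*} [Field F] {n : ℕ} (Q : QuadraticForm F (Fin n → F))
    (g : ↥(Cfsg.isometryGroup F ⇑Q)) :
    (((g : Matrix.GeneralLinearGroup (Fin n) F) : Matrix (Fin n) (Fin n) F) - 1).rank + finrank F (fix89 Q g) = n := by
  have h1 := LinearMap.finrank_range_add_finrank_ker
    (Matrix.toLin' ((g : Matrix.GeneralLinearGroup (Fin n) F) : Matrix (Fin n) (Fin n) F) - LinearMap.id)
  rw [Module.finrank_fin_fun] at h1
  have h2 : (((g : Matrix.GeneralLinearGroup (Fin n) F) : Matrix (Fin n) (Fin n) F) - 1).rank =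
      finrank F (LinearMap.range
        (Matrix.toLin' ((g : Matrix.GeneralLinearGroup (Fin n) F) : Matrix (Fin n) (Fin n) F) - LinearMap.id)) := by
    rw [Matrix.rank, ← Matrix.toLin'_apply', map_sub, Matrix.toLin'_one]
  unfold fix89
  omega

theorem rank_par69 {F : Type*} [Field F] [Fintype F] {n : ℕ} (hn : 1 ≤ n) (h : Fintype.card F ≠ 2 ∨ n ≠ 4)
    (Q : QuadraticForm F (Fin n → F)) (hQ : (QuadraticMap.polarBilin Q).Nondegenerate)
    (g : ↥(Cfsg.isometryGroup F ⇑Q)) :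
    Even (((g : Matrix.GeneralLinearGroup (Fin n) F) : Matrix (Fin n) (Fin n) F) - 1).rank ↔
      g ∈ Subgroup.closure (Tset92 Q) := by
  rw [← fix_par69 hn h Q hQ g]
  have h3 : Even ((((g : Matrix.GeneralLinearGroup (Fin n) F) : Matrix (Fin n) (Fin n) F) - 1).rank +
      finrank F (fix89 Q g)) ↔
      (Even (((g : Matrix.GeneralLinearGroup (Fin n) F) : Matrix (Fin n) (Fin n) F) - 1).rank ↔
        Even (finrank F (fix89 Q g))) := Nat.even_add
  rw [rank_fix69 Q g] at h3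
  rw [h3]
  tauto

noncomputable def qT69 {ι : Type} [Fintype ι] [DecidableEq ι] {F : Type*} [Field F] {n : ℕ} (σ : ι ≃ Fin n)
    (Q₀ : QuadraticForm F (ι → F)) : QuadraticForm F (Fin n → F) := Q₀.comp (LinearMap.funLeft F F σ)

theorem qT_apply69 {ι : Type} [Fintype ι] [DecidableEq ι] {F : Type*} [Field F] {n : ℕ} (σ : ι ≃ Fin n)
    (Q₀ : QuadraticForm F (ι → F)) (w : Fin n → F) : qT69 σ Q₀ w = Q₀ (w ∘ σ) := rfl

theorem qT_polar69 {ι : Type} [Fintype ι] [DecidableEq ι] {F : Type*} [Field F] {n : ℕ} (σ : ι ≃ Fin n)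
    (Q₀ : QuadraticForm F (ι → F)) (a b : Fin n → F) :
    QuadraticMap.polarBilin (qT69 σ Q₀) a b = QuadraticMap.polarBilin Q₀ (a ∘ σ) (b ∘ σ) := by
  have h1 := Qadd50 (qT69 σ Q₀) a b
  have h2 := Qadd50 Q₀ (a ∘ σ) (b ∘ σ)
  rw [qT_apply69, qT_apply69, qT_apply69] at h1
  have h3 : (a + b) ∘ σ = a ∘ σ + b ∘ σ := rfl
  rw [h3] at h1
  linear_combination h2 - h1

theorem qT_nondeg69 {ι : Type} [Fintype ι] [DecidableEq ι] {F : Type*} [Field F] {n : ℕ} (σ : ι ≃ Fin n)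
    (Q₀ : QuadraticForm F (ι → F)) (hQ₀ : (QuadraticMap.polarBilin Q₀).Nondegenerate) :
    (QuadraticMap.polarBilin (qT69 σ Q₀)).Nondegenerate := by
  have key : ∀ x, (∀ y, QuadraticMap.polarBilin (qT69 σ Q₀) x y = 0) → x = 0 := by
    intro x hx
    have h1 : x ∘ σ = 0 := by
      apply hQ₀.1
      intro y
      have h2 := hx (y ∘ σ.symm)
      rw [qT_polar69] at h2
      have e : (y ∘ σ.symm) ∘ σ = y := by
        funext i
        simp
      rw [e] at h2
      exact h2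
    funext j
    have h3 := congrFun h1 (σ.symm j)
    simpa using h3
  exact ⟨key, fun y hy => key y (fun x => by rw [Bsymm50]; exact hy x)⟩

theorem omega_rank69 {ι : Type} [Fintype ι] [DecidableEq ι] {F : Type*} [Field F] [Fintype F] [CharP F 2]
    {n : ℕ} (hn : 2 ≤ n) (h : Fintype.card F ≠ 2 ∨ n ≠ 4)
    (σ : ι ≃ Fin n) (Q₀ : QuadraticForm F (ι → F)) (hQ₀ : (QuadraticMap.polarBilin Q₀).Nondegenerate)
    (q : (ι → F) → F) (hq : ∀ v, Q₀ v = q v)
    (g : ↥(Cfsg.isometryGroup F q)) :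
    g ∈ Cfsg.Omega F q ↔ Even (((g : Matrix.GeneralLinearGroup ι F) : Matrix ι ι F) - 1).rank := by
  have hQ : ∀ w : Fin n → F, (⇑(qT69 σ Q₀) : (Fin n → F) → F) w = q (w ∘ σ) := fun w => by
    rw [qT_apply69, hq]
  have hnd := qT_nondeg69 σ Q₀ hQ₀
  have e1 : g ∈ Cfsg.Omega F q ↔
      psi29 σ q (⇑(qT69 σ Q₀)) hQ g ∈ commutator ↥(Cfsg.isometryGroup F ⇑(qT69 σ Q₀)) :=
    comm_equiv29 (psi29 σ q (⇑(qT69 σ Q₀)) hQ) g
  have e2 : commutator ↥(Cfsg.isometryGroup F ⇑(qT69 σ Q₀)) = Subgroup.closure (Tset92 (qT69 σ Q₀)) :=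
    Cfsg.Agent.S2635.result hn h (qT69 σ Q₀) hnd
  have e3 := rank_par69 (by omega) h (qT69 σ Q₀) hnd (psi29 σ q (⇑(qT69 σ Q₀)) hQ g)
  have h5 : ((psi29 σ q (⇑(qT69 σ Q₀)) hQ g : Matrix.GeneralLinearGroup (Fin n) F) :
      Matrix (Fin n) (Fin n) F) - 1 =
      (((g : Matrix.GeneralLinearGroup ι F) : Matrix ι ι F) - 1).submatrix σ.symm σ.symm := by
    ext i j
    show ((g : Matrix.GeneralLinearGroup ι F) : Matrix ι ι F) (σ.symm i) (σ.symm j) -
      (1 : Matrix (Fin n) (Fin n) F) i j =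
      ((g : Matrix.GeneralLinearGroup ι F) : Matrix ι ι F) (σ.symm i) (σ.symm j) -
      (1 : Matrix ι ι F) (σ.symm i) (σ.symm j)
    rw [Matrix.one_apply, Matrix.one_apply]
    simp
  rw [e1, e2, ← e3, h5, Matrix.rank_submatrix]

/-- For the hyperbolic quadratic form Σ x_i y_i in dimension 2m over a finite field F of characteristic two, m ≥ 4 (plus type): an element of order 2 of the full isometry group O lies in the commutator subgroup Ω of O exactly when t − 1 has even rank. -/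
theorem result {F : Type*} [Field F] [Fintype F] [CharP F 2] {m : ℕ} (hm : 4 ≤ m) (t : ↥(Cfsg.isometryGroup F (Cfsg.quadFormPlus m F))) (ht : orderOf t = 2) :
    t ∈ Cfsg.Omega F (Cfsg.quadFormPlus m F) ↔ Even ((((t : ↥(Cfsg.isometryGroup F (Cfsg.quadFormPlus m F))) : GL (Fin m ⊕ Fin m) F) : Matrix (Fin m ⊕ Fin m) (Fin m ⊕ Fin m) F) - 1).rank := by
  have h' : Fintype.card F ≠ 2 ∨ m + m ≠ 4 := Or.inr (by omega)
  exact omega_rank69 (by omega) h' (sg29 m) (qp32 F m) (qp_nondeg32 m) (Cfsg.quadFormPlus m F)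
    (fun v => qp_apply32 m v) t

end Cfsg.Agent.S2169
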