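import Cfsg.Statements.S2628
import Mathlib
import Cfsg.Statements.S2628
import Cfsg.Agent.S2169

set_option autoImplicit false
open Cfsg
open scoped commutatorElement

namespace Cfsg.Agent.S2628

open Cfsg.Agent.S0750 Cfsg.Agent.S0794 Cfsg.Agent.S0792 Cfsg.Agent.S0786 Cfsg.Agent.S2635 Cfsg.Agent.S0789 Cfsg.Agent.S2629 Cfsg.Agent.S2169 Matrix
open scoped commutatorElement

theorem sq_mem28 {F : Type*} [Field F] [Fintype F] {n : ℕ} (h : Fintype.card F ≠ 2 ∨ n ≠ 4)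
    (Q : QuadraticForm F (Fin n → F)) (hQ : (QuadraticMap.polarBilin Q).Nondegenerate)
    (x : ↥(Cfsg.isometryGroup F ⇑Q)) : x * x ∈ commutator ↥(Cfsg.isometryGroup F ⇑Q) := by
  have hgen : Subgroup.closure (Sset92 Q) = ⊤ := Cfsg.Agent.S0786.result Q hQ h
  have hx : x ∈ Subgroup.closure (Sset92 Q) := by
    rw [hgen]
    exact Subgroup.mem_top _
  induction hx using Subgroup.closure_induction with
  | mem r hr =>
    obtain ⟨v, hv, hrm⟩ := hr
    have e : r = reflEl92 Q v hv := Subtype.ext (Units.ext hrm)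
    have e2 : reflEl92 Q v hv * reflEl92 Q v hv = 1 := Subtype.ext (Units.ext (refl_sq92 Q v hv))
    rw [e, e2]
    exact Subgroup.one_mem _
  | one =>
    rw [one_mul]
    exact Subgroup.one_mem _
  | mul a b _ _ ha hb =>
    have e : a * b * (a * b) = a * a * ⁅a⁻¹, b⁆ * (b * b) := by
      rw [commutatorElement_def]
      group
    rw [e]
    refine Subgroup.mul_mem _ (Subgroup.mul_mem _ ha ?_) hb
    rw [commutator_def]
    exact Subgroup.commutator_mem_commutator (Subgroup.mem_top _) (Subgroup.mem_top _)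
  | inv a _ ha =>
    have e : a⁻¹ * a⁻¹ = (a * a)⁻¹ := by group
    rw [e]
    exact Subgroup.inv_mem _ ha

noncomputable def q2_28 {F : Type*} [Field F] {k : ℕ} (Q : QuadraticForm F (Fin k → F)) :
    QuadraticForm F (Fin k ⊕ Fin k → F) :=
  Q.comp (LinearMap.funLeft F F Sum.inl) + Q.comp (LinearMap.funLeft F F Sum.inr)

theorem q2_apply28 {F : Type*} [Field F] {k : ℕ} (Q : QuadraticForm F (Fin k → F)) (v : Fin k ⊕ Fin k → F) :
    q2_28 Q v = Q (v ∘ Sum.inl) + Q (v ∘ Sum.inr) := rfl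

theorem q2_nondeg28 {F : Type*} [Field F] {k : ℕ} (Q : QuadraticForm F (Fin k → F))
    (hQ : (QuadraticMap.polarBilin Q).Nondegenerate) : (QuadraticMap.polarBilin (q2_28 Q)).Nondegenerate := by
  have hpol : ∀ x y : Fin k ⊕ Fin k → F, QuadraticMap.polarBilin (q2_28 Q) x y =
      QuadraticMap.polarBilin Q (x ∘ Sum.inl) (y ∘ Sum.inl) +
        QuadraticMap.polarBilin Q (x ∘ Sum.inr) (y ∘ Sum.inr) := by
    intro x y
    have h1 := Qadd50 (q2_28 Q) x y
    have h2 := Qadd50 Q (x ∘ Sum.inl) (y ∘ Sum.inl)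
    have h3 := Qadd50 Q (x ∘ Sum.inr) (y ∘ Sum.inr)
    rw [q2_apply28, q2_apply28, q2_apply28] at h1
    have e1 : (x + y) ∘ Sum.inl = x ∘ Sum.inl + y ∘ (Sum.inl : Fin k → Fin k ⊕ Fin k) := rfl
    have e2 : (x + y) ∘ Sum.inr = x ∘ Sum.inr + y ∘ (Sum.inr : Fin k → Fin k ⊕ Fin k) := rfl
    rw [e1, e2] at h1
    linear_combination h2 + h3 - h1
  have key : ∀ x, (∀ y, QuadraticMap.polarBilin (q2_28 Q) x y = 0) → x = 0 := by
    intro x hx
    have h1 : x ∘ Sum.inl = 0 := by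
      apply hQ.1
      intro y₁
      have h2 := hx (Sum.elim y₁ 0)
      rw [hpol] at h2
      have e1 : (Sum.elim y₁ (0 : Fin k → F)) ∘ Sum.inl = y₁ := rfl
      have e2 : (Sum.elim y₁ (0 : Fin k → F)) ∘ Sum.inr = 0 := rfl
      rw [e1, e2, map_zero, add_zero] at h2
      exact h2
    have h1' : x ∘ Sum.inr = 0 := by
      apply hQ.1
      intro y₁
      have h2 := hx (Sum.elim 0 y₁)
      rw [hpol] at h2
      have e1 : (Sum.elim (0 : Fin k → F) y₁) ∘ Sum.inl = 0 := rfl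
      have e2 : (Sum.elim (0 : Fin k → F) y₁) ∘ Sum.inr = y₁ := rfl
      rw [e1, e2, map_zero, zero_add] at h2
      exact h2
    funext j
    rcases j with i | i
    · exact congrFun h1 i
    · exact congrFun h1' i
  exact ⟨key, fun y hy => key y (fun x => by rw [Bsymm50]; exact hy x)⟩

theorem blk_mulVec28 {F : Type*} [Field F] {k : ℕ} (A B C D : Matrix (Fin k) (Fin k) F)
    (u : Fin k ⊕ Fin k → F) :
    (Matrix.fromBlocks A B C D *ᵥ u) ∘ Sum.inl = A *ᵥ (u ∘ Sum.inl) + B *ᵥ (u ∘ Sum.inr) ∧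
    (Matrix.fromBlocks A B C D *ᵥ u) ∘ Sum.inr = C *ᵥ (u ∘ Sum.inl) + D *ᵥ (u ∘ Sum.inr) := by
  rw [Matrix.fromBlocks_mulVec]
  exact ⟨rfl, rfl⟩

theorem mul_inv28 {F : Type*} [Field F] {n : ℕ} (Q : QuadraticForm F (Fin n → F))
    (a : ↥(Cfsg.isometryGroup F ⇑Q)) :
    ((a : Matrix.GeneralLinearGroup (Fin n) F) : Matrix (Fin n) (Fin n) F) *
      (((a⁻¹ : ↥(Cfsg.isometryGroup F ⇑Q)) : Matrix.GeneralLinearGroup (Fin n) F) : Matrix (Fin n) (Fin n) F) = 1 := by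
  have h2 := mul_inv_cancel a
  exact congrArg (fun z : ↥(Cfsg.isometryGroup F ⇑Q) =>
    ((z : Matrix.GeneralLinearGroup (Fin n) F) : Matrix (Fin n) (Fin n) F)) h2

theorem inv_mul28 {F : Type*} [Field F] {n : ℕ} (Q : QuadraticForm F (Fin n → F))
    (a : ↥(Cfsg.isometryGroup F ⇑Q)) :
    (((a⁻¹ : ↥(Cfsg.isometryGroup F ⇑Q)) : Matrix.GeneralLinearGroup (Fin n) F) : Matrix (Fin n) (Fin n) F) *
      ((a : Matrix.GeneralLinearGroup (Fin n) F) : Matrix (Fin n) (Fin n) F) = 1 := by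
  have h2 := inv_mul_cancel a
  exact congrArg (fun z : ↥(Cfsg.isometryGroup F ⇑Q) =>
    ((z : Matrix.GeneralLinearGroup (Fin n) F) : Matrix (Fin n) (Fin n) F)) h2

/-- For the orthogonal direct sum Q ⊕ Q of two copies of a quadratic form Q with non-degenerate polar form on F^k (F finite), every isometry g of Q acting diagonally, diag(g, g), lies in Ω(Q ⊕ Q), the commutator subgroup of the orthogonal group of Q ⊕ Q. (Excluded: k = 2 over the field of two elements, where Q ⊕ Q is the hyperbolic 4-space whose orthogonal group's commutator subgroup is smaller than the group usually called Ω.) -/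
theorem result {F : Type*} [Field F] [Fintype F] {k : ℕ} (h : Fintype.card F ≠ 2 ∨ k ≠ 2) (Q : QuadraticForm F (Fin k → F)) (hQ : (QuadraticMap.polarBilin Q).Nondegenerate) (g : ↥(Cfsg.isometryGroup F ⇑Q)) : ∃ x : ↥(Cfsg.isometryGroup F (fun v : Fin k ⊕ Fin k → F => Q (v ∘ Sum.inl) + Q (v ∘ Sum.inr))), x ∈ Cfsg.Omega F (fun v : Fin k ⊕ Fin k → F => Q (v ∘ Sum.inl) + Q (v ∘ Sum.inr)) ∧ ((x : Matrix.GeneralLinearGroup (Fin k ⊕ Fin k) F) : Matrix (Fin k ⊕ Fin k) (Fin k ⊕ Fin k) F) = Matrix.fromBlocks ((g : Matrix.GeneralLinearGroup (Fin k) F) : Matrix (Fin k) (Fin k) F) 0 0 ((g : Matrix.GeneralLinearGroup (Fin k) F) : Matrix (Fin k) (Fin k) F) := by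
  classical
  have h' : Fintype.card F ≠ 2 ∨ k + k ≠ 4 := by
    rcases h with h | h
    · exact Or.inl h
    · right
      omega
  -- squares lie in Omega
  have hsq : ∀ y : ↥(Cfsg.isometryGroup F (fun v : Fin k ⊕ Fin k → F => Q (v ∘ Sum.inl) + Q (v ∘ Sum.inr))),
      y * y ∈ commutator ↥(Cfsg.isometryGroup F (fun v : Fin k ⊕ Fin k → F => Q (v ∘ Sum.inl) + Q (v ∘ Sum.inr))) := by
    intro y
    have hQ' : ∀ w : Fin (k + k) → F, (⇑(qT69 (finSumFinEquiv : Fin k ⊕ Fin k ≃ Fin (k + k)) (q2_28 Q)) :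
        (Fin (k + k) → F) → F) w =
        (fun v : Fin k ⊕ Fin k → F => Q (v ∘ Sum.inl) + Q (v ∘ Sum.inr))
          (w ∘ (finSumFinEquiv : Fin k ⊕ Fin k ≃ Fin (k + k))) := fun w => rfl
    rw [comm_equiv29 (psi29 (finSumFinEquiv : Fin k ⊕ Fin k ≃ Fin (k + k)) _ _ hQ'), map_mul]
    exact sq_mem28 h' _ (qT_nondeg69 _ (q2_28 Q) (q2_nondeg28 Q hQ)) _
  have hOn : (commutator ↥(Cfsg.isometryGroup F
      (fun v : Fin k ⊕ Fin k → F => Q (v ∘ Sum.inl) + Q (v ∘ Sum.inr)))).Normal := by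
    rw [commutator_def]
    infer_instance
  -- the two elements
  have hgiso : ∀ u : Fin k → F, Q (((g : Matrix.GeneralLinearGroup (Fin k) F) : Matrix (Fin k) (Fin k) F) *ᵥ u) = Q u :=
    fun u => g.2 u u
  let a : ↥(Cfsg.isometryGroup F (fun v : Fin k ⊕ Fin k → F => Q (v ∘ Sum.inl) + Q (v ∘ Sum.inr))) :=
    ⟨⟨Matrix.fromBlocks ((g : Matrix.GeneralLinearGroup (Fin k) F) : Matrix (Fin k) (Fin k) F) 0 0 1,
      Matrix.fromBlocks (((g⁻¹ : ↥(Cfsg.isometryGroup F ⇑Q)) : Matrix.GeneralLinearGroup (Fin k) F) :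
        Matrix (Fin k) (Fin k) F) 0 0 1,
      by rw [Matrix.fromBlocks_multiply]; simp [Matrix.fromBlocks_one],
      by rw [Matrix.fromBlocks_multiply]; simp [Matrix.fromBlocks_one]⟩,
      fun u _ => by
        show Q ((Matrix.fromBlocks ((g : Matrix.GeneralLinearGroup (Fin k) F) : Matrix (Fin k) (Fin k) F) 0 0 1 *ᵥ u) ∘ Sum.inl) +
          Q ((Matrix.fromBlocks ((g : Matrix.GeneralLinearGroup (Fin k) F) : Matrix (Fin k) (Fin k) F) 0 0 1 *ᵥ u) ∘ Sum.inr) =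
          Q (u ∘ Sum.inl) + Q (u ∘ Sum.inr)
        rw [(blk_mulVec28 _ _ _ _ u).1, (blk_mulVec28 _ _ _ _ u).2]
        simp only [Matrix.zero_mulVec, add_zero, zero_add, Matrix.one_mulVec]
        rw [hgiso]⟩
  let s : ↥(Cfsg.isometryGroup F (fun v : Fin k ⊕ Fin k → F => Q (v ∘ Sum.inl) + Q (v ∘ Sum.inr))) :=
    ⟨⟨Matrix.fromBlocks 0 1 1 0, Matrix.fromBlocks 0 1 1 0,
      by rw [Matrix.fromBlocks_multiply]; simp [Matrix.fromBlocks_one],
      by rw [Matrix.fromBlocks_multiply]; simp [Matrix.fromBlocks_one]⟩,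
      fun u _ => by
        show Q ((Matrix.fromBlocks (0 : Matrix (Fin k) (Fin k) F) 1 1 0 *ᵥ u) ∘ Sum.inl) +
          Q ((Matrix.fromBlocks (0 : Matrix (Fin k) (Fin k) F) 1 1 0 *ᵥ u) ∘ Sum.inr) =
          Q (u ∘ Sum.inl) + Q (u ∘ Sum.inr)
        rw [(blk_mulVec28 _ _ _ _ u).1, (blk_mulVec28 _ _ _ _ u).2]
        simp only [Matrix.zero_mulVec, add_zero, zero_add, Matrix.one_mulVec]
        rw [add_comm]⟩
  have hs : s⁻¹ = s := by
    apply inv_eq_of_mul_eq_one_right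
    apply Subtype.ext
    apply Units.ext
    show Matrix.fromBlocks (0 : Matrix (Fin k) (Fin k) F) 1 1 0 * Matrix.fromBlocks 0 1 1 0 = 1
    rw [Matrix.fromBlocks_multiply]
    simp [Matrix.fromBlocks_one]
  refine ⟨a * s * a * s, ?_, ?_⟩
  · have e : a * s * a * s = ⁅a, s⁆ * (s * (a * a) * s⁻¹) := by
      rw [commutatorElement_def]
      nth_rewrite 2 [← hs]
      group
    rw [e]
    refine Subgroup.mul_mem _ ?_ (hOn.conj_mem _ (hsq a) s)
    show ⁅a, s⁆ ∈ commutator ↥(Cfsg.isometryGroup F (fun v : Fin k ⊕ Fin k → F => Q (v ∘ Sum.inl) + Q (v ∘ Sum.inr)))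
    rw [commutator_def]
    exact Subgroup.commutator_mem_commutator (Subgroup.mem_top _) (Subgroup.mem_top _)
  · show Matrix.fromBlocks ((g : Matrix.GeneralLinearGroup (Fin k) F) : Matrix (Fin k) (Fin k) F) 0 0 1 *
      Matrix.fromBlocks 0 1 1 0 *
      Matrix.fromBlocks ((g : Matrix.GeneralLinearGroup (Fin k) F) : Matrix (Fin k) (Fin k) F) 0 0 1 *
      Matrix.fromBlocks 0 1 1 0 = _
    rw [Matrix.fromBlocks_multiply, Matrix.fromBlocks_multiply, Matrix.fromBlocks_multiply]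
    simp

end Cfsg.Agent.S2628
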