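import Cfsg.Statements.S2613
import Mathlib
import Cfsg.Agent.S2631
import Cfsg.Agent.S2628
import Cfsg.Agent.S2612
import Cfsg.Statements.S2613

set_option autoImplicit false
open Cfsg
open scoped commutatorElement

namespace Cfsg.Agent.S2613

open Cfsg.Agent.S0832 Cfsg.Agent.S2612 Cfsg.Agent.S0750 Cfsg.Agent.S0794 Cfsg.Agent.S0792 Cfsg.Agent.S0786 Cfsg.Agent.S2635 Cfsg.Agent.S0789 Cfsg.Agent.S2629 Cfsg.Agent.S2633 Cfsg.Agent.S2631 Cfsg.Agent.S2628 Matrix
open scoped commutatorElement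

theorem sign_gen13 {G : Type*} [Group G] [Fintype G] [DecidableEq G] (γ : G) (hgen : ∀ y : G, y ∈ Subgroup.zpowers γ)
    (hcard : Even (Fintype.card G)) (hne : γ ≠ 1) :
    Equiv.Perm.sign (MulAction.toPerm γ : Equiv.Perm G) = -1 := by
  have hpow : ∀ i : ℤ, ((MulAction.toPerm γ : Equiv.Perm G) ^ i) 1 = γ ^ i := by
    intro i
    have h1 : (MulAction.toPerm γ : Equiv.Perm G) ^ i = MulAction.toPermHom G G (γ ^ i) := by
      rw [map_zpow]
      rfl
    rw [h1]
    show γ ^ i • (1 : G) = γ ^ i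
    rw [smul_eq_mul, mul_one]
  have hc : (MulAction.toPerm γ : Equiv.Perm G).IsCycle := by
    refine ⟨1, ?_, fun y _ => ?_⟩
    · show γ • (1 : G) ≠ 1
      rw [smul_eq_mul, mul_one]
      exact hne
    · obtain ⟨i, hi⟩ := Subgroup.mem_zpowers_iff.mp (hgen y)
      exact ⟨i, by rw [hpow, hi]⟩
  have hsupp : (MulAction.toPerm γ : Equiv.Perm G).support = Finset.univ := by
    ext y
    simp only [Equiv.Perm.mem_support, Finset.mem_univ, iff_true]
    show γ • y ≠ y
    rw [smul_eq_mul]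
    intro h
    exact hne (mul_eq_right.mp h)
  rw [hc.sign, hsupp, Finset.card_univ, Even.neg_one_pow hcard]

theorem sign_rot13 {F : Type*} [Field F] [Fintype F] (h2 : (2 : F) ≠ 0) {n : ℕ} (Q : QuadraticForm F (Fin n → F))
    (p q : Fin n → F) (hp : Q p = 0) (hq : Q q = 0) (hpq : QuadraticMap.polarBilin Q p q = 1)
    (γu : Fˣ) (hgen : ∀ y : Fˣ, y ∈ Subgroup.zpowers γu)
    [DecidableEq {x : Fin n → F // Q x = 1}] [Fintype {x : Fin n → F // Q x = 1}]
    (τ : Equiv.Perm {x : Fin n → F // Q x = 1})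
    (hτ : ∀ x, (τ x).1 = hL86 Q p q (γu : F) x.1) :
    Equiv.Perm.sign τ = -1 := by
  classical
  have hγ0 : (γu : F) ≠ 0 := γu.ne_zero
  have hqp : QuadraticMap.polarBilin Q q p = 1 := by rw [Bsymm50, hpq]
  have hpp : QuadraticMap.polarBilin Q p p = 0 := by rw [Bself92, hp, mul_zero]
  have hqq : QuadraticMap.polarBilin Q q q = 0 := by rw [Bself92, hq, mul_zero]
  have hodd : Fintype.card F % 2 = 1 := by
    apply FiniteField.odd_card_of_char_ne_two
    intro h
    apply h2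
    have := ringChar.Nat.cast_ringChar (R := F)
    rw [h] at this
    exact_mod_cast this
  let K : Submodule F (Fin n → F) :=
    LinearMap.ker (QuadraticMap.polarBilin Q p) ⊓ LinearMap.ker (QuadraticMap.polarBilin Q q)
  have hK : ∀ w : ↥K, QuadraticMap.polarBilin Q p (w : Fin n → F) = 0 ∧
      QuadraticMap.polarBilin Q q (w : Fin n → F) = 0 :=
    fun w => ⟨LinearMap.mem_ker.mp w.2.1, LinearMap.mem_ker.mp w.2.2⟩
  have hQ1 : ∀ (w : ↥K) (a d : F), Q ((w : Fin n → F) + a • p + d • q) = Q (w : Fin n → F) + a * d := by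
    intro w a d
    rw [Q3_50, hp, hq, hpq, Bsymm50 Q _ p, Bsymm50 Q _ q, (hK w).1, (hK w).2]
    ring
  have hα : ∀ (w : ↥K) (a d : F), QuadraticMap.polarBilin Q q ((w : Fin n → F) + a • p + d • q) = a := by
    intro w a d
    simp only [map_add, map_smul, smul_eq_mul, (hK w).2, hqp, hqq]
    ring
  have hβ : ∀ (w : ↥K) (a d : F), QuadraticMap.polarBilin Q p ((w : Fin n → F) + a • p + d • q) = d := by
    intro w a d
    simp only [map_add, map_smul, smul_eq_mul, (hK w).1, hpp, hpq]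
    ring
  let Φ : (Fˣ × ↥K) ⊕ (F × {w : ↥K // Q (w : Fin n → F) = 1}) → {x : Fin n → F // Q x = 1} :=
    Sum.elim
      (fun y => ⟨(y.2 : Fin n → F) + (y.1 : F) • p + ((1 - Q (y.2 : Fin n → F)) / (y.1 : F)) • q, by
        rw [hQ1]
        have hu : (y.1 : F) ≠ 0 := y.1.ne_zero
        field_simp
        ring⟩)
      (fun y => ⟨(y.2.1 : Fin n → F) + (0 : F) • p + y.1 • q, by
        rw [hQ1, zero_mul, add_zero]
        exact y.2.2⟩)
  have hinj : Function.Injective Φ := by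
    rintro (⟨u, w⟩ | ⟨b, w⟩) (⟨u', w'⟩ | ⟨b', w'⟩) hxy
    · have hxy' : (w : Fin n → F) + (u : F) • p + ((1 - Q (w : Fin n → F)) / (u : F)) • q =
          (w' : Fin n → F) + (u' : F) • p + ((1 - Q (w' : Fin n → F)) / (u' : F)) • q :=
        congrArg Subtype.val hxy
      have e1 := congrArg (QuadraticMap.polarBilin Q q) hxy'
      rw [hα, hα] at e1
      have e2 := congrArg (QuadraticMap.polarBilin Q p) hxy'
      rw [hβ, hβ] at e2
      rw [e2, e1] at hxy'
      have e3 : (w : Fin n → F) = (w' : Fin n → F) := add_right_cancel (add_right_cancel hxy')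
      have eu : u = u' := Units.ext e1
      have ew : w = w' := Subtype.ext e3
      rw [eu, ew]
    · have hxy' : (w : Fin n → F) + (u : F) • p + ((1 - Q (w : Fin n → F)) / (u : F)) • q =
          (w'.1 : Fin n → F) + (0 : F) • p + b' • q :=
        congrArg Subtype.val hxy
      have e1 := congrArg (QuadraticMap.polarBilin Q q) hxy'
      rw [hα, hα] at e1
      exact absurd e1 u.ne_zero
    · have hxy' : (w.1 : Fin n → F) + (0 : F) • p + b • q =
          (w' : Fin n → F) + (u' : F) • p + ((1 - Q (w' : Fin n → F)) / (u' : F)) • q :=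
        congrArg Subtype.val hxy
      have e1 := congrArg (QuadraticMap.polarBilin Q q) hxy'
      rw [hα, hα] at e1
      exact absurd e1.symm u'.ne_zero
    · have hxy' : (w.1 : Fin n → F) + (0 : F) • p + b • q = (w'.1 : Fin n → F) + (0 : F) • p + b' • q :=
        congrArg Subtype.val hxy
      have e2 := congrArg (QuadraticMap.polarBilin Q p) hxy'
      rw [hβ, hβ] at e2
      rw [e2] at hxy'
      have e3 : (w.1 : Fin n → F) = (w'.1 : Fin n → F) := add_right_cancel (add_right_cancel hxy')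
      have ew : w = w' := Subtype.ext (Subtype.ext e3)
      rw [e2, ew]
  have hsurj : Function.Surjective Φ := by
    rintro ⟨x, hx⟩
    obtain ⟨a, ha⟩ : ∃ a, a = QuadraticMap.polarBilin Q q x := ⟨_, rfl⟩
    obtain ⟨d, hd⟩ : ∃ d, d = QuadraticMap.polarBilin Q p x := ⟨_, rfl⟩
    have hwK : x - a • p - d • q ∈ K := by
      refine ⟨LinearMap.mem_ker.mpr ?_, LinearMap.mem_ker.mpr ?_⟩
      · simp only [map_sub, map_smul, smul_eq_mul, hpp, hpq]
        rw [← hd]
        ring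
      · simp only [map_sub, map_smul, smul_eq_mul, hqp, hqq]
        rw [← ha]
        ring
    have hx' : (x - a • p - d • q) + a • p + d • q = x := by abel
    have hQw : Q (x - a • p - d • q) + a * d = 1 := by
      have h3 := hQ1 ⟨_, hwK⟩ a d
      rw [hx', hx] at h3
      exact h3.symm
    by_cases ha0 : a = 0
    · have hQw1 : Q (x - a • p - d • q) = 1 := by
        have h4 : a * d = 0 := by rw [ha0, zero_mul]
        linear_combination hQw - h4
      refine ⟨Sum.inr (d, ⟨⟨_, hwK⟩, hQw1⟩), ?_⟩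
      apply Subtype.ext
      show (x - a • p - d • q) + (0 : F) • p + d • q = x
      rw [ha0]
      simp
    · refine ⟨Sum.inl (Units.mk0 a ha0, ⟨_, hwK⟩), ?_⟩
      apply Subtype.ext
      show (x - a • p - d • q) + a • p + ((1 - Q (x - a • p - d • q)) / a) • q = x
      have h5 : (1 - Q (x - a • p - d • q)) / a = d := by
        field_simp
        linear_combination -hQw
      rw [h5]
      exact hx'
  let f : Equiv.Perm ((Fˣ × ↥K) ⊕ (F × {w : ↥K // Q (w : Fin n → F) = 1})) :=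
    Equiv.sumCongr (Equiv.prodCongrLeft (fun _ : ↥K => (MulAction.toPerm γu : Equiv.Perm Fˣ)))
      (Equiv.prodCongrLeft (fun _ : {w : ↥K // Q (w : Fin n → F) = 1} =>
        Equiv.mulLeft₀ ((γu : F)⁻¹) (inv_ne_zero hγ0)))
  have hint : ∀ y, (Equiv.ofBijective Φ ⟨hinj, hsurj⟩) (f y) = τ ((Equiv.ofBijective Φ ⟨hinj, hsurj⟩) y) := by
    rintro (⟨u, w⟩ | ⟨b, w⟩)
    · apply Subtype.ext
      rw [hτ]
      show ((w : Fin n → F) + ((γu * u : Fˣ) : F) • p +
        ((1 - Q (w : Fin n → F)) / ((γu * u : Fˣ) : F)) • q) =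
        hL86 Q p q (γu : F) ((w : Fin n → F) + (u : F) • p + ((1 - Q (w : Fin n → F)) / (u : F)) • q)
      rw [hL_apply86, hα, hβ, Units.val_mul]
      have hu : (u : F) ≠ 0 := u.ne_zero
      funext i
      simp only [Pi.add_apply, Pi.smul_apply, smul_eq_mul]
      field_simp
      ring
    · apply Subtype.ext
      rw [hτ]
      show ((w.1 : Fin n → F) + (0 : F) • p + ((γu : F)⁻¹ * b) • q) =
        hL86 Q p q (γu : F) ((w.1 : Fin n → F) + (0 : F) • p + b • q)
      rw [hL_apply86, hα, hβ]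
      funext i
      simp only [Pi.add_apply, Pi.smul_apply, smul_eq_mul]
      ring
  have hsign := Equiv.Perm.sign_eq_sign_of_equiv f τ (Equiv.ofBijective Φ ⟨hinj, hsurj⟩) hint
  rw [← hsign]
  show Equiv.Perm.sign (Equiv.sumCongr (Equiv.prodCongrLeft (fun _ : ↥K => (MulAction.toPerm γu : Equiv.Perm Fˣ)))
      (Equiv.prodCongrLeft (fun _ : {w : ↥K // Q (w : Fin n → F) = 1} =>
        Equiv.mulLeft₀ ((γu : F)⁻¹) (inv_ne_zero hγ0)))) = -1
  rw [Equiv.Perm.sign_sumCongr, Equiv.Perm.sign_prodCongrLeft, Equiv.Perm.sign_prodCongrLeft,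
    Finset.prod_const, Finset.prod_const, Finset.card_univ, Finset.card_univ]
  -- the three facts
  have hFu : Even (Fintype.card Fˣ) := by
    rw [Fintype.card_units, Nat.even_iff]
    have : 0 < Fintype.card F := Fintype.card_pos
    omega
  have hγ1 : γu ≠ 1 := by
    intro h1
    have h3 := hgen (-1)
    rw [h1, Subgroup.zpowers_one_eq_bot, Subgroup.mem_bot] at h3
    apply h2
    have h4 : ((-1 : Fˣ) : F) = ((1 : Fˣ) : F) := by rw [h3]
    rw [Units.val_neg, Units.val_one] at h4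
    linear_combination -h4
  have hσ : Equiv.Perm.sign (MulAction.toPerm γu : Equiv.Perm Fˣ) = -1 := sign_gen13 γu hgen hFu hγ1
  have hKodd : Odd (Fintype.card ↥K) := by
    rw [Module.card_eq_pow_finrank (K := F) (V := ↥K)]
    exact Odd.pow (Nat.odd_iff.mpr hodd)
  have hWeven : Even (Fintype.card {w : ↥K // Q (w : Fin n → F) = 1}) := by
    let ν : Equiv.Perm {w : ↥K // Q (w : Fin n → F) = 1} :=
      Function.Involutive.toPerm (fun w => ⟨-w.1, by
        show Q (-(w.1 : Fin n → F)) = 1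
        rw [QuadraticMap.map_neg]
        exact w.2⟩) (fun w => Subtype.ext (neg_neg w.1))
    have hν2 : ν ^ 2 = 1 := by
      apply Equiv.ext
      intro w
      rw [pow_two, Equiv.Perm.mul_apply, Equiv.Perm.one_apply]
      exact Subtype.ext (neg_neg w.1)
    have hsupp : ν.support = Finset.univ := by
      ext w
      simp only [Equiv.Perm.mem_support, Finset.mem_univ, iff_true]
      intro hw
      have h3 : (-(w.1 : Fin n → F)) = (w.1 : Fin n → F) := by
        have := congrArg (fun z : {w : ↥K // Q (w : Fin n → F) = 1} => ((z.1 : ↥K) : Fin n → F)) hw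
        exact this
      have h4 : (w.1 : Fin n → F) = 0 := by
        have h5 : (2 : F) • (w.1 : Fin n → F) = 0 := by
          rw [two_smul]
          nth_rewrite 1 [← h3]
          exact neg_add_cancel _
        rcases smul_eq_zero.mp h5 with h6 | h6
        · exact absurd h6 h2
        · exact h6
      have h7 := w.2
      rw [h4, map_zero] at h7
      exact zero_ne_one h7
    have h8 := Equiv.Perm.two_dvd_card_support hν2
    rw [hsupp, Finset.card_univ] at h8
    exact even_iff_two_dvd.mpr h8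
  rw [hσ, Odd.neg_one_pow hKodd]
  obtain ⟨j, hj⟩ := hWeven
  rw [hj, ← two_mul, pow_mul, Int.units_sq, one_pow, mul_one]

noncomputable def perm13 {F : Type*} [Field F] {n : ℕ} (Q : QuadraticForm F (Fin n → F)) (c : F) :
    ↥(Cfsg.isometryGroup F ⇑Q) →* Equiv.Perm {x : Fin n → F // Q x = c} where
  toFun g :=
    { toFun := fun x => ⟨((g : Matrix.GeneralLinearGroup (Fin n) F) : Matrix (Fin n) (Fin n) F) *ᵥ x.1,
        (g.2 x.1 x.1).trans x.2⟩
      invFun := fun x => ⟨(((g⁻¹ : ↥(Cfsg.isometryGroup F ⇑Q)) : Matrix.GeneralLinearGroup (Fin n) F) :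
        Matrix (Fin n) (Fin n) F) *ᵥ x.1, ((g⁻¹).2 x.1 x.1).trans x.2⟩
      left_inv := fun x => Subtype.ext (by
        show (((g⁻¹ : ↥(Cfsg.isometryGroup F ⇑Q)) : Matrix.GeneralLinearGroup (Fin n) F) :
          Matrix (Fin n) (Fin n) F) *ᵥ (((g : Matrix.GeneralLinearGroup (Fin n) F) :
          Matrix (Fin n) (Fin n) F) *ᵥ x.1) = x.1
        rw [Matrix.mulVec_mulVec, inv_mul28, Matrix.one_mulVec])
      right_inv := fun x => Subtype.ext (by
        show ((g : Matrix.GeneralLinearGroup (Fin n) F) : Matrix (Fin n) (Fin n) F) *ᵥ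
          ((((g⁻¹ : ↥(Cfsg.isometryGroup F ⇑Q)) : Matrix.GeneralLinearGroup (Fin n) F) :
          Matrix (Fin n) (Fin n) F) *ᵥ x.1) = x.1
        rw [Matrix.mulVec_mulVec, mul_inv28, Matrix.one_mulVec]) }
  map_one' := Equiv.ext fun x => Subtype.ext (Matrix.one_mulVec x.1)
  map_mul' := fun a b => Equiv.ext fun x => Subtype.ext (by
    show (((a : Matrix.GeneralLinearGroup (Fin n) F) : Matrix (Fin n) (Fin n) F) *
      ((b : Matrix.GeneralLinearGroup (Fin n) F) : Matrix (Fin n) (Fin n) F)) *ᵥ x.1 =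
      ((a : Matrix.GeneralLinearGroup (Fin n) F) : Matrix (Fin n) (Fin n) F) *ᵥ
      (((b : Matrix.GeneralLinearGroup (Fin n) F) : Matrix (Fin n) (Fin n) F) *ᵥ x.1)
    rw [Matrix.mulVec_mulVec])

theorem dec13 {F : Type*} [Field F] (γu : Fˣ) (hgen : ∀ y : Fˣ, y ∈ Subgroup.zpowers γu) (a : F) (ha : a ≠ 0) :
    IsSquare a ∨ ∃ s : F, s ≠ 0 ∧ a = (γu : F) * (s * s) := by
  obtain ⟨j, hj⟩ := Subgroup.mem_zpowers_iff.mp (hgen (Units.mk0 a ha))
  have hj' : ((γu ^ j : Fˣ) : F) = a := by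
    rw [hj]
    rfl
  rcases Int.even_or_odd j with ⟨i, hi⟩ | ⟨i, hi⟩
  · left
    refine ⟨((γu ^ i : Fˣ) : F), ?_⟩
    rw [← hj', hi, _root_.zpow_add, Units.val_mul]
  · right
    refine ⟨((γu ^ i : Fˣ) : F), (γu ^ i).ne_zero, ?_⟩
    rw [← hj', hi, _root_.zpow_add, _root_.zpow_one, two_mul, _root_.zpow_add, Units.val_mul, Units.val_mul]
    ring

theorem gen_nsq13 {F : Type*} [Field F] [Fintype F] (h2 : (2 : F) ≠ 0) (γu : Fˣ)
    (hgen : ∀ y : Fˣ, y ∈ Subgroup.zpowers γu) : ¬ IsSquare (γu : F) := by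
  rintro ⟨w, hw⟩
  have hchar : ringChar F ≠ 2 := by
    intro h
    apply h2
    have := ringChar.Nat.cast_ringChar (R := F)
    rw [h] at this
    exact_mod_cast this
  obtain ⟨a, ha⟩ := FiniteField.exists_nonsquare hchar
  have ha0 : a ≠ 0 := by
    rintro rfl
    exact ha ⟨0, by rw [mul_zero]⟩
  rcases dec13 γu hgen a ha0 with h | ⟨s, -, hs⟩
  · exact ha h
  · apply ha
    refine ⟨w * s, ?_⟩
    rw [hs, hw]
    ring

theorem card_ne_two13 {F : Type*} [Field F] [Fintype F] (h2 : (2 : F) ≠ 0) : Fintype.card F ≠ 2 := by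
  intro hc
  apply h2
  have h3 := Nat.cast_card_eq_zero F
  rw [hc] at h3
  exact_mod_cast h3

theorem exists_chi13 {F : Type*} [Field F] [Fintype F] (h2 : (2 : F) ≠ 0) {n : ℕ} (Q : QuadraticForm F (Fin n → F))
    (hQ : (QuadraticMap.polarBilin Q).Nondegenerate)
    (p q : Fin n → F) (hp : Q p = 0) (hq : Q q = 0) (hpq : QuadraticMap.polarBilin Q p q = 1) :
    ∃ χ : ↥(Cfsg.isometryGroup F ⇑Q) →* ℤˣ, ∀ (u v : Fin n → F) (hu : Q u ≠ 0) (hv : Q v ≠ 0),
      χ (reflEl92 Q u hu * reflEl92 Q v hv) = 1 ↔ IsSquare (Q u * Q v) := by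
  classical
  have h : Fintype.card F ≠ 2 ∨ n ≠ 4 := Or.inl (card_ne_two13 h2)
  obtain ⟨γu, hgen⟩ := IsCyclic.exists_generator (α := Fˣ)
  obtain ⟨χ, hχdef⟩ : ∃ χ : ↥(Cfsg.isometryGroup F ⇑Q) →* ℤˣ,
      ∀ g, χ g = Equiv.Perm.sign (perm13 Q 1 g) := ⟨Equiv.Perm.sign.comp (perm13 Q 1), fun g => rfl⟩
  refine ⟨χ, ?_⟩
  have hγ0 : (γu : F) ≠ 0 := γu.ne_zero
  have hQ1 : Q (p + q) = 1 := by rw [Qadd50, hp, hq, hpq]; ring
  have hQc : ∀ c : F, Q (p + c • q) = c := fun c => by rw [Q2_92, hp, hq, hpq]; ring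
  have hQ1' : Q (p + q) ≠ 0 := by rw [hQ1]; exact one_ne_zero
  have hQγ' : Q (p + (γu : F) • q) ≠ 0 := by rw [hQc]; exact hγ0
  have hkey : χ (reflEl92 Q (p + q) hQ1' * reflEl92 Q (p + (γu : F) • q) hQγ') = -1 := by
    rw [hχdef]
    apply sign_rot13 h2 Q p q hp hq hpq γu hgen
    intro x
    show (reflectionMatrix (⇑Q) (p + q) * reflectionMatrix (⇑Q) (p + (γu : F) • q)) *ᵥ x.1 = _
    rw [rot_refl86 Q p q (γu : F) hp hq hpq hγ0, LinearMap.comp_apply, rL_apply86 Q _ x.1, rL_apply86,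
      ← Matrix.mulVec_mulVec, refl_mulVec92, refl_mulVec92]
  have hcomm : ∀ c ∈ commutator ↥(Cfsg.isometryGroup F ⇑Q), χ c = 1 := fun c hc =>
    MonoidHom.mem_ker.mp (Abelianization.commutator_subset_ker χ hc)
  have hsame : ∀ (u v : Fin n → F) (hu : Q u ≠ 0) (hv : Q v ≠ 0), Q v = Q u →
      χ (reflEl92 Q u hu) = χ (reflEl92 Q v hv) := by
    intro u v hu hv huv
    obtain ⟨c, hc, e⟩ := refl_comm31 h Q hQ u v hu hv huv
    rw [e, map_mul, hcomm c hc, one_mul]
  have hscale : ∀ (v : Fin n → F) (s : F) (hs : s ≠ 0) (hv : Q v ≠ 0) (hsv : Q (s • v) ≠ 0),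
      reflEl92 Q (s • v) hsv = reflEl92 Q v hv := by
    intro v s hs hv hsv
    apply Subtype.ext
    apply Units.ext
    exact refl_smul35 Q v s hs hv
  have hε : χ (reflEl92 Q (p + q) hQ1') * χ (reflEl92 Q (p + (γu : F) • q) hQγ') = -1 := by
    rw [← map_mul]
    exact hkey
  have hsq : ∀ (u : Fin n → F) (hu : Q u ≠ 0), IsSquare (Q u) →
      χ (reflEl92 Q u hu) = χ (reflEl92 Q (p + q) hQ1') := by
    rintro u hu ⟨s, hs⟩
    have hs0 : s ≠ 0 := by
      rintro rfl
      rw [mul_zero] at hs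
      exact hu hs
    have hQs : Q (s • (p + q)) = Q u := by rw [Qsmul50, hQ1, mul_one, hs]
    have hne : Q (s • (p + q)) ≠ 0 := by rw [hQs]; exact hu
    rw [hsame u (s • (p + q)) hu hne hQs, hscale (p + q) s hs0 hQ1' hne]
  have hnsq : ∀ (u : Fin n → F) (hu : Q u ≠ 0), ¬ IsSquare (Q u) →
      χ (reflEl92 Q u hu) = χ (reflEl92 Q (p + (γu : F) • q) hQγ') := by
    intro u hu hns
    rcases dec13 γu hgen (Q u) hu with hsq' | ⟨s, hs0, hs⟩
    · exact absurd hsq' hns
    · have hQs : Q (s • (p + (γu : F) • q)) = Q u := by rw [Qsmul50, hQc, hs]; ring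
      have hne : Q (s • (p + (γu : F) • q)) ≠ 0 := by rw [hQs]; exact hu
      rw [hsame u (s • (p + (γu : F) • q)) hu hne hQs, hscale (p + (γu : F) • q) s hs0 hQγ' hne]
  have hne1 : (-1 : ℤˣ) ≠ 1 := by decide
  intro u v hu hv
  rw [map_mul]
  by_cases hsu : IsSquare (Q u) <;> by_cases hsv : IsSquare (Q v)
  · rw [hsq u hu hsu, hsq v hv hsv, Int.units_mul_self]
    exact ⟨fun _ => hsu.mul hsv, fun _ => rfl⟩
  · rw [hsq u hu hsu, hnsq v hv hsv, hε]
    refine ⟨fun h1 => absurd h1 hne1, fun h1 => ?_⟩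
    exfalso
    apply hsv
    obtain ⟨s, hs⟩ := hsu
    obtain ⟨t, ht⟩ := h1
    have hs0 : s ≠ 0 := by
      rintro rfl
      rw [mul_zero] at hs
      exact hu hs
    refine ⟨t / s, ?_⟩
    rw [hs] at ht
    field_simp
    linear_combination ht
  · rw [hnsq u hu hsu, hsq v hv hsv, mul_comm, hε]
    refine ⟨fun h1 => absurd h1 hne1, fun h1 => ?_⟩
    exfalso
    apply hsu
    obtain ⟨s, hs⟩ := hsv
    obtain ⟨t, ht⟩ := h1
    have hs0 : s ≠ 0 := by
      rintro rfl
      rw [mul_zero] at hs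
      exact hv hs
    refine ⟨t / s, ?_⟩
    rw [hs] at ht
    field_simp
    linear_combination ht
  · rw [hnsq u hu hsu, hnsq v hv hsv, Int.units_mul_self]
    refine ⟨fun _ => ?_, fun _ => rfl⟩
    rcases dec13 γu hgen (Q u) hu with hsq' | ⟨s, hs0, hs⟩
    · exact absurd hsq' hsu
    · rcases dec13 γu hgen (Q v) hv with hsq'' | ⟨t, ht0, ht⟩
      · exact absurd hsq'' hsv
      · refine ⟨(γu : F) * s * t, ?_⟩
        rw [hs, ht]
        ring

theorem omega_iff13 {F : Type*} [Field F] [Fintype F] (h2 : (2 : F) ≠ 0) {n : ℕ} (Q : QuadraticForm F (Fin n → F))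
    (hQ : (QuadraticMap.polarBilin Q).Nondegenerate)
    (p q : Fin n → F) (hp : Q p = 0) (hq : Q q = 0) (hpq : QuadraticMap.polarBilin Q p q = 1)
    (χ : ↥(Cfsg.isometryGroup F ⇑Q) →* ℤˣ)
    (hχ : ∀ (u v : Fin n → F) (hu : Q u ≠ 0) (hv : Q v ≠ 0),
      χ (reflEl92 Q u hu * reflEl92 Q v hv) = 1 ↔ IsSquare (Q u * Q v))
    (g : ↥(Cfsg.isometryGroup F ⇑Q)) :
    g ∈ commutator ↥(Cfsg.isometryGroup F ⇑Q) ↔
      (((g : Matrix.GeneralLinearGroup (Fin n) F) : Matrix (Fin n) (Fin n) F).det = 1 ∧ χ g = 1) := by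
  classical
  have h : Fintype.card F ≠ 2 ∨ n ≠ 4 := Or.inl (card_ne_two13 h2)
  have hcomm : ∀ c ∈ commutator ↥(Cfsg.isometryGroup F ⇑Q), χ c = 1 := fun c hc =>
    MonoidHom.mem_ker.mp (Abelianization.commutator_subset_ker χ hc)
  constructor
  · intro hg
    refine ⟨?_, hcomm g hg⟩
    have hker := Abelianization.commutator_subset_ker (Matrix.GeneralLinearGroup.det.comp
      (Cfsg.isometryGroup F ⇑Q).subtype) hg
    rw [MonoidHom.mem_ker] at hker
    exact congrArg Units.val hker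
  · rintro ⟨hdet, hχg⟩
    obtain ⟨γu, hgen⟩ := IsCyclic.exists_generator (α := Fˣ)
    have hγns := gen_nsq13 h2 γu hgen
    have hγ0 : (γu : F) ≠ 0 := γu.ne_zero
    have hQ1 : Q (p + q) = 1 := by rw [Qadd50, hp, hq, hpq]; ring
    have hQc : ∀ c : F, Q (p + c • q) = c := fun c => by rw [Q2_92, hp, hq, hpq]; ring
    have hQ1' : Q (p + q) ≠ 0 := by rw [hQ1]; exact one_ne_zero
    have hQγ' : Q (p + (γu : F) • q) ≠ 0 := by rw [hQc]; exact hγ0
    obtain ⟨r₁, hr₁⟩ : ∃ r₁, r₁ = reflEl92 Q (p + q) hQ1' := ⟨_, rfl⟩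
    obtain ⟨rγ, hrγ⟩ : ∃ rγ, rγ = reflEl92 Q (p + (γu : F) • q) hQγ' := ⟨_, rfl⟩
    have hOn : (commutator ↥(Cfsg.isometryGroup F ⇑Q)).Normal := by
      rw [commutator_def]
      infer_instance
    have hr₁sq : r₁ * r₁ = 1 := by
      rw [hr₁]
      exact Subtype.ext (Units.ext (refl_sq92 Q _ hQ1'))
    have hrγsq : rγ * rγ = 1 := by
      rw [hrγ]
      exact Subtype.ext (Units.ext (refl_sq92 Q _ hQγ'))
    have hr₁inv : r₁⁻¹ = r₁ := inv_eq_of_mul_eq_one_right hr₁sq
    have hrγinv : rγ⁻¹ = rγ := inv_eq_of_mul_eq_one_right hrγsq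
    have hχt : χ (r₁ * rγ) = -1 := by
      rcases Int.units_eq_one_or (χ (r₁ * rγ)) with h1 | h1
      · exfalso
        rw [hr₁, hrγ] at h1
        have h3 := (hχ _ _ hQ1' hQγ').mp h1
        rw [hQ1, hQc, one_mul] at h3
        exact hγns h3
      · exact h1
    have hscale : ∀ (v : Fin n → F) (s : F) (hs : s ≠ 0) (hv : Q v ≠ 0) (hsv : Q (s • v) ≠ 0),
        reflEl92 Q (s • v) hsv = reflEl92 Q v hv := by
      intro v s hs hv hsv
      apply Subtype.ext
      apply Units.ext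
      exact refl_smul35 Q v s hs hv
    have hclass : ∀ (u : Fin n → F) (hu : Q u ≠ 0), ∃ c ∈ commutator ↥(Cfsg.isometryGroup F ⇑Q),
        reflEl92 Q u hu = c * r₁ ∨ reflEl92 Q u hu = c * rγ := by
      intro u hu
      rcases dec13 γu hgen (Q u) hu with ⟨s, hs⟩ | ⟨s, hs0, hs⟩
      · have hs0 : s ≠ 0 := by
          rintro rfl
          rw [mul_zero] at hs
          exact hu hs
        have hQs : Q (s • (p + q)) = Q u := by rw [Qsmul50, hQ1, mul_one, hs]
        have hne : Q (s • (p + q)) ≠ 0 := by rw [hQs]; exact hu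
        obtain ⟨c, hc, e⟩ := refl_comm31 h Q hQ u (s • (p + q)) hu hne hQs
        exact ⟨c, hc, Or.inl (by rw [e, hscale (p + q) s hs0 hQ1' hne, hr₁])⟩
      · have hQs : Q (s • (p + (γu : F) • q)) = Q u := by rw [Qsmul50, hQc, hs]; ring
        have hne : Q (s • (p + (γu : F) • q)) ≠ 0 := by rw [hQs]; exact hu
        obtain ⟨c, hc, e⟩ := refl_comm31 h Q hQ u (s • (p + (γu : F) • q)) hu hne hQs
        exact ⟨c, hc, Or.inr (by rw [e, hscale (p + (γu : F) • q) s hs0 hQγ' hne, hrγ])⟩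
    have hT : Subgroup.closure (Tset92 Q) ≤
        commutator ↥(Cfsg.isometryGroup F ⇑Q) ⊔ Subgroup.zpowers (r₁ * rγ) := by
      rw [Subgroup.closure_le]
      rintro t ⟨u, v, hu, hv, ht⟩
      show t ∈ commutator ↥(Cfsg.isometryGroup F ⇑Q) ⊔ Subgroup.zpowers (r₁ * rγ)
      have et : t = reflEl92 Q u hu * reflEl92 Q v hv := Subtype.ext (Units.ext ht)
      obtain ⟨c₁, hc₁, e₁⟩ := hclass u hu
      obtain ⟨c₂, hc₂, e₂⟩ := hclass v hv
      have hgenl : ∀ A B : ↥(Cfsg.isometryGroup F ⇑Q), A * B ∈ Subgroup.zpowers (r₁ * rγ) →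
          reflEl92 Q u hu = c₁ * A → reflEl92 Q v hv = c₂ * B →
          t ∈ commutator ↥(Cfsg.isometryGroup F ⇑Q) ⊔ Subgroup.zpowers (r₁ * rγ) := by
        intro A B hAB eA eB
        have e3 : t = c₁ * (A * c₂ * A⁻¹) * (A * B) := by
          rw [et, eA, eB]
          group
        rw [e3]
        exact Subgroup.mul_mem _ (Subgroup.mul_mem _ (Subgroup.mem_sup_left hc₁)
          (Subgroup.mem_sup_left (hOn.conj_mem c₂ hc₂ A))) (Subgroup.mem_sup_right hAB)
      have h11 : r₁ * r₁ ∈ Subgroup.zpowers (r₁ * rγ) := by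
        rw [hr₁sq]
        exact Subgroup.one_mem _
      have hγγ : rγ * rγ ∈ Subgroup.zpowers (r₁ * rγ) := by
        rw [hrγsq]
        exact Subgroup.one_mem _
      have h1γ : r₁ * rγ ∈ Subgroup.zpowers (r₁ * rγ) := Subgroup.mem_zpowers _
      have hγ1 : rγ * r₁ ∈ Subgroup.zpowers (r₁ * rγ) := by
        have e5 : rγ * r₁ = (r₁ * rγ)⁻¹ := by rw [_root_.mul_inv_rev, hr₁inv, hrγinv]
        rw [e5]
        exact Subgroup.inv_mem _ (Subgroup.mem_zpowers _)
      rcases e₁ with e₁ | e₁ <;> rcases e₂ with e₂ | e₂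
      · exact hgenl _ _ h11 e₁ e₂
      · exact hgenl _ _ h1γ e₁ e₂
      · exact hgenl _ _ hγ1 e₁ e₂
      · exact hgenl _ _ hγγ e₁ e₂
    have hgT : g ∈ Subgroup.closure (Tset92 Q) := by
      have hSO := Cfsg.Agent.S0792.result h2 Q hQ
      have h3 : g ∈ Cfsg.specialIsometryGroup F ⇑Q := (sdet92 Q g).mpr hdet
      rw [hSO] at h3
      exact h3
    obtain ⟨ω, hω, z, hz, hωz⟩ := Subgroup.mem_sup_of_normal_left.mp (hT hgT)
    obtain ⟨j, hj⟩ := Subgroup.mem_zpowers_iff.mp hz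
    have ht2 : (r₁ * rγ) ^ (2 : ℤ) ∈ commutator ↥(Cfsg.isometryGroup F ⇑Q) := by
      have e6 : (r₁ * rγ) ^ (2 : ℤ) = ⁅r₁, rγ⁆ := by
        rw [commutatorElement_def, hr₁inv, hrγinv, _root_.zpow_two]
        group
      rw [e6, commutator_def]
      exact Subgroup.commutator_mem_commutator (Subgroup.mem_top _) (Subgroup.mem_top _)
    rw [← hωz, ← hj]
    refine Subgroup.mul_mem _ hω ?_
    rcases Int.even_or_odd j with ⟨i, hi⟩ | ⟨i, hi⟩
    · rw [hi, ← two_mul, _root_.zpow_mul]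
      exact Subgroup.zpow_mem _ ht2 i
    · exfalso
      have h5 : χ g = χ ω * χ ((r₁ * rγ) ^ j) := by rw [← map_mul, hj, hωz]
      rw [hχg, hcomm ω hω, one_mul, map_zpow, hχt, hi, _root_.zpow_add, _root_.zpow_mul, _root_.zpow_one] at h5
      have h6 : ((-1 : ℤˣ) ^ (2 : ℤ)) = 1 := by decide
      rw [h6, _root_.one_zpow, one_mul] at h5
      exact absurd h5 (by decide)

def idx13 (m : ℕ) : Fin m ⊕ Fin m → Fin m := Sum.elim id id

def dg13 {F : Type*} [Field F] (m : ℕ) (s : Fin m → F) (hs : ∀ j, s j * s j = 1) :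
    ↥(Cfsg.isometryGroup F (Cfsg.quadFormPlus m F)) :=
  ⟨⟨Matrix.diagonal (fun k => s (idx13 m k)), Matrix.diagonal (fun k => s (idx13 m k)),
    by
      rw [Matrix.diagonal_mul_diagonal]
      have e : (fun k => s (idx13 m k) * s (idx13 m k)) = fun _ => (1 : F) := funext (fun k => hs _)
      rw [e, Matrix.diagonal_one],
    by
      rw [Matrix.diagonal_mul_diagonal]
      have e : (fun k => s (idx13 m k) * s (idx13 m k)) = fun _ => (1 : F) := funext (fun k => hs _)
      rw [e, Matrix.diagonal_one]⟩,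
   fun u _ => by
      show Cfsg.quadFormPlus m F (Matrix.diagonal (fun k => s (idx13 m k)) *ᵥ u) = Cfsg.quadFormPlus m F u
      unfold Cfsg.quadFormPlus
      apply Finset.sum_congr rfl
      intro j _
      rw [Matrix.mulVec_diagonal, Matrix.mulVec_diagonal]
      show s j * u (Sum.inl j) * (s j * u (Sum.inr j)) = _
      linear_combination (u (Sum.inl j) * u (Sum.inr j)) * hs j⟩

theorem chi_N13 {F : Type*} [Field F] (m : ℕ) (j : Fin m)
    (χ : ↥(Cfsg.isometryGroup F ⇑(qf29 F m)) →* ℤˣ)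
    (hχ : ∀ (u v : Fin (m + m) → F) (hu : qf29 F m u ≠ 0) (hv : qf29 F m v ≠ 0),
      χ (reflEl92 (qf29 F m) u hu * reflEl92 (qf29 F m) v hv) = 1 ↔ IsSquare (qf29 F m u * qf29 F m v))
    (hs : ∀ i : Fin m, (if i = j then (-1 : F) else 1) * (if i = j then (-1 : F) else 1) = 1) :
    χ (Psi29 F m (dg13 m (fun i => if i = j then (-1 : F) else 1) hs)) = 1 ↔ IsSquare (-1 : F) := by
  classical
  obtain ⟨a, ha⟩ : ∃ a : Fin m ⊕ Fin m → F, a = Pi.single (Sum.inl j) 1 + Pi.single (Sum.inr j) 1 := ⟨_, rfl⟩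
  obtain ⟨b, hb⟩ : ∃ b : Fin m ⊕ Fin m → F, b = Pi.single (Sum.inl j) 1 - Pi.single (Sum.inr j) 1 := ⟨_, rfl⟩
  have e : ∀ x : Fin m ⊕ Fin m → F, (x ∘ (sg29 m).symm) ∘ sg29 m = x := by
    intro x
    funext k
    simp
  have hQa : qf29 F m (a ∘ (sg29 m).symm) = 1 := by
    rw [qf_apply29, qp_apply32, e, ha]
    simp [Cfsg.quadFormPlus, Pi.single_apply]
  have hQb : qf29 F m (b ∘ (sg29 m).symm) = -1 := by
    rw [qf_apply29, qp_apply32, e, hb]
    simp [Cfsg.quadFormPlus, Pi.single_apply]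
  have hBa : ∀ x : Fin m ⊕ Fin m → F,
      QuadraticMap.polarBilin (qf29 F m) (a ∘ (sg29 m).symm) (x ∘ (sg29 m).symm) =
        x (Sum.inr j) + x (Sum.inl j) := by
    intro x
    rw [qf_polar29, e, e, QuadraticMap.polarBilin_apply_apply, qp_polar32, ha]
    simp [Pi.single_apply, Finset.sum_add_distrib]
  have hBb : ∀ x : Fin m ⊕ Fin m → F,
      QuadraticMap.polarBilin (qf29 F m) (b ∘ (sg29 m).symm) (x ∘ (sg29 m).symm) =
        x (Sum.inr j) - x (Sum.inl j) := by
    intro x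
    rw [qf_polar29, e, e, QuadraticMap.polarBilin_apply_apply, qp_polar32, hb]
    simp [Pi.single_apply, Finset.sum_add_distrib, sub_eq_add_neg]
  have hBab : QuadraticMap.polarBilin (qf29 F m) (a ∘ (sg29 m).symm) (b ∘ (sg29 m).symm) = 0 := by
    rw [hBa, hb]
    simp [Pi.single_apply]
  have ha0 : qf29 F m (a ∘ (sg29 m).symm) ≠ 0 := by rw [hQa]; exact one_ne_zero
  have hb0 : qf29 F m (b ∘ (sg29 m).symm) ≠ 0 := by rw [hQb]; exact neg_ne_zero.mpr one_ne_zero
  have key : Psi29 F m (dg13 m (fun i => if i = j then (-1 : F) else 1) hs) =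
      reflEl92 (qf29 F m) _ ha0 * reflEl92 (qf29 F m) _ hb0 := by
    apply (Psi29 F m).symm.injective
    rw [MulEquiv.symm_apply_apply]
    apply Subtype.ext
    apply Units.ext
    apply mat_ext12
    intro x
    have h4 := psi_symm_mulVec29 (sg29 m) (Cfsg.quadFormPlus m F) (⇑(qf29 F m)) (fun w => qf_apply29' m w)
      (reflEl92 (qf29 F m) _ ha0 * reflEl92 (qf29 F m) _ hb0) x
    have h5 : (((reflEl92 (qf29 F m) _ ha0 * reflEl92 (qf29 F m) _ hb0 :
        ↥(Cfsg.isometryGroup F ⇑(qf29 F m))) : Matrix.GeneralLinearGroup (Fin (m + m)) F) :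
        Matrix (Fin (m + m)) (Fin (m + m)) F) =
        reflectionMatrix (⇑(qf29 F m)) (a ∘ (sg29 m).symm) * reflectionMatrix (⇑(qf29 F m)) (b ∘ (sg29 m).symm) := rfl
    rw [h5, ← Matrix.mulVec_mulVec, refl_mulVec92, refl_mulVec92, map_add, map_smul, hBab, hBa, hBb, hQa, hQb] at h4
    show Matrix.diagonal (fun k => (if idx13 m k = j then (-1 : F) else 1)) *ᵥ x = _
    unfold Psi29
    rw [h4]
    funext k
    rw [Matrix.mulVec_diagonal]
    rcases k with i | i
    · by_cases hij : i = j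
      · subst hij
        simp [idx13, ha, hb]
      · simp [idx13, ha, hb, hij]
    · by_cases hij : i = j
      · subst hij
        simp [idx13, ha, hb]
      · simp [idx13, ha, hb, hij]
  rw [key, hχ, hQa, hQb, one_mul]

/-- For the hyperbolic form Σ x_j y_j on F^(2m), F finite with q elements, q odd, and 1 ≤ i ≤ m: the involution negating the first i hyperbolic pairs (x_j, y_j ↦ −x_j, −y_j for j < i) and fixing the rest lies in Ω⁺_2m(q) (commutator subgroup of the orthogonal group) if and only if q^i ≡ 1 (mod 4); its (−1)-eigenspace is a hyperbolic 2i-space. -/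
theorem result {F : Type*} [Field F] [Fintype F] {q : ℕ} (hF : Fintype.card F = q) (hq : Odd q) {m : ℕ} (i : ℕ) (hi : 1 ≤ i) (him : i ≤ m) : (∃ g : ↥(Cfsg.isometryGroup F (Cfsg.quadFormPlus m F)), g ∈ Cfsg.Omega F (Cfsg.quadFormPlus m F) ∧ ((g : Matrix.GeneralLinearGroup (Fin m ⊕ Fin m) F) : Matrix (Fin m ⊕ Fin m) (Fin m ⊕ Fin m) F) = Matrix.diagonal (fun k : Fin m ⊕ Fin m => if (Sum.elim (fun j : Fin m => (j : ℕ)) (fun j : Fin m => (j : ℕ)) k) < i then (-1 : F) else 1)) ↔ q ^ i % 4 = 1 := by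
  classical
  have h2 : (2 : F) ≠ 0 := by
    intro h
    obtain ⟨k, hk⟩ := hq
    have h3 := Nat.cast_card_eq_zero F
    rw [hF, hk] at h3
    push_cast at h3
    rw [h, zero_mul, zero_add] at h3
    exact one_ne_zero h3
  have hm : 0 < m := by omega
  have e : ∀ x : Fin m ⊕ Fin m → F, (x ∘ (sg29 m).symm) ∘ sg29 m = x := by
    intro x
    funext k
    simp
  obtain ⟨p', hp'⟩ : ∃ p' : Fin (m + m) → F, p' = (Pi.single (Sum.inl (⟨0, hm⟩ : Fin m)) (1 : F) :
      Fin m ⊕ Fin m → F) ∘ (sg29 m).symm := ⟨_, rfl⟩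
  obtain ⟨q', hq'⟩ : ∃ q' : Fin (m + m) → F, q' = (Pi.single (Sum.inr (⟨0, hm⟩ : Fin m)) (1 : F) :
      Fin m ⊕ Fin m → F) ∘ (sg29 m).symm := ⟨_, rfl⟩
  have hp : qf29 F m p' = 0 := by
    rw [qf_apply29, qp_apply32, hp', e]
    simp [Cfsg.quadFormPlus, Pi.single_apply]
  have hqq : qf29 F m q' = 0 := by
    rw [qf_apply29, qp_apply32, hq', e]
    simp [Cfsg.quadFormPlus, Pi.single_apply]
  have hpq : QuadraticMap.polarBilin (qf29 F m) p' q' = 1 := by
    rw [qf_polar29, hp', hq', e, e, QuadraticMap.polarBilin_apply_apply, qp_polar32]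
    simp [Pi.single_apply]
  obtain ⟨χ, hχ⟩ := exists_chi13 h2 (qf29 F m) (qf_nondeg29 F m) p' q' hp hqq hpq
  have hom := omega_iff13 h2 (qf29 F m) (qf_nondeg29 F m) p' q' hp hqq hpq χ hχ
  obtain ⟨s, hsdef⟩ : ∃ s : ℕ → Fin m → F, s = fun (i : ℕ) (j : Fin m) => if (j : ℕ) < i then (-1 : F) else 1 := ⟨_, rfl⟩
  have hs : ∀ i j, s i j * s i j = 1 := by
    intro i j
    rw [hsdef]
    show (if (j : ℕ) < i then (-1 : F) else 1) * (if (j : ℕ) < i then (-1 : F) else 1) = 1
    split_ifs <;> ring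
  have hsN : ∀ (j i : Fin m), (if i = j then (-1 : F) else 1) * (if i = j then (-1 : F) else 1) = 1 := by
    intro j i
    split_ifs <;> ring
  obtain ⟨ε, hε⟩ : ∃ ε : ℤˣ, ε = if IsSquare (-1 : F) then 1 else -1 := ⟨_, rfl⟩
  have hN : ∀ j : Fin m, χ (Psi29 F m (dg13 m (fun i => if i = j then (-1 : F) else 1) (hsN j))) = ε := by
    intro j
    have h3 := chi_N13 m j χ hχ (hsN j)
    by_cases hsq : IsSquare (-1 : F)
    · rw [hε, if_pos hsq]
      exact h3.mpr hsq
    · rw [hε, if_neg hsq]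
      rcases Int.units_eq_one_or (χ (Psi29 F m (dg13 m (fun i => if i = j then (-1 : F) else 1) (hsN j)))) with h4 | h4
      · exact absurd (h3.mp h4) hsq
      · exact h4
  have hχd : ∀ i : ℕ, i ≤ m → χ (Psi29 F m (dg13 m (s i) (hs i))) = ε ^ i := by
    intro i
    induction i with
    | zero =>
      intro _
      have h3 : dg13 m (s 0) (hs 0) = 1 := by
        apply Subtype.ext
        apply Units.ext
        show Matrix.diagonal (fun k => s 0 (idx13 m k)) = 1
        rw [← Matrix.diagonal_one]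
        congr 1
        funext k
        rw [hsdef]
        simp
      rw [h3, map_one, map_one, pow_zero]
    | succ i ih =>
      intro hi1
      have hlt : i < m := by omega
      have h3 : dg13 m (s (i + 1)) (hs (i + 1)) = dg13 m (s i) (hs i) *
          dg13 m (fun l => if l = (⟨i, hlt⟩ : Fin m) then (-1 : F) else 1) (hsN ⟨i, hlt⟩) := by
        apply Subtype.ext
        apply Units.ext
        show Matrix.diagonal (fun k => s (i + 1) (idx13 m k)) =
          Matrix.diagonal (fun k => s i (idx13 m k)) *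
          Matrix.diagonal (fun k => if idx13 m k = (⟨i, hlt⟩ : Fin m) then (-1 : F) else 1)
        rw [Matrix.diagonal_mul_diagonal]
        congr 1
        funext k
        rw [hsdef]
        show (if ((idx13 m k : Fin m) : ℕ) < i + 1 then (-1 : F) else 1) =
          (if ((idx13 m k : Fin m) : ℕ) < i then (-1 : F) else 1) *
          (if idx13 m k = (⟨i, hlt⟩ : Fin m) then (-1 : F) else 1)
        have hiff : idx13 m k = (⟨i, hlt⟩ : Fin m) ↔ ((idx13 m k : Fin m) : ℕ) = i := Fin.ext_iff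
        by_cases h1 : ((idx13 m k : Fin m) : ℕ) < i
        · have h4 : ¬ idx13 m k = (⟨i, hlt⟩ : Fin m) := fun h => by
            rw [hiff] at h
            omega
          rw [if_pos h1, if_neg h4, if_pos (by omega)]
          ring
        · by_cases h5 : ((idx13 m k : Fin m) : ℕ) = i
          · rw [if_neg h1, if_pos (hiff.mpr h5), if_pos (by omega)]
            ring
          · have h4 : ¬ idx13 m k = (⟨i, hlt⟩ : Fin m) := fun h => h5 (hiff.mp h)
            rw [if_neg h1, if_neg h4, if_neg (by omega)]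
            ring
      rw [h3, map_mul, map_mul, ih (by omega), hN, pow_succ]
  have hD : Matrix.diagonal (fun k : Fin m ⊕ Fin m => if (Sum.elim (fun j : Fin m => (j : ℕ)) (fun j : Fin m => (j : ℕ)) k) < i then (-1 : F) else 1) =
      (((dg13 m (s i) (hs i) : ↥(Cfsg.isometryGroup F (Cfsg.quadFormPlus m F))) :
        Matrix.GeneralLinearGroup (Fin m ⊕ Fin m) F) : Matrix (Fin m ⊕ Fin m) (Fin m ⊕ Fin m) F) := by
    show _ = Matrix.diagonal (fun k => s i (idx13 m k))
    congr 1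
    funext k
    rw [hsdef]
    rcases k with j | j <;> rfl
  rw [hD]
  have hex : (∃ g : ↥(Cfsg.isometryGroup F (Cfsg.quadFormPlus m F)), g ∈ Cfsg.Omega F (Cfsg.quadFormPlus m F) ∧
      ((g : Matrix.GeneralLinearGroup (Fin m ⊕ Fin m) F) : Matrix (Fin m ⊕ Fin m) (Fin m ⊕ Fin m) F) =
      (((dg13 m (s i) (hs i) : ↥(Cfsg.isometryGroup F (Cfsg.quadFormPlus m F))) :
        Matrix.GeneralLinearGroup (Fin m ⊕ Fin m) F) : Matrix (Fin m ⊕ Fin m) (Fin m ⊕ Fin m) F)) ↔
      dg13 m (s i) (hs i) ∈ commutator ↥(Cfsg.isometryGroup F (Cfsg.quadFormPlus m F)) := by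
    constructor
    · rintro ⟨g, hg, hgm⟩
      have h3 : g = dg13 m (s i) (hs i) := Subtype.ext (Units.ext hgm)
      rw [← h3]
      exact hg
    · intro h
      exact ⟨_, h, rfl⟩
  rw [hex, comm_equiv29 (Psi29 F m), hom, hχd i him]
  have hdet : (((Psi29 F m (dg13 m (s i) (hs i)) : ↥(Cfsg.isometryGroup F ⇑(qf29 F m))) :
      Matrix.GeneralLinearGroup (Fin (m + m)) F) : Matrix (Fin (m + m)) (Fin (m + m)) F).det = 1 := by
    unfold Psi29
    rw [psi_det29]
    show (Matrix.diagonal (fun k => s i (idx13 m k))).det = 1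
    rw [Matrix.det_diagonal, Fintype.prod_sum_type, ← Finset.prod_mul_distrib]
    apply Finset.prod_eq_one
    intro j _
    exact hs i j
  have h9 : ∀ k : ℕ, 9 ^ k % 4 = 1 := fun k => by
    rw [Nat.pow_mod]
    norm_num
  have hsq4 := FiniteField.isSquare_neg_one_iff (F := F)
  rw [hF] at hsq4
  have hqodd : q % 2 = 1 := Nat.odd_iff.mp hq
  by_cases hsq : IsSquare (-1 : F)
  · rw [hε, if_pos hsq, one_pow]
    have hq4 : q % 4 = 1 := by
      have := hsq4.mp hsq
      omega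
    have h5 : q ^ i % 4 = 1 := by
      rw [Nat.pow_mod, hq4, one_pow]
      norm_num
    exact ⟨fun _ => h5, fun _ => ⟨hdet, rfl⟩⟩
  · rw [hε, if_neg hsq]
    have hq4 : q % 4 = 3 := by
      by_contra h
      exact hsq (hsq4.mpr h)
    rcases Nat.even_or_odd i with ⟨k, hk⟩ | ⟨k, hk⟩
    · have h5 : q ^ i % 4 = 1 := by
        rw [Nat.pow_mod, hq4, hk, ← two_mul, pow_mul]
        exact h9 k
      have h6 : (-1 : ℤˣ) ^ i = 1 := by
        rw [hk, ← two_mul, pow_mul]
        simp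
      exact ⟨fun _ => h5, fun _ => ⟨hdet, h6⟩⟩
    · have h5 : q ^ i % 4 = 3 := by
        have h39 : (3 : ℕ) ^ 2 = 9 := by norm_num
        rw [Nat.pow_mod, hq4, hk, pow_succ, pow_mul, Nat.mul_mod, h39, h9 k]
      have h6 : (-1 : ℤˣ) ^ i = -1 := by
        rw [hk, pow_succ, pow_mul]
        simp
      constructor
      · rintro ⟨-, h7⟩
        rw [h6] at h7
        exact absurd h7 (by decide)
      · intro h7
        omega

end Cfsg.Agent.S2613
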