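import Cfsg.Statements.S2609
import Mathlib
import Cfsg.Statements.S2609
import Cfsg.Agent.S2613
import Cfsg.Agent.S2626
import Cfsg.Agent.S2169
import Cfsg.Agent.S2632

set_option autoImplicit false
open Cfsg
open scoped commutatorElement

namespace Cfsg.Agent.S2609

open Cfsg.Agent.S0832 Cfsg.Agent.S2612 Cfsg.Agent.S0750 Cfsg.Agent.S0794 Cfsg.Agent.S0792 Cfsg.Agent.S0786 Cfsg.Agent.S2635 Cfsg.Agent.S0789 Cfsg.Agent.S2629 Cfsg.Agent.S2633 Cfsg.Agent.S2631 Cfsg.Agent.S2628 Cfsg.Agent.S2613 Cfsg.Agent.S2626 Cfsg.Agent.S2169 Cfsg.Agent.S2632 Matrix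
open scoped commutatorElement

theorem univ_top09 {F : Type*} [Field F] [Fintype F] (h2 : (2 : F) ≠ 0) {n : ℕ} (hn : 2 ≤ n)
    (Q : QuadraticForm F (Fin n → F)) (hQ : (QuadraticMap.polarBilin Q).Nondegenerate) (c : F) :
    ∃ v, Q v = c := by
  have hS : (⊤ : Submodule F (Fin n → F)) ⊓ LinearMap.BilinForm.orthogonal (QuadraticMap.polarBilin Q) ⊤ = ⊥ := by
    rw [eq_bot_iff]
    rintro x ⟨-, hx⟩
    have hx' : x ∈ LinearMap.BilinForm.orthogonal (QuadraticMap.polarBilin Q) ⊤ := hx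
    rw [LinearMap.BilinForm.mem_orthogonal_iff] at hx'
    rw [Submodule.mem_bot]
    exact hQ.2 x (fun y => hx' y Submodule.mem_top)
  have hdim : 2 ≤ Module.finrank F (⊤ : Submodule F (Fin n → F)) := by
    rw [finrank_top, Module.finrank_fintype_fun_eq_card, Fintype.card_fin]
    exact hn
  obtain ⟨v, -, hv⟩ := universal32 h2 Q ⊤ hS hdim c
  exact ⟨v, hv⟩

noncomputable def emb09 {F : Type*} [Field F] {n : ℕ} (Q : QuadraticForm F (Fin n → F)) :
    ↥(Cfsg.isometryGroup F ⇑Q) →* ↥(Cfsg.isometryGroup F ⇑(q2_28 Q)) :=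
  MonoidHom.codRestrict ((Units.map (blkL26 F n n)).comp (Cfsg.isometryGroup F ⇑Q).subtype)
    (Cfsg.isometryGroup F ⇑(q2_28 Q)) (fun x => by
      rw [mem_iso29]
      intro u
      have hx : ∀ a : Fin n → F, Q (((x : Matrix.GeneralLinearGroup (Fin n) F) : Matrix (Fin n) (Fin n) F) *ᵥ a) = Q a :=
        fun a => x.2 a a
      show q2_28 Q (Matrix.fromBlocks ((x : Matrix.GeneralLinearGroup (Fin n) F) : Matrix (Fin n) (Fin n) F) 0 0 1 *ᵥ u) =
        q2_28 Q u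
      rw [q2_apply28, q2_apply28, Matrix.fromBlocks_mulVec]
      simp only [Sum.elim_comp_inl, Sum.elim_comp_inr, Matrix.zero_mulVec, add_zero, zero_add, Matrix.one_mulVec, hx])

theorem q2_polar09 {F : Type*} [Field F] {k : ℕ} (Q : QuadraticForm F (Fin k → F)) (x y : Fin k ⊕ Fin k → F) :
    QuadraticMap.polarBilin (q2_28 Q) x y =
      QuadraticMap.polarBilin Q (x ∘ Sum.inl) (y ∘ Sum.inl) +
        QuadraticMap.polarBilin Q (x ∘ Sum.inr) (y ∘ Sum.inr) := by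
  have h1 := Qadd50 (q2_28 Q) x y
  have h2 := Qadd50 Q (x ∘ Sum.inl) (y ∘ Sum.inl)
  have h3 := Qadd50 Q (x ∘ Sum.inr) (y ∘ Sum.inr)
  rw [q2_apply28, q2_apply28, q2_apply28] at h1
  have e1 : (x + y) ∘ Sum.inl = x ∘ Sum.inl + y ∘ Sum.inl := rfl
  have e2 : (x + y) ∘ Sum.inr = x ∘ Sum.inr + y ∘ Sum.inr := rfl
  rw [e1, e2] at h1
  linear_combination h2 + h3 - h1

noncomputable def qd09 {F : Type*} [Field F] {n : ℕ} (Q : QuadraticForm F (Fin n → F)) :
    QuadraticForm F (Fin (n + n) → F) := qT69 (sg29 n) (q2_28 Q)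

theorem qd_apply09 {F : Type*} [Field F] {n : ℕ} (Q : QuadraticForm F (Fin n → F)) (w : Fin (n + n) → F) :
    qd09 Q w = Q ((w ∘ sg29 n) ∘ Sum.inl) + Q ((w ∘ sg29 n) ∘ Sum.inr) := rfl

theorem qd_polar09 {F : Type*} [Field F] {n : ℕ} (Q : QuadraticForm F (Fin n → F)) (a b : Fin (n + n) → F) :
    QuadraticMap.polarBilin (qd09 Q) a b =
      QuadraticMap.polarBilin Q ((a ∘ sg29 n) ∘ Sum.inl) ((b ∘ sg29 n) ∘ Sum.inl) +
        QuadraticMap.polarBilin Q ((a ∘ sg29 n) ∘ Sum.inr) ((b ∘ sg29 n) ∘ Sum.inr) := by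
  unfold qd09
  rw [qT_polar69, q2_polar09]

theorem qd_nondeg09 {F : Type*} [Field F] {n : ℕ} (Q : QuadraticForm F (Fin n → F))
    (hQ : (QuadraticMap.polarBilin Q).Nondegenerate) : (QuadraticMap.polarBilin (qd09 Q)).Nondegenerate :=
  qT_nondeg69 _ _ (q2_nondeg28 Q hQ)

noncomputable def psiD09 {F : Type*} [Field F] {n : ℕ} (Q : QuadraticForm F (Fin n → F)) :
    ↥(Cfsg.isometryGroup F ⇑(q2_28 Q)) ≃* ↥(Cfsg.isometryGroup F ⇑(qd09 Q)) :=
  psi29 (sg29 n) (⇑(q2_28 Q)) (⇑(qd09 Q)) (fun _ => rfl)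

def lift09 {F : Type*} [Field F] {n : ℕ} (u : Fin n → F) : Fin (n + n) → F :=
  (Sum.elim u 0) ∘ (sg29 n).symm

theorem lift_inl09 {F : Type*} [Field F] {n : ℕ} (u : Fin n → F) : (lift09 u ∘ sg29 n) ∘ Sum.inl = u := by
  funext i
  simp [lift09]

theorem lift_inr09 {F : Type*} [Field F] {n : ℕ} (u : Fin n → F) : (lift09 u ∘ sg29 n) ∘ Sum.inr = 0 := by
  funext i
  simp [lift09]

theorem qd_lift09 {F : Type*} [Field F] {n : ℕ} (Q : QuadraticForm F (Fin n → F)) (u : Fin n → F) :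
    qd09 Q (lift09 u) = Q u := by
  rw [qd_apply09, lift_inl09, lift_inr09, map_zero, add_zero]

theorem qd_polar_lift09 {F : Type*} [Field F] {n : ℕ} (Q : QuadraticForm F (Fin n → F)) (u : Fin n → F)
    (b : Fin (n + n) → F) :
    QuadraticMap.polarBilin (qd09 Q) (lift09 u) b = QuadraticMap.polarBilin Q u ((b ∘ sg29 n) ∘ Sum.inl) := by
  rw [qd_polar09, lift_inl09, lift_inr09, map_zero, LinearMap.zero_apply, add_zero]

theorem emb_refl09 {F : Type*} [Field F] {n : ℕ} (Q : QuadraticForm F (Fin n → F)) (u : Fin n → F)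
    (hu : Q u ≠ 0) (hu' : qd09 Q (lift09 u) ≠ 0) :
    psiD09 Q (emb09 Q (reflEl92 Q u hu)) = reflEl92 (qd09 Q) (lift09 u) hu' := by
  apply (psiD09 Q).symm.injective
  rw [MulEquiv.symm_apply_apply]
  apply Subtype.ext
  apply Units.ext
  apply mat_ext12
  intro x
  have h4 := psi_symm_mulVec29 (sg29 n) (⇑(q2_28 Q)) (⇑(qd09 Q)) (fun _ => rfl)
    (reflEl92 (qd09 Q) (lift09 u) hu') x
  have h5 : ((reflEl92 (qd09 Q) (lift09 u) hu' : Matrix.GeneralLinearGroup (Fin (n + n)) F) :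
      Matrix (Fin (n + n)) (Fin (n + n)) F) = reflectionMatrix (⇑(qd09 Q)) (lift09 u) := rfl
  rw [h5, refl_mulVec92, qd_polar_lift09, qd_lift09] at h4
  have e : ((x ∘ (sg29 n).symm) ∘ sg29 n) = x := by
    funext k
    simp
  rw [e] at h4
  show Matrix.fromBlocks (reflectionMatrix (⇑Q) u) 0 0 1 *ᵥ x = _
  unfold psiD09
  rw [h4, Matrix.fromBlocks_mulVec, refl_mulVec92]
  funext k
  rcases k with i | i
  · simp [lift09]
  · simp [lift09]

theorem exists_chi09 {F : Type*} [Field F] [Fintype F] (h2 : (2 : F) ≠ 0) {n : ℕ} (hn : 2 ≤ n)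
    (Q : QuadraticForm F (Fin n → F)) (hQ : (QuadraticMap.polarBilin Q).Nondegenerate) :
    ∃ χ : ↥(Cfsg.isometryGroup F ⇑Q) →* ℤˣ, ∀ (u v : Fin n → F) (hu : Q u ≠ 0) (hv : Q v ≠ 0),
      χ (reflEl92 Q u hu * reflEl92 Q v hv) = 1 ↔ IsSquare (Q u * Q v) := by
  classical
  obtain ⟨u1, hu1⟩ := univ_top09 h2 hn Q hQ 1
  obtain ⟨w1, hw1⟩ := univ_top09 h2 hn Q hQ (-1)
  obtain ⟨p0, hp0def⟩ : ∃ p0 : Fin (n + n) → F, p0 = (Sum.elim u1 w1) ∘ (sg29 n).symm := ⟨_, rfl⟩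
  have e1 : (p0 ∘ sg29 n) ∘ Sum.inl = u1 := by
    funext i
    simp [hp0def]
  have e2 : (p0 ∘ sg29 n) ∘ Sum.inr = w1 := by
    funext i
    simp [hp0def]
  have hp0Q : qd09 Q p0 = 0 := by
    rw [qd_apply09, e1, e2, hu1, hw1]
    ring
  have hp0 : p0 ≠ 0 := by
    intro h
    rw [h] at e1
    have h3 : u1 = 0 := by
      rw [← e1]
      rfl
    rw [h3, map_zero] at hu1
    exact zero_ne_one hu1
  obtain ⟨q0, hq0, hpq0⟩ := exists_hyp33 (qd09 Q) (qd_nondeg09 Q hQ) p0 hp0 hp0Q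
  obtain ⟨χ', hχ'⟩ := exists_chi13 h2 (qd09 Q) (qd_nondeg09 Q hQ) p0 q0 hp0Q hq0 hpq0
  refine ⟨χ'.comp ((psiD09 Q).toMonoidHom.comp (emb09 Q)), ?_⟩
  intro u v hu hv
  have hu' : qd09 Q (lift09 u) ≠ 0 := by rw [qd_lift09]; exact hu
  have hv' : qd09 Q (lift09 v) ≠ 0 := by rw [qd_lift09]; exact hv
  show χ' (psiD09 Q (emb09 Q (reflEl92 Q u hu * reflEl92 Q v hv))) = 1 ↔ _
  rw [map_mul, map_mul, emb_refl09 Q u hu hu', emb_refl09 Q v hv hv', hχ', qd_lift09, qd_lift09]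

theorem omega_iff09 {F : Type*} [Field F] [Fintype F] (h2 : (2 : F) ≠ 0) {n : ℕ} (hn : 2 ≤ n) (Q : QuadraticForm F (Fin n → F))
    (hQ : (QuadraticMap.polarBilin Q).Nondegenerate)
    (χ : ↥(Cfsg.isometryGroup F ⇑Q) →* ℤˣ)
    (hχ : ∀ (u v : Fin n → F) (hu : Q u ≠ 0) (hv : Q v ≠ 0),
      χ (reflEl92 Q u hu * reflEl92 Q v hv) = 1 ↔ IsSquare (Q u * Q v))
    (g : ↥(Cfsg.isometryGroup F ⇑Q)) :
    g ∈ commutator ↥(Cfsg.isometryGroup F ⇑Q) ↔
      (((g : Matrix.GeneralLinearGroup (Fin n) F) : Matrix (Fin n) (Fin n) F).det = 1 ∧ χ g = 1) := by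
  classical
  have h : Fintype.card F ≠ 2 ∨ n ≠ 4 := Or.inl (card_ne_two13 h2)
  have hcomm : ∀ c ∈ commutator ↥(Cfsg.isometryGroup F ⇑Q), χ c = 1 := fun c hc =>
    MonoidHom.mem_ker.mp (Abelianization.commutator_subset_ker χ hc)
  constructor
  · intro hg
    refine ⟨?_, hcomm g hg⟩
    have hker := Abelianization.commutator_subset_ker (Matrix.GeneralLinearGroup.det.comp
      (Cfsg.isometryGroup F ⇑Q).subtype) hg
    rw [MonoidHom.mem_ker] at hker
    exact congrArg Units.val hker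
  · rintro ⟨hdet, hχg⟩
    obtain ⟨γu, hgen⟩ := IsCyclic.exists_generator (α := Fˣ)
    have hγns := gen_nsq13 h2 γu hgen
    have hγ0 : (γu : F) ≠ 0 := γu.ne_zero
    obtain ⟨u1, hQ1⟩ := univ_top09 h2 hn Q hQ 1
    obtain ⟨uγ, hQγ⟩ := univ_top09 h2 hn Q hQ (γu : F)
    have hQ1' : Q u1 ≠ 0 := by rw [hQ1]; exact one_ne_zero
    have hQγ' : Q uγ ≠ 0 := by rw [hQγ]; exact hγ0
    obtain ⟨r₁, hr₁⟩ : ∃ r₁, r₁ = reflEl92 Q u1 hQ1' := ⟨_, rfl⟩
    obtain ⟨rγ, hrγ⟩ : ∃ rγ, rγ = reflEl92 Q uγ hQγ' := ⟨_, rfl⟩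
    have hOn : (commutator ↥(Cfsg.isometryGroup F ⇑Q)).Normal := by
      rw [commutator_def]
      infer_instance
    have hr₁sq : r₁ * r₁ = 1 := by
      rw [hr₁]
      exact Subtype.ext (Units.ext (refl_sq92 Q _ hQ1'))
    have hrγsq : rγ * rγ = 1 := by
      rw [hrγ]
      exact Subtype.ext (Units.ext (refl_sq92 Q _ hQγ'))
    have hr₁inv : r₁⁻¹ = r₁ := inv_eq_of_mul_eq_one_right hr₁sq
    have hrγinv : rγ⁻¹ = rγ := inv_eq_of_mul_eq_one_right hrγsq
    have hχt : χ (r₁ * rγ) = -1 := by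
      rcases Int.units_eq_one_or (χ (r₁ * rγ)) with h1 | h1
      · exfalso
        rw [hr₁, hrγ] at h1
        have h3 := (hχ _ _ hQ1' hQγ').mp h1
        rw [hQ1, hQγ, one_mul] at h3
        exact hγns h3
      · exact h1
    have hscale : ∀ (v : Fin n → F) (s : F) (hs : s ≠ 0) (hv : Q v ≠ 0) (hsv : Q (s • v) ≠ 0),
        reflEl92 Q (s • v) hsv = reflEl92 Q v hv := by
      intro v s hs hv hsv
      apply Subtype.ext
      apply Units.ext
      exact refl_smul35 Q v s hs hv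
    have hclass : ∀ (u : Fin n → F) (hu : Q u ≠ 0), ∃ c ∈ commutator ↥(Cfsg.isometryGroup F ⇑Q),
        reflEl92 Q u hu = c * r₁ ∨ reflEl92 Q u hu = c * rγ := by
      intro u hu
      rcases dec13 γu hgen (Q u) hu with ⟨s, hs⟩ | ⟨s, hs0, hs⟩
      · have hs0 : s ≠ 0 := by
          rintro rfl
          rw [mul_zero] at hs
          exact hu hs
        have hQs : Q (s • u1) = Q u := by rw [Qsmul50, hQ1, mul_one, hs]
        have hne : Q (s • u1) ≠ 0 := by rw [hQs]; exact hu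
        obtain ⟨c, hc, e⟩ := refl_comm31 h Q hQ u (s • u1) hu hne hQs
        exact ⟨c, hc, Or.inl (by rw [e, hscale u1 s hs0 hQ1' hne, hr₁])⟩
      · have hQs : Q (s • uγ) = Q u := by rw [Qsmul50, hQγ, hs]; ring
        have hne : Q (s • uγ) ≠ 0 := by rw [hQs]; exact hu
        obtain ⟨c, hc, e⟩ := refl_comm31 h Q hQ u (s • uγ) hu hne hQs
        exact ⟨c, hc, Or.inr (by rw [e, hscale uγ s hs0 hQγ' hne, hrγ])⟩
    have hT : Subgroup.closure (Tset92 Q) ≤
        commutator ↥(Cfsg.isometryGroup F ⇑Q) ⊔ Subgroup.zpowers (r₁ * rγ) := by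
      rw [Subgroup.closure_le]
      rintro t ⟨u, v, hu, hv, ht⟩
      show t ∈ commutator ↥(Cfsg.isometryGroup F ⇑Q) ⊔ Subgroup.zpowers (r₁ * rγ)
      have et : t = reflEl92 Q u hu * reflEl92 Q v hv := Subtype.ext (Units.ext ht)
      obtain ⟨c₁, hc₁, e₁⟩ := hclass u hu
      obtain ⟨c₂, hc₂, e₂⟩ := hclass v hv
      have hgenl : ∀ A B : ↥(Cfsg.isometryGroup F ⇑Q), A * B ∈ Subgroup.zpowers (r₁ * rγ) →
          reflEl92 Q u hu = c₁ * A → reflEl92 Q v hv = c₂ * B →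
          t ∈ commutator ↥(Cfsg.isometryGroup F ⇑Q) ⊔ Subgroup.zpowers (r₁ * rγ) := by
        intro A B hAB eA eB
        have e3 : t = c₁ * (A * c₂ * A⁻¹) * (A * B) := by
          rw [et, eA, eB]
          group
        rw [e3]
        exact Subgroup.mul_mem _ (Subgroup.mul_mem _ (Subgroup.mem_sup_left hc₁)
          (Subgroup.mem_sup_left (hOn.conj_mem c₂ hc₂ A))) (Subgroup.mem_sup_right hAB)
      have h11 : r₁ * r₁ ∈ Subgroup.zpowers (r₁ * rγ) := by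
        rw [hr₁sq]
        exact Subgroup.one_mem _
      have hγγ : rγ * rγ ∈ Subgroup.zpowers (r₁ * rγ) := by
        rw [hrγsq]
        exact Subgroup.one_mem _
      have h1γ : r₁ * rγ ∈ Subgroup.zpowers (r₁ * rγ) := Subgroup.mem_zpowers _
      have hγ1 : rγ * r₁ ∈ Subgroup.zpowers (r₁ * rγ) := by
        have e5 : rγ * r₁ = (r₁ * rγ)⁻¹ := by rw [_root_.mul_inv_rev, hr₁inv, hrγinv]
        rw [e5]
        exact Subgroup.inv_mem _ (Subgroup.mem_zpowers _)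
      rcases e₁ with e₁ | e₁ <;> rcases e₂ with e₂ | e₂
      · exact hgenl _ _ h11 e₁ e₂
      · exact hgenl _ _ h1γ e₁ e₂
      · exact hgenl _ _ hγ1 e₁ e₂
      · exact hgenl _ _ hγγ e₁ e₂
    have hgT : g ∈ Subgroup.closure (Tset92 Q) := by
      have hSO := Cfsg.Agent.S0792.result h2 Q hQ
      have h3 : g ∈ Cfsg.specialIsometryGroup F ⇑Q := (sdet92 Q g).mpr hdet
      rw [hSO] at h3
      exact h3
    obtain ⟨ω, hω, z, hz, hωz⟩ := Subgroup.mem_sup_of_normal_left.mp (hT hgT)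
    obtain ⟨j, hj⟩ := Subgroup.mem_zpowers_iff.mp hz
    have ht2 : (r₁ * rγ) ^ (2 : ℤ) ∈ commutator ↥(Cfsg.isometryGroup F ⇑Q) := by
      have e6 : (r₁ * rγ) ^ (2 : ℤ) = ⁅r₁, rγ⁆ := by
        rw [commutatorElement_def, hr₁inv, hrγinv, _root_.zpow_two]
        group
      rw [e6, commutator_def]
      exact Subgroup.commutator_mem_commutator (Subgroup.mem_top _) (Subgroup.mem_top _)
    rw [← hωz, ← hj]
    refine Subgroup.mul_mem _ hω ?_
    rcases Int.even_or_odd j with ⟨i, hi⟩ | ⟨i, hi⟩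
    · rw [hi, ← two_mul, _root_.zpow_mul]
      exact Subgroup.zpow_mem _ ht2 i
    · exfalso
      have h5 : χ g = χ ω * χ ((r₁ * rγ) ^ j) := by rw [← map_mul, hj, hωz]
      rw [hχg, hcomm ω hω, one_mul, map_zpow, hχt, hi, _root_.zpow_add, _root_.zpow_mul, _root_.zpow_one] at h5
      have h6 : ((-1 : ℤˣ) ^ (2 : ℤ)) = 1 := by decide
      rw [h6, _root_.one_zpow, one_mul] at h5
      exact absurd h5 (by decide)

theorem chi_refl09 {F : Type*} [Field F] [Fintype F] [DecidableEq F] {n : ℕ} (Q : QuadraticForm F (Fin n → F))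
    (χ : ↥(Cfsg.isometryGroup F ⇑Q) →* ℤˣ)
    (hχ : ∀ (u v : Fin n → F) (hu : Q u ≠ 0) (hv : Q v ≠ 0),
      χ (reflEl92 Q u hu * reflEl92 Q v hv) = 1 ↔ IsSquare (Q u * Q v))
    (u1 : Fin n → F) (hQ1 : Q u1 = 1) (hu1 : Q u1 ≠ 0) (v : Fin n → F) (hv : Q v ≠ 0) :
    ((χ (reflEl92 Q v hv) : ℤˣ) : ℤ) = ((χ (reflEl92 Q u1 hu1) : ℤˣ) : ℤ) * quadraticChar F (Q v) := by
  have h1 := hχ u1 v hu1 hv
  rw [hQ1, one_mul, map_mul] at h1
  by_cases hsq : IsSquare (Q v)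
  · have h3 := h1.mpr hsq
    rw [(quadraticChar_one_iff_isSquare hv).mpr hsq, mul_one]
    have h4 : χ (reflEl92 Q v hv) = χ (reflEl92 Q u1 hu1) := by
      have h5 := eq_inv_of_mul_eq_one_right h3
      rw [h5, Int.units_inv_eq_self]
    rw [h4]
  · have h3 : χ (reflEl92 Q u1 hu1) * χ (reflEl92 Q v hv) = -1 := by
      rcases Int.units_eq_one_or (χ (reflEl92 Q u1 hu1) * χ (reflEl92 Q v hv)) with h | h
      · exact absurd (h1.mp h) hsq
      · exact h
    rw [quadraticChar_neg_one_iff_not_isSquare.mpr hsq]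
    have h4 : χ (reflEl92 Q v hv) = -χ (reflEl92 Q u1 hu1) := by
      have h5 : χ (reflEl92 Q u1 hu1) * (χ (reflEl92 Q u1 hu1) * χ (reflEl92 Q v hv)) =
          χ (reflEl92 Q u1 hu1) * (-1) := by rw [h3]
      rw [← mul_assoc, Int.units_mul_self, one_mul] at h5
      rw [h5, mul_neg_one]
    rw [h4, Units.val_neg]
    ring

theorem list_det09 {F : Type*} [Field F] {n : ℕ} (Q : QuadraticForm F (Fin n → F)) :
    ∀ vs : List (Fin n → F), (∀ v ∈ vs, Q v ≠ 0) →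
      ((vs.map (fun v => Cfsg.reflectionMatrix ⇑Q v)).prod).det = (-1 : F) ^ vs.length := by
  intro vs
  induction vs with
  | nil =>
    intro _
    simp
  | cons v vs ih =>
    intro h
    rw [List.map_cons, List.prod_cons, Matrix.det_mul, refl_det92 Q v (h v List.mem_cons_self),
      ih (fun w hw => h w (List.mem_cons_of_mem _ hw)), List.length_cons, pow_succ]
    ring

theorem list_prod09 {F : Type*} [Field F] {n : ℕ} (Q : QuadraticForm F (Fin n → F))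
    (vs : List (Fin n → F)) (hvs : ∀ v ∈ vs, Q v ≠ 0) : (vs.map (fun v => Q v)).prod ≠ 0 := by
  apply List.prod_ne_zero
  intro h0
  obtain ⟨v, hv, hv0⟩ := List.mem_map.mp h0
  exact hvs v hv hv0

theorem list_chi09 {F : Type*} [Field F] [Fintype F] [DecidableEq F] {n : ℕ} (Q : QuadraticForm F (Fin n → F))
    (χ : ↥(Cfsg.isometryGroup F ⇑Q) →* ℤˣ)
    (hχ : ∀ (u v : Fin n → F) (hu : Q u ≠ 0) (hv : Q v ≠ 0),
      χ (reflEl92 Q u hu * reflEl92 Q v hv) = 1 ↔ IsSquare (Q u * Q v))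
    (u1 : Fin n → F) (hQ1 : Q u1 = 1) (hu1 : Q u1 ≠ 0) :
    ∀ (vs : List (Fin n → F)), (∀ v ∈ vs, Q v ≠ 0) → ∀ g : ↥(Cfsg.isometryGroup F ⇑Q),
      ((g : Matrix.GeneralLinearGroup (Fin n) F) : Matrix (Fin n) (Fin n) F) =
        (vs.map (fun v => Cfsg.reflectionMatrix ⇑Q v)).prod →
      ((χ g : ℤˣ) : ℤ) = ((χ (reflEl92 Q u1 hu1) : ℤˣ) : ℤ) ^ vs.length *
        quadraticChar F ((vs.map (fun v => Q v)).prod) := by
  intro vs
  induction vs with
  | nil =>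
    intro _ g hg
    have hg1 : g = 1 := Subtype.ext (Units.ext hg)
    rw [hg1, map_one]
    simp
  | cons v vs ih =>
    intro hvs g hg
    have hv : Q v ≠ 0 := hvs v List.mem_cons_self
    have hvs' : ∀ w ∈ vs, Q w ≠ 0 := fun w hw => hvs w (List.mem_cons_of_mem _ hw)
    rw [List.map_cons, List.prod_cons] at hg
    have hg' : (((reflEl92 Q v hv * g : ↥(Cfsg.isometryGroup F ⇑Q)) : Matrix.GeneralLinearGroup (Fin n) F) :
        Matrix (Fin n) (Fin n) F) = (vs.map (fun v => Cfsg.reflectionMatrix ⇑Q v)).prod := by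
      show reflectionMatrix (⇑Q) v * ((g : Matrix.GeneralLinearGroup (Fin n) F) : Matrix (Fin n) (Fin n) F) = _
      rw [hg, ← Matrix.mul_assoc, refl_sq92 Q v hv, Matrix.one_mul]
    have hrr : reflEl92 Q v hv * reflEl92 Q v hv = 1 := Subtype.ext (Units.ext (refl_sq92 Q v hv))
    have hχg : χ g = χ (reflEl92 Q v hv) * χ (reflEl92 Q v hv * g) := by
      rw [← map_mul, ← mul_assoc, hrr, one_mul]
    rw [hχg, Units.val_mul, chi_refl09 Q χ hχ u1 hQ1 hu1 v hv, ih hvs' _ hg', List.length_cons, List.map_cons,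
      List.prod_cons, map_mul, pow_succ]
    ring

/-- Spinor norm criterion for Ω over a finite field of odd order: let Q be a quadratic form on F^n, n ≥ 2, with non-degenerate polar form, and let g be an isometry written as a product of reflections in non-singular vectors v_1, …, v_k. Then g lies in Ω (the commutator subgroup of the orthogonal group) if and only if k is even and Q(v_1)⋯Q(v_k) is a square; in particular, for g of determinant one, whether that product is a square does not depend on the chosen factorisation (it is the spinor norm of g). -/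
theorem result {F : Type*} [Field F] [Fintype F] (h2 : (2 : F) ≠ 0) {n : ℕ} (hn : 2 ≤ n) (Q : QuadraticForm F (Fin n → F)) (hQ : (QuadraticMap.polarBilin Q).Nondegenerate) (g : ↥(Cfsg.isometryGroup F ⇑Q)) (vs : List (Fin n → F)) (hvs : ∀ v ∈ vs, Q v ≠ 0) (hg : ((g : Matrix.GeneralLinearGroup (Fin n) F) : Matrix (Fin n) (Fin n) F) = (vs.map (fun v => Cfsg.reflectionMatrix ⇑Q v)).prod) : g ∈ Cfsg.Omega F ⇑Q ↔ (Even vs.length ∧ IsSquare (vs.map (fun v => Q v)).prod) := by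
  classical
  obtain ⟨χ, hχ⟩ := exists_chi09 h2 hn Q hQ
  obtain ⟨u1, hQ1⟩ := univ_top09 h2 hn Q hQ 1
  have hu1 : Q u1 ≠ 0 := by rw [hQ1]; exact one_ne_zero
  show g ∈ commutator _ ↔ _
  rw [omega_iff09 h2 hn Q hQ χ hχ g, hg, list_det09 Q vs hvs]
  have hc := list_chi09 Q χ hχ u1 hQ1 hu1 vs hvs g hg
  have hp := list_prod09 Q vs hvs
  have hdet : ((-1 : F) ^ vs.length = 1) ↔ Even vs.length := by
    constructor
    · intro h
      by_contra hne
      rw [Nat.not_even_iff_odd] at hne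
      rw [Odd.neg_one_pow hne] at h
      apply h2
      linear_combination -h
    · intro h
      exact Even.neg_one_pow h
  rw [hdet]
  have hc0 : Even vs.length → ((χ (reflEl92 Q u1 hu1) : ℤˣ) : ℤ) ^ vs.length = 1 := by
    rintro ⟨k, hk⟩
    rw [hk, ← two_mul, pow_mul, ← Units.val_pow_eq_pow_val, Int.units_sq, Units.val_one, one_pow]
  constructor
  · rintro ⟨he, hχ1⟩
    refine ⟨he, ?_⟩
    rw [hχ1, hc0 he, one_mul, Units.val_one] at hc
    exact (quadraticChar_one_iff_isSquare hp).mp hc.symm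
  · rintro ⟨he, hsq⟩
    refine ⟨he, ?_⟩
    rw [hc0 he, one_mul, (quadraticChar_one_iff_isSquare hp).mpr hsq] at hc
    exact Units.ext hc

end Cfsg.Agent.S2609
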