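import Cfsg.Statements.S0788
import Mathlib
import Cfsg.Statements.S0788
import Cfsg.Agent.S2609

set_option autoImplicit false
open Cfsg
open scoped commutatorElement

namespace Cfsg.Agent.S0788

open Cfsg.Agent.S0832 Cfsg.Agent.S2612 Cfsg.Agent.S0750 Cfsg.Agent.S0794 Cfsg.Agent.S0792 Cfsg.Agent.S0786 Cfsg.Agent.S2635 Cfsg.Agent.S0789 Cfsg.Agent.S2629 Cfsg.Agent.S2633 Cfsg.Agent.S2631 Cfsg.Agent.S2628 Cfsg.Agent.S2613 Cfsg.Agent.S2626 Cfsg.Agent.S2169 Cfsg.Agent.S2632 Cfsg.Agent.S2609 Matrix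
open scoped commutatorElement

/-- Ω has index 4 in O for q odd: if F is finite of odd characteristic, n ≥ 2 and Q is a quadratic form on F^n with non-degenerate polar form, then the commutator subgroup of the isometry group of Q (the group Ω of our definitions) has index 4 in it. -/
theorem result {F : Type*} [Field F] [Fintype F] (h2 : (2 : F) ≠ 0) {n : ℕ} (hn : 2 ≤ n) (Q : QuadraticForm F (Fin n → F)) (hQ : (QuadraticMap.polarBilin Q).Nondegenerate) : (Cfsg.Omega F ⇑Q).index = 4 := by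
  classical
  have h : Fintype.card F ≠ 2 ∨ n ≠ 4 := Or.inl (card_ne_two13 h2)
  obtain ⟨χ, hχ⟩ := exists_chi09 h2 hn Q hQ
  have hom := omega_iff09 h2 hn Q hQ χ hχ
  have hT := index_T89 (by omega : 1 ≤ n) h Q hQ
  have hSO : Cfsg.specialIsometryGroup F ⇑Q = Subgroup.closure (Tset92 Q) := Cfsg.Agent.S0792.result h2 Q hQ
  have hSOi : (Cfsg.specialIsometryGroup F ⇑Q).index = 2 := by
    rw [hSO]
    exact hT
  have hle : commutator ↥(Cfsg.isometryGroup F ⇑Q) ≤ Cfsg.specialIsometryGroup F ⇑Q := by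
    intro g hg
    exact (sdet92 Q g).mpr ((hom g).mp hg).1
  have hrel : (commutator ↥(Cfsg.isometryGroup F ⇑Q)).relIndex (Cfsg.specialIsometryGroup F ⇑Q) = 2 := by
    unfold Subgroup.relIndex
    rw [Subgroup.index_eq_two_iff]
    obtain ⟨γu, hgen⟩ := IsCyclic.exists_generator (α := Fˣ)
    have hγns := gen_nsq13 h2 γu hgen
    obtain ⟨u1, hQ1⟩ := univ_top09 h2 hn Q hQ 1
    obtain ⟨uγ, hQγ⟩ := univ_top09 h2 hn Q hQ (γu : F)
    have hu1 : Q u1 ≠ 0 := by rw [hQ1]; exact one_ne_zero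
    have huγ : Q uγ ≠ 0 := by rw [hQγ]; exact γu.ne_zero
    have htdet : (((reflEl92 Q u1 hu1 * reflEl92 Q uγ huγ : ↥(Cfsg.isometryGroup F ⇑Q)) :
        Matrix.GeneralLinearGroup (Fin n) F) : Matrix (Fin n) (Fin n) F).det = 1 := by
      show (reflectionMatrix (⇑Q) u1 * reflectionMatrix (⇑Q) uγ).det = 1
      rw [Matrix.det_mul, refl_det92 Q u1 hu1, refl_det92 Q uγ huγ]
      ring
    have htSO : reflEl92 Q u1 hu1 * reflEl92 Q uγ huγ ∈ Cfsg.specialIsometryGroup F ⇑Q := (sdet92 Q _).mpr htdet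
    have hχt : χ (reflEl92 Q u1 hu1 * reflEl92 Q uγ huγ) = -1 := by
      rcases Int.units_eq_one_or (χ (reflEl92 Q u1 hu1 * reflEl92 Q uγ huγ)) with h1 | h1
      · exfalso
        have h3 := (hχ _ _ hu1 huγ).mp h1
        rw [hQ1, hQγ, one_mul] at h3
        exact hγns h3
      · exact h1
    refine ⟨⟨_, htSO⟩, fun b => ?_⟩
    rw [Subgroup.mem_subgroupOf, Subgroup.mem_subgroupOf]
    have hbdet := (sdet92 Q b.1).mp b.2
    show Xor' ((b.1 * (reflEl92 Q u1 hu1 * reflEl92 Q uγ huγ)) ∈ commutator ↥(Cfsg.isometryGroup F ⇑Q))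
      (b.1 ∈ commutator ↥(Cfsg.isometryGroup F ⇑Q))
    rw [hom, hom, map_mul, hχt]
    have hdet2 : (((b.1 * (reflEl92 Q u1 hu1 * reflEl92 Q uγ huγ) : ↥(Cfsg.isometryGroup F ⇑Q)) :
        Matrix.GeneralLinearGroup (Fin n) F) : Matrix (Fin n) (Fin n) F).det = 1 := by
      have h5 : (((b.1 * (reflEl92 Q u1 hu1 * reflEl92 Q uγ huγ) : ↥(Cfsg.isometryGroup F ⇑Q)) :
        Matrix.GeneralLinearGroup (Fin n) F) : Matrix (Fin n) (Fin n) F) =
        ((b.1 : Matrix.GeneralLinearGroup (Fin n) F) : Matrix (Fin n) (Fin n) F) *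
        (((reflEl92 Q u1 hu1 * reflEl92 Q uγ huγ : ↥(Cfsg.isometryGroup F ⇑Q)) :
        Matrix.GeneralLinearGroup (Fin n) F) : Matrix (Fin n) (Fin n) F) := rfl
      rw [h5, Matrix.det_mul, hbdet, htdet, one_mul]
    rcases Int.units_eq_one_or (χ b.1) with h1 | h1
    · rw [h1]
      right
      exact ⟨⟨hbdet, rfl⟩, fun h5 => absurd h5.2 (by decide)⟩
    · rw [h1]
      left
      exact ⟨⟨hdet2, by decide⟩, fun h5 => absurd h5.2 (by decide)⟩
  show (commutator ↥(Cfsg.isometryGroup F ⇑Q)).index = 4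
  rw [← Subgroup.relIndex_mul_index hle, hSOi, hrel]

end Cfsg.Agent.S0788
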