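import Cfsg.Statements.S0787
import Mathlib
import Cfsg.Statements.S0787
import Cfsg.Agent.S0788

set_option autoImplicit false
open Cfsg
open scoped commutatorElement

namespace Cfsg.Agent.S0787

open Cfsg.Agent.S0832 Cfsg.Agent.S2612 Cfsg.Agent.S0750 Cfsg.Agent.S0794 Cfsg.Agent.S0792 Cfsg.Agent.S0786 Cfsg.Agent.S2635 Cfsg.Agent.S0789 Cfsg.Agent.S2629 Cfsg.Agent.S2633 Cfsg.Agent.S2631 Cfsg.Agent.S2628 Cfsg.Agent.S2613 Cfsg.Agent.S2626 Cfsg.Agent.S2169 Cfsg.Agent.S2632 Cfsg.Agent.S2609 Matrix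
open scoped commutatorElement

theorem sqn_normal87 {G : Type*} [Group G] (S : Subgroup G) [hS : S.Normal] :
    (Subgroup.closure {x : G | ∃ y ∈ S, x = y * y}).Normal := by
  constructor
  intro p hp g
  have h1 : Subgroup.closure {x : G | ∃ y ∈ S, x = y * y} ≤
      (Subgroup.closure {x : G | ∃ y ∈ S, x = y * y}).comap (MulAut.conj g).toMonoidHom := by
    rw [Subgroup.closure_le]
    rintro t ⟨y, hy, rfl⟩
    show g * (y * y) * g⁻¹ ∈ Subgroup.closure {x : G | ∃ y ∈ S, x = y * y}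
    apply Subgroup.subset_closure
    refine ⟨g * y * g⁻¹, hS.conj_mem y hy g, ?_⟩
    group
  exact h1 hp

theorem comm_le_sq87 {F : Type*} [Field F] [Fintype F] {n : ℕ} (h : Fintype.card F ≠ 2 ∨ n ≠ 4)
    (Q : QuadraticForm F (Fin n → F)) (hQ : (QuadraticMap.polarBilin Q).Nondegenerate) :
    commutator ↥(Cfsg.isometryGroup F ⇑Q) ≤
      Subgroup.closure {x : ↥(Cfsg.isometryGroup F ⇑Q) | ∃ y ∈ Cfsg.specialIsometryGroup F ⇑Q, x = y * y} := by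
  have hgen : Subgroup.closure (Sset92 Q) = ⊤ := Cfsg.Agent.S0786.result Q hQ h
  haveI hSOn : (Cfsg.specialIsometryGroup F ⇑Q).Normal := by
    unfold Cfsg.specialIsometryGroup
    infer_instance
  haveI hMn := sqn_normal87 (Cfsg.specialIsometryGroup F ⇑Q)
  obtain ⟨M, hM⟩ : ∃ M : Subgroup ↥(Cfsg.isometryGroup F ⇑Q), M =
      Subgroup.closure {x : ↥(Cfsg.isometryGroup F ⇑Q) | ∃ y ∈ Cfsg.specialIsometryGroup F ⇑Q, x = y * y} := ⟨_, rfl⟩
  rw [← hM] at hMn ⊢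
  have step1 : ∀ r ∈ Sset92 Q, ∀ s ∈ Sset92 Q,
      (r : ↥(Cfsg.isometryGroup F ⇑Q) ⧸ M) * (s : ↥(Cfsg.isometryGroup F ⇑Q) ⧸ M) =
      (s : ↥(Cfsg.isometryGroup F ⇑Q) ⧸ M) * (r : ↥(Cfsg.isometryGroup F ⇑Q) ⧸ M) := by
    rintro r ⟨u, hu, hr⟩ s ⟨v, hv, hs⟩
    have er : r = reflEl92 Q u hu := Subtype.ext (Units.ext hr)
    have es : s = reflEl92 Q v hv := Subtype.ext (Units.ext hs)
    have hrr : r * r = 1 := by
      rw [er]
      exact Subtype.ext (Units.ext (refl_sq92 Q u hu))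
    have hss : s * s = 1 := by
      rw [es]
      exact Subtype.ext (Units.ext (refl_sq92 Q v hv))
    have hrs : r * s ∈ Cfsg.specialIsometryGroup F ⇑Q := by
      rw [sdet92]
      show (((r : Matrix.GeneralLinearGroup (Fin n) F) : Matrix (Fin n) (Fin n) F) *
        ((s : Matrix.GeneralLinearGroup (Fin n) F) : Matrix (Fin n) (Fin n) F)).det = 1
      rw [hr, hs, Matrix.det_mul, refl_det92 Q u hu, refl_det92 Q v hv]
      ring
    have h3 : (r * s) * (r * s) ∈ M := by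
      rw [hM]
      exact Subgroup.subset_closure ⟨r * s, hrs, rfl⟩
    have h4 : (((r * s) * (r * s) : ↥(Cfsg.isometryGroup F ⇑Q)) : ↥(Cfsg.isometryGroup F ⇑Q) ⧸ M) = 1 :=
      (QuotientGroup.eq_one_iff _).mpr h3
    have h5 : (r : ↥(Cfsg.isometryGroup F ⇑Q) ⧸ M) * (r : ↥(Cfsg.isometryGroup F ⇑Q) ⧸ M) = 1 := by
      rw [← QuotientGroup.mk_mul, hrr]
      rfl
    have h6 : (s : ↥(Cfsg.isometryGroup F ⇑Q) ⧸ M) * (s : ↥(Cfsg.isometryGroup F ⇑Q) ⧸ M) = 1 := by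
      rw [← QuotientGroup.mk_mul, hss]
      rfl
    obtain ⟨R, hR⟩ : ∃ R : ↥(Cfsg.isometryGroup F ⇑Q) ⧸ M, R = (r : ↥(Cfsg.isometryGroup F ⇑Q) ⧸ M) := ⟨_, rfl⟩
    obtain ⟨S', hS'⟩ : ∃ S' : ↥(Cfsg.isometryGroup F ⇑Q) ⧸ M, S' = (s : ↥(Cfsg.isometryGroup F ⇑Q) ⧸ M) := ⟨_, rfl⟩
    have h4' : R * S' * (R * S') = 1 := by
      rw [hR, hS']
      exact h4
    rw [← hR] at h5
    rw [← hS'] at h6
    rw [← hR, ← hS']
    have hRi : R⁻¹ = R := inv_eq_of_mul_eq_one_right h5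
    have hSi : S'⁻¹ = S' := inv_eq_of_mul_eq_one_right h6
    have hRSi : (R * S')⁻¹ = R * S' := inv_eq_of_mul_eq_one_right h4'
    rw [← hRSi, _root_.mul_inv_rev, hRi, hSi]
  have step2 : ∀ s ∈ Sset92 Q, ∀ x : ↥(Cfsg.isometryGroup F ⇑Q),
      (x : ↥(Cfsg.isometryGroup F ⇑Q) ⧸ M) * (s : ↥(Cfsg.isometryGroup F ⇑Q) ⧸ M) =
      (s : ↥(Cfsg.isometryGroup F ⇑Q) ⧸ M) * (x : ↥(Cfsg.isometryGroup F ⇑Q) ⧸ M) := by
    intro s hs x
    have hx : x ∈ Subgroup.closure (Sset92 Q) := by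
      rw [hgen]
      exact Subgroup.mem_top _
    induction hx using Subgroup.closure_induction with
    | mem r hr => exact step1 r hr s hs
    | one =>
      rw [QuotientGroup.mk_one, one_mul, mul_one]
    | mul a b _ _ iha ihb =>
      rw [QuotientGroup.mk_mul, mul_assoc, ihb, ← mul_assoc, iha, mul_assoc]
    | inv a _ iha =>
      rw [QuotientGroup.mk_inv]
      have h7 := congrArg (fun z => (a : ↥(Cfsg.isometryGroup F ⇑Q) ⧸ M)⁻¹ * z *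
        (a : ↥(Cfsg.isometryGroup F ⇑Q) ⧸ M)⁻¹) iha
      beta_reduce at h7
      rw [show (a : ↥(Cfsg.isometryGroup F ⇑Q) ⧸ M)⁻¹ * ((a : ↥(Cfsg.isometryGroup F ⇑Q) ⧸ M) *
        (s : ↥(Cfsg.isometryGroup F ⇑Q) ⧸ M)) * (a : ↥(Cfsg.isometryGroup F ⇑Q) ⧸ M)⁻¹ =
        (s : ↥(Cfsg.isometryGroup F ⇑Q) ⧸ M) * (a : ↥(Cfsg.isometryGroup F ⇑Q) ⧸ M)⁻¹ by group,
        show (a : ↥(Cfsg.isometryGroup F ⇑Q) ⧸ M)⁻¹ * ((s : ↥(Cfsg.isometryGroup F ⇑Q) ⧸ M) *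
        (a : ↥(Cfsg.isometryGroup F ⇑Q) ⧸ M)) * (a : ↥(Cfsg.isometryGroup F ⇑Q) ⧸ M)⁻¹ =
        (a : ↥(Cfsg.isometryGroup F ⇑Q) ⧸ M)⁻¹ * (s : ↥(Cfsg.isometryGroup F ⇑Q) ⧸ M) by group] at h7
      exact h7.symm
  have step3 : ∀ x y : ↥(Cfsg.isometryGroup F ⇑Q),
      (x : ↥(Cfsg.isometryGroup F ⇑Q) ⧸ M) * (y : ↥(Cfsg.isometryGroup F ⇑Q) ⧸ M) =
      (y : ↥(Cfsg.isometryGroup F ⇑Q) ⧸ M) * (x : ↥(Cfsg.isometryGroup F ⇑Q) ⧸ M) := by
    intro x y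
    have hy : y ∈ Subgroup.closure (Sset92 Q) := by
      rw [hgen]
      exact Subgroup.mem_top _
    induction hy using Subgroup.closure_induction with
    | mem r hr => exact step2 r hr x
    | one =>
      rw [QuotientGroup.mk_one, one_mul, mul_one]
    | mul a b _ _ iha ihb =>
      rw [QuotientGroup.mk_mul, ← mul_assoc, iha, mul_assoc, ihb, ← mul_assoc]
    | inv a _ iha =>
      rw [QuotientGroup.mk_inv]
      have h7 := congrArg (fun z => (a : ↥(Cfsg.isometryGroup F ⇑Q) ⧸ M)⁻¹ * z *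
        (a : ↥(Cfsg.isometryGroup F ⇑Q) ⧸ M)⁻¹) iha
      beta_reduce at h7
      rw [show (a : ↥(Cfsg.isometryGroup F ⇑Q) ⧸ M)⁻¹ * ((x : ↥(Cfsg.isometryGroup F ⇑Q) ⧸ M) *
        (a : ↥(Cfsg.isometryGroup F ⇑Q) ⧸ M)) * (a : ↥(Cfsg.isometryGroup F ⇑Q) ⧸ M)⁻¹ =
        (a : ↥(Cfsg.isometryGroup F ⇑Q) ⧸ M)⁻¹ * (x : ↥(Cfsg.isometryGroup F ⇑Q) ⧸ M) by group,
        show (a : ↥(Cfsg.isometryGroup F ⇑Q) ⧸ M)⁻¹ * ((a : ↥(Cfsg.isometryGroup F ⇑Q) ⧸ M) *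
        (x : ↥(Cfsg.isometryGroup F ⇑Q) ⧸ M)) * (a : ↥(Cfsg.isometryGroup F ⇑Q) ⧸ M)⁻¹ =
        (x : ↥(Cfsg.isometryGroup F ⇑Q) ⧸ M) * (a : ↥(Cfsg.isometryGroup F ⇑Q) ⧸ M)⁻¹ by group] at h7
      exact h7.symm
  rw [commutator_def, Subgroup.commutator_le]
  intro x _ y _
  rw [← QuotientGroup.eq_one_iff]
  have h3 : ((⁅x, y⁆ : ↥(Cfsg.isometryGroup F ⇑Q)) : ↥(Cfsg.isometryGroup F ⇑Q) ⧸ M) =
      ⁅(x : ↥(Cfsg.isometryGroup F ⇑Q) ⧸ M), (y : ↥(Cfsg.isometryGroup F ⇑Q) ⧸ M)⁆ :=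
    map_commutatorElement (QuotientGroup.mk' M) x y
  rw [h3, commutatorElement_def, step3 x y]
  group

/-- Existence and uniqueness of Ω: if F is finite, n ≥ 2, Q is a quadratic form on F^n with non-degenerate polar form and (|F|, n) ≠ (2, 4), then the group of isometries of determinant one has a unique subgroup of index 2. -/
theorem result {F : Type*} [Field F] [Fintype F] {n : ℕ} (hn : 2 ≤ n) (Q : QuadraticForm F (Fin n → F)) (hQ : (QuadraticMap.polarBilin Q).Nondegenerate) (h : Fintype.card F ≠ 2 ∨ n ≠ 4) : ∃! H : Subgroup ↥(Cfsg.specialIsometryGroup F ⇑Q), H.index = 2 := by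
  classical
  have hle : commutator ↥(Cfsg.isometryGroup F ⇑Q) ≤ Cfsg.specialIsometryGroup F ⇑Q := by
    intro g hg
    exact Abelianization.commutator_subset_ker (Matrix.GeneralLinearGroup.det.comp
      (Cfsg.isometryGroup F ⇑Q).subtype) hg
  have hrel : (commutator ↥(Cfsg.isometryGroup F ⇑Q)).relIndex (Cfsg.specialIsometryGroup F ⇑Q) = 2 := by
    by_cases h2 : (2 : F) = 0
    · haveI : CharP F 2 := CharTwo.of_one_ne_zero_of_two_eq_zero one_ne_zero h2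
      have hSOtop : Cfsg.specialIsometryGroup F ⇑Q = ⊤ := by
        rw [eq_top_iff, ← Cfsg.Agent.S0786.result Q hQ h, Subgroup.closure_le]
        rintro r ⟨u, hu, hr⟩
        show r ∈ Cfsg.specialIsometryGroup F ⇑Q
        rw [sdet92, hr, refl_det92 Q u hu]
        exact CharTwo.neg_eq 1
      rw [hSOtop, Subgroup.relIndex_top_right]
      exact Cfsg.Agent.S0789.result hn Q hQ h
    · have h4 : (commutator ↥(Cfsg.isometryGroup F ⇑Q)).index = 4 := Cfsg.Agent.S0788.result h2 hn Q hQ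
      have hT := index_T89 (by omega : 1 ≤ n) h Q hQ
      have hSO : Cfsg.specialIsometryGroup F ⇑Q = Subgroup.closure (Tset92 Q) := Cfsg.Agent.S0792.result h2 Q hQ
      have hSOi : (Cfsg.specialIsometryGroup F ⇑Q).index = 2 := by
        rw [hSO]
        exact hT
      have h5 := Subgroup.relIndex_mul_index hle
      rw [hSOi, h4] at h5
      omega
  refine ⟨(commutator ↥(Cfsg.isometryGroup F ⇑Q)).subgroupOf (Cfsg.specialIsometryGroup F ⇑Q), hrel, ?_⟩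
  intro H hH
  have hKH : (commutator ↥(Cfsg.isometryGroup F ⇑Q)).subgroupOf (Cfsg.specialIsometryGroup F ⇑Q) ≤ H := by
    intro x hx
    rw [Subgroup.mem_subgroupOf] at hx
    have h3 := comm_le_sq87 h Q hQ hx
    have h4 : Subgroup.closure {x : ↥(Cfsg.isometryGroup F ⇑Q) |
        ∃ y ∈ Cfsg.specialIsometryGroup F ⇑Q, x = y * y} ≤ H.map (Cfsg.specialIsometryGroup F ⇑Q).subtype := by
      rw [Subgroup.closure_le]
      rintro t ⟨y, hy, rfl⟩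
      exact ⟨⟨y, hy⟩ * ⟨y, hy⟩, Subgroup.mul_self_mem_of_index_two hH _, rfl⟩
    obtain ⟨z, hz, hzx⟩ := h4 h3
    have h5 : z = x := Subtype.ext hzx
    rw [← h5]
    exact hz
  have h5 := Subgroup.relIndex_mul_index hKH
  have h6 : ((commutator ↥(Cfsg.isometryGroup F ⇑Q)).subgroupOf (Cfsg.specialIsometryGroup F ⇑Q)).index = 2 := hrel
  rw [hH, h6] at h5
  have h7 : ((commutator ↥(Cfsg.isometryGroup F ⇑Q)).subgroupOf (Cfsg.specialIsometryGroup F ⇑Q)).relIndex H = 1 := by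
    omega
  exact le_antisymm (Subgroup.relIndex_eq_one.mp h7) hKH

end Cfsg.Agent.S0787
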