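import Cfsg.Statements.S2615
import Mathlib
import Cfsg.Statements.S2615
import Cfsg.Agent.S2609
import Cfsg.Agent.S2562

set_option autoImplicit false
open Cfsg
open scoped commutatorElement

namespace Cfsg.Agent.S2615

open Cfsg.Agent.S0832 Cfsg.Agent.S2612 Cfsg.Agent.S0750 Cfsg.Agent.S0794 Cfsg.Agent.S0792 Cfsg.Agent.S0786 Cfsg.Agent.S2635 Cfsg.Agent.S0789 Cfsg.Agent.S2629 Cfsg.Agent.S2633 Cfsg.Agent.S2631 Cfsg.Agent.S2628 Cfsg.Agent.S2613 Cfsg.Agent.S2626 Cfsg.Agent.S2169 Cfsg.Agent.S2632 Cfsg.Agent.S2609 Cfsg.Agent.S2562 Matrix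
open scoped commutatorElement

theorem gen_iota15 {ι : Type} [Fintype ι] [DecidableEq ι] {F : Type*} [Field F] [Fintype F] [DecidableEq F]
    (h2 : (2 : F) ≠ 0)
    (Q₀ : QuadraticForm F (ι → F)) (hQ₀ : (QuadraticMap.polarBilin Q₀).Nondegenerate)
    (hcard : 2 ≤ Fintype.card ι)
    (q : (ι → F) → F) (hq : ∀ v, Q₀ v = q v) :
    ∃ (χ₀ : ↥(Cfsg.isometryGroup F q) →* ℤˣ) (c0 : ℤˣ),
      (∀ g : ↥(Cfsg.isometryGroup F q), g ∈ Cfsg.Omega F q ↔
        (((g : Matrix.GeneralLinearGroup ι F) : Matrix ι ι F).det = 1 ∧ χ₀ g = 1)) ∧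
      (∀ v : ι → F, q v ≠ 0 → ∃ r : ↥(Cfsg.isometryGroup F q),
        (∀ x, ((r : Matrix.GeneralLinearGroup ι F) : Matrix ι ι F) *ᵥ x =
          x + (-((q v)⁻¹ * QuadraticMap.polarBilin Q₀ v x)) • v) ∧
        ((r : Matrix.GeneralLinearGroup ι F) : Matrix ι ι F).det = -1 ∧
        ((χ₀ r : ℤˣ) : ℤ) = ((c0 : ℤˣ) : ℤ) * quadraticChar F (q v)) := by
  have hQ : ∀ w : Fin (Fintype.card ι) → F,
      (⇑(qT69 (Fintype.equivFin ι) Q₀) : (Fin (Fintype.card ι) → F) → F) w = q (w ∘ Fintype.equivFin ι) :=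
    fun w => by rw [qT_apply69, hq]
  have e : ∀ x : ι → F, (x ∘ (Fintype.equivFin ι).symm) ∘ Fintype.equivFin ι = x := by
    intro x
    funext i
    simp
  have hnd := qT_nondeg69 (Fintype.equivFin ι) Q₀ hQ₀
  obtain ⟨χ, hχ⟩ := exists_chi09 h2 hcard (qT69 (Fintype.equivFin ι) Q₀) hnd
  have hom := omega_iff09 h2 hcard (qT69 (Fintype.equivFin ι) Q₀) hnd χ hχ
  obtain ⟨u1, hQ1⟩ := univ_top09 h2 hcard (qT69 (Fintype.equivFin ι) Q₀) hnd 1
  have hu1 : qT69 (Fintype.equivFin ι) Q₀ u1 ≠ 0 := by rw [hQ1]; exact one_ne_zero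
  refine ⟨χ.comp (psi29 (Fintype.equivFin ι) q (⇑(qT69 (Fintype.equivFin ι) Q₀)) hQ).toMonoidHom,
    χ (reflEl92 (qT69 (Fintype.equivFin ι) Q₀) u1 hu1), ?_, ?_⟩
  · intro g
    show g ∈ commutator _ ↔ _ ∧ χ (psi29 (Fintype.equivFin ι) q (⇑(qT69 (Fintype.equivFin ι) Q₀)) hQ g) = 1
    rw [comm_equiv29 (psi29 (Fintype.equivFin ι) q (⇑(qT69 (Fintype.equivFin ι) Q₀)) hQ), hom, psi_det29]
  · intro v hv
    have hv' : qT69 (Fintype.equivFin ι) Q₀ (v ∘ (Fintype.equivFin ι).symm) ≠ 0 := by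
      rw [hQ, e]
      exact hv
    refine ⟨(psi29 (Fintype.equivFin ι) q (⇑(qT69 (Fintype.equivFin ι) Q₀)) hQ).symm
      (reflEl92 (qT69 (Fintype.equivFin ι) Q₀) (v ∘ (Fintype.equivFin ι).symm) hv'), ?_, ?_, ?_⟩
    · intro x
      have h4 := psi_symm_mulVec29 (Fintype.equivFin ι) q (⇑(qT69 (Fintype.equivFin ι) Q₀)) hQ
        (reflEl92 (qT69 (Fintype.equivFin ι) Q₀) (v ∘ (Fintype.equivFin ι).symm) hv') x
      have h5 : ((reflEl92 (qT69 (Fintype.equivFin ι) Q₀) (v ∘ (Fintype.equivFin ι).symm) hv' :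
          Matrix.GeneralLinearGroup (Fin (Fintype.card ι)) F) :
          Matrix (Fin (Fintype.card ι)) (Fin (Fintype.card ι)) F) =
          reflectionMatrix (⇑(qT69 (Fintype.equivFin ι) Q₀)) (v ∘ (Fintype.equivFin ι).symm) := rfl
      rw [h5, refl_mulVec92, qT_polar69, hQ, e, e] at h4
      rw [h4]
      funext i
      simp
    · have h6 := psi_det29 (Fintype.equivFin ι) q (⇑(qT69 (Fintype.equivFin ι) Q₀)) hQ
        ((psi29 (Fintype.equivFin ι) q (⇑(qT69 (Fintype.equivFin ι) Q₀)) hQ).symm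
          (reflEl92 (qT69 (Fintype.equivFin ι) Q₀) (v ∘ (Fintype.equivFin ι).symm) hv'))
      rw [MulEquiv.apply_symm_apply] at h6
      rw [← h6]
      exact refl_det92 _ _ hv'
    · show ((χ (psi29 (Fintype.equivFin ι) q (⇑(qT69 (Fintype.equivFin ι) Q₀)) hQ
        ((psi29 (Fintype.equivFin ι) q (⇑(qT69 (Fintype.equivFin ι) Q₀)) hQ).symm
          (reflEl92 (qT69 (Fintype.equivFin ι) Q₀) (v ∘ (Fintype.equivFin ι).symm) hv'))) : ℤˣ) : ℤ) = _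
      rw [MulEquiv.apply_symm_apply, chi_refl09 (qT69 (Fintype.equivFin ι) Q₀) χ hχ u1 hQ1 hu1 _ hv', hQ, e]

theorem chain15 {ι : Type} [Fintype ι] [DecidableEq ι] {F : Type*} [Field F] (q : (ι → F) → F)
    (χ₀ : ↥(Cfsg.isometryGroup F q) →* ℤˣ) (nidx : ι → ℕ) (k : ℕ) (ε : ℤ)
    (hN : ∀ j < k, ∃ N : ↥(Cfsg.isometryGroup F q),
      ((N : Matrix.GeneralLinearGroup ι F) : Matrix ι ι F) =
        Matrix.diagonal (fun κ => if nidx κ = j then (-1 : F) else 1) ∧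
      ((N : Matrix.GeneralLinearGroup ι F) : Matrix ι ι F).det = 1 ∧ ((χ₀ N : ℤˣ) : ℤ) = ε) :
    ∀ i ≤ k, ∃ g : ↥(Cfsg.isometryGroup F q),
      ((g : Matrix.GeneralLinearGroup ι F) : Matrix ι ι F) =
        Matrix.diagonal (fun κ => if nidx κ < i then (-1 : F) else 1) ∧
      ((g : Matrix.GeneralLinearGroup ι F) : Matrix ι ι F).det = 1 ∧ ((χ₀ g : ℤˣ) : ℤ) = ε ^ i := by
  intro i
  induction i with
  | zero =>
    intro _
    refine ⟨1, ?_, ?_, ?_⟩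
    · show (1 : Matrix ι ι F) = _
      rw [← Matrix.diagonal_one]
      congr 1
    · show (1 : Matrix ι ι F).det = 1
      exact Matrix.det_one
    · rw [map_one, Units.val_one, pow_zero]
  | succ i ih =>
    intro hi
    obtain ⟨g, hg, hgd, hgχ⟩ := ih (by omega)
    obtain ⟨N, hNm, hNd, hNχ⟩ := hN i (by omega)
    refine ⟨g * N, ?_, ?_, ?_⟩
    · show ((g : Matrix.GeneralLinearGroup ι F) : Matrix ι ι F) * ((N : Matrix.GeneralLinearGroup ι F) : Matrix ι ι F) = _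
      rw [hg, hNm, Matrix.diagonal_mul_diagonal]
      congr 1
      funext κ
      by_cases h1 : nidx κ < i
      · rw [if_pos h1, if_neg (by omega), if_pos (by omega)]
        ring
      · by_cases h5 : nidx κ = i
        · rw [if_neg h1, if_pos h5, if_pos (by omega)]
          ring
        · rw [if_neg h1, if_neg h5, if_neg (by omega)]
          ring
    · show (((g : Matrix.GeneralLinearGroup ι F) : Matrix ι ι F) * ((N : Matrix.GeneralLinearGroup ι F) : Matrix ι ι F)).det = 1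
      rw [Matrix.det_mul, hgd, hNd, one_mul]
    · rw [map_mul, Units.val_mul, hgχ, hNχ, pow_succ]

theorem arith15 {F : Type*} [Field F] [Fintype F] [DecidableEq F] {q : ℕ} (hF : Fintype.card F = q) (hq : Odd q)
    (i : ℕ) : (quadraticChar F (-1 : F)) ^ i = 1 ↔ q ^ i % 4 = 1 := by
  have h9 : ∀ k : ℕ, 9 ^ k % 4 = 1 := fun k => by
    rw [Nat.pow_mod]
    norm_num
  have hsq4 := FiniteField.isSquare_neg_one_iff (F := F)
  rw [hF] at hsq4
  have hqodd : q % 2 = 1 := Nat.odd_iff.mp hq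
  have hm1 : (-1 : F) ≠ 0 := neg_ne_zero.mpr one_ne_zero
  by_cases hsq : IsSquare (-1 : F)
  · rw [(quadraticChar_one_iff_isSquare hm1).mpr hsq, one_pow]
    have hq4 : q % 4 = 1 := by
      have := hsq4.mp hsq
      omega
    have h5 : q ^ i % 4 = 1 := by
      rw [Nat.pow_mod, hq4, one_pow]
      norm_num
    exact ⟨fun _ => h5, fun _ => rfl⟩
  · rw [quadraticChar_neg_one_iff_not_isSquare.mpr hsq]
    have hq4 : q % 4 = 3 := by
      by_contra h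
      exact hsq (hsq4.mpr h)
    rcases Nat.even_or_odd i with ⟨k, hk⟩ | ⟨k, hk⟩
    · have h5 : q ^ i % 4 = 1 := by
        rw [Nat.pow_mod, hq4, hk, ← two_mul, pow_mul]
        exact h9 k
      have h6 : (-1 : ℤ) ^ i = 1 := by
        rw [hk, ← two_mul, pow_mul]
        simp
      exact ⟨fun _ => h5, fun _ => h6⟩
    · have h5 : q ^ i % 4 = 3 := by
        have h39 : (3 : ℕ) ^ 2 = 9 := by norm_num
        rw [Nat.pow_mod, hq4, hk, pow_succ, pow_mul, Nat.mul_mod, h39, h9 k]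
      have h6 : (-1 : ℤ) ^ i = -1 := by
        rw [hk, pow_succ, pow_mul]
        simp
      constructor
      · intro h7
        rw [h6] at h7
        exact absurd h7 (by decide)
      · intro h7
        omega

theorem final15 {ι : Type} [Fintype ι] [DecidableEq ι] {F : Type*} [Field F] [Fintype F] [DecidableEq F]
    {q' : ℕ} (hF : Fintype.card F = q') (hq' : Odd q')
    (q : (ι → F) → F) (χ₀ : ↥(Cfsg.isometryGroup F q) →* ℤˣ)
    (hom : ∀ g : ↥(Cfsg.isometryGroup F q), g ∈ Cfsg.Omega F q ↔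
        (((g : Matrix.GeneralLinearGroup ι F) : Matrix ι ι F).det = 1 ∧ χ₀ g = 1))
    (nidx : ι → ℕ) (k : ℕ)
    (hN : ∀ j < k, ∃ N : ↥(Cfsg.isometryGroup F q),
      ((N : Matrix.GeneralLinearGroup ι F) : Matrix ι ι F) =
        Matrix.diagonal (fun κ => if nidx κ = j then (-1 : F) else 1) ∧
      ((N : Matrix.GeneralLinearGroup ι F) : Matrix ι ι F).det = 1 ∧
      ((χ₀ N : ℤˣ) : ℤ) = quadraticChar F (-1 : F))
    (i : ℕ) (hi : i ≤ k) :
    (∃ g : ↥(Cfsg.isometryGroup F q), g ∈ Cfsg.Omega F q ∧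
      ((g : Matrix.GeneralLinearGroup ι F) : Matrix ι ι F) =
        Matrix.diagonal (fun κ => if nidx κ < i then (-1 : F) else 1)) ↔ q' ^ i % 4 = 1 := by
  obtain ⟨g, hg, hgd, hgχ⟩ := chain15 q χ₀ nidx k _ hN i hi
  rw [← arith15 hF hq' i, ← hgχ]
  constructor
  · rintro ⟨g', hg', hgm⟩
    have h3 : g' = g := Subtype.ext (Units.ext (hgm.trans hg.symm))
    rw [h3, hom] at hg'
    rw [hg'.2, Units.val_one]
  · intro h
    refine ⟨g, ?_, hg⟩
    rw [hom]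
    exact ⟨hgd, Units.ext h⟩

theorem pair15 {ι : Type} [Fintype ι] [DecidableEq ι] {F : Type*} [Field F] [Fintype F] [DecidableEq F]
    (q : (ι → F) → F) (χ₀ : ↥(Cfsg.isometryGroup F q) →* ℤˣ) (c0 : ℤˣ)
    (ra rb : ↥(Cfsg.isometryGroup F q)) (a b : ι → F) (hqa : q a = 1) (hqb : q b = -1)
    (hrad : ((ra : Matrix.GeneralLinearGroup ι F) : Matrix ι ι F).det = -1)
    (hrbd : ((rb : Matrix.GeneralLinearGroup ι F) : Matrix ι ι F).det = -1)
    (hraχ : ((χ₀ ra : ℤˣ) : ℤ) = ((c0 : ℤˣ) : ℤ) * quadraticChar F (q a))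
    (hrbχ : ((χ₀ rb : ℤˣ) : ℤ) = ((c0 : ℤˣ) : ℤ) * quadraticChar F (q b)) :
    (((ra * rb : ↥(Cfsg.isometryGroup F q)) : Matrix.GeneralLinearGroup ι F) : Matrix ι ι F).det = 1 ∧
    ((χ₀ (ra * rb) : ℤˣ) : ℤ) = quadraticChar F (-1 : F) := by
  constructor
  · show (((ra : Matrix.GeneralLinearGroup ι F) : Matrix ι ι F) * ((rb : Matrix.GeneralLinearGroup ι F) : Matrix ι ι F)).det = 1
    rw [Matrix.det_mul, hrad, hrbd]
    ring
  · rw [map_mul, Units.val_mul, hraχ, hrbχ, hqa, hqb, map_one]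
    have h3 : ((c0 : ℤˣ) : ℤ) * ((c0 : ℤˣ) : ℤ) = 1 := by
      rw [← Units.val_mul, Int.units_mul_self, Units.val_one]
    linear_combination (quadraticChar F (-1 : F)) * h3

theorem hN_minus15 {F : Type*} [Field F] [Fintype F] [DecidableEq F] (k : ℕ) (a' b' : F)
    (χ₀ : ↥(Cfsg.isometryGroup F (Cfsg.quadFormMinus k F a' b')) →* ℤˣ) (c0 : ℤˣ)
    (hrefl : ∀ v : (Fin k ⊕ Fin k) ⊕ Fin 2 → F, Cfsg.quadFormMinus k F a' b' v ≠ 0 →
      ∃ r : ↥(Cfsg.isometryGroup F (Cfsg.quadFormMinus k F a' b')),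
        (∀ x, ((r : Matrix.GeneralLinearGroup ((Fin k ⊕ Fin k) ⊕ Fin 2) F) :
          Matrix ((Fin k ⊕ Fin k) ⊕ Fin 2) ((Fin k ⊕ Fin k) ⊕ Fin 2) F) *ᵥ x =
          x + (-((Cfsg.quadFormMinus k F a' b' v)⁻¹ * QuadraticMap.polarBilin (qm62 F k a' b') v x)) • v) ∧
        ((r : Matrix.GeneralLinearGroup ((Fin k ⊕ Fin k) ⊕ Fin 2) F) :
          Matrix ((Fin k ⊕ Fin k) ⊕ Fin 2) ((Fin k ⊕ Fin k) ⊕ Fin 2) F).det = -1 ∧
        ((χ₀ r : ℤˣ) : ℤ) = ((c0 : ℤˣ) : ℤ) * quadraticChar F (Cfsg.quadFormMinus k F a' b' v)) :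
    ∀ j < k, ∃ N : ↥(Cfsg.isometryGroup F (Cfsg.quadFormMinus k F a' b')),
      ((N : Matrix.GeneralLinearGroup ((Fin k ⊕ Fin k) ⊕ Fin 2) F) :
          Matrix ((Fin k ⊕ Fin k) ⊕ Fin 2) ((Fin k ⊕ Fin k) ⊕ Fin 2) F) =
        Matrix.diagonal (fun κ => if (Sum.elim (Sum.elim (fun l : Fin k => (l : ℕ)) (fun l : Fin k => (l : ℕ)))
          (fun _ : Fin 2 => k) κ) = j then (-1 : F) else 1) ∧
      ((N : Matrix.GeneralLinearGroup ((Fin k ⊕ Fin k) ⊕ Fin 2) F) :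
          Matrix ((Fin k ⊕ Fin k) ⊕ Fin 2) ((Fin k ⊕ Fin k) ⊕ Fin 2) F).det = 1 ∧
      ((χ₀ N : ℤˣ) : ℤ) = quadraticChar F (-1 : F) := by
  intro j hj
  obtain ⟨jj, hjj⟩ : ∃ jj : Fin k, (jj : ℕ) = j := ⟨⟨j, hj⟩, rfl⟩
  obtain ⟨a, ha⟩ : ∃ a : (Fin k ⊕ Fin k) ⊕ Fin 2 → F,
      a = Pi.single (Sum.inl (Sum.inl jj)) 1 + Pi.single (Sum.inl (Sum.inr jj)) 1 := ⟨_, rfl⟩
  obtain ⟨b, hb⟩ : ∃ b : (Fin k ⊕ Fin k) ⊕ Fin 2 → F,
      b = Pi.single (Sum.inl (Sum.inl jj)) 1 - Pi.single (Sum.inl (Sum.inr jj)) 1 := ⟨_, rfl⟩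
  have hqa : Cfsg.quadFormMinus k F a' b' a = 1 := by
    rw [ha]
    simp [Cfsg.quadFormMinus, Pi.single_apply]
  have hqb : Cfsg.quadFormMinus k F a' b' b = -1 := by
    rw [hb]
    simp [Cfsg.quadFormMinus, Pi.single_apply]
  have hBa : ∀ x : (Fin k ⊕ Fin k) ⊕ Fin 2 → F, QuadraticMap.polarBilin (qm62 F k a' b') a x =
      x (Sum.inl (Sum.inr jj)) + x (Sum.inl (Sum.inl jj)) := by
    intro x
    rw [QuadraticMap.polarBilin_apply_apply, qm_polar62, ha]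
    simp [Pi.single_apply, Finset.sum_add_distrib]
  have hBb : ∀ x : (Fin k ⊕ Fin k) ⊕ Fin 2 → F, QuadraticMap.polarBilin (qm62 F k a' b') b x =
      x (Sum.inl (Sum.inr jj)) - x (Sum.inl (Sum.inl jj)) := by
    intro x
    rw [QuadraticMap.polarBilin_apply_apply, qm_polar62, hb]
    simp [Pi.single_apply, Finset.sum_add_distrib, sub_eq_add_neg]
  have hBab : QuadraticMap.polarBilin (qm62 F k a' b') a b = 0 := by
    rw [hBa, hb]
    simp [Pi.single_apply]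
  obtain ⟨ra, hra, hrad, hraχ⟩ := hrefl a (by rw [hqa]; exact one_ne_zero)
  obtain ⟨rb, hrb, hrbd, hrbχ⟩ := hrefl b (by rw [hqb]; exact neg_ne_zero.mpr one_ne_zero)
  obtain ⟨hd, hc⟩ := pair15 _ χ₀ c0 ra rb a b hqa hqb hrad hrbd hraχ hrbχ
  refine ⟨ra * rb, ?_, hd, hc⟩
  apply mat_ext12
  intro x
  show (((ra : Matrix.GeneralLinearGroup ((Fin k ⊕ Fin k) ⊕ Fin 2) F) :
          Matrix ((Fin k ⊕ Fin k) ⊕ Fin 2) ((Fin k ⊕ Fin k) ⊕ Fin 2) F) *
      ((rb : Matrix.GeneralLinearGroup ((Fin k ⊕ Fin k) ⊕ Fin 2) F) :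
          Matrix ((Fin k ⊕ Fin k) ⊕ Fin 2) ((Fin k ⊕ Fin k) ⊕ Fin 2) F)) *ᵥ x = _
  rw [← Matrix.mulVec_mulVec, hrb, hra, map_add, map_smul, hBab, hBa, hBb, hqa, hqb]
  funext κ
  rw [Matrix.mulVec_diagonal]
  rcases κ with (l | l) | l
  · by_cases hl : l = jj
    · subst hl
      simp [ha, hb, hjj]
    · have hne : (l : ℕ) ≠ j := fun h => hl (Fin.ext (h.trans hjj.symm))
      simp [ha, hb, hl, hne]
  · by_cases hl : l = jj
    · subst hl
      simp [ha, hb, hjj]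
    · have hne : (l : ℕ) ≠ j := fun h => hl (Fin.ext (h.trans hjj.symm))
      simp [ha, hb, hl, hne]
  · have hne : k ≠ j := by omega
    simp [ha, hb, hne]

/-- For an elliptic form Σ_(j<m−1) x_j y_j + (z₁² + a z₁z₂ + b z₂²) (anisotropic binary part) on F^(2m), F finite with q elements, q odd, and 1 ≤ i ≤ m − 1: the involution negating the first i hyperbolic pairs and fixing the rest lies in Ω⁻_2m(q) (commutator subgroup of the orthogonal group) if and only if q^i ≡ 1 (mod 4). -/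
theorem result {F : Type*} [Field F] [Fintype F] {q : ℕ} (hF : Fintype.card F = q) (hq : Odd q) {m : ℕ} (a b : F) (hab : ∀ z₁ z₂ : F, z₁ ^ 2 + a * z₁ * z₂ + b * z₂ ^ 2 = 0 → z₁ = 0 ∧ z₂ = 0) (i : ℕ) (hi : 1 ≤ i) (him : i + 1 ≤ m) : (∃ g : ↥(Cfsg.isometryGroup F (Cfsg.quadFormMinus (m - 1) F a b)), g ∈ Cfsg.Omega F (Cfsg.quadFormMinus (m - 1) F a b) ∧ ((g : Matrix.GeneralLinearGroup ((Fin (m - 1) ⊕ Fin (m - 1)) ⊕ Fin 2) F) : Matrix ((Fin (m - 1) ⊕ Fin (m - 1)) ⊕ Fin 2) ((Fin (m - 1) ⊕ Fin (m - 1)) ⊕ Fin 2) F) = Matrix.diagonal (fun k : (Fin (m - 1) ⊕ Fin (m - 1)) ⊕ Fin 2 => if (Sum.elim (Sum.elim (fun j : Fin (m - 1) => (j : ℕ)) (fun j : Fin (m - 1) => (j : ℕ))) (fun _ : Fin 2 => i) k) < i then (-1 : F) else 1)) ↔ q ^ i % 4 = 1 := by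
  classical
  have h2 : (2 : F) ≠ 0 := by
    intro h
    obtain ⟨k, hk⟩ := hq
    have h3 := Nat.cast_card_eq_zero F
    rw [hF, hk] at h3
    push_cast at h3
    rw [h, zero_mul, zero_add] at h3
    exact one_ne_zero h3
  have hab' : 4 * b - a ^ 2 ≠ 0 := by
    intro h
    have h3 := (hab (-a) 2 (by linear_combination h)).2
    exact h2 h3
  have hcard : 2 ≤ Fintype.card ((Fin (m - 1) ⊕ Fin (m - 1)) ⊕ Fin 2) := by
    rw [Fintype.card_sum, Fintype.card_fin]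
    omega
  obtain ⟨χ₀, c0, hom, hrefl⟩ := gen_iota15 h2 (qm62 F (m - 1) a b) (qm_nondeg62 (m - 1) a b hab') hcard
    (Cfsg.quadFormMinus (m - 1) F a b) (fun v => qm_apply62 (m - 1) a b v)
  have hN := hN_minus15 (m - 1) a b χ₀ c0 hrefl
  have hfin := final15 hF hq (Cfsg.quadFormMinus (m - 1) F a b) χ₀ hom _ (m - 1) hN i (by omega)
  have hD : (fun k : (Fin (m - 1) ⊕ Fin (m - 1)) ⊕ Fin 2 => if (Sum.elim (Sum.elim (fun j : Fin (m - 1) => (j : ℕ)) (fun j : Fin (m - 1) => (j : ℕ))) (fun _ : Fin 2 => i) k) < i then (-1 : F) else 1) =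
      (fun κ : (Fin (m - 1) ⊕ Fin (m - 1)) ⊕ Fin 2 => if (Sum.elim (Sum.elim (fun l : Fin (m - 1) => (l : ℕ)) (fun l : Fin (m - 1) => (l : ℕ))) (fun _ : Fin 2 => m - 1) κ) < i then (-1 : F) else 1) := by
    funext κ
    rcases κ with (l | l) | l
    · rfl
    · rfl
    · have h3 : ¬ (m - 1 < i) := by omega
      simp [h3]
  rw [hD]
  exact hfin

end Cfsg.Agent.S2615
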