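import Cfsg.Statements.S0791
import Mathlib
import Cfsg.Statements.S0791
import Cfsg.Agent.S2615

set_option autoImplicit false
open Cfsg
open scoped commutatorElement

namespace Cfsg.Agent.S0791

open Cfsg.Agent.S0832 Cfsg.Agent.S2612 Cfsg.Agent.S0750 Cfsg.Agent.S0794 Cfsg.Agent.S0792 Cfsg.Agent.S0786 Cfsg.Agent.S2635 Cfsg.Agent.S0789 Cfsg.Agent.S2629 Cfsg.Agent.S2633 Cfsg.Agent.S2631 Cfsg.Agent.S2628 Cfsg.Agent.S2613 Cfsg.Agent.S2626 Cfsg.Agent.S2169 Cfsg.Agent.S2632 Cfsg.Agent.S2609 Cfsg.Agent.S2562 Cfsg.Agent.S2615 Matrix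
open scoped commutatorElement

theorem plane91 {F : Type*} [Field F] [Fintype F] [DecidableEq F] (h2 : (2 : F) ≠ 0) (k : ℕ) (a' b' : F)
    (hab' : 4 * b' - a' ^ 2 ≠ 0)
    (χ₀ : ↥(Cfsg.isometryGroup F (Cfsg.quadFormMinus k F a' b')) →* ℤˣ) (c0 : ℤˣ)
    (hrefl : ∀ v : (Fin k ⊕ Fin k) ⊕ Fin 2 → F, Cfsg.quadFormMinus k F a' b' v ≠ 0 →
      ∃ r : ↥(Cfsg.isometryGroup F (Cfsg.quadFormMinus k F a' b')),
        (∀ x, ((r : Matrix.GeneralLinearGroup ((Fin k ⊕ Fin k) ⊕ Fin 2) F) :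
          Matrix ((Fin k ⊕ Fin k) ⊕ Fin 2) ((Fin k ⊕ Fin k) ⊕ Fin 2) F) *ᵥ x =
          x + (-((Cfsg.quadFormMinus k F a' b' v)⁻¹ * QuadraticMap.polarBilin (qm62 F k a' b') v x)) • v) ∧
        ((r : Matrix.GeneralLinearGroup ((Fin k ⊕ Fin k) ⊕ Fin 2) F) :
          Matrix ((Fin k ⊕ Fin k) ⊕ Fin 2) ((Fin k ⊕ Fin k) ⊕ Fin 2) F).det = -1 ∧
        ((χ₀ r : ℤˣ) : ℤ) = ((c0 : ℤˣ) : ℤ) * quadraticChar F (Cfsg.quadFormMinus k F a' b' v)) :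
    ∃ P : ↥(Cfsg.isometryGroup F (Cfsg.quadFormMinus k F a' b')),
      ((P : Matrix.GeneralLinearGroup ((Fin k ⊕ Fin k) ⊕ Fin 2) F) :
          Matrix ((Fin k ⊕ Fin k) ⊕ Fin 2) ((Fin k ⊕ Fin k) ⊕ Fin 2) F) =
        Matrix.diagonal (fun κ => Sum.elim (fun _ => (1 : F)) (fun _ => (-1 : F)) κ) ∧
      ((P : Matrix.GeneralLinearGroup ((Fin k ⊕ Fin k) ⊕ Fin 2) F) :
          Matrix ((Fin k ⊕ Fin k) ⊕ Fin 2) ((Fin k ⊕ Fin k) ⊕ Fin 2) F).det = 1 ∧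
      ((χ₀ P : ℤˣ) : ℤ) = quadraticChar F (4 * b' - a' ^ 2) := by
  obtain ⟨e, he⟩ : ∃ e : (Fin k ⊕ Fin k) ⊕ Fin 2 → F, e = Pi.single (Sum.inr 0) 1 := ⟨_, rfl⟩
  obtain ⟨w, hw⟩ : ∃ w : (Fin k ⊕ Fin k) ⊕ Fin 2 → F,
      w = (-a') • Pi.single (Sum.inr 0) 1 + (2 : F) • Pi.single (Sum.inr 1) 1 := ⟨_, rfl⟩
  have hqe : Cfsg.quadFormMinus k F a' b' e = 1 := by
    rw [he]
    simp [Cfsg.quadFormMinus, Pi.single_apply]
  have hqw : Cfsg.quadFormMinus k F a' b' w = 4 * b' - a' ^ 2 := by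
    rw [hw]
    simp [Cfsg.quadFormMinus, Pi.single_apply]
    ring
  have hBe : ∀ x : (Fin k ⊕ Fin k) ⊕ Fin 2 → F, QuadraticMap.polarBilin (qm62 F k a' b') e x =
      2 * x (Sum.inr 0) + a' * x (Sum.inr 1) := by
    intro x
    rw [QuadraticMap.polarBilin_apply_apply, qm_polar62, he]
    simp [Pi.single_apply]
  have hBw : ∀ x : (Fin k ⊕ Fin k) ⊕ Fin 2 → F, QuadraticMap.polarBilin (qm62 F k a' b') w x =
      (4 * b' - a' ^ 2) * x (Sum.inr 1) := by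
    intro x
    rw [QuadraticMap.polarBilin_apply_apply, qm_polar62, hw]
    simp [Pi.single_apply]
    ring
  have hBew : QuadraticMap.polarBilin (qm62 F k a' b') e w = 0 := by
    rw [hBe, hw]
    simp [Pi.single_apply]
    ring
  obtain ⟨re, hre, hred, hreχ⟩ := hrefl e (by rw [hqe]; exact one_ne_zero)
  obtain ⟨rw', hrw, hrwd, hrwχ⟩ := hrefl w (by rw [hqw]; exact hab')
  refine ⟨re * rw', ?_, ?_, ?_⟩
  · apply mat_ext12
    intro x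
    show (((re : Matrix.GeneralLinearGroup ((Fin k ⊕ Fin k) ⊕ Fin 2) F) :
          Matrix ((Fin k ⊕ Fin k) ⊕ Fin 2) ((Fin k ⊕ Fin k) ⊕ Fin 2) F) *
      ((rw' : Matrix.GeneralLinearGroup ((Fin k ⊕ Fin k) ⊕ Fin 2) F) :
          Matrix ((Fin k ⊕ Fin k) ⊕ Fin 2) ((Fin k ⊕ Fin k) ⊕ Fin 2) F)) *ᵥ x = _
    rw [← Matrix.mulVec_mulVec, hrw, hre, map_add, map_smul, hBew, hBe, hBw, hqe, hqw]
    have h3 : (4 * b' - a' ^ 2)⁻¹ * ((4 * b' - a' ^ 2) * x (Sum.inr 1)) = x (Sum.inr 1) := by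
      field_simp
    rw [h3]
    funext κ
    rw [Matrix.mulVec_diagonal]
    rcases κ with (l | l) | l
    · simp [he, hw]
    · simp [he, hw]
    · fin_cases l
      · simp [he, hw]
        ring
      · simp [he, hw]
        ring
  · show (((re : Matrix.GeneralLinearGroup ((Fin k ⊕ Fin k) ⊕ Fin 2) F) :
          Matrix ((Fin k ⊕ Fin k) ⊕ Fin 2) ((Fin k ⊕ Fin k) ⊕ Fin 2) F) *
      ((rw' : Matrix.GeneralLinearGroup ((Fin k ⊕ Fin k) ⊕ Fin 2) F) :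
          Matrix ((Fin k ⊕ Fin k) ⊕ Fin 2) ((Fin k ⊕ Fin k) ⊕ Fin 2) F)).det = 1
    rw [Matrix.det_mul, hred, hrwd]
    ring
  · rw [map_mul, Units.val_mul, hreχ, hrwχ, hqe, hqw, map_one]
    have h3 : ((c0 : ℤˣ) : ℤ) * ((c0 : ℤˣ) : ℤ) = 1 := by
      rw [← Units.val_mul, Int.units_mul_self, Units.val_one]
    linear_combination (quadraticChar F (4 * b' - a' ^ 2)) * h3

/-- −1 ∈ Ω⁻_2m(q) iff q^m ≡ −1 (mod 4), for q odd and m ≥ 1; for the minus-type form quadFormMinus (m−1) with anisotropic binary part. -/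
theorem result {F : Type*} [Field F] [Fintype F] {q : ℕ} (hF : Fintype.card F = q) (hodd : Odd q) (m : ℕ) (hm : 1 ≤ m) (a b : F) (hab : ∀ z₁ z₂ : F, z₁ ^ 2 + a * z₁ * z₂ + b * z₂ ^ 2 = 0 → z₁ = 0 ∧ z₂ = 0) : (∃ g : ↥(Cfsg.isometryGroup F (Cfsg.quadFormMinus (m - 1) F a b)), g ∈ Cfsg.Omega F (Cfsg.quadFormMinus (m - 1) F a b) ∧ ((g : Matrix.GeneralLinearGroup ((Fin (m - 1) ⊕ Fin (m - 1)) ⊕ Fin 2) F) : Matrix ((Fin (m - 1) ⊕ Fin (m - 1)) ⊕ Fin 2) ((Fin (m - 1) ⊕ Fin (m - 1)) ⊕ Fin 2) F) = -1) ↔ q ^ m % 4 = 3 := by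
  classical
  have h2 : (2 : F) ≠ 0 := by
    intro h
    obtain ⟨k, hk⟩ := hodd
    have h3 := Nat.cast_card_eq_zero F
    rw [hF, hk] at h3
    push_cast at h3
    rw [h, zero_mul, zero_add] at h3
    exact one_ne_zero h3
  have hab' : 4 * b - a ^ 2 ≠ 0 := by
    intro h
    have h3 := (hab (-a) 2 (by linear_combination h)).2
    exact h2 h3
  have hns : ¬ IsSquare (a ^ 2 - 4 * b) := by
    rintro ⟨d, hd⟩
    have h3 := (hab ((d - a) / 2) 1 (by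
      field_simp
      linear_combination -hd)).2
    exact one_ne_zero h3
  have hcard : 2 ≤ Fintype.card ((Fin (m - 1) ⊕ Fin (m - 1)) ⊕ Fin 2) := by
    rw [Fintype.card_sum, Fintype.card_fin]
    omega
  obtain ⟨χ₀, c0, hom, hrefl⟩ := gen_iota15 h2 (qm62 F (m - 1) a b) (qm_nondeg62 (m - 1) a b hab') hcard
    (Cfsg.quadFormMinus (m - 1) F a b) (fun v => qm_apply62 (m - 1) a b v)
  have hN := hN_minus15 (m - 1) a b χ₀ c0 hrefl
  obtain ⟨g, hg, hgd, hgχ⟩ := chain15 (Cfsg.quadFormMinus (m - 1) F a b) χ₀ _ (m - 1) _ hN (m - 1) le_rfl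
  obtain ⟨P, hP, hPd, hPχ⟩ := plane91 h2 (m - 1) a b hab' χ₀ c0 hrefl
  have hGm : (((g * P : ↥(Cfsg.isometryGroup F (Cfsg.quadFormMinus (m - 1) F a b))) :
      Matrix.GeneralLinearGroup ((Fin (m - 1) ⊕ Fin (m - 1)) ⊕ Fin 2) F) :
      Matrix ((Fin (m - 1) ⊕ Fin (m - 1)) ⊕ Fin 2) ((Fin (m - 1) ⊕ Fin (m - 1)) ⊕ Fin 2) F) = -1 := by
    show ((g : Matrix.GeneralLinearGroup ((Fin (m - 1) ⊕ Fin (m - 1)) ⊕ Fin 2) F) :
      Matrix ((Fin (m - 1) ⊕ Fin (m - 1)) ⊕ Fin 2) ((Fin (m - 1) ⊕ Fin (m - 1)) ⊕ Fin 2) F) *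
      ((P : Matrix.GeneralLinearGroup ((Fin (m - 1) ⊕ Fin (m - 1)) ⊕ Fin 2) F) :
      Matrix ((Fin (m - 1) ⊕ Fin (m - 1)) ⊕ Fin 2) ((Fin (m - 1) ⊕ Fin (m - 1)) ⊕ Fin 2) F) = -1
    rw [hg, hP, Matrix.diagonal_mul_diagonal]
    have e : (fun κ : (Fin (m - 1) ⊕ Fin (m - 1)) ⊕ Fin 2 =>
        (if (Sum.elim (Sum.elim (fun l : Fin (m - 1) => (l : ℕ)) (fun l : Fin (m - 1) => (l : ℕ)))
          (fun _ : Fin 2 => m - 1) κ) < m - 1 then (-1 : F) else 1) *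
        Sum.elim (fun _ => (1 : F)) (fun _ => (-1 : F)) κ) = fun _ => (-1 : F) := by
      funext κ
      rcases κ with (l | l) | l
      · have h3 : (l : ℕ) < m - 1 := l.2
        simp [h3]
      · have h3 : (l : ℕ) < m - 1 := l.2
        simp [h3]
      · simp
    rw [e, ← Matrix.diagonal_one, Matrix.diagonal_neg]
  have hGd : (((g * P : ↥(Cfsg.isometryGroup F (Cfsg.quadFormMinus (m - 1) F a b))) :
      Matrix.GeneralLinearGroup ((Fin (m - 1) ⊕ Fin (m - 1)) ⊕ Fin 2) F) :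
      Matrix ((Fin (m - 1) ⊕ Fin (m - 1)) ⊕ Fin 2) ((Fin (m - 1) ⊕ Fin (m - 1)) ⊕ Fin 2) F).det = 1 := by
    show (((g : Matrix.GeneralLinearGroup ((Fin (m - 1) ⊕ Fin (m - 1)) ⊕ Fin 2) F) :
      Matrix ((Fin (m - 1) ⊕ Fin (m - 1)) ⊕ Fin 2) ((Fin (m - 1) ⊕ Fin (m - 1)) ⊕ Fin 2) F) *
      ((P : Matrix.GeneralLinearGroup ((Fin (m - 1) ⊕ Fin (m - 1)) ⊕ Fin 2) F) :
      Matrix ((Fin (m - 1) ⊕ Fin (m - 1)) ⊕ Fin 2) ((Fin (m - 1) ⊕ Fin (m - 1)) ⊕ Fin 2) F)).det = 1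
    rw [Matrix.det_mul, hgd, hPd, one_mul]
  have hm1 : (-1 : F) ≠ 0 := neg_ne_zero.mpr one_ne_zero
  have hqc : quadraticChar F (4 * b - a ^ 2) = -(quadraticChar F (-1 : F)) := by
    have e : 4 * b - a ^ 2 = (-1) * (a ^ 2 - 4 * b) := by ring
    rw [e, map_mul, quadraticChar_neg_one_iff_not_isSquare.mpr hns]
    ring
  have hGχ : ((χ₀ (g * P) : ℤˣ) : ℤ) = -((quadraticChar F (-1 : F)) ^ m) := by
    rw [map_mul, Units.val_mul, hgχ, hPχ, hqc]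
    have e : m = (m - 1) + 1 := by omega
    nth_rewrite 2 [e]
    rw [pow_succ]
    ring
  have har := arith15 hF hodd (F := F) m
  have hdich : (quadraticChar F (-1 : F)) ^ m = 1 ∨ (quadraticChar F (-1 : F)) ^ m = -1 := by
    rcases quadraticChar_dichotomy hm1 with h | h
    · left
      rw [h, one_pow]
    · rw [h]
      exact neg_one_pow_eq_or ℤ m
  have hqm : q ^ m % 4 = 1 ∨ q ^ m % 4 = 3 := by
    have h3 : q ^ m % 2 = 1 := Nat.odd_iff.mp (Odd.pow hodd)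
    omega
  have hkey : (χ₀ (g * P) = 1) ↔ q ^ m % 4 = 3 := by
    constructor
    · intro h
      rw [h, Units.val_one] at hGχ
      rcases hqm with h3 | h3
      · have h4 := har.mpr h3
        rw [h4] at hGχ
        exact absurd hGχ (by decide)
      · exact h3
    · intro h
      apply Units.ext
      rw [hGχ, Units.val_one]
      rcases hdich with h3 | h3
      · have h4 := har.mp h3
        omega
      · rw [h3]
        ring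
  rw [← hkey]
  constructor
  · rintro ⟨g', hg', hgm⟩
    have h3 : g' = g * P := Subtype.ext (Units.ext (hgm.trans hGm.symm))
    rw [h3, hom] at hg'
    exact hg'.2
  · intro h
    refine ⟨g * P, ?_, hGm⟩
    rw [hom]
    exact ⟨hGd, h⟩

end Cfsg.Agent.S0791
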