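import Cfsg.Statements.S0797
import Mathlib
import Cfsg.Statements.S0797
import Cfsg.Agent.S2609

set_option autoImplicit false
open Cfsg
open scoped commutatorElement

namespace Cfsg.Agent.S0797

open Cfsg.Agent.S0832 Cfsg.Agent.S2612 Cfsg.Agent.S0750 Cfsg.Agent.S0794 Cfsg.Agent.S0792 Cfsg.Agent.S0786 Cfsg.Agent.S2635 Cfsg.Agent.S0789 Cfsg.Agent.S2629 Cfsg.Agent.S2633 Cfsg.Agent.S2631 Cfsg.Agent.S2628 Cfsg.Agent.S2613 Cfsg.Agent.S2626 Cfsg.Agent.S2169 Cfsg.Agent.S2632 Cfsg.Agent.S2609 Matrix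
open scoped commutatorElement

theorem charOf97 {G : Type*} [Group G] (K : Subgroup G) (hK : K.index = 2) :
    ∃ f : G →* ℤˣ, ∀ g, f g = 1 ↔ g ∈ K := by
  classical
  have hne : (-1 : ℤˣ) ≠ 1 := by decide
  refine ⟨{ toFun := fun g => if g ∈ K then 1 else -1, map_one' := by simp [K.one_mem], map_mul' := ?_ }, ?_⟩
  · intro x y
    have h := Subgroup.mul_mem_iff_of_index_two hK (a := x) (b := y)
    by_cases hx : x ∈ K <;> by_cases hy : y ∈ K <;> simp [hx, hy, h]
  · intro g
    show (if g ∈ K then (1 : ℤˣ) else -1) = 1 ↔ g ∈ K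
    by_cases hg : g ∈ K <;> simp [hg, hne]

theorem index_ker97 {G : Type*} [Group G] (f : G →* ℤˣ) (x : G) (hx : f x = -1) : f.ker.index = 2 := by
  rw [Subgroup.index_eq_two_iff]
  refine ⟨x, fun b => ?_⟩
  rw [MonoidHom.mem_ker, MonoidHom.mem_ker, map_mul, hx]
  rcases Int.units_eq_one_or (f b) with h | h
  · rw [h]
    right
    exact ⟨rfl, by decide⟩
  · rw [h]
    left
    exact ⟨by decide, by decide⟩

/-- O^ε_2m(q) ≅ Ω.2² for q odd: if F is finite of odd characteristic, n ≥ 2 is even and Q has non-degenerate polar form on F^n, the isometry group of Q has exactly three subgroups of index 2. -/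
theorem result {F : Type*} [Field F] [Fintype F] (h2 : (2 : F) ≠ 0) {n : ℕ} (hn : 2 ≤ n) (heven : Even n) (Q : QuadraticForm F (Fin n → F)) (hQ : (QuadraticMap.polarBilin Q).Nondegenerate) : Nat.card {H : Subgroup ↥(Cfsg.isometryGroup F ⇑Q) // H.index = 2} = 3 := by
  classical
  have h : Fintype.card F ≠ 2 ∨ n ≠ 4 := Or.inl (card_ne_two13 h2)
  obtain ⟨χ, hχ⟩ := exists_chi09 h2 hn Q hQ
  have hom := omega_iff09 h2 hn Q hQ χ hχ
  have hT := index_T89 (by omega : 1 ≤ n) h Q hQ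
  have hSO : Cfsg.specialIsometryGroup F ⇑Q = Subgroup.closure (Tset92 Q) := Cfsg.Agent.S0792.result h2 Q hQ
  have hSOi : (Cfsg.specialIsometryGroup F ⇑Q).index = 2 := by
    rw [hSO]
    exact hT
  obtain ⟨γu, hgen⟩ := IsCyclic.exists_generator (α := Fˣ)
  have hγns := gen_nsq13 h2 γu hgen
  obtain ⟨u1, hQ1⟩ := univ_top09 h2 hn Q hQ 1
  obtain ⟨uγ, hQγ⟩ := univ_top09 h2 hn Q hQ (γu : F)
  have hu1 : Q u1 ≠ 0 := by rw [hQ1]; exact one_ne_zero
  have huγ : Q uγ ≠ 0 := by rw [hQγ]; exact γu.ne_zero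
  obtain ⟨a, ha⟩ : ∃ a : ↥(Cfsg.isometryGroup F ⇑Q), a = reflEl92 Q u1 hu1 := ⟨_, rfl⟩
  obtain ⟨t, ht⟩ : ∃ t : ↥(Cfsg.isometryGroup F ⇑Q), t = reflEl92 Q u1 hu1 * reflEl92 Q uγ huγ := ⟨_, rfl⟩
  have hadet : ((a : Matrix.GeneralLinearGroup (Fin n) F) : Matrix (Fin n) (Fin n) F).det = -1 := by
    rw [ha]
    exact refl_det92 Q u1 hu1
  have haSO : a ∉ Cfsg.specialIsometryGroup F ⇑Q := by
    rw [sdet92, hadet]
    intro h3
    apply h2
    linear_combination -h3
  have htdet : ((t : Matrix.GeneralLinearGroup (Fin n) F) : Matrix (Fin n) (Fin n) F).det = 1 := by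
    rw [ht]
    show (reflectionMatrix (⇑Q) u1 * reflectionMatrix (⇑Q) uγ).det = 1
    rw [Matrix.det_mul, refl_det92 Q u1 hu1, refl_det92 Q uγ huγ]
    ring
  have htSO : t ∈ Cfsg.specialIsometryGroup F ⇑Q := (sdet92 Q _).mpr htdet
  have hχt : χ t = -1 := by
    rcases Int.units_eq_one_or (χ t) with h1 | h1
    · exfalso
      rw [ht] at h1
      have h3 := (hχ _ _ hu1 huγ).mp h1
      rw [hQ1, hQγ, one_mul] at h3
      exact hγns h3
    · exact h1
  obtain ⟨ψ, hψ⟩ := charOf97 (Cfsg.specialIsometryGroup F ⇑Q) hSOi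
  have hψa : ψ a = -1 := by
    rcases Int.units_eq_one_or (ψ a) with h3 | h3
    · exact absurd ((hψ a).mp h3) haSO
    · exact h3
  have hψt : ψ t = 1 := (hψ _).mpr htSO
  have step2 : ∀ s ∈ Cfsg.specialIsometryGroup F ⇑Q, s ∈ commutator ↥(Cfsg.isometryGroup F ⇑Q) ∨
      s * t ∈ commutator ↥(Cfsg.isometryGroup F ⇑Q) := by
    intro s hs
    have hsd := (sdet92 Q s).mp hs
    rcases Int.units_eq_one_or (χ s) with h3 | h3
    · left
      exact (hom s).mpr ⟨hsd, h3⟩
    · right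
      rw [hom]
      refine ⟨?_, ?_⟩
      · show (((s : Matrix.GeneralLinearGroup (Fin n) F) : Matrix (Fin n) (Fin n) F) *
          ((t : Matrix.GeneralLinearGroup (Fin n) F) : Matrix (Fin n) (Fin n) F)).det = 1
        rw [Matrix.det_mul, hsd, htdet, one_mul]
      · rw [map_mul, h3, hχt]
        decide
  have hdec : ∀ g : ↥(Cfsg.isometryGroup F ⇑Q), g ∈ commutator ↥(Cfsg.isometryGroup F ⇑Q) ∨
      g * t ∈ commutator ↥(Cfsg.isometryGroup F ⇑Q) ∨ g * a ∈ commutator ↥(Cfsg.isometryGroup F ⇑Q) ∨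
      g * a * t ∈ commutator ↥(Cfsg.isometryGroup F ⇑Q) := by
    intro g
    by_cases hg : g ∈ Cfsg.specialIsometryGroup F ⇑Q
    · rcases step2 g hg with h3 | h3
      · exact Or.inl h3
      · exact Or.inr (Or.inl h3)
    · have hga : g * a ∈ Cfsg.specialIsometryGroup F ⇑Q := by
        rw [Subgroup.mul_mem_iff_of_index_two hSOi]
        exact ⟨fun h3 => absurd h3 hg, fun h3 => absurd h3 haSO⟩
      rcases step2 (g * a) hga with h3 | h3
      · exact Or.inr (Or.inr (Or.inl h3))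
      · exact Or.inr (Or.inr (Or.inr h3))
  have hcomm : ∀ (f : ↥(Cfsg.isometryGroup F ⇑Q) →* ℤˣ) (c : ↥(Cfsg.isometryGroup F ⇑Q)),
      c ∈ commutator ↥(Cfsg.isometryGroup F ⇑Q) → f c = 1 := fun f c hc =>
    MonoidHom.mem_ker.mp (Abelianization.commutator_subset_ker f hc)
  have hdet2 : ∀ f f' : ↥(Cfsg.isometryGroup F ⇑Q) →* ℤˣ, f a = f' a → f t = f' t → f = f' := by
    intro f f' h1 h3
    apply MonoidHom.ext
    intro g
    rcases hdec g with h4 | h4 | h4 | h4
    · rw [hcomm f g h4, hcomm f' g h4]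
    · have e1 := hcomm f _ h4
      have e2 := hcomm f' _ h4
      rw [map_mul] at e1 e2
      rw [h3] at e1
      exact mul_right_cancel (e1.trans e2.symm)
    · have e1 := hcomm f _ h4
      have e2 := hcomm f' _ h4
      rw [map_mul] at e1 e2
      rw [h1] at e1
      exact mul_right_cancel (e1.trans e2.symm)
    · have e1 := hcomm f _ h4
      have e2 := hcomm f' _ h4
      rw [map_mul, map_mul] at e1 e2
      rw [h1, h3] at e1
      exact mul_right_cancel (mul_right_cancel (e1.trans e2.symm))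
  have hK₁ : ψ.ker.index = 2 := index_ker97 ψ a hψa
  have hK₂ : χ.ker.index = 2 := index_ker97 χ t hχt
  have hψχt : (ψ * χ) t = -1 := by
    rw [MonoidHom.mul_apply, hψt, hχt, one_mul]
  have hK₃ : (ψ * χ).ker.index = 2 := index_ker97 (ψ * χ) t hψχt
  have hne1 : (-1 : ℤˣ) ≠ 1 := by decide
  have h12 : ψ.ker ≠ χ.ker := by
    intro h3
    have h4 : t ∈ ψ.ker := MonoidHom.mem_ker.mpr hψt
    rw [h3, MonoidHom.mem_ker, hχt] at h4
    exact hne1 h4
  have h13 : ψ.ker ≠ (ψ * χ).ker := by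
    intro h3
    have h4 : t ∈ ψ.ker := MonoidHom.mem_ker.mpr hψt
    rw [h3, MonoidHom.mem_ker, hψχt] at h4
    exact hne1 h4
  have h23 : χ.ker ≠ (ψ * χ).ker := by
    intro h3
    rcases Int.units_eq_one_or (χ a) with h4 | h4
    · have h5 : a ∈ χ.ker := MonoidHom.mem_ker.mpr h4
      rw [h3, MonoidHom.mem_ker, MonoidHom.mul_apply, hψa, h4, mul_one] at h5
      exact hne1 h5
    · have h5 : a ∈ (ψ * χ).ker := by
        rw [MonoidHom.mem_ker, MonoidHom.mul_apply, hψa, h4]
        decide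
      rw [← h3, MonoidHom.mem_ker, h4] at h5
      exact hne1 h5
  have hcls : {H : Subgroup ↥(Cfsg.isometryGroup F ⇑Q) | H.index = 2} = {ψ.ker, χ.ker, (ψ * χ).ker} := by
    ext H
    simp only [Set.mem_setOf_eq, Set.mem_insert_iff, Set.mem_singleton_iff]
    constructor
    · intro hH
      obtain ⟨f, hf⟩ := charOf97 H hH
      have hker : f.ker = H := by
        ext g
        rw [MonoidHom.mem_ker]
        exact hf g
      have hne : ¬ (f a = 1 ∧ f t = 1) := by
        rintro ⟨h4, h5⟩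
        have h6 : f = 1 := hdet2 f 1 (by rw [h4]; rfl) (by rw [h5]; rfl)
        have hH' : H = ⊤ := by
          rw [← hker, h6]
          ext g
          simp
        rw [hH', Subgroup.index_top] at hH
        omega
      rcases Int.units_eq_one_or (f a) with h4 | h4 <;> rcases Int.units_eq_one_or (f t) with h5 | h5
      · exact absurd ⟨h4, h5⟩ hne
      · rcases Int.units_eq_one_or (χ a) with h6 | h6
        · right
          left
          rw [← hker, hdet2 f χ (by rw [h4, h6]) (by rw [h5, hχt])]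
        · right
          right
          rw [← hker, hdet2 f (ψ * χ) (by rw [h4, MonoidHom.mul_apply, hψa, h6]; decide) (by rw [h5, hψχt])]
      · left
        rw [← hker, hdet2 f ψ (by rw [h4, hψa]) (by rw [h5, hψt])]
      · rcases Int.units_eq_one_or (χ a) with h6 | h6
        · right
          right
          rw [← hker, hdet2 f (ψ * χ) (by rw [h4, MonoidHom.mul_apply, hψa, h6, mul_one]) (by rw [h5, hψχt])]
        · right
          left
          rw [← hker, hdet2 f χ (by rw [h4, h6]) (by rw [h5, hχt])]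
    · rintro (rfl | rfl | rfl)
      · exact hK₁
      · exact hK₂
      · exact hK₃
  show Nat.card ↥{H : Subgroup ↥(Cfsg.isometryGroup F ⇑Q) | H.index = 2} = 3
  rw [Nat.card_coe_set_eq, hcls]
  exact Set.ncard_eq_three.mpr ⟨_, _, _, h12, h13, h23, rfl⟩

end Cfsg.Agent.S0797
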