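import Cfsg.Statements.S2679
import Mathlib
import Cfsg.Statements.S2679
import Cfsg.Agent.S2615

set_option autoImplicit false
open Cfsg
open scoped commutatorElement

namespace Cfsg.Agent.S2679

open Cfsg.Agent.S2629 Cfsg.Agent.S2562 Matrix
open Polynomial in

theorem field79 {F K : Type*} [Field F] [Fintype F] [Field K] [Fintype K] {q : ℕ} (hF : Fintype.card F = q)
    (hK : Fintype.card K = q ^ 2) (a c : F)
    (hac : ∀ z₁ z₂ : F, z₁ ^ 2 + a * z₁ * z₂ + c * z₂ ^ 2 = 0 → z₁ = 0 ∧ z₂ = 0) :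
    ∃ (ι : F →+* K) (l : K), l ^ 2 + ι a * l + ι c = 0 := by
  classical
  set f : F[X] := X ^ 2 + C a * X + C c with hf
  have hdeg : f.natDegree = 2 := by
    rw [hf]; compute_degree!
  have hmonic : f.Monic := by
    rw [hf]; monicity!
  have hirr : Irreducible f := by
    apply Polynomial.irreducible_of_degree_le_three_of_not_isRoot
    · rw [hdeg]; simp
    · intro z hz
      rw [Polynomial.IsRoot.def, hf] at hz
      simp only [eval_add, eval_pow, eval_X, eval_mul, eval_C] at hz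
      have := hac z 1 (by rw [← hz]; ring)
      exact one_ne_zero this.2
  have : Fact (Irreducible f) := ⟨hirr⟩
  have hne : f ≠ 0 := hmonic.ne_zero
  let pb := AdjoinRoot.powerBasis hne
  have : Module.Finite F (AdjoinRoot f) := pb.finite
  have : Finite (AdjoinRoot f) := Module.finite_of_finite F
  have : Fintype (AdjoinRoot f) := Fintype.ofFinite _
  have hcard : Fintype.card K = Fintype.card (AdjoinRoot f) := by
    rw [hK, Fintype.card_eq_nat_card (α := AdjoinRoot f), Module.natCard_eq_pow_finrank (K := F), pb.finrank,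
      AdjoinRoot.powerBasis_dim, hdeg, ← Fintype.card_eq_nat_card, hF]
  let σ : AdjoinRoot f ≃+* K := (FiniteField.ringEquivOfCardEq hcard).symm
  refine ⟨(σ : AdjoinRoot f →+* K).comp (AdjoinRoot.of f), σ (AdjoinRoot.root f), ?_⟩
  have h0 : (AdjoinRoot.root f) ^ 2 + AdjoinRoot.of f a * AdjoinRoot.root f + AdjoinRoot.of f c = 0 := by
    have := AdjoinRoot.eval₂_root f
    rw [hf] at this
    simpa [eval₂_add, eval₂_mul, eval₂_pow] using this
  have := congrArg σ h0
  simpa [map_add, map_mul, map_pow] using this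

theorem disc79 {F K : Type*} [Field F] [Fintype F] [Field K] (ι : F →+* K) (l : K) (a c : F)
    (hac : ∀ z₁ z₂ : F, z₁ ^ 2 + a * z₁ * z₂ + c * z₂ ^ 2 = 0 → z₁ = 0 ∧ z₂ = 0)
    (hl : l ^ 2 + ι a * l + ι c = 0) : (-ι a - l) - l ≠ 0 := by
  intro h
  by_cases h2 : (2 : F) = 0
  · have h2K : (2 : K) = 0 := by
      have := congrArg ι h2
      rwa [map_ofNat, map_zero] at this
    have ha : ι a = 0 := by linear_combination -h - l * h2K
    have ha' : a = 0 := ι.injective (by simpa using ha)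
    have hch : ringChar F = 2 := CharP.ringChar_of_prime_eq_zero Nat.prime_two (by exact_mod_cast h2)
    obtain ⟨d, hd⟩ : IsSquare c := FiniteField.isSquare_of_char_two hch c
    have := hac d 1 (by rw [ha', hd]; linear_combination d * d * h2)
    exact one_ne_zero this.2
  · have h2K : (2 : K) ≠ 0 := by
      intro h'; apply h2; apply ι.injective
      rw [map_ofNat, map_zero]; exact h'
    have hl2 : l = - ι a / 2 := by
      field_simp; linear_combination -h
    rw [hl2] at hl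
    have key : (-a / 2) ^ 2 + a * (-a / 2) * 1 + c * 1 ^ 2 = 0 := by
      apply ι.injective
      simp only [map_add, map_mul, map_pow, map_div₀, map_neg, map_one, map_zero, map_ofNat]
      linear_combination hl
    have := hac (-a / 2) 1 key
    exact one_ne_zero this.2

def Sfun79 {K : Type*} [Field K] (k : ℕ) (l l' : K) (v : (Fin k ⊕ Fin k) ⊕ Fin 2 → K) :
    Fin (k + 1) ⊕ Fin (k + 1) → K :=
  Sum.elim (Fin.lastCases (v (Sum.inr 0) - l * v (Sum.inr 1)) (fun j => v (Sum.inl (Sum.inl j))))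
    (Fin.lastCases (v (Sum.inr 0) - l' * v (Sum.inr 1)) (fun j => v (Sum.inl (Sum.inr j))))

def Tfun79 {K : Type*} [Field K] (k : ℕ) (l l' : K) (w : Fin (k + 1) ⊕ Fin (k + 1) → K) :
    (Fin k ⊕ Fin k) ⊕ Fin 2 → K :=
  Sum.elim (Sum.elim (fun j => w (Sum.inl j.castSucc)) (fun j => w (Sum.inr j.castSucc)))
    ![(l' * w (Sum.inl (Fin.last k)) - l * w (Sum.inr (Fin.last k))) / (l' - l),
      (w (Sum.inl (Fin.last k)) - w (Sum.inr (Fin.last k))) / (l' - l)]

def Slin79 {K : Type*} [Field K] (k : ℕ) (l l' : K) :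
    ((Fin k ⊕ Fin k) ⊕ Fin 2 → K) →ₗ[K] (Fin (k + 1) ⊕ Fin (k + 1) → K) where
  toFun := Sfun79 k l l'
  map_add' u v := by
    funext i
    rcases i with i | i <;> refine Fin.lastCases ?_ (fun j => ?_) i <;> simp [Sfun79] <;> ring
  map_smul' c v := by
    funext i
    rcases i with i | i <;> refine Fin.lastCases ?_ (fun j => ?_) i <;> simp [Sfun79] <;> ring

def Tlin79 {K : Type*} [Field K] (k : ℕ) (l l' : K) :
    (Fin (k + 1) ⊕ Fin (k + 1) → K) →ₗ[K] ((Fin k ⊕ Fin k) ⊕ Fin 2 → K) where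
  toFun := Tfun79 k l l'
  map_add' u v := by
    funext i
    rcases i with (i | i) | i
    · simp [Tfun79]
    · simp [Tfun79]
    · fin_cases i <;> simp [Tfun79] <;> ring
  map_smul' c v := by
    funext i
    rcases i with (i | i) | i
    · simp [Tfun79]
    · simp [Tfun79]
    · fin_cases i <;> simp [Tfun79] <;> ring

theorem ST79 {K : Type*} [Field K] (k : ℕ) (l l' : K) (hδ : l' - l ≠ 0) (w : Fin (k + 1) ⊕ Fin (k + 1) → K) :
    Sfun79 k l l' (Tfun79 k l l' w) = w := by
  funext i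
  rcases i with i | i
  · refine Fin.lastCases ?_ (fun j => ?_) i
    · simp only [Sfun79, Tfun79, Sum.elim_inl, Sum.elim_inr, Fin.lastCases_last, Matrix.cons_val_zero, Matrix.cons_val_one]
      field_simp
      ring
    · simp [Sfun79, Tfun79]
  · refine Fin.lastCases ?_ (fun j => ?_) i
    · simp only [Sfun79, Tfun79, Sum.elim_inl, Sum.elim_inr, Fin.lastCases_last, Matrix.cons_val_zero, Matrix.cons_val_one]
      field_simp
      ring
    · simp [Sfun79, Tfun79]

theorem SQ79 {K : Type*} [Field K] (k : ℕ) (l l' a' c' : K) (hl' : l' = -a' - l) (hl : l ^ 2 + a' * l + c' = 0)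
    (v : (Fin k ⊕ Fin k) ⊕ Fin 2 → K) :
    Cfsg.quadFormPlus (k + 1) K (Sfun79 k l l' v) = Cfsg.quadFormMinus k K a' c' v := by
  unfold Cfsg.quadFormPlus Cfsg.quadFormMinus
  rw [Fin.sum_univ_castSucc]
  simp only [Sfun79, Sum.elim_inl, Sum.elim_inr, Fin.lastCases_castSucc, Fin.lastCases_last]
  subst hl'
  linear_combination (-(v (Sum.inr 1)) ^ 2) * hl

theorem quad_zero79 {K : Type*} [Field K] {n : Type*} [Fintype n] [DecidableEq n] (D : QuadraticForm K (n → K))
    (h1 : ∀ i, D (Pi.single i 1) = 0) (h2 : ∀ i j, D (Pi.single i 1 + Pi.single j 1) = 0) : ∀ v, D v = 0 := by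
  have hsingle : ∀ (i : n) (x : K), (Pi.single i x : n → K) = x • Pi.single i 1 := by
    intro i x
    rw [← Pi.single_smul, smul_eq_mul, mul_one]
  have hB : QuadraticMap.polarBilin D = 0 := by
    apply LinearMap.pi_ext
    intro i x
    apply LinearMap.pi_ext
    intro j y
    rw [hsingle i x, hsingle j y]
    simp only [map_smul, LinearMap.smul_apply, LinearMap.zero_apply, QuadraticMap.polarBilin_apply_apply]
    rw [QuadraticMap.polar, h2, h1, h1]
    simp
  have hadd : ∀ u v, D (u + v) = D u + D v := by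
    intro u v
    have := congrArg (fun B => B u v) hB
    simp only [QuadraticMap.polarBilin_apply_apply, LinearMap.zero_apply, QuadraticMap.polar] at this
    linear_combination this
  intro v
  let A : (n → K) →+ K := AddMonoidHom.mk' (fun u => D u) hadd
  have e : D v = A (∑ i, Pi.single i (v i)) := by
    rw [Finset.univ_sum_single]; rfl
  rw [e, map_sum]
  apply Finset.sum_eq_zero
  intro i _
  show D (Pi.single i (v i)) = 0
  rw [hsingle, QuadraticMap.map_smul, h1, smul_zero]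

theorem base79 {F K : Type*} [Field F] [Field K] (ι : F →+* K) (k : ℕ) (a c : F)
    (g : Matrix ((Fin k ⊕ Fin k) ⊕ Fin 2) ((Fin k ⊕ Fin k) ⊕ Fin 2) F)
    (hg : ∀ u, Cfsg.quadFormMinus k F a c (g *ᵥ u) = Cfsg.quadFormMinus k F a c u)
    (v : (Fin k ⊕ Fin k) ⊕ Fin 2 → K) :
    Cfsg.quadFormMinus k K (ι a) (ι c) (g.map ι *ᵥ v) = Cfsg.quadFormMinus k K (ι a) (ι c) v := by
  have hpt : ∀ u : (Fin k ⊕ Fin k) ⊕ Fin 2 → F,
      Cfsg.quadFormMinus k K (ι a) (ι c) (g.map ι *ᵥ (fun j => ι (u j))) =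
        Cfsg.quadFormMinus k K (ι a) (ι c) (fun j => ι (u j)) := by
    intro u
    have e1 : (g.map ι *ᵥ (fun j => ι (u j))) = fun j => ι ((g *ᵥ u) j) := by
      funext j; exact (RingHom.map_mulVec ι g u j).symm
    have e2 : ∀ w : (Fin k ⊕ Fin k) ⊕ Fin 2 → F,
        Cfsg.quadFormMinus k K (ι a) (ι c) (fun j => ι (w j)) = ι (Cfsg.quadFormMinus k F a c w) := by
      intro w
      simp [Cfsg.quadFormMinus, map_sum, map_add, map_mul, map_pow]
    rw [e1, e2, e2, hg]
  let D : QuadraticForm K ((Fin k ⊕ Fin k) ⊕ Fin 2 → K) :=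
    (qm62 K k (ι a) (ι c)).comp (Matrix.toLin' (g.map ι)) - qm62 K k (ι a) (ι c)
  have hD : ∀ u, D u = Cfsg.quadFormMinus k K (ι a) (ι c) (g.map ι *ᵥ u) - Cfsg.quadFormMinus k K (ι a) (ι c) u := by
    intro u
    show (qm62 K k (ι a) (ι c)) (Matrix.toLin' (g.map ι) u) - qm62 K k (ι a) (ι c) u = _
    rw [qm_apply62, qm_apply62, Matrix.toLin'_apply]
  have hs : ∀ i : (Fin k ⊕ Fin k) ⊕ Fin 2, (Pi.single i 1 : (Fin k ⊕ Fin k) ⊕ Fin 2 → K) =
      fun j => ι ((Pi.single i 1 : (Fin k ⊕ Fin k) ⊕ Fin 2 → F) j) := by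
    intro i
    funext j
    by_cases hij : j = i
    · subst hij; simp
    · simp [Pi.single_apply, hij]
  have key := quad_zero79 D (fun i => by rw [hD, hs, hpt, sub_self])
    (fun i j => by
      rw [hD, hs i, hs j]
      have : ((fun x => ι ((Pi.single i 1 : (Fin k ⊕ Fin k) ⊕ Fin 2 → F) x)) + fun x => ι ((Pi.single j 1 : (Fin k ⊕ Fin k) ⊕ Fin 2 → F) x)) =
          fun x => ι ((Pi.single i 1 + Pi.single j 1 : (Fin k ⊕ Fin k) ⊕ Fin 2 → F) x) := by
        funext x; simp
      rw [this, hpt, sub_self]) v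
  rw [hD] at key
  exact sub_eq_zero.mp key

def conj79 {K : Type*} [Field K] {n p : Type} [Fintype n] [DecidableEq n] [Fintype p] [DecidableEq p]
    (P : Matrix p n K) (P' : Matrix n p K) (h1 : P * P' = 1) (h2 : P' * P = 1) :
    Matrix.GeneralLinearGroup n K →* Matrix.GeneralLinearGroup p K where
  toFun X := ⟨P * X.1 * P', P * X⁻¹.1 * P',
    by
      rw [show P * X.1 * P' * (P * X⁻¹.1 * P') = P * (X.1 * (P' * P) * X⁻¹.1) * P' by simp only [Matrix.mul_assoc],
        h2, Matrix.mul_one, Units.mul_inv, Matrix.mul_one, h1],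
    by
      rw [show P * X⁻¹.1 * P' * (P * X.1 * P') = P * (X⁻¹.1 * (P' * P) * X.1) * P' by simp only [Matrix.mul_assoc],
        h2, Matrix.mul_one, Units.inv_mul, Matrix.mul_one, h1]⟩
  map_one' := by
    apply Units.ext
    show P * (1 : Matrix n n K) * P' = 1
    rw [Matrix.mul_one, h1]
  map_mul' X Y := by
    apply Units.ext
    show P * (X.1 * Y.1) * P' = P * X.1 * P' * (P * Y.1 * P')
    rw [show P * X.1 * P' * (P * Y.1 * P') = P * (X.1 * (P' * P) * Y.1) * P' by simp only [Matrix.mul_assoc],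
      h2, Matrix.mul_one]

theorem emb79 {F K : Type*} [Field F] [Field K] (ι : F →+* K) (l : K) (k : ℕ) (a c : F)
    (hl : l ^ 2 + ι a * l + ι c = 0) (hδ : (-ι a - l) - l ≠ 0) :
    ∃ φ : ↥(Cfsg.isometryGroup F (Cfsg.quadFormMinus k F a c)) →*
      ↥(Cfsg.isometryGroup K (Cfsg.quadFormPlus (k + 1) K)), Function.Injective φ := by
  classical
  set l' : K := -ι a - l with hl'
  let P := LinearMap.toMatrix' (Slin79 k l l')
  let P' := LinearMap.toMatrix' (Tlin79 k l l')
  have hP : ∀ x, P *ᵥ x = Sfun79 k l l' x := fun x => LinearMap.toMatrix'_mulVec _ x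
  have h1 : P * P' = 1 := by
    rw [← LinearMap.toMatrix'_comp, ← LinearMap.toMatrix'_id]
    congr 1
    apply LinearMap.ext
    intro w
    exact ST79 k l l' hδ w
  have h2 : P' * P = 1 := by
    have e : Fin (k + 1) ⊕ Fin (k + 1) ≃ (Fin k ⊕ Fin k) ⊕ Fin 2 :=
      Fintype.equivOfCardEq (by simp [Fintype.card_sum]; omega)
    exact (Matrix.mul_eq_one_comm_of_equiv e).mp h1
  let ψ : Matrix.GeneralLinearGroup ((Fin k ⊕ Fin k) ⊕ Fin 2) F →* Matrix.GeneralLinearGroup (Fin (k + 1) ⊕ Fin (k + 1)) K :=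
    (conj79 P P' h1 h2).comp (Matrix.GeneralLinearGroup.map ι)
  have hψ : ∀ g : Matrix.GeneralLinearGroup ((Fin k ⊕ Fin k) ⊕ Fin 2) F,
      ((ψ g : Matrix.GeneralLinearGroup (Fin (k + 1) ⊕ Fin (k + 1)) K) : Matrix _ _ K) = P * (g.1.map ι) * P' := fun g => rfl
  have hmem : ∀ g : ↥(Cfsg.isometryGroup F (Cfsg.quadFormMinus k F a c)),
      ψ g.1 ∈ Cfsg.isometryGroup K (Cfsg.quadFormPlus (k + 1) K) := by
    intro g
    have hg := (mem_iso29 _ _).mp g.2
    rw [mem_iso29]
    intro w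
    rw [hψ, ← Matrix.mulVec_mulVec, ← Matrix.mulVec_mulVec, hP, SQ79 k l l' (ι a) (ι c) hl' hl,
      base79 ι k a c _ hg, ← SQ79 k l l' (ι a) (ι c) hl' hl, ← hP, Matrix.mulVec_mulVec, h1, Matrix.one_mulVec]
  refine ⟨(ψ.comp (Cfsg.isometryGroup F (Cfsg.quadFormMinus k F a c)).subtype).codRestrict _ hmem, ?_⟩
  intro x y hxy
  have e1 : ψ x.1 = ψ y.1 := congrArg Subtype.val hxy
  have e2 : P * (x.1.1.map ι) * P' = P * (y.1.1.map ι) * P' := by
    rw [← hψ, ← hψ, e1]
  have e3 : x.1.1.map ι = y.1.1.map ι := by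
    have : P' * (P * (x.1.1.map ι) * P') * P = P' * (P * (y.1.1.map ι) * P') * P := by rw [e2]
    rw [show P' * (P * (x.1.1.map ι) * P') * P = (P' * P) * (x.1.1.map ι) * (P' * P) by simp only [Matrix.mul_assoc],
      show P' * (P * (y.1.1.map ι) * P') * P = (P' * P) * (y.1.1.map ι) * (P' * P) by simp only [Matrix.mul_assoc],
      h2, Matrix.one_mul, Matrix.mul_one, Matrix.one_mul, Matrix.mul_one] at this
    exact this
  apply Subtype.ext
  apply Units.ext
  ext i j
  have := congrFun (congrFun e3 i) j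
  simp only [Matrix.map_apply] at this
  exact ι.injective this

/-- An elliptic orthogonal group embeds in the hyperbolic orthogonal group of the same dimension over the quadratic extension: for a field F with q elements and a field K with q² elements there is an injective homomorphism from O⁻_2m(F) (isometries of Σ_(j<m−1) x_j y_j + z₁² + a z₁z₂ + c z₂², binary part anisotropic) to O⁺_2m(K) (isometries of Σ_(j<m) x_j y_j over K). -/
theorem result {F K : Type*} [Field F] [Fintype F] [Field K] [Fintype K] {q : ℕ} (hF : Fintype.card F = q) (hK : Fintype.card K = q ^ 2) {m : ℕ} (hm : 1 ≤ m) (a c : F) (hac : ∀ z₁ z₂ : F, z₁ ^ 2 + a * z₁ * z₂ + c * z₂ ^ 2 = 0 → z₁ = 0 ∧ z₂ = 0) : ∃ φ : ↥(Cfsg.isometryGroup F (Cfsg.quadFormMinus (m - 1) F a c)) →* ↥(Cfsg.isometryGroup K (Cfsg.quadFormPlus m K)), Function.Injective φ := by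
  obtain ⟨ι, l, hl⟩ := field79 hF hK a c hac
  have hδ := disc79 ι l a c hac hl
  obtain ⟨k, rfl⟩ : ∃ k, m = k + 1 := ⟨m - 1, by omega⟩
  exact emb79 ι l k a c hl hδ

end Cfsg.Agent.S2679
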