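import Cfsg.Statements.S2639
import Mathlib
import Cfsg.Statements.S2639
import Cfsg.Agent.S2679

set_option autoImplicit false
open Cfsg
open scoped commutatorElement

namespace Cfsg.Agent.S2639

open Matrix

theorem exists_aniso39 {F : Type*} [Field F] [Fintype F] :
    ∃ a c : F, ∀ z₁ z₂ : F, z₁ ^ 2 + a * z₁ * z₂ + c * z₂ ^ 2 = 0 → z₁ = 0 ∧ z₂ = 0 := by
  classical
  let f : F × F → F × F := fun p => (-(p.1 + p.2), p.1 * p.2)
  have hni : ¬ Function.Injective f := by
    intro h
    have := h (show f (0, 1) = f (1, 0) by simp [f])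
    simp at this
  have hns : ¬ Function.Surjective f := fun h => hni (Finite.injective_iff_surjective.mpr h)
  simp only [Function.Surjective, not_forall] at hns
  obtain ⟨⟨a, c⟩, hac⟩ := hns
  refine ⟨a, c, ?_⟩
  have hroot : ∀ z : F, z ^ 2 + a * z + c ≠ 0 := by
    intro z hz
    apply hac
    refine ⟨(z, -a - z), ?_⟩
    simp only [f, Prod.mk.injEq]
    constructor
    · ring
    · linear_combination -hz
  intro z₁ z₂ h
  by_cases hz2 : z₂ = 0
  · subst hz2
    simp at h
    exact ⟨h, rfl⟩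
  · exfalso
    apply hroot (z₁ / z₂)
    field_simp
    linear_combination h

theorem coord39 {F K : Type*} [Field F] [Fintype F] [Field K] [Fintype K] [Algebra F K] {q : ℕ}
    (hF : Fintype.card F = q) (hK : Fintype.card K = q ^ 2) (l : K) (a c : F)
    (hac : ∀ z₁ z₂ : F, z₁ ^ 2 + a * z₁ * z₂ + c * z₂ ^ 2 = 0 → z₁ = 0 ∧ z₂ = 0)
    (hl : l ^ 2 + algebraMap F K a * l + algebraMap F K c = 0) :
    Function.Bijective (fun p : F × F => algebraMap F K p.1 + algebraMap F K p.2 * l) := by
  classical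
  rw [Fintype.bijective_iff_injective_and_card]
  constructor
  · rintro ⟨x₀, x₁⟩ ⟨y₀, y₁⟩ h
    simp only at h
    have h' : algebraMap F K (x₀ - y₀) + algebraMap F K (x₁ - y₁) * l = 0 := by
      rw [map_sub, map_sub]; linear_combination h
    by_cases h1 : x₁ - y₁ = 0
    · rw [h1, map_zero, zero_mul, add_zero] at h'
      have h0 : x₀ - y₀ = 0 := (algebraMap F K).injective (by rw [h', map_zero])
      rw [Prod.mk.injEq]; exact ⟨sub_eq_zero.mp h0, sub_eq_zero.mp h1⟩
    · exfalso
      have hne : algebraMap F K (x₁ - y₁) ≠ 0 := by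
        intro h0; apply h1; exact (algebraMap F K).injective (by rw [h0, map_zero])
      have hlz : l = algebraMap F K (-(x₀ - y₀) / (x₁ - y₁)) := by
        rw [map_div₀, map_neg]
        field_simp
        linear_combination h'
      have : (-(x₀ - y₀) / (x₁ - y₁)) ^ 2 + a * (-(x₀ - y₀) / (x₁ - y₁)) * 1 + c * 1 ^ 2 = 0 := by
        apply (algebraMap F K).injective
        rw [hlz] at hl
        simp only [map_add, map_mul, map_pow, map_one, map_zero]
        linear_combination hl
      exact one_ne_zero (hac _ 1 this).2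
  · rw [Fintype.card_prod, hF, hK]; ring

def lin39 {F K : Type*} [Field F] [Field K] [Algebra F K] (l : K) : F × F →ₗ[F] K where
  toFun p := algebraMap F K p.1 + algebraMap F K p.2 * l
  map_add' p r := by
    simp only [Prod.fst_add, Prod.snd_add, map_add]; ring
  map_smul' r p := by
    show algebraMap F K (r • p).1 + algebraMap F K (r • p).2 * l =
      r • (algebraMap F K p.1 + algebraMap F K p.2 * l)
    rw [Prod.smul_fst, Prod.smul_snd, smul_eq_mul, smul_eq_mul, map_mul, map_mul, Algebra.smul_def]; ring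

theorem frob39 {F K : Type*} [Field F] [Fintype F] [Field K] [Fintype K] [Algebra F K] {q : ℕ}
    (hF : Fintype.card F = q) (hK : Fintype.card K = q ^ 2) (l : K) (a c : F)
    (hac : ∀ z₁ z₂ : F, z₁ ^ 2 + a * z₁ * z₂ + c * z₂ ^ 2 = 0 → z₁ = 0 ∧ z₂ = 0)
    (hl : l ^ 2 + algebraMap F K a * l + algebraMap F K c = 0) :
    (∀ x y : K, (x + y) ^ q = x ^ q + y ^ q) ∧ (∀ r : F, (algebraMap F K r) ^ q = algebraMap F K r) ∧
      l ^ q = -algebraMap F K a - l := by
  classical
  obtain ⟨p, hp, n, hprime, hn⟩ := FiniteField.card' F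
  haveI := hp
  haveI : Fact p.Prime := ⟨hprime⟩
  haveI : CharP K p := charP_of_injective_algebraMap (algebraMap F K).injective p
  have hq : q = p ^ (n : ℕ) := by rw [← hF, hn]
  have hadd : ∀ x y : K, (x + y) ^ q = x ^ q + y ^ q := by
    intro x y; rw [hq]; exact add_pow_char_pow x y p n
  have hfix : ∀ r : F, (algebraMap F K r) ^ q = algebraMap F K r := by
    intro r; rw [← map_pow, ← hF, FiniteField.pow_card]
  have hq1 : 1 < q := by rw [← hF]; exact Fintype.one_lt_card
  refine ⟨hadd, hfix, ?_⟩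
  have hroot : (l ^ q) ^ 2 + algebraMap F K a * l ^ q + algebraMap F K c = 0 := by
    have h := congrArg (fun x => x ^ q) hl
    simp only [hadd, mul_pow, hfix] at h
    rw [zero_pow (by omega), ← pow_mul, mul_comm 2 q, pow_mul] at h
    exact h
  have hne : l ^ q ≠ l := by
    intro hfl
    have hall : ∀ x : K, x ^ q = x := by
      intro x
      obtain ⟨⟨x₀, x₁⟩, rfl⟩ := (coord39 hF hK l a c hac hl).2 x
      simp only [hadd, mul_pow, hfix, hfl]
    have hpoly : (Polynomial.X ^ q - Polynomial.X : Polynomial K) = 0 := by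
      apply Polynomial.eq_zero_of_natDegree_lt_card_of_eval_eq_zero' _ Finset.univ
      · intro x _
        simp [hall x]
      · rw [FiniteField.X_pow_card_sub_X_natDegree_eq K hq1, Finset.card_univ, hK]
        nlinarith
    exact FiniteField.X_pow_card_sub_X_ne_zero K hq1 hpoly
  have hprod : (l ^ q - l) * (l ^ q - (-algebraMap F K a - l)) = 0 := by linear_combination hroot - hl
  rcases mul_eq_zero.mp hprod with h | h
  · exact absurd (sub_eq_zero.mp h) hne
  · exact sub_eq_zero.mp h

theorem entry39 {n R : Type*} [Fintype n] [DecidableEq n] [CommRing R] (A : Matrix n n R) (i j : n) :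
    Pi.single i 1 ⬝ᵥ (A *ᵥ Pi.single j 1) = A i j := by
  rw [Matrix.mulVec_single_one, single_one_dotProduct]; rfl

theorem core39 {F K : Type*} [Field F] [Fintype F] [Field K] [Fintype K] [Algebra F K] {q : ℕ}
    (hF : Fintype.card F = q) (hK : Fintype.card K = q ^ 2) (l : K) (a c : F)
    (hac : ∀ z₁ z₂ : F, z₁ ^ 2 + a * z₁ * z₂ + c * z₂ ^ 2 = 0 → z₁ = 0 ∧ z₂ = 0)
    (hl : l ^ 2 + algebraMap F K a * l + algebraMap F K c = 0) (m : ℕ) :
    ∃ φ : ↥(Cfsg.GU m K q) →* ↥(Matrix.symplecticGroup (Fin m) F), Function.Injective φ := by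
  classical
  obtain ⟨hadd, hfix, hlq⟩ := frob39 hF hK l a c hac hl
  let ε : (F × F) ≃ₗ[F] K := LinearEquiv.ofBijective (lin39 l) (coord39 hF hK l a c hac hl)
  have hε : ∀ p : F × F, ε p = algebraMap F K p.1 + algebraMap F K p.2 * l := fun p => rfl
  have hkey : ∀ x y : K, (ε.symm (x * y ^ q)).2 =
      (ε.symm x).2 * (ε.symm y).1 - (ε.symm x).1 * (ε.symm y).2 := by
    intro x y
    obtain ⟨p, rfl⟩ := ε.surjective x
    obtain ⟨r, rfl⟩ := ε.surjective y
    have : ε p * (ε r) ^ q = ε (p.1 * (r.1 - a * r.2) + c * p.2 * r.2, p.2 * r.1 - p.1 * r.2) := by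
      rw [hε, hε, hε, hadd, mul_pow, hfix, hfix, hlq]
      simp only [map_add, map_mul, map_sub]
      linear_combination (-(algebraMap F K p.2 * algebraMap F K r.2)) * hl
    rw [this]
    simp only [LinearEquiv.symm_apply_apply]
  let E : (Fin m → K) ≃ₗ[F] (Fin m ⊕ Fin m → F) :=
    { toFun := fun u => Sum.elim (fun i => (ε.symm (u i)).1) (fun i => (ε.symm (u i)).2)
      map_add' := by intro u v; funext i; rcases i with i | i <;> simp
      map_smul' := by intro r u; funext i; rcases i with i | i <;> simp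
      invFun := fun w i => ε (w (Sum.inl i), w (Sum.inr i))
      left_inv := by intro u; funext i; simp
      right_inv := by intro w; funext i; rcases i with i | i <;> simp }
  have hE1 : ∀ u i, E u (Sum.inl i) = (ε.symm (u i)).1 := fun u i => rfl
  have hE2 : ∀ u i, E u (Sum.inr i) = (ε.symm (u i)).2 := fun u i => rfl
  have hform : ∀ u v : Fin m → K,
      (ε.symm (Cfsg.hermForm m K q u v)).2 = (E u) ⬝ᵥ (Matrix.J (Fin m) F *ᵥ (E v)) := by
    intro u v
    unfold Cfsg.hermForm
    rw [map_sum, Prod.snd_sum]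
    simp only [hkey]
    have hJ : Matrix.J (Fin m) F *ᵥ (E v) =
        Sum.elim (fun i => -(E v (Sum.inr i))) (fun i => E v (Sum.inl i)) := by
      unfold Matrix.J
      rw [Matrix.fromBlocks_mulVec]
      funext i
      rcases i with i | i <;> simp [Matrix.neg_mulVec]
    rw [hJ]
    simp only [dotProduct, Fintype.sum_sum_type, Sum.elim_inl, Sum.elim_inr, hE1, hE2]
    rw [← Finset.sum_add_distrib]
    apply Finset.sum_congr rfl
    intro i _
    ring
  let Φ : Matrix (Fin m) (Fin m) K → Matrix (Fin m ⊕ Fin m) (Fin m ⊕ Fin m) F := fun M =>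
    LinearMap.toMatrix' (E.toLinearMap ∘ₗ ((Matrix.toLin' M).restrictScalars F) ∘ₗ E.symm.toLinearMap)
  have hΦ : ∀ M w, Φ M *ᵥ w = E (M *ᵥ E.symm w) := by
    intro M w
    show LinearMap.toMatrix' _ *ᵥ w = _
    rw [LinearMap.toMatrix'_mulVec]
    rfl
  have hext : ∀ A B : Matrix (Fin m ⊕ Fin m) (Fin m ⊕ Fin m) F, (∀ w, A *ᵥ w = B *ᵥ w) → A = B := by
    intro A B h
    apply Matrix.toLin'.injective
    apply LinearMap.ext
    intro w
    rw [Matrix.toLin'_apply, Matrix.toLin'_apply, h]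
  have hΦ1 : Φ 1 = 1 := by
    apply hext
    intro w
    rw [hΦ, Matrix.one_mulVec, Matrix.one_mulVec, LinearEquiv.apply_symm_apply]
  have hΦmul : ∀ M N, Φ (M * N) = Φ M * Φ N := by
    intro M N
    apply hext
    intro w
    rw [← Matrix.mulVec_mulVec, hΦ, hΦ, hΦ, LinearEquiv.symm_apply_apply, Matrix.mulVec_mulVec]
  have hmem : ∀ g : ↥(Cfsg.GU m K q), Φ (g.1.1) ∈ Matrix.symplecticGroup (Fin m) F := by
    intro g
    rw [SymplecticGroup.mem_iff']
    have hg : ∀ u v : Fin m → K,
        Cfsg.hermForm m K q (g.1.1 *ᵥ u) (g.1.1 *ᵥ v) = Cfsg.hermForm m K q u v := g.2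
    have hpres : ∀ w w' : Fin m ⊕ Fin m → F,
        (Φ g.1.1 *ᵥ w) ⬝ᵥ (Matrix.J (Fin m) F *ᵥ (Φ g.1.1 *ᵥ w')) = w ⬝ᵥ (Matrix.J (Fin m) F *ᵥ w') := by
      intro w w'
      rw [hΦ, hΦ, ← hform, hg, hform, LinearEquiv.apply_symm_apply, LinearEquiv.apply_symm_apply]
    ext i j
    rw [← entry39 ((Φ g.1.1)ᵀ * Matrix.J (Fin m) F * Φ g.1.1) i j, ← entry39 (Matrix.J (Fin m) F) i j, ← hpres,
      ← Matrix.mulVec_mulVec, ← Matrix.mulVec_mulVec, Matrix.dotProduct_mulVec, Matrix.vecMul_transpose]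
  let φ : ↥(Cfsg.GU m K q) →* ↥(Matrix.symplecticGroup (Fin m) F) :=
    { toFun := fun g => ⟨Φ g.1.1, hmem g⟩
      map_one' := Subtype.ext hΦ1
      map_mul' := fun x y => Subtype.ext (hΦmul x.1.1 y.1.1) }
  refine ⟨φ, ?_⟩
  intro x y hxy
  have h1 : Φ x.1.1 = Φ y.1.1 := congrArg Subtype.val hxy
  apply Subtype.ext
  apply Units.ext
  apply Matrix.toLin'.injective
  apply LinearMap.ext
  intro u
  rw [Matrix.toLin'_apply, Matrix.toLin'_apply]
  have h2 := hΦ x.1.1 (E u)
  rw [h1, hΦ, LinearEquiv.symm_apply_apply] at h2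
  exact (E.injective h2).symm

/-- The unitary group embeds in the symplectic group of twice the dimension over the subfield: for a field K with q² elements and a field F with q elements (isomorphic to the subfield of K of order q), there is an injective homomorphism GU_m(q) → Sp_2m(F). -/
theorem result {K F : Type*} [Field K] [Fintype K] [Field F] [Fintype F] {q : ℕ} (hK : Fintype.card K = q ^ 2) (hF : Fintype.card F = q) (m : ℕ) : ∃ φ : ↥(Cfsg.GU m K q) →* ↥(Matrix.symplecticGroup (Fin m) F), Function.Injective φ := by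
  obtain ⟨a, c, hac⟩ := exists_aniso39 (F := F)
  obtain ⟨ι, l, hl⟩ := Cfsg.Agent.S2679.field79 hF hK a c hac
  letI : Algebra F K := ι.toAlgebra
  exact core39 hF hK l a c hac hl m

end Cfsg.Agent.S2639
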