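import Cfsg.Statements.S2678
import Mathlib
import Cfsg.Statements.S2678
import Cfsg.Agent.S2639

set_option autoImplicit false
open Cfsg
open scoped commutatorElement

namespace Cfsg.Agent.S2678

open Cfsg.Agent.S2639 Matrix

theorem reindex78 {R : Type*} [CommRing R] {l l' : Type*} [Fintype l] [DecidableEq l] [Fintype l'] [DecidableEq l']
    (e : l ≃ l') :
    ∃ ψ : ↥(Matrix.symplecticGroup l R) →* ↥(Matrix.symplecticGroup l' R), Function.Injective ψ := by
  let s : l' ⊕ l' ≃ l ⊕ l := (Equiv.sumCongr e e).symm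
  have hJ : (Matrix.J l R).submatrix s s = Matrix.J l' R := by
    ext (i | i) (j | j) <;> simp [Matrix.J, s, Matrix.one_apply]
  have hmem : ∀ A : ↥(Matrix.symplecticGroup l R), (A.1.submatrix s s) ∈ Matrix.symplecticGroup l' R := by
    intro A
    rw [SymplecticGroup.mem_iff]
    have hA := SymplecticGroup.mem_iff.mp A.2
    rw [← hJ, Matrix.transpose_submatrix, Matrix.submatrix_mul_equiv, Matrix.submatrix_mul_equiv, hA]
  refine ⟨{ toFun := fun A => ⟨A.1.submatrix s s, hmem A⟩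
            map_one' := Subtype.ext (Matrix.submatrix_one_equiv s)
            map_mul' := fun A B => Subtype.ext (Matrix.submatrix_mul_equiv A.1 B.1 s s s).symm }, ?_⟩
  intro A B h
  have h1 : A.1.submatrix s s = B.1.submatrix s s := congrArg Subtype.val h
  apply Subtype.ext
  ext i j
  have := congrFun (congrFun h1 (s.symm i)) (s.symm j)
  simpa using this

theorem Jform78 (R : Type*) [CommRing R] (n : Type*) [Fintype n] [DecidableEq n] (u v : n ⊕ n → R) :
    u ⬝ᵥ (Matrix.J n R *ᵥ v) = ∑ i, (u (Sum.inl i) * (-(v (Sum.inr i))) + u (Sum.inr i) * v (Sum.inl i)) := by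
  have hJ : Matrix.J n R *ᵥ v = Sum.elim (fun i => -(v (Sum.inr i))) (fun i => v (Sum.inl i)) := by
    unfold Matrix.J
    rw [Matrix.fromBlocks_mulVec]
    funext i
    rcases i with i | i <;> simp [Matrix.neg_mulVec]
  rw [hJ]
  simp only [dotProduct, Fintype.sum_sum_type, Sum.elim_inl, Sum.elim_inr]
  rw [← Finset.sum_add_distrib]

theorem core78 {F K : Type*} [Field F] [Fintype F] [Field K] [Fintype K] [Algebra F K] {q : ℕ}
    (hF : Fintype.card F = q) (hK : Fintype.card K = q ^ 2) (l : K) (a c : F)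
    (hac : ∀ z₁ z₂ : F, z₁ ^ 2 + a * z₁ * z₂ + c * z₂ ^ 2 = 0 → z₁ = 0 ∧ z₂ = 0)
    (hl : l ^ 2 + algebraMap F K a * l + algebraMap F K c = 0) (m : ℕ) :
    ∃ φ : ↥(Matrix.symplecticGroup (Fin m) K) →* ↥(Matrix.symplecticGroup (Fin m ⊕ Fin m) F),
      Function.Injective φ := by
  classical
  let ε : (F × F) ≃ₗ[F] K := LinearEquiv.ofBijective (lin39 l) (coord39 hF hK l a c hac hl)
  have hε : ∀ p : F × F, ε p = algebraMap F K p.1 + algebraMap F K p.2 * l := fun p => rfl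
  have hkey : ∀ x y : K, (ε.symm (x * y)).2 =
      (ε.symm x).1 * (ε.symm y).2 + (ε.symm x).2 * (ε.symm y).1 - a * (ε.symm x).2 * (ε.symm y).2 := by
    intro x y
    obtain ⟨p, rfl⟩ := ε.surjective x
    obtain ⟨r, rfl⟩ := ε.surjective y
    have : ε p * ε r = ε (p.1 * r.1 - c * p.2 * r.2, p.1 * r.2 + p.2 * r.1 - a * p.2 * r.2) := by
      rw [hε, hε, hε]
      simp only [map_add, map_mul, map_sub]
      linear_combination (algebraMap F K p.2 * algebraMap F K r.2) * hl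
    rw [this]
    simp only [LinearEquiv.symm_apply_apply]
  let E : (Fin m ⊕ Fin m → K) ≃ₗ[F] ((Fin m ⊕ Fin m) ⊕ (Fin m ⊕ Fin m) → F) :=
    { toFun := fun u => Sum.elim
        (Sum.elim (fun i => (ε.symm (u (Sum.inl i))).1) (fun i => (ε.symm (u (Sum.inl i))).2))
        (Sum.elim (fun i => (ε.symm (u (Sum.inr i))).2)
          (fun i => (ε.symm (u (Sum.inr i))).1 - a * (ε.symm (u (Sum.inr i))).2))
      map_add' := by
        intro u v; funext j
        rcases j with (i | i) | (i | i) <;> simp <;> ring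
      map_smul' := by
        intro r u; funext j
        rcases j with (i | i) | (i | i) <;> simp <;> ring
      invFun := fun w => Sum.elim (fun i => ε (w (Sum.inl (Sum.inl i)), w (Sum.inl (Sum.inr i))))
        (fun i => ε (w (Sum.inr (Sum.inr i)) + a * w (Sum.inr (Sum.inl i)), w (Sum.inr (Sum.inl i))))
      left_inv := by
        intro u; funext j
        rcases j with i | i <;> simp
      right_inv := by
        intro w; funext j
        rcases j with (i | i) | (i | i) <;> simp }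
  have hE11 : ∀ u i, E u (Sum.inl (Sum.inl i)) = (ε.symm (u (Sum.inl i))).1 := fun u i => rfl
  have hE12 : ∀ u i, E u (Sum.inl (Sum.inr i)) = (ε.symm (u (Sum.inl i))).2 := fun u i => rfl
  have hE21 : ∀ u i, E u (Sum.inr (Sum.inl i)) = (ε.symm (u (Sum.inr i))).2 := fun u i => rfl
  have hE22 : ∀ u i, E u (Sum.inr (Sum.inr i)) =
      (ε.symm (u (Sum.inr i))).1 - a * (ε.symm (u (Sum.inr i))).2 := fun u i => rfl
  have hform : ∀ u v : Fin m ⊕ Fin m → K,
      (ε.symm (u ⬝ᵥ (Matrix.J (Fin m) K *ᵥ v))).2 = (E u) ⬝ᵥ (Matrix.J (Fin m ⊕ Fin m) F *ᵥ (E v)) := by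
    intro u v
    rw [Jform78 K (Fin m) u v, Jform78 F (Fin m ⊕ Fin m) (E u) (E v), map_sum, Prod.snd_sum, Fintype.sum_sum_type,
      ← Finset.sum_add_distrib]
    apply Finset.sum_congr rfl
    intro i _
    rw [map_add, Prod.snd_add, mul_neg, map_neg, Prod.snd_neg, hkey, hkey, hE11, hE12, hE21, hE22, hE11, hE12, hE21, hE22]
    ring
  let Φ : Matrix (Fin m ⊕ Fin m) (Fin m ⊕ Fin m) K →
      Matrix ((Fin m ⊕ Fin m) ⊕ (Fin m ⊕ Fin m)) ((Fin m ⊕ Fin m) ⊕ (Fin m ⊕ Fin m)) F := fun M =>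
    LinearMap.toMatrix' (E.toLinearMap ∘ₗ ((Matrix.toLin' M).restrictScalars F) ∘ₗ E.symm.toLinearMap)
  have hΦ : ∀ M w, Φ M *ᵥ w = E (M *ᵥ E.symm w) := by
    intro M w
    show LinearMap.toMatrix' _ *ᵥ w = _
    rw [LinearMap.toMatrix'_mulVec]
    rfl
  have hext : ∀ A B : Matrix ((Fin m ⊕ Fin m) ⊕ (Fin m ⊕ Fin m)) ((Fin m ⊕ Fin m) ⊕ (Fin m ⊕ Fin m)) F,
      (∀ w, A *ᵥ w = B *ᵥ w) → A = B := by
    intro A B h
    apply Matrix.toLin'.injective
    apply LinearMap.ext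
    intro w
    rw [Matrix.toLin'_apply, Matrix.toLin'_apply, h]
  have hΦ1 : Φ 1 = 1 := by
    apply hext
    intro w
    rw [hΦ, Matrix.one_mulVec, Matrix.one_mulVec, LinearEquiv.apply_symm_apply]
  have hΦmul : ∀ M N, Φ (M * N) = Φ M * Φ N := by
    intro M N
    apply hext
    intro w
    rw [← Matrix.mulVec_mulVec, hΦ, hΦ, hΦ, LinearEquiv.symm_apply_apply, Matrix.mulVec_mulVec]
  have hmem : ∀ g : ↥(Matrix.symplecticGroup (Fin m) K), Φ g.1 ∈ Matrix.symplecticGroup (Fin m ⊕ Fin m) F := by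
    intro g
    rw [SymplecticGroup.mem_iff']
    have hg0 := SymplecticGroup.mem_iff'.mp g.2
    have hg : ∀ u v : Fin m ⊕ Fin m → K,
        (g.1 *ᵥ u) ⬝ᵥ (Matrix.J (Fin m) K *ᵥ (g.1 *ᵥ v)) = u ⬝ᵥ (Matrix.J (Fin m) K *ᵥ v) := by
      intro u v
      have h3 : u ⬝ᵥ ((g.1ᵀ * Matrix.J (Fin m) K * g.1) *ᵥ v) =
          (g.1 *ᵥ u) ⬝ᵥ (Matrix.J (Fin m) K *ᵥ (g.1 *ᵥ v)) := by
        rw [← Matrix.mulVec_mulVec, ← Matrix.mulVec_mulVec, Matrix.dotProduct_mulVec, Matrix.vecMul_transpose]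
      rw [← h3, hg0]
    have hpres : ∀ w w' : (Fin m ⊕ Fin m) ⊕ (Fin m ⊕ Fin m) → F,
        (Φ g.1 *ᵥ w) ⬝ᵥ (Matrix.J (Fin m ⊕ Fin m) F *ᵥ (Φ g.1 *ᵥ w')) =
          w ⬝ᵥ (Matrix.J (Fin m ⊕ Fin m) F *ᵥ w') := by
      intro w w'
      rw [hΦ, hΦ, ← hform, hg, hform, LinearEquiv.apply_symm_apply, LinearEquiv.apply_symm_apply]
    ext i j
    rw [← entry39 ((Φ g.1)ᵀ * Matrix.J (Fin m ⊕ Fin m) F * Φ g.1) i j, ← entry39 (Matrix.J (Fin m ⊕ Fin m) F) i j,
      ← hpres, ← Matrix.mulVec_mulVec, ← Matrix.mulVec_mulVec, Matrix.dotProduct_mulVec, Matrix.vecMul_transpose]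
  let φ : ↥(Matrix.symplecticGroup (Fin m) K) →* ↥(Matrix.symplecticGroup (Fin m ⊕ Fin m) F) :=
    { toFun := fun g => ⟨Φ g.1, hmem g⟩
      map_one' := Subtype.ext hΦ1
      map_mul' := fun x y => Subtype.ext (hΦmul x.1 y.1) }
  refine ⟨φ, ?_⟩
  intro x y hxy
  have h1 : Φ x.1 = Φ y.1 := congrArg Subtype.val hxy
  apply Subtype.ext
  apply Matrix.toLin'.injective
  apply LinearMap.ext
  intro u
  rw [Matrix.toLin'_apply, Matrix.toLin'_apply]
  have h2 := hΦ x.1 (E u)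
  rw [h1, hΦ, LinearEquiv.symm_apply_apply] at h2
  exact (E.injective h2).symm

/-- Field-extension embedding of symplectic groups: for a field K with q² elements and a field F with q elements there is an injective homomorphism Sp_2a(K) → Sp_4a(F). -/
theorem result {K F : Type*} [Field K] [Fintype K] [Field F] [Fintype F] {q : ℕ} (hK : Fintype.card K = q ^ 2) (hF : Fintype.card F = q) (a : ℕ) : ∃ φ : ↥(Matrix.symplecticGroup (Fin a) K) →* ↥(Matrix.symplecticGroup (Fin (2 * a)) F), Function.Injective φ := by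
  obtain ⟨a', c, hac⟩ := exists_aniso39 (F := F)
  obtain ⟨ι, l, hl⟩ := Cfsg.Agent.S2679.field79 hF hK a' c hac
  letI : Algebra F K := ι.toAlgebra
  obtain ⟨φ, hφ⟩ := core78 hF hK l a' c hac hl a
  obtain ⟨ψ, hψ⟩ := reindex78 (R := F) (finSumFinEquiv.trans (finCongr (by omega : a + a = 2 * a)))
  exact ⟨ψ.comp φ, hψ.comp hφ⟩

end Cfsg.Agent.S2678
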