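import Cfsg.Statements.S0826
import Mathlib
import Cfsg.Statements.S0826
import Cfsg.Agent.S2678

set_option autoImplicit false
open Cfsg
open scoped commutatorElement

namespace Cfsg.Agent.S0826

open Cfsg.Agent.S2639 Cfsg.Agent.S2678 Matrix

abbrev P26 (m : ℕ) := Fin m ⊕ (Fin m ⊕ Fin 2)

def ev26 (m : ℕ) (i : Fin m) : P26 m → ZMod 2 :=
  Sum.elim (fun j => if j = i then 1 else 0) (Sum.elim (fun j => if j = i then 1 else 0) (fun _ => 0))

def fv26 (m : ℕ) (i : Fin m) : P26 m → ZMod 2 :=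
  Sum.elim (fun j => if i < j then 1 else 0)
    (Sum.elim (fun j => if i ≤ j then 1 else 0) (fun z => if z = 1 then 1 else 0))

theorem two26 (x : ZMod 2) : x + x = 0 := CharTwo.add_self_eq_zero x

theorem ev_dot26 (m : ℕ) (i : Fin m) (w : P26 m → ZMod 2) :
    ev26 m i ⬝ᵥ w = w (Sum.inl i) + w (Sum.inr (Sum.inl i)) := by
  simp [dotProduct, ev26, Fintype.sum_sum_type]

theorem fv_dot26 (m : ℕ) (i : Fin m) (w : P26 m → ZMod 2) :
    fv26 m i ⬝ᵥ w = ∑ k, (if i < k then w (Sum.inl k) else 0) +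
      ∑ k, (if i ≤ k then w (Sum.inr (Sum.inl k)) else 0) + w (Sum.inr (Sum.inr 1)) := by
  simp [dotProduct, fv26, Fintype.sum_sum_type, Fin.sum_univ_two, add_assoc]

theorem ind26 (m : ℕ) (i k : Fin m) :
    (if i < k then (1 : ZMod 2) else 0) + (if i ≤ k then 1 else 0) = if k = i then 1 else 0 := by
  rcases lt_trichotomy i k with h | h | h
  · rw [if_pos h, if_pos h.le, if_neg (ne_of_gt h)]; decide
  · subst h; rw [if_neg (lt_irrefl _), if_pos le_rfl, if_pos rfl, zero_add]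
  · rw [if_neg (not_lt.2 h.le), if_neg (not_le.2 h), if_neg (ne_of_lt h), add_zero]

theorem G1_26 (m : ℕ) (i j : Fin m) : ev26 m i ⬝ᵥ ev26 m j = 0 := by
  rw [ev_dot26]
  show (if i = j then (1 : ZMod 2) else 0) + (if i = j then 1 else 0) = 0
  exact two26 _

theorem G2_26 (m : ℕ) (i j : Fin m) : ev26 m i ⬝ᵥ fv26 m j = if i = j then 1 else 0 := by
  rw [ev_dot26]
  show (if j < i then (1 : ZMod 2) else 0) + (if j ≤ i then 1 else 0) = if i = j then 1 else 0
  exact ind26 m j i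

theorem G3le26 (m : ℕ) (i j : Fin m) (hij : i ≤ j) : fv26 m i ⬝ᵥ fv26 m j = 0 := by
  rw [fv_dot26, ← Finset.sum_add_distrib]
  have h1 : ∀ k : Fin m, (if i < k then fv26 m j (Sum.inl k) else 0) +
      (if i ≤ k then fv26 m j (Sum.inr (Sum.inl k)) else 0) = if k = j then 1 else 0 := by
    intro k
    rw [← ind26 m j k]
    show (if i < k then (if j < k then (1 : ZMod 2) else 0) else 0) +
      (if i ≤ k then (if j ≤ k then (1 : ZMod 2) else 0) else 0) = _
    congr 1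
    · by_cases h : j < k
      · rw [if_pos (lt_of_le_of_lt hij h), if_pos h]
      · rw [if_neg h]; simp
    · by_cases h : j ≤ k
      · rw [if_pos (le_trans hij h), if_pos h]
      · rw [if_neg h]; simp
  rw [Finset.sum_congr rfl (fun k _ => h1 k), Finset.sum_ite_eq' Finset.univ j, if_pos (Finset.mem_univ _)]
  show (1 : ZMod 2) + 1 = 0
  decide

theorem G3_26 (m : ℕ) (i j : Fin m) : fv26 m i ⬝ᵥ fv26 m j = 0 := by
  rcases le_total i j with h | h
  · exact G3le26 m i j h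
  · rw [dotProduct_comm]; exact G3le26 m j i h

theorem G4e26 (m : ℕ) (i : Fin m) : ev26 m i ⬝ᵥ (1 : P26 m → ZMod 2) = 0 := by
  rw [ev_dot26]
  show (1 : ZMod 2) + 1 = 0
  decide

theorem G4f26 (m : ℕ) (i : Fin m) : fv26 m i ⬝ᵥ (1 : P26 m → ZMod 2) = 0 := by
  rw [fv_dot26, ← Finset.sum_add_distrib]
  simp only [Pi.one_apply]
  rw [Finset.sum_congr rfl (fun k _ => ind26 m i k), Finset.sum_ite_eq' Finset.univ i, if_pos (Finset.mem_univ _)]
  decide

def T26 (m : ℕ) : ((Fin m ⊕ Fin m) → ZMod 2) →ₗ[ZMod 2] (P26 m → ZMod 2) :=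
  ∑ i, ((LinearMap.proj (Sum.inl i)).smulRight (ev26 m i) + (LinearMap.proj (Sum.inr i)).smulRight (fv26 m i))

theorem T_apply26 (m : ℕ) (x : (Fin m ⊕ Fin m) → ZMod 2) :
    T26 m x = ∑ i, (x (Sum.inl i) • ev26 m i + x (Sum.inr i) • fv26 m i) := by
  simp [T26, LinearMap.sum_apply]

def c26 (m : ℕ) : (P26 m → ZMod 2) →ₗ[ZMod 2] ((Fin m ⊕ Fin m) → ZMod 2) where
  toFun w := Sum.elim (fun i => fv26 m i ⬝ᵥ w) (fun i => ev26 m i ⬝ᵥ w)
  map_add' w w' := by
    funext k; rcases k with k | k <;> simp [dotProduct_add]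
  map_smul' r w := by
    funext k; rcases k with k | k <;> simp [dotProduct_smul]

theorem c_inl26 (m : ℕ) (w : P26 m → ZMod 2) (i : Fin m) : c26 m w (Sum.inl i) = fv26 m i ⬝ᵥ w := rfl
theorem c_inr26 (m : ℕ) (w : P26 m → ZMod 2) (i : Fin m) : c26 m w (Sum.inr i) = ev26 m i ⬝ᵥ w := rfl

theorem dotT26 (m : ℕ) (w : P26 m → ZMod 2) (y : (Fin m ⊕ Fin m) → ZMod 2) :
    w ⬝ᵥ T26 m y = ∑ j, (y (Sum.inl j) * c26 m w (Sum.inr j) + y (Sum.inr j) * c26 m w (Sum.inl j)) := by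
  rw [T_apply26, dotProduct_sum]
  apply Finset.sum_congr rfl
  intro j _
  rw [dotProduct_add, dotProduct_smul, dotProduct_smul, c_inr26, c_inl26, smul_eq_mul, smul_eq_mul,
    dotProduct_comm w, dotProduct_comm w]

theorem cT26 (m : ℕ) (x : (Fin m ⊕ Fin m) → ZMod 2) : c26 m (T26 m x) = x := by
  funext k
  rcases k with k | k
  · rw [c_inl26, dotT26]
    simp only [c_inr26, c_inl26, G3_26, mul_zero, add_zero]
    have : ∀ j, x (Sum.inl j) * (ev26 m j ⬝ᵥ fv26 m k) = if j = k then x (Sum.inl j) else 0 := by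
      intro j; rw [G2_26]; split_ifs <;> simp
    rw [Finset.sum_congr rfl (fun j _ => this j), Finset.sum_ite_eq' Finset.univ k, if_pos (Finset.mem_univ _)]
  · rw [c_inr26, dotT26]
    simp only [c_inr26, c_inl26, G1_26, mul_zero, zero_add]
    have : ∀ j, x (Sum.inr j) * (fv26 m j ⬝ᵥ ev26 m k) = if j = k then x (Sum.inr j) else 0 := by
      intro j; rw [dotProduct_comm, G2_26]
      by_cases h : j = k
      · rw [if_pos h, if_pos h.symm, mul_one]
      · rw [if_neg h, if_neg (Ne.symm h), mul_zero]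
    rw [Finset.sum_congr rfl (fun j _ => this j), Finset.sum_ite_eq' Finset.univ k, if_pos (Finset.mem_univ _)]

theorem oneT26 (m : ℕ) (x : (Fin m ⊕ Fin m) → ZMod 2) : (1 : P26 m → ZMod 2) ⬝ᵥ T26 m x = 0 := by
  rw [dotT26]
  apply Finset.sum_eq_zero
  intro j _
  rw [c_inr26, c_inl26, G4e26, G4f26, mul_zero, mul_zero, add_zero]

theorem c_one26 (m : ℕ) : c26 m (1 : P26 m → ZMod 2) = 0 := by
  funext k
  rcases k with k | k
  · exact G4f26 m k
  · exact G4e26 m k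

theorem compl26 (m : ℕ) (x : P26 m → ZMod 2) (hc : c26 m x = 0) (hs : (1 : P26 m → ZMod 2) ⬝ᵥ x = 0) :
    ∀ p, x p = x (Sum.inr (Sum.inr 1)) := by
  have hz : ∀ a b : ZMod 2, a + b = 0 → a = b := by decide
  have h1 : ∀ i, x (Sum.inl i) + x (Sum.inr (Sum.inl i)) = 0 := by
    intro i
    have := congrFun hc (Sum.inr i)
    rw [← ev_dot26]; exact this
  have hab : ∀ i, x (Sum.inr (Sum.inl i)) = x (Sum.inl i) := fun i => (hz _ _ (h1 i)).symm
  have h2 : ∀ i, x (Sum.inl i) + x (Sum.inr (Sum.inr 1)) = 0 := by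
    intro i
    have := congrFun hc (Sum.inl i)
    change fv26 m i ⬝ᵥ x = 0 at this
    rw [fv_dot26, ← Finset.sum_add_distrib] at this
    have h3 : ∀ k, (if i < k then x (Sum.inl k) else 0) + (if i ≤ k then x (Sum.inr (Sum.inl k)) else 0) =
        if k = i then x (Sum.inl k) else 0 := by
      intro k
      rw [hab k]
      rcases lt_trichotomy i k with h | h | h
      · rw [if_pos h, if_pos h.le, if_neg (ne_of_gt h)]; exact two26 _
      · subst h; rw [if_neg (lt_irrefl _), if_pos le_rfl, if_pos rfl, zero_add]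
      · rw [if_neg (not_lt.2 h.le), if_neg (not_le.2 h), if_neg (ne_of_lt h), add_zero]
    rw [Finset.sum_congr rfl (fun k _ => h3 k), Finset.sum_ite_eq' Finset.univ i, if_pos (Finset.mem_univ _)] at this
    exact this
  have h0 : x (Sum.inr (Sum.inr 0)) = x (Sum.inr (Sum.inr 1)) := by
    have hs' : ∑ i, x (Sum.inl i) + (∑ i, x (Sum.inr (Sum.inl i)) + (x (Sum.inr (Sum.inr 0)) + x (Sum.inr (Sum.inr 1)))) = 0 := by
      simpa [dotProduct, Fintype.sum_sum_type, Fin.sum_univ_two] using hs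
    have h4 : ∑ i, x (Sum.inl i) + ∑ i, x (Sum.inr (Sum.inl i)) = 0 := by
      rw [← Finset.sum_add_distrib]
      exact Finset.sum_eq_zero (fun i _ => h1 i)
    apply hz
    rw [← add_assoc, h4, zero_add] at hs'
    exact hs'
  intro p
  rcases p with i | i | z
  · exact hz _ _ (h2 i)
  · rw [hab]; exact hz _ _ (h2 i)
  · fin_cases z
    · exact h0
    · rfl

theorem Tc26 (m : ℕ) (w : P26 m → ZMod 2) (hw : (1 : P26 m → ZMod 2) ⬝ᵥ w = 0) :
    ∃ l : ZMod 2, T26 m (c26 m w) = w + l • (1 : P26 m → ZMod 2) := by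
  have hx := compl26 m (T26 m (c26 m w) - w) (by rw [map_sub, cT26, sub_self])
    (by rw [dotProduct_sub, oneT26, hw, sub_zero])
  refine ⟨(T26 m (c26 m w) - w) (Sum.inr (Sum.inr 1)), ?_⟩
  funext p
  have := hx p
  simp only [Pi.sub_apply, Pi.add_apply, Pi.smul_apply, Pi.one_apply, smul_eq_mul, mul_one] at this ⊢
  rw [← this]; ring

def pi26 (m : ℕ) (σ : Equiv.Perm (P26 m)) : (P26 m → ZMod 2) →ₗ[ZMod 2] (P26 m → ZMod 2) :=
  LinearMap.funLeft (ZMod 2) (ZMod 2) (σ⁻¹ : Equiv.Perm (P26 m))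

theorem pi_apply26 (m : ℕ) (σ : Equiv.Perm (P26 m)) (w : P26 m → ZMod 2) (p : P26 m) :
    pi26 m σ w p = w (σ⁻¹ p) := rfl

theorem pi_dot26 (m : ℕ) (σ : Equiv.Perm (P26 m)) (w w' : P26 m → ZMod 2) :
    pi26 m σ w ⬝ᵥ pi26 m σ w' = w ⬝ᵥ w' := by
  show ∑ p, w (σ⁻¹ p) * w' (σ⁻¹ p) = ∑ p, w p * w' p
  exact Equiv.sum_comp σ⁻¹ (fun p => w p * w' p)

theorem pi_one26 (m : ℕ) (σ : Equiv.Perm (P26 m)) : pi26 m σ (1 : P26 m → ZMod 2) = 1 := rfl

theorem pi_mul26 (m : ℕ) (σ τ : Equiv.Perm (P26 m)) (w : P26 m → ZMod 2) :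
    pi26 m (σ * τ) w = pi26 m σ (pi26 m τ w) := by
  funext p
  rw [pi_apply26, pi_apply26, pi_apply26, _root_.mul_inv_rev, Equiv.Perm.mul_apply]

def M26 (m : ℕ) (σ : Equiv.Perm (P26 m)) : ((Fin m ⊕ Fin m) → ZMod 2) →ₗ[ZMod 2] ((Fin m ⊕ Fin m) → ZMod 2) :=
  (c26 m) ∘ₗ (pi26 m σ) ∘ₗ (T26 m)

theorem M_apply26 (m : ℕ) (σ : Equiv.Perm (P26 m)) (x : (Fin m ⊕ Fin m) → ZMod 2) :
    M26 m σ x = c26 m (pi26 m σ (T26 m x)) := rfl

theorem one_pi26 (m : ℕ) (σ : Equiv.Perm (P26 m)) (w : P26 m → ZMod 2) :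
    (1 : P26 m → ZMod 2) ⬝ᵥ pi26 m σ w = (1 : P26 m → ZMod 2) ⬝ᵥ w := by
  rw [← pi_one26 m σ, pi_dot26]; rfl

theorem M_mul26 (m : ℕ) (σ τ : Equiv.Perm (P26 m)) (x : (Fin m ⊕ Fin m) → ZMod 2) :
    M26 m (σ * τ) x = M26 m σ (M26 m τ x) := by
  rw [M_apply26, M_apply26, M_apply26]
  obtain ⟨l, hl⟩ := Tc26 m (pi26 m τ (T26 m x)) (by rw [one_pi26, oneT26])
  rw [hl, map_add, map_smul, pi_one26, map_add, map_smul, c_one26, smul_zero, add_zero, pi_mul26]

theorem M_one26 (m : ℕ) (x : (Fin m ⊕ Fin m) → ZMod 2) : M26 m 1 x = x := by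
  rw [M_apply26]
  have : pi26 m 1 (T26 m x) = T26 m x := rfl
  rw [this, cT26]

theorem Jdot26 (m : ℕ) (u y : (Fin m ⊕ Fin m) → ZMod 2) :
    u ⬝ᵥ (Matrix.J (Fin m) (ZMod 2) *ᵥ y) = ∑ j, (y (Sum.inl j) * u (Sum.inr j) + y (Sum.inr j) * u (Sum.inl j)) := by
  rw [Jform78]
  apply Finset.sum_congr rfl
  intro j _
  rw [ZMod.neg_eq_self_mod_two]; ring

theorem M_symp26 (m : ℕ) (σ : Equiv.Perm (P26 m)) (x y : (Fin m ⊕ Fin m) → ZMod 2) :
    M26 m σ x ⬝ᵥ (Matrix.J (Fin m) (ZMod 2) *ᵥ M26 m σ y) = x ⬝ᵥ (Matrix.J (Fin m) (ZMod 2) *ᵥ y) := by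
  rw [Jdot26, Jdot26, M_apply26 m σ x]
  rw [← dotT26, ← cT26 m x]
  conv_rhs => rw [← dotT26]
  rw [cT26 m x, M_apply26]
  obtain ⟨l, hl⟩ := Tc26 m (pi26 m σ (T26 m y)) (by rw [one_pi26, oneT26])
  rw [hl, dotProduct_add, dotProduct_smul, dotProduct_comm _ (1 : P26 m → ZMod 2), one_pi26, oneT26, smul_zero,
    add_zero, pi_dot26]

/-- S_2n ≤ Sp_(2n−2)(2) for n ≥ 3: there is an injective homomorphism from the symmetric group on 2n letters into the symplectic group of degree 2n − 2 over the field with two elements. -/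
theorem result (n : ℕ) (hn : 3 ≤ n) : ∃ f : Equiv.Perm (Fin (2 * n)) →* Matrix.symplecticGroup (Fin (n - 1)) (ZMod 2), Function.Injective f := by
  classical
  obtain ⟨m, rfl⟩ : ∃ m, n = m + 1 := ⟨n - 1, by omega⟩
  have hm : 2 ≤ m := by omega
  show ∃ f : Equiv.Perm (Fin (2 * (m + 1))) →* Matrix.symplecticGroup (Fin m) (ZMod 2), Function.Injective f
  let Mat : Equiv.Perm (P26 m) → Matrix (Fin m ⊕ Fin m) (Fin m ⊕ Fin m) (ZMod 2) := fun σ => LinearMap.toMatrix' (M26 m σ)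
  have hMat : ∀ σ x, Mat σ *ᵥ x = M26 m σ x := fun σ x => LinearMap.toMatrix'_mulVec _ x
  have hext : ∀ A B : Matrix (Fin m ⊕ Fin m) (Fin m ⊕ Fin m) (ZMod 2), (∀ w, A *ᵥ w = B *ᵥ w) → A = B := by
    intro A B h
    apply Matrix.toLin'.injective
    apply LinearMap.ext
    intro w
    rw [Matrix.toLin'_apply, Matrix.toLin'_apply, h]
  have hmem : ∀ σ, Mat σ ∈ Matrix.symplecticGroup (Fin m) (ZMod 2) := by
    intro σ
    rw [SymplecticGroup.mem_iff']
    ext i j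
    rw [← entry39 ((Mat σ)ᵀ * Matrix.J (Fin m) (ZMod 2) * Mat σ) i j, ← entry39 (Matrix.J (Fin m) (ZMod 2)) i j,
      ← M_symp26 m σ, ← hMat, ← hMat, ← Matrix.mulVec_mulVec, ← Matrix.mulVec_mulVec, Matrix.dotProduct_mulVec,
      Matrix.vecMul_transpose]
  let φ : Equiv.Perm (P26 m) →* Matrix.symplecticGroup (Fin m) (ZMod 2) :=
    { toFun := fun σ => ⟨Mat σ, hmem σ⟩
      map_one' := Subtype.ext (hext _ _ (fun w => by
        show Mat 1 *ᵥ w = (1 : Matrix (Fin m ⊕ Fin m) (Fin m ⊕ Fin m) (ZMod 2)) *ᵥ w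
        rw [hMat, M_one26, Matrix.one_mulVec]))
      map_mul' := fun σ τ => Subtype.ext (hext _ _ (fun w => by
        show Mat (σ * τ) *ᵥ w = (Mat σ * Mat τ) *ᵥ w
        rw [hMat, ← Matrix.mulVec_mulVec, hMat, hMat, M_mul26])) }
  have hφ : Function.Injective φ := by
    rw [injective_iff_map_eq_one]
    intro σ hσ
    have h1 : Mat σ = 1 := congrArg Subtype.val hσ
    have h2 : ∀ x, M26 m σ x = x := by
      intro x; rw [← hMat, h1, Matrix.one_mulVec]
    -- for all w with 1 ⬝ w = 0: pi σ w = w + l • 1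
    have h3 : ∀ w : P26 m → ZMod 2, (1 : P26 m → ZMod 2) ⬝ᵥ w = 0 → ∃ l : ZMod 2, pi26 m σ w = w + l • (1 : P26 m → ZMod 2) := by
      intro w hw
      obtain ⟨l, hl⟩ := Tc26 m w hw
      obtain ⟨l', hl'⟩ := Tc26 m (pi26 m σ w) (by rw [one_pi26, hw])
      have h4 : c26 m (pi26 m σ w) = c26 m w := by
        have := h2 (c26 m w)
        rw [M_apply26, hl, map_add, map_smul, pi_one26, map_add, map_smul, c_one26, smul_zero, add_zero] at this
        exact this
      refine ⟨l + l', ?_⟩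
      rw [h4, hl] at hl'
      funext p
      have := congrFun hl' p
      simp only [Pi.add_apply, Pi.smul_apply, Pi.one_apply, smul_eq_mul, mul_one] at this ⊢
      have hz : ∀ a b c d : ZMod 2, a + b = c + d → c = a + (b + d) := by decide
      exact hz _ _ _ _ this
    by_contra hne
    obtain ⟨p, hp⟩ : ∃ p, σ p ≠ p := by
      by_contra hall
      push_neg at hall
      exact hne (Equiv.ext hall)
    have hcard : Fintype.card (P26 m) = m + (m + 2) := by
      simp [P26, Fintype.card_sum]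
    obtain ⟨p', -, hp'⟩ := Finset.exists_mem_notMem_of_card_lt_card
      (s := ({p, σ p, σ⁻¹ p} : Finset (P26 m))) (t := Finset.univ)
      (lt_of_le_of_lt (Finset.card_le_three) (by rw [Finset.card_univ, hcard]; omega))
    simp only [Finset.mem_insert, Finset.mem_singleton, not_or] at hp'
    obtain ⟨hp'1, hp'2, hp'3⟩ := hp'
    obtain ⟨t, -, ht⟩ := Finset.exists_mem_notMem_of_card_lt_card
      (s := ({p, p', σ p, σ p'} : Finset (P26 m))) (t := Finset.univ)
      (lt_of_le_of_lt (Finset.card_le_four) (by rw [Finset.card_univ, hcard]; omega))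
    simp only [Finset.mem_insert, Finset.mem_singleton, not_or] at ht
    obtain ⟨ht1, ht2, ht3, ht4⟩ := ht
    let w : P26 m → ZMod 2 := Pi.single p 1 + Pi.single p' 1
    have hw : (1 : P26 m → ZMod 2) ⬝ᵥ w = 0 := by
      show (1 : P26 m → ZMod 2) ⬝ᵥ (Pi.single p 1 + Pi.single p' 1) = 0
      rw [dotProduct_add, dotProduct_single, dotProduct_single]
      show (1 : ZMod 2) * 1 + 1 * 1 = 0
      decide
    obtain ⟨l, hl⟩ := h3 w hw
    have hwv : ∀ s : P26 m, w s = (if s = p then 1 else 0) + (if s = p' then 1 else 0) := by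
      intro s
      have hws : w s = (Pi.single p (1 : ZMod 2) : P26 m → ZMod 2) s + (Pi.single p' (1 : ZMod 2) : P26 m → ZMod 2) s := rfl
      rw [hws, Pi.single_apply, Pi.single_apply]
    -- evaluate at t
    have e1 := congrFun hl t
    rw [pi_apply26, Pi.add_apply, Pi.smul_apply, Pi.one_apply, smul_eq_mul, mul_one, hwv, hwv] at e1
    have hst1 : σ⁻¹ t ≠ p := by
      intro h; apply ht3; rw [← h]; simp
    have hst2 : σ⁻¹ t ≠ p' := by
      intro h; apply ht4; rw [← h]; simp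
    rw [if_neg hst1, if_neg hst2, if_neg ht1, if_neg ht2] at e1
    have hl0 : l = 0 := by
      simpa using e1.symm
    -- evaluate at σ p
    have e2 := congrFun hl (σ p)
    rw [pi_apply26, Pi.add_apply, Pi.smul_apply, Pi.one_apply, smul_eq_mul, mul_one, hwv, hwv, hl0] at e2
    have hsp : σ⁻¹ (σ p) = p := by simp
    rw [hsp, if_pos rfl, if_neg hp, if_neg (Ne.symm hp'2)] at e2
    have hpp' : p ≠ p' := fun h => hp'1 h.symm
    rw [if_neg hpp'] at e2
    revert e2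
    decide
  -- transport along Fin (2 * (m + 1)) ≃ P26 m
  have e : Fin (2 * (m + 1)) ≃ P26 m := Fintype.equivOfCardEq (by simp [P26, Fintype.card_sum]; omega)
  let ψ : Equiv.Perm (Fin (2 * (m + 1))) →* Equiv.Perm (P26 m) :=
    { toFun := fun σ => e.permCongr σ
      map_one' := by ext x; simp [Equiv.permCongr_apply]
      map_mul' := by intro σ τ; ext x; simp [Equiv.permCongr_apply] }
  have hψ : Function.Injective ψ := fun σ τ h => e.permCongr.injective h
  exact ⟨φ.comp ψ, hφ.comp hψ⟩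

end Cfsg.Agent.S0826
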