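import Mathlib
import Cfsg.Statements.S0900
import Cfsg.Agent.Lib.Helper7.Clifford
import Cfsg.Agent.Lib.Lead.Char9
import Cfsg.Agent.Lib.Lead.Char15
import Cfsg.Agent.Lib.Lead.Taketa

set_option autoImplicit false
open Cfsg

namespace Cfsg.Agent.S0900



open Cfsg.Agent.Lib Cfsg.Agent.Lib.Lead

/-- the sum of squares of an irreducible character -/
theorem sum_sq_irr {G : Type*} [Group G] [Fintype G] (χ : Cfsg.IrrCharacter G) :
    ∑ g : G, χ.1 g * (starRingEnd ℂ) (χ.1 g) = (Nat.card G : ℂ) := by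
  have h := irr_inner_self χ
  unfold Cfsg.classInner at h
  have hG : (Nat.card G : ℂ) ≠ 0 := by exact_mod_cast Nat.card_pos.ne'
  field_simp at h
  exact h

open Classical in
/-- splitting the sum of squares over a subgroup and its complement -/
theorem sum_split {G : Type*} [Group G] [Fintype G] (N : Subgroup G) [Fintype N] (χ : G → ℂ) :
    ∑ g : G, χ g * (starRingEnd ℂ) (χ g)
      = ∑ n : N, χ n * (starRingEnd ℂ) (χ n)
        + ∑ g : G, (((if g ∈ N then 0 else Complex.normSq (χ g) : ℝ)) : ℂ) := by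
  classical
  rw [← sum_extendByZero_mul N (fun n : N => χ n) (fun g => (starRingEnd ℂ) (χ g)),
    ← Finset.sum_add_distrib]
  apply Finset.sum_congr rfl
  intro g _
  by_cases hg : g ∈ N
  · rw [if_pos hg, extendByZero_mem' _ _ hg, Complex.ofReal_zero, add_zero]
  · rw [if_neg hg, extendByZero_not_mem _ _ hg, zero_mul, zero_add, Complex.mul_conj]

theorem sum_sq_smul {N : Type*} [Group N] [Fintype N] (ϑ : Cfsg.IrrCharacter N) (e : ℕ)
    (r : N → ℂ) (hr : r = (e : ℂ) • ϑ.1) :
    ∑ n : N, r n * (starRingEnd ℂ) (r n) = ((e ^ 2 * Nat.card N : ℕ) : ℂ) := by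
  rw [hr]
  have h1 : ∀ n : N, ((e : ℂ) • ϑ.1) n * (starRingEnd ℂ) (((e : ℂ) • ϑ.1) n)
      = (e : ℂ) ^ 2 * (ϑ.1 n * (starRingEnd ℂ) (ϑ.1 n)) := by
    intro n
    simp only [Pi.smul_apply, smul_eq_mul, map_mul, Complex.conj_natCast]
    ring
  rw [Finset.sum_congr rfl (fun n _ => h1 n), ← Finset.mul_sum, sum_sq_irr ϑ]
  push_cast
  ring

/-- Let N be a normal subgroup of the finite group G, χ an irreducible character of G and ϑ an irreducible character of N having nonzero inner product with the restriction of χ. Consider: (a) the restriction of χ to N is e • ϑ for a natural number e with e ^ 2 equal to the index of N; (b) χ vanishes outside N and ϑ is invariant under conjugation by G; (c) ϑ is invariant and every irreducible character of G having nonzero inner product with the function induced from ϑ equals χ. Then (a) ↔ (b) and (a) ↔ (c). -/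
theorem result {G : Type*} [Group G] [Fintype G] (N : Subgroup G) [hN : N.Normal] [Fintype N] (χ : G → ℂ) (hχ : Cfsg.IsIrrCharacter G χ) (ϑ : N → ℂ) (hϑ : Cfsg.IsIrrCharacter N ϑ) (hcon : Cfsg.classInner (fun n : N => χ n) ϑ ≠ 0) : ((∃ e : ℕ, (fun n : N => χ n) = (e : ℂ) • ϑ ∧ e ^ 2 = N.index) ↔ ((∀ g : G, g ∉ N → χ g = 0) ∧ ∀ (g : G) (n : N), ϑ ⟨g * n * g⁻¹, hN.conj_mem (n : G) n.2 g⟩ = ϑ n)) ∧ ((∃ e : ℕ, (fun n : N => χ n) = (e : ℂ) • ϑ ∧ e ^ 2 = N.index) ↔ (∀ (g : G) (n : N), ϑ ⟨g * n * g⁻¹, hN.conj_mem (n : G) n.2 g⟩ = ϑ n ∧ ∀ ψ : G → ℂ, Cfsg.IsIrrCharacter G ψ → Cfsg.classInner (Cfsg.indFun N ϑ) ψ ≠ 0 → ψ = χ)) := by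
  classical
  haveI : Fintype (Cfsg.IrrCharacter G) := Fintype.ofFinite _
  haveI : Fintype (Cfsg.IrrCharacter N) := Fintype.ofFinite _
  let χ' : Cfsg.IrrCharacter G := ⟨χ, hχ⟩
  let ϑ' : Cfsg.IrrCharacter N := ⟨ϑ, hϑ⟩
  have hχc : Cfsg.IsClassFunction G χ := isClassFunction_of_irr χ'
  have hrc : Cfsg.IsClassFunction N (fun n : N => χ n) := Helper7.Cliff.isClassFunction_restrict N χ hχc
  obtain ⟨e0, he0⟩ := classInner_char_nat (isCharacter_restrict N (isCharacter_of_irr hχ))
    (isCharacter_of_irr hϑ)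
  have he0' : Cfsg.classInner (fun n : N => χ n) ϑ = (e0 : ℂ) := he0
  have he00 : e0 ≠ 0 := by
    intro h0
    rw [h0] at he0'
    exact hcon (by rw [he0']; simp)
  have hidx : Nat.card N * N.index = Nat.card G := Subgroup.card_mul_index N
  have hNpos : 0 < Nat.card N := Nat.card_pos
  obtain ⟨t, ht0, ht⟩ := irr_one_eq_nat ϑ'
  have ht' : ϑ 1 = (t : ℂ) := ht
  -- invariance gives restriction a multiple
  have F1 : (∀ (g : G) (n : N), ϑ ⟨g * n * g⁻¹, hN.conj_mem (n : G) n.2 g⟩ = ϑ n) →
      (fun n : N => χ n) = (e0 : ℂ) • ϑ := by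
    intro hinv
    have hexp := class_fn_expand' (fun n : N => χ n) hrc
    have hsingle : ∑ ψ : Cfsg.IrrCharacter N, Cfsg.classInner (fun n : N => χ n) ψ.1 • (ψ : N → ℂ)
        = Cfsg.classInner (fun n : N => χ n) ϑ'.1 • (ϑ' : N → ℂ) := by
      apply Finset.sum_eq_single ϑ'
      · intro ψ _ hne
        have h0 : Cfsg.classInner (fun n : N => χ n) ψ.1 = 0 := by
          by_contra h5
          obtain ⟨x, hx⟩ := Helper7.Cliff.exists_conj_of_constituents N χ' ϑ' ψ hcon h5
          apply hne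
          apply Subtype.ext
          rw [hx]
          funext n
          rw [conjFun_apply]
          exact hinv x n
        rw [h0, zero_smul]
      · intro h; exact absurd (Finset.mem_univ _) h
    rw [hsingle] at hexp
    rw [hexp]
    show Cfsg.classInner (fun n : N => χ n) ϑ • ϑ = _
    rw [he0']
  -- invariance from A
  have invA : ∀ e : ℕ, (fun n : N => χ n) = (e : ℂ) • ϑ → e ^ 2 = N.index →
      ∀ (g : G) (n : N), ϑ ⟨g * n * g⁻¹, hN.conj_mem (n : G) n.2 g⟩ = ϑ n := by
    intro e hre he2 g n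
    have hene : (e : ℂ) ≠ 0 := by
      intro h
      have h1 : e = 0 := by exact_mod_cast h
      rw [h1] at he2
      have := Subgroup.index_ne_zero_of_finite (H := N)
      simp at he2
      exact this he2.symm
    have h1 := congrFun hre ⟨g * n * g⁻¹, hN.conj_mem (n : G) n.2 g⟩
    have h2 := congrFun hre n
    simp only [Pi.smul_apply, smul_eq_mul] at h1 h2
    have h3 : χ (g * (n : G) * g⁻¹) = χ (n : G) := hχc (n : G) g
    rw [h3, h2] at h1
    exact (mul_left_cancel₀ hene h1).symm
  -- Frobenius multiplicity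
  have frob : ∀ e : ℕ, (fun n : N => χ n) = (e : ℂ) • ϑ →
      Cfsg.classInner (Cfsg.indFun N ϑ) χ = (e : ℂ) := by
    intro e hre
    rw [frobenius_reciprocity N ϑ χ hχc, hre, classInner_smul_right, Complex.conj_natCast]
    have := irr_inner_self ϑ'
    rw [show Cfsg.classInner ϑ ϑ = 1 from this, mul_one]
  have hind1 : Cfsg.indFun N ϑ 1 = ((N.index * t : ℕ) : ℂ) := by
    rw [indFun_one_eq, ht', ← Nat.card_eq_fintype_card, ← hidx]
    have hN0 : (Nat.card N : ℂ) ≠ 0 := by exact_mod_cast hNpos.ne'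
    push_cast
    field_simp
  obtain ⟨m, hm⟩ := isCharacter_decomp (isCharacter_indFun N ϑ (isCharacter_of_irr hϑ))
  have hmφ : ∀ φ : Cfsg.IrrCharacter G, Cfsg.classInner (Cfsg.indFun N ϑ) φ.1 = (m φ : ℂ) := by
    intro φ
    rw [hm]; exact classInner_nat_comb (fun χ => (m χ : ℂ)) φ
  choose d hd0 hd using fun φ : Cfsg.IrrCharacter G => irr_one_eq_nat φ
  have hdeg : N.index * t = ∑ φ : Cfsg.IrrCharacter G, m φ * d φ := by
    have h1 : Cfsg.indFun N ϑ 1 = ∑ φ : Cfsg.IrrCharacter G, ((m φ * d φ : ℕ) : ℂ) := by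
      conv_lhs => rw [hm]
      rw [Finset.sum_apply]
      apply Finset.sum_congr rfl
      intro φ _
      rw [Pi.smul_apply, smul_eq_mul, hd φ]
      push_cast; ring
    rw [hind1, ← Nat.cast_sum] at h1
    exact_mod_cast h1
  have hdχ : ∀ e : ℕ, (fun n : N => χ n) = (e : ℂ) • ϑ → d χ' = e * t := by
    intro e hre
    have h1 := congrFun hre 1
    simp only [Pi.smul_apply, smul_eq_mul] at h1
    have h2 : χ 1 = (d χ' : ℂ) := hd χ'
    have h3 : χ ((1 : N) : G) = χ 1 := by rw [Subgroup.coe_one]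
    rw [h3, h2, ht'] at h1
    exact_mod_cast h1
  have hmχ : ∀ e : ℕ, (fun n : N => χ n) = (e : ℂ) • ϑ → m χ' = e := by
    intro e hre
    have h1 := frob e hre
    have h2 := hmφ χ'
    rw [show Cfsg.classInner (Cfsg.indFun N ϑ) χ'.1 = Cfsg.classInner (Cfsg.indFun N ϑ) χ from rfl, h1] at h2
    exact_mod_cast h2.symm
  have hSG := sum_sq_irr χ'
  have hsplit := sum_split N χ
  constructor
  · constructor
    · rintro ⟨e, hre, he2⟩
      refine ⟨?_, invA e hre he2⟩
      have hSN := sum_sq_smul ϑ' e (fun n : N => χ n) hre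
      rw [show ∑ g : G, χ g * (starRingEnd ℂ) (χ g) = (Nat.card G : ℂ) from hSG, hSN, he2, mul_comm, hidx] at hsplit
      have h0 : ∑ g : G, (((if g ∈ N then 0 else Complex.normSq (χ g) : ℝ)) : ℂ) = 0 := by
        have := hsplit
        linear_combination -this
      rw [← Complex.ofReal_sum] at h0
      have h0' : ∑ g : G, (if g ∈ N then 0 else Complex.normSq (χ g) : ℝ) = 0 := by exact_mod_cast h0
      have hnn : ∀ g ∈ (Finset.univ : Finset G), (0:ℝ) ≤ (if g ∈ N then 0 else Complex.normSq (χ g) : ℝ) := by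
        intro g _
        split_ifs
        · exact le_refl _
        · exact Complex.normSq_nonneg _
      have hz := (Finset.sum_eq_zero_iff_of_nonneg hnn).mp h0'
      intro g hg
      have := hz g (Finset.mem_univ g)
      rw [if_neg hg] at this
      exact Complex.normSq_eq_zero.mp this
    · rintro ⟨hvan, hinv⟩
      have hre := F1 hinv
      refine ⟨e0, hre, ?_⟩
      have hSN := sum_sq_smul ϑ' e0 (fun n : N => χ n) hre
      have hzero : ∑ g : G, (((if g ∈ N then 0 else Complex.normSq (χ g) : ℝ)) : ℂ) = 0 := by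
        apply Finset.sum_eq_zero
        intro g _
        by_cases hg : g ∈ N
        · rw [if_pos hg, Complex.ofReal_zero]
        · rw [if_neg hg, hvan g hg]; simp
      rw [show ∑ g : G, χ g * (starRingEnd ℂ) (χ g) = (Nat.card G : ℂ) from hSG, hSN, hzero, add_zero] at hsplit
      have h1 : Nat.card G = e0 ^ 2 * Nat.card N := by exact_mod_cast hsplit
      rw [← hidx, mul_comm] at h1
      exact (Nat.eq_of_mul_eq_mul_right hNpos h1).symm
  · constructor
    · rintro ⟨e, hre, he2⟩ g n
      refine ⟨invA e hre he2 g n, ?_⟩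
      intro ψ hψ hne
      by_contra hψχ
      let ψ' : Cfsg.IrrCharacter G := ⟨ψ, hψ⟩
      have hne' : χ' ≠ ψ' := by
        intro h
        apply hψχ
        exact (congrArg Subtype.val h).symm
      have hmψ : m ψ' ≠ 0 := by
        intro h0
        apply hne
        have := hmφ ψ'
        rw [h0] at this
        rw [show Cfsg.classInner (Cfsg.indFun N ϑ) ψ = Cfsg.classInner (Cfsg.indFun N ϑ) ψ'.1 from rfl, this]
        simp
      have hle : m χ' * d χ' + m ψ' * d ψ' ≤ ∑ φ : Cfsg.IrrCharacter G, m φ * d φ := by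
        have h7 := Finset.sum_le_sum_of_subset (f := fun φ : Cfsg.IrrCharacter G => m φ * d φ)
          (Finset.subset_univ ({χ', ψ'} : Finset (Cfsg.IrrCharacter G)))
        rw [Finset.sum_pair hne'] at h7
        exact h7
      rw [← hdeg, hmχ e hre, hdχ e hre, ← he2] at hle
      have hpos : 0 < m ψ' * d ψ' := Nat.mul_pos (Nat.pos_of_ne_zero hmψ) (hd0 ψ')
      have : e * (e * t) = e ^ 2 * t := by ring
      omega
    · intro hC
      have hinv : ∀ (g : G) (n : N), ϑ ⟨g * n * g⁻¹, hN.conj_mem (n : G) n.2 g⟩ = ϑ n :=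
        fun g n => (hC g n).1
      have huniq := (hC 1 1).2
      have hre := F1 hinv
      refine ⟨e0, hre, ?_⟩
      have hsum : ∑ φ : Cfsg.IrrCharacter G, m φ * d φ = m χ' * d χ' := by
        apply Finset.sum_eq_single χ'
        · intro φ _ hφ
          have : m φ = 0 := by
            by_contra hmne
            apply hφ
            apply Subtype.ext
            apply huniq φ.1 φ.2
            rw [hmφ φ]
            exact_mod_cast hmne
          rw [this, zero_mul]
        · intro h; exact absurd (Finset.mem_univ _) h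
      rw [hsum, hmχ e0 hre, hdχ e0 hre] at hdeg
      have h1 : N.index * t = e0 ^ 2 * t := by rw [hdeg]; ring
      exact (Nat.eq_of_mul_eq_mul_right ht0 h1).symm

end Cfsg.Agent.S0900
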