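import Mathlib
import Cfsg.Statements.S0894
import Cfsg.Agent.Lib.Helper7.Clifford
import Cfsg.Agent.Lib.Lead.Char9
import Cfsg.Agent.Lib.Lead.Char10
import Cfsg.Agent.Lib.Lead.Char14
import Cfsg.Agent.Lib.Helper7.Schur
import Cfsg.Agent.Lib.Helper7.LinTwist
import Cfsg.Agent.S0900

set_option autoImplicit false
open Cfsg

namespace Cfsg.Agent.S0894



open Cfsg.Agent.Lib Cfsg.Agent.Lib.Lead

/-- an irreducible character has constant absolute value on the centre -/
theorem center_abs {G : Type*} [Group G] [Finite G] (χ : Cfsg.IrrCharacter G) (z : G)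
    (hz : z ∈ Subgroup.center G) :
    χ.1 z * (starRingEnd ℂ) (χ.1 z) = χ.1 1 * (starRingEnd ℂ) (χ.1 1) := by
  obtain ⟨n, ρ, hρ, hρχ⟩ := χ.2
  haveI := hρ
  obtain ⟨c, hc⟩ := Helper7.central_scalar ρ z hz
  haveI : Nontrivial (Fin n → ℂ) := ((irr_iff ρ).mp hρ).1
  have hpow : c ^ (orderOf z) = 1 := by
    have h1 : ρ (z ^ orderOf z) = (c ^ orderOf z) • (1 : Module.End ℂ (Fin n → ℂ)) := by
      rw [map_pow, hc, smul_pow, one_pow]
    rw [pow_orderOf_eq_one, map_one] at h1
    obtain ⟨v, hv⟩ := exists_ne (0 : Fin n → ℂ)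
    have h2 : v = (c ^ orderOf z) • v := by
      have h2' := congrArg (fun f : Module.End ℂ (Fin n → ℂ) => f v) h1
      simpa only [Module.End.one_apply, LinearMap.smul_apply] using h2'
    have h3 : ((1:ℂ) - c ^ orderOf z) • v = 0 := by rw [sub_smul, one_smul, ← h2, sub_self]
    rcases smul_eq_zero.mp h3 with h4 | h4
    · exact (sub_eq_zero.mp h4).symm
    · exact absurd h4 hv
  have hnorm : ‖c‖ = 1 := root_norm_one (orderOf_pos z) hpow
  have hz1 : χ.1 z = c * χ.1 1 := by
    rw [← hρχ]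
    have := Helper7.character_mul_scalar ρ 1 z c hc
    rwa [one_mul] at this
  rw [hz1, map_mul]
  have hcc : c * (starRingEnd ℂ) c = 1 := by
    rw [Complex.mul_conj, Complex.normSq_eq_norm_sq, hnorm]; simp
  calc c * χ.1 1 * ((starRingEnd ℂ) c * (starRingEnd ℂ) (χ.1 1))
      = (c * (starRingEnd ℂ) c) * (χ.1 1 * (starRingEnd ℂ) (χ.1 1)) := by ring
    _ = _ := by rw [hcc, one_mul]

/-- a function vanishing off a subgroup: the sum of squares is the sum over the subgroup -/
theorem sum_eq_of_vanish {G : Type*} [Group G] [Fintype G] (N : Subgroup G) [Fintype N] (χ : G → ℂ)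
    (hvan : ∀ g : G, g ∉ N → χ g = 0) :
    ∑ g : G, χ g * (starRingEnd ℂ) (χ g) = ∑ n : N, χ n * (starRingEnd ℂ) (χ n) := by
  classical
  rw [← sum_extendByZero_mul N (fun n : N => χ n) (fun g => (starRingEnd ℂ) (χ g))]
  apply Finset.sum_congr rfl
  intro g _
  by_cases hg : g ∈ N
  · rw [extendByZero_mem' _ _ hg]
  · rw [extendByZero_not_mem _ _ hg, zero_mul, hvan g hg, zero_mul]

/-- characters of an extraspecial group: the data -/
theorem extra_data {P : Type*} [Group P] [Fintype P] [Fintype (Cfsg.IrrCharacter P)] (p n : ℕ) [Fact p.Prime]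
    (hP : Cfsg.IsExtraspecial p P) (hcard : Nat.card P = p ^ (2 * n + 1)) :
    Nat.card {χ : Cfsg.IrrCharacter P // (χ : P → ℂ) 1 = 1} = p ^ (2 * n) ∧
    (∀ χ : Cfsg.IrrCharacter P, (χ : P → ℂ) 1 ≠ 1 → ∀ x : P, x ∉ Subgroup.center P → χ.1 x = 0) ∧
    (∀ χ : Cfsg.IrrCharacter P, (χ : P → ℂ) 1 ≠ 1 → (χ : P → ℂ) 1 = ((p ^ n : ℕ) : ℂ)) ∧ n ≠ 0 := by
  classical
  obtain ⟨⟨hPp, hfr, hcomm⟩, hZ⟩ := hP
  have hp := (Fact.out : p.Prime)
  have hp1 : 1 < p := hp.one_lt
  have hZidx : (Subgroup.center P).index = p ^ (2 * n) := by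
    have := Subgroup.card_mul_index (Subgroup.center P)
    rw [hZ, hcard, show 2 * n + 1 = 1 + 2 * n by ring, pow_add, pow_one] at this
    exact Nat.eq_of_mul_eq_mul_left hp.pos this
  have hlincard : Nat.card {χ : Cfsg.IrrCharacter P // (χ : P → ℂ) 1 = 1} = p ^ (2 * n) := by
    rw [card_linear_char, hcomm, hZidx]
  choose d hd0 hd using fun χ : Cfsg.IrrCharacter P => irr_one_eq_nat χ
  have hcent : ∀ x : P, x ∉ Subgroup.center P →
      Nat.card (Subgroup.centralizer ({x} : Set P)) ≤ p ^ (2 * n) := by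
    intro x hx
    have h1 : Nat.card (Subgroup.centralizer ({x} : Set P)) ∣ p ^ (2 * n + 1) := by
      rw [← hcard]; exact Subgroup.card_subgroup_dvd_card _
    obtain ⟨j, hj, hj2⟩ := (Nat.dvd_prime_pow hp).mp h1
    rw [hj2]
    apply Nat.pow_le_pow_right hp.pos
    by_contra hlt
    have hj3 : j = 2 * n + 1 := by omega
    rw [hj3, ← hcard] at hj2
    have htop : Subgroup.centralizer ({x} : Set P) = ⊤ := Subgroup.eq_top_of_card_eq _ hj2
    apply hx
    rw [Subgroup.mem_center_iff]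
    intro g
    have hg : g ∈ Subgroup.centralizer ({x} : Set P) := by rw [htop]; exact Subgroup.mem_top g
    exact (Subgroup.mem_centralizer_iff.mp hg x (Set.mem_singleton x)).symm
  have hvan : ∀ χ : Cfsg.IrrCharacter P, (χ : P → ℂ) 1 ≠ 1 →
      ∀ x : P, x ∉ Subgroup.center P → χ.1 x = 0 := by
    intro χ0 hχ0 x hx
    have hco := col_orth' x x
    rw [if_pos (IsConj.refl x)] at hco
    have hre : ∑ χ : Cfsg.IrrCharacter P, Complex.normSq (χ.1 x)
        = (Nat.card (Subgroup.centralizer ({x} : Set P)) : ℝ) := by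
      have h1 : ((∑ χ : Cfsg.IrrCharacter P, Complex.normSq (χ.1 x) : ℝ) : ℂ)
          = ((Nat.card (Subgroup.centralizer ({x} : Set P)) : ℝ) : ℂ) := by
        rw [Complex.ofReal_sum]
        push_cast
        rw [← hco]
        apply Finset.sum_congr rfl
        intro χ _
        rw [Complex.mul_conj]
      exact_mod_cast h1
    rw [← Finset.sum_filter_add_sum_filter_not Finset.univ
      (fun χ : Cfsg.IrrCharacter P => (χ : P → ℂ) 1 = 1)] at hre
    have hlin : ∑ χ ∈ Finset.univ.filter (fun χ : Cfsg.IrrCharacter P => (χ : P → ℂ) 1 = 1),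
        Complex.normSq (χ.1 x) = ((p ^ (2 * n) : ℕ) : ℝ) := by
      rw [← hlincard, Nat.card_eq_fintype_card, Fintype.card_subtype, Finset.card_eq_sum_ones]
      push_cast
      apply Finset.sum_congr rfl
      intro χ hχ
      have h1 := Helper7.LT.linear_mul_conj χ (Finset.mem_filter.mp hχ).2 x
      rw [Complex.mul_conj] at h1
      exact_mod_cast h1
    have hle : ((Nat.card (Subgroup.centralizer ({x} : Set P)) : ℕ) : ℝ) ≤ ((p ^ (2 * n) : ℕ) : ℝ) := by
      exact_mod_cast hcent x hx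
    have hsum0 : ∑ χ ∈ Finset.univ.filter (fun χ : Cfsg.IrrCharacter P => ¬ (χ : P → ℂ) 1 = 1),
        Complex.normSq (χ.1 x) ≤ 0 := by
      linarith
    have hnn : ∀ χ ∈ Finset.univ.filter (fun χ : Cfsg.IrrCharacter P => ¬ (χ : P → ℂ) 1 = 1),
        (0:ℝ) ≤ Complex.normSq (χ.1 x) := fun χ _ => Complex.normSq_nonneg _
    have hz := (Finset.sum_eq_zero_iff_of_nonneg hnn).mp (le_antisymm hsum0 (Finset.sum_nonneg hnn))
    have := hz χ0 (Finset.mem_filter.mpr ⟨Finset.mem_univ _, hχ0⟩)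
    exact Complex.normSq_eq_zero.mp this
  have hdeg : ∀ χ : Cfsg.IrrCharacter P, (χ : P → ℂ) 1 ≠ 1 → d χ = p ^ n := by
    intro χ hχ
    haveI : Fintype (Subgroup.center P) := Fintype.ofFinite _
    have hSG := S0900.sum_sq_irr χ
    have hsplit := sum_eq_of_vanish (Subgroup.center P) χ.1 (hvan χ hχ)
    have hZsum : ∑ z : Subgroup.center P, χ.1 z * (starRingEnd ℂ) (χ.1 z)
        = ((p * d χ ^ 2 : ℕ) : ℂ) := by
      rw [Finset.sum_congr rfl (fun (z : Subgroup.center P) _ => center_abs χ (z : P) z.2)]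
      rw [Finset.sum_const, Finset.card_univ, ← Nat.card_eq_fintype_card, hZ, hd χ]
      simp only [Complex.conj_natCast, nsmul_eq_mul]
      push_cast; ring
    rw [hSG, hZsum, hcard] at hsplit
    have h1 : p ^ (2 * n + 1) = p * d χ ^ 2 := by exact_mod_cast hsplit
    have h2 : p ^ (2 * n) = d χ ^ 2 := by
      rw [pow_succ, mul_comm] at h1
      exact Nat.eq_of_mul_eq_mul_left hp.pos h1
    have h3 : (p ^ n) ^ 2 = d χ ^ 2 := by rw [← h2]; ring
    exact (Nat.pow_left_injective (two_ne_zero)) h3.symm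
  refine ⟨hlincard, hvan, ?_, ?_⟩
  · intro χ hχ
    rw [hd χ, hdeg χ hχ]
  · intro h0
    have hcard' : Nat.card P = p := by rw [hcard, h0]; simp
    have htop : Subgroup.center P = ⊤ := Subgroup.eq_top_of_card_eq _ (by rw [hZ, hcard'])
    have hbot : commutator P = ⊥ := by
      rw [commutator_def, Subgroup.commutator_eq_bot_iff_le_centralizer, Subgroup.coe_top,
        Subgroup.centralizer_univ, htop]
    rw [hcomm] at hbot
    rw [hbot, Subgroup.card_bot] at hZ
    omega

/-- Let P be an extraspecial p-group of order p ^ (2 * n + 1). Then every irreducible character of P has degree 1 or p ^ n, and exactly p - 1 of them have degree p ^ n. -/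
theorem result {P : Type*} [Group P] [Finite P] (p n : ℕ) [Fact p.Prime] (hP : Cfsg.IsExtraspecial p P) (hcard : Nat.card P = p ^ (2 * n + 1)) : (∀ χ : Cfsg.IrrCharacter P, (χ : P → ℂ) 1 = 1 ∨ (χ : P → ℂ) 1 = (p : ℂ) ^ n) ∧ Nat.card {χ : Cfsg.IrrCharacter P // (χ : P → ℂ) 1 = (p : ℂ) ^ n} = p - 1 := by
  classical
  haveI : Fintype P := Fintype.ofFinite P
  haveI : Fintype (Cfsg.IrrCharacter P) := Fintype.ofFinite _
  obtain ⟨hlincard, hvan, hdeg', hn1⟩ := extra_data p n hP hcard
  have hp := (Fact.out : p.Prime)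
  have hp1 : 1 < p := hp.one_lt
  choose d hd0 hd using fun χ : Cfsg.IrrCharacter P => irr_one_eq_nat χ
  have hdeg : ∀ χ : Cfsg.IrrCharacter P, (χ : P → ℂ) 1 ≠ 1 → d χ = p ^ n := by
    intro χ hχ
    have := hdeg' χ hχ
    rw [hd χ] at this
    exact_mod_cast this
  constructor
  · intro χ
    by_cases h1 : (χ : P → ℂ) 1 = 1
    · left; exact h1
    · right; rw [hdeg' χ h1]; push_cast; rfl
  · have hsumsq : ∑ χ : Cfsg.IrrCharacter P, d χ ^ 2 = p ^ (2 * n + 1) := by
      have h1 := sum_deg_sq (G := P)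
      rw [finsum_eq_sum_of_fintype, hcard] at h1
      rw [Finset.sum_congr rfl (fun χ _ => by rw [hd χ])] at h1
      exact_mod_cast h1
    rw [← Finset.sum_filter_add_sum_filter_not Finset.univ
      (fun χ : Cfsg.IrrCharacter P => (χ : P → ℂ) 1 = 1)] at hsumsq
    have hA : ∑ χ ∈ Finset.univ.filter (fun χ : Cfsg.IrrCharacter P => (χ : P → ℂ) 1 = 1), d χ ^ 2
        = p ^ (2 * n) := by
      rw [← hlincard, Nat.card_eq_fintype_card, Fintype.card_subtype, Finset.card_eq_sum_ones]
      apply Finset.sum_congr rfl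
      intro χ hχ
      have h1 := (Finset.mem_filter.mp hχ).2
      rw [hd χ] at h1
      have : d χ = 1 := by exact_mod_cast h1
      rw [this]; rfl
    have hB : ∑ χ ∈ Finset.univ.filter (fun χ : Cfsg.IrrCharacter P => ¬ (χ : P → ℂ) 1 = 1), d χ ^ 2
        = (Finset.univ.filter (fun χ : Cfsg.IrrCharacter P => ¬ (χ : P → ℂ) 1 = 1)).card * p ^ (2 * n) := by
      rw [Finset.card_eq_sum_ones, Finset.sum_mul]
      apply Finset.sum_congr rfl
      intro χ hχ
      rw [hdeg χ (Finset.mem_filter.mp hχ).2, one_mul]; ring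
    rw [hA, hB] at hsumsq
    have hM : (Finset.univ.filter (fun χ : Cfsg.IrrCharacter P => ¬ (χ : P → ℂ) 1 = 1)).card = p - 1 := by
      have hpos : 0 < p ^ (2 * n) := pow_pos hp.pos _
      have h1 : p ^ (2 * n + 1) = p * p ^ (2 * n) := by rw [pow_succ]; ring
      rw [h1] at hsumsq
      have h2 : (1 + (Finset.univ.filter (fun χ : Cfsg.IrrCharacter P => ¬ (χ : P → ℂ) 1 = 1)).card) * p ^ (2 * n)
          = p * p ^ (2 * n) := by rw [← hsumsq]; ring
      have h3 := Nat.eq_of_mul_eq_mul_right hpos h2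
      omega
    rw [← hM, Nat.card_eq_fintype_card, Fintype.card_subtype]
    congr 1
    ext χ
    simp only [Finset.mem_filter, Finset.mem_univ, true_and]
    constructor
    · intro h hone
      rw [hone] at h
      have h5 : (1 : ℕ) = p ^ n := by exact_mod_cast h
      have h4 := Nat.one_lt_pow hn1 hp1
      omega
    · intro h
      rw [hdeg' χ h]; push_cast; rfl

end Cfsg.Agent.S0894
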