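import Mathlib
import Cfsg.Statements.S0893
import Cfsg.Agent.Lib.Helper7.Clifford
import Cfsg.Agent.Lib.Lead.Char8
import Cfsg.Agent.Lib.Lead.Char9
import Cfsg.Agent.Lib.Lead.Char10
import Cfsg.Agent.Lib.Lead.Char14
import Cfsg.Agent.Lib.Helper7.ClassProd
import Cfsg.Agent.S0894

set_option autoImplicit false
open Cfsg

namespace Cfsg.Agent.S0893



open Cfsg.Agent.Lib Cfsg.Agent.Lib.Lead

/-- a character of degree one is irreducible -/
theorem irr_of_char_one {A : Type*} [Group A] (lam : A → ℂ) (h : Cfsg.IsCharacter A lam)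
    (h1 : lam 1 = 1) : Cfsg.IsIrrCharacter A lam := by
  obtain ⟨n, ρ, hρ⟩ := h
  refine ⟨n, ρ, ?_, hρ⟩
  apply irr_of_finrank_one
  have := Representation.char_one ρ
  rw [hρ, h1] at this
  exact_mod_cast this.symm

/-- Let P be an extraspecial p-group of order p ^ (2 * n + 1), A an abelian subgroup of order p ^ (n + 1), and λ a character of A of degree 1 that is not identically 1 on the elements of A lying in the centre of P. Then the function induced from λ to P is an irreducible character of P and vanishes at every element outside the centre. -/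
theorem result {P : Type*} [Group P] [Fintype P] (p n : ℕ) [Fact p.Prime] (hP : Cfsg.IsExtraspecial p P) (hcard : Nat.card P = p ^ (2 * n + 1)) (A : Subgroup P) (hab : ∀ a ∈ A, ∀ b ∈ A, a * b = b * a) (hA : Nat.card A = p ^ (n + 1)) (lam : A → ℂ) (hlam : Cfsg.IsCharacter A lam ∧ lam 1 = 1) (hZ : ∃ a : A, (a : P) ∈ Subgroup.center P ∧ lam a ≠ 1) : Cfsg.IsIrrCharacter P (Cfsg.indFun A lam) ∧ ∀ x : P, x ∉ Subgroup.center P → Cfsg.indFun A lam x = 0 := by
  classical
  haveI : Fintype (Cfsg.IrrCharacter P) := Fintype.ofFinite _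
  haveI : Fintype A := Fintype.ofFinite A
  obtain ⟨hlincard, hvan, hdeg', hn1⟩ := S0894.extra_data p n hP hcard
  have hp := (Fact.out : p.Prime)
  have hlamirr : Cfsg.IsIrrCharacter A lam := irr_of_char_one lam hlam.1 hlam.2
  obtain ⟨a, haZ, hane⟩ := hZ
  obtain ⟨m, hm⟩ := isCharacter_decomp (isCharacter_indFun A lam hlam.1)
  have hmφ : ∀ φ : Cfsg.IrrCharacter P, Cfsg.classInner (Cfsg.indFun A lam) φ.1 = (m φ : ℂ) := by
    intro φ; rw [hm]; exact classInner_nat_comb (fun χ => (m χ : ℂ)) φ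
  have hnonlin : ∀ φ : Cfsg.IrrCharacter P, m φ ≠ 0 → (φ : P → ℂ) 1 ≠ 1 := by
    intro φ hmne h1
    have h2 : Cfsg.classInner lam (fun x : A => φ.1 x) ≠ 0 := by
      rw [← frobenius_reciprocity A lam φ.1 (isClassFunction_of_irr φ), hmφ φ]
      exact_mod_cast hmne
    have hres : Cfsg.IsIrrCharacter A (fun x : A => φ.1 x) := by
      apply irr_of_char_one _ (isCharacter_restrict A (isCharacter_of_irr φ.2))
      show φ.1 ((1 : A) : P) = 1
      rw [Subgroup.coe_one]; exact h1
    have heq : (⟨lam, hlamirr⟩ : Cfsg.IrrCharacter A) = ⟨fun x : A => φ.1 x, hres⟩ := by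
      by_contra hne
      have h5 := irr_inner_ne (χ := (⟨lam, hlamirr⟩ : Cfsg.IrrCharacter A))
        (ψ := ⟨fun x : A => φ.1 x, hres⟩) hne
      exact h2 h5
    have h3 : lam a = φ.1 (a : P) := by
      have := congrArg (fun f : Cfsg.IrrCharacter A => f.1 a) heq
      exact this
    apply hane
    rw [h3]
    apply Helper7.irr_linear_commutator φ h1
    rw [hP.1.2.2]
    exact haZ
  have hidx : A.index = p ^ n := by
    have := Subgroup.card_mul_index A
    rw [hA, hcard] at this
    have h2 : p ^ (2 * n + 1) = p ^ (n + 1) * p ^ n := by rw [← pow_add]; congr 1; ring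
    rw [h2] at this
    exact Nat.eq_of_mul_eq_mul_left (pow_pos hp.pos _) this
  have hind1 : Cfsg.indFun A lam 1 = ((p ^ n : ℕ) : ℂ) := by
    rw [indFun_one_eq, hlam.2, ← Nat.card_eq_fintype_card, ← Subgroup.card_mul_index A, hidx]
    have hA0 : (Nat.card A : ℂ) ≠ 0 := by exact_mod_cast (Nat.card_pos).ne'
    push_cast
    field_simp
  have hsum : ∑ φ : Cfsg.IrrCharacter P, m φ * p ^ n = p ^ n := by
    have h1 : Cfsg.indFun A lam 1 = ∑ φ : Cfsg.IrrCharacter P, ((m φ * p ^ n : ℕ) : ℂ) := by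
      conv_lhs => rw [hm]
      rw [Finset.sum_apply]
      apply Finset.sum_congr rfl
      intro φ _
      rw [Pi.smul_apply, smul_eq_mul]
      by_cases hmz : m φ = 0
      · rw [hmz]; simp
      · rw [hdeg' φ (hnonlin φ hmz)]; push_cast; ring
    rw [hind1, ← Nat.cast_sum] at h1
    exact_mod_cast h1.symm
  have hsum1 : ∑ φ : Cfsg.IrrCharacter P, m φ = 1 := by
    rw [← Finset.sum_mul] at hsum
    have hpos : 0 < p ^ n := pow_pos hp.pos _
    exact Nat.eq_of_mul_eq_mul_right hpos (by rw [hsum, one_mul])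
  obtain ⟨φ0, hφ0⟩ : ∃ φ0, m φ0 ≠ 0 := by
    by_contra hcon
    push Not at hcon
    rw [Finset.sum_eq_zero (fun φ _ => hcon φ)] at hsum1
    exact zero_ne_one hsum1
  have hm0 : ∀ φ, φ ≠ φ0 → m φ = 0 := by
    intro φ hne
    by_contra hmne
    have hle : m φ0 + m φ ≤ ∑ φ : Cfsg.IrrCharacter P, m φ := by
      have h7 := Finset.sum_le_sum_of_subset (f := fun φ : Cfsg.IrrCharacter P => m φ)
          (Finset.subset_univ ({φ0, φ} : Finset (Cfsg.IrrCharacter P)))
      rw [Finset.sum_pair (Ne.symm hne)] at h7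
      exact h7
    omega
  have hm1 : m φ0 = 1 := by
    rw [Finset.sum_eq_single φ0 (fun φ _ hne => hm0 φ hne)
      (fun h => absurd (Finset.mem_univ _) h)] at hsum1
    exact hsum1
  have heq : Cfsg.indFun A lam = φ0.1 := by
    rw [hm]
    rw [Finset.sum_eq_single φ0]
    · rw [hm1]; simp
    · intro φ _ hne
      rw [hm0 φ hne]; simp
    · intro h; exact absurd (Finset.mem_univ _) h
  rw [heq]
  exact ⟨φ0.2, hvan φ0 (hnonlin φ0 hφ0)⟩

end Cfsg.Agent.S0893
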