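import Cfsg.Statements.S1272
import Cfsg.Agent.Lib.Helper2.Comp15

set_option autoImplicit false
open Cfsg

namespace Cfsg.Agent.S1272

open Cfsg.Agent.Lib.Helper2.Comp in
theorem result {X : Type*} [Group X] [Finite X] (p : ℕ) [Fact p.Prime] : (∀ Kbar : Subgroup (X ⧸ Cfsg.pPrimeCore p X), Cfsg.IsComponent Kbar → ∃! K : Subgroup X, Cfsg.IsPComponent p K ∧ K.map (QuotientGroup.mk' (Cfsg.pPrimeCore p X)) = Kbar) ∧ (Cfsg.pLayer p X).map (QuotientGroup.mk' (Cfsg.pPrimeCore p X)) = Cfsg.layer (X ⧸ Cfsg.pPrimeCore p X) := by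
  refine ⟨fun Kb hKb => ⟨_, ⟨isPComponent_pGenOf_comap p hKb, map_pGenOf_comap p hKb⟩, ?_⟩,
    map_pLayer p⟩
  rintro K ⟨hK, hKm⟩
  exact isPComponent_eq_of_map_eq p hK (isPComponent_pGenOf_comap p hKb)
    (hKm.trans (map_pGenOf_comap p hKb).symm)

end Cfsg.Agent.S1272
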