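import Cfsg.Statements.S1273
import Cfsg.Agent.Lib.Helper2.Comp15

set_option autoImplicit false
open Cfsg

namespace Cfsg.Agent.S1273

open Cfsg.Agent.Lib.Helper2.Comp in
theorem result {X : Type*} [Group X] [Finite X] (p : ℕ) [Fact p.Prime] (K : Subgroup X) (hK : Cfsg.IsPComponent p K) (N : Subgroup ↥K) [N.Normal] (hidx : (N.index).Coprime p) : N = ⊤ := by
  rw [eq_top_iff]
  have h := pGenOf_eq_self_of_isPComponent p hK
  have key : pGenOf p K ≤ N.map K.subtype := by
    apply (Subgroup.closure_le _).mpr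
    rintro x ⟨hxK, k, hk⟩
    have h1 : (⟨x, hxK⟩ : K) ∈ N :=
      mem_of_subnormal_of_index_coprime (Subgroup.Normal.isSubnormal inferInstance) hidx (k := k)
        (by apply Subtype.ext; simpa using hk)
    exact ⟨⟨x, hxK⟩, h1, rfl⟩
  intro x _
  have hx : (x : X) ∈ pGenOf p K := by rw [h]; exact x.2
  obtain ⟨y, hy, hyx⟩ := key hx
  have h2 : y = x := Subtype.ext hyx
  rw [← h2]; exact hy

end Cfsg.Agent.S1273
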