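import Cfsg.Statements.S1276
import Cfsg.Agent.Lib.Helper2.Comp15

set_option autoImplicit false
open Cfsg

namespace Cfsg.Agent.S1276

open Cfsg.Agent.Lib.Helper2.Comp in
theorem result {X : Type*} [Group X] [Finite X] (K : Subgroup X) (hK : Cfsg.IsPComponent 2 K) : Cfsg.IsQuasisimple ↥K ↔ ⁅K, ((Cfsg.oddCore ↥K).map K.subtype)⁆ = ⊥ := by
  haveI : Fact (Nat.Prime 2) := ⟨Nat.prime_two⟩
  have h := map_pPrimeCore_eq 2 hK.1
  show _ ↔ ⁅K, (Cfsg.pPrimeCore 2 ↥K).map K.subtype⁆ = ⊥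
  rw [h]
  exact isQuasisimple_pComponent_iff 2 hK

end Cfsg.Agent.S1276
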