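import Cfsg.Statements.S1277
import Cfsg.Agent.Lib.Helper2.Comp15

set_option autoImplicit false
open Cfsg

namespace Cfsg.Agent.S1277

open Cfsg.Agent.Lib.Helper2.Comp in
theorem result {X : Type*} [Group X] [Finite X] : (Cfsg.layer X).map (QuotientGroup.mk' (Cfsg.oddCore X)) = Cfsg.layer (X ⧸ Cfsg.oddCore X) ↔ Cfsg.pLayer 2 X ≤ Cfsg.layer X := by
  haveI : Fact (Nat.Prime 2) := ⟨Nat.prime_two⟩
  show (Cfsg.layer X).map (QuotientGroup.mk' (Cfsg.pPrimeCore 2 X)) =
    Cfsg.layer (X ⧸ Cfsg.pPrimeCore 2 X) ↔ _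
  constructor
  · intro h
    apply sSup_le
    intro K hK
    -- some component of X has the same image as K
    have hex : ∃ L : Subgroup X, Cfsg.IsComponent L ∧
        L.map (QuotientGroup.mk' (Cfsg.pPrimeCore 2 X)) =
          K.map (QuotientGroup.mk' (Cfsg.pPrimeCore 2 X)) := by
      by_contra hno
      apply not_le_centralizer_self hK.2.1.2
      have h1 : K.map (QuotientGroup.mk' (Cfsg.pPrimeCore 2 X)) ≤
          (Cfsg.layer X).map (QuotientGroup.mk' (Cfsg.pPrimeCore 2 X)) := by
        rw [h]; exact le_layer hK.2.1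
      refine h1.trans ?_
      rw [Subgroup.map_le_iff_le_comap]
      apply sSup_le
      intro L hL
      rw [← Subgroup.map_le_iff_le_comap]
      rcases map_component hL (QuotientGroup.mk' (Cfsg.pPrimeCore 2 X))
        (QuotientGroup.mk'_surjective _) with h2 | h2
      · rw [h2]; exact bot_le
      · apply components_commute h2 hK.2.1
        intro h3
        exact hno ⟨L, hL, h3⟩
    obtain ⟨L, hL, hLK⟩ := hex
    have hLp : Cfsg.IsPComponent 2 L := component_isPComponent 2 hL (hLK ▸ hK.2.1)
    rw [isPComponent_eq_of_map_eq 2 hK hLp hLK.symm]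
    exact le_layer hL
  · intro h
    apply le_antisymm (map_layer_le_layer _ (QuotientGroup.mk'_surjective _))
    rw [← map_pLayer 2]
    exact Subgroup.map_mono h

end Cfsg.Agent.S1277
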