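import Cfsg.Statements.S1278
import Cfsg.Agent.Lib.Helper2.Comp15

set_option autoImplicit false
open Cfsg

namespace Cfsg.Agent.S1278

open Cfsg.Agent.Lib.Helper2.Comp in
theorem result {X : Type*} [Group X] [Finite X] (K L : Subgroup X) (hK : Cfsg.IsPComponent 2 K) (hL : Cfsg.IsPComponent 2 L) (hne : K ≠ L) : ⁅K, L⁆ ≤ ((Cfsg.oddCore ↥K).map K.subtype) ⊓ ((Cfsg.oddCore ↥L).map L.subtype) ∧ (Cfsg.IsQuasisimple ↥K → ⁅K, L⁆ = ⊥) := by
  haveI : Fact (Nat.Prime 2) := ⟨Nat.prime_two⟩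
  have hKe := map_pPrimeCore_eq 2 hK.1
  have hLe := map_pPrimeCore_eq 2 hL.1
  show ⁅K, L⁆ ≤ (Cfsg.pPrimeCore 2 ↥K).map K.subtype ⊓ (Cfsg.pPrimeCore 2 ↥L).map L.subtype ∧ _
  rw [hKe, hLe]
  have hne' : K.map (QuotientGroup.mk' (Cfsg.pPrimeCore 2 X)) ≠
      L.map (QuotientGroup.mk' (Cfsg.pPrimeCore 2 X)) :=
    fun h => hne (isPComponent_eq_of_map_eq 2 hK hL h)
  have h1 : ⁅K, L⁆ ≤ Cfsg.pPrimeCore 2 X := by
    rw [← map_mk_eq_bot_iff, Subgroup.map_commutator,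
      Subgroup.commutator_eq_bot_iff_le_centralizer]
    exact components_commute hK.2.1 hL.2.1 hne'
  have h2 : ⁅K, L⁆ ≤ K :=
    Cfsg.Agent.Lib.Lead.commutator_le_of_le_normalizer K L (pComponent_le_normalizer 2 hK hL)
  have h3 : ⁅K, L⁆ ≤ L := by
    rw [Subgroup.commutator_comm]
    exact Cfsg.Agent.Lib.Lead.commutator_le_of_le_normalizer L K (pComponent_le_normalizer 2 hL hK)
  refine ⟨le_inf (le_inf h1 h2) (le_inf h1 h3), ?_⟩
  intro hq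
  have hc := (isQuasisimple_pComponent_iff 2 hK).mp hq
  have h4 : ⁅⁅K, L⁆, K⁆ = ⊥ := by
    rw [eq_bot_iff, ← hc, Subgroup.commutator_comm K (Cfsg.pPrimeCore 2 X ⊓ K)]
    exact Subgroup.commutator_mono (le_inf h1 h2) le_rfl
  have h5 : ⁅⁅L, K⁆, K⁆ = ⊥ := by rw [Subgroup.commutator_comm L K]; exact h4
  have h6 := Subgroup.commutator_commutator_eq_bot_of_rotate h4 h5
  rw [pComponent_perfect 2 hK] at h6
  exact h6

end Cfsg.Agent.S1278
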