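import Cfsg.Statements.S1279
import Cfsg.Agent.Lib.Helper2.Comp20

set_option autoImplicit false
open Cfsg

namespace Cfsg.Agent.S1279

open Cfsg.Agent.Lib.Helper2.Comp in
theorem result {G : Type*} [Group G] [Finite G] (p : ℕ) [Fact p.Prime] (A : Subgroup G) (hA : Cfsg.IsElementaryAbelian p A) (hA2 : p ^ 2 ≤ Nat.card ↥A) (hsolv : ∀ a ∈ A, a ≠ 1 → Group.IsSolvable ↥(Subgroup.centralizer ({a} : Set G))) : Cfsg.IsSolvableSignalizerFunctor p A (fun a => Cfsg.centralizerPPrimeCore p a) := by
  have hpp : p.Prime := Fact.out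
  have hAc : ∀ x ∈ A, ∀ y ∈ A, x * y = y * x := by
    intro x hx y hy
    have := hA.1
    exact setLike_mul_comm hx hy
  refine ⟨⟨?_, ?_, ?_, ?_⟩, ?_⟩
  · intro a _ _
    exact centralizerPPrimeCore_le p a
  · intro a _ _ hdvd
    exact (Nat.Prime.coprime_iff_not_dvd hpp).mp (centralizerPPrimeCore_coprime p a).symm hdvd
  · intro a ha _ b hb x hx
    have hbC : b ∈ Subgroup.centralizer ({a} : Set G) := by
      rw [Subgroup.mem_centralizer_singleton_iff]; exact hAc b hb a ha
    exact (Subgroup.mem_normalizer_iff.mp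
      (centralizer_le_normalizer_centralizerPPrimeCore p a hbC) x).mp hx
  · intro a ha ha1 b hb hb1
    haveI := hsolv b hb hb1
    apply centralizerPPrimeCore_inf_le p (hAc a ha b hb) ?_ (pLayer_eq_bot_of_isSolvable p)
    have hd : Nat.card (Subgroup.zpowers a) ∣ p ^ 1 := by
      rw [Nat.card_zpowers, pow_one]; exact orderOf_dvd_of_pow_eq_one (hA.2 a ha)
    obtain ⟨k, -, hk⟩ := (Nat.dvd_prime_pow hpp).mp hd
    exact IsPGroup.of_card hk
  · intro a ha ha1
    haveI := hsolv a ha ha1
    exact Group.isSolvable_of_isSolvable_injective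
      (Subgroup.inclusion_injective (centralizerPPrimeCore_le p a))

end Cfsg.Agent.S1279
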