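import Cfsg.Statements.S1313
import Cfsg.Agent.Lib.Helper2.Comp6

set_option autoImplicit false
open Cfsg

namespace Cfsg.Agent.S1313

open Cfsg.Agent.Lib.Helper2.Comp

theorem result {H : Type*} [Group H] [Finite H] : Nat.card H ≤ Nat.factorial (Nat.card ↥(Cfsg.generalizedFittingSubgroup H)) := by
  have hn : (Cfsg.generalizedFittingSubgroup H).Normal :=
    Cfsg.Agent.Lib.Helper3.generalizedFittingSubgroup_normal H
  let φ : H →* Equiv.Perm ↥(Cfsg.generalizedFittingSubgroup H) :=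
    (MulAut.toPerm _).comp MulAut.conjNormal
  have hφ : ∀ (h : H) (x : ↥(Cfsg.generalizedFittingSubgroup H)), ((φ h x : ↥(Cfsg.generalizedFittingSubgroup H)) : H) = h * x * h⁻¹ := by
    intro h x
    rfl
  have hker : ∀ z ∈ φ.ker, z ∈ Cfsg.generalizedFittingSubgroup H := by
    intro z hz
    apply centralizer_gfs_le
    rw [Subgroup.mem_centralizer_iff]
    intro x hx
    have h1 : φ z ⟨x, hx⟩ = ⟨x, hx⟩ := by
      rw [MonoidHom.mem_ker.mp hz]; rfl
    have h2 := congrArg Subtype.val h1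
    rw [hφ] at h2
    have h3 : z * x * z⁻¹ = x := h2
    calc x * z = (z * x * z⁻¹) * z := by rw [h3]
      _ = z * x := by group
  have hfix : ∀ σ ∈ φ.range, σ 1 = 1 := by
    rintro σ ⟨h, rfl⟩
    apply Subtype.ext
    rw [hφ]
    simp
  let Θ : φ.range × φ.ker → Equiv.Perm ↥(Cfsg.generalizedFittingSubgroup H) :=
    fun p => Equiv.mulLeft (⟨p.2.1, hker p.2.1 p.2.2⟩ : ↥(Cfsg.generalizedFittingSubgroup H)) * p.1.1
  have hΘ : Function.Injective Θ := by
    rintro ⟨⟨σ, hσ⟩, ⟨z, hz⟩⟩ ⟨⟨σ', hσ'⟩, ⟨z', hz'⟩⟩ h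
    have h1 : (Equiv.mulLeft (⟨z, hker z hz⟩ : ↥(Cfsg.generalizedFittingSubgroup H)) * σ) =
        (Equiv.mulLeft (⟨z', hker z' hz'⟩ : ↥(Cfsg.generalizedFittingSubgroup H)) * σ') := h
    have h2 := congrArg (fun τ : Equiv.Perm ↥(Cfsg.generalizedFittingSubgroup H) => τ 1) h1
    simp only [Equiv.Perm.coe_mul, Function.comp_apply, Equiv.coe_mulLeft, hfix σ hσ, hfix σ' hσ', mul_one] at h2
    have hzz : z = z' := congrArg Subtype.val h2
    subst hzz
    have h3 : σ = σ' := mul_left_cancel h1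
    subst h3
    rfl
  have hcard : Nat.card H = Nat.card φ.ker * Nat.card φ.range := by
    rw [← Subgroup.index_ker, Subgroup.card_mul_index]
  have h1 := Nat.card_le_card_of_injective Θ hΘ
  rw [Nat.card_prod, Nat.card_perm] at h1
  rw [hcard, mul_comm]
  exact h1

end Cfsg.Agent.S1313
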