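import Cfsg.Statements.S1314
import Mathlib
import Cfsg.Agent.S3867
import Cfsg.Agent.Lib.Lead.Coprime
set_option autoImplicit false
open Cfsg

namespace Cfsg.Agent.S1314


open scoped commutatorElement
theorem result {G : Type*} [Group G] [Finite G] (x : G) (hx : orderOf x = 2) (L : Subgroup G) (hperf : ⁅L, L⁆ = L) (hcomm : ⁅L, L.map (MulAut.conj x).toMonoidHom⁆ = ⊥) : ∃ π : ↥L →* G, (∀ l : ↥L, π l = (l : G) * (x * (l : G) * x⁻¹)) ∧ π.ker ≤ Subgroup.center ↥L ∧ π.range ≤ Subgroup.centralizer ({x} : Set G) ∧ ⁅(L ⊔ L.map (MulAut.conj x).toMonoidHom) ⊓ Subgroup.centralizer ({x} : Set G), (L ⊔ L.map (MulAut.conj x).toMonoidHom) ⊓ Subgroup.centralizer ({x} : Set G)⁆ = π.range := by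

  classical
  have hxx : x * x = 1 := by
    have h := pow_orderOf_eq_one x
    rw [hx, pow_two] at h
    exact h
  have hxi : x⁻¹ = x := inv_eq_of_mul_eq_one_left hxx
  have hconj : ∀ g : G, x * (x * g * x⁻¹) * x⁻¹ = g := by
    intro g
    rw [hxi]
    calc x * (x * g * x) * x = (x * x) * g * (x * x) := by simp only [mul_assoc]
      _ = g := by rw [hxx, one_mul, mul_one]
  obtain ⟨Lx, hLx⟩ : ∃ Lx : Subgroup G, Lx = L.map (MulAut.conj x).toMonoidHom := ⟨_, rfl⟩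
  rw [← hLx] at hcomm ⊢
  have hmemLx : ∀ b ∈ L, x * b * x⁻¹ ∈ Lx := by
    intro b hb
    rw [hLx]
    exact ⟨b, hb, rfl⟩
  have hLxmem : ∀ b ∈ Lx, ∃ b' ∈ L, b = x * b' * x⁻¹ := by
    intro b hb
    rw [hLx] at hb
    obtain ⟨b', hb', rfl⟩ := hb
    exact ⟨b', hb', rfl⟩
  have hcent := Subgroup.commutator_eq_bot_iff_le_centralizer.mp hcomm
  -- elements of Lx commute with elements of L
  have hc : ∀ a ∈ L, ∀ b ∈ Lx, b * a = a * b := by
    intro a ha b hb
    have h1 := hcent ha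
    rw [Subgroup.mem_centralizer_iff] at h1
    exact h1 b hb
  have hc' : ∀ a ∈ L, ∀ b ∈ L, (x * b * x⁻¹) * a = a * (x * b * x⁻¹) :=
    fun a ha b hb => hc a ha _ (hmemLx b hb)
  obtain ⟨π, hπ⟩ : ∃ π : ↥L →* G, ∀ l : ↥L, π l = (l : G) * (x * (l : G) * x⁻¹) := by
    refine ⟨MonoidHom.mk' (fun l : ↥L => (l : G) * (x * (l : G) * x⁻¹)) ?_, fun l => rfl⟩
    intro l₁ l₂
    show ((l₁ : G) * (l₂ : G)) * (x * ((l₁ : G) * (l₂ : G)) * x⁻¹) =
      ((l₁ : G) * (x * (l₁ : G) * x⁻¹)) * ((l₂ : G) * (x * (l₂ : G) * x⁻¹))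
    have h1 := hc' (l₂ : G) l₂.2 (l₁ : G) l₁.2
    calc ((l₁ : G) * (l₂ : G)) * (x * ((l₁ : G) * (l₂ : G)) * x⁻¹)
        = (l₁ : G) * ((l₂ : G) * (x * (l₁ : G) * x⁻¹)) * (x * (l₂ : G) * x⁻¹) := by group
      _ = (l₁ : G) * ((x * (l₁ : G) * x⁻¹) * (l₂ : G)) * (x * (l₂ : G) * x⁻¹) := by rw [h1]
      _ = ((l₁ : G) * (x * (l₁ : G) * x⁻¹)) * ((l₂ : G) * (x * (l₂ : G) * x⁻¹)) := by group
  obtain ⟨K, hK⟩ : ∃ K : Subgroup G, K = L ⊔ Lx := ⟨_, rfl⟩
  rw [← hK]
  have hLK : L ≤ K := hK ▸ le_sup_left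
  have hLxK : Lx ≤ K := hK ▸ le_sup_right
  have hπK : ∀ l : ↥L, π l ∈ K := by
    intro l
    rw [hπ]
    exact K.mul_mem (hLK l.2) (hLxK (hmemLx _ l.2))
  have hπx : ∀ l : ↥L, x * π l = π l * x := by
    intro l
    rw [hπ, hxi]
    have h1 := hc' (l : G) l.2 (l : G) l.2
    rw [hxi] at h1
    calc x * ((l : G) * (x * (l : G) * x)) = (x * (l : G) * x) * (l : G) * x := by
          simp only [mul_assoc]
      _ = ((l : G) * (x * (l : G) * x)) * x := by rw [h1]
  have hπC : ∀ l : ↥L, π l ∈ K ⊓ Subgroup.centralizer ({x} : Set G) := by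
    intro l
    refine Subgroup.mem_inf.mpr ⟨hπK l, ?_⟩
    rw [Subgroup.mem_centralizer_iff]
    intro h hh
    rw [Set.mem_singleton_iff] at hh
    rw [hh]; exact hπx l
  refine ⟨π, hπ, ?_, ?_, ?_⟩
  · intro l hl
    rw [MonoidHom.mem_ker, hπ] at hl
    rw [Subgroup.mem_center_iff]
    intro m
    apply Subtype.ext
    show (m : G) * (l : G) = (l : G) * (m : G)
    have h1 : (l : G) = x * (l : G)⁻¹ * x⁻¹ := by
      have h2 : (l : G) = (x * (l : G) * x⁻¹)⁻¹ := eq_inv_of_mul_eq_one_left hl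
      calc (l : G) = (x * (l : G) * x⁻¹)⁻¹ := h2
        _ = x * (l : G)⁻¹ * x⁻¹ := by group
    have h3 := hc' (m : G) m.2 ((l : G)⁻¹) (L.inv_mem l.2)
    rw [← h1] at h3
    exact h3.symm
  · rintro _ ⟨l, rfl⟩
    exact (Subgroup.mem_inf.mp (hπC l)).2
  · apply le_antisymm
    · rw [Subgroup.commutator_le]
      intro c₁ hc₁ c₂ hc₂
      -- decomposition
      have hdec : ∀ c ∈ K ⊓ Subgroup.centralizer ({x} : Set G), ∃ (a : ↥L) (w : G),
          c = π a * w ∧ ∀ k ∈ K, w * k = k * w := by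
        intro c hcC
        obtain ⟨hcK, hcx⟩ := Subgroup.mem_inf.mp hcC
        rw [Subgroup.mem_centralizer_iff] at hcx
        have hcx' : x * c = c * x := hcx x rfl
        have hLxn : Lx ≤ Subgroup.normalizer (L : Set G) := by
          intro b hb
          apply Cfsg.Agent.S3867.norm_of_conj_le
          intro u hu
          have h1 := hc u hu b hb
          have h2 : b * u * b⁻¹ = u := by rw [h1]; group
          rw [h2]; exact hu
        rw [hK] at hcK
        obtain ⟨a, ha, b, hb, rfl⟩ := Cfsg.Agent.Lib.Lead.mem_sup_of_le_normalizer hLxn hcK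
        obtain ⟨b', hb', rfl⟩ := hLxmem b hb
        have hkey : (x * a * x⁻¹) * b' = a * (x * b' * x⁻¹) := by
          have h1 : x * (a * (x * b' * x⁻¹)) * x⁻¹ = a * (x * b' * x⁻¹) := by
            rw [hcx']; group
          have h2 : x * (a * (x * b' * x⁻¹)) * x⁻¹ = (x * a * x⁻¹) * (x * (x * b' * x⁻¹) * x⁻¹) := by
            group
          rw [h2, hconj] at h1
          exact h1
        -- w = x (a⁻¹ b') x⁻¹ = b' a⁻¹
        have hw : x * (a⁻¹ * b') * x⁻¹ = b' * a⁻¹ := by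
          have h1 := hc' a ha b' hb'
          have h2 := hc' b' hb' a ha
          -- (x a x⁻¹) b' = (x b' x⁻¹) a
          have h3 : (x * a * x⁻¹) * b' = (x * b' * x⁻¹) * a := by rw [hkey, h1]
          have h4 : b' * (x * a * x⁻¹) = (x * b' * x⁻¹) * a := by rw [← h2]; exact h3
          calc x * (a⁻¹ * b') * x⁻¹ = (x * a * x⁻¹)⁻¹ * ((x * b' * x⁻¹) * a) * a⁻¹ := by group
            _ = (x * a * x⁻¹)⁻¹ * ((x * a * x⁻¹) * b') * a⁻¹ := by rw [h3]
            _ = b' * a⁻¹ := by group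
        refine ⟨⟨a, ha⟩, x * (a⁻¹ * b') * x⁻¹, ?_, ?_⟩
        · rw [hπ]
          show a * (x * b' * x⁻¹) = a * (x * a * x⁻¹) * (x * (a⁻¹ * b') * x⁻¹)
          group
        · have hwLx : x * (a⁻¹ * b') * x⁻¹ ∈ Lx := hmemLx _ (L.mul_mem (L.inv_mem ha) hb')
          have hwL : x * (a⁻¹ * b') * x⁻¹ ∈ L := by
            rw [hw]; exact L.mul_mem hb' (L.inv_mem ha)
          have hle : K ≤ Subgroup.centralizer ({x * (a⁻¹ * b') * x⁻¹} : Set G) := by
            rw [hK]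
            apply sup_le
            · intro u hu
              rw [Subgroup.mem_centralizer_iff]
              intro h hh
              rw [Set.mem_singleton_iff] at hh
              rw [hh]
              exact hc u hu _ hwLx
            · intro u hu
              rw [Subgroup.mem_centralizer_iff]
              intro h hh
              rw [Set.mem_singleton_iff] at hh
              rw [hh]
              exact (hc _ hwL u hu).symm
          intro k hk
          have h1 := hle hk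
          rw [Subgroup.mem_centralizer_iff] at h1
          exact h1 _ rfl
      obtain ⟨a₁, z₁, rfl, hz₁⟩ := hdec c₁ hc₁
      obtain ⟨a₂, z₂, rfl, hz₂⟩ := hdec c₂ hc₂
      have hz₂K : z₂ ∈ K := by
        have h1 := (Subgroup.mem_inf.mp hc₂).1
        have h2 : z₂ = (π a₂)⁻¹ * (π a₂ * z₂) := by group
        rw [h2]
        exact K.mul_mem (K.inv_mem (hπK a₂)) h1
      have e1 : z₁ * (π a₂ * z₂) = (π a₂ * z₂) * z₁ := hz₁ _ (K.mul_mem (hπK a₂) hz₂K)
      have e2 : z₂ * (π a₁)⁻¹ = (π a₁)⁻¹ * z₂ := hz₂ _ (K.inv_mem (hπK a₁))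
      have hcomm' : ⁅π a₁ * z₁, π a₂ * z₂⁆ = ⁅π a₁, π a₂⁆ := by
        rw [commutatorElement_def, commutatorElement_def]
        calc π a₁ * z₁ * (π a₂ * z₂) * (π a₁ * z₁)⁻¹ * (π a₂ * z₂)⁻¹
            = π a₁ * (z₁ * (π a₂ * z₂)) * z₁⁻¹ * (π a₁)⁻¹ * z₂⁻¹ * (π a₂)⁻¹ := by group
          _ = π a₁ * ((π a₂ * z₂) * z₁) * z₁⁻¹ * (π a₁)⁻¹ * z₂⁻¹ * (π a₂)⁻¹ := by rw [e1]
          _ = π a₁ * π a₂ * (z₂ * (π a₁)⁻¹) * z₂⁻¹ * (π a₂)⁻¹ := by group
          _ = π a₁ * π a₂ * ((π a₁)⁻¹ * z₂) * z₂⁻¹ * (π a₂)⁻¹ := by rw [e2]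
          _ = π a₁ * π a₂ * (π a₁)⁻¹ * (π a₂)⁻¹ := by group
      rw [hcomm', ← map_commutatorElement]
      exact ⟨_, rfl⟩
    · -- range ≤ commutator, by perfectness
      obtain ⟨Q, hQ⟩ : ∃ Q : Subgroup ↥L, Q = (⁅K ⊓ Subgroup.centralizer ({x} : Set G),
        K ⊓ Subgroup.centralizer ({x} : Set G)⁆).comap π := ⟨_, rfl⟩
      have hcQ : commutator ↥L ≤ Q := by
        rw [commutator_eq_closure, Subgroup.closure_le]
        rintro _ ⟨a, b, rfl⟩
        rw [SetLike.mem_coe, hQ, Subgroup.mem_comap, map_commutatorElement]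
        exact Subgroup.commutator_mem_commutator (hπC a) (hπC b)
      have htop : commutator ↥L = ⊤ := by
        rw [eq_top_iff]
        intro l _
        have h1 : (commutator ↥L).map L.subtype = L := by
          rw [commutator_def, Subgroup.map_commutator, ← MonoidHom.range_eq_map,
            Subgroup.range_subtype]
          exact hperf
        have h2 : (l : G) ∈ (commutator ↥L).map L.subtype := by rw [h1]; exact l.2
        obtain ⟨l', hl', hll⟩ := h2
        have h3 : l' = l := Subtype.ext hll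
        rw [← h3]; exact hl'
      rintro _ ⟨l, rfl⟩
      have h1 : l ∈ Q := hcQ (by rw [htop]; trivial)
      rw [hQ, Subgroup.mem_comap] at h1
      exact h1

end Cfsg.Agent.S1314
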