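import Cfsg.Statements.S3858
import Mathlib
import Cfsg.Agent.Lib.Lead.Basic

set_option autoImplicit false
open Cfsg

namespace Cfsg.Agent.S3858


open scoped Pointwise

theorem mem_map_conj58 {G : Type*} [Group G] (M : Subgroup G) (g x : G) :
    x ∈ M.map (MulAut.conj g).toMonoidHom ↔ g⁻¹ * x * g ∈ M := by
  constructor
  · rintro ⟨y, hy, rfl⟩
    have e0 : (MulAut.conj g).toMonoidHom y = g * y * g⁻¹ := rfl
    have e1 : g⁻¹ * (g * y * g⁻¹) * g = y := by group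
    rw [e0, e1]; exact hy
  · intro h
    refine ⟨g⁻¹ * x * g, h, ?_⟩
    have e0 : (MulAut.conj g).toMonoidHom (g⁻¹ * x * g) = g * (g⁻¹ * x * g) * g⁻¹ := rfl
    rw [e0]; group

theorem coatom_map58 {G : Type*} [Group G] (M : Subgroup G) (hM : IsCoatom M) (g : G) :
    IsCoatom (M.map (MulAut.conj g).toMonoidHom) :=
  ((MulAut.conj g).mapSubgroup.isCoatom_iff M).mpr hM

theorem exists_conj58 {G : Type*} [Group G] [Finite G] {r : ℕ} [Fact r.Prime] (R : Sylow r G)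
    (M : Subgroup G) (hM : ¬ r ∣ M.index) :
    ∃ g : G, (R : Subgroup G) ≤ M.map (MulAut.conj g).toMonoidHom := by
  have hne : (MulAction.fixedPoints ↥(R : Subgroup G) (G ⧸ M)).Nonempty :=
    R.isPGroup'.nonempty_fixed_point_of_prime_not_dvd_card (G ⧸ M) hM
  obtain ⟨q, hq⟩ := hne
  obtain ⟨g, rfl⟩ := QuotientGroup.mk_surjective q
  refine ⟨g, fun a ha => ?_⟩
  rw [mem_map_conj58]
  have h1 := hq ⟨a⁻¹, inv_mem ha⟩
  have h2 : ((a⁻¹ * g : G) : G ⧸ M) = (g : G ⧸ M) := h1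
  rw [QuotientGroup.eq] at h2
  have e : (a⁻¹ * g)⁻¹ * g = g⁻¹ * a * g := by group
  rw [e] at h2
  exact h2

theorem not_normal58 {G : Type*} [Group G] [Finite G] (T : Subgroup G) (hT : IsSimpleGroup T)
    (hna : ¬ IsMulCommutative T) {r : ℕ} [Fact r.Prime] (Q : Subgroup G) (hQp : IsPGroup r ↥Q)
    (hQ0 : Q ⊓ T ≠ ⊥) : ¬ Q.Normal := by
  intro hQn
  haveI : IsSimpleGroup ↥T := hT
  have hQT : (Q.subgroupOf T).Normal := hQn.subgroupOf T
  rcases hQT.eq_bot_or_eq_top with h | h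
  · rw [Subgroup.subgroupOf_eq_bot] at h
    exact hQ0 h.eq_bot
  · rw [Subgroup.subgroupOf_eq_top] at h
    have hTp : IsPGroup r ↥T := IsPGroup.to_le hQp h
    haveI : Nontrivial ↥T := hT.toNontrivial
    have hc : Subgroup.center ↥T ≠ ⊥ := by
      have h6 := hTp.center_nontrivial
      exact (Subgroup.nontrivial_iff_ne_bot _).mp h6
    rcases (inferInstance : (Subgroup.center ↥T).Normal).eq_bot_or_eq_top with h2 | h2
    · exact hc h2
    · apply hna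
      refine ⟨⟨fun a b => ?_⟩⟩
      have hb : b ∈ Subgroup.center ↥T := by rw [h2]; exact Subgroup.mem_top b
      exact (Subgroup.mem_center_iff.mp hb a)

/-- Let G be a finite group with a normal non-abelian simple subgroup T whose centralizer is trivial (G almost simple with socle T), r a prime and R a Sylow r-subgroup of G meeting T nontrivially. Then R lies in exactly one maximal subgroup of G if and only if G has exactly one conjugacy class of maximal subgroups whose index is prime to r. -/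
theorem result {G : Type*} [Group G] [Finite G] (T : Subgroup G) [T.Normal] (hT : IsSimpleGroup T) (hna : ¬ IsMulCommutative T)
    (hC : Subgroup.centralizer (T : Set G) = ⊥) {r : ℕ} [Fact r.Prime] (R : Sylow r G) (hR0 : (R : Subgroup G) ⊓ T ≠ ⊥) :
    (∃! M : Subgroup G, IsCoatom M ∧ (R : Subgroup G) ≤ M) ↔
      ((∃ M : Subgroup G, IsCoatom M ∧ ¬ r ∣ M.index) ∧
        ∀ M₁ M₂ : Subgroup G, IsCoatom M₁ → ¬ r ∣ M₁.index → IsCoatom M₂ → ¬ r ∣ M₂.index → ∃ g : G, M₂ = M₁.map (MulAut.conj g).toMonoidHom) := by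
  classical
  constructor
  · rintro ⟨M, ⟨hMco, hRM⟩, hMuniq⟩
    refine ⟨⟨M, hMco, fun h => R.not_dvd_index (h.trans (Subgroup.index_dvd_of_le hRM))⟩, ?_⟩
    intro M₁ M₂ h1co h1i h2co h2i
    obtain ⟨g₁, hg₁⟩ := exists_conj58 R M₁ h1i
    obtain ⟨g₂, hg₂⟩ := exists_conj58 R M₂ h2i
    have hM1 : M₁.map (MulAut.conj g₁).toMonoidHom = M :=
      hMuniq _ ⟨coatom_map58 M₁ h1co g₁, hg₁⟩
    have hM2 : M₂.map (MulAut.conj g₂).toMonoidHom = M :=
      hMuniq _ ⟨coatom_map58 M₂ h2co g₂, hg₂⟩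
    refine ⟨g₂⁻¹ * g₁, ?_⟩
    ext x
    have a1 : x ∈ M₂ ↔ g₂ * x * g₂⁻¹ ∈ M₂.map (MulAut.conj g₂).toMonoidHom := by
      rw [mem_map_conj58]
      have e : g₂⁻¹ * (g₂ * x * g₂⁻¹) * g₂ = x := by group
      rw [e]
    have a2 : x ∈ M₁.map (MulAut.conj (g₂⁻¹ * g₁)).toMonoidHom ↔
        g₂ * x * g₂⁻¹ ∈ M₁.map (MulAut.conj g₁).toMonoidHom := by
      rw [mem_map_conj58, mem_map_conj58]
      have e : (g₂⁻¹ * g₁)⁻¹ * x * (g₂⁻¹ * g₁) = g₁⁻¹ * (g₂ * x * g₂⁻¹) * g₁ := by group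
      rw [e]
    rw [a1, a2, hM2, hM1]
  · rintro ⟨-, hconj⟩
    have hNtop : Subgroup.normalizer ((R : Subgroup G) : Set G) ≠ ⊤ := by
      intro htop
      exact not_normal58 T hT hna (R : Subgroup G) R.isPGroup' hR0
        (Subgroup.normalizer_eq_top_iff.mp htop)
    obtain ⟨M₀, hM₀co, hM₀⟩ := (eq_top_or_exists_le_coatom _).resolve_left hNtop
    have hRM₀ : (R : Subgroup G) ≤ M₀ := Subgroup.le_normalizer.trans hM₀
    refine ⟨M₀, ⟨hM₀co, hRM₀⟩, ?_⟩
    rintro M₁ ⟨hM₁co, hRM₁⟩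
    have hi₀ : ¬ r ∣ M₀.index := fun h => R.not_dvd_index (h.trans (Subgroup.index_dvd_of_le hRM₀))
    have hi₁ : ¬ r ∣ M₁.index := fun h => R.not_dvd_index (h.trans (Subgroup.index_dvd_of_le hRM₁))
    obtain ⟨g, hg⟩ := hconj M₁ M₀ hM₁co hi₁ hM₀co hi₀
    have hR₁ : ∀ x, x ∈ ((g⁻¹ • R : Sylow r G) : Subgroup G) ↔ g * x * g⁻¹ ∈ (R : Subgroup G) := by
      intro x
      show x ∈ MulAut.conj g⁻¹ • (R : Subgroup G) ↔ _
      rw [Cfsg.Agent.Lib.Lead.mem_conj_smul, inv_inv]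
    have hR₁M : ((g⁻¹ • R : Sylow r G) : Subgroup G) ≤ M₁ := by
      intro x hx
      have h1 := (hR₁ x).mp hx
      have h2 : g * x * g⁻¹ ∈ M₁.map (MulAut.conj g).toMonoidHom := by
        rw [← hg]; exact hRM₀ h1
      rw [mem_map_conj58] at h2
      have e : g⁻¹ * (g * x * g⁻¹) * g = x := by group
      rw [e] at h2
      exact h2
    obtain ⟨m, hm⟩ := MulAction.exists_smul_eq ↥M₁ ((g⁻¹ • R : Sylow r G).subtype hR₁M)
      (R.subtype hRM₁)
    rw [Sylow.smul_subtype] at hm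
    have h3 : m • (g⁻¹ • R : Sylow r G) = R := Sylow.subtype_injective hm
    have h4 : ((m : G) * g⁻¹) • R = R := by
      rw [mul_smul]; exact h3
    have h5 : (m : G) * g⁻¹ ∈ Subgroup.normalizer ((R : Subgroup G) : Set G) :=
      Sylow.smul_eq_iff_mem_normalizer.mp h4
    have h6 : (m : G) * g⁻¹ ∈ M₀ := hM₀ h5
    have hle : M₁ ≤ M₀ := by
      intro y hy
      have h7 : (m : G)⁻¹ * y * (m : G) ∈ M₁ := mul_mem (mul_mem (inv_mem m.2) hy) m.2
      have h8 : ((m : G) * g⁻¹)⁻¹ * y * ((m : G) * g⁻¹) ∈ M₀ := by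
        rw [hg, mem_map_conj58]
        have e : g⁻¹ * (((m : G) * g⁻¹)⁻¹ * y * ((m : G) * g⁻¹)) * g = (m : G)⁻¹ * y * (m : G) := by
          group
        rw [e]; exact h7
      have e2 : y = ((m : G) * g⁻¹) * (((m : G) * g⁻¹)⁻¹ * y * ((m : G) * g⁻¹)) *
          ((m : G) * g⁻¹)⁻¹ := by group
      rw [e2]
      exact mul_mem (mul_mem h6 h8) (inv_mem h6)
    exact ((hM₁co.le_iff_eq hM₀co.1).mp hle).symm

end Cfsg.Agent.S3858
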