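import Cfsg.Statements.S1336
import Mathlib
import Cfsg.Agent.S3858
import Cfsg.Agent.Lib.Lead.Basic
import Cfsg.Agent.Lib.Lead.NormalEA

set_option autoImplicit false
open Cfsg

namespace Cfsg.Agent.S1336


open scoped Pointwise

def Rel36 {G : Type*} [Group G] (p : ℕ) (A B : Subgroup G) : Prop :=
  Cfsg.IsElementaryAbelian p A ∧ p ^ 1 ≤ Nat.card ↥A ∧ Cfsg.IsElementaryAbelian p B ∧
    p ^ 1 ≤ Nat.card ↥B ∧ ∀ a ∈ A, ∀ b ∈ B, a * b = b * a

theorem map_conj_one36 {G : Type*} [Group G] (K : Subgroup G) :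
    K.map (MulAut.conj (1 : G)).toMonoidHom = K := by
  ext w; rw [Cfsg.Agent.S3858.mem_map_conj58]; simp

theorem map_conj_mul36 {G : Type*} [Group G] (K : Subgroup G) (a b : G) :
    (K.map (MulAut.conj b).toMonoidHom).map (MulAut.conj a).toMonoidHom =
      K.map (MulAut.conj (a * b)).toMonoidHom := by
  ext w
  rw [Cfsg.Agent.S3858.mem_map_conj58, Cfsg.Agent.S3858.mem_map_conj58,
    Cfsg.Agent.S3858.mem_map_conj58]
  have e : b⁻¹ * (a⁻¹ * w * a) * b = (a * b)⁻¹ * w * (a * b) := by group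
  rw [e]

theorem ea_zpowers36 {G : Type*} [Group G] (p : ℕ) (x : G) (hx : orderOf x = p) :
    Cfsg.IsElementaryAbelian p (Subgroup.zpowers x) ∧ p ^ 1 ≤ Nat.card ↥(Subgroup.zpowers x) := by
  have h1 : x ^ p = 1 := by rw [← hx]; exact pow_orderOf_eq_one x
  refine ⟨?_, ?_⟩
  · show IsMulCommutative ↥(Subgroup.zpowers x) ∧ ∀ a ∈ Subgroup.zpowers x, a ^ p = 1
    refine ⟨⟨⟨fun a b => ?_⟩⟩, ?_⟩
    · obtain ⟨i, hi⟩ := Subgroup.mem_zpowers_iff.mp a.2
      obtain ⟨j, hj⟩ := Subgroup.mem_zpowers_iff.mp b.2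
      apply Subtype.ext
      show (a : G) * (b : G) = (b : G) * (a : G)
      rw [← hi, ← hj, ← zpow_add, ← zpow_add, add_comm]
    · intro a ha
      obtain ⟨i, rfl⟩ := Subgroup.mem_zpowers_iff.mp ha
      rw [← zpow_natCast, ← zpow_mul, mul_comm, zpow_mul, zpow_natCast, h1, one_zpow]
  · rw [Nat.card_zpowers, hx, pow_one]

theorem ea_map36 {G : Type*} [Group G] (p : ℕ) (φ : G →* G) (A : Subgroup G)
    (hA : Cfsg.IsElementaryAbelian p A) : Cfsg.IsElementaryAbelian p (A.map φ) := by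
  obtain ⟨hc, he⟩ := hA
  show IsMulCommutative ↥(A.map φ) ∧ ∀ a ∈ A.map φ, a ^ p = 1
  refine ⟨⟨⟨fun a b => ?_⟩⟩, ?_⟩
  · obtain ⟨a', ha', hae⟩ := Subgroup.mem_map.mp a.2
    obtain ⟨b', hb', hbe⟩ := Subgroup.mem_map.mp b.2
    apply Subtype.ext
    show (a : G) * (b : G) = (b : G) * (a : G)
    have h0 := congrArg Subtype.val (hc.is_comm.comm (⟨a', ha'⟩ : ↥A) ⟨b', hb'⟩)
    have h1 : a' * b' = b' * a' := h0
    rw [← hae, ← hbe, ← map_mul, ← map_mul, h1]
  · intro a ha
    obtain ⟨a', ha', rfl⟩ := Subgroup.mem_map.mp ha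
    rw [← map_pow, he a' ha', map_one]

theorem rel_conj36 {G : Type*} [Group G] (p : ℕ) (g : G) (A B : Subgroup G) (h : Rel36 p A B) :
    Rel36 p (A.map (MulAut.conj g).toMonoidHom) (B.map (MulAut.conj g).toMonoidHom) := by
  obtain ⟨h1, h2, h3, h4, h5⟩ := h
  unfold Rel36
  refine ⟨ea_map36 p _ A h1, ?_, ea_map36 p _ B h3, ?_, ?_⟩
  · rw [Subgroup.card_map_of_injective (MulAut.conj g).injective]; exact h2
  · rw [Subgroup.card_map_of_injective (MulAut.conj g).injective]; exact h4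
  · intro a ha b hb
    obtain ⟨a', ha', rfl⟩ := Subgroup.mem_map.mp ha
    obtain ⟨b', hb', rfl⟩ := Subgroup.mem_map.mp hb
    rw [← map_mul, ← map_mul, h5 a' ha' b' hb']

theorem rel_symm36 {G : Type*} [Group G] (p : ℕ) (A B : Subgroup G) (h : Rel36 p A B) :
    Rel36 p B A := by
  obtain ⟨h1, h2, h3, h4, h5⟩ := h
  unfold Rel36
  exact ⟨h3, h4, h1, h2, fun b hb a ha => (h5 a ha b hb).symm⟩

theorem rtg_conj36 {G : Type*} [Group G] (p : ℕ) (g : G) (A B : Subgroup G)
    (h : Relation.ReflTransGen (Rel36 p) A B) :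
    Relation.ReflTransGen (Rel36 p) (A.map (MulAut.conj g).toMonoidHom)
      (B.map (MulAut.conj g).toMonoidHom) := by
  induction h with
  | refl => exact Relation.ReflTransGen.refl
  | tail _ hbc ih => exact Relation.ReflTransGen.tail ih (rel_conj36 p g _ _ hbc)

theorem rtg_symm36 {G : Type*} [Group G] (p : ℕ) (A B : Subgroup G)
    (h : Relation.ReflTransGen (Rel36 p) A B) : Relation.ReflTransGen (Rel36 p) B A := by
  induction h with
  | refl => exact Relation.ReflTransGen.refl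
  | tail _ hbc ih => exact Relation.ReflTransGen.head (rel_symm36 p _ _ hbc) ih

theorem ea_pgroup36 {G : Type*} [Group G] (p : ℕ) (A : Subgroup G)
    (hA : Cfsg.IsElementaryAbelian p A) : IsPGroup p ↥A := by
  intro a
  refine ⟨1, ?_⟩
  apply Subtype.ext
  rw [pow_one, Subgroup.coe_pow, Subgroup.coe_one]
  exact hA.2 a a.2

theorem ea_dvd36 {G : Type*} [Group G] [Finite G] (p : ℕ) [Fact p.Prime] (A : Subgroup G)
    (hA : Cfsg.IsElementaryAbelian p A) (hc : p ^ 1 ≤ Nat.card ↥A) : p ∣ Nat.card ↥A := by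
  obtain ⟨n, hn⟩ := IsPGroup.iff_card.mp (ea_pgroup36 p A hA)
  rw [hn] at hc ⊢
  have hp : p.Prime := Fact.out
  have hn0 : n ≠ 0 := by
    rintro rfl
    rw [pow_zero, pow_one] at hc
    exact absurd hc (by have := hp.two_le; omega)
  exact dvd_pow_self p hn0

theorem conn_in_pgroup36 {G : Type*} [Group G] [Finite G] (p : ℕ) [Fact p.Prime] (Q : Subgroup G)
    (hQ : IsPGroup p ↥Q) (A B : Subgroup G) (hAQ : A ≤ Q) (hBQ : B ≤ Q)
    (hA : Cfsg.IsElementaryAbelian p A) (hAc : p ^ 1 ≤ Nat.card ↥A)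
    (hB : Cfsg.IsElementaryAbelian p B) (hBc : p ^ 1 ≤ Nat.card ↥B) :
    Relation.ReflTransGen (Rel36 p) A B := by
  have hp : p.Prime := Fact.out
  have hQtop : (⊤ : Subgroup ↥Q) ≠ ⊥ := by
    intro h
    have hQbot : Q = ⊥ := by
      rw [Subgroup.eq_bot_iff_forall]
      intro q hq
      have h1 : (⟨q, hq⟩ : ↥Q) ∈ (⊤ : Subgroup ↥Q) := Subgroup.mem_top _
      rw [h, Subgroup.mem_bot] at h1
      exact congrArg Subtype.val h1
    have hA1 : A = ⊥ := by
      rw [hQbot] at hAQ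
      exact le_bot_iff.mp hAQ
    rw [hA1, Subgroup.card_bot, pow_one] at hAc
    exact absurd hAc (by have := hp.two_le; omega)
  obtain ⟨z, -, hzc, hzo⟩ := Cfsg.Agent.Lib.Lead.exists_central_order_p hQ (⊤ : Subgroup ↥Q) hQtop
  have hzo' : orderOf (z : G) = p := by rw [Subgroup.orderOf_coe]; exact hzo
  obtain ⟨hZ, hZc⟩ := ea_zpowers36 p (z : G) hzo'
  have hzcomm : ∀ q ∈ Q, ∀ b ∈ Subgroup.zpowers (z : G), q * b = b * q := by
    intro q hq b hb
    obtain ⟨k, rfl⟩ := Subgroup.mem_zpowers_iff.mp hb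
    have h1 : (⟨q, hq⟩ : ↥Q) * z = z * ⟨q, hq⟩ := Subgroup.mem_center_iff.mp hzc ⟨q, hq⟩
    have h2 : q * (z : G) = (z : G) * q := congrArg Subtype.val h1
    exact ((show Commute q (z : G) from h2).zpow_right k).eq
  have r1 : Rel36 p A (Subgroup.zpowers (z : G)) := by
    unfold Rel36
    exact ⟨hA, hAc, hZ, hZc, fun a ha b hb => hzcomm a (hAQ ha) b hb⟩
  have r2 : Rel36 p (Subgroup.zpowers (z : G)) B := by
    unfold Rel36
    exact ⟨hZ, hZc, hB, hBc, fun a ha b hb => (hzcomm b (hBQ hb) a ha).symm⟩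
  exact Relation.ReflTransGen.tail (Relation.ReflTransGen.single r1) r2

/-- Let G be finite and p prime. Then G has a proper subgroup H with p ∣ |H| and p ∤ |H ∩ gHg⁻¹| for every g ∉ H (a strongly p-embedded subgroup) if and only if G is not 1-connected for p. -/
theorem result {G : Type*} [Group G] [Finite G] (p : ℕ) [Fact p.Prime] : (∃ H : Subgroup G, H ≠ ⊤ ∧ p ∣ Nat.card ↥H ∧ ∀ g : G, g ∉ H → ¬ p ∣ Nat.card ↥(H ⊓ H.map (MulAut.conj g).toMonoidHom)) ↔ ¬ Cfsg.IsKConnected p 1 G := by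
  classical
  have hp : p.Prime := Fact.out
  constructor
  · rintro ⟨H, hHtop, hpH, hH⟩ hconn
    obtain ⟨x, hx⟩ := exists_prime_orderOf_dvd_card' (G := ↥H) p hpH
    have hxo : orderOf (x : G) = p := by rw [Subgroup.orderOf_coe]; exact hx
    obtain ⟨hE, hEc⟩ := ea_zpowers36 p (x : G) hxo
    have hEH : Subgroup.zpowers (x : G) ≤ H := Subgroup.zpowers_le.mpr x.2
    obtain ⟨g, hg⟩ : ∃ g : G, g ∉ H := by
      by_contra hcon
      push_neg at hcon
      exact hHtop (eq_top_iff.mpr fun g _ => hcon g)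
    have hprop : ∀ A B : Subgroup G, Rel36 p A B → A ≤ H → B ≤ H := by
      intro A B hAB hAH b hb
      by_contra hbH
      obtain ⟨h1, h2, h3, h4, h5⟩ := hAB
      apply hH b hbH
      have hle : A ≤ H ⊓ H.map (MulAut.conj b).toMonoidHom := by
        intro a ha
        have e : b⁻¹ * a * b = a := by
          rw [mul_assoc, h5 a ha b hb, ← mul_assoc, inv_mul_cancel, one_mul]
        have h6 : a ∈ H.map (MulAut.conj b).toMonoidHom := by
          rw [Cfsg.Agent.S3858.mem_map_conj58, e]; exact hAH ha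
        exact Subgroup.mem_inf.mpr ⟨hAH ha, h6⟩
      exact (ea_dvd36 p A h1 h2).trans (Subgroup.card_dvd_of_le hle)
    have hall : ∀ B : Subgroup G,
        Relation.ReflTransGen (Rel36 p) (Subgroup.zpowers (x : G)) B → B ≤ H := by
      intro B hB
      induction hB with
      | refl => exact hEH
      | tail _ hbc ih => exact hprop _ _ hbc ih
    have hE' := ea_map36 p (MulAut.conj g).toMonoidHom _ hE
    have hE'c : p ^ 1 ≤
        Nat.card ↥((Subgroup.zpowers (x : G)).map (MulAut.conj g).toMonoidHom) := by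
      rw [Subgroup.card_map_of_injective (MulAut.conj g).injective]; exact hEc
    have hE'H := hall _ (hconn _ _ hE hEc hE' hE'c)
    apply hH g hg
    have hle : (Subgroup.zpowers (x : G)).map (MulAut.conj g).toMonoidHom ≤
        H ⊓ H.map (MulAut.conj g).toMonoidHom :=
      le_inf hE'H (Subgroup.map_mono hEH)
    exact (ea_dvd36 p _ hE' hE'c).trans (Subgroup.card_dvd_of_le hle)
  · intro hnc
    have hnc' : ∃ E E' : Subgroup G, Cfsg.IsElementaryAbelian p E ∧ p ^ 1 ≤ Nat.card ↥E ∧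
        Cfsg.IsElementaryAbelian p E' ∧ p ^ 1 ≤ Nat.card ↥E' ∧
        ¬ Relation.ReflTransGen (Rel36 p) E E' := by
      by_contra hcon
      apply hnc
      intro E E' h1 h2 h3 h4
      by_contra h5
      exact hcon ⟨E, E', h1, h2, h3, h4, h5⟩
    obtain ⟨E, E', hE, hEc, hE', hE'c, hnot⟩ := hnc'
    obtain ⟨H, hHmem⟩ : ∃ H : Subgroup G, ∀ g, g ∈ H ↔
        Relation.ReflTransGen (Rel36 p) E (E.map (MulAut.conj g).toMonoidHom) := by
      refine ⟨{ carrier := {g | Relation.ReflTransGen (Rel36 p) E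
                    (E.map (MulAut.conj g).toMonoidHom)}
                mul_mem' := ?_
                one_mem' := ?_
                inv_mem' := ?_ }, fun g => Iff.rfl⟩
      · intro a b ha hb
        have ha' : Relation.ReflTransGen (Rel36 p) E (E.map (MulAut.conj a).toMonoidHom) := ha
        have hb' : Relation.ReflTransGen (Rel36 p) E (E.map (MulAut.conj b).toMonoidHom) := hb
        have h1 := rtg_conj36 p a _ _ hb'
        rw [map_conj_mul36] at h1
        exact Relation.ReflTransGen.trans ha' h1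
      · exact (congrArg (fun K => Relation.ReflTransGen (Rel36 p) E K) (map_conj_one36 E)).mpr
          Relation.ReflTransGen.refl
      · intro a ha
        have ha' : Relation.ReflTransGen (Rel36 p) E (E.map (MulAut.conj a).toMonoidHom) := ha
        have h1 := rtg_conj36 p a⁻¹ _ _ ha'
        rw [map_conj_mul36, inv_mul_cancel, map_conj_one36] at h1
        exact rtg_symm36 p _ _ h1
    have hEH : E ≤ H := by
      intro e he
      rw [hHmem]
      have h1 : E.map (MulAut.conj e).toMonoidHom = E := by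
        ext w
        rw [Cfsg.Agent.S3858.mem_map_conj58]
        constructor
        · intro h
          have e1 : w = e * (e⁻¹ * w * e) * e⁻¹ := by group
          rw [e1]; exact mul_mem (mul_mem he h) (inv_mem he)
        · intro h
          exact mul_mem (mul_mem (inv_mem he) h) he
      exact (congrArg (fun K => Relation.ReflTransGen (Rel36 p) E K) h1).mpr
        Relation.ReflTransGen.refl
    have hstar : ∀ x ∈ H, orderOf x = p →
        Relation.ReflTransGen (Rel36 p) (Subgroup.zpowers x) E := by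
      intro x hxH hxo
      obtain ⟨hX, hXc⟩ := ea_zpowers36 p x hxo
      have hEp : IsPGroup p ↥(E.subgroupOf H) := (ea_pgroup36 p E hE).comap_subtype
      obtain ⟨P, hP⟩ := hEp.exists_le_sylow
      have hxo' : orderOf (⟨x, hxH⟩ : ↥H) = p :=
        (Subgroup.orderOf_coe (⟨x, hxH⟩ : ↥H)).symm.trans hxo
      have hxp : IsPGroup p ↥(Subgroup.zpowers (⟨x, hxH⟩ : ↥H)) :=
        IsPGroup.of_card (n := 1) (by rw [Nat.card_zpowers, hxo', pow_one])
      obtain ⟨P', hP'⟩ := hxp.exists_le_sylow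
      obtain ⟨h, hh⟩ := MulAction.exists_smul_eq ↥H P' P
      have hy : h * ⟨x, hxH⟩ * h⁻¹ ∈ (P : Subgroup ↥H) := by
        rw [← hh]
        show _ ∈ MulAut.conj h • (P' : Subgroup ↥H)
        rw [Cfsg.Agent.Lib.Lead.mem_conj_smul]
        have e1 : h⁻¹ * (h * ⟨x, hxH⟩ * h⁻¹) * h = ⟨x, hxH⟩ := by group
        rw [e1]; exact hP' (Subgroup.mem_zpowers _)
      have hQ : IsPGroup p ↥((P : Subgroup ↥H).map H.subtype) := P.isPGroup'.map H.subtype
      have hEQ : E ≤ (P : Subgroup ↥H).map H.subtype := by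
        intro e he
        exact Subgroup.mem_map.mpr ⟨⟨e, hEH he⟩, hP (Subgroup.mem_subgroupOf.mpr he), rfl⟩
      have hYQ : (Subgroup.zpowers x).map (MulAut.conj (h : G)).toMonoidHom ≤
          (P : Subgroup ↥H).map H.subtype := by
        rw [MonoidHom.map_zpowers, Subgroup.zpowers_le]
        exact Subgroup.mem_map.mpr ⟨h * ⟨x, hxH⟩ * h⁻¹, hy, rfl⟩
      have hYE := conn_in_pgroup36 p _ hQ _ E hYQ hEQ (ea_map36 p _ _ hX)
        (by rw [Subgroup.card_map_of_injective (MulAut.conj (h : G)).injective]; exact hXc) hE hEc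
      have h1 := rtg_conj36 p ((h : G)⁻¹) _ _ hYE
      rw [map_conj_mul36, inv_mul_cancel, map_conj_one36] at h1
      have h2 := (hHmem _).mp (H.inv_mem h.2)
      exact Relation.ReflTransGen.trans h1 (rtg_symm36 p _ _ h2)
    have hHtop : H ≠ ⊤ := by
      intro htop
      obtain ⟨P₁, hP₁⟩ := (ea_pgroup36 p E hE).exists_le_sylow
      obtain ⟨P₂, hP₂⟩ := (ea_pgroup36 p E' hE').exists_le_sylow
      obtain ⟨g, hg⟩ := MulAction.exists_smul_eq G P₁ P₂
      have h1 : E.map (MulAut.conj g).toMonoidHom ≤ (P₂ : Subgroup G) := by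
        intro w hw
        rw [Cfsg.Agent.S3858.mem_map_conj58] at hw
        rw [← hg]
        show w ∈ MulAut.conj g • (P₁ : Subgroup G)
        rw [Cfsg.Agent.Lib.Lead.mem_conj_smul]
        exact hP₁ hw
      have h2 := conn_in_pgroup36 p (P₂ : Subgroup G) P₂.isPGroup' _ E' h1 hP₂
        (ea_map36 p _ E hE)
        (by rw [Subgroup.card_map_of_injective (MulAut.conj g).injective]; exact hEc) hE' hE'c
      have h3 : g ∈ H := by rw [htop]; exact Subgroup.mem_top g
      exact hnot (Relation.ReflTransGen.trans ((hHmem g).mp h3) h2)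
    refine ⟨H, hHtop, (ea_dvd36 p E hE hEc).trans (Subgroup.card_dvd_of_le hEH), ?_⟩
    intro g hg hdvd
    apply hg
    obtain ⟨x, hx⟩ := exists_prime_orderOf_dvd_card'
      (G := ↥(H ⊓ H.map (MulAut.conj g).toMonoidHom)) p hdvd
    have hxo : orderOf (x : G) = p := by rw [Subgroup.orderOf_coe]; exact hx
    have hx1 : (x : G) ∈ H := (Subgroup.mem_inf.mp x.2).1
    have hx2 : (x : G) ∈ H.map (MulAut.conj g).toMonoidHom := (Subgroup.mem_inf.mp x.2).2
    rw [Cfsg.Agent.S3858.mem_map_conj58] at hx2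
    have h1 := hstar (x : G) hx1 hxo
    have hxo' : orderOf (g⁻¹ * (x : G) * g) = p := by
      have h0 := MulEquiv.orderOf_eq (MulAut.conj g⁻¹) (x : G)
      rw [MulAut.conj_apply, inv_inv] at h0
      exact h0.trans hxo
    have h2 := hstar _ hx2 hxo'
    have h3 := rtg_conj36 p g _ _ h2
    have e : (Subgroup.zpowers (g⁻¹ * (x : G) * g)).map (MulAut.conj g).toMonoidHom =
        Subgroup.zpowers (x : G) := by
      rw [MonoidHom.map_zpowers]
      congr 1
      show g * (g⁻¹ * (x : G) * g) * g⁻¹ = (x : G)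
      group
    rw [e] at h3
    rw [hHmem]
    exact Relation.ReflTransGen.trans (rtg_symm36 p _ _ h1) h3

end Cfsg.Agent.S1336
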