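import Cfsg.Statements.S1343
import Cfsg.Agent.Lib.Helper2.Comp19

set_option autoImplicit false
open Cfsg

namespace Cfsg.Agent.S1343

open Cfsg.Agent.Lib.Helper2.Comp in
theorem result {X : Type*} [Group X] [Finite X] : ∃ F : Subgroup X, Odd (Nat.card ↥F) ∧ (∃ S : Sylow 2 X, (S : Subgroup X) ≤ Subgroup.normalizer (F : Set X)) ∧ Cfsg.extendedTwoLayer X = Cfsg.pLayer 2 X ⊔ F := by
  obtain ⟨T⟩ : Nonempty (Sylow 2 (extN 2 X)) := inferInstance
  refine ⟨Cfsg.pPrimeCore 2 X ⊔ pCentCore 2 (sylImg 2 T), ?_, ?_, ?_⟩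
  · apply Nat.Coprime.odd_of_right
    exact Nat.Coprime.coprime_dvd_left
      (Cfsg.Agent.Lib.Lead.card_sup_dvd_of_normal (Cfsg.pPrimeCore 2 X) _)
      (Nat.Coprime.mul_left (Cfsg.Agent.Lib.Lead.pPrimeCore_coprime 2)
        (card_pCentCore_coprime 2 _))
  · obtain ⟨S, hS⟩ := (sylImg_isPGroup 2 T).exists_le_sylow
    exact ⟨S, le_normalizer_sup (pPrimeCore_le_normalizer 2 _)
      ((sylow_le_normalizer_sylImg 2 (extN_normal 2) T S hS).trans
        (normalizer_le_normalizer_pCentCore 2 _))⟩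
  · exact (ext_eq 2 T).trans (sup_assoc _ _ _)

end Cfsg.Agent.S1343
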