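import Cfsg.Statements.S1344
import Cfsg.Agent.Lib.Helper2.Comp19

set_option autoImplicit false
open Cfsg

namespace Cfsg.Agent.S1344

open Cfsg.Agent.Lib.Helper2.Comp in
theorem result {X : Type*} [Group X] [Finite X] (K : Subgroup X) (hK : Cfsg.IsPComponent 2 K) : K ≤ Cfsg.extendedTwoLayer X ∧ (K.subgroupOf (Cfsg.extendedTwoLayer X)).Normal := by
  have hle : K ≤ Cfsg.extendedTwoLayer X :=
    (le_pLayer 2 hK).trans (le_sup_left.trans le_sup_left)
  refine ⟨hle, (Subgroup.normal_subgroupOf_iff_le_normalizer hle).mpr ?_⟩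
  show Cfsg.pLayer 2 X ⊔ Cfsg.pPrimeCore 2 X ⊔
    ⨆ T' : Sylow 2 (extN 2 X), pCentCore 2 (sylImg 2 T') ≤ _
  exact sup_le (sup_le (pLayer_le_normalizer 2 hK) (pPrimeCore_le_normalizer_pComponent 2 hK))
    (iSup_le fun T => pCentCore_le_normalizer_pComponent 2 T hK)

end Cfsg.Agent.S1344
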