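import Cfsg.Statements.S1441
import Cfsg.Agent.Lib.Helper2.Comp19

set_option autoImplicit false
open Cfsg

namespace Cfsg.Agent.S1441

open Cfsg.Agent.Lib.Helper2.Comp in
open scoped commutatorElement in
theorem result {G : Type*} [Group G] [Finite G] (H A : Subgroup G) (hH : Group.IsSolvable H) (hA : (A ≤ Subgroup.normalizer (H : Set G)))
    (n : ℕ) (c : Fin (n + 1) → Subgroup G) (hc0 : c 0 = H) (hcn : c (Fin.last n) = ⊥) (hanti : Antitone c)
    (hcN : ∀ i, H ≤ Subgroup.normalizer ((c i : Subgroup G) : Set G)) (hcA : ∀ i, A ≤ Subgroup.normalizer ((c i : Subgroup G) : Set G))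
    (htriv : ∀ i : Fin n, ⁅c i.castSucc, A⁆ ≤ c i.succ) :
    ∀ p : ℕ, p.Prime → p ∣ (A ⊓ Subgroup.centralizer (H : Set G)).relIndex A → p ∣ Nat.card H := by
  intro p hp hdvd
  by_contra hnd
  have : Fact p.Prime := ⟨hp⟩
  obtain ⟨T⟩ : Nonempty (Sylow p A) := inferInstance
  have key : sylImg p T ≤ A ⊓ Subgroup.centralizer (H : Set G) := by
    intro a ha
    have haA : a ∈ A := sylImg_le p T ha
    refine ⟨haA, ?_⟩
    obtain ⟨k, hk⟩ : ∃ k : ℕ, a ^ (p ^ k) = 1 := by
      obtain ⟨k, hk⟩ := sylImg_isPGroup p T ⟨a, ha⟩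
      exact ⟨k, by simpa [Subtype.ext_iff] using hk⟩
    have hall : ∀ (j : ℕ) (i : Fin (n + 1)), (i : ℕ) + j = n → ∀ h ∈ c i, a * h = h * a := by
      intro j
      induction j with
      | zero =>
        intro i hi h hh
        have : i = Fin.last n := Fin.ext (by simpa using hi)
        rw [this, hcn] at hh
        rw [Subgroup.mem_bot.mp hh]; simp
      | succ j ih =>
        intro i hi h hh
        have hlt : (i : ℕ) < n := by omega
        obtain ⟨i', rfl⟩ : ∃ i' : Fin n, i = i'.castSucc := ⟨⟨i, hlt⟩, rfl⟩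
        have hz : ⁅h, a⁆ ∈ c i'.succ := htriv i' (Subgroup.commutator_mem_commutator hh haA)
        have hza : a * ⁅h, a⁆ = ⁅h, a⁆ * a := ih i'.succ (by simp at hi ⊢; omega) _ hz
        have hzH : ⁅h, a⁆ ∈ H := by
          rw [← hc0]; exact hanti (Fin.zero_le _) hz
        have e1 : h * a * h⁻¹ = ⁅h, a⁆ * a := by
          rw [commutatorElement_def]; group
        have e2 : (h * a * h⁻¹) ^ (p ^ k) = 1 := by
          rw [conj_pow, hk]; group
        rw [e1, Commute.mul_pow hza.symm, hk, mul_one] at e2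
        have hz1 : ⁅h, a⁆ = 1 := by
          have h1 : orderOf ⁅h, a⁆ ∣ p ^ k := orderOf_dvd_of_pow_eq_one e2
          have h2 : orderOf ⁅h, a⁆ ∣ Nat.card H := by
            have := Subgroup.orderOf_dvd_natCard H hzH
            exact this
          have h3 : (p ^ k).Coprime (Nat.card H) :=
            Nat.Coprime.pow_left _ ((Nat.Prime.coprime_iff_not_dvd hp).mpr hnd)
          have h4 : orderOf ⁅h, a⁆ = 1 := Nat.eq_one_of_dvd_coprimes h3 h1 h2
          exact orderOf_eq_one_iff.mp h4
        rw [hz1, one_mul] at e1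
        have e3 : a * h = (h * a * h⁻¹) * h := by rw [e1]
        rw [e3]; group
    show a ∈ Subgroup.centralizer (H : Set G)
    rw [Subgroup.mem_centralizer_iff]
    intro h hh
    exact (hall n 0 (by simp) h (by rw [hc0]; exact hh)).symm
  have h1 : (A ⊓ Subgroup.centralizer (H : Set G)).relIndex A ∣ (sylImg p T).relIndex A :=
    Subgroup.relIndex_dvd_of_le_left A key
  exact not_dvd_relIndex_sylImg p T (dvd_trans hdvd h1)

end Cfsg.Agent.S1441
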