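import Cfsg.Statements.S1442
import Cfsg.Agent.Lib.Helper2.Comp19

set_option autoImplicit false
open Cfsg

namespace Cfsg.Agent.S1442

open Cfsg.Agent.Lib.Helper2.Comp in
open scoped commutatorElement in
theorem result {G : Type*} [Group G] [Finite G] (H A : Subgroup G) (hH : Group.IsNilpotent H) (hA : (A ≤ Subgroup.normalizer (H : Set G))) (hcop : (Nat.card A).Coprime (Nat.card H))
    (hC : H ⊓ Subgroup.centralizer (((H ⊓ Subgroup.centralizer (A : Set G)) : Subgroup G) : Set G) ≤ (H ⊓ Subgroup.centralizer (A : Set G))) :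
    A ≤ Subgroup.centralizer (H : Set G) := by
  obtain ⟨C, hCdef⟩ : ∃ C, C = H ⊓ Subgroup.centralizer (A : Set G) := ⟨_, rfl⟩
  rw [← hCdef] at hC
  have hCH : C ≤ H := hCdef ▸ inf_le_left
  have hCA : C ≤ Subgroup.centralizer (A : Set G) := hCdef ▸ inf_le_right
  obtain ⟨N, hNdef⟩ : ∃ N, N = H ⊓ Subgroup.normalizer (C : Set G) := ⟨_, rfl⟩
  have hNH : N ≤ H := hNdef ▸ inf_le_left
  have hNN : N ≤ Subgroup.normalizer (C : Set G) := hNdef ▸ inf_le_right
  have hAC : ⁅A, C⁆ = ⊥ :=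
    Subgroup.commutator_eq_bot_iff_le_centralizer.mpr (Subgroup.le_centralizer_iff.mp hCA)
  have hCA' : ⁅C, A⁆ = ⊥ := Subgroup.commutator_eq_bot_iff_le_centralizer.mpr hCA
  have h1 : ⁅⁅A, C⁆, N⁆ = ⊥ := by
    rw [hAC, eq_bot_iff, Subgroup.commutator_le]
    intro x hx y _
    rw [Subgroup.mem_bot.mp hx]; simp
  have h2 : ⁅⁅C, N⁆, A⁆ = ⊥ := by
    have hle : ⁅C, N⁆ ≤ C := Cfsg.Agent.Lib.Lead.commutator_le_of_le_normalizer C N hNN
    rw [eq_bot_iff, ← hCA']
    exact Subgroup.commutator_mono hle le_rfl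
  have h3 : ⁅⁅N, A⁆, C⁆ = ⊥ := Subgroup.commutator_commutator_eq_bot_of_rotate h1 h2
  have h4 : ⁅N, A⁆ ≤ Subgroup.centralizer (C : Set G) :=
    Subgroup.commutator_eq_bot_iff_le_centralizer.mp h3
  have hNC : N ≤ C := by
    intro n hn
    have hnH : n ∈ H := hNH hn
    rw [hCdef]
    refine ⟨hnH, ?_⟩
    show n ∈ Subgroup.centralizer (A : Set G)
    rw [Subgroup.mem_centralizer_iff]
    intro a ha
    have hzH : ⁅n, a⁆ ∈ H := by
      rw [commutatorElement_def]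
      have h5 : a * n⁻¹ * a⁻¹ ∈ H :=
        (Subgroup.mem_normalizer_iff.mp (hA ha) n⁻¹).mp (H.inv_mem hnH)
      have e : n * a * n⁻¹ * a⁻¹ = n * (a * n⁻¹ * a⁻¹) := by group
      rw [e]; exact H.mul_mem hnH h5
    have hzC : ⁅n, a⁆ ∈ C := hC ⟨hzH, h4 (Subgroup.commutator_mem_commutator hn ha)⟩
    have hza : a * ⁅n, a⁆ = ⁅n, a⁆ * a := Subgroup.mem_centralizer_iff.mp (hCA hzC) a ha
    have hak : a ^ Nat.card A = 1 :=
      orderOf_dvd_iff_pow_eq_one.mp (Subgroup.orderOf_dvd_natCard A ha)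
    have e1 : n * a * n⁻¹ = ⁅n, a⁆ * a := by
      rw [commutatorElement_def]; group
    have e2 : (n * a * n⁻¹) ^ Nat.card A = 1 := by
      rw [conj_pow, hak]; group
    rw [e1, Commute.mul_pow hza.symm, hak, mul_one] at e2
    have hz1 : ⁅n, a⁆ = 1 := by
      have k1 : orderOf ⁅n, a⁆ ∣ Nat.card A := orderOf_dvd_of_pow_eq_one e2
      have k2 : orderOf ⁅n, a⁆ ∣ Nat.card H := Subgroup.orderOf_dvd_natCard H hzH
      have k4 : orderOf ⁅n, a⁆ = 1 := Nat.eq_one_of_dvd_coprimes hcop k1 k2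
      exact orderOf_eq_one_iff.mp k4
    rw [hz1, one_mul] at e1
    have e3 : a * n = (n * a * n⁻¹) * n := by rw [e1]
    rw [e3]; group
  have hnc : C.subgroupOf H = ⊤ := by
    apply (normalizerCondition_iff_only_full_group_self_normalizing (G := H)).mp
      Group.normalizerCondition_of_isNilpotent (C.subgroupOf H)
    rw [← Subgroup.subgroupOf_normalizer_eq hCH]
    ext x
    rw [Subgroup.mem_subgroupOf, Subgroup.mem_subgroupOf]
    constructor
    · intro hx; exact hNC (hNdef ▸ ⟨x.2, hx⟩)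
    · intro hx; exact Subgroup.le_normalizer hx
  have hHC : H ≤ C := Subgroup.subgroupOf_eq_top.mp hnc
  exact Subgroup.le_centralizer_iff.mp (hHC.trans hCA)

end Cfsg.Agent.S1442
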