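import Cfsg.Statements.S1443
import Cfsg.Agent.Lib.Helper2.Comp19
import Cfsg.Agent.Lib.Helper6.OmegaCent

set_option autoImplicit false
open Cfsg

namespace Cfsg.Agent.S1443

open Cfsg.Agent.Lib.Helper2.Comp in
open scoped commutatorElement in
theorem result {G : Type*} [Group G] [Finite G] (p : ℕ) [Fact p.Prime] (hp : p ≠ 2) (H E A : Subgroup G) (hH : IsPGroup p H) (hE : E ≤ H) (hEe : Cfsg.IsElementaryAbelian p E)
    (hA : (A ≤ Subgroup.normalizer (H : Set G))) (hcop : (Nat.card A).Coprime p)
    (hfix : ∀ x ∈ (H ⊓ Subgroup.centralizer (E : Set G)), orderOf x = p → A ≤ Subgroup.centralizer ({x} : Set G)) :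
    A ≤ Subgroup.centralizer (H : Set G) := by
  have hpp : p.Prime := Fact.out
  have hEp : IsPGroup p E := hH.to_le hE
  have hEH : E ≤ Subgroup.normalizer (H : Set G) := hE.trans Subgroup.le_normalizer
  have hEC : E ≤ H ⊓ Subgroup.centralizer (E : Set G) := by
    intro e he
    refine ⟨hE he, ?_⟩
    show e ∈ Subgroup.centralizer (E : Set G)
    rw [Subgroup.mem_centralizer_iff]
    intro x hx
    have := hEe.1
    exact setLike_mul_comm hx he
  have key : ∀ x ∈ H ⊓ Subgroup.centralizer (E : Set G), x ^ p = 1 → ∀ a ∈ A, a * x = x * a := by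
    intro x hx hxp a ha
    by_cases hx1 : x = 1
    · rw [hx1]; simp
    · have ho : orderOf x = p := orderOf_eq_prime hxp hx1
      exact Subgroup.mem_centralizer_singleton_iff.mp (hfix x hx ho ha)
  have hAE : A ≤ Subgroup.centralizer (E : Set G) := by
    intro a ha
    rw [Subgroup.mem_centralizer_iff]
    intro e he
    exact (key e (hEC he) (hEe.2 e he) a ha).symm
  have hAN : A ≤ Subgroup.normalizer (((H ⊓ Subgroup.centralizer (E : Set G)) : Subgroup G) : Set G) :=
    le_normalizer_inf hA (le_normalizer_centralizer (hAE.trans (Subgroup.centralizer_le_normalizer _)))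
  have hC : H ⊓ Subgroup.centralizer (E : Set G) ≤ Subgroup.centralizer (A : Set G) := by
    apply Subgroup.le_centralizer_iff.mp
    apply Cfsg.Agent.Lib.Helper6.centralizes_of_centralizes_omega A _ hcop (hH.to_le inf_le_left) hAN
    intro x hx hxp a ha
    rcases hxp with hxp | ⟨h2, _⟩
    · rw [key x hx hxp a ha]; group
    · exact absurd h2 hp
  intro y hy
  apply mem_centralizer_of_thompson p hH hEp hEH hA hAE hC hy
  exact Nat.Coprime.coprime_dvd_left (Subgroup.orderOf_dvd_natCard A hy) hcop

end Cfsg.Agent.S1443
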