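import Cfsg.Statements.S1460
import Cfsg.Agent.Lib.Helper2.Fus

set_option autoImplicit false
open Cfsg

namespace Cfsg.Agent.S1460

open Cfsg.Agent.Lib.Helper2.Fus in
theorem result {G : Type*} [Group G] [Finite G] [Group.IsSolvable G] (K U H : Subgroup G) [K.Normal] (hKU : K ⊔ U = ⊤) (hH : H ≤ U) (hcop : (Nat.card H).Coprime (Nat.card K)) :
    H ⊓ commutator G = H ⊓ ⁅U, U⁆ ∧
      Subgroup.normalizer (H : Set G) = (K ⊓ Subgroup.centralizer (H : Set G)) ⊔ (U ⊓ Subgroup.normalizer (H : Set G)) ∧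
      ∀ g : G, H.map (MulAut.conj g).toMonoidHom ≤ U → ∃ u ∈ U, ∃ c ∈ K ⊓ Subgroup.centralizer (H : Set G), g = u * c := by
  have hsolv : Group.IsSolvable ↥(K ⊓ U) ∨ Group.IsSolvable H := Or.inr inferInstance
  refine ⟨?_, normalizer_eq_sup K U H hKU hH hcop hsolv,
    fun g hg => exists_mul_of_conj_le K U H hKU hH hcop hsolv g hg⟩
  apply le_antisymm
  · exact le_inf inf_le_left (inf_commutator_le K U H hKU hH hcop)
  · apply inf_le_inf_left H
    rw [commutator_def]
    exact Subgroup.commutator_mono le_top le_top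

end Cfsg.Agent.S1460
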