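import Cfsg.Statements.S1461
import Cfsg.Agent.Lib.Helper2.Fus
import Cfsg.Agent.Lib.Helper2.PLen

set_option autoImplicit false
open Cfsg

namespace Cfsg.Agent.S1461

open Cfsg.Agent.Lib.Helper2.Fus Cfsg.Agent.Lib.Helper2.Comp in
open Pointwise in
theorem result {G : Type*} [Group G] [Finite G] [Group.IsSolvable G] (p : ℕ) [Fact p.Prime] (hpl : Cfsg.PLengthLE p 1 G) (S : Sylow p G) :
    ((S : Subgroup G) ≤ commutator G → (S : Subgroup G) ≤ ⁅Subgroup.normalizer ((S : Subgroup G) : Set G), Subgroup.normalizer ((S : Subgroup G) : Set G)⁆) ∧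
      (∀ (Y : Set G) (x : G), Y ⊆ (S : Subgroup G) → (fun y => x * y * x⁻¹) '' Y ⊆ (S : Subgroup G) →
        ∃ g ∈ Subgroup.normalizer ((S : Subgroup G) : Set G), ∃ c ∈ Subgroup.centralizer Y, g * c = x) ∧
      ∀ Q : Subgroup G, IsPGroup p Q → ∃ x ∈ Subgroup.centralizer ((Q ⊓ (S : Subgroup G) : Subgroup G) : Set G), Q.map (MulAut.conj x).toMonoidHom ≤ (S : Subgroup G) := by
  obtain ⟨K, hK⟩ : ∃ K, K = pPrimeCore p G := ⟨_, rfl⟩
  obtain ⟨U, hU⟩ : ∃ U, U = Subgroup.normalizer ((S : Subgroup G) : Set G) := ⟨_, rfl⟩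
  have hKn : K.Normal := hK ▸ Cfsg.Agent.Lib.Lead.pPrimeCore_normal p G
  have hKU : K ⊔ U = ⊤ := by rw [hK, hU]; exact pPrimeCore_sup_normalizer_eq_top p hpl S
  have hSU : (S : Subgroup G) ≤ U := hU ▸ Subgroup.le_normalizer
  have hUK : U ≤ Subgroup.normalizer (K : Set G) := by
    rw [Subgroup.normalizer_eq_top_iff.mpr hKn]; exact le_top
  have hcopS : ∀ H ≤ (S : Subgroup G), (Nat.card H).Coprime (Nat.card K) := by
    intro H hH
    obtain ⟨n, hn⟩ := IsPGroup.iff_card.mp (S.2.to_le hH)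
    rw [hn, hK]; exact Nat.Coprime.pow_left n (Cfsg.Agent.Lib.Lead.pPrimeCore_coprime p).symm
  have hdisj : K ⊓ (S : Subgroup G) = ⊥ :=
    (Subgroup.disjoint_of_coprime_natCard (hcopS _ le_rfl).symm).eq_bot
  rw [← hU]
  refine ⟨?_, ?_, ?_⟩
  · intro hSG
    exact (le_inf le_rfl hSG).trans (inf_commutator_le K U S hKU hSU (hcopS _ le_rfl))
  · intro Y x hY hxY
    have hH : Subgroup.closure Y ≤ (S : Subgroup G) := (Subgroup.closure_le _).mpr hY
    have hconj : (Subgroup.closure Y).map (MulAut.conj x).toMonoidHom ≤ U := by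
      rw [MonoidHom.map_closure, Subgroup.closure_le]
      rintro _ ⟨y, hy, rfl⟩
      exact hSU (hxY ⟨y, hy, rfl⟩)
    have hsol : Group.IsSolvable ↥(Subgroup.closure Y) := inferInstance
    obtain ⟨u, hu, c, hc, e⟩ := exists_mul_of_conj_le K U (Subgroup.closure Y) hKU (hH.trans hSU)
      (hcopS _ hH) (Or.inr hsol) x hconj
    exact ⟨u, hu, c, Subgroup.centralizer_le Subgroup.subset_closure hc.2, e.symm⟩
  · intro Q hQ
    obtain ⟨S', hS'⟩ := hQ.exists_le_sylow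
    obtain ⟨g, hg⟩ := MulAction.exists_smul_eq G S S'
    have hg' : g ∈ K ⊔ U := by rw [hKU]; trivial
    obtain ⟨k, hk, n, hn, e⟩ := Cfsg.Agent.Lib.Lead.mem_sup_of_le_normalizer hUK hg'
    have hn' : n • S = S := Sylow.smul_eq_iff_mem_normalizer.mpr (hU ▸ hn)
    have hS'k : (S' : Subgroup G) = MulAut.conj k • (S : Subgroup G) := by
      rw [← hg, e, mul_smul, hn']; rfl
    have hmem : ∀ q ∈ Q, k⁻¹ * q * k ∈ (S : Subgroup G) := by
      intro q hq
      have h0 := hS' hq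
      rw [hS'k, Cfsg.Agent.Lib.Lead.mem_conj_smul] at h0
      exact h0
    refine ⟨k⁻¹, ?_, ?_⟩
    · rw [Subgroup.mem_centralizer_iff]
      intro r hr
      have h1 : k⁻¹ * r * k ∈ (S : Subgroup G) := hmem r hr.1
      have h2 : k⁻¹ * r * k * r⁻¹ ∈ K ⊓ (S : Subgroup G) := by
        refine ⟨?_, Subgroup.mul_mem _ h1 (Subgroup.inv_mem _ hr.2)⟩
        have e1 : k⁻¹ * r * k * r⁻¹ = k⁻¹ * (r * k * r⁻¹) := by group
        rw [e1]; exact K.mul_mem (K.inv_mem hk) (hKn.conj_mem k hk r)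
      rw [hdisj, Subgroup.mem_bot] at h2
      have e2 : r * k⁻¹ = (k⁻¹ * r * k * r⁻¹)⁻¹ * (k⁻¹ * r) := by group
      rw [e2, h2]; group
    · rintro _ ⟨q, hq, rfl⟩
      show k⁻¹ * q * k⁻¹⁻¹ ∈ _
      rw [inv_inv]; exact hmem q hq

end Cfsg.Agent.S1461
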