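import Cfsg.Statements.S1462
import Cfsg.Agent.Lib.Helper2.EA
import Cfsg.Agent.S1443

set_option autoImplicit false
open Cfsg

namespace Cfsg.Agent.S1462

open Cfsg.Agent.Lib.Helper2.Comp in
theorem result {G : Type*} [Group G] [Finite G] [Group.IsSolvable G] (p : ℕ) [Fact p.Prime] (hp : p ≠ 2) (hpl : Cfsg.PLengthLE p 1 G) (E L : Subgroup G) (hE : Cfsg.IsElementaryAbelian p E)
    (hEmax : ∀ B : Subgroup G, Cfsg.IsElementaryAbelian p B → E ≤ B → B = E) (hL : (Nat.card L).Coprime p) (hEL : E ≤ Subgroup.normalizer (L : Set G)) :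
    L ≤ Cfsg.pPrimeCore p G := by
  have hEp : IsPGroup p E := isPGroup_of_isElementaryAbelian hE
  have hPn := Cfsg.Agent.Lib.Lead.pCore_normal p (G ⧸ pPrimeCore p G)
  have hPp : IsPGroup p (pCore p (G ⧸ pPrimeCore p G)) := pCore_quotient_isPGroup p
  have hEP : E.map (QuotientGroup.mk' (pPrimeCore p G)) ≤ pCore p (G ⧸ pPrimeCore p G) := by
    obtain ⟨S, hS⟩ := hEp.exists_le_sylow
    have h1 := sylow_le_pPrimePCore_of_pLengthLE_one p hpl S
    have h2 : (pPrimePCore p G).map (QuotientGroup.mk' (pPrimeCore p G)) =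
        pCore p (G ⧸ pPrimeCore p G) :=
      Subgroup.map_comap_eq_self_of_surjective (QuotientGroup.mk'_surjective _) _
    rw [← h2]; exact Subgroup.map_mono (hS.trans h1)
  have hLc : (Nat.card (L.map (QuotientGroup.mk' (pPrimeCore p G)))).Coprime p :=
    Nat.Coprime.coprime_dvd_left (Subgroup.card_map_dvd _ _) hL
  have hdisj : L.map (QuotientGroup.mk' (pPrimeCore p G)) ⊓ pCore p (G ⧸ pPrimeCore p G) = ⊥ := by
    apply (Subgroup.disjoint_of_coprime_natCard _).eq_bot
    obtain ⟨n, hn⟩ := IsPGroup.iff_card.mp hPp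
    rw [hn]; exact Nat.Coprime.pow_right n hLc
  have hLE : L.map (QuotientGroup.mk' (pPrimeCore p G)) ≤
      Subgroup.centralizer ((E.map (QuotientGroup.mk' (pPrimeCore p G)) : Subgroup _) : Set _) := by
    intro l hl
    rw [Subgroup.mem_centralizer_iff]
    intro e he
    obtain ⟨l₀, hl₀, rfl⟩ := hl
    obtain ⟨e₀, he₀, rfl⟩ := he
    have h1 : e₀ * l₀ * e₀⁻¹ * l₀⁻¹ ∈ L :=
      L.mul_mem ((Subgroup.mem_normalizer_iff.mp (hEL he₀) l₀).mp hl₀) (L.inv_mem hl₀)
    have h2 : QuotientGroup.mk' (pPrimeCore p G) (e₀ * l₀ * e₀⁻¹ * l₀⁻¹) ∈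
        L.map (QuotientGroup.mk' (pPrimeCore p G)) ⊓ pCore p (G ⧸ pPrimeCore p G) := by
      refine ⟨Subgroup.mem_map_of_mem _ h1, ?_⟩
      have h3 : QuotientGroup.mk' (pPrimeCore p G) e₀ ∈ pCore p (G ⧸ pPrimeCore p G) :=
        hEP (Subgroup.mem_map_of_mem _ he₀)
      have e1 : QuotientGroup.mk' (pPrimeCore p G) (e₀ * l₀ * e₀⁻¹ * l₀⁻¹) =
          QuotientGroup.mk' (pPrimeCore p G) e₀ * (QuotientGroup.mk' (pPrimeCore p G) l₀ *
            (QuotientGroup.mk' (pPrimeCore p G) e₀)⁻¹ *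
            (QuotientGroup.mk' (pPrimeCore p G) l₀)⁻¹) := by
        simp only [map_mul, map_inv, mul_assoc]
      rw [e1]; exact Subgroup.mul_mem _ h3 (hPn.conj_mem _ (Subgroup.inv_mem _ h3) _)
    rw [hdisj, Subgroup.mem_bot] at h2
    have e2 : QuotientGroup.mk' (pPrimeCore p G) e₀ * QuotientGroup.mk' (pPrimeCore p G) l₀ =
        QuotientGroup.mk' (pPrimeCore p G) (e₀ * l₀ * e₀⁻¹ * l₀⁻¹) *
          (QuotientGroup.mk' (pPrimeCore p G) l₀ * QuotientGroup.mk' (pPrimeCore p G) e₀) := by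
      simp only [map_mul, map_inv]; group
    rw [e2, h2, one_mul]
  have hfix : ∀ x ∈ pCore p (G ⧸ pPrimeCore p G) ⊓
      Subgroup.centralizer ((E.map (QuotientGroup.mk' (pPrimeCore p G)) : Subgroup _) : Set _),
      orderOf x = p → L.map (QuotientGroup.mk' (pPrimeCore p G)) ≤
        Subgroup.centralizer ({x} : Set _) := by
    intro x hx hox
    have hxp : x ^ p = 1 := by
      have h0 := pow_orderOf_eq_one x
      rw [hox] at h0
      exact h0
    have hxE := mem_map_of_maximal_elementaryAbelian p hE hEmax hxp hx.2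
    exact hLE.trans (Subgroup.centralizer_le (by
      intro y hy
      rw [Set.mem_singleton_iff] at hy
      rw [hy]; exact hxE))
  have key := Cfsg.Agent.S1443.result p hp (pCore p (G ⧸ pPrimeCore p G))
    (E.map (QuotientGroup.mk' (pPrimeCore p G))) (L.map (QuotientGroup.mk' (pPrimeCore p G)))
    hPp hEP (isElementaryAbelian_map hE _)
    (by rw [Subgroup.normalizer_eq_top_iff.mpr hPn]; exact le_top) hLc hfix
  have hcon := (isPConstrained_iff p).mp
    ((isPConstrained_iff_pLayer p).mpr (pLayer_eq_bot_of_isSolvable (X := G) p))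
  have hLP : L.map (QuotientGroup.mk' (pPrimeCore p G)) ≤ pCore p (G ⧸ pPrimeCore p G) :=
    key.trans hcon
  have hLbot : L.map (QuotientGroup.mk' (pPrimeCore p G)) = ⊥ := by
    rw [← hdisj]; exact (inf_eq_left.mpr hLP).symm
  intro l hl
  apply mem_of_mk_eq_one p
  have h0 := Subgroup.mem_map_of_mem (QuotientGroup.mk' (pPrimeCore p G)) hl
  rw [hLbot, Subgroup.mem_bot] at h0
  exact h0

end Cfsg.Agent.S1462
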