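import Cfsg.Statements.S1892
import Mathlib
import Cfsg.Agent.Lib.Lead.Coprime
import Cfsg.Agent.Lib.Helper3.HallHigman

set_option autoImplicit false
open Cfsg

namespace Cfsg.Agent.S1892

/-- Let S be a finite p-solvable group with no nontrivial normal subgroup of order prime to p, A a p-subgroup of S, and Q a nontrivial A-invariant subgroup of order prime to p with [A, Q] = Q. Then the commutator [O_p(S), A, Q] is nontrivial. -/
theorem result {S : Type*} [Group S] [Finite S] {p : ℕ} [Fact p.Prime]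
    (hS : Cfsg.IsPSolvable p S) (hred : Cfsg.pPrimeCore p S = ⊥)
    (A Q : Subgroup S) (hA : IsPGroup p A) (hQ : ¬ p ∣ Nat.card Q) (hQ1 : Q ≠ ⊥)
    (hinv : ∀ a ∈ A, ∀ x ∈ Q, a * x * a⁻¹ ∈ Q) (hAQ : ⁅A, Q⁆ = Q) :
    ⁅⁅Cfsg.pCore p S, A⁆, Q⁆ ≠ ⊥ := by
  intro hbot
  apply hQ1
  have hPn : (Cfsg.pCore p S).Normal := Cfsg.pCore_normal p S
  have hPp : IsPGroup p (Cfsg.pCore p S) := Cfsg.Agent.Lib.Lead.pCore_isPGroup' p
  have hHH := Cfsg.Agent.Lib.Helper3.centralizer_pCore_le_of_isPSolvable hS hred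
  obtain ⟨P, hP⟩ : ∃ P : Subgroup S, P = Cfsg.pCore p S := ⟨_, rfl⟩
  rw [← hP] at hbot hPn hPp hHH
  obtain ⟨D, hD⟩ : ∃ D : Subgroup S, D = ⁅P, A⁆ := ⟨_, rfl⟩
  rw [← hD] at hbot
  have hDQ : ∀ d ∈ D, ∀ q ∈ Q, q * d = d * q := by
    have h1 := Subgroup.commutator_eq_bot_iff_le_centralizer.mp hbot
    intro d hd q hq
    exact (Subgroup.mem_centralizer_iff.mp (h1 hd)) q hq
  have hAN : A ≤ Subgroup.normalizer (D : Set S) :=
    hD ▸ Cfsg.Agent.Lib.Lead.le_normalizer_commutator_right P A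
  have hQN : Q ≤ Subgroup.normalizer (D : Set S) := by
    intro q hq
    apply Cfsg.Agent.Lib.Helper3.mem_normalizer_of_forall_conj_mem
    intro d hd
    have h1 := hDQ d hd q hq
    have e : q * d * q⁻¹ = d := by rw [h1]; group
    rw [e]; exact hd
  obtain ⟨T, hT⟩ : ∃ T : Subgroup S, ∀ g, g ∈ T ↔
      (g ∈ Subgroup.normalizer (D : Set S) ∧ ∀ x ∈ P, x * g * x⁻¹ * g⁻¹ ∈ D) :=
    ⟨{ carrier := {g | g ∈ Subgroup.normalizer (D : Set S) ∧ ∀ x ∈ P, x * g * x⁻¹ * g⁻¹ ∈ D}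
       mul_mem' := by
         rintro g h ⟨hg, hg'⟩ ⟨hh, hh'⟩
         refine ⟨Subgroup.mul_mem _ hg hh, fun x hx => ?_⟩
         have e : x * (g * h) * x⁻¹ * (g * h)⁻¹ =
             (x * g * x⁻¹ * g⁻¹) * (g * (x * h * x⁻¹ * h⁻¹) * g⁻¹) := by group
         rw [e]
         exact Subgroup.mul_mem _ (hg' x hx) ((Subgroup.mem_normalizer_iff.mp hg _).mp (hh' x hx))
       one_mem' := ⟨Subgroup.one_mem _, fun x hx => by
         have e : x * 1 * x⁻¹ * (1 : S)⁻¹ = 1 := by group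
         rw [e]; exact Subgroup.one_mem _⟩
       inv_mem' := by
         rintro g ⟨hg, hg'⟩
         refine ⟨Subgroup.inv_mem _ hg, fun x hx => ?_⟩
         have e : x * g⁻¹ * x⁻¹ * g⁻¹⁻¹ = g⁻¹ * (x * g * x⁻¹ * g⁻¹)⁻¹ * g⁻¹⁻¹ := by group
         rw [e]
         exact (Subgroup.mem_normalizer_iff.mp (Subgroup.inv_mem _ hg) _).mp
           (Subgroup.inv_mem _ (hg' x hx)) }, fun g => Iff.rfl⟩
  have hAT : A ≤ T := by
    intro a ha
    rw [hT]
    refine ⟨hAN ha, fun x hx => ?_⟩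
    have h1 := Subgroup.commutator_mem_commutator hx ha
    rw [commutatorElement_def] at h1
    rw [hD]; exact h1
  have hQT : Q ≤ T := by
    rw [← hAQ, Subgroup.commutator_le]
    intro a ha q hq
    rw [commutatorElement_def]
    have h1 : q * a⁻¹ * q⁻¹ ∈ T := by
      rw [hT]
      refine ⟨Subgroup.mul_mem _ (Subgroup.mul_mem _ (hQN hq) (Subgroup.inv_mem _ (hAN ha)))
        (Subgroup.inv_mem _ (hQN hq)), fun x hx => ?_⟩
      have hx' : q⁻¹ * x * q ∈ P := by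
        have h0 := hPn.conj_mem x hx q⁻¹
        rw [inv_inv] at h0
        exact h0
      have h2 := ((hT a⁻¹).mp (Subgroup.inv_mem _ (hAT ha))).2 _ hx'
      have h3 := hDQ _ h2 q hq
      have e : x * (q * a⁻¹ * q⁻¹) * x⁻¹ * (q * a⁻¹ * q⁻¹)⁻¹ =
          q * ((q⁻¹ * x * q) * a⁻¹ * (q⁻¹ * x * q)⁻¹ * a⁻¹⁻¹) * q⁻¹ := by group
      rw [e, h3, mul_assoc, mul_inv_cancel, mul_one]
      exact h2
    have e : a * q * a⁻¹ * q⁻¹ = a * (q * a⁻¹ * q⁻¹) := by group
    rw [e]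
    exact Subgroup.mul_mem _ (hAT ha) h1
  have hPQD : ⁅P, Q⁆ ≤ D := by
    rw [Subgroup.commutator_le]
    intro x hx q hq
    rw [commutatorElement_def]
    exact ((hT q).mp (hQT hq)).2 x hx
  have hQc : (Nat.card Q).Coprime p := ((Nat.Prime.coprime_iff_not_dvd Fact.out).mpr hQ).symm
  have hQNP : Q ≤ Subgroup.normalizer (P : Set S) := by
    intro q _
    exact Cfsg.Agent.Lib.Helper3.mem_normalizer_of_forall_conj_mem P q (fun a ha => hPn.conj_mem a ha q)
  have hQP : Q ≤ Subgroup.centralizer (P : Set S) := by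
    intro q hq
    rw [Subgroup.mem_centralizer_iff]
    intro x hx
    have hcop : (Nat.card Q).Coprime (Nat.card P) := by
      obtain ⟨k, hk⟩ := hPp.exists_card_eq
      rw [hk]; exact Nat.Coprime.pow_right k hQc
    have hsolvP : Group.IsSolvable P := by
      have := hPp.isNilpotent
      infer_instance
    obtain ⟨d, hd, c, hc, e⟩ := Cfsg.Agent.Lib.Lead.exists_commutator_mul_centralizer Q P hQNP hcop
      (Or.inr hsolvP) hx
    have h1 := hDQ d (hPQD hd) q hq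
    have h2 := (Subgroup.mem_centralizer_iff.mp hc.2) q hq
    rw [e]
    calc d * c * q = d * (c * q) := by group
      _ = d * (q * c) := by rw [h2]
      _ = (d * q) * c := by group
      _ = (q * d) * c := by rw [h1]
      _ = q * (d * c) := by group
  rw [eq_bot_iff]
  intro q hq
  exact Subgroup.mem_bot.mpr
    (Cfsg.Agent.Lib.Helper3.eq_one_of_mem_coprime_of_mem_pgroup Q P hQc hPp hq (hHH (hQP hq)))

end Cfsg.Agent.S1892
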