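import Cfsg.Statements.S1894
import Cfsg.Agent.Lib.Helper3.Nilp

set_option autoImplicit false
open Cfsg

namespace Cfsg.Agent.S1894

/-- Let P be a finite p-group, A a normal subgroup of P and B an abelian subgroup of A that is normal in P. Then some subgroup C of A containing B is normal in P and is self-centralizing and normal in A (C ∈ SCN(A)). -/
theorem result {P : Type*} [Group P] [Finite P] {p : ℕ} [Fact p.Prime] (hP : IsPGroup p P)
    (A : Subgroup P) [A.Normal] (B : Subgroup P) [B.Normal] (hBA : B ≤ A) (hB : IsMulCommutative B) :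
    ∃ C : Subgroup P, C.Normal ∧ B ≤ C ∧ Cfsg.IsSCN A C := by
  classical
  haveI : Group.IsNilpotent P := hP.isNilpotent
  let 𝒮 : Set (Subgroup P) := {C | C.Normal ∧ B ≤ C ∧ C ≤ A ∧ IsMulCommutative C}
  have hB𝒮 : B ∈ 𝒮 := ⟨inferInstance, le_rfl, hBA, hB⟩
  obtain ⟨C, ⟨hCn, hBC, hCA, hCab⟩, hCmax⟩ := (Set.toFinite 𝒮).exists_maximal ⟨B, hB𝒮⟩
  haveI := hCn
  refine ⟨C, hCn, hBC, hCA, ?_, ?_⟩
  · rw [Subgroup.normalizer_eq_top]; exact le_top
  · have hCcen : C ≤ Subgroup.centralizer (C : Set P) :=
      Subgroup.le_centralizer_iff_isMulCommutative.mpr hCab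
    apply le_antisymm _ (le_inf hCA hCcen)
    by_contra hnot
    haveI : (A ⊓ Subgroup.centralizer (C : Set P)).Normal := inferInstance
    obtain ⟨x, hxD, hxC, hx⟩ := Cfsg.Agent.Lib.Helper3.exists_central_mod C
      (A ⊓ Subgroup.centralizer (C : Set P)) (le_inf hCA hCcen) hnot
    have hC' : Subgroup.closure ((C : Set P) ∪ {x}) ∈ 𝒮 := by
      refine ⟨?_, ?_, ?_, ?_⟩
      · refine ⟨fun n hn g => ?_⟩
        have hmap : (Subgroup.closure ((C : Set P) ∪ {x})).map (MulAut.conj g).toMonoidHom ≤
            Subgroup.closure ((C : Set P) ∪ {x}) := by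
          rw [MonoidHom.map_closure, Subgroup.closure_le]
          rintro _ ⟨s, hs | hs, rfl⟩
          · exact Subgroup.subset_closure (Or.inl (hCn.conj_mem s hs g))
          · rw [Set.mem_singleton_iff] at hs
            subst hs
            have e : g * s * g⁻¹ = (g * s * g⁻¹ * s⁻¹) * s := by group
            show g * s * g⁻¹ ∈ _
            rw [e]
            exact Subgroup.mul_mem _ (Subgroup.subset_closure (Or.inl (hx g)))
              (Subgroup.subset_closure (Or.inr rfl))
        exact hmap ⟨n, hn, rfl⟩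
      · exact hBC.trans (fun c hc => Subgroup.subset_closure (Or.inl hc))
      · rw [Subgroup.closure_le]
        rintro s (hs | hs)
        · exact hCA hs
        · rw [Set.mem_singleton_iff] at hs
          rw [hs]; exact (Subgroup.mem_inf.mp hxD).1
      · apply Subgroup.isMulCommutative_closure
        have hxc : ∀ c ∈ C, c * x = x * c :=
          Subgroup.mem_centralizer_iff.mp (Subgroup.mem_inf.mp hxD).2
        rintro s (hs | hs) t (ht | ht)
        · exact congrArg Subtype.val (hCab.is_comm.comm ⟨s, hs⟩ ⟨t, ht⟩)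
        · rw [Set.mem_singleton_iff] at ht
          rw [ht]; exact hxc s hs
        · rw [Set.mem_singleton_iff] at hs
          rw [hs]; exact (hxc t ht).symm
        · rw [Set.mem_singleton_iff] at hs ht
          rw [hs, ht]
    have hle : C ≤ Subgroup.closure ((C : Set P) ∪ {x}) :=
      fun c hc => Subgroup.subset_closure (Or.inl hc)
    have hge := hCmax hC' hle
    exact hxC (hge (Subgroup.subset_closure (Or.inr rfl)))

end Cfsg.Agent.S1894
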