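import Cfsg.Statements.S1898
import Mathlib

set_option autoImplicit false
open Cfsg

namespace Cfsg.Agent.S1898

/-- Let X be a finite 2-group whose derived subgroup is elementary abelian and central. Then the subgroup generated by the elements of order dividing 4 has exponent dividing 4, and every automorphism of X fixing each element of order dividing 4 has 2-power order. -/
theorem result {X : Type*} [Group X] [Finite X] (hX : IsPGroup 2 X)
    (hel : Cfsg.IsElementaryAbelian 2 (commutator X)) (hcen : commutator X ≤ Subgroup.center X) :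
    (∀ x ∈ Subgroup.closure {g : X | g ^ 4 = 1}, x ^ 4 = 1) ∧
      ∀ φ : MulAut X, (∀ g : X, g ^ 4 = 1 → φ g = g) → ∃ k : ℕ, φ ^ (2 ^ k) = 1 := by
  classical
  -- commutators are central of square one
  have hcomm : ∀ a b : X, a * b * a⁻¹ * b⁻¹ ∈ commutator X := by
    intro a b
    rw [commutator_def, ← commutatorElement_def]
    exact Subgroup.commutator_mem_commutator (Subgroup.mem_top a) (Subgroup.mem_top b)
  have hzc : ∀ a b g : X, g * (a * b * a⁻¹ * b⁻¹) = (a * b * a⁻¹ * b⁻¹) * g := by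
    intro a b g
    exact Subgroup.mem_center_iff.mp (hcen (hcomm a b)) g
  have hz2 : ∀ a b : X, (a * b * a⁻¹ * b⁻¹) * (a * b * a⁻¹ * b⁻¹) = 1 := by
    intro a b
    have := hel.2 _ (hcomm a b)
    rwa [pow_two] at this
  -- squares are central
  have hsq : ∀ a b : X, b * b * a = a * (b * b) := by
    intro a b
    have e1 : b * a = (b * a * b⁻¹ * a⁻¹) * (a * b) := by group
    calc b * b * a = b * (b * a) := by group
      _ = b * ((b * a * b⁻¹ * a⁻¹) * (a * b)) := by rw [← e1]
      _ = (b * (b * a * b⁻¹ * a⁻¹)) * (a * b) := by group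
      _ = ((b * a * b⁻¹ * a⁻¹) * b) * (a * b) := by rw [hzc]
      _ = (b * a * b⁻¹ * a⁻¹) * (b * a) * b := by group
      _ = (b * a * b⁻¹ * a⁻¹) * ((b * a * b⁻¹ * a⁻¹) * (a * b)) * b := by rw [← e1]
      _ = ((b * a * b⁻¹ * a⁻¹) * (b * a * b⁻¹ * a⁻¹)) * (a * b) * b := by group
      _ = a * (b * b) := by rw [hz2]; group
  have hmulsq : ∀ a b : X, (a * b) * (a * b) = (b * a * b⁻¹ * a⁻¹) * (a * a) * (b * b) := by
    intro a b
    have e1 : b * a = (b * a * b⁻¹ * a⁻¹) * (a * b) := by group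
    calc (a * b) * (a * b) = a * (b * a) * b := by group
      _ = a * ((b * a * b⁻¹ * a⁻¹) * (a * b)) * b := by rw [← e1]
      _ = (a * (b * a * b⁻¹ * a⁻¹)) * (a * b) * b := by group
      _ = ((b * a * b⁻¹ * a⁻¹) * a) * (a * b) * b := by rw [hzc]
      _ = (b * a * b⁻¹ * a⁻¹) * (a * a) * (b * b) := by group
  have e4 : ∀ g : X, g ^ 4 = (g * g) * (g * g) := by
    intro g
    rw [show (4 : ℕ) = 2 + 2 from rfl, pow_add, pow_two]
  have hpow4 : ∀ a b : X, (a * b) ^ 4 = a ^ 4 * b ^ 4 := by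
    intro a b
    calc (a * b) ^ 4 = ((a * b) * (a * b)) * ((a * b) * (a * b)) := e4 _
      _ = (b * a * b⁻¹ * a⁻¹) * (a * a) * (b * b) * ((b * a * b⁻¹ * a⁻¹) * (a * a) * (b * b)) := by
          rw [hmulsq a b]
      _ = (b * a * b⁻¹ * a⁻¹) * ((a * a) * (b * b) * (b * a * b⁻¹ * a⁻¹)) * (a * a) * (b * b) := by group
      _ = (b * a * b⁻¹ * a⁻¹) * ((b * a * b⁻¹ * a⁻¹) * ((a * a) * (b * b))) * (a * a) * (b * b) := by
          rw [hzc]
      _ = ((b * a * b⁻¹ * a⁻¹) * (b * a * b⁻¹ * a⁻¹)) * (a * a) * ((b * b) * (a * a)) * (b * b) := by group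
      _ = (a * a) * ((a * a) * (b * b)) * (b * b) := by rw [hz2, hsq (a * a) b, one_mul]
      _ = a * a * (a * a) * (b * b * (b * b)) := by group
      _ = a ^ 4 * b ^ 4 := by rw [e4 a, e4 b]
  have hclos : ∀ x ∈ Subgroup.closure {g : X | g ^ 4 = 1}, x ^ 4 = 1 := by
    intro x hx
    induction hx using Subgroup.closure_induction with
    | mem x hx => exact hx
    | one => exact one_pow 4
    | mul x y _ _ hx hy => rw [hpow4, hx, hy, one_mul]
    | inv x _ hx => rw [inv_pow, hx, inv_one]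
  refine ⟨hclos, ?_⟩
  intro φ hφ
  have hN : orderOf φ ≠ 0 := (orderOf_pos φ).ne'
  obtain ⟨k, m, hm, hkm⟩ := Nat.exists_eq_two_pow_mul_odd hN
  refine ⟨k, ?_⟩
  obtain ⟨ψ, hψ⟩ : ∃ ψ : MulAut X, ψ = φ ^ (2 ^ k) := ⟨_, rfl⟩
  rw [← hψ]
  have hψm : ψ ^ m = 1 := by
    rw [hψ, ← pow_mul, ← hkm, pow_orderOf_eq_one]
  have hφj : ∀ (j : ℕ) (g : X), g ^ 4 = 1 → (φ ^ j) g = g := by
    intro j
    induction j with
    | zero => intro g _; simp
    | succ j ih => intro g hg; rw [pow_succ, MulAut.mul_apply, hφ g hg, ih g hg]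
  have hψ4 : ∀ g : X, g ^ 4 = 1 → ψ g = g := by
    intro g hg; rw [hψ]; exact hφj _ g hg
  have key : ∀ (N : ℕ) (x : X), orderOf x ≤ N → ψ x = x := by
    intro N
    induction N with
    | zero =>
      intro x hx
      have := orderOf_pos x
      omega
    | succ N ih =>
      intro x hx
      by_cases hx1 : x = 1
      · rw [hx1, map_one]
      obtain ⟨a, ha⟩ := (IsPGroup.iff_orderOf.mp hX) x
      have ha0 : a ≠ 0 := by
        intro h0
        rw [h0, pow_zero, orderOf_eq_one_iff] at ha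
        exact hx1 ha
      obtain ⟨a', rfl⟩ : ∃ a', a = a' + 1 := ⟨a - 1, by omega⟩
      have hxx : orderOf (x * x) ≤ N := by
        have h1 : (x * x) ^ (2 ^ a') = 1 := by
          rw [← pow_two, ← pow_mul, ← pow_succ', ← ha, pow_orderOf_eq_one]
        have hpos : 0 < 2 ^ a' := by positivity
        have h2 := orderOf_le_of_pow_eq_one hpos h1
        have h3 : 2 ^ (a' + 1) = 2 ^ a' * 2 := pow_succ 2 a'
        omega
      have h1 : ψ (x * x) = x * x := ih _ hxx
      rw [map_mul] at h1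
      obtain ⟨c, hc⟩ : ∃ c : X, c = x⁻¹ * ψ x := ⟨_, rfl⟩
      have hcc : c * c = (ψ x) * x⁻¹ * (ψ x)⁻¹ * x⁻¹⁻¹ := by
        rw [hc, hmulsq]
        have : x⁻¹ * x⁻¹ * (ψ x * ψ x) = 1 := by rw [h1]; group
        rw [mul_assoc, this, mul_one]
      have hc4 : c ^ 4 = 1 := by
        rw [e4, hcc, hz2]
      have hψc : ψ c = c := hψ4 c hc4
      have hψx : ψ x = x * c := by rw [hc]; group
      have hj : ∀ j : ℕ, (ψ ^ j) x = x * c ^ j := by
        intro j
        induction j with
        | zero => simp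
        | succ j ihj =>
          rw [pow_succ', MulAut.mul_apply, ihj, map_mul, map_pow, hψc, hψx, pow_succ']
          group
      have hcm : c ^ m = 1 := by
        have := hj m
        rw [hψm, MulAut.one_apply] at this
        have h' : x * c ^ m = x * 1 := by rw [mul_one]; exact this.symm
        exact mul_left_cancel h'
      have hd1 : orderOf c ∣ m := orderOf_dvd_of_pow_eq_one hcm
      have hd2 : orderOf c ∣ 4 := orderOf_dvd_of_pow_eq_one hc4
      have hcop : Nat.Coprime m 4 := by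
        have : Nat.Coprime m (2 ^ 2) := Nat.Coprime.pow_right 2 (Nat.coprime_two_left.mpr hm).symm
        simpa using this
      have hc1 : c = 1 := by
        rw [← orderOf_eq_one_iff]
        exact Nat.eq_one_of_dvd_coprimes hcop hd1 hd2
      rw [hψx, hc1, mul_one]
  apply MulEquiv.ext
  intro x
  rw [MulAut.one_apply]
  exact key (orderOf x) x le_rfl


end Cfsg.Agent.S1898
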