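import Cfsg.Statements.S1899
import Mathlib

set_option autoImplicit false
open Cfsg

namespace Cfsg.Agent.S1899

/-- Let a dihedral group of order 2n, n odd and n > 1, act on a finite abelian 2-group A through automorphisms d and t with d^n = 1, t² = 1 and t d t⁻¹ = d⁻¹, and suppose that d fixes only the identity. Then A is the internal direct product of C_A(t) and its image under d. -/
theorem result {A : Type*} [CommGroup A] [Finite A] (hA : IsPGroup 2 A)
    {n : ℕ} (hn : Odd n) (hn1 : 1 < n) (d t : MulAut A) (hd : d ^ n = 1) (ht : t ^ 2 = 1) (hdt : t * d * t⁻¹ = d⁻¹)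
    (hfix : ∀ a : A, d a = a → a = 1) :
    (MulEquiv.toMonoidHom t).eqLocus (MonoidHom.id A) ⊓ ((MulEquiv.toMonoidHom t).eqLocus (MonoidHom.id A)).map d.toMonoidHom = ⊥ ∧
      (MulEquiv.toMonoidHom t).eqLocus (MonoidHom.id A) ⊔ ((MulEquiv.toMonoidHom t).eqLocus (MonoidHom.id A)).map d.toMonoidHom = ⊤ := by
  classical
  have hmemC : ∀ a : A, a ∈ (MulEquiv.toMonoidHom t).eqLocus (MonoidHom.id A) ↔ t a = a := fun a => Iff.rfl
  obtain ⟨C, hCdef⟩ : ∃ C : Subgroup A, C = (MulEquiv.toMonoidHom t).eqLocus (MonoidHom.id A) := ⟨_, rfl⟩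
  rw [← hCdef]
  have hC : ∀ a : A, a ∈ C ↔ t a = a := by
    intro a; rw [hCdef]; exact hmemC a
  have hmapd : ∀ a : A, a ∈ C.map d.toMonoidHom ↔ ∃ c ∈ C, d c = a := fun a => Iff.rfl
  have e1 : t * d = d⁻¹ * t := by rw [← hdt]; group
  have e2 : t * d⁻¹ = d * t := by
    have : d = t * d⁻¹ * t⁻¹ := by
      have h := congrArg (fun x => x⁻¹) hdt
      simp only [mul_inv_rev, inv_inv] at h
      rw [mul_assoc]; exact h.symm
    calc t * d⁻¹ = (t * d⁻¹ * t⁻¹) * t := by group
      _ = d * t := by rw [← this]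
  have htd : ∀ a : A, t (d a) = d⁻¹ (t a) := fun a => by
    rw [← MulAut.mul_apply, e1, MulAut.mul_apply]
  have htd' : ∀ a : A, t (d⁻¹ a) = d (t a) := fun a => by
    rw [← MulAut.mul_apply, e2, MulAut.mul_apply]
  have htt : ∀ a : A, t (t a) = a := fun a => by
    rw [← MulAut.mul_apply, ← pow_two, ht, MulAut.one_apply]
  obtain ⟨m, hm⟩ := hn
  have hdd : (d * d) ^ (m + 1) = d := by
    rw [← pow_two, ← pow_mul]
    have : 2 * (m + 1) = n + 1 := by omega
    rw [this, pow_succ, hd, one_mul]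
  constructor
  · rw [eq_bot_iff]
    intro x hx
    obtain ⟨hx1, hx2⟩ := Subgroup.mem_inf.mp hx
    obtain ⟨c, hc, rfl⟩ := (hmapd x).mp hx2
    have hc' := (hC c).mp hc
    have h1 := (hC _).mp hx1
    rw [htd, hc'] at h1
    have h2 : (d * d) c = c := by
      rw [MulAut.mul_apply, ← h1, MulAut.apply_inv_self]
    have h3 : ∀ j : ℕ, ((d * d) ^ j) c = c := by
      intro j
      induction j with
      | zero => simp
      | succ j ih => rw [pow_succ, MulAut.mul_apply, h2, ih]
    have h4 : d c = c := by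
      have := h3 (m + 1)
      rw [hdd] at this
      exact this
    have h5 := hfix c h4
    rw [Subgroup.mem_bot, h5, map_one]
  · rw [eq_top_iff]
    intro a _
    obtain ⟨B, hB⟩ : ∃ B : Subgroup A, B = C ⊔ C.map d.toMonoidHom := ⟨_, rfl⟩
    rw [← hB]
    have hCB : C ≤ B := by rw [hB]; exact le_sup_left
    have hdCB : ∀ c ∈ C, d c ∈ B := by
      intro c hc
      rw [hB]
      exact (le_sup_right : C.map d.toMonoidHom ≤ _) ((hmapd _).mpr ⟨c, hc, rfl⟩)
    have hC1 : ∀ a : A, a * t a ∈ C := by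
      intro a
      rw [hC, map_mul, htt, mul_comm]
    have hC2 : ∀ c ∈ C, d c * d⁻¹ c ∈ C := by
      intro c hc
      have hc' := (hC c).mp hc
      rw [hC, map_mul, htd, htd', hc', mul_comm]
    have hBd : ∀ b ∈ B, d b ∈ B := by
      intro b hb
      rw [hB] at hb
      obtain ⟨c₁, hc₁, z, hz, rfl⟩ := Subgroup.mem_sup.mp hb
      obtain ⟨c₂, hc₂, rfl⟩ := (hmapd z).mp hz
      rw [map_mul]
      refine B.mul_mem (hdCB c₁ hc₁) ?_
      have e : d (d c₂) = d (d c₂ * d⁻¹ c₂) * c₂⁻¹ := by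
        rw [map_mul, MulAut.apply_inv_self, mul_inv_cancel_right]
      rw [e]
      exact B.mul_mem (hdCB _ (hC2 c₂ hc₂)) (B.inv_mem (hCB hc₂))
    have hBdi : ∀ b ∈ B, d⁻¹ b ∈ B := by
      intro b hb
      rw [hB] at hb
      obtain ⟨c₁, hc₁, z, hz, rfl⟩ := Subgroup.mem_sup.mp hb
      obtain ⟨c₂, hc₂, rfl⟩ := (hmapd z).mp hz
      rw [map_mul, MulAut.inv_apply_self]
      refine B.mul_mem ?_ (hCB hc₂)
      have e : d⁻¹ c₁ = (d c₁ * d⁻¹ c₁) * (d c₁)⁻¹ := by
        rw [mul_comm (d c₁), mul_inv_cancel_right]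
      rw [e]
      exact B.mul_mem (hCB (hC2 c₁ hc₁)) (B.inv_mem (hdCB c₁ hc₁))
    have hmod0 : ∀ a : A, d a * (d⁻¹ a)⁻¹ ∈ B := by
      intro a
      have h1 : d a * d⁻¹ (t a) ∈ B := by
        have := hCB (hC1 (d a))
        rw [htd] at this
        exact this
      have h2 : d⁻¹ a * d⁻¹ (t a) ∈ B := by
        have := hBdi _ (hCB (hC1 a))
        rw [map_mul] at this
        exact this
      have e : d a * (d⁻¹ a)⁻¹ = (d a * d⁻¹ (t a)) * (d⁻¹ a * d⁻¹ (t a))⁻¹ := by
        rw [mul_inv, mul_mul_mul_comm, mul_inv_cancel, mul_one]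
      rw [e]
      exact B.mul_mem h1 (B.inv_mem h2)
    have hmod : ∀ a : A, (d * d) a * a⁻¹ ∈ B := by
      intro a
      have := hBd _ (hmod0 a)
      rw [map_mul, map_inv, MulAut.apply_inv_self] at this
      rw [MulAut.mul_apply]
      exact this
    have hmod2 : ∀ (j : ℕ) (a : A), ((d * d) ^ j) a * a⁻¹ ∈ B := by
      intro j
      induction j with
      | zero => intro a; simp
      | succ j ih =>
        intro a
        rw [pow_succ', MulAut.mul_apply]
        have e : (d * d) (((d * d) ^ j) a) * a⁻¹ =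
            ((d * d) (((d * d) ^ j) a) * (((d * d) ^ j) a)⁻¹) * (((d * d) ^ j) a * a⁻¹) := by
          rw [mul_assoc, inv_mul_cancel_left]
        rw [e]
        exact B.mul_mem (hmod _) (ih a)
    have hd1 : ∀ a : A, d a * a⁻¹ ∈ B := by
      intro a
      have := hmod2 (m + 1) a
      rw [hdd] at this
      exact this
    have hdj : ∀ (j : ℕ) (a : A), (d ^ j) a * a⁻¹ ∈ B := by
      intro j
      induction j with
      | zero => intro a; simp
      | succ j ih =>
        intro a
        rw [pow_succ', MulAut.mul_apply]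
        have e : d ((d ^ j) a) * a⁻¹ =
            (d ((d ^ j) a) * ((d ^ j) a)⁻¹) * ((d ^ j) a * a⁻¹) := by
          rw [mul_assoc, inv_mul_cancel_left]
        rw [e]
        exact B.mul_mem (hd1 _) (ih a)
    have hnorm : ∏ i ∈ Finset.range n, (d ^ i) a = 1 := by
      apply hfix
      rw [map_prod]
      have h1 : ∏ i ∈ Finset.range n, d ((d ^ i) a) = ∏ i ∈ Finset.range n, (d ^ (i + 1)) a := by
        apply Finset.prod_congr rfl
        intro i _
        rw [pow_succ', MulAut.mul_apply]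
      rw [h1]
      have h2 := Finset.prod_range_succ' (fun i => (d ^ i) a) n
      have h3 := Finset.prod_range_succ (fun i => (d ^ i) a) n
      rw [h3] at h2
      simp only [hd, pow_zero, MulAut.one_apply] at h2
      exact (mul_right_cancel h2).symm
    have hpow : a ^ n ∈ B := by
      have h1 : ∏ i ∈ Finset.range n, ((d ^ i) a * a⁻¹) ∈ B :=
        Subgroup.prod_mem _ (fun i _ => hdj i a)
      rw [Finset.prod_mul_distrib, hnorm, one_mul, Finset.prod_const, Finset.card_range, inv_pow] at h1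
      exact (B.inv_mem_iff).mp h1
    obtain ⟨k, hk⟩ := (IsPGroup.iff_orderOf.mp hA) a
    have hcop : n.Coprime (orderOf a) := by
      rw [hk]
      exact Nat.Coprime.pow_right k (Nat.coprime_two_left.mpr ⟨m, hm⟩).symm
    obtain ⟨j, hj⟩ := exists_pow_eq_self_of_coprime hcop
    rw [← hj]
    exact B.pow_mem hpow j


end Cfsg.Agent.S1899
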