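import Cfsg.Statements.S1900
import Mathlib
import Cfsg.Agent.Lib.Helper4.CoprimeGen
import Cfsg.Agent.Lib.Helper5.DStar
import Cfsg.Agent.Lib.Helper3.ConjFam
open Cfsg.Agent.Lib.Helper3

set_option autoImplicit false
open Cfsg

namespace Cfsg.Agent.S1900

theorem fpf_surj {S : Type*} [Group S] [Finite S] (H : Subgroup S) (x : S)
    (hx : x ∈ Subgroup.normalizer (H : Set S))
    (hfix : H ⊓ Subgroup.centralizer ({x} : Set S) = ⊥) :
    ∀ v ∈ H, ∃ w ∈ H, v = w⁻¹ * (x * w * x⁻¹) := by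
  have hconj : ∀ w ∈ H, x * w * x⁻¹ ∈ H := fun w hw => (Subgroup.mem_normalizer_iff.mp hx w).mp hw
  let φ : H → H := fun w => ⟨(w : S)⁻¹ * (x * w * x⁻¹), H.mul_mem (H.inv_mem w.2) (hconj w w.2)⟩
  have hinj : Function.Injective φ := by
    intro w w' h
    have h1 : (w : S)⁻¹ * (x * w * x⁻¹) = (w' : S)⁻¹ * (x * w' * x⁻¹) := congrArg Subtype.val h
    have h3 : (w : S)⁻¹ * x * w = (w' : S)⁻¹ * x * w' := by
      calc (w : S)⁻¹ * x * w = ((w : S)⁻¹ * (x * w * x⁻¹)) * x := by group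
        _ = ((w' : S)⁻¹ * (x * w' * x⁻¹)) * x := by rw [h1]
        _ = (w' : S)⁻¹ * x * w' := by group
    have h2 : (w' : S) * (w : S)⁻¹ ∈ H ⊓ Subgroup.centralizer ({x} : Set S) := by
      refine Subgroup.mem_inf.mpr ⟨H.mul_mem w'.2 (H.inv_mem w.2), ?_⟩
      rw [Subgroup.mem_centralizer_singleton_iff]
      calc (w' : S) * (w : S)⁻¹ * x = w' * ((w : S)⁻¹ * x * w) * (w : S)⁻¹ := by group
        _ = w' * ((w' : S)⁻¹ * x * w') * (w : S)⁻¹ := by rw [h3]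
        _ = x * ((w' : S) * (w : S)⁻¹) := by group
    rw [hfix, Subgroup.mem_bot] at h2
    apply Subtype.ext
    exact (mul_inv_eq_one.mp h2).symm
  have hsurj := Finite.surjective_of_injective hinj
  intro v hv
  obtain ⟨w, hw⟩ := hsurj ⟨v, hv⟩
  exact ⟨w, w.2, (congrArg Subtype.val hw).symm⟩

theorem conj_mem_inf_centralizer {S : Type*} [Group S] (P : Subgroup S) {x c y : S}
    (hx : x ∈ Subgroup.normalizer (P : Set S)) (hxc : x * c = c * x)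
    (hy : y ∈ P ⊓ Subgroup.centralizer ({c} : Set S)) :
    x * y * x⁻¹ ∈ P ⊓ Subgroup.centralizer ({c} : Set S) := by
  refine Subgroup.mem_inf.mpr ⟨(Subgroup.mem_normalizer_iff.mp hx y).mp hy.1, ?_⟩
  have h1 := Subgroup.mem_centralizer_singleton_iff.mp hy.2
  rw [Subgroup.mem_centralizer_singleton_iff]
  have h2 : x⁻¹ * c = c * x⁻¹ := by
    calc x⁻¹ * c = x⁻¹ * (c * x) * x⁻¹ := by group
      _ = x⁻¹ * (x * c) * x⁻¹ := by rw [hxc]
      _ = c * x⁻¹ := by group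
  calc x * y * x⁻¹ * c = x * y * (x⁻¹ * c) := by group
    _ = x * y * (c * x⁻¹) := by rw [h2]
    _ = x * (y * c) * x⁻¹ := by group
    _ = x * (c * y) * x⁻¹ := by rw [h1]
    _ = (x * c) * y * x⁻¹ := by group
    _ = (c * x) * y * x⁻¹ := by rw [hxc]
    _ = c * (x * y * x⁻¹) := by group

theorem eqsq_commute {S : Type*} [Group S] [Finite S] {p q : ℕ} [Fact p.Prime] [Fact q.Prime]
    (hpq : p ≠ q) (P : Subgroup S) (hP : IsPGroup p P) (x₁ x₂ : S) (h₁ : x₁ ^ q = 1)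
    (h₂ : x₂ ^ q = 1) (hx₂ : x₂ ≠ 1) (hcomm : x₁ * x₂ = x₂ * x₁)
    (hn₁ : x₁ ∈ Subgroup.normalizer (P : Set S)) (hn₂ : x₂ ∈ Subgroup.normalizer (P : Set S))
    (hH : ∀ i : ℕ, x₂ ^ i ≠ 1 → P ⊓ Subgroup.centralizer ({x₁ * x₂ ^ i} : Set S) = ⊥) :
    (P ⊓ Subgroup.centralizer ({x₁} : Set S)) ⊓ (P ⊓ Subgroup.centralizer ({x₂} : Set S)) = ⊥ ∧
    (P ⊓ Subgroup.centralizer ({x₁} : Set S)) ⊔ (P ⊓ Subgroup.centralizer ({x₂} : Set S)) = P ∧
    ∀ u ∈ P ⊓ Subgroup.centralizer ({x₁} : Set S),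
      ∀ v ∈ P ⊓ Subgroup.centralizer ({x₂} : Set S), u * v = v * u := by
  have hgen : ∀ L : Subgroup S, L ≤ P → x₁ ∈ Subgroup.normalizer (L : Set S) →
      x₂ ∈ Subgroup.normalizer (L : Set S) →
      L ≤ (L ⊓ Subgroup.centralizer ({x₁} : Set S)) ⊔ (L ⊓ Subgroup.centralizer ({x₂} : Set S)) := by
    intro L hLP hL1 hL2
    have hcop : (Nat.card L).Coprime q := by
      obtain ⟨k, hk⟩ := IsPGroup.iff_card.mp (hP.to_le hLP)
      rw [hk]; exact Nat.Coprime.pow_left k ((Nat.coprime_primes Fact.out Fact.out).mpr hpq)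
    apply Cfsg.Agent.Lib.Helper4.coprime_generation x₁ x₂ h₁ h₂ hcomm L hL1 hL2 hcop
    · exact le_sup_right
    · intro i
      by_cases hi : x₂ ^ i = 1
      · rw [hi, mul_one]; exact le_sup_left
      · have h3 : L ⊓ Subgroup.centralizer ({x₁ * x₂ ^ i} : Set S) ≤
            P ⊓ Subgroup.centralizer ({x₁ * x₂ ^ i} : Set S) := inf_le_inf_right _ hLP
        rw [hH i hi] at h3
        exact h3.trans bot_le
  obtain ⟨P₁, hP₁⟩ : ∃ P₁ : Subgroup S, P₁ = P ⊓ Subgroup.centralizer ({x₁} : Set S) := ⟨_, rfl⟩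
  obtain ⟨P₂, hP₂⟩ : ∃ P₂ : Subgroup S, P₂ = P ⊓ Subgroup.centralizer ({x₂} : Set S) := ⟨_, rfl⟩
  rw [← hP₁, ← hP₂]
  have hF1 : P₁ ⊓ P₂ = ⊥ := by
    rw [eq_bot_iff]
    intro y hy
    rw [hP₁, hP₂] at hy
    have h3 : y ∈ P ⊓ Subgroup.centralizer ({x₁ * x₂ ^ 1} : Set S) := by
      refine Subgroup.mem_inf.mpr ⟨hy.1.1, ?_⟩
      rw [Subgroup.mem_centralizer_singleton_iff, pow_one]
      have e1 := Subgroup.mem_centralizer_singleton_iff.mp hy.1.2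
      have e2 := Subgroup.mem_centralizer_singleton_iff.mp hy.2.2
      rw [← mul_assoc, e1, mul_assoc, e2, mul_assoc]
    rw [hH 1 (by rwa [pow_one])] at h3
    exact h3
  have hsup : P₁ ⊔ P₂ = P := by
    apply le_antisymm
    · rw [hP₁, hP₂]; exact sup_le inf_le_left inf_le_left
    · have := hgen P le_rfl hn₁ hn₂
      rwa [← hP₁, ← hP₂] at this
  have hP₁P : P₁ ≤ P := hP₁ ▸ inf_le_left
  have hP₂P : P₂ ≤ P := hP₂ ▸ inf_le_left
  -- x₁, x₂ normalize P₁ and P₂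
  have hc12 : ∀ y ∈ P₂, x₁ * y * x₁⁻¹ ∈ P₂ := by
    intro y hy; rw [hP₂] at hy ⊢; exact conj_mem_inf_centralizer P hn₁ hcomm hy
  have hc22 : ∀ y ∈ P₂, x₂ * y * x₂⁻¹ ∈ P₂ := by
    intro y hy; rw [hP₂] at hy ⊢; exact conj_mem_inf_centralizer P hn₂ rfl hy
  have hc21 : ∀ y ∈ P₁, x₂ * y * x₂⁻¹ ∈ P₁ := by
    intro y hy; rw [hP₁] at hy ⊢; exact conj_mem_inf_centralizer P hn₂ hcomm.symm hy
  have hx1P₂ : x₁ ∈ Subgroup.normalizer (P₂ : Set S) := mem_normalizer_of_forall_conj_mem P₂ x₁ hc12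
  have hx2P₂ : x₂ ∈ Subgroup.normalizer (P₂ : Set S) := mem_normalizer_of_forall_conj_mem P₂ x₂ hc22
  have hx2P₁ : x₂ ∈ Subgroup.normalizer (P₁ : Set S) := mem_normalizer_of_forall_conj_mem P₁ x₂ hc21
  -- fixed-point-free actions
  have hfix12 : P₂ ⊓ Subgroup.centralizer ({x₁} : Set S) = ⊥ := by
    rw [eq_bot_iff, ← hF1]
    intro y hy
    refine ⟨?_, hy.1⟩
    rw [hP₁]; exact ⟨hP₂P hy.1, hy.2⟩
  have hfix21 : P₁ ⊓ Subgroup.centralizer ({x₂} : Set S) = ⊥ := by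
    rw [eq_bot_iff, ← hF1]
    intro y hy
    refine ⟨hy.1, ?_⟩
    rw [hP₂]; exact ⟨hP₁P hy.1, hy.2⟩
  -- P₂ is normal in P
  have hnormal : P ≤ Subgroup.normalizer (P₂ : Set S) := by
    by_contra hcon
    obtain ⟨L, hL⟩ : ∃ L : Subgroup S, L = P ⊓ Subgroup.normalizer (P₂ : Set S) := ⟨_, rfl⟩
    have hLP : L ≤ P := hL ▸ inf_le_left
    have hLlt : L < P := lt_of_le_of_ne hLP (fun h => hcon (by rw [← h, hL]; exact inf_le_right))
    have hP₂L : P₂ ≤ L := by rw [hL]; exact le_inf hP₂P Subgroup.le_normalizer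
    have hconjL : ∀ x : S, x ∈ Subgroup.normalizer (P : Set S) →
        x ∈ Subgroup.normalizer (P₂ : Set S) → ∀ y ∈ L, x * y * x⁻¹ ∈ L := by
      intro x hxP hxP₂ y hy
      rw [hL] at hy ⊢
      exact ⟨(Subgroup.mem_normalizer_iff.mp hxP y).mp hy.1,
        Subgroup.mul_mem _ (Subgroup.mul_mem _ hxP₂ hy.2) (Subgroup.inv_mem _ hxP₂)⟩
    have hx1L : x₁ ∈ Subgroup.normalizer (L : Set S) :=
      mem_normalizer_of_forall_conj_mem L x₁ (hconjL x₁ hn₁ hx1P₂)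
    have hx2L : x₂ ∈ Subgroup.normalizer (L : Set S) :=
      mem_normalizer_of_forall_conj_mem L x₂ (hconjL x₂ hn₂ hx2P₂)
    obtain ⟨L', hL'⟩ : ∃ L' : Subgroup S, L' = P ⊓ Subgroup.normalizer (L : Set S) := ⟨_, rfl⟩
    have hL'P : L' ≤ P := hL' ▸ inf_le_left
    have hconjL' : ∀ x : S, x ∈ Subgroup.normalizer (P : Set S) →
        x ∈ Subgroup.normalizer (L : Set S) → ∀ y ∈ L', x * y * x⁻¹ ∈ L' := by
      intro x hxP hxL y hy
      rw [hL'] at hy ⊢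
      exact ⟨(Subgroup.mem_normalizer_iff.mp hxP y).mp hy.1,
        Subgroup.mul_mem _ (Subgroup.mul_mem _ hxL hy.2) (Subgroup.inv_mem _ hxL)⟩
    have hx1L' : x₁ ∈ Subgroup.normalizer (L' : Set S) :=
      mem_normalizer_of_forall_conj_mem L' x₁ (hconjL' x₁ hn₁ hx1L)
    have hx2L' : x₂ ∈ Subgroup.normalizer (L' : Set S) :=
      mem_normalizer_of_forall_conj_mem L' x₂ (hconjL' x₂ hn₂ hx2L)
    obtain ⟨t, htP, htN, htL⟩ := exists_mem_normalizer_not_mem' P hP L hLlt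
    have htL' : t ∈ L' := by rw [hL']; exact ⟨htP, htN⟩
    have hgenL' := hgen L' hL'P hx1L' hx2L'
    -- an element u of L' ∩ C(x₁) outside L
    have hex : ∃ u ∈ L' ⊓ Subgroup.centralizer ({x₁} : Set S), u ∉ L := by
      by_contra hno
      push Not at hno
      have h5 : L' ⊓ Subgroup.centralizer ({x₂} : Set S) ≤ L := by
        intro y hy
        apply hP₂L
        rw [hP₂]; exact ⟨hL'P hy.1, hy.2⟩
      have h6 : (L' ⊓ Subgroup.centralizer ({x₁} : Set S)) ⊔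
          (L' ⊓ Subgroup.centralizer ({x₂} : Set S)) ≤ L := sup_le hno h5
      exact htL (h6 (hgenL' htL'))
    obtain ⟨u, hu, huL⟩ := hex
    have huP : u ∈ P := hL'P hu.1
    have huNL : u ∈ Subgroup.normalizer (L : Set S) := by
      have := hu.1; rw [hL'] at this; exact this.2
    have hux : u * x₁ = x₁ * u := Subgroup.mem_centralizer_singleton_iff.mp hu.2
    apply huL
    rw [hL]
    refine ⟨huP, ?_⟩
    apply mem_normalizer_of_forall_conj_mem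
    intro v hv
    obtain ⟨w, hw, rfl⟩ := fpf_surj P₂ x₁ hx1P₂ hfix12 v hv
    have hl : u * w * u⁻¹ ∈ L := (Subgroup.mem_normalizer_iff.mp huNL w).mp (hP₂L hw)
    have hgenL := hgen L hLP hx1L hx2L
    have hL2 : L ⊓ Subgroup.centralizer ({x₂} : Set S) ≤ P₂ := by
      intro y hy; rw [hP₂]; exact ⟨hLP hy.1, hy.2⟩
    have hnorm : L ⊓ Subgroup.centralizer ({x₁} : Set S) ≤ Subgroup.normalizer (P₂ : Set S) := by
      intro y hy
      have := hy.1; rw [hL] at this; exact this.2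
    have hmem : u * w * u⁻¹ ∈ (L ⊓ Subgroup.centralizer ({x₁} : Set S)) ⊔ P₂ :=
      (sup_le_sup_left hL2 _) (hgenL hl)
    obtain ⟨l₁, hl₁, v', hv', e⟩ :=
      Cfsg.Agent.Lib.Helper5.exists_mul_of_mem_sup_of_le_normalizer _ _ hnorm _ hmem
    have hl₁x : l₁ * x₁ = x₁ * l₁ := Subgroup.mem_centralizer_singleton_iff.mp hl₁.2
    have key : u * (w⁻¹ * (x₁ * w * x₁⁻¹)) * u⁻¹ = v'⁻¹ * (x₁ * v' * x₁⁻¹) := by
      calc u * (w⁻¹ * (x₁ * w * x₁⁻¹)) * u⁻¹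
          = (u * w * u⁻¹)⁻¹ * ((u * x₁) * w * (u * x₁)⁻¹) := by group
        _ = (u * w * u⁻¹)⁻¹ * ((x₁ * u) * w * (x₁ * u)⁻¹) := by rw [hux]
        _ = (u * w * u⁻¹)⁻¹ * (x₁ * (u * w * u⁻¹) * x₁⁻¹) := by group
        _ = (l₁ * v')⁻¹ * (x₁ * (l₁ * v') * x₁⁻¹) := by rw [e]
        _ = v'⁻¹ * l₁⁻¹ * ((x₁ * l₁) * v' * x₁⁻¹) := by group
        _ = v'⁻¹ * l₁⁻¹ * ((l₁ * x₁) * v' * x₁⁻¹) := by rw [hl₁x]
        _ = v'⁻¹ * (x₁ * v' * x₁⁻¹) := by group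
    rw [key]
    exact P₂.mul_mem (P₂.inv_mem hv') (hc12 v' hv')
  refine ⟨hF1, hsup, ?_⟩
  intro u hu v hv
  -- u = w⁻¹ (x₂ w x₂⁻¹), w ∈ P₁
  obtain ⟨w, hw, rfl⟩ := fpf_surj P₁ x₂ hx2P₁ hfix21 u hu
  have hwN : w ∈ Subgroup.normalizer (P₂ : Set S) := hnormal (hP₁P hw)
  -- w⁻¹ v w ∈ P₂ commutes with x₂
  have h1 : w⁻¹ * v * w ∈ P₂ := by
    have := (Subgroup.mem_normalizer_iff.mp (Subgroup.inv_mem _ hwN) v).mp hv
    rwa [inv_inv] at this
  have hvx : v * x₂ = x₂ * v := by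
    rw [hP₂] at hv; exact Subgroup.mem_centralizer_singleton_iff.mp hv.2
  have h1x : w⁻¹ * v * w * x₂ = x₂ * (w⁻¹ * v * w) := by
    rw [hP₂] at h1; exact Subgroup.mem_centralizer_singleton_iff.mp h1.2
  have hvx' : x₂⁻¹ * v = v * x₂⁻¹ := by
    calc x₂⁻¹ * v = x₂⁻¹ * (v * x₂) * x₂⁻¹ := by group
      _ = x₂⁻¹ * (x₂ * v) * x₂⁻¹ := by rw [hvx]
      _ = v * x₂⁻¹ := by group
  -- v commutes with w⁻¹ x₂ w x₂⁻¹
  calc w⁻¹ * (x₂ * w * x₂⁻¹) * v = w⁻¹ * x₂ * w * (x₂⁻¹ * v) := by group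
    _ = w⁻¹ * x₂ * w * (v * x₂⁻¹) := by rw [hvx']
    _ = w⁻¹ * (x₂ * (w * v * w⁻¹)) * w * x₂⁻¹ := by group
    _ = w⁻¹ * ((w * v * w⁻¹) * x₂) * w * x₂⁻¹ := by
        have h2 : w * v * w⁻¹ * x₂ = x₂ * (w * v * w⁻¹) := by
          have h3 : w * v * w⁻¹ ∈ P₂ := (Subgroup.mem_normalizer_iff.mp hwN v).mp hv
          rw [hP₂] at h3; exact Subgroup.mem_centralizer_singleton_iff.mp h3.2
        rw [h2]
    _ = v * (w⁻¹ * (x₂ * w * x₂⁻¹)) := by group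

theorem centralizer_zpowers_eq {S : Type*} [Group S] (x : S) :
    Subgroup.centralizer ((Subgroup.zpowers x : Subgroup S) : Set S) =
      Subgroup.centralizer ({x} : Set S) := by
  apply le_antisymm
  · exact Subgroup.centralizer_le (Set.singleton_subset_iff.mpr (Subgroup.mem_zpowers x))
  · intro y hy
    have h1 : Subgroup.zpowers x ≤ Subgroup.centralizer ({y} : Set S) := by
      rw [Subgroup.zpowers_le, Subgroup.mem_centralizer_singleton_iff]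
      exact (Subgroup.mem_centralizer_singleton_iff.mp hy).symm
    rw [Subgroup.mem_centralizer_iff]
    intro g hg
    exact Subgroup.mem_centralizer_singleton_iff.mp (h1 hg)

theorem zpowers_eq_of_card_prime {S : Type*} [Group S] [Finite S] {q : ℕ} [Fact q.Prime]
    (X : Subgroup S) (hX : Nat.card X = q) {x : S} (hx : x ∈ X) (hx1 : x ≠ 1) :
    Subgroup.zpowers x = X := by
  have hq := (Fact.out : q.Prime)
  have hle : Subgroup.zpowers x ≤ X := by rw [Subgroup.zpowers_le]; exact hx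
  apply Subgroup.eq_of_le_of_card_ge hle
  rw [hX, Nat.card_zpowers]
  have h1 : orderOf x ∣ q := by
    have h2 : orderOf (⟨x, hx⟩ : X) ∣ Nat.card X := orderOf_dvd_natCard _
    rw [hX] at h2
    rwa [← Subgroup.orderOf_coe] at h2
  rcases (Nat.dvd_prime hq).mp h1 with h | h
  · exact absurd (orderOf_eq_one_iff.mp h) hx1
  · rw [h]

/-- Let S = PQ be a finite group with P a normal Sylow p-subgroup and Q elementary abelian of order q², q a prime different from p. If exactly two subgroups X₁, X₂ of order q in Q have a nontrivial centralizer in P, then P is the internal direct product of C_P(X₁) and C_P(X₂): they commute elementwise, meet trivially and generate P. -/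
theorem result {S : Type*} [Group S] [Finite S] {p q : ℕ} [Fact p.Prime] [Fact q.Prime] (hpq : p ≠ q)
    (P : Sylow p S) [(P : Subgroup S).Normal] (Q : Subgroup S) (hQ : Cfsg.IsElementaryAbelian q Q) (hQc : Nat.card Q = q ^ 2)
    (hS : (P : Subgroup S) ⊔ Q = ⊤)
    (X₁ X₂ : Subgroup S) (h₁ : X₁ ≤ Q) (h₂ : X₂ ≤ Q) (h₁₂ : X₁ ≠ X₂) (hc₁ : Nat.card X₁ = q) (hc₂ : Nat.card X₂ = q)
    (hf₁ : (P : Subgroup S) ⊓ Subgroup.centralizer (X₁ : Set S) ≠ ⊥)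
    (hf₂ : (P : Subgroup S) ⊓ Subgroup.centralizer (X₂ : Set S) ≠ ⊥)
    (honly : ∀ X : Subgroup S, X ≤ Q → Nat.card X = q →
      (P : Subgroup S) ⊓ Subgroup.centralizer (X : Set S) ≠ ⊥ → X = X₁ ∨ X = X₂) :
    ⁅(P : Subgroup S) ⊓ Subgroup.centralizer (X₁ : Set S), (P : Subgroup S) ⊓ Subgroup.centralizer (X₂ : Set S)⁆ = ⊥ ∧
      ((P : Subgroup S) ⊓ Subgroup.centralizer (X₁ : Set S)) ⊓ ((P : Subgroup S) ⊓ Subgroup.centralizer (X₂ : Set S)) = ⊥ ∧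
      ((P : Subgroup S) ⊓ Subgroup.centralizer (X₁ : Set S)) ⊔ ((P : Subgroup S) ⊓ Subgroup.centralizer (X₂ : Set S)) = P := by
  have hq := (Fact.out : q.Prime)
  -- generators
  have hex : ∀ X : Subgroup S, Nat.card X = q → ∃ x ∈ X, x ≠ 1 := by
    intro X hX
    by_contra hcon
    push Not at hcon
    have h1 : X = ⊥ := (Subgroup.eq_bot_iff_forall X).mpr hcon
    rw [h1, Subgroup.card_bot] at hX
    exact hq.one_lt.ne hX
  obtain ⟨x₁, hx₁, hx₁1⟩ := hex X₁ hc₁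
  obtain ⟨x₂, hx₂, hx₂1⟩ := hex X₂ hc₂
  have hz₁ := zpowers_eq_of_card_prime X₁ hc₁ hx₁ hx₁1
  have hz₂ := zpowers_eq_of_card_prime X₂ hc₂ hx₂ hx₂1
  have hC₁ : Subgroup.centralizer (X₁ : Set S) = Subgroup.centralizer ({x₁} : Set S) := by
    rw [← hz₁, centralizer_zpowers_eq]
  have hC₂ : Subgroup.centralizer (X₂ : Set S) = Subgroup.centralizer ({x₂} : Set S) := by
    rw [← hz₂, centralizer_zpowers_eq]
  have hcomm : x₁ * x₂ = x₂ * x₁ :=
    congrArg Subtype.val (hQ.1.is_comm.comm ⟨x₁, h₁ hx₁⟩ ⟨x₂, h₂ hx₂⟩)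
  have hPn : ∀ x : S, x ∈ Subgroup.normalizer ((P : Subgroup S) : Set S) := by
    intro x
    rw [Subgroup.normalizer_eq_top]
    exact Subgroup.mem_top x
  have hH : ∀ i : ℕ, x₂ ^ i ≠ 1 →
      (P : Subgroup S) ⊓ Subgroup.centralizer ({x₁ * x₂ ^ i} : Set S) = ⊥ := by
    intro i hi
    by_contra hne
    obtain ⟨g, hg⟩ : ∃ g : S, g = x₁ * x₂ ^ i := ⟨_, rfl⟩
    rw [← hg] at hne
    have hgQ : g ∈ Q := by rw [hg]; exact Q.mul_mem (h₁ hx₁) (Q.pow_mem (h₂ hx₂) i)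
    have hx₂i : x₂ ^ i ∈ X₂ := X₂.pow_mem hx₂ i
    have hg1 : g ≠ 1 := by
      intro h
      apply h₁₂
      have h3 : x₁ ∈ X₂ := by
        have e : x₁ = g * (x₂ ^ i)⁻¹ := by rw [hg]; group
        rw [e, h, one_mul]
        exact X₂.inv_mem hx₂i
      have h4 : X₁ ≤ X₂ := by rw [← hz₁, Subgroup.zpowers_le]; exact h3
      exact Subgroup.eq_of_le_of_card_ge h4 (by rw [hc₁, hc₂])
    have hgq : g ^ q = 1 := hQ.2 g hgQ
    have hcard : Nat.card (Subgroup.zpowers g) = q := by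
      rw [Nat.card_zpowers]
      rcases (Nat.dvd_prime hq).mp (orderOf_dvd_of_pow_eq_one hgq) with h | h
      · exact absurd (orderOf_eq_one_iff.mp h) hg1
      · exact h
    have hle : Subgroup.zpowers g ≤ Q := by rw [Subgroup.zpowers_le]; exact hgQ
    have hne' : (P : Subgroup S) ⊓ Subgroup.centralizer ((Subgroup.zpowers g : Subgroup S) : Set S) ≠ ⊥ := by
      rw [centralizer_zpowers_eq]; exact hne
    rcases honly (Subgroup.zpowers g) hle hcard hne' with h | h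
    · -- g ∈ X₁ → x₂^i ∈ X₁
      apply h₁₂
      have h3 : x₂ ^ i ∈ X₁ := by
        have e : x₂ ^ i = x₁⁻¹ * g := by rw [hg]; group
        rw [e]
        exact X₁.mul_mem (X₁.inv_mem hx₁) (h ▸ Subgroup.mem_zpowers g)
      have h4 : X₂ ≤ X₁ := by
        rw [← zpowers_eq_of_card_prime X₂ hc₂ hx₂i hi, Subgroup.zpowers_le]; exact h3
      exact (Subgroup.eq_of_le_of_card_ge h4 (by rw [hc₁, hc₂])).symm
    · apply h₁₂
      have h3 : x₁ ∈ X₂ := by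
        have e : x₁ = g * (x₂ ^ i)⁻¹ := by rw [hg]; group
        rw [e]
        exact X₂.mul_mem (h ▸ Subgroup.mem_zpowers g) (X₂.inv_mem hx₂i)
      have h4 : X₁ ≤ X₂ := by rw [← hz₁, Subgroup.zpowers_le]; exact h3
      exact Subgroup.eq_of_le_of_card_ge h4 (by rw [hc₁, hc₂])
  obtain ⟨hbot, hsup, hcm⟩ := eqsq_commute hpq (P : Subgroup S) P.isPGroup' x₁ x₂
    (hQ.2 x₁ (h₁ hx₁)) (hQ.2 x₂ (h₂ hx₂)) hx₂1 hcomm (hPn x₁) (hPn x₂) hH
  rw [hC₁, hC₂]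
  refine ⟨?_, hbot, hsup⟩
  rw [Subgroup.commutator_eq_bot_iff_le_centralizer]
  intro u hu
  rw [Subgroup.mem_centralizer_iff]
  intro v hv
  exact (hcm u hu v hv).symm

end Cfsg.Agent.S1900
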