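import Cfsg.Statements.S1901
import Mathlib
import Cfsg.Agent.Lib.Helper3.PSolv

set_option autoImplicit false
open Cfsg

namespace Cfsg.Agent.S1901

/-- Let G be a finite p-solvable group and Q a subgroup of order prime to p such that p divides the index of C_G(Q) in N_G(Q). Then Q normalizes no Sylow p-subgroup of G. -/
theorem result {G : Type*} [Group G] [Finite G] {p : ℕ} [Fact p.Prime]
    (hG : Cfsg.IsPSolvable p G) (Q : Subgroup G) (hQ : ¬ p ∣ Nat.card Q)
    (hA : p ∣ (Subgroup.centralizer (Q : Set G)).relIndex (Subgroup.normalizer (Q : Set G)))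
    (P : Sylow p G) : ¬ Q ≤ Subgroup.normalizer ((P : Subgroup G) : Set G) := by
  intro hQP
  apply (Fact.out : p.Prime).one_lt.ne'
  have hQP' : ∀ q ∈ Q, ∀ y ∈ (P : Subgroup G), q * y * q⁻¹ ∈ (P : Subgroup G) :=
    fun q hq y hy => (Subgroup.mem_normalizer_iff.mp (hQP hq) y).mp hy
  -- a Sylow `p`-subgroup of `N_G(Q)` lies in `C_G(Q)`
  obtain ⟨R⟩ : Nonempty (Sylow p ↥(Subgroup.normalizer (Q : Set G))) := inferInstance
  have hle : (R : Subgroup ↥(Subgroup.normalizer (Q : Set G))) ≤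
      (Subgroup.centralizer (Q : Set G)).subgroupOf (Subgroup.normalizer (Q : Set G)) := by
    intro r hr
    rw [Subgroup.mem_subgroupOf, Subgroup.mem_centralizer_iff]
    have hrp : ∃ k : ℕ, orderOf (r : G) = p ^ k := by
      obtain ⟨k, hk⟩ := (IsPGroup.iff_orderOf.mp R.isPGroup') ⟨r, hr⟩
      refine ⟨k, ?_⟩
      rw [Subgroup.orderOf_coe, ← hk]
      exact (Subgroup.orderOf_mk _ _).symm
    have hrQ : ∀ q ∈ Q, (r : G) * q * (r : G)⁻¹ ∈ Q :=
      fun q hq => (Subgroup.mem_normalizer_iff.mp r.2 q).mp hq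
    intro q hq
    exact (Cfsg.Agent.Lib.Helper3.pelt_centralizes_of_normalizes_sylow (Nat.card G) G p le_rfl hG Q P
      (r : G) hQ hQP' hrQ hrp q hq).symm
  have h1 : ((Subgroup.centralizer (Q : Set G)).subgroupOf (Subgroup.normalizer (Q : Set G))).index ∣
      (R : Subgroup ↥(Subgroup.normalizer (Q : Set G))).index := Subgroup.index_dvd_of_le hle
  exact absurd (hA.trans h1) R.not_dvd_index

end Cfsg.Agent.S1901
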