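import Cfsg.Statements.S1905
import Mathlib
import Cfsg.Agent.Lib.Helper3.Invol
import Cfsg.Agent.Lib.Helper3.ConjFam

set_option autoImplicit false
open Cfsg

namespace Cfsg.Agent.S1905

/-- Let M be a subgroup of even order of a finite group S such that M contains the centralizer in S of each of its involutions and the normal core of M in S has odd order. Then all involutions of S are conjugate. If moreover N_S(X) ≤ M for a Sylow 2-subgroup X of M and I is an involution in the centre of X, then all involutions of M are conjugate in M and M = M₀ C_M(I) for some subgroup M₀ of M of odd order. -/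
theorem result {S : Type*} [Group S] [Finite S] (M : Subgroup S) (hM : Even (Nat.card M))
    (hC : ∀ i ∈ M, orderOf i = 2 → Subgroup.centralizer ({i} : Set S) ≤ M) (hcore : Odd (Nat.card M.normalCore)) :
    (∀ x y : S, orderOf x = 2 → orderOf y = 2 → IsConj x y) ∧
      ∀ (X : Sylow 2 M) (I : M), I ∈ (Subgroup.center ↥(X : Subgroup ↥M)).map (X : Subgroup ↥M).subtype → orderOf I = 2 →
        Subgroup.normalizer (((X : Subgroup M).map M.subtype : Subgroup S) : Set S) ≤ M →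
        (∀ x y : M, orderOf x = 2 → orderOf y = 2 → IsConj x y) ∧
          ∃ M₀ : Subgroup M, Odd (Nat.card M₀) ∧
            ∀ m : M, ∃ a ∈ M₀, ∃ c ∈ Subgroup.centralizer ({I} : Set M), m = a * c := by
  classical
  have : Fact (Nat.Prime 2) := ⟨Nat.prime_two⟩
  -- products of an involution inside `M` and one outside have odd order
  have LA : ∀ i ∈ M, orderOf i = 2 → ∀ j : S, j ∉ M → orderOf j = 2 → Odd (orderOf (i * j)) := by
    intro i hiM hi j hjM hj
    by_contra hev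
    obtain ⟨k, hk1, hkk, hik, hjk, -⟩ := Cfsg.Agent.Lib.Helper3.exists_central_invol_of_even
      (Cfsg.Agent.Lib.Helper3.sq_of_orderOf_two hi) (Cfsg.Agent.Lib.Helper3.sq_of_orderOf_two hj) hev
    have hk2 : orderOf k = 2 := Cfsg.Agent.Lib.Helper3.orderOf_two_of_sq hk1 hkk
    have hkM : k ∈ M := by
      apply hC i hiM hi
      rw [Subgroup.mem_centralizer_iff]
      intro y hy
      rw [Set.mem_singleton_iff] at hy
      rw [hy]; exact hik
    apply hjM
    apply hC k hkM hk2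
    rw [Subgroup.mem_centralizer_iff]
    intro y hy
    rw [Set.mem_singleton_iff] at hy
    rw [hy]; exact hjk.symm
  have LB : ∀ i ∈ M, orderOf i = 2 → ∀ j : S, j ∉ M → orderOf j = 2 → IsConj i j := by
    intro i hiM hi j hjM hj
    obtain ⟨s, -, hs, -⟩ := Cfsg.Agent.Lib.Helper3.exists_invol_conj_of_odd
      (Cfsg.Agent.Lib.Helper3.sq_of_orderOf_two hi) (Cfsg.Agent.Lib.Helper3.sq_of_orderOf_two hj)
      (LA i hiM hi j hjM hj)
    exact (isConj_iff.mpr ⟨s, hs⟩).symm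
  -- an involution inside `M`
  obtain ⟨i₀, hi₀⟩ := exists_prime_orderOf_dvd_card' (G := M) 2 (even_iff_two_dvd.mp hM)
  have hi₀' : orderOf (i₀ : S) = 2 := by rw [Subgroup.orderOf_coe]; exact hi₀
  -- an involution outside `M`
  have hout : ∃ j₀ : S, j₀ ∉ M ∧ orderOf j₀ = 2 := by
    by_contra hno
    push Not at hno
    have hcoremem : (i₀ : S) ∈ M.normalCore := by
      intro b
      by_contra hb
      apply hb
      by_contra hb'
      have h2 : orderOf (b * (i₀ : S) * b⁻¹) = 2 := by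
        rw [Cfsg.Agent.Lib.Helper3.orderOf_conj_eq]
        exact hi₀'
      exact hno _ hb' h2
    have hd : 2 ∣ Nat.card M.normalCore := by
      have := orderOf_dvd_natCard (⟨(i₀ : S), hcoremem⟩ : M.normalCore)
      rw [Subgroup.orderOf_mk, hi₀'] at this
      exact this
    exact (Nat.not_even_iff_odd.mpr hcore) (even_iff_two_dvd.mpr hd)
  obtain ⟨j₀, hj₀M, hj₀⟩ := hout
  have part1 : ∀ x y : S, orderOf x = 2 → orderOf y = 2 → IsConj x y := by
    intro x y hx hy
    by_cases hxM : x ∈ M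
    · by_cases hyM : y ∈ M
      · exact (LB x hxM hx j₀ hj₀M hj₀).trans (LB y hyM hy j₀ hj₀M hj₀).symm
      · exact LB x hxM hx y hyM hy
    · by_cases hyM : y ∈ M
      · exact (LB y hyM hy x hxM hx).symm
      · exact (LB (i₀ : S) i₀.2 hi₀' x hxM hx).symm.trans (LB (i₀ : S) i₀.2 hi₀' y hyM hy)
  refine ⟨part1, ?_⟩
  intro X I hI hI2 hN
  obtain ⟨X', hX'⟩ : ∃ X' : Subgroup S, X' = (X : Subgroup M).map M.subtype := ⟨_, rfl⟩
  rw [← hX'] at hN
  have hX'M : X' ≤ M := by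
    rw [hX']
    rintro _ ⟨x, _, rfl⟩
    exact x.2
  have hX'p : IsPGroup 2 X' := by
    rw [hX']
    exact X.isPGroup'.map _
  have hidx : ¬ 2 ∣ X'.relIndex M := by
    have e : X'.subgroupOf M = (X : Subgroup M) := by
      ext y
      rw [hX', Subgroup.mem_subgroupOf]
      constructor
      · rintro ⟨x, hx, hxy⟩
        have : x = y := Subtype.ext hxy
        rw [← this]; exact hx
      · intro hy
        exact ⟨y, hy, rfl⟩
    unfold Subgroup.relIndex
    rw [e]
    exact X.not_dvd_index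
  obtain ⟨⟨zz, hzz⟩, hzc, hzeq⟩ := hI
  have hzeq' : zz = I := hzeq
  subst hzeq'
  have hI'2 : orderOf (zz : S) = 2 := by rw [Subgroup.orderOf_coe]; exact hI2
  have hII : (zz : S) * (zz : S) = 1 := Cfsg.Agent.Lib.Helper3.sq_of_orderOf_two hI'2
  have hIX' : (zz : S) ∈ X' := by rw [hX']; exact ⟨zz, hzz, rfl⟩
  have hcen : ∀ x ∈ X', x * (zz : S) = (zz : S) * x := by
    intro x hx
    rw [hX'] at hx
    obtain ⟨x₀, hx₀, rfl⟩ := hx
    have := Subgroup.mem_center_iff.mp hzc ⟨x₀, hx₀⟩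
    have h2 := congrArg (fun u : ↥(X : Subgroup ↥M) => ((u : ↥M) : S)) this
    exact h2
  -- the strong embedding property
  have SE : ∀ (g w : S), orderOf w = 2 → w ∈ M → g⁻¹ * w * g ∈ M → g ∈ M := by
    intro g w hw hwM hw'M
    have hww : w * w = 1 := Cfsg.Agent.Lib.Helper3.sq_of_orderOf_two hw
    have hw'sq : (g⁻¹ * w * g) * (g⁻¹ * w * g) = 1 := by
      have := Cfsg.Agent.Lib.Helper3.conj_sq_one hww g⁻¹
      rwa [inv_inv] at this
    have hzp : IsPGroup 2 (Subgroup.zpowers (g⁻¹ * w * g)) := by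
      have hd : orderOf (g⁻¹ * w * g) ∣ 2 := orderOf_dvd_of_pow_eq_one (by rw [pow_two]; exact hw'sq)
      rcases (Nat.dvd_prime Nat.prime_two).mp hd with h1 | h2
      · exact IsPGroup.of_card (n := 0) (by rw [Nat.card_zpowers, h1, pow_zero])
      · exact IsPGroup.of_card (n := 1) (by rw [Nat.card_zpowers, h2, pow_one])
    obtain ⟨m', hm', hm'X⟩ := Cfsg.Agent.Lib.Helper3.conj_into_sylowIn M X'
      (Subgroup.zpowers (g⁻¹ * w * g)) hX'p hidx ((Subgroup.zpowers_le).mpr hw'M) hzp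
    have h1 := hcen _ (hm'X _ (Subgroup.mem_zpowers _))
    -- I₂ := (g m'⁻¹) I (g m'⁻¹)⁻¹ commutes with w
    obtain ⟨I₂, hI₂⟩ : ∃ I₂ : S, I₂ = (g * m'⁻¹) * (zz : S) * (g * m'⁻¹)⁻¹ := ⟨_, rfl⟩
    have hI₂w : w * I₂ = I₂ * w := by
      have e1 : w * I₂ = (g * m'⁻¹) * ((m' * (g⁻¹ * w * g) * m'⁻¹) * (zz : S)) * (g * m'⁻¹)⁻¹ := by
        rw [hI₂]; group
      have e2 : I₂ * w = (g * m'⁻¹) * ((zz : S) * (m' * (g⁻¹ * w * g) * m'⁻¹)) * (g * m'⁻¹)⁻¹ := by
        rw [hI₂]; group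
      rw [e1, e2, h1]
    have hI₂M : I₂ ∈ M := by
      apply hC w hwM hw
      rw [Subgroup.mem_centralizer_iff]
      intro y hy
      rw [Set.mem_singleton_iff] at hy
      rw [hy]; exact hI₂w
    have hI₂2 : orderOf I₂ = 2 := by
      rw [hI₂, Cfsg.Agent.Lib.Helper3.orderOf_conj_eq]
      exact hI'2
    -- the conjugate of X' by g m'⁻¹ lies in M
    have hX''M : ∀ x ∈ X', (g * m'⁻¹) * x * (g * m'⁻¹)⁻¹ ∈ M := by
      intro x hx
      apply hC I₂ hI₂M hI₂2
      rw [Subgroup.mem_centralizer_iff]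
      intro y hy
      rw [Set.mem_singleton_iff] at hy
      rw [hy, hI₂]
      have e1 : (g * m'⁻¹) * (zz : S) * (g * m'⁻¹)⁻¹ * ((g * m'⁻¹) * x * (g * m'⁻¹)⁻¹) =
          (g * m'⁻¹) * ((zz : S) * x) * (g * m'⁻¹)⁻¹ := by group
      have e2 : (g * m'⁻¹) * x * (g * m'⁻¹)⁻¹ * ((g * m'⁻¹) * (zz : S) * (g * m'⁻¹)⁻¹) =
          (g * m'⁻¹) * (x * (zz : S)) * (g * m'⁻¹)⁻¹ := by group
      rw [e1, e2, hcen x hx]
    have hX''p : IsPGroup 2 (X'.map (MulAut.conj (g * m'⁻¹)).toMonoidHom) := hX'p.map _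
    obtain ⟨n, hn, hnX⟩ := Cfsg.Agent.Lib.Helper3.conj_into_sylowIn M X'
      (X'.map (MulAut.conj (g * m'⁻¹)).toMonoidHom) hX'p hidx
      (by
        rintro _ ⟨x, hx, rfl⟩
        exact hX''M x hx) hX''p
    have hnorm : n * (g * m'⁻¹) ∈ Subgroup.normalizer (X' : Set S) := by
      apply Cfsg.Agent.Lib.Helper3.mem_normalizer_of_forall_conj_mem
      intro x hx
      have := hnX _ ⟨x, hx, rfl⟩
      have e : n * (g * m'⁻¹) * x * (n * (g * m'⁻¹))⁻¹ =
          n * ((MulAut.conj (g * m'⁻¹)).toMonoidHom x) * n⁻¹ := by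
        simp only [MulEquiv.coe_toMonoidHom, MulAut.conj_apply]; group
      rw [e]; exact this
    have h5 := hN hnorm
    have : g = n⁻¹ * (n * (g * m'⁻¹)) * m' := by group
    rw [this]
    exact M.mul_mem (M.mul_mem (M.inv_mem hn) h5) hm'
  have hj₀j₀ : j₀ * j₀ = 1 := Cfsg.Agent.Lib.Helper3.sq_of_orderOf_two hj₀
  have hj₀inv : j₀⁻¹ = j₀ := Cfsg.Agent.Lib.Helper3.invol_inv hj₀j₀
  refine ⟨?_, ?_⟩
  · intro x y hx hy
    have hx' : orderOf (x : S) = 2 := by rw [Subgroup.orderOf_coe]; exact hx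
    have hy' : orderOf (y : S) = 2 := by rw [Subgroup.orderOf_coe]; exact hy
    obtain ⟨c, hc⟩ := isConj_iff.mp (part1 x y hx' hy')
    have hcM : c⁻¹ ∈ M := by
      apply SE c⁻¹ x hx' x.2
      rw [inv_inv, hc]
      exact y.2
    have hcM' : c ∈ M := by
      have := M.inv_mem hcM
      rwa [inv_inv] at this
    exact isConj_iff.mpr ⟨⟨c, hcM'⟩, Subtype.ext hc⟩
  · refine ⟨(M ⊓ M.map (MulAut.conj j₀).toMonoidHom).subgroupOf M, ?_, ?_⟩
    · rw [← Nat.not_even_iff_odd, even_iff_two_dvd]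
      intro hd
      obtain ⟨d, hd2⟩ := exists_prime_orderOf_dvd_card' (G := ((M ⊓ M.map (MulAut.conj j₀).toMonoidHom).subgroupOf M)) 2 hd
      have hdmem := Subgroup.mem_subgroupOf.mp d.2
      have hd2' : orderOf (((d : ↥M)) : S) = 2 := by
        rw [Subgroup.orderOf_coe, Subgroup.orderOf_coe]; exact hd2
      have h1 := (Subgroup.mem_inf.mp hdmem).1
      have h2 := (Cfsg.Agent.Lib.Helper3.mem_map_conj_iff _ _ _).mp (Subgroup.mem_inf.mp hdmem).2
      exact hj₀M (SE j₀ _ hd2' h1 h2)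
    · intro m
      -- a' = m I m⁻¹
      obtain ⟨a', ha'⟩ : ∃ a' : S, a' = (m : S) * (zz : S) * (m : S)⁻¹ := ⟨_, rfl⟩
      have ha'M : a' ∈ M := by
        rw [ha']
        exact M.mul_mem (M.mul_mem m.2 zz.2) (M.inv_mem m.2)
      have ha'2 : orderOf a' = 2 := by rw [ha', Cfsg.Agent.Lib.Helper3.orderOf_conj_eq]; exact hI'2
      obtain ⟨j₁, hj₁⟩ : ∃ j₁ : S, j₁ = j₀ * (zz : S) * j₀⁻¹ := ⟨_, rfl⟩
      have hj₁2 : orderOf j₁ = 2 := by rw [hj₁, Cfsg.Agent.Lib.Helper3.orderOf_conj_eq]; exact hI'2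
      have hj₁M : j₁ ∉ M := by
        intro h
        have := SE j₀⁻¹ (zz : S) hI'2 zz.2 (by rw [inv_inv, ← hj₁]; exact h)
        apply hj₀M
        have h' := M.inv_mem this
        rwa [inv_inv] at h'
      obtain ⟨s, hss, hs, -⟩ := Cfsg.Agent.Lib.Helper3.exists_invol_conj_of_odd
        (Cfsg.Agent.Lib.Helper3.sq_of_orderOf_two ha'2) (Cfsg.Agent.Lib.Helper3.sq_of_orderOf_two hj₁2)
        (LA a' ha'M ha'2 j₁ hj₁M hj₁2)
      have hsinv : s⁻¹ = s := Cfsg.Agent.Lib.Helper3.invol_inv hss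
      -- d = j₀ s
      have hdI : (s * j₀) * (zz : S) * (s * j₀)⁻¹ = a' := by
        rw [← hs, hj₁]; group
      have hdM : j₀ * s ∈ M := by
        apply SE (j₀ * s) (zz : S) hI'2 zz.2
        have e : (j₀ * s)⁻¹ * (zz : S) * (j₀ * s) = (s * j₀) * (zz : S) * (s * j₀)⁻¹ := by
          rw [mul_inv_rev, mul_inv_rev, hsinv, hj₀inv]
        rw [e, hdI]
        exact ha'M
      have hdM' : s * j₀ ∈ M := by
        have := M.inv_mem hdM
        rwa [mul_inv_rev, hsinv, hj₀inv] at this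
      have hdconj : s * j₀ ∈ M.map (MulAut.conj j₀).toMonoidHom := by
        rw [Cfsg.Agent.Lib.Helper3.mem_map_conj_iff]
        have e : j₀⁻¹ * (s * j₀) * j₀ = j₀ * s := by
          rw [hj₀inv]
          calc j₀ * (s * j₀) * j₀ = j₀ * s * (j₀ * j₀) := by group
            _ = j₀ * s := by rw [hj₀j₀, mul_one]
        rw [e]; exact hdM
      have hcent : (j₀ * s) * (m : S) * (zz : S) = (zz : S) * ((j₀ * s) * (m : S)) := by
        have e1 : (m : S) * (zz : S) = a' * (m : S) := by rw [ha']; group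
        have e2 : (j₀ * s) * a' = (zz : S) * (j₀ * s) := by
          rw [← hdI]
          calc j₀ * s * (s * j₀ * (zz : S) * (s * j₀)⁻¹) = j₀ * (s * s) * j₀ * (zz : S) * (s * j₀)⁻¹ := by group
            _ = (j₀ * j₀) * (zz : S) * (s * j₀)⁻¹ := by rw [hss]; group
            _ = (zz : S) * (j₀ * s) := by rw [hj₀j₀, mul_inv_rev, hsinv, hj₀inv, one_mul]
        calc (j₀ * s) * (m : S) * (zz : S) = (j₀ * s) * ((m : S) * (zz : S)) := by group
          _ = (j₀ * s) * (a' * (m : S)) := by rw [e1]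
          _ = ((j₀ * s) * a') * (m : S) := by group
          _ = ((zz : S) * (j₀ * s)) * (m : S) := by rw [e2]
          _ = (zz : S) * ((j₀ * s) * (m : S)) := by group
      refine ⟨⟨s * j₀, hdM'⟩, ?_, ⟨(j₀ * s) * (m : S), M.mul_mem hdM m.2⟩, ?_, ?_⟩
      · rw [Subgroup.mem_subgroupOf]
        exact Subgroup.mem_inf.mpr ⟨hdM', hdconj⟩
      · rw [Subgroup.mem_centralizer_iff]
        intro y hy
        rw [Set.mem_singleton_iff] at hy
        rw [hy]
        apply Subtype.ext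
        show (zz : S) * ((j₀ * s) * (m : S)) = (j₀ * s) * (m : S) * (zz : S)
        exact hcent.symm
      · apply Subtype.ext
        show (m : S) = (s * j₀) * ((j₀ * s) * (m : S))
        calc (m : S) = s * (j₀ * j₀) * s * (m : S) := by rw [hj₀j₀, mul_one, hss, one_mul]
          _ = (s * j₀) * ((j₀ * s) * (m : S)) := by group


end Cfsg.Agent.S1905
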