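import Cfsg.Statements.S1939
import Cfsg.Agent.Lib.Helper3.SylowFusion

set_option autoImplicit false
open Cfsg

namespace Cfsg.Agent.S1939

/-- Let S be a Sylow p-subgroup of the finite group G and a an element of S that is the only G-conjugate of a lying in S. Then every power of a has the same property: for every n, the only G-conjugate of a^n lying in S is a^n. -/
theorem result {G : Type*} [Group G] [Finite G] {p : ℕ} [Fact p.Prime] (S : Sylow p G) (a : G)
    (haS : a ∈ (S : Subgroup G)) (hwc : ∀ g : G, g * a * g⁻¹ ∈ (S : Subgroup G) → g * a * g⁻¹ = a) (n : ℕ) :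
    ∀ g : G, g * a ^ n * g⁻¹ ∈ (S : Subgroup G) → g * a ^ n * g⁻¹ = a ^ n := by
  intro g hg
  have hconjpow : ∀ (y : G) (k : ℕ), (y * a * y⁻¹) ^ k = y * a ^ k * y⁻¹ := by
    intro y k
    induction k with
    | zero => simp
    | succ k ih => rw [pow_succ, ih, pow_succ]; group
  -- a is central in S
  have hacen : ∀ s ∈ (S : Subgroup G), s * a = a * s := by
    intro s hs
    have h1 := hwc s ((S : Subgroup G).mul_mem ((S : Subgroup G).mul_mem hs haS) (inv_mem hs))
    calc s * a = s * a * s⁻¹ * s := by group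
      _ = a * s := by rw [h1]
  set b' := g * a ^ n * g⁻¹ with hb'
  let C := Subgroup.centralizer ({b'} : Set G)
  let U := Subgroup.zpowers a
  let V := U.map (MulAut.conj g).toMonoidHom
  have hU : IsPGroup p U := S.isPGroup'.to_le ((Subgroup.zpowers_le).mpr haS)
  have hV : IsPGroup p V := hU.map _
  have haC : a ∈ C := by
    rw [Subgroup.mem_centralizer_singleton_iff]
    exact (hacen b' hg).symm
  have hUC : U ≤ C := (Subgroup.zpowers_le).mpr haC
  have hVC : V ≤ C := by
    rintro _ ⟨u, hu, rfl⟩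
    obtain ⟨k, rfl⟩ := Subgroup.mem_zpowers_iff.mp hu
    rw [Subgroup.mem_centralizer_singleton_iff]
    simp only [MulEquiv.coe_toMonoidHom, MulAut.conj_apply, hb']
    have : a ^ k * a ^ n = a ^ n * a ^ k := by
      rw [← zpow_natCast, ← zpow_add, ← zpow_add, add_comm]
    calc g * a ^ k * g⁻¹ * (g * a ^ n * g⁻¹) = g * (a ^ k * a ^ n) * g⁻¹ := by group
      _ = g * (a ^ n * a ^ k) * g⁻¹ := by rw [this]
      _ = g * a ^ n * g⁻¹ * (g * a ^ k * g⁻¹) := by group
  obtain ⟨c, hc, x, h1, h2⟩ := Cfsg.Agent.Lib.Helper3.pgroups_conj_in_subgroup S C U V hU hV hUC hVC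
  have e1 : x⁻¹ * a * x = a := by
    have := h1 a (Subgroup.mem_zpowers a)
    have h3 := hwc x⁻¹ (by simpa using this)
    simpa using h3
  have e2 : x⁻¹ * (c * (g * a * g⁻¹) * c⁻¹) * x = a := by
    have := h2 (g * a * g⁻¹) ⟨a, Subgroup.mem_zpowers a, rfl⟩
    have h3 := hwc (x⁻¹ * c * g) (by
      have e : x⁻¹ * c * g * a * (x⁻¹ * c * g)⁻¹ = x⁻¹ * (c * (g * a * g⁻¹) * c⁻¹) * x := by group
      rw [e]; exact this)
    calc x⁻¹ * (c * (g * a * g⁻¹) * c⁻¹) * x = x⁻¹ * c * g * a * (x⁻¹ * c * g)⁻¹ := by group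
      _ = a := h3
  have e3 : (c * g) * a * (c * g)⁻¹ = a := by
    calc (c * g) * a * (c * g)⁻¹ = x * (x⁻¹ * (c * (g * a * g⁻¹) * c⁻¹) * x) * x⁻¹ := by group
      _ = x * a * x⁻¹ := by rw [e2]
      _ = x * (x⁻¹ * a * x) * x⁻¹ := by rw [e1]
      _ = a := by group
  have e4 : (c * g) * a ^ n * (c * g)⁻¹ = a ^ n := by
    rw [← hconjpow, e3]
  have e5 : c * b' * c⁻¹ = b' := by
    have := Subgroup.mem_centralizer_singleton_iff.mp hc
    rw [this]; group
  calc b' = c * b' * c⁻¹ := e5.symm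
    _ = (c * g) * a ^ n * (c * g)⁻¹ := by rw [hb']; group
    _ = a ^ n := e4

end Cfsg.Agent.S1939
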