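import Cfsg.Statements.S1940
import Mathlib

set_option autoImplicit false
open Cfsg

namespace Cfsg.Agent.S1940

/-- Let the finite group L act by automorphisms on the finite abelian group M, and let N be an L-invariant subgroup of M such that M/N is a p-group on which L acts trivially (every l • m lies in the coset mN). If every element of M is a product of an element of N and an element fixed by a Sylow p-subgroup T of L, then every element of M is a product of an element of N and an element fixed by all of L. -/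
theorem result {L : Type*} [Group L] [Finite L] {M : Type*} [CommGroup M] [Finite M] [MulDistribMulAction L M]
    {p : ℕ} [Fact p.Prime] (N : Subgroup M) (hN : ∀ (l : L) (m : M), m ∈ N → l • m ∈ N)
    (hquot : IsPGroup p (M ⧸ N)) (htriv : ∀ (l : L) (m : M), (l • m) * m⁻¹ ∈ N) (T : Sylow p L)
    (hT : ∀ m : M, ∃ n ∈ N, ∃ c : M, (∀ t ∈ (T : Subgroup L), t • c = c) ∧ m = n * c) :
    ∀ m : M, ∃ n ∈ N, ∃ c : M, (∀ l : L, l • c = c) ∧ m = n * c := by
  intro m
  obtain ⟨n₀, hn₀, c₀, hc₀, rfl⟩ := hT m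
  classical
  letI : Fintype (MulAction.orbit L c₀) := Fintype.ofFinite _
  set d : M := ∏ y : MulAction.orbit L c₀, (y : M) with hd_def
  have hd : ∀ l : L, l • d = d := by
    intro l
    rw [hd_def, Finset.smul_prod']
    exact Fintype.prod_equiv (MulAction.toPerm l) _ _ (fun y => rfl)
  -- the orbit size is prime to p
  set r := Fintype.card (MulAction.orbit L c₀) with hr_def
  have hr : ¬ p ∣ r := by
    have h1 : (MulAction.stabilizer L c₀).index = r := by
      rw [MulAction.index_stabilizer, hr_def, ← Nat.card_eq_fintype_card, Nat.card_coe_set_eq]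
    have h2 : (T : Subgroup L) ≤ MulAction.stabilizer L c₀ := fun t ht => hc₀ t ht
    have h3 : (MulAction.stabilizer L c₀).index ∣ (T : Subgroup L).index :=
      Subgroup.index_dvd_of_le h2
    intro h
    exact T.not_dvd_index (dvd_trans (h1 ▸ h) h3)
  -- image of d in M ⧸ N
  have hmk : (QuotientGroup.mk d : M ⧸ N) = (QuotientGroup.mk c₀ : M ⧸ N) ^ r := by
    rw [hd_def, QuotientGroup.mk_prod]
    rw [Finset.prod_eq_pow_card (b := (QuotientGroup.mk c₀ : M ⧸ N))]
    · rfl
    · intro y _
      obtain ⟨l, hl⟩ := y.2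
      rw [← hl]
      exact QuotientGroup.eq_iff_div_mem.mpr (by
        have := htriv l c₀
        rw [div_eq_mul_inv]; exact this)
  obtain ⟨k, hk⟩ := hquot.exists_card_eq
  have hcop : Nat.Coprime r (Nat.card (M ⧸ N)) := by
    rw [hk]
    apply Nat.Coprime.pow_right
    exact (Nat.Coprime.symm ((Nat.Prime.coprime_iff_not_dvd (Fact.out : p.Prime)).mpr hr))
  -- Bezout
  have hbez : (r : ℤ) * Nat.gcdA r (Nat.card (M ⧸ N)) + (Nat.card (M ⧸ N) : ℤ) * Nat.gcdB r (Nat.card (M ⧸ N)) = 1 := by
    have := Nat.gcd_eq_gcd_ab r (Nat.card (M ⧸ N))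
    rw [hcop.gcd_eq_one] at this
    exact_mod_cast this.symm
  set u := Nat.gcdA r (Nat.card (M ⧸ N)) with hu
  set v := Nat.gcdB r (Nat.card (M ⧸ N)) with hv
  have hcu : (QuotientGroup.mk (d ^ u) : M ⧸ N) = (QuotientGroup.mk c₀ : M ⧸ N) := by
    rw [QuotientGroup.mk_zpow, hmk, ← zpow_natCast, ← zpow_mul]
    have e : (r : ℤ) * u = 1 - (Nat.card (M ⧸ N) : ℤ) * v := by linarith
    rw [e, zpow_sub, zpow_one, zpow_mul, zpow_natCast, pow_card_eq_one', one_zpow]
    simp
  refine ⟨n₀ * c₀ * (d ^ u)⁻¹, ?_, d ^ u, ?_, by group⟩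
  · have h1 : c₀ * (d ^ u)⁻¹ ∈ N := by
      have := QuotientGroup.eq_iff_div_mem.mp hcu.symm
      rw [div_eq_mul_inv] at this; exact this
    rw [mul_assoc]
    exact N.mul_mem hn₀ h1
  · intro l
    rw [smul_zpow', hd l]

end Cfsg.Agent.S1940
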