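import Cfsg.Statements.S1941
import Mathlib
import Cfsg.Agent.Lib.Helper2.Comp5
import Cfsg.Agent.Lib.Lead.Fitting2
import Cfsg.Agent.Lib.Lead.PCore2
import Cfsg.Agent.Lib.Helper3.Quasi
open Cfsg.Agent.Lib.Helper3 Cfsg.Agent.Lib.Lead Cfsg.Agent.Lib.Helper2.Comp

set_option autoImplicit false
open Cfsg

namespace Cfsg.Agent.S1941

/-- Let G be a finite group with no nontrivial normal subgroup of order prime to p, T a Sylow p-subgroup of G and E(G) the layer of G (the subgroup generated by its components). An automorphism of G of p-power order that fixes T and E(G) elementwise is inner. -/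
theorem result {G : Type*} [Group G] [Finite G] {p : ℕ} [Fact p.Prime] (hcore : Cfsg.pPrimeCore p G = ⊥)
    (T : Sylow p G) (α : MulAut G) (hα : ∃ j : ℕ, orderOf α = p ^ j) (hfixT : ∀ x ∈ (T : Subgroup G), α x = x)
    (hfixE : ∀ x ∈ Cfsg.layer G, α x = x) : ∃ g : G, ∀ x : G, α x = g * x * g⁻¹ := by
  classical
  have hp := (Fact.out : p.Prime)
  let Fix : Subgroup G :=
    { carrier := {x | α x = x}
      mul_mem' := fun {a b} ha hb => by
        have ha' : α a = a := ha
        have hb' : α b = b := hb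
        show α (a * b) = a * b
        rw [map_mul, ha', hb']
      one_mem' := map_one α
      inv_mem' := fun {a} ha => by
        have ha' : α a = a := ha
        show α a⁻¹ = a⁻¹
        rw [map_inv, ha'] }
  have hTFix : (T : Subgroup G) ≤ Fix := fun x hx => hfixT x hx
  have hEFix : Cfsg.layer G ≤ Fix := fun x hx => hfixE x hx
  have hFT : Cfsg.fittingSubgroup G ≤ (T : Subgroup G) := by
    rw [fitting_eq_iSup_pCore]
    apply iSup_le
    intro q
    by_cases hqp : (q : ℕ) = p
    · rw [hqp]; exact pCore_le_sylow' T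
    · haveI : Fact (q : ℕ).Prime := ⟨q.2⟩
      have h1 : Cfsg.pCore (q : ℕ) G ≤ Cfsg.pPrimeCore p G := by
        apply le_sSup
        refine ⟨pCore_normal _ G, ?_⟩
        obtain ⟨k, hk⟩ := (IsPGroup.iff_card.mp (pCore_isPGroup' (G := G) (q : ℕ)))
        rw [hk]
        apply Nat.Coprime.pow_left
        exact (Nat.coprime_primes q.2 hp).mpr hqp
      rw [hcore] at h1
      exact h1.trans bot_le
  have hFsFix : Cfsg.generalizedFittingSubgroup G ≤ Fix := sup_le hEFix (hFT.trans hTFix)
  haveI hFsn := generalizedFittingSubgroup_normal G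
  obtain ⟨Z, hZdef⟩ : ∃ Z : Subgroup G,
      Z = Subgroup.centralizer (Cfsg.generalizedFittingSubgroup G : Set G) := ⟨_, rfl⟩
  have hZn : Z.Normal := by rw [hZdef]; infer_instance
  have hZFs : Z ≤ Cfsg.generalizedFittingSubgroup G := by rw [hZdef]; exact centralizer_gfs_le
  have hZcomm : ∀ a ∈ Z, ∀ b ∈ Z, a * b = b * a := by
    intro a ha b hb
    rw [hZdef] at ha
    exact (ha b (hZFs hb)).symm
  letI cg : CommGroup Z :=
    { (inferInstance : Group Z) with
      mul_comm := fun a b => Subtype.ext (hZcomm a a.2 b b.2) }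
  have hZnil : Group.IsNilpotent Z := CommGroup.isNilpotent
  have hZF : Z ≤ Cfsg.fittingSubgroup G := le_sSup ⟨hZn, hZnil⟩
  have hZT : Z ≤ (T : Subgroup G) := hZF.trans hFT
  have hZp : IsPGroup p Z := T.isPGroup'.to_le hZT
  have hf : ∀ g : G, α g * g⁻¹ ∈ Z := by
    intro g
    have h1 : g⁻¹ * α g ∈ Z := by
      rw [hZdef, Subgroup.mem_centralizer_iff]
      intro x hx
      have h2 : α (g * x * g⁻¹) = g * x * g⁻¹ := hFsFix (hFsn.conj_mem x hx g)
      have h3 : α x = x := hFsFix hx
      rw [map_mul, map_mul, map_inv, h3] at h2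
      have h4 : α g * x = g * x * g⁻¹ * α g := by rw [← h2]; group
      calc x * (g⁻¹ * α g) = g⁻¹ * (g * x * g⁻¹ * α g) := by group
        _ = g⁻¹ * (α g * x) := by rw [h4]
        _ = g⁻¹ * α g * x := by group
    have h5 := hZn.conj_mem _ h1 g
    have h6 : g * (g⁻¹ * α g) * g⁻¹ = α g * g⁻¹ := by group
    rwa [h6] at h5
  let fZ : G → Z := fun g => ⟨α g * g⁻¹, hf g⟩
  have hfZ_mul : ∀ g h : G, fZ (g * h) = fZ g * MulAut.conjNormal g (fZ h) := by
    intro g h
    apply Subtype.ext
    show α (g * h) * (g * h)⁻¹ = α g * g⁻¹ * (g * (α h * h⁻¹) * g⁻¹)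
    rw [map_mul]; group
  have hfZ_T : ∀ t ∈ (T : Subgroup G), fZ t = 1 := by
    intro t ht
    apply Subtype.ext
    show α t * t⁻¹ = 1
    rw [hfixT t ht, mul_inv_cancel]
  have hfZ_coset : ∀ (g t : G), t ∈ (T : Subgroup G) → fZ (g * t) = fZ g := by
    intro g t ht
    rw [hfZ_mul, hfZ_T t ht, map_one, mul_one]
  haveI : Fintype (G ⧸ (T : Subgroup G)) := Fintype.ofFinite _
  obtain ⟨c, hc⟩ : ∃ c : Z, c = ∏ q : G ⧸ (T : Subgroup G), fZ q.out := ⟨_, rfl⟩
  have hkey : ∀ h : G, MulAut.conjNormal h c = (fZ h)⁻¹ ^ (T : Subgroup G).index * c := by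
    intro h
    rw [hc, map_prod]
    have h1 : ∀ q : G ⧸ (T : Subgroup G),
        MulAut.conjNormal h (fZ q.out) = (fZ h)⁻¹ * fZ ((h • q).out) := by
      intro q
      have h2 : fZ (h * q.out) = fZ ((h • q).out) := by
        have h3 : ((h * q.out : G) : G ⧸ (T : Subgroup G))
            = (((h • q).out : G) : G ⧸ (T : Subgroup G)) := by
          rw [QuotientGroup.out_eq']
          conv_rhs => rw [← QuotientGroup.out_eq' q]
          rfl
        rw [QuotientGroup.eq] at h3
        have h4 : fZ ((h • q).out) = fZ (h * q.out * ((h * q.out)⁻¹ * (h • q).out)) := by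
          congr 1; group
        rw [h4, hfZ_coset _ _ h3]
      rw [← h2, hfZ_mul, inv_mul_cancel_left]
    rw [Finset.prod_congr rfl (fun q _ => h1 q), Finset.prod_mul_distrib, Finset.prod_const,
      Finset.card_univ]
    congr 1
    · rw [Subgroup.index, Nat.card_eq_fintype_card]
    · exact Fintype.prod_equiv (MulAction.toPerm h) _ _ (fun q => rfl)
  have hidx : (Nat.card Z).Coprime (T : Subgroup G).index := by
    obtain ⟨k, hk⟩ := IsPGroup.iff_card.mp hZp
    rw [hk]
    apply Nat.Coprime.pow_left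
    exact (Nat.Prime.coprime_iff_not_dvd hp).mpr T.not_dvd_index
  obtain ⟨d, hd⟩ := (powCoprime hidx).surjective c
  have hd' : d ^ (T : Subgroup G).index = c := hd
  refine ⟨(d : G), fun x => ?_⟩
  have h1 := hkey x
  have h2 : (fZ x) ^ (T : Subgroup G).index
      = (d * (MulAut.conjNormal x d)⁻¹) ^ (T : Subgroup G).index := by
    rw [mul_pow, inv_pow, ← map_pow, hd', h1, inv_pow]
    rw [mul_inv_rev, inv_inv, mul_inv_cancel_left]
  have h3 : fZ x = d * (MulAut.conjNormal x d)⁻¹ := (powCoprime hidx).injective h2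
  have h4 := congrArg (Subtype.val) h3
  have h5 : α x * x⁻¹ = (d : G) * (x * (d : G) * x⁻¹)⁻¹ := h4
  calc α x = α x * x⁻¹ * x := by group
    _ = (d : G) * (x * (d : G) * x⁻¹)⁻¹ * x := by rw [h5]
    _ = (d : G) * x * (d : G)⁻¹ := by group

end Cfsg.Agent.S1941
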