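import Cfsg.Statements.S1946
import Cfsg.Agent.Lib.Helper2.NpcSmall
import Cfsg.Agent.Lib.Helper6.NormGrow

set_option autoImplicit false
open Cfsg

namespace Cfsg.Agent.S1946

open scoped commutatorElement in
theorem result {G : Type*} [Group G] [Finite G] {p : ℕ} [Fact p.Prime] (P : Sylow p G) :
    Cfsg.HasNormalPComplement p G ↔
      ∀ a ∈ (P : Subgroup G), (a ^ p = 1 ∨ (p = 2 ∧ a ^ 4 = 1)) → ∀ g : G, g * a * g⁻¹ ∈ (P : Subgroup G) →
        ∃ x ∈ (P : Subgroup G), g * a * g⁻¹ = x * a * x⁻¹ := by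
  constructor
  · rintro ⟨P₀, N, hN, hc⟩ a ha _ g hg
    have hF := Cfsg.Agent.Lib.Helper6.frobCond_of_complement P₀ N hc
    obtain ⟨z, hz, hzeq⟩ := Cfsg.Agent.Lib.Helper6.control_fusion hF P a ha (g * a * g⁻¹) hg ⟨g, rfl⟩
    exact ⟨z, hz, hzeq.symm⟩
  · intro hfus
    apply Cfsg.Agent.Lib.Helper6.frobenius_npc
    apply Cfsg.Agent.Lib.Helper6.frobCond_of_sylow P
    have main : ∀ n : ℕ, ∀ Q : Subgroup G, Nat.card Q = n → Q ≤ (P : Subgroup G) →
        ∀ g ∈ Subgroup.normalizer (Q : Set G), (orderOf g).Coprime p →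
          g ∈ Subgroup.centralizer (Q : Set G) := by
      intro n
      induction n using Nat.strong_induction_on with
      | _ n ih =>
      intro Q hQn hQP g hg hcop
      have hQ : IsPGroup p Q := P.isPGroup'.to_le hQP
      have hgQ : ∀ y ∈ Q, g * y * g⁻¹ ∈ Q := fun y hy => (Subgroup.mem_normalizer_iff.mp hg y).mp hy
      have hgQ' : ∀ y ∈ Q, g⁻¹ * y * g ∈ Q := by
        intro y hy
        have := (Subgroup.mem_normalizer_iff.mp hg (g⁻¹ * y * g)).mpr (by
          have e : g * (g⁻¹ * y * g) * g⁻¹ = y := by group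
          rw [e]; exact hy)
        exact this
      have hsmall : ∀ (a x : G), (x ^ p = 1 ∨ (p = 2 ∧ x ^ 4 = 1)) →
          ((a * x * a⁻¹) ^ p = 1 ∨ (p = 2 ∧ (a * x * a⁻¹) ^ 4 = 1)) := by
        intro a x hx
        rcases hx with h | ⟨h2, h⟩
        · left; rw [conj_pow, h]; group
        · right; refine ⟨h2, ?_⟩; rw [conj_pow, h]; group
      obtain ⟨Q₂, hQ₂⟩ : ∃ Q₂ : Subgroup G, Q₂ = Subgroup.closure
          {c : G | ∃ x ∈ Q, (x ^ p = 1 ∨ (p = 2 ∧ x ^ 4 = 1)) ∧ c = x⁻¹ * (g * x * g⁻¹)} := ⟨_, rfl⟩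
      have hQ₂Q : Q₂ ≤ Q := by
        rw [hQ₂, Subgroup.closure_le]
        rintro c ⟨x, hx, _, rfl⟩
        exact Q.mul_mem (Q.inv_mem hx) (hgQ x hx)
      have hmap1 : Q₂.map (MulAut.conj g).toMonoidHom ≤ Q₂ := by
        rw [hQ₂, MonoidHom.map_closure, Subgroup.closure_le]
        rintro _ ⟨c, ⟨x, hx, hxs, rfl⟩, rfl⟩
        apply Subgroup.subset_closure
        refine ⟨g * x * g⁻¹, hgQ x hx, hsmall g x hxs, ?_⟩
        simp only [MulEquiv.coe_toMonoidHom, MulAut.conj_apply]
        group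
      have hmap2 : Q₂.map (MulAut.conj g⁻¹).toMonoidHom ≤ Q₂ := by
        rw [hQ₂, MonoidHom.map_closure, Subgroup.closure_le]
        rintro _ ⟨c, ⟨x, hx, hxs, rfl⟩, rfl⟩
        apply Subgroup.subset_closure
        refine ⟨g⁻¹ * x * g, hgQ' x hx, ?_, ?_⟩
        · have := hsmall g⁻¹ x hxs
          rwa [inv_inv] at this
        · simp only [MulEquiv.coe_toMonoidHom, MulAut.conj_apply]
          group
      have hgQ₂ : g ∈ Subgroup.normalizer (Q₂ : Set G) := by
        rw [Subgroup.mem_normalizer_iff]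
        intro y
        constructor
        · intro hy
          have := hmap1 (Subgroup.mem_map_of_mem _ hy)
          simpa using this
        · intro hy
          have := hmap2 (Subgroup.mem_map_of_mem _ hy)
          have e : (MulAut.conj g⁻¹).toMonoidHom (g * y * g⁻¹) = y := by
            simp only [MulEquiv.coe_toMonoidHom, MulAut.conj_apply]; group
          rwa [e] at this
      by_cases hlt : Q₂ = Q
      · -- `Q` lies in every term of the lower central series of `P`
        have hlcs : ∀ m : ℕ, Q ≤ (P : Subgroup G).lowerCentralSeries m := by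
          intro m
          induction m with
          | zero => rw [Subgroup.lowerCentralSeries_zero]; exact hQP
          | succ m ihm =>
            rw [Subgroup.lowerCentralSeries_succ, ← hlt, hQ₂, Subgroup.closure_le]
            rintro c ⟨x, hx, hxs, rfl⟩
            obtain ⟨u, hu, hux⟩ := hfus x (hQP hx) hxs g (hQP (hgQ x hx))
            have hmem : ⁅x⁻¹, u⁆ ∈ ⁅(P : Subgroup G).lowerCentralSeries m, (P : Subgroup G)⁆ :=
              Subgroup.commutator_mem_commutator (inv_mem (ihm hx)) hu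
            have e : x⁻¹ * (g * x * g⁻¹) = ⁅x⁻¹, u⁆ := by
              rw [hux, commutatorElement_def]; group
            rw [e]; exact hmem
        have hnil : Group.IsNilpotent ↥(P : Subgroup G) := P.isPGroup'.isNilpotent
        obtain ⟨m, hm⟩ := (Subgroup.isNilpotent_iff_lowerCentralSeries _).mp hnil
        have hQbot : Q = ⊥ := by
          have := hlcs m
          rw [hm] at this
          exact le_bot_iff.mp this
        rw [Subgroup.mem_centralizer_iff]
        intro y hy
        rw [hQbot] at hy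
        have hy1 : y = 1 := Subgroup.mem_bot.mp hy
        rw [hy1]; group
      · have hcard : Nat.card Q₂ < n := by
          rw [← hQn]
          exact Cfsg.Agent.Lib.Helper6.card_lt_card_of_lt (lt_of_le_of_ne hQ₂Q hlt)
        have hcent := ih _ hcard Q₂ rfl (hQ₂Q.trans hQP) g hgQ₂ hcop
        apply Cfsg.Agent.Lib.Helper2.Npc.centralizes_of_small Q hQ g hg hcop
        intro x hx hxs
        have hcQ₂ : x⁻¹ * (g * x * g⁻¹) ∈ Q₂ := by
          rw [hQ₂]; exact Subgroup.subset_closure ⟨x, hx, hxs, rfl⟩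
        have hgc : g * (x⁻¹ * (g * x * g⁻¹)) = (x⁻¹ * (g * x * g⁻¹)) * g :=
          (Subgroup.mem_centralizer_iff.mp hcent _ hcQ₂).symm
        have hcp : ∃ j : ℕ, (x⁻¹ * (g * x * g⁻¹)) ^ (p ^ j) = 1 := by
          obtain ⟨j, hj⟩ := hQ ⟨_, hQ₂Q hcQ₂⟩
          exact ⟨j, by have := congrArg Subtype.val hj; simpa using this⟩
        have hc1 := Cfsg.Agent.Lib.Helper2.Npc.eq_one_of_conj_eq_mul g x (x⁻¹ * (g * x * g⁻¹))
          (by group) hgc hcp hcop
        have e : g * x * g⁻¹ = x * (x⁻¹ * (g * x * g⁻¹)) := by group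
        rw [e, hc1, mul_one]
    intro Q hQP g hg hcop
    exact main _ Q rfl hQP g hg hcop

end Cfsg.Agent.S1946
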