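import Cfsg.Statements.S1947
import Mathlib
import Cfsg.Agent.Lib.Helper6.FrobNC
import Cfsg.Agent.Lib.Helper6.OmegaCent
import Cfsg.Agent.Lib.Helper6.HyperC

set_option autoImplicit false
open Cfsg

namespace Cfsg.Agent.S1947


open Cfsg.Agent.Lib.Helper6

/-- Let G be a finite group and p a prime. If every element of G of order dividing p (dividing 4 when p = 2) lies in some fixed term Z_n(G) of the upper central series, then G has a normal p-complement. -/
theorem result {G : Type*} [Group G] [Finite G] {p : ℕ} [Fact p.Prime] (n : ℕ)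
    (h : ∀ a : G, (a ^ p = 1 ∨ (p = 2 ∧ a ^ 4 = 1)) → a ∈ Subgroup.upperCentralSeries G n) : Cfsg.HasNormalPComplement p G := by
  apply frobenius_npc
  intro Q hQ g hg hcop
  have hA : (Nat.card (Subgroup.zpowers g)).Coprime p := by rw [Nat.card_zpowers]; exact hcop
  have hAP : Subgroup.zpowers g ≤ Subgroup.normalizer (Q : Set G) := Subgroup.zpowers_le.mpr hg
  have key := centralizes_of_centralizes_omega (Subgroup.zpowers g) Q hA hQ hAP ?_
  · exact key (Subgroup.mem_zpowers g)
  · intro x hx hx2 a ha
    have hxZ := h x hx2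
    obtain ⟨i, hi⟩ := (IsPGroup.iff_orderOf.mp hQ) ⟨x, hx⟩
    rw [Subgroup.orderOf_mk] at hi
    have hao : (orderOf a).Coprime p := by
      have h1 : orderOf a ∣ orderOf g := orderOf_dvd_of_mem_zpowers ha
      exact Nat.Coprime.coprime_dvd_left h1 hcop
    have hc := commute_of_mem_upperCentralSeries n hxZ hi hao
    rw [← hc, mul_inv_cancel_right]

end Cfsg.Agent.S1947
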