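import Cfsg.Statements.S1948
import Mathlib
import Cfsg.Agent.Lib.Helper3.PPrimeP
import Cfsg.Agent.Lib.Helper3.HallHigman
import Cfsg.Agent.Lib.Helper3.LocGlob
open Cfsg.Agent.Lib.Helper3 Cfsg.Agent.Lib.Lead

set_option autoImplicit false
open Cfsg

namespace Cfsg.Agent.S1948

/-- Let S be a Sylow p-subgroup of the finite group G. Then G = N_G(S)·O_{p'}(G) if and only if G is p-constrained and N_G(S) controls fusion in S, in the sense that whenever a subgroup Q of S has a conjugate g Q g⁻¹ inside S, the element g is a product n c with n normalizing S and c centralizing Q. -/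
theorem result {G : Type*} [Group G] [Finite G] {p : ℕ} [Fact p.Prime] (S : Sylow p G) :
    Subgroup.normalizer ((S : Subgroup G) : Set G) ⊔ Cfsg.pPrimeCore p G = ⊤ ↔
      (Cfsg.IsPConstrained p G ∧
        ∀ Q : Subgroup G, Q ≤ (S : Subgroup G) → ∀ g : G, Q.map (MulAut.conj g).toMonoidHom ≤ (S : Subgroup G) →
          ∃ n ∈ Subgroup.normalizer ((S : Subgroup G) : Set G), ∃ c ∈ Subgroup.centralizer (Q : Set G), g = n * c) := by
  have hOn : (Cfsg.pPrimeCore p G).Normal := pPrimeCore_normal p G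
  have hLn : (Cfsg.pPrimePCore p G).Normal := pPrimePCore_normal' p G
  have hOc : (Nat.card (Cfsg.pPrimeCore p G)).Coprime p := pPrimeCore_coprime p
  have hp := (Fact.out : p.Prime)
  constructor
  · intro htop
    have hdec : ∀ g : G, ∃ n ∈ Subgroup.normalizer ((S : Subgroup G) : Set G),
        ∃ o ∈ Cfsg.pPrimeCore p G, g = n * o := by
      intro g
      have hg : g ∈ Subgroup.normalizer ((S : Subgroup G) : Set G) ⊔ Cfsg.pPrimeCore p G := by
        rw [htop]; exact Subgroup.mem_top g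
      obtain ⟨n, hn, o, ho, e⟩ := Subgroup.mem_sup_of_normal_right.mp hg
      exact ⟨n, hn, o, ho, e.symm⟩
    refine ⟨?_, ?_⟩
    · have hSbarN : ((S : Subgroup G).map (QuotientGroup.mk' (Cfsg.pPrimeCore p G))).Normal := by
        constructor
        rintro _ ⟨s, hs, rfl⟩ gbar
        obtain ⟨g, rfl⟩ := QuotientGroup.mk'_surjective _ gbar
        obtain ⟨n, hn, o, ho, rfl⟩ := hdec g
        refine ⟨n * s * n⁻¹, (Subgroup.mem_normalizer_iff.mp hn s).mp hs, ?_⟩
        have ho' : QuotientGroup.mk' (Cfsg.pPrimeCore p G) o = 1 :=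
          (QuotientGroup.eq_one_iff o).mpr ho
        rw [map_mul, map_mul, map_mul, map_inv, ho', mul_one]
      have hSbarP : IsPGroup p ((S : Subgroup G).map (QuotientGroup.mk' (Cfsg.pPrimeCore p G))) :=
        S.isPGroup'.map _
      have hSbarle : (S : Subgroup G).map (QuotientGroup.mk' (Cfsg.pPrimeCore p G)) ≤
          Cfsg.pCore p (G ⧸ Cfsg.pPrimeCore p G) :=
        le_sSup (show _ ∈ {N : Subgroup (G ⧸ Cfsg.pPrimeCore p G) | N.Normal ∧ IsPGroup p N} from
          ⟨hSbarN, hSbarP⟩)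
      have hSL : (S : Subgroup G) ≤ Cfsg.pPrimePCore p G := by
        intro s hs
        show QuotientGroup.mk' (Cfsg.pPrimeCore p G) s ∈ Cfsg.pCore p (G ⧸ Cfsg.pPrimeCore p G)
        exact hSbarle (Subgroup.mem_map_of_mem _ hs)
      have hCS : Subgroup.centralizer ((S : Subgroup G) : Set G) ≤ Cfsg.pPrimePCore p G := by
        have hred := pPrimeCore_quotient (G := G) p
        have hX : Subgroup.centralizer
            (((S : Subgroup G).map (QuotientGroup.mk' (Cfsg.pPrimeCore p G)) :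
              Subgroup (G ⧸ Cfsg.pPrimeCore p G)) : Set (G ⧸ Cfsg.pPrimeCore p G)) ≤
            (S : Subgroup G).map (QuotientGroup.mk' (Cfsg.pPrimeCore p G)) := by
          apply le_of_central_pgroup_coprime_index hred _ _ Subgroup.normal_centralizer hSbarN hSbarP
          · intro y hy x hx
            exact (Subgroup.mem_centralizer_iff.mp hx y hy)
          · have h1 := Subgroup.relIndex_dvd_index_of_normal
              ((S : Subgroup G).map (QuotientGroup.mk' (Cfsg.pPrimeCore p G)))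
              (Subgroup.centralizer
                (((S : Subgroup G).map (QuotientGroup.mk' (Cfsg.pPrimeCore p G)) :
                  Subgroup (G ⧸ Cfsg.pPrimeCore p G)) : Set (G ⧸ Cfsg.pPrimeCore p G)))
            have h2 : ((S : Subgroup G).map (QuotientGroup.mk' (Cfsg.pPrimeCore p G))).index ∣
                (S : Subgroup G).index :=
              Subgroup.index_map_dvd _ (QuotientGroup.mk'_surjective _)
            have h3 : ¬ p ∣ (S : Subgroup G).index := S.not_dvd_index
            exact Nat.Coprime.coprime_dvd_left (h1.trans h2)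
              ((Nat.Prime.coprime_iff_not_dvd hp).mpr h3).symm
        intro c hc
        show QuotientGroup.mk' (Cfsg.pPrimeCore p G) c ∈ Cfsg.pCore p (G ⧸ Cfsg.pPrimeCore p G)
        apply hSbarle
        apply hX
        rw [Subgroup.mem_centralizer_iff]
        rintro _ ⟨s, hs, rfl⟩
        rw [← map_mul, ← map_mul, Subgroup.mem_centralizer_iff.mp hc s hs]
      intro P
      obtain ⟨P₀, hP₀⟩ : ∃ P₀ : Subgroup G,
          P₀ = (P : Subgroup ↥(Cfsg.pPrimePCore p G)).map (Cfsg.pPrimePCore p G).subtype := ⟨_, rfl⟩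
      rw [← hP₀]
      have hP₀L : P₀ ≤ Cfsg.pPrimePCore p G := by
        rw [hP₀]; rintro _ ⟨y, -, rfl⟩; exact y.2
      have hP₀p : IsPGroup p P₀ := by rw [hP₀]; exact P.isPGroup'.map _
      have hP₀i : ¬ p ∣ P₀.relIndex (Cfsg.pPrimePCore p G) := by
        have h1 : P₀.subgroupOf (Cfsg.pPrimePCore p G) = P := by
          rw [hP₀]
          exact Subgroup.comap_map_eq_self_of_injective (Subgroup.subtype_injective _) _
        show ¬ p ∣ (P₀.subgroupOf (Cfsg.pPrimePCore p G)).index
        rw [h1]; exact P.not_dvd_index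
      have hSi : ¬ p ∣ (S : Subgroup G).relIndex (Cfsg.pPrimePCore p G) := fun h =>
        S.not_dvd_index (h.trans (Subgroup.relIndex_dvd_index_of_le hSL))
      obtain ⟨n, hn, hnP⟩ := exists_conj_sylowIn (Cfsg.pPrimePCore p G) (S : Subgroup G) P₀ hSL
        S.isPGroup' hSi hP₀L hP₀p hP₀i
      intro c hc
      have h1 : n * c * n⁻¹ ∈ Subgroup.centralizer ((S : Subgroup G) : Set G) := by
        rw [Subgroup.mem_centralizer_iff]
        intro s hs
        have hs' : s ∈ P₀.map (MulAut.conj n).toMonoidHom := by rw [hnP]; exact hs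
        obtain ⟨y, hy, rfl⟩ := hs'
        have h0 := Subgroup.mem_centralizer_iff.mp hc y hy
        show n * y * n⁻¹ * (n * c * n⁻¹) = n * c * n⁻¹ * (n * y * n⁻¹)
        calc n * y * n⁻¹ * (n * c * n⁻¹) = n * (y * c) * n⁻¹ := by group
          _ = n * (c * y) * n⁻¹ := by rw [h0]
          _ = n * c * n⁻¹ * (n * y * n⁻¹) := by group
      have h2 := hCS h1
      have e : c = n⁻¹ * (n * c * n⁻¹) * n := by group
      rw [e]
      exact Subgroup.mul_mem _ (Subgroup.mul_mem _ (Subgroup.inv_mem _ hn) h2) hn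
    · intro Q hQ g hg
      obtain ⟨n, hn, o, ho, rfl⟩ := hdec g
      refine ⟨n, hn, o, ?_, rfl⟩
      rw [Subgroup.mem_centralizer_iff]
      intro q hq
      have h1 : n * o * q * (n * o)⁻¹ ∈ (S : Subgroup G) := hg ⟨q, hq, rfl⟩
      have h2 : o * q * o⁻¹ ∈ (S : Subgroup G) := by
        have h0 := (Subgroup.mem_normalizer_iff.mp (Subgroup.inv_mem _ hn) _).mp h1
        have e : n⁻¹ * (n * o * q * (n * o)⁻¹) * n⁻¹⁻¹ = o * q * o⁻¹ := by group
        rwa [e] at h0
      have h3 : o * q * o⁻¹ * q⁻¹ ∈ (S : Subgroup G) :=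
        Subgroup.mul_mem _ h2 (Subgroup.inv_mem _ (hQ hq))
      have h4 : o * q * o⁻¹ * q⁻¹ ∈ Cfsg.pPrimeCore p G := by
        have h0 : q * o⁻¹ * q⁻¹ ∈ Cfsg.pPrimeCore p G := hOn.conj_mem _ (Subgroup.inv_mem _ ho) q
        have e : o * q * o⁻¹ * q⁻¹ = o * (q * o⁻¹ * q⁻¹) := by group
        rw [e]; exact Subgroup.mul_mem _ ho h0
      have h5 := eq_one_of_mem_coprime_of_mem_pgroup (Cfsg.pPrimeCore p G) (S : Subgroup G) hOc
        S.isPGroup' h4 h3
      have e : o * q = (o * q * o⁻¹ * q⁻¹) * (q * o) := by group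
      rw [e, h5, one_mul]
  · rintro ⟨hcon, hfus⟩
    rw [eq_top_iff]
    intro g _
    obtain ⟨k, hk, n, hn, rfl⟩ := pPrimePCore_frattini S g
    obtain ⟨R, hR⟩ : ∃ R : Subgroup G, R = (S : Subgroup G) ⊓ Cfsg.pPrimePCore p G := ⟨_, rfl⟩
    rw [← hR] at hn
    have hRS : R ≤ (S : Subgroup G) := by rw [hR]; exact inf_le_left
    have hRL : R ≤ Cfsg.pPrimePCore p G := by rw [hR]; exact inf_le_right
    have hnR : R.map (MulAut.conj n).toMonoidHom ≤ (S : Subgroup G) := by
      rw [map_conj_eq_self_of_mem_normalizer R n hn]; exact hRS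
    obtain ⟨m, hm, c, hc, rfl⟩ := hfus R hRS n hnR
    have hRp : IsPGroup p R := S.isPGroup'.to_le hRS
    have hRi : ¬ p ∣ R.relIndex (Cfsg.pPrimePCore p G) := by
      rw [hR]; exact sylow_inf_normal_relIndex S _
    have hcL : c ∈ Cfsg.pPrimePCore p G := by
      have hRp' : IsPGroup p (R.subgroupOf (Cfsg.pPrimePCore p G)) := hRp.comap_subtype
      have hRi' : ¬ p ∣ (R.subgroupOf (Cfsg.pPrimePCore p G)).index := hRi
      apply hcon (hRp'.toSylow hRi')
      have e : ((hRp'.toSylow hRi' : Sylow p ↥(Cfsg.pPrimePCore p G)) :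
          Subgroup ↥(Cfsg.pPrimePCore p G)).map (Cfsg.pPrimePCore p G).subtype = R := by
        rw [IsPGroup.toSylow_coe, Subgroup.subgroupOf_map_subtype]
        exact inf_eq_left.mpr hRL
      rw [e]; exact hc
    have hc2 := pPrimePCore_le_sup S hcL
    have hkmem : k ∈ Subgroup.normalizer ((S : Subgroup G) : Set G) ⊔ Cfsg.pPrimeCore p G :=
      Subgroup.mem_sup_right hk
    have hmmem : m ∈ Subgroup.normalizer ((S : Subgroup G) : Set G) ⊔ Cfsg.pPrimeCore p G :=
      Subgroup.mem_sup_left hm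
    have hcmem : c ∈ Subgroup.normalizer ((S : Subgroup G) : Set G) ⊔ Cfsg.pPrimeCore p G := by
      have hle : Cfsg.pPrimeCore p G ⊔ ((S : Subgroup G) ⊓ Cfsg.pPrimePCore p G) ≤
          Subgroup.normalizer ((S : Subgroup G) : Set G) ⊔ Cfsg.pPrimeCore p G :=
        sup_le le_sup_right ((inf_le_left.trans Subgroup.le_normalizer).trans le_sup_left)
      exact hle hc2
    exact Subgroup.mul_mem _ hkmem (Subgroup.mul_mem _ hmmem hcmem)

end Cfsg.Agent.S1948
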