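import Cfsg.Statements.S1958
import Cfsg.Agent.Lib.Helper2.Comp20

set_option autoImplicit false
open Cfsg

namespace Cfsg.Agent.S1958

open Cfsg.Agent.Lib.Helper2.Comp in
theorem result {G : Type*} [Group G] [Finite G]
    (p : ℕ) [Fact p.Prime] (x y : G) (hx : orderOf x = p) (hy : orderOf y = p) (hxy : x * y = y * x)
    (hCx : Group.IsSolvable ↥(Subgroup.centralizer ({x} : Set G))) (hCy : Group.IsSolvable ↥(Subgroup.centralizer ({y} : Set G))) :
    Cfsg.centralizerPPrimeCore p x ⊓ Subgroup.centralizer {y} = Cfsg.centralizerPPrimeCore p y ⊓ Subgroup.centralizer {x} := by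
  have hxp : IsPGroup p (Subgroup.zpowers x) :=
    IsPGroup.of_card (n := 1) (by rw [Nat.card_zpowers, hx, pow_one])
  have hyp : IsPGroup p (Subgroup.zpowers y) :=
    IsPGroup.of_card (n := 1) (by rw [Nat.card_zpowers, hy, pow_one])
  have hLx : pLayer p ↥(Subgroup.centralizer ({x} : Set G)) = ⊥ := pLayer_eq_bot_of_isSolvable p
  have hLy : pLayer p ↥(Subgroup.centralizer ({y} : Set G)) = ⊥ := pLayer_eq_bot_of_isSolvable p
  apply le_antisymm
  · exact le_inf (centralizerPPrimeCore_inf_le p hxy hxp hLy)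
      (inf_le_left.trans (centralizerPPrimeCore_le p x))
  · exact le_inf (centralizerPPrimeCore_inf_le p hxy.symm hyp hLx)
      (inf_le_left.trans (centralizerPPrimeCore_le p y))

end Cfsg.Agent.S1958
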