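import Cfsg.Statements.S1978
import Mathlib
import Cfsg.Agent.Lib.Helper3.KInf2

set_option autoImplicit false
open Cfsg

namespace Cfsg.Agent.S1978

open Cfsg.Agent.Lib.Helper3 in
theorem aux {P : Type*} [Group P] [Finite P] {p : ℕ} [Fact p.Prime] (hP : IsPGroup p P) :
    Subgroup.centralizer (Cfsg.kInfLower P : Set P) ≤ Cfsg.kInfLower P ∧
    Subgroup.centralizer (Cfsg.kInfUpper P : Set P) ≤ Cfsg.kInfUpper P := by
  obtain ⟨m, hm⟩ := kSeq_eventually_const P
  have h1 := (hm m le_rfl).1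
  have h2 := (hm (m + 1) (Nat.le_succ m)).2
  have hbot : IsMulCommutative ↥(⊥ : Subgroup P) := ⟨⟨fun a b => Subsingleton.elim _ _⟩⟩
  constructor
  · rw [← h1]
    exact centralizer_sSup_le hP (Cfsg.kLowerStarFamily (Cfsg.kSeqOdd P m))
      (Or.inr (Or.inl ⟨_, rfl⟩)) ⟨⊥, normal_abelian_mem_lower ⊥ hbot _⟩
  · rw [← h2]
    exact centralizer_sSup_le hP (Cfsg.kUpperStarFamily (Cfsg.kSeqEven P m))
      (Or.inr (Or.inr ⟨_, rfl⟩)) ⟨⊥, normal_abelian_mem_upper ⊥ hbot _⟩

/-- Let P be a finite p-group. Each of the two K-infinity subgroups of P contains its own centralizer in P, which in turn contains Z(P); in particular both are nontrivial when P is. -/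
theorem result {P : Type*} [Group P] [Finite P] {p : ℕ} [Fact p.Prime] (hP : IsPGroup p P) : Subgroup.centralizer (Cfsg.kInfLower P : Set P) ≤ Cfsg.kInfLower P ∧ Subgroup.center P ≤ Subgroup.centralizer (Cfsg.kInfLower P : Set P) ∧ Subgroup.centralizer (Cfsg.kInfUpper P : Set P) ≤ Cfsg.kInfUpper P ∧ Subgroup.center P ≤ Subgroup.centralizer (Cfsg.kInfUpper P : Set P) := by
  exact ⟨(aux hP).1, Subgroup.center_le_centralizer _, (aux hP).2, Subgroup.center_le_centralizer _⟩

end Cfsg.Agent.S1978
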