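import Cfsg.Statements.S2162
import Mathlib
import Cfsg.Agent.Lib.Helper3.SqZero

set_option autoImplicit false
open Cfsg

namespace Cfsg.Agent.S2162

theorem sqz_of_order_two {F : Type*} [Field F] [CharP F 2] {n : ℕ}
    (a : Matrix.SpecialLinearGroup (Fin n) F) (ha : orderOf a = 2) :
    ((a : Matrix (Fin n) (Fin n) F) - 1) * ((a : Matrix (Fin n) (Fin n) F) - 1) = 0 := by
  have h1 : a * a = 1 := by
    have := pow_orderOf_eq_one a
    rwa [ha, pow_two] at this
  have h2 : (a : Matrix (Fin n) (Fin n) F) * (a : Matrix (Fin n) (Fin n) F) = 1 := by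
    rw [← Matrix.SpecialLinearGroup.coe_mul, h1, Matrix.SpecialLinearGroup.coe_one]
  have h3 : (a : Matrix (Fin n) (Fin n) F) + (a : Matrix (Fin n) (Fin n) F) = 0 := by
    ext i j
    simp only [Matrix.add_apply, Matrix.zero_apply]
    exact CharTwo.add_self_eq_zero _
  have h4 : (1 : Matrix (Fin n) (Fin n) F) + 1 = 0 := by
    ext i j
    simp only [Matrix.add_apply, Matrix.zero_apply]
    exact CharTwo.add_self_eq_zero _
  calc ((a : Matrix (Fin n) (Fin n) F) - 1) * ((a : Matrix (Fin n) (Fin n) F) - 1)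
      = (a : Matrix (Fin n) (Fin n) F) * (a : Matrix (Fin n) (Fin n) F)
        - ((a : Matrix (Fin n) (Fin n) F) + (a : Matrix (Fin n) (Fin n) F)) + 1 := by noncomm_ring
    _ = 0 := by rw [h2, h3, sub_zero, h4]

/-- Conjugacy of involutions in the special linear group over a finite field of characteristic two, in dimension at least 3: two elements of order 2 of SL_n(F) are conjugate in SL_n(F) exactly when the matrices a − 1 and b − 1 have the same rank (the rank of a − 1 is the dimension of the commutator space [V, a]). -/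
theorem result {F : Type*} [Field F] [Fintype F] [CharP F 2] {n : ℕ} (hn : 3 ≤ n) (a b : Matrix.SpecialLinearGroup (Fin n) F) (ha : orderOf a = 2) (hb : orderOf b = 2) :
    IsConj a b ↔ ((a : Matrix (Fin n) (Fin n) F) - 1).rank = ((b : Matrix (Fin n) (Fin n) F) - 1).rank := by
  constructor
  · intro h
    obtain ⟨c, hc⟩ := isConj_iff.mp h
    have hcc : (c : Matrix (Fin n) (Fin n) F) *
        ((c⁻¹ : Matrix.SpecialLinearGroup (Fin n) F) : Matrix (Fin n) (Fin n) F) = 1 := by
      rw [← Matrix.SpecialLinearGroup.coe_mul, mul_inv_cancel, Matrix.SpecialLinearGroup.coe_one]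
    have e : (b : Matrix (Fin n) (Fin n) F) - 1 = (c : Matrix (Fin n) (Fin n) F) *
        ((a : Matrix (Fin n) (Fin n) F) - 1) *
        ((c⁻¹ : Matrix.SpecialLinearGroup (Fin n) F) : Matrix (Fin n) (Fin n) F) := by
      rw [← hc, Matrix.SpecialLinearGroup.coe_mul, Matrix.SpecialLinearGroup.coe_mul, mul_sub,
        sub_mul, mul_one, hcc]
    rw [e, Matrix.rank_mul_eq_left_of_isUnit_det _ _
        (by rw [Matrix.SpecialLinearGroup.det_coe]; exact isUnit_one),
      Matrix.rank_mul_eq_right_of_isUnit_det _ _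
        (by rw [Matrix.SpecialLinearGroup.det_coe]; exact isUnit_one)]
  · intro h
    classical
    obtain ⟨N₁, hN₁⟩ : ∃ N₁, N₁ = Matrix.toLin' ((a : Matrix (Fin n) (Fin n) F) - 1) := ⟨_, rfl⟩
    obtain ⟨N₂, hN₂⟩ : ∃ N₂, N₂ = Matrix.toLin' ((b : Matrix (Fin n) (Fin n) F) - 1) := ⟨_, rfl⟩
    have h₁ : ∀ x, N₁ (N₁ x) = 0 := by
      intro x
      rw [hN₁, ← LinearMap.comp_apply, ← Matrix.toLin'_mul, sqz_of_order_two a ha, map_zero,
        LinearMap.zero_apply]
    have h₂ : ∀ x, N₂ (N₂ x) = 0 := by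
      intro x
      rw [hN₂, ← LinearMap.comp_apply, ← Matrix.toLin'_mul, sqz_of_order_two b hb, map_zero,
        LinearMap.zero_apply]
    have hr : Module.finrank F (LinearMap.range N₁) = Module.finrank F (LinearMap.range N₂) := by
      rw [hN₁, hN₂, Matrix.toLin'_apply', Matrix.toLin'_apply']
      exact h
    have hpos : 0 < Module.finrank F (LinearMap.range N₁) := by
      rw [Nat.pos_iff_ne_zero]
      intro h0
      have h1 : LinearMap.range N₁ = ⊥ := Submodule.finrank_eq_zero.mp h0
      have h2 : N₁ = 0 := LinearMap.range_eq_bot.mp h1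
      rw [hN₁] at h2
      have h3 : (a : Matrix (Fin n) (Fin n) F) - 1 = 0 := by
        have h5 := congrArg LinearMap.toMatrix' h2
        rwa [LinearMap.toMatrix'_toLin', map_zero] at h5
      have h4 : a = 1 := by
        apply Subtype.ext
        exact sub_eq_zero.mp h3
      rw [h4, orderOf_one] at ha
      exact absurd ha (by norm_num)
    have hsq : ∀ y : F, ∃ t : F, t * t = y := by
      intro y
      obtain ⟨t, ht⟩ := FiniteField.isSquare_of_char_two (ringChar.eq F 2) y
      exact ⟨t, ht.symm⟩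
    obtain ⟨g, hdet, hg⟩ := Cfsg.Agent.Lib.Helper3.sqz_equiv N₁ N₂ h₁ h₂ hr hpos hsq
    have hG : (LinearMap.toMatrix' g).det = 1 := by rw [LinearMap.det_toMatrix', hdet]
    have e : g ∘ₗ N₁ = N₂ ∘ₗ g := LinearMap.ext hg
    have e2 : LinearMap.toMatrix' g * ((a : Matrix (Fin n) (Fin n) F) - 1) =
        ((b : Matrix (Fin n) (Fin n) F) - 1) * LinearMap.toMatrix' g := by
      have h5 := congrArg LinearMap.toMatrix' e
      rwa [LinearMap.toMatrix'_comp, LinearMap.toMatrix'_comp, hN₁, hN₂,
        LinearMap.toMatrix'_toLin', LinearMap.toMatrix'_toLin'] at h5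
    have e3 : LinearMap.toMatrix' g * (a : Matrix (Fin n) (Fin n) F) =
        (b : Matrix (Fin n) (Fin n) F) * LinearMap.toMatrix' g := by
      rw [mul_sub, sub_mul, mul_one, one_mul] at e2
      exact sub_left_inj.mp e2
    rw [isConj_iff]
    obtain ⟨c, hc⟩ : ∃ c : Matrix.SpecialLinearGroup (Fin n) F,
        (c : Matrix (Fin n) (Fin n) F) = LinearMap.toMatrix' g := ⟨⟨LinearMap.toMatrix' g, hG⟩, rfl⟩
    refine ⟨c, ?_⟩
    rw [mul_inv_eq_iff_eq_mul]
    apply Subtype.ext
    show (c : Matrix (Fin n) (Fin n) F) * (a : Matrix (Fin n) (Fin n) F) =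
      (b : Matrix (Fin n) (Fin n) F) * (c : Matrix (Fin n) (Fin n) F)
    rw [hc]
    exact e3


end Cfsg.Agent.S2162
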