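import Cfsg.Statements.S2163
import Mathlib

set_option autoImplicit false
open Cfsg

namespace Cfsg.Agent.S2163

/-- Over a finite field of characteristic two and for n ≥ 3: for every ℓ with 1 ≤ ℓ and 2ℓ ≤ n, the matrix j_ℓ that is the identity plus the entries 1 in positions (n − ℓ + i, i) for i < ℓ (an identity block of size ℓ in the lower left corner) lies in SL_n(F), has order 2, and j_ℓ − 1 has rank ℓ. Together with the conjugacy criterion by rank, these matrices represent the conjugacy classes of involutions of SL_n(F). -/
theorem result {F : Type*} [Field F] [Fintype F] [CharP F 2] {n : ℕ} (hn : 3 ≤ n) (ℓ : ℕ) (h1 : 1 ≤ ℓ) (h2 : 2 * ℓ ≤ n) :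
    ∃ a : Matrix.SpecialLinearGroup (Fin n) F, (a : Matrix (Fin n) (Fin n) F) = 1 + Matrix.of (fun i j : Fin n => if j.val < ℓ ∧ i.val = j.val + (n - ℓ) then (1 : F) else 0) ∧ orderOf a = 2 ∧ ((a : Matrix (Fin n) (Fin n) F) - 1).rank = ℓ := by
  classical
  have hnl : ℓ ≤ n - ℓ := by omega
  let σ : Fin ℓ → Fin n := fun k => ⟨k.val + (n - ℓ), by omega⟩
  let τ : Fin ℓ → Fin n := fun k => ⟨k.val, by omega⟩
  set E : Matrix (Fin n) (Fin n) F :=
    Matrix.of (fun i j : Fin n => if j.val < ℓ ∧ i.val = j.val + (n - ℓ) then (1 : F) else 0) with hE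
  let B : Matrix (Fin n) (Fin ℓ) F := Matrix.of (fun i k => if i = σ k then (1 : F) else 0)
  let C : Matrix (Fin ℓ) (Fin n) F := Matrix.of (fun k j => if j = τ k then (1 : F) else 0)
  let D : Matrix (Fin ℓ) (Fin n) F := Matrix.of (fun k i => if i = σ k then (1 : F) else 0)
  let C' : Matrix (Fin n) (Fin ℓ) F := Matrix.of (fun j k => if j = τ k then (1 : F) else 0)
  have hBC : E = B * C := by
    ext i j
    simp only [hE, Matrix.of_apply, Matrix.mul_apply, B, C]
    by_cases hj : j.val < ℓ
    · rw [Finset.sum_eq_single (⟨j.val, hj⟩ : Fin ℓ)]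
      · have h1 : j = τ ⟨j.val, hj⟩ := Fin.ext rfl
        have h2 : (i = σ ⟨j.val, hj⟩) ↔ i.val = j.val + (n - ℓ) := by
          constructor
          · intro h; rw [h]
          · intro h; exact Fin.ext h
        simp only [hj, true_and, if_pos h1, mul_one]
        by_cases h3 : i.val = j.val + (n - ℓ)
        · rw [if_pos h3, if_pos (h2.mpr h3)]
        · rw [if_neg h3, if_neg (fun h => h3 (h2.mp h))]
      · intro k _ hk
        have : j ≠ τ k := by
          intro h
          apply hk
          apply Fin.ext
          have := congrArg Fin.val h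
          simp only [τ] at this
          exact this.symm
        rw [if_neg this, mul_zero]
      · intro h; exact absurd (Finset.mem_univ _) h
    · have : ∀ k : Fin ℓ, j ≠ τ k := by
        intro k h
        apply hj
        have := congrArg Fin.val h
        simp only [τ] at this
        rw [this]; exact k.2
      simp only [hj, false_and, if_false]
      symm
      apply Finset.sum_eq_zero
      intro k _
      rw [if_neg (this k), mul_zero]
  have hDE : D * E = C := by
    ext k j
    simp only [hE, Matrix.of_apply, Matrix.mul_apply, D, C]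
    rw [Finset.sum_eq_single (σ k)]
    · simp only [if_true, one_mul]
      have h2 : (j.val < ℓ ∧ (σ k).val = j.val + (n - ℓ)) ↔ j = τ k := by
        constructor
        · rintro ⟨_, h⟩
          apply Fin.ext
          simp only [σ, τ] at h ⊢
          omega
        · intro h
          rw [h]
          simp only [σ, τ]
          exact ⟨k.2, trivial⟩
      by_cases h3 : j = τ k
      · rw [if_pos h3, if_pos (h2.mpr h3)]
      · rw [if_neg h3, if_neg (fun h => h3 (h2.mp h))]
    · intro i _ hi
      rw [if_neg hi, zero_mul]
    · intro h; exact absurd (Finset.mem_univ _) h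
  have hCC' : C * C' = 1 := by
    ext k k'
    simp only [Matrix.of_apply, Matrix.mul_apply, C, C', Matrix.one_apply]
    rw [Finset.sum_eq_single (τ k)]
    · simp only [if_true, one_mul]
      have h2 : τ k = τ k' ↔ k = k' := by
        constructor
        · intro h
          apply Fin.ext
          have := congrArg Fin.val h
          simpa [τ] using this
        · intro h; rw [h]
      by_cases h3 : k = k'
      · rw [if_pos h3, if_pos (h2.mpr h3)]
      · rw [if_neg h3, if_neg (fun h => h3 (h2.mp h))]
    · intro j _ hj
      rw [if_neg hj, zero_mul]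
    · intro h; exact absurd (Finset.mem_univ _) h
  have hCB : C * B = 0 := by
    ext k k'
    simp only [Matrix.of_apply, Matrix.mul_apply, C, B, Matrix.zero_apply]
    apply Finset.sum_eq_zero
    intro j _
    by_cases h1 : j = τ k
    · have h2 : j ≠ σ k' := by
        intro h
        rw [h1] at h
        have := congrArg Fin.val h
        simp only [σ, τ] at this
        have := k.2
        omega
      rw [if_neg h2, mul_zero]
    · rw [if_neg h1, zero_mul]
  have hEE : E * E = 0 := by
    rw [hBC]
    calc B * C * (B * C) = B * (C * B) * C := by simp only [Matrix.mul_assoc]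
      _ = 0 := by rw [hCB]; simp
  have hrank : E.rank = ℓ := by
    apply le_antisymm
    · calc E.rank = (B * C).rank := by rw [hBC]
        _ ≤ C.rank := Matrix.rank_mul_le_right B C
        _ ≤ Fintype.card (Fin ℓ) := Matrix.rank_le_card_height C
        _ = ℓ := Fintype.card_fin ℓ
    · calc ℓ = Fintype.card (Fin ℓ) := (Fintype.card_fin ℓ).symm
        _ = (1 : Matrix (Fin ℓ) (Fin ℓ) F).rank := (Matrix.rank_one).symm
        _ = (C * C').rank := by rw [hCC']
        _ ≤ C.rank := Matrix.rank_mul_le_left C C'
        _ = (D * E).rank := by rw [hDE]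
        _ ≤ E.rank := Matrix.rank_mul_le_right D E
  have hdet : (1 + E).det = 1 := by
    rw [Matrix.det_of_isLowerTriangular]
    · apply Finset.prod_eq_one
      intro i _
      simp only [Matrix.add_apply, Matrix.one_apply_eq, hE, Matrix.of_apply]
      rw [if_neg (by omega), add_zero]
    · intro i j hij
      have hij' : i < j := hij
      simp only [Matrix.add_apply, hE, Matrix.of_apply]
      rw [Matrix.one_apply_ne (ne_of_lt hij'), if_neg (by
        have : i.val < j.val := hij'
        omega), add_zero]
  let a : Matrix.SpecialLinearGroup (Fin n) F := ⟨1 + E, hdet⟩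
  have ha : (a : Matrix (Fin n) (Fin n) F) = 1 + E := rfl
  refine ⟨a, ha, ?_, ?_⟩
  · have hsq : a ^ 2 = 1 := by
      apply Matrix.SpecialLinearGroup.ext
      intro i j
      rw [Matrix.SpecialLinearGroup.coe_pow, Matrix.SpecialLinearGroup.coe_one, ha]
      have h0 : (1 + E) ^ 2 = (1 : Matrix (Fin n) (Fin n) F) := by
        rw [pow_two, add_mul, mul_add, mul_add, hEE, Matrix.one_mul, Matrix.mul_one, Matrix.one_mul, add_zero]
        have : E + E = 0 := by
          ext i j
          simp only [Matrix.add_apply, Matrix.zero_apply]
          exact CharTwo.add_self_eq_zero _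
        rw [add_assoc, this, add_zero]
      rw [h0]
    have hne : a ≠ 1 := by
      intro h
      have h1 : (a : Matrix (Fin n) (Fin n) F) = 1 := by rw [h]; rfl
      rw [ha] at h1
      have h2 : E = 0 := by simpa using h1
      rw [h2, Matrix.rank_zero] at hrank
      omega
    exact orderOf_eq_prime hsq hne
  · rw [ha, add_sub_cancel_left]
    exact hrank

end Cfsg.Agent.S2163
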