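import Cfsg.Statements.S2165
import Mathlib

set_option autoImplicit false
open Cfsg

namespace Cfsg.Agent.S2165

/-- In SU_n(q), q even, n ≥ 3 (matrices of determinant 1 over the field with q² elements preserving Σ u_i v_i^q): for every ℓ with 1 ≤ ℓ and 2ℓ ≤ n, the permutation matrix of the involution of {0, …, n−1} exchanging i and n − ℓ + i for each i < ℓ lies in SU_n(q), has order 2, and differs from the identity by a matrix of rank ℓ. So every rank between 1 and n/2 occurs for involutions of SU_n(q). -/
theorem result {F : Type*} [Field F] [Fintype F] [CharP F 2] {n q : ℕ} (hF : Fintype.card F = q ^ 2) (hn : 3 ≤ n) (ℓ : ℕ) (h1 : 1 ≤ ℓ) (h2 : 2 * ℓ ≤ n) :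
    ∃ a : ↥(Cfsg.SU n F q), (((a : Matrix.SpecialLinearGroup (Fin n) F) : Matrix (Fin n) (Fin n) F) = Matrix.of (fun i j : Fin n => if (j.val < ℓ ∧ i.val = j.val + (n - ℓ)) ∨ (i.val < ℓ ∧ j.val = i.val + (n - ℓ)) ∨ (i = j ∧ ℓ ≤ i.val ∧ i.val < n - ℓ) then (1 : F) else 0)) ∧ orderOf a = 2 ∧ ((((a : Matrix.SpecialLinearGroup (Fin n) F) : Matrix (Fin n) (Fin n) F)) - 1).rank = ℓ := by
  classical
  have hnl : ℓ ≤ n - ℓ := by omega
  let σ : Fin n → Fin n := fun i =>
    if h : i.val < ℓ then ⟨i.val + (n - ℓ), by omega⟩
    else if h' : n - ℓ ≤ i.val then ⟨i.val - (n - ℓ), by omega⟩ else i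
  have hσval : ∀ i : Fin n, (σ i).val = if i.val < ℓ then i.val + (n - ℓ)
      else if n - ℓ ≤ i.val then i.val - (n - ℓ) else i.val := by
    intro i
    simp only [σ]
    split_ifs <;> rfl
  have hσσ : ∀ i, σ (σ i) = i := by
    intro i
    apply Fin.ext
    rw [hσval (σ i), hσval i]
    have := i.2
    split_ifs <;> omega
  let τ : Fin ℓ → Fin n := fun k => ⟨k.val, by omega⟩
  let σ' : Fin ℓ → Fin n := fun k => ⟨k.val + (n - ℓ), by omega⟩
  have hστ : ∀ k, σ (τ k) = σ' k := by
    intro k
    apply Fin.ext
    rw [hσval]
    simp only [τ, σ']
    have := k.2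
    split_ifs <;> omega
  have hσσ' : ∀ k, σ (σ' k) = τ k := by
    intro k
    rw [← hστ, hσσ]
  set M : Matrix (Fin n) (Fin n) F := Matrix.of (fun i j : Fin n =>
    if (j.val < ℓ ∧ i.val = j.val + (n - ℓ)) ∨ (i.val < ℓ ∧ j.val = i.val + (n - ℓ)) ∨
      (i = j ∧ ℓ ≤ i.val ∧ i.val < n - ℓ) then (1 : F) else 0) with hM
  have hMσ : ∀ i j, M i j = if j = σ i then 1 else 0 := by
    intro i j
    simp only [hM, Matrix.of_apply]
    have hiff : ((j.val < ℓ ∧ i.val = j.val + (n - ℓ)) ∨ (i.val < ℓ ∧ j.val = i.val + (n - ℓ)) ∨
        (i = j ∧ ℓ ≤ i.val ∧ i.val < n - ℓ)) ↔ j = σ i := by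
      simp only [Fin.ext_iff]
      rw [hσval i]
      have := i.2
      have := j.2
      split_ifs <;> omega
    by_cases h : j = σ i
    · rw [if_pos h, if_pos (hiff.mpr h)]
    · rw [if_neg h, if_neg (fun h' => h (hiff.mp h'))]
  have hmulVec : ∀ (u : Fin n → F) (i : Fin n), (M.mulVec u) i = u (σ i) := by
    intro u i
    show ∑ j, M i j * u j = u (σ i)
    rw [Finset.sum_eq_single (σ i)]
    · rw [hMσ, if_pos rfl, one_mul]
    · intro j _ hj
      rw [hMσ, if_neg hj, zero_mul]
    · intro h; exact absurd (Finset.mem_univ _) h
  have hMM : M * M = 1 := by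
    ext i k
    rw [Matrix.mul_apply, Finset.sum_eq_single (σ i)]
    · rw [hMσ i (σ i), if_pos rfl, one_mul, hMσ, hσσ, Matrix.one_apply]
      by_cases h : i = k
      · rw [if_pos h, if_pos h.symm]
      · rw [if_neg h, if_neg (fun h' => h h'.symm)]
    · intro j _ hj
      rw [hMσ i j, if_neg hj, zero_mul]
    · intro h; exact absurd (Finset.mem_univ _) h
  have hdet : M.det = 1 := by
    have h1 : M.det * M.det = 1 := by rw [← Matrix.det_mul, hMM, Matrix.det_one]
    have h2 : (M.det + 1) * (M.det + 1) = 0 := by
      have e : (M.det + 1) * (M.det + 1) = M.det * M.det + (M.det + M.det) + 1 := by ring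
      rw [e, h1, CharTwo.add_self_eq_zero, add_zero, CharTwo.add_self_eq_zero]
    have h3 : M.det + 1 = 0 := mul_self_eq_zero.mp h2
    have h4 : M.det = M.det + 1 + 1 := by rw [add_assoc, CharTwo.add_self_eq_zero, add_zero]
    rw [h4, h3, zero_add]
  let a : Matrix.SpecialLinearGroup (Fin n) F := ⟨M, hdet⟩
  have ha : (a : Matrix (Fin n) (Fin n) F) = M := rfl
  have haSU : a ∈ Cfsg.SU n F q := by
    intro u v
    have e : (Cfsg.slToMat n F) a = M := rfl
    rw [e]
    unfold Cfsg.hermForm
    simp only [hmulVec]
    exact Equiv.sum_comp (Function.Involutive.toPerm σ hσσ) (fun i => u i * v i ^ q)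
  have hrank : (M - 1).rank = ℓ := by
    have hT : ∀ i j, (M - 1) i j = (if j = σ i then (1 : F) else 0) - (if i = j then 1 else 0) := by
      intro i j
      rw [Matrix.sub_apply, hMσ, Matrix.one_apply]
    apply le_antisymm
    · let B' : Matrix (Fin n) (Fin ℓ) F :=
        Matrix.of (fun i k => (if i = τ k then (1 : F) else 0) - (if i = σ' k then 1 else 0))
      have hfac : M - 1 = B' * (M - 1).submatrix τ id := by
        ext i j
        rw [Matrix.mul_apply]
        simp only [B', Matrix.of_apply, Matrix.submatrix_apply, id]
        by_cases hi1 : i.val < ℓ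
        · have hi : i = τ ⟨i.val, hi1⟩ := Fin.ext rfl
          rw [Finset.sum_eq_single (⟨i.val, hi1⟩ : Fin ℓ)]
          · have hne : i ≠ σ' ⟨i.val, hi1⟩ := by
              intro h
              have := congrArg Fin.val h
              simp only [σ'] at this
              omega
            rw [if_pos hi, if_neg hne, sub_zero, one_mul, ← hi]
          · intro k _ hk
            have h1 : i ≠ τ k := by
              intro h
              apply hk
              apply Fin.ext
              have := congrArg Fin.val h
              simp only [τ] at this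
              exact this.symm
            have h2 : i ≠ σ' k := by
              intro h
              have := congrArg Fin.val h
              simp only [σ'] at this
              omega
            rw [if_neg h1, if_neg h2, sub_zero, zero_mul]
          · intro h; exact absurd (Finset.mem_univ _) h
        · by_cases hi2 : n - ℓ ≤ i.val
          · have hk0 : i.val - (n - ℓ) < ℓ := by have := i.2; omega
            have hi : i = σ' ⟨i.val - (n - ℓ), hk0⟩ := by
              apply Fin.ext
              simp only [σ']
              omega
            rw [Finset.sum_eq_single (⟨i.val - (n - ℓ), hk0⟩ : Fin ℓ)]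
            · have hne : i ≠ τ ⟨i.val - (n - ℓ), hk0⟩ := by
                intro h
                have := congrArg Fin.val h
                simp only [τ] at this
                omega
              rw [if_neg hne, if_pos hi, zero_sub, neg_one_mul]
              rw [hT, hT, hστ]
              have e1 : σ i = τ ⟨i.val - (n - ℓ), hk0⟩ := by
                rw [← hσσ', ← hi]
              rw [e1, ← hi]
              have e2 : (τ ⟨i.val - (n - ℓ), hk0⟩ = j) ↔ (j = τ ⟨i.val - (n - ℓ), hk0⟩) := eq_comm
              have e3 : (i = j) ↔ (j = i) := eq_comm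
              simp only [e2, e3]
              ring
            · intro k _ hk
              have h1 : i ≠ τ k := by
                intro h
                have := congrArg Fin.val h
                simp only [τ] at this
                have := k.2
                omega
              have h2 : i ≠ σ' k := by
                intro h
                apply hk
                apply Fin.ext
                have := congrArg Fin.val h
                simp only [σ'] at this
                simp only
                omega
              rw [if_neg h1, if_neg h2, sub_zero, zero_mul]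
            · intro h; exact absurd (Finset.mem_univ _) h
          · -- middle row
            have hσi : σ i = i := by
              apply Fin.ext
              rw [hσval]
              rw [if_neg hi1, if_neg hi2]
            rw [hT, hσi]
            have e3 : (i = j) ↔ (j = i) := eq_comm
            simp only [e3, sub_self]
            symm
            apply Finset.sum_eq_zero
            intro k _
            have h1 : i ≠ τ k := by
              intro h
              have := congrArg Fin.val h
              simp only [τ] at this
              have := k.2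
              omega
            have h2 : i ≠ σ' k := by
              intro h
              have := congrArg Fin.val h
              simp only [σ'] at this
              omega
            rw [if_neg h1, if_neg h2, sub_zero, zero_mul]
      calc (M - 1).rank = (B' * (M - 1).submatrix τ id).rank := by rw [← hfac]
        _ ≤ ((M - 1).submatrix τ id).rank := Matrix.rank_mul_le_right _ _
        _ ≤ Fintype.card (Fin ℓ) := Matrix.rank_le_card_height _
        _ = ℓ := Fintype.card_fin ℓ
    · have hsub : (M - 1).submatrix τ σ' = (1 : Matrix (Fin ℓ) (Fin ℓ) F) := by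
        ext k k'
        rw [Matrix.submatrix_apply, hT, hστ, Matrix.one_apply]
        have h1 : τ k ≠ σ' k' := by
          intro h
          have := congrArg Fin.val h
          simp only [τ, σ'] at this
          have := k.2
          omega
        rw [if_neg h1, sub_zero]
        have h2 : σ' k' = σ' k ↔ k = k' := by
          constructor
          · intro h
            apply Fin.ext
            have := congrArg Fin.val h
            simp only [σ'] at this
            omega
          · intro h; rw [h]
        by_cases h3 : k = k'
        · rw [if_pos h3, if_pos (h2.mpr h3)]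
        · rw [if_neg h3, if_neg (fun h => h3 (h2.mp h))]
      calc ℓ = Fintype.card (Fin ℓ) := (Fintype.card_fin ℓ).symm
        _ = (1 : Matrix (Fin ℓ) (Fin ℓ) F).rank := (Matrix.rank_one).symm
        _ = ((M - 1).submatrix τ σ').rank := by rw [hsub]
        _ ≤ (M - 1).rank := Matrix.rank_submatrix_le _ _ _
  refine ⟨⟨a, haSU⟩, ha, ?_, ?_⟩
  · have hsq : (⟨a, haSU⟩ : ↥(Cfsg.SU n F q)) ^ 2 = 1 := by
      apply Subtype.ext
      apply Matrix.SpecialLinearGroup.ext
      intro i j
      show ((a ^ 2 : Matrix.SpecialLinearGroup (Fin n) F) : Matrix (Fin n) (Fin n) F) i j = _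
      rw [Matrix.SpecialLinearGroup.coe_pow, ha, pow_two, hMM]
      rfl
    have hne : (⟨a, haSU⟩ : ↥(Cfsg.SU n F q)) ≠ 1 := by
      intro h
      have h1 : a = 1 := congrArg Subtype.val h
      have h2 : (a : Matrix (Fin n) (Fin n) F) = 1 := by rw [h1]; rfl
      rw [ha] at h2
      rw [h2, sub_self, Matrix.rank_zero] at hrank
      omega
    exact orderOf_eq_prime hsq hne
  · rw [ha]; exact hrank

end Cfsg.Agent.S2165
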