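import Cfsg.Statements.S2167
import Mathlib
import Cfsg.Agent.Lib.Helper3.AltEven

set_option autoImplicit false
open Cfsg

namespace Cfsg.Agent.S2167

/-- For an involution t of the symplectic group Sp_{2m}(F), m ≥ 2, F a finite field of characteristic two (matrices A with A J Aᵀ = J acting on column vectors, alternating form f(u, v) = u ⬝ (J v)): the set V(t) of vectors v with f(v, t v) = 0 has either q^{2m} or q^{2m−1} elements, q the order of F (it is a subspace of codimension at most 1), and if it is the whole space then t − 1 has even rank. -/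
theorem result {F : Type*} [Field F] [Fintype F] [CharP F 2] {m : ℕ} (hm : 2 ≤ m) (a : ↥(Matrix.symplecticGroup (Fin m) F)) (ha : orderOf a = 2) :
    (Nat.card {v : Fin m ⊕ Fin m → F // Cfsg.sympForm m F v (Matrix.mulVec ((a : ↥(Matrix.symplecticGroup (Fin m) F)) : Matrix (Fin m ⊕ Fin m) (Fin m ⊕ Fin m) F) v) = 0} = Fintype.card F ^ (2 * m) ∨ Nat.card {v : Fin m ⊕ Fin m → F // Cfsg.sympForm m F v (Matrix.mulVec ((a : ↥(Matrix.symplecticGroup (Fin m) F)) : Matrix (Fin m ⊕ Fin m) (Fin m ⊕ Fin m) F) v) = 0} * Fintype.card F = Fintype.card F ^ (2 * m)) ∧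
    ((∀ v : Fin m ⊕ Fin m → F, Cfsg.sympForm m F v (Matrix.mulVec ((a : ↥(Matrix.symplecticGroup (Fin m) F)) : Matrix (Fin m ⊕ Fin m) (Fin m ⊕ Fin m) F) v) = 0) → Even (((a : ↥(Matrix.symplecticGroup (Fin m) F)) : Matrix (Fin m ⊕ Fin m) (Fin m ⊕ Fin m) F) - 1).rank) := by
  classical
  obtain ⟨A, hA⟩ : ∃ A : Matrix (Fin m ⊕ Fin m) (Fin m ⊕ Fin m) F,
      A = (a : Matrix (Fin m ⊕ Fin m) (Fin m ⊕ Fin m) F) := ⟨_, rfl⟩
  rw [← hA]
  obtain ⟨J, hJ⟩ : ∃ J, J = Matrix.J (Fin m) F := ⟨_, rfl⟩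
  have hform : ∀ u v : Fin m ⊕ Fin m → F, Cfsg.sympForm m F u v = u ⬝ᵥ J.mulVec v := by
    intro u v
    rw [hJ]
    rfl
  simp only [hform]
  have hA2 : A * A = 1 := by
    have h1 : a * a = 1 := by
      have h0 := pow_orderOf_eq_one a
      rwa [ha, pow_two] at h0
    have h2 := congrArg (fun x : ↥(Matrix.symplecticGroup (Fin m) F) =>
      (x : Matrix (Fin m ⊕ Fin m) (Fin m ⊕ Fin m) F)) h1
    rw [hA]
    exact h2
  have hSp : A.transpose * J * A = J := by
    rw [hA, hJ]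
    exact SymplecticGroup.mem_iff'.mp a.2
  have hJalt : ∀ v : Fin m ⊕ Fin m → F, v ⬝ᵥ J.mulVec v = 0 := by
    intro v
    rw [hJ, Matrix.J, Matrix.fromBlocks_mulVec]
    simp only [Matrix.zero_mulVec, Matrix.neg_mulVec, Matrix.one_mulVec, zero_add, add_zero]
    rw [dotProduct, Fintype.sum_sum_type]
    simp only [Sum.elim_inl, Sum.elim_inr, Pi.neg_apply, Function.comp_apply, mul_neg]
    rw [Finset.sum_neg_distrib, neg_add_eq_zero]
    exact Finset.sum_congr rfl (fun i _ => mul_comm _ _)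
  have hJskew : ∀ u v : Fin m ⊕ Fin m → F, u ⬝ᵥ J.mulVec v = -(v ⬝ᵥ J.mulVec u) := by
    intro u v
    have h1 := hJalt (u + v)
    rw [Matrix.mulVec_add, add_dotProduct, dotProduct_add, dotProduct_add, hJalt u, hJalt v,
      zero_add, add_zero] at h1
    exact eq_neg_of_add_eq_zero_left h1
  have hinv : ∀ u v : Fin m ⊕ Fin m → F,
      (A.mulVec u) ⬝ᵥ J.mulVec (A.mulVec v) = u ⬝ᵥ J.mulVec v := by
    intro u v
    rw [← Matrix.vecMul_transpose A u, ← Matrix.dotProduct_mulVec, Matrix.mulVec_mulVec,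
      Matrix.mulVec_mulVec, hSp]
  obtain ⟨Q, hQ⟩ : ∃ Q : (Fin m ⊕ Fin m → F) → F,
      Q = fun v => v ⬝ᵥ J.mulVec (A.mulVec v) := ⟨_, rfl⟩
  have hQapp : ∀ v, Q v = v ⬝ᵥ J.mulVec (A.mulVec v) := fun v => by rw [hQ]
  have hcross : ∀ x y : Fin m ⊕ Fin m → F,
      x ⬝ᵥ J.mulVec (A.mulVec y) + y ⬝ᵥ J.mulVec (A.mulVec x) = 0 := by
    intro x y
    have h1 := hinv y (A.mulVec x)
    rw [Matrix.mulVec_mulVec x A A, hA2, Matrix.one_mulVec] at h1
    rw [← h1, hJskew (A.mulVec y) x, add_neg_cancel]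
  have hQadd : ∀ x y, Q (x + y) = Q x + Q y := by
    intro x y
    rw [hQapp, hQapp, hQapp, Matrix.mulVec_add, Matrix.mulVec_add, add_dotProduct,
      dotProduct_add, dotProduct_add]
    have h1 := hcross x y
    linear_combination h1
  have hQsmul : ∀ (c : F) (x : Fin m ⊕ Fin m → F), Q (c • x) = c * c * Q x := by
    intro c x
    rw [hQapp, hQapp, Matrix.mulVec_smul, Matrix.mulVec_smul, smul_dotProduct, dotProduct_smul,
      smul_eq_mul, smul_eq_mul, mul_assoc]
  obtain ⟨Q', hQ'⟩ : ∃ Q' : (Fin m ⊕ Fin m → F) →+ F, ∀ v, Q' v = Q v :=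
    ⟨AddMonoidHom.mk' Q hQadd, fun v => rfl⟩
  have hsq : ∀ i, ∃ t : F, t * t = Q (Pi.single i 1) := fun i => by
    obtain ⟨t, ht⟩ := FiniteField.isSquare_of_char_two (ringChar.eq F 2) (Q (Pi.single i 1))
    exact ⟨t, ht.symm⟩
  choose s hs using hsq
  have hQs : ∀ x, Q x = (s ⬝ᵥ x) ^ 2 := by
    intro x
    have hx : x = ∑ i, Pi.single i (x i) := (Finset.univ_sum_single x).symm
    have h1 : Q x = ∑ i, Q (Pi.single i (x i)) := by
      conv_lhs => rw [hx]
      rw [← hQ', map_sum]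
      exact Finset.sum_congr rfl (fun i _ => hQ' _)
    have h2 : ∀ i, Q (Pi.single i (x i)) = (s i * x i) ^ 2 := by
      intro i
      have e : (Pi.single i (x i) : Fin m ⊕ Fin m → F) = x i • Pi.single i (1 : F) := by
        ext j
        by_cases hj : j = i
        · subst hj
          simp
        · simp [hj]
      rw [e, hQsmul, ← hs i]
      ring
    rw [h1, dotProduct, sum_pow_char 2]
    exact Finset.sum_congr rfl (fun i _ => h2 i)
  obtain ⟨ℓ, hℓ⟩ : ∃ ℓ : (Fin m ⊕ Fin m → F) →ₗ[F] F, ∀ x, ℓ x = s ⬝ᵥ x :=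
    ⟨{ toFun := fun x => s ⬝ᵥ x
       map_add' := fun x y => dotProduct_add s x y
       map_smul' := fun c x => by simp [dotProduct_smul] }, fun x => rfl⟩
  have hmem : ∀ v : Fin m ⊕ Fin m → F,
      (v ⬝ᵥ J.mulVec (A.mulVec v) = 0) ↔ v ∈ LinearMap.ker ℓ := by
    intro v
    rw [LinearMap.mem_ker, hℓ, ← hQapp, hQs]
    exact pow_eq_zero_iff (by norm_num)
  have hcardV : Nat.card (Fin m ⊕ Fin m → F) = Fintype.card F ^ (2 * m) := by
    rw [Nat.card_eq_fintype_card, Fintype.card_fun, Fintype.card_sum, Fintype.card_fin, two_mul]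
  have hcardK : Nat.card {v : Fin m ⊕ Fin m → F // v ⬝ᵥ J.mulVec (A.mulVec v) = 0} =
      Nat.card (LinearMap.ker ℓ) := Nat.card_congr (Equiv.subtypeEquivRight hmem)
  refine ⟨?_, ?_⟩
  · rw [hcardK]
    by_cases hs0 : ℓ = 0
    · left
      rw [hs0, LinearMap.ker_zero, ← hcardV]
      exact Nat.card_congr (Submodule.topEquiv (R := F) (M := Fin m ⊕ Fin m → F)).toEquiv
    · right
      have hsurj : Function.Surjective ℓ := by
        obtain ⟨x, hx⟩ : ∃ x, ℓ x ≠ 0 := by
          by_contra hcon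
          push Not at hcon
          exact hs0 (LinearMap.ext hcon)
        intro c
        exact ⟨(c / ℓ x) • x, by rw [map_smul, smul_eq_mul, div_mul_cancel₀ c hx]⟩
      have h1 := Submodule.card_eq_card_quotient_mul_card (LinearMap.ker ℓ)
      have h2 : Nat.card ((Fin m ⊕ Fin m → F) ⧸ LinearMap.ker ℓ) = Fintype.card F := by
        rw [← Nat.card_eq_fintype_card]
        exact Nat.card_congr (ℓ.quotKerEquivOfSurjective hsurj).toEquiv
      rw [h2, hcardV] at h1
      exact h1.symm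
  · intro hall
    have hrank : (A - 1).rank = (J * (A - 1)).rank := by
      rw [Matrix.rank_mul_eq_right_of_isUnit_det]
      rw [hJ]
      exact IsUnit.of_mul_eq_one _ (Matrix.J_det_mul_J_det (Fin m) F)
    rw [hrank]
    apply Cfsg.Agent.Lib.Helper3.alt_matrix_even_rank
    intro x
    rw [← Matrix.mulVec_mulVec, Matrix.sub_mulVec, Matrix.one_mulVec, Matrix.mulVec_sub,
      dotProduct_sub, hall x, hJalt x, sub_zero]


end Cfsg.Agent.S2167
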