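import Cfsg.Statements.S2171
import Mathlib
import Cfsg.Statements.S2171
import Cfsg.Agent.S2169
import Cfsg.Agent.S2562

set_option autoImplicit false
open Cfsg
open scoped commutatorElement

namespace Cfsg.Agent.S2171

open Cfsg.Agent.S0750 Cfsg.Agent.S0794 Cfsg.Agent.S0792 Cfsg.Agent.S0786 Cfsg.Agent.S2635 Cfsg.Agent.S0789 Cfsg.Agent.S0832 Cfsg.Agent.S0831 Cfsg.Agent.S2629 Cfsg.Agent.S2169 Cfsg.Agent.S2562 Matrix Module
open scoped commutatorElement

def sgm71 (k : ℕ) : (Fin k ⊕ Fin k) ⊕ Fin 2 ≃ Fin (k + k + 2) :=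
  (Equiv.sumCongr finSumFinEquiv (Equiv.refl (Fin 2))).trans finSumFinEquiv

/-- For the quadratic form Σ x_i y_i + (z₁² + c z₁ z₂ + d z₂²) in dimension 2m with anisotropic binary part over a finite field F of characteristic two, m ≥ 4 (minus type): an element of order 2 of the full isometry group O lies in the commutator subgroup Ω of O exactly when t − 1 has even rank. -/
theorem result {F : Type*} [Field F] [Fintype F] [CharP F 2] {m : ℕ} (hm : 4 ≤ m) (c d : F) (hcd : ∀ z₁ z₂ : F, z₁ ^ 2 + c * z₁ * z₂ + d * z₂ ^ 2 = 0 → z₁ = 0 ∧ z₂ = 0) (t : ↥(Cfsg.isometryGroup F (Cfsg.quadFormMinus (m - 1) F c d))) (ht : orderOf t = 2) :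
    t ∈ Cfsg.Omega F (Cfsg.quadFormMinus (m - 1) F c d) ↔ Even ((((t : ↥(Cfsg.isometryGroup F (Cfsg.quadFormMinus (m - 1) F c d))) : GL ((Fin (m - 1) ⊕ Fin (m - 1)) ⊕ Fin 2) F) : Matrix ((Fin (m - 1) ⊕ Fin (m - 1)) ⊕ Fin 2) ((Fin (m - 1) ⊕ Fin (m - 1)) ⊕ Fin 2) F) - 1).rank := by
  have h' : Fintype.card F ≠ 2 ∨ (m - 1) + (m - 1) + 2 ≠ 4 := Or.inr (by omega)
  have h2 : (2 : F) = 0 := CharTwo.two_eq_zero
  have hc : c ≠ 0 := by
    intro hc0
    obtain ⟨e, he⟩ := isSquare_of_charTwo' d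
    have h1 := hcd e 1 (by
      rw [hc0, he]
      linear_combination (e * e) * h2)
    exact one_ne_zero h1.2
  have hab : 4 * d - c ^ 2 ≠ 0 := by
    have h4 : (4 : F) = 0 := by
      have : (4 : F) = 2 * 2 := by norm_num
      rw [this, h2, mul_zero]
    rw [h4, zero_mul, zero_sub]
    exact neg_ne_zero.mpr (pow_ne_zero 2 hc)
  exact omega_rank69 (by omega) h' (sgm71 (m - 1)) (qm62 F (m - 1) c d) (qm_nondeg62 (m - 1) c d hab)
    (Cfsg.quadFormMinus (m - 1) F c d) (fun v => qm_apply62 (m - 1) c d v) t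

end Cfsg.Agent.S2171
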