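import Cfsg.Statements.S2268
import Cfsg.Agent.Lib.Helper3.SylowFusion

set_option autoImplicit false
open Cfsg

namespace Cfsg.Agent.S2268

/-- Let G be a finite group with an abelian Sylow p-subgroup P and let Q ≤ P. Then N_G(Q) = (N_G(Q) ∩ N_G(P))·C_G(Q), so that N_G(Q)/C_G(Q) is a homomorphic image of the subgroup (N_G(Q) ∩ N_G(P))/C_G(P) of N_G(P)/C_G(P); in particular the order of N_G(Q)/C_G(Q) divides the order of N_G(P)/C_G(P). -/
theorem result {G : Type*} [Group G] [Finite G] {p : ℕ} [Fact p.Prime]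
    (P : Sylow p G) (hP : IsMulCommutative (P : Subgroup G)) (Q : Subgroup G) (hQ : Q ≤ (P : Subgroup G)) :
    Subgroup.normalizer (Q : Set G) =
      (Subgroup.normalizer (Q : Set G) ⊓ Subgroup.normalizer ((P : Subgroup G) : Set G)) ⊔ Subgroup.centralizer (Q : Set G) ∧
    ((Subgroup.centralizer (Q : Set G)).subgroupOf (Subgroup.normalizer (Q : Set G))).index ∣ ((Subgroup.centralizer ((P : Subgroup G) : Set G)).subgroupOf (Subgroup.normalizer ((P : Subgroup G) : Set G))).index := by
  have hPCQ : (P : Subgroup G) ≤ Subgroup.centralizer (Q : Set G) := by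
    intro x hx
    rw [Subgroup.mem_centralizer_iff]
    intro q hq
    have := hP.is_comm.comm (⟨q, hQ hq⟩ : (P : Subgroup G)) ⟨x, hx⟩
    exact congrArg Subtype.val this
  have hCQNQ : Subgroup.centralizer (Q : Set G) ≤ Subgroup.normalizer (Q : Set G) :=
    Subgroup.centralizer_le_normalizer _
  have hNQn : Subgroup.normalizer (Q : Set G) ≤
      Subgroup.normalizer (Subgroup.centralizer (Q : Set G) : Set G) :=
    Cfsg.Agent.Lib.Helper3.normalizer_le_normalizer_centralizer _
  have hsup : (Subgroup.normalizer (Q : Set G) ⊓ Subgroup.normalizer ((P : Subgroup G) : Set G)) ⊔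
      Subgroup.centralizer (Q : Set G) = Subgroup.normalizer (Q : Set G) := by
    apply le_antisymm
    · exact sup_le inf_le_left hCQNQ
    · intro x hx
      have h2 : ((x • P : Sylow p G) : Subgroup G) ≤ Subgroup.centralizer (Q : Set G) := by
        intro y hy
        rw [Cfsg.Agent.Lib.Helper3.mem_smul_sylow_iff] at hy
        have h3 := hPCQ hy
        have h4 : x * (x⁻¹ * y * x) * x⁻¹ ∈ Subgroup.centralizer (Q : Set G) :=
          (Subgroup.mem_normalizer_iff.mp (hNQn hx) (x⁻¹ * y * x)).mp h3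
        have e : x * (x⁻¹ * y * x) * x⁻¹ = y := by group
        rw [e] at h4
        exact h4
      obtain ⟨c, hc, hcx⟩ := Cfsg.Agent.Lib.Helper3.sylow_conj_in_subgroup P _ x hPCQ h2
      have e : x = c⁻¹ * (c * x) := by group
      rw [e]
      exact Subgroup.mul_mem _ (Subgroup.mem_sup_right (inv_mem hc))
        (Subgroup.mem_sup_left (Subgroup.mem_inf.mpr
          ⟨Subgroup.mul_mem _ (hCQNQ hc) hx, hcx⟩))
  refine ⟨hsup.symm, ?_⟩
  show (Subgroup.centralizer (Q : Set G)).relIndex (Subgroup.normalizer (Q : Set G)) ∣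
    (Subgroup.centralizer ((P : Subgroup G) : Set G)).relIndex
      (Subgroup.normalizer ((P : Subgroup G) : Set G))
  rw [Cfsg.Agent.Lib.Helper3.relIndex_eq_of_sup_eq _ _ _ inf_le_left hCQNQ hNQn hsup]
  rw [← Subgroup.inf_relIndex_right]
  have hCPD : Subgroup.centralizer ((P : Subgroup G) : Set G) ≤ Subgroup.centralizer (Q : Set G) ⊓
      (Subgroup.normalizer (Q : Set G) ⊓ Subgroup.normalizer ((P : Subgroup G) : Set G)) := by
    have h1 : Subgroup.centralizer ((P : Subgroup G) : Set G) ≤ Subgroup.centralizer (Q : Set G) :=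
      Subgroup.centralizer_le hQ
    exact le_inf h1 (le_inf (h1.trans hCQNQ) (Subgroup.centralizer_le_normalizer _))
  have h3 := Subgroup.relIndex_mul_relIndex _ _ _ hCPD
    (inf_le_right : Subgroup.centralizer (Q : Set G) ⊓
      (Subgroup.normalizer (Q : Set G) ⊓ Subgroup.normalizer ((P : Subgroup G) : Set G)) ≤ _)
  have h4 := Subgroup.relIndex_mul_relIndex _ _ _ (hCPD.trans inf_le_right)
    (inf_le_right : Subgroup.normalizer (Q : Set G) ⊓
      Subgroup.normalizer ((P : Subgroup G) : Set G) ≤ _)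
  rw [← h4, ← h3]
  exact dvd_mul_of_dvd_left (dvd_mul_left _ _) _

end Cfsg.Agent.S2268
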