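import Cfsg.Statements.S2270
import Mathlib

set_option autoImplicit false
open Cfsg

namespace Cfsg.Agent.S2270

theorem odd_pow_conj {G : Type*} [Group G] (x m : G) (h : m⁻¹ * x * m = x⁻¹) (k : ℕ) :
    (m ^ (2 * k + 1))⁻¹ * x * m ^ (2 * k + 1) = x⁻¹ := by
  induction k with
  | zero => simpa using h
  | succ k ih =>
    have e : m ^ (2 * (k + 1) + 1) = m ^ (2 * k + 1) * m * m := by
      rw [show 2 * (k + 1) + 1 = (2 * k + 1) + 1 + 1 by ring, pow_succ, pow_succ]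
    rw [e]
    calc (m ^ (2 * k + 1) * m * m)⁻¹ * x * (m ^ (2 * k + 1) * m * m)
        = m⁻¹ * (m⁻¹ * ((m ^ (2 * k + 1))⁻¹ * x * m ^ (2 * k + 1)) * m) * m := by group
      _ = m⁻¹ * (m⁻¹ * x⁻¹ * m) * m := by rw [ih]
      _ = m⁻¹ * (m⁻¹ * x * m)⁻¹ * m := by group
      _ = m⁻¹ * x * m := by
          have h' : (m⁻¹ * x * m)⁻¹ = x := by rw [h, inv_inv]
          rw [h']
      _ = x⁻¹ := h

theorem even_index_of_inverting {G : Type*} [Group G] [Finite G] {p : ℕ} [Fact p.Prime]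
    (P : Subgroup G) (hPp : IsPGroup p P) (hp : p ≠ 2) (x : G) (hxP : x ∈ P) (hx1 : x ≠ 1)
    (m : G) (hm : m ∈ Subgroup.normalizer (P : Set G)) (hm2 : m⁻¹ * x * m = x⁻¹) :
    2 ∣ ((Subgroup.centralizer (P : Set G)).subgroupOf (Subgroup.normalizer (P : Set G))).index := by
  have hpp : p.Prime := Fact.out
  rw [Subgroup.index_eq_card]
  set q : ↥(Subgroup.normalizer (P : Set G)) ⧸
      (Subgroup.centralizer (P : Set G)).subgroupOf (Subgroup.normalizer (P : Set G)) :=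
    QuotientGroup.mk ⟨m, hm⟩ with hq
  refine dvd_trans ?_ (orderOf_dvd_natCard q)
  by_contra hodd
  have hodd' : orderOf q % 2 = 1 := by omega
  obtain ⟨k, hk⟩ : ∃ k, orderOf q = 2 * k + 1 := ⟨orderOf q / 2, by omega⟩
  have h1 : q ^ (2 * k + 1) = 1 := by rw [← hk]; exact pow_orderOf_eq_one q
  rw [hq, ← QuotientGroup.mk_pow, QuotientGroup.eq_one_iff, Subgroup.mem_subgroupOf] at h1
  have h2 : m ^ (2 * k + 1) ∈ Subgroup.centralizer (P : Set G) := by
    simpa using h1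
  have h3 : x * m ^ (2 * k + 1) = m ^ (2 * k + 1) * x := Subgroup.mem_centralizer_iff.mp h2 x hxP
  have h4 := odd_pow_conj x m hm2 k
  have h5 : x = x⁻¹ := by
    rw [← h4, mul_assoc, h3]; group
  have h6 : x ^ 2 = 1 := by
    rw [pow_two]; nth_rewrite 2 [h5]; exact mul_inv_cancel x
  obtain ⟨j, hj⟩ := hPp ⟨x, hxP⟩
  have hj' : x ^ (p ^ j) = 1 := by
    have := congrArg Subtype.val hj
    simpa using this
  have h7 : orderOf x ∣ 2 := orderOf_dvd_of_pow_eq_one h6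
  have h8 : orderOf x ∣ p ^ j := orderOf_dvd_of_pow_eq_one hj'
  have hcop : Nat.Coprime 2 (p ^ j) := by
    apply Nat.Coprime.pow_right
    rw [Nat.coprime_primes Nat.prime_two hpp]
    exact fun h => hp h.symm
  have h9 : orderOf x = 1 := Nat.eq_one_of_dvd_coprimes hcop h7 h8
  exact hx1 (orderOf_eq_one_iff.mp h9)

/-- Let n ≥ 3, p an odd prime, and P an abelian Sylow p-subgroup of the symmetric group S_n (with p dividing n!, so that P ≠ 1). Then N(P)/C(P) has even order. -/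
theorem result (n : ℕ) (hn : 3 ≤ n) {p : ℕ} [Fact p.Prime] (hp : p ≠ 2) (hpn : p ≤ n)
    (P : Sylow p (Equiv.Perm (Fin n))) (hP : IsMulCommutative (P : Subgroup (Equiv.Perm (Fin n)))) :
    2 ∣ ((Subgroup.centralizer ((P : Subgroup (Equiv.Perm (Fin n))) : Set (Equiv.Perm (Fin n)))).subgroupOf (Subgroup.normalizer ((P : Subgroup (Equiv.Perm (Fin n))) : Set (Equiv.Perm (Fin n))))).index := by
  classical
  have hpp : p.Prime := Fact.out
  have hdvd : p ∣ Nat.card (Equiv.Perm (Fin n)) := by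
    rw [Nat.card_perm, Nat.card_eq_fintype_card, Fintype.card_fin]
    exact Nat.dvd_factorial hpp.pos hpn
  have hne : (P : Subgroup (Equiv.Perm (Fin n))) ≠ ⊥ := P.ne_bot_of_dvd_card hdvd
  obtain ⟨⟨x, hxP⟩, hx1'⟩ := (Subgroup.ne_bot_iff_exists_ne_one.mp hne)
  have hx1 : x ≠ 1 := fun h => hx1' (Subtype.ext h)
  -- x is conjugate to its inverse
  have hconj : IsConj x x⁻¹ := by
    rw [Equiv.Perm.isConj_iff_cycleType_eq, Equiv.Perm.cycleType_inv]
  obtain ⟨c, hc⟩ := isConj_iff.mp hconj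
  haveI : IsMulCommutative P := hP
  obtain ⟨m, hm, hm2⟩ := P.conj_eq_normalizer_conj_of_mem x c⁻¹ hxP (by
    rw [inv_inv, hc]; exact inv_mem hxP)
  rw [inv_inv, hc] at hm2
  -- m ∈ N(P) with m⁻¹ x m = x⁻¹
  exact Cfsg.Agent.S2270.even_index_of_inverting (P : Subgroup (Equiv.Perm (Fin n))) P.isPGroup' hp x hxP hx1 m hm hm2.symm

end Cfsg.Agent.S2270
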