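import Cfsg.Statements.S2352
import Mathlib

set_option autoImplicit false
open Cfsg

namespace Cfsg.Agent.S2352

/-- A non-trivial law holds in only finitely many alternating groups: for every non-trivial element w of the free group on countably many generators there is N such that for all n ≥ N some substitution of elements of the alternating group of degree n into w is not the identity. -/
theorem result (w : FreeGroup ℕ) (hw : w ≠ 1) :
    ∃ N : ℕ, ∀ n : ℕ, N ≤ n → ∃ f : ℕ → alternatingGroup (Fin n), FreeGroup.lift f w ≠ 1 := by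
  classical
  obtain ⟨L, hL⟩ : ∃ L : List (ℕ × Bool), FreeGroup.mk L = w := ⟨w.toWord, FreeGroup.mk_toWord⟩
  obtain ⟨T, hT⟩ : ∃ T : Finset (FreeGroup ℕ), T = (L.tails.map FreeGroup.mk).toFinset := ⟨_, rfl⟩
  have hmem : ∀ t : List (ℕ × Bool), t <:+ L → FreeGroup.mk t ∈ T := by
    intro t ht
    rw [hT, List.mem_toFinset, List.mem_map]
    exact ⟨t, (List.mem_tails t L).2 ht, rfl⟩
  have hext : ∀ i : ℕ, ∃ g : ↥T ≃ ↥T, ∀ s : ↥T, FreeGroup.of i * s.1 ∈ T →
      ((g s : ↥T) : FreeGroup ℕ) = FreeGroup.of i * s.1 := by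
    intro i
    obtain ⟨g, hg⟩ := Finset.exists_equiv_extend_of_card_eq (α := ↥T) (t := T) (Fintype.card_coe T)
      (s := Finset.univ.filter (fun s : ↥T => FreeGroup.of i * s.1 ∈ T))
      (f := fun s : ↥T => FreeGroup.of i * s.1)
      (by
        intro x hx
        rw [Finset.mem_image] at hx
        obtain ⟨s, hs, rfl⟩ := hx
        exact (Finset.mem_filter.1 hs).2)
      (by
        intro a _ b _ hab
        exact Subtype.ext (mul_left_cancel hab))
    exact ⟨g, fun s hs => hg s (Finset.mem_filter.2 ⟨Finset.mem_univ _, hs⟩)⟩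
  choose π hπ using hext
  refine ⟨2 * Fintype.card ↥T, ?_⟩
  intro n hn
  have hcard : Fintype.card ((↥T ⊕ ↥T) ⊕ Fin (n - 2 * Fintype.card ↥T)) = n := by
    simp only [Fintype.card_sum, Fintype.card_fin]; omega
  obtain ⟨e⟩ : Nonempty (((↥T ⊕ ↥T) ⊕ Fin (n - 2 * Fintype.card ↥T)) ≃ Fin n) :=
    ⟨Fintype.equivFinOfCardEq hcard⟩
  obtain ⟨ψ, hψ⟩ : ∃ ψ : Equiv.Perm ↥T → Equiv.Perm (Fin n), ψ = fun σ =>
      e.permCongr (Equiv.Perm.sumCongr (Equiv.Perm.sumCongr σ σ)
        (1 : Equiv.Perm (Fin (n - 2 * Fintype.card ↥T)))) := ⟨_, rfl⟩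
  have hψap : ∀ σ s, ψ σ (e (Sum.inl (Sum.inl s))) = e (Sum.inl (Sum.inl (σ s))) := by
    intro σ s
    rw [hψ]
    simp [Equiv.permCongr_apply]
  have hψev : ∀ σ, ψ σ ∈ alternatingGroup (Fin n) := by
    intro σ
    rw [Equiv.Perm.mem_alternatingGroup, hψ]
    simp only
    rw [Equiv.Perm.sign_permCongr, Equiv.Perm.sign_sumCongr, Equiv.Perm.sign_sumCongr,
      Equiv.Perm.sign_one, mul_one, Int.units_mul_self]
  obtain ⟨f, hf⟩ : ∃ f : ℕ → alternatingGroup (Fin n), f = fun i => ⟨ψ (π i), hψev _⟩ := ⟨_, rfl⟩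
  refine ⟨f, ?_⟩
  have hfi : ∀ i, ((f i : alternatingGroup (Fin n)) : Equiv.Perm (Fin n)) = ψ (π i) := by
    intro i; rw [hf]
  have key : ∀ t : List (ℕ × Bool), ∀ ht : t <:+ L,
      ((FreeGroup.lift f (FreeGroup.mk t) : alternatingGroup (Fin n)) : Equiv.Perm (Fin n))
        (e (Sum.inl (Sum.inl ⟨FreeGroup.mk [], hmem [] (List.nil_suffix)⟩))) =
        e (Sum.inl (Sum.inl ⟨FreeGroup.mk t, hmem t ht⟩)) := by
    intro t
    induction t with
    | nil =>
      intro ht
      have h0 : FreeGroup.lift f (FreeGroup.mk ([] : List (ℕ × Bool))) = 1 := by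
        rw [← FreeGroup.one_eq_mk, map_one]
      rw [h0]; rfl
    | cons a t' ih =>
      intro ht
      have ht' : t' <:+ L := (List.suffix_cons a t').trans ht
      have hsplit : FreeGroup.mk (a :: t') = FreeGroup.mk [a] * FreeGroup.mk t' := rfl
      have hstep : ((FreeGroup.lift f (FreeGroup.mk (a :: t')) : alternatingGroup (Fin n)) :
          Equiv.Perm (Fin n)) (e (Sum.inl (Sum.inl ⟨FreeGroup.mk [], hmem [] (List.nil_suffix)⟩))) =
          ((FreeGroup.lift f (FreeGroup.mk [a]) : alternatingGroup (Fin n)) : Equiv.Perm (Fin n))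
            (e (Sum.inl (Sum.inl ⟨FreeGroup.mk t', hmem t' ht'⟩))) := by
        rw [hsplit, map_mul, Subgroup.coe_mul, Equiv.Perm.mul_apply, ih ht']
      rw [hstep]
      obtain ⟨i, b⟩ := a
      cases b with
      | false =>
        have h1 : FreeGroup.lift f (FreeGroup.mk [(i, false)]) = (f i)⁻¹ := by
          simp [FreeGroup.lift_mk]
        have hinv : FreeGroup.mk ((i, false) :: t') = (FreeGroup.of i)⁻¹ * FreeGroup.mk t' := rfl
        have hmul : FreeGroup.of i * FreeGroup.mk ((i, false) :: t') = FreeGroup.mk t' := by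
          rw [hinv, mul_inv_cancel_left]
        rw [h1, Subgroup.coe_inv, Equiv.Perm.inv_eq_iff_eq, hfi, hψap]
        refine congrArg (fun z => e (Sum.inl (Sum.inl z))) (Subtype.ext ?_)
        rw [hπ i ⟨_, hmem _ ht⟩ (by rw [hmul]; exact hmem _ ht')]
        exact hmul.symm
      | true =>
        have h1 : FreeGroup.lift f (FreeGroup.mk [(i, true)]) = f i := by
          simp [FreeGroup.lift_mk]
        have hmul : FreeGroup.of i * FreeGroup.mk t' = FreeGroup.mk ((i, true) :: t') := rfl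
        rw [h1, hfi, hψap]
        refine congrArg (fun z => e (Sum.inl (Sum.inl z))) (Subtype.ext ?_)
        rw [hπ i ⟨_, hmem _ ht'⟩ (by rw [hmul]; exact hmem _ ht)]
        exact hmul
  intro hcontra
  have h1 := key L (List.suffix_refl L)
  have h2 : FreeGroup.lift f (FreeGroup.mk L) = 1 := by rw [hL]; exact hcontra
  rw [h2] at h1
  have h3 := Sum.inl.inj (Sum.inl.inj (e.injective h1))
  have h4 : FreeGroup.mk [] = FreeGroup.mk L := congrArg Subtype.val h3
  exact hw (by rw [← hL, ← h4]; rfl)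

end Cfsg.Agent.S2352
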