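import Cfsg.Statements.S2467
import Mathlib

set_option autoImplicit false
open Cfsg
open scoped commutatorElement

namespace Cfsg.Agent.S2467

theorem prime_pow_dvd_multiset_lcm (p k : ℕ) (hp : p.Prime) (s : Multiset ℕ) (h : p ^ k ∣ s.lcm) (hk : 0 < k) :
    ∃ c ∈ s, p ^ k ∣ c := by
  induction s using Multiset.induction_on with
  | empty =>
    exfalso
    rw [Multiset.lcm_zero] at h
    have h1 := Nat.le_of_dvd Nat.one_pos h
    have h2 : 1 < p ^ k := Nat.one_lt_pow hk.ne' hp.one_lt
    omega
  | cons a s ih =>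
    rw [Multiset.lcm_cons] at h
    have h' : p ^ k ∣ Nat.lcm a s.lcm := h
    by_cases ha : a = 0
    · exact ⟨a, Multiset.mem_cons_self a s, by rw [ha]; exact dvd_zero _⟩
    by_cases hs : s.lcm = 0
    · rw [Multiset.lcm_eq_zero_iff] at hs
      exact ⟨0, Multiset.mem_cons_of_mem hs, dvd_zero _⟩
    have hl : Nat.lcm a s.lcm ≠ 0 := Nat.lcm_ne_zero ha hs
    rw [hp.pow_dvd_iff_le_factorization hl, Nat.factorization_lcm ha hs] at h'
    simp only [Finsupp.sup_apply] at h'
    rcases le_sup_iff.mp h' with h1 | h1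
    · exact ⟨a, Multiset.mem_cons_self a s, (hp.pow_dvd_iff_le_factorization ha).mpr h1⟩
    · obtain ⟨c, hc, hd⟩ := ih ((hp.pow_dvd_iff_le_factorization hs).mpr h1)
      exact ⟨c, Multiset.mem_cons_of_mem hc, hd⟩

theorem mem_range_orderOf_alt_iff (n k : ℕ) :
    k ∈ Set.range (orderOf : alternatingGroup (Fin n) → ℕ) ↔
      ∃ σ : Equiv.Perm (Fin n), Equiv.Perm.sign σ = 1 ∧ orderOf σ = k := by
  constructor
  · rintro ⟨σ, rfl⟩
    exact ⟨σ.1, Equiv.Perm.mem_alternatingGroup.mp σ.2, (Subgroup.orderOf_coe σ)⟩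
  · rintro ⟨σ, hσ, rfl⟩
    exact ⟨⟨σ, Equiv.Perm.mem_alternatingGroup.mpr hσ⟩, (Subgroup.orderOf_coe _).symm⟩


/-- Adjacency of 2 and an odd prime in the prime graph of the alternating groups: let r be an odd prime at most n, with n ≥ 4. The alternating group of degree n has an element of order 2r if and only if r + 4 ≤ n. -/
theorem result (n r : ℕ) (hn : 4 ≤ n) (hr : r.Prime) (hr2 : r ≠ 2) (hrn : r ≤ n) :
    (2 * r ∈ Set.range (orderOf : alternatingGroup (Fin n) → ℕ)) ↔ r + 4 ≤ n := by
  rw [mem_range_orderOf_alt_iff]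
  have hro : Odd r := hr.odd_of_ne_two hr2
  have hr3 : 3 ≤ r := by
    have := hr.two_le
    omega
  constructor
  · rintro ⟨σ, hσ, hord⟩
    have hsign := Equiv.Perm.sign_of_cycleType σ
    rw [hσ] at hsign
    have heven : Even (σ.cycleType.sum + Multiset.card σ.cycleType) := by
      by_contra hne
      rw [Nat.not_even_iff_odd] at hne
      rw [hne.neg_one_pow] at hsign
      exact absurd hsign (by decide)
    rw [← Equiv.Perm.lcm_cycleType] at hord
    have h1 : r ^ 1 ∣ σ.cycleType.lcm := by rw [hord, pow_one]; exact dvd_mul_left r 2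
    have h2 : 2 ^ 1 ∣ σ.cycleType.lcm := by rw [hord, pow_one]; exact dvd_mul_right 2 r
    obtain ⟨c₁, hc₁, hd₁⟩ := prime_pow_dvd_multiset_lcm r 1 hr _ h1 Nat.one_pos
    obtain ⟨c₂, hc₂, hd₂⟩ := prime_pow_dvd_multiset_lcm 2 1 Nat.prime_two _ h2 Nat.one_pos
    rw [pow_one] at hd₁ hd₂
    have hsum := Equiv.Perm.sum_cycleType_le σ
    rw [Fintype.card_fin] at hsum
    have htwo : ∀ c ∈ σ.cycleType, 2 ≤ c := fun c hc => Equiv.Perm.two_le_of_mem_cycleType hc
    have hc₁2 := htwo c₁ hc₁
    have hc₂2 := htwo c₂ hc₂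
    have h5 : σ.cycleType = c₁ ::ₘ σ.cycleType.erase c₁ := (Multiset.cons_erase hc₁).symm
    by_cases hcc : c₁ = c₂
    · subst hcc
      have hcop : Nat.Coprime 2 r := (Nat.coprime_primes Nat.prime_two hr).mpr (Ne.symm hr2)
      have hd : 2 * r ∣ c₁ := hcop.mul_dvd_of_dvd_of_dvd hd₂ hd₁
      have h3 := Nat.le_of_dvd (by omega) hd
      by_cases hrest : σ.cycleType.erase c₁ = 0
      · exfalso
        rw [h5, hrest] at heven
        simp at heven
        obtain ⟨t, ht⟩ := hd
        rw [ht] at heven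
        have : ¬ Even (2 * r * t + 1) := by
          rw [Nat.not_even_iff_odd]
          exact ⟨r * t, by ring⟩
        exact this heven
      · obtain ⟨c₃, hc₃⟩ := Multiset.exists_mem_of_ne_zero hrest
        have h6 : c₃ ≤ (σ.cycleType.erase c₁).sum := Multiset.le_sum_of_mem hc₃
        have h7 := htwo c₃ (Multiset.mem_of_mem_erase hc₃)
        have h8 : σ.cycleType.sum = c₁ + (σ.cycleType.erase c₁).sum := by
          conv_lhs => rw [h5]
          rw [Multiset.sum_cons]
        omega
    · have h3 : c₂ ∈ σ.cycleType.erase c₁ := (Multiset.mem_erase_of_ne (Ne.symm hcc)).mpr hc₂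
      have h9 : σ.cycleType.erase c₁ = c₂ ::ₘ (σ.cycleType.erase c₁).erase c₂ := (Multiset.cons_erase h3).symm
      have h6 := Nat.le_of_dvd (by omega) hd₁
      by_cases hrest : (σ.cycleType.erase c₁).erase c₂ = 0
      · by_cases hc₁e : Even c₁
        · obtain ⟨t, ht⟩ := hc₁e
          have hcop : Nat.Coprime 2 r := (Nat.coprime_primes Nat.prime_two hr).mpr (Ne.symm hr2)
          have hd : 2 * r ∣ c₁ := hcop.mul_dvd_of_dvd_of_dvd ⟨t, by omega⟩ hd₁
          have h3' := Nat.le_of_dvd (by omega) hd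
          have h8 : σ.cycleType.sum = c₁ + c₂ := by
            conv_lhs => rw [h5, h9, hrest]
            simp
          omega
        · exfalso
          rw [Nat.not_even_iff_odd] at hc₁e
          have h8 : σ.cycleType.sum + Multiset.card σ.cycleType = c₁ + c₂ + 2 := by
            conv_lhs => rw [h5, h9, hrest]
            simp
          rw [h8] at heven
          obtain ⟨t, ht⟩ := hd₂
          obtain ⟨u, hu⟩ := hc₁e
          rw [Nat.even_iff] at heven
          omega
      · obtain ⟨c₃, hc₃⟩ := Multiset.exists_mem_of_ne_zero hrest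
        have h7 := htwo c₃ (Multiset.mem_of_mem_erase (Multiset.mem_of_mem_erase hc₃))
        have h10 : c₃ ≤ ((σ.cycleType.erase c₁).erase c₂).sum := Multiset.le_sum_of_mem hc₃
        have h8 : σ.cycleType.sum = c₁ + (c₂ + ((σ.cycleType.erase c₁).erase c₂).sum) := by
          conv_lhs => rw [h5, h9]
          rw [Multiset.sum_cons, Multiset.sum_cons]
        omega
  · intro h
    have hex : ∃ g : Equiv.Perm (Fin n), g.cycleType = ({r, 2, 2} : Multiset ℕ) := by
      rw [Equiv.Perm.exists_with_cycleType_iff]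
      constructor
      · simp [Fintype.card_fin]; omega
      · intro a ha
        simp at ha
        rcases ha with rfl | rfl
        · exact hr.two_le
        · exact le_rfl
    obtain ⟨g, hg⟩ := hex
    refine ⟨g, ?_, ?_⟩
    · rw [Equiv.Perm.sign_of_cycleType, hg]
      have : Even (Multiset.sum ({r, 2, 2} : Multiset ℕ) + Multiset.card ({r, 2, 2} : Multiset ℕ)) := by
        simp
        obtain ⟨t, ht⟩ := hro
        rw [Nat.even_iff]
        omega
      exact this.neg_one_pow
    · rw [← Equiv.Perm.lcm_cycleType, hg]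
      have hcop : Nat.Coprime r 2 := (Nat.coprime_primes hr Nat.prime_two).mpr hr2
      simp
      have : lcm r 2 = Nat.lcm r 2 := rfl
      rw [this, hcop.lcm_eq_mul, mul_comm]

end Cfsg.Agent.S2467
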