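import Cfsg.Statements.S2471
import Mathlib

set_option autoImplicit false
open Cfsg
open scoped commutatorElement

namespace Cfsg.Agent.S2471

theorem ch2 {F : Type*} [Field F] (M : Matrix (Fin 2) (Fin 2) F) (hdet : M.det = 1) :
    M * M = (M 0 0 + M 1 1) • M - 1 := by
  rw [Matrix.det_fin_two] at hdet
  ext i j
  fin_cases i <;> fin_cases j <;>
    simp [Matrix.mul_apply, Fin.sum_univ_two] <;>
    first | ring1 | linear_combination (-1 : F) * hdet

theorem key {F : Type*} [Field F] (p : ℕ) [Fact p.Prime] [CharP F p] (hp : p ≠ 2)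
    (M : Matrix (Fin 2) (Fin 2) F) (hdet : M.det = 1) (r : F) (hr : r = 1 ∨ r = -1)
    (h2p : M ^ (2 * p) = r • (1 : Matrix (Fin 2) (Fin 2) F)) :
    (∃ c : F, c ^ 2 = 1 ∧ M ^ p = c • (1 : Matrix (Fin 2) (Fin 2) F)) ∨
    (M ^ 2 = (-1 : F) • (1 : Matrix (Fin 2) (Fin 2) F)) := by
  have hpp : p.Prime := Fact.out
  have h2ne : (2 : F) ≠ 0 := by
    intro h
    have h2 : ((2 : ℕ) : F) = 0 := by exact_mod_cast h
    rw [CharP.cast_eq_zero_iff F p] at h2
    exact hp ((Nat.prime_dvd_prime_iff_eq hpp Nat.prime_two).mp h2)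
  have hch := ch2 M hdet
  set t := M 0 0 + M 1 1 with ht
  have hcomm : Commute (t • M) (1 : Matrix (Fin 2) (Fin 2) F) := Commute.one_right _
  have h1 : (M ^ p) ^ 2 = t ^ p • M ^ p - 1 := by
    rw [← pow_mul, mul_comm, pow_mul, sq, hch, sub_pow_char_of_commute p hcomm, one_pow, smul_pow]
  have h3 : t ^ p • M ^ p = (r + 1) • (1 : Matrix (Fin 2) (Fin 2) F) := by
    have : (M ^ p) ^ 2 = r • (1 : Matrix (Fin 2) (Fin 2) F) := by
      rw [← pow_mul, mul_comm, h2p]
    rw [this] at h1
    rw [add_smul, one_smul, h1]; abel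
  have hdetp : (M ^ p).det = 1 := by rw [Matrix.det_pow, hdet, one_pow]
  rcases hr with rfl | rfl
  · left
    have ht0 : t ^ p ≠ 0 := by
      intro h0
      rw [h0, zero_smul] at h3
      have := congrFun (congrFun h3 0) 0
      simp at this
      exact h2ne (by linear_combination -this)
    refine ⟨(1 + 1) / t ^ p, ?_, ?_⟩
    · have hM : M ^ p = ((1 + 1) / t ^ p) • (1 : Matrix (Fin 2) (Fin 2) F) := by
        rw [div_eq_inv_mul, mul_smul, ← h3, smul_smul, inv_mul_cancel₀ ht0, one_smul]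
      rw [hM, Matrix.det_smul, Matrix.det_one, Fintype.card_fin, mul_one] at hdetp
      exact hdetp
    · rw [div_eq_inv_mul, mul_smul, ← h3, smul_smul, inv_mul_cancel₀ ht0, one_smul]
  · right
    have ht0 : t ^ p = 0 := by
      rw [neg_add_cancel, zero_smul] at h3
      have hd := congrArg Matrix.det h3
      rw [Matrix.det_smul, hdetp, Fintype.card_fin, mul_one, Matrix.det_zero] at hd
      exact pow_eq_zero_iff (by norm_num) |>.mp hd
    have ht00 : t = 0 := pow_eq_zero_iff hpp.ne_zero |>.mp ht0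
    rw [sq, hch, ht00, zero_smul, zero_sub, neg_smul, one_smul]


/-- In PSL(2,q) with q odd, the characteristic p is isolated from 2 in the prime graph: for F a finite field of odd characteristic p with at least 5 elements, PSL(2,F) has no element of order 2p. -/
theorem result {F : Type*} [Field F] [Fintype F] (p : ℕ) [Fact p.Prime] [CharP F p] (hp : p ≠ 2) (h5 : 5 ≤ Fintype.card F) (g : Matrix.ProjectiveSpecialLinearGroup (Fin 2) F) :
    orderOf g ≠ 2 * p := by
  intro hord
  have hpp : p.Prime := Fact.out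
  obtain ⟨G, rfl⟩ := QuotientGroup.mk_surjective g
  have h1 : (QuotientGroup.mk G : Matrix.ProjectiveSpecialLinearGroup (Fin 2) F) ^ (2 * p) = 1 := by
    rw [← hord, pow_orderOf_eq_one]
  rw [← QuotientGroup.mk_pow, QuotientGroup.eq_one_iff] at h1
  obtain ⟨r, hr, hrs⟩ := Matrix.SpecialLinearGroup.mem_center_iff.mp h1
  have hr' : r = 1 ∨ r = -1 := by
    rw [Fintype.card_fin, sq] at hr
    exact mul_self_eq_one_iff.mp hr
  have h2p : (G : Matrix (Fin 2) (Fin 2) F) ^ (2 * p) = r • (1 : Matrix (Fin 2) (Fin 2) F) := by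
    rw [← Matrix.SpecialLinearGroup.coe_pow, ← hrs, Matrix.scalar_apply, Matrix.smul_one_eq_diagonal]
  rcases key p hp G.1 G.2 r hr' h2p with ⟨c, hc, hM⟩ | hM
  · have hcen : G ^ p ∈ Subgroup.center (Matrix.SpecialLinearGroup (Fin 2) F) := by
      rw [Matrix.SpecialLinearGroup.mem_center_iff]
      refine ⟨c, by rw [Fintype.card_fin]; exact hc, ?_⟩
      rw [Matrix.SpecialLinearGroup.coe_pow, Matrix.scalar_apply, ← Matrix.smul_one_eq_diagonal]
      exact hM.symm
    have h3 : (QuotientGroup.mk G : Matrix.ProjectiveSpecialLinearGroup (Fin 2) F) ^ p = 1 := by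
      rw [← QuotientGroup.mk_pow, QuotientGroup.eq_one_iff]; exact hcen
    have hd := orderOf_dvd_of_pow_eq_one h3
    rw [hord] at hd
    have := Nat.le_of_dvd hpp.pos hd
    have := hpp.two_le
    omega
  · have hcen : G ^ 2 ∈ Subgroup.center (Matrix.SpecialLinearGroup (Fin 2) F) := by
      rw [Matrix.SpecialLinearGroup.mem_center_iff]
      refine ⟨-1, by rw [Fintype.card_fin]; norm_num, ?_⟩
      rw [Matrix.SpecialLinearGroup.coe_pow, Matrix.scalar_apply, ← Matrix.smul_one_eq_diagonal]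
      exact hM.symm
    have h3 : (QuotientGroup.mk G : Matrix.ProjectiveSpecialLinearGroup (Fin 2) F) ^ 2 = 1 := by
      rw [← QuotientGroup.mk_pow, QuotientGroup.eq_one_iff]; exact hcen
    have hd := orderOf_dvd_of_pow_eq_one h3
    rw [hord] at hd
    have := Nat.le_of_dvd (by norm_num) hd
    have := hpp.two_le
    omega

end Cfsg.Agent.S2471
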