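import Cfsg.Statements.S2514
import Mathlib

set_option autoImplicit false
open Cfsg

namespace Cfsg.Agent.S2514

theorem ord_eq_of_pow_iff {A B : Type*} [Monoid A] [Monoid B] (x : A) (y : B)
    (h : ∀ n : ℕ, x ^ n = 1 ↔ y ^ n = 1) : orderOf x = orderOf y := by
  apply Nat.dvd_antisymm
  · rw [orderOf_dvd_iff_pow_eq_one, h]; exact pow_orderOf_eq_one y
  · rw [orderOf_dvd_iff_pow_eq_one, ← h]; exact pow_orderOf_eq_one x

theorem exists_ord_of_dvd {A : Type*} [Group A] [Finite A] (x : A) (n : ℕ)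
    (h : n ∣ orderOf x) : ∃ y : A, orderOf y = n :=
  ⟨x ^ (orderOf x / n), orderOf_pow_orderOf_div (orderOf_pos x).ne' h⟩

theorem exists_max_ord {A : Type*} [Group A] [Finite A] (x : A) :
    ∃ m, (m ∈ Set.range (orderOf : A → ℕ) ∧
      ∀ m' ∈ Set.range (orderOf : A → ℕ), m ∣ m' → m' = m) ∧ orderOf x ∣ m := by
  haveI : Nonempty {y : A // orderOf x ∣ orderOf y} := ⟨⟨x, dvd_rfl⟩⟩
  obtain ⟨y, hy⟩ := Finite.exists_max (fun y : {y : A // orderOf x ∣ orderOf y} => orderOf y.1)
  refine ⟨orderOf y.1, ⟨⟨y.1, rfl⟩, ?_⟩, y.2⟩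
  rintro _ ⟨z, rfl⟩ hdvd
  have h1 := hy ⟨z, dvd_trans y.2 hdvd⟩
  have h2 := Nat.le_of_dvd (orderOf_pos z) hdvd
  exact le_antisymm h1 h2

/-- For a finite group X write μ(X) for the set of element orders of X that are maximal under divisibility. Let G and H be finite groups and k ≥ 1 such that μ(H) ⊆ μ(G) and μ(G) has fewer than k elements outside μ(H). Then the direct product of k copies of G has the same set of element orders as the direct product of k − 1 copies of G with H. -/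
theorem result {G H : Type*} [Group G] [Finite G] [Group H] [Finite H] (k : ℕ) (hk : 1 ≤ k)
    (hsub : {n : ℕ | n ∈ Set.range (orderOf : H → ℕ) ∧ ∀ m ∈ Set.range (orderOf : H → ℕ), n ∣ m → m = n} ⊆ {n : ℕ | n ∈ Set.range (orderOf : G → ℕ) ∧ ∀ m ∈ Set.range (orderOf : G → ℕ), n ∣ m → m = n})
    (hfew : ({n : ℕ | n ∈ Set.range (orderOf : G → ℕ) ∧ ∀ m ∈ Set.range (orderOf : G → ℕ), n ∣ m → m = n} \ {n : ℕ | n ∈ Set.range (orderOf : H → ℕ) ∧ ∀ m ∈ Set.range (orderOf : H → ℕ), n ∣ m → m = n}).ncard < k) :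
    Set.range (orderOf : (Fin k → G) → ℕ) = Set.range (orderOf : (Fin (k - 1) → G) × H → ℕ) := by
  classical
  obtain ⟨k', rfl⟩ : ∃ k', k = k' + 1 := ⟨k - 1, by omega⟩
  show Set.range (orderOf : (Fin (k' + 1) → G) → ℕ)
    = Set.range (orderOf : (Fin k' → G) × H → ℕ)
  apply Set.eq_of_subset_of_subset
  · rintro _ ⟨f, rfl⟩
    choose m hm hdvd using fun i => exists_max_ord (f i)
    by_cases hcase : ∃ i, m i ∈ {n : ℕ | n ∈ Set.range (orderOf : H → ℕ) ∧
        ∀ m ∈ Set.range (orderOf : H → ℕ), n ∣ m → m = n}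
    · obtain ⟨i, hi⟩ := hcase
      obtain ⟨⟨h₀, hh₀⟩, -⟩ := hi
      obtain ⟨h, hh⟩ := exists_ord_of_dvd h₀ (orderOf (f i)) (by rw [hh₀]; exact hdvd i)
      refine ⟨(fun j => f (i.succAbove j), h), ?_⟩
      apply ord_eq_of_pow_iff
      intro n
      rw [Prod.ext_iff]
      simp only [Prod.pow_fst, Prod.pow_snd, Prod.fst_one, Prod.snd_one]
      rw [funext_iff, funext_iff, Fin.forall_iff_succAbove i]
      simp only [Pi.pow_apply, Pi.one_apply]
      rw [← orderOf_dvd_iff_pow_eq_one (x := h), hh, orderOf_dvd_iff_pow_eq_one]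
      exact and_comm
    · push Not at hcase
      have hD : ∀ i, m i ∈ {n : ℕ | n ∈ Set.range (orderOf : G → ℕ) ∧
          ∀ m ∈ Set.range (orderOf : G → ℕ), n ∣ m → m = n} \
          {n : ℕ | n ∈ Set.range (orderOf : H → ℕ) ∧
          ∀ m ∈ Set.range (orderOf : H → ℕ), n ∣ m → m = n} := fun i => ⟨hm i, hcase i⟩
      have hfin : ({n : ℕ | n ∈ Set.range (orderOf : G → ℕ) ∧
          ∀ m ∈ Set.range (orderOf : G → ℕ), n ∣ m → m = n} \
          {n : ℕ | n ∈ Set.range (orderOf : H → ℕ) ∧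
          ∀ m ∈ Set.range (orderOf : H → ℕ), n ∣ m → m = n}).Finite :=
        (Set.finite_range (orderOf : G → ℕ)).subset (fun n hn => hn.1.1)
      obtain ⟨i, j, hij, hmij⟩ : ∃ i j, i ≠ j ∧ m i = m j := by
        by_contra hcon
        push Not at hcon
        have hinj : Function.Injective m := fun a b hab =>
          by_contra (fun hne => hcon a b hne hab)
        have h1 := Set.ncard_le_ncard (s := Set.range m) (by rintro _ ⟨i, rfl⟩; exact hD i) hfin
        have h2 : (Set.range m).ncard = k' + 1 := by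
          rw [← Set.image_univ, Set.ncard_image_of_injective _ hinj, Set.ncard_univ, Nat.card_fin]
        omega
      obtain ⟨⟨g₀, hg₀⟩, -⟩ := hm i
      obtain ⟨g', hg'⟩ := exists_ord_of_dvd g₀ (Nat.lcm (orderOf (f i)) (orderOf (f j)))
        (by rw [hg₀]; exact Nat.lcm_dvd (hdvd i) (hmij ▸ hdvd j))
      refine ⟨(fun l => Function.update f i g' (j.succAbove l), 1), ?_⟩
      apply ord_eq_of_pow_iff
      intro n
      rw [Prod.ext_iff]
      simp only [Prod.pow_fst, Prod.pow_snd, Prod.fst_one, Prod.snd_one, one_pow, and_true]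
      rw [funext_iff, funext_iff]
      simp only [Pi.pow_apply, Pi.one_apply]
      have hg'n : g' ^ n = 1 ↔ f i ^ n = 1 ∧ f j ^ n = 1 := by
        rw [← orderOf_dvd_iff_pow_eq_one, hg', ← orderOf_dvd_iff_pow_eq_one,
          ← orderOf_dvd_iff_pow_eq_one]
        exact Nat.lcm_dvd_iff
      constructor
      · intro hP
        obtain ⟨l₀, hl₀⟩ := Fin.exists_succAbove_eq hij
        have h1 := hP l₀
        rw [hl₀, Function.update_self] at h1
        have h2 := hg'n.mp h1
        intro l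
        by_cases hlj : l = j
        · rw [hlj]; exact h2.2
        · by_cases hli : l = i
          · rw [hli]; exact h2.1
          · obtain ⟨l', hl'⟩ := Fin.exists_succAbove_eq hlj
            have h3 := hP l'
            rw [hl', Function.update_of_ne hli] at h3
            exact h3
      · intro hf l
        by_cases hli : j.succAbove l = i
        · rw [hli, Function.update_self]
          exact hg'n.mpr ⟨hf i, hf j⟩
        · rw [Function.update_of_ne hli]
          exact hf _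
  · rintro _ ⟨⟨f, h⟩, rfl⟩
    obtain ⟨m, ⟨hmH, hmdvd⟩⟩ := exists_max_ord h
    obtain ⟨⟨g₀, hg₀⟩, -⟩ := hsub hmH
    obtain ⟨g, hg⟩ := exists_ord_of_dvd g₀ (orderOf h) (by rw [hg₀]; exact hmdvd)
    refine ⟨Fin.cons g f, ?_⟩
    apply ord_eq_of_pow_iff
    intro n
    rw [Prod.ext_iff]
    simp only [Prod.pow_fst, Prod.pow_snd, Prod.fst_one, Prod.snd_one]
    rw [funext_iff, funext_iff, Fin.forall_fin_succ]
    simp only [Pi.pow_apply, Pi.one_apply, Fin.cons_zero, Fin.cons_succ]
    rw [← orderOf_dvd_iff_pow_eq_one (x := g), hg, orderOf_dvd_iff_pow_eq_one]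
    exact and_comm

end Cfsg.Agent.S2514
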