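import Cfsg.Statements.S2610
import Mathlib
import Cfsg.Statements.S2610
import Cfsg.Agent.S2609

set_option autoImplicit false
open Cfsg
open scoped commutatorElement

namespace Cfsg.Agent.S2610

open Cfsg.Agent.S0832 Cfsg.Agent.S2612 Cfsg.Agent.S0750 Cfsg.Agent.S0794 Cfsg.Agent.S0792 Cfsg.Agent.S0786 Cfsg.Agent.S2635 Cfsg.Agent.S0789 Cfsg.Agent.S2629 Cfsg.Agent.S2633 Cfsg.Agent.S2631 Cfsg.Agent.S2628 Cfsg.Agent.S2613 Cfsg.Agent.S2626 Cfsg.Agent.S2169 Cfsg.Agent.S2632 Cfsg.Agent.S2609 Matrix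
open scoped commutatorElement

theorem prod_fix10 {F : Type*} [Field F] {n : ℕ} (Q : QuadraticForm F (Fin n → F)) :
    ∀ (L : List (Fin n → F)) (x : Fin n → F), (∀ u ∈ L, QuadraticMap.polarBilin Q u x = 0) →
      (L.map (fun v => Cfsg.reflectionMatrix ⇑Q v)).prod *ᵥ x = x := by
  intro L
  induction L with
  | nil =>
    intro x _
    simp
  | cons u L ih =>
    intro x h
    rw [List.map_cons, List.prod_cons, ← Matrix.mulVec_mulVec, ih x (fun w hw => h w (List.mem_cons_of_mem _ hw)),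
      refl_fix92 Q u x (h u List.mem_cons_self)]

theorem prod_neg10 {F : Type*} [Field F] (h2 : (2 : F) ≠ 0) {n : ℕ} (Q : QuadraticForm F (Fin n → F)) :
    ∀ (L : List (Fin n → F)), L.Pairwise (fun u w => QuadraticMap.polarBilin Q u w = 0) →
      ∀ x ∈ L, Q x ≠ 0 → (L.map (fun v => Cfsg.reflectionMatrix ⇑Q v)).prod *ᵥ x = -x := by
  intro L
  induction L with
  | nil =>
    intro _ x hx
    exact absurd hx List.not_mem_nil
  | cons u L ih =>
    intro hp x hx hQx
    rw [List.pairwise_cons] at hp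
    obtain ⟨hu, hL⟩ := hp
    rw [List.map_cons, List.prod_cons, ← Matrix.mulVec_mulVec]
    rcases List.mem_cons.mp hx with rfl | hxL
    · rw [prod_fix10 Q L x (fun w hw => by rw [Bsymm50]; exact hu w hw), refl_mulVec92, Bself92]
      have h3 : -((Q x)⁻¹ * (2 * Q x)) = -2 := by
        field_simp
      rw [h3]
      module
    · rw [ih hL x hxL hQx, Matrix.mulVec_neg, refl_fix92 Q u x (hu x hxL)]

theorem orth_basis10 {F : Type*} [Field F] (h2 : (2 : F) ≠ 0) {n : ℕ} (Q : QuadraticForm F (Fin n → F))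
    (hQ : (QuadraticMap.polarBilin Q).Nondegenerate) :
    ∃ v : Module.Basis (Fin n) F (Fin n → F),
      (∀ i j, i ≠ j → QuadraticMap.polarBilin Q (v i) (v j) = 0) ∧ (∀ i, Q (v i) ≠ 0) := by
  haveI : Invertible (2 : F) := invertibleOfNonzero h2
  have hsymm : LinearMap.IsSymm (QuadraticMap.polarBilin Q) := ⟨fun x y => by
    rw [RingHom.id_apply]
    exact Bsymm50 Q x y⟩
  obtain ⟨v, hv⟩ := LinearMap.BilinForm.exists_orthogonal_basis hsymm
  have hself := LinearMap.IsOrthoᵢ.not_isOrtho_basis_self_of_separatingLeft hv hQ.1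
  rw [LinearMap.isOrthoᵢ_def] at hv
  refine ⟨v.reindex (finCongr (Module.finrank_fin_fun F)), ?_, ?_⟩
  · intro i j hij
    rw [Module.Basis.reindex_apply, Module.Basis.reindex_apply]
    apply hv
    intro h
    exact hij ((finCongr (Module.finrank_fin_fun F)).symm.injective h)
  · intro i hi
    rw [Module.Basis.reindex_apply] at hi
    apply hself ((finCongr (Module.finrank_fin_fun F)).symm i)
    rw [Bself92, hi, mul_zero]

/-- For a quadratic form Q on F^n with non-degenerate polar form, F finite of odd order and n ≥ 2 even, the isometry −1 lies in Ω (the commutator subgroup of the orthogonal group) if and only if the discriminant of Q (the determinant of the Gram matrix of its polar form) is a square. -/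
theorem result {F : Type*} [Field F] [Fintype F] (h2 : (2 : F) ≠ 0) {n : ℕ} (hn : 2 ≤ n) (he : Even n) (Q : QuadraticForm F (Fin n → F)) (hQ : (QuadraticMap.polarBilin Q).Nondegenerate) : (∃ g : ↥(Cfsg.isometryGroup F ⇑Q), g ∈ Cfsg.Omega F ⇑Q ∧ ((g : Matrix.GeneralLinearGroup (Fin n) F) : Matrix (Fin n) (Fin n) F) = -1) ↔ IsSquare (Matrix.of (fun i j : Fin n => QuadraticMap.polar ⇑Q (Pi.single i 1) (Pi.single j 1))).det := by
  classical
  obtain ⟨v, horth, hQv⟩ := orth_basis10 h2 Q hQ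
  obtain ⟨L, hL⟩ : ∃ L : List (Fin n → F), L = List.ofFn (fun i => v i) := ⟨_, rfl⟩
  have hLQ : ∀ x ∈ L, Q x ≠ 0 := by
    intro x hx
    rw [hL, List.mem_ofFn] at hx
    obtain ⟨i, rfl⟩ := hx
    exact hQv i
  have hLp : L.Pairwise (fun u w => QuadraticMap.polarBilin Q u w = 0) := by
    rw [hL, List.pairwise_ofFn]
    intro i j hij
    exact horth i j (ne_of_lt hij)
  have hLlen : L.length = n := by
    rw [hL, List.length_ofFn]
  have hM : (L.map (fun v => Cfsg.reflectionMatrix ⇑Q v)).prod = -1 := by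
    apply mat_ext12
    intro x
    have hlin : Matrix.mulVecLin (L.map (fun v => Cfsg.reflectionMatrix ⇑Q v)).prod =
        Matrix.mulVecLin (-1 : Matrix (Fin n) (Fin n) F) := by
      apply v.ext
      intro j
      rw [Matrix.mulVecLin_apply, Matrix.mulVecLin_apply, Matrix.neg_mulVec, Matrix.one_mulVec]
      apply prod_neg10 h2 Q L hLp (v j) _ (hQv j)
      rw [hL, List.mem_ofFn]
      exact ⟨j, rfl⟩
    have h3 := LinearMap.congr_fun hlin x
    rw [Matrix.mulVecLin_apply, Matrix.mulVecLin_apply] at h3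
    exact h3
  -- the element -1
  obtain ⟨N, hN⟩ : ∃ N : ↥(Cfsg.isometryGroup F ⇑Q),
      ((N : Matrix.GeneralLinearGroup (Fin n) F) : Matrix (Fin n) (Fin n) F) = -1 := by
    refine ⟨⟨-1, ?_⟩, ?_⟩
    · rw [mem_iso29]
      intro u
      have e : ((-1 : Matrix.GeneralLinearGroup (Fin n) F) : Matrix (Fin n) (Fin n) F) = -1 := by
        rw [Units.val_neg, Units.val_one]
      rw [e, Matrix.neg_mulVec, Matrix.one_mulVec, QuadraticMap.map_neg]
    · show ((-1 : Matrix.GeneralLinearGroup (Fin n) F) : Matrix (Fin n) (Fin n) F) = -1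
      rw [Units.val_neg, Units.val_one]
  have hcrit := Cfsg.Agent.S2609.result h2 hn Q hQ N L hLQ (hN.trans hM.symm)
  have hex : (∃ g : ↥(Cfsg.isometryGroup F ⇑Q), g ∈ Cfsg.Omega F ⇑Q ∧
      ((g : Matrix.GeneralLinearGroup (Fin n) F) : Matrix (Fin n) (Fin n) F) = -1) ↔ N ∈ Cfsg.Omega F ⇑Q := by
    constructor
    · rintro ⟨g, hg, hgm⟩
      have h3 : g = N := Subtype.ext (Units.ext (hgm.trans hN.symm))
      rw [← h3]
      exact hg
    · intro h
      exact ⟨N, h, hN⟩
  rw [hex, hcrit, hLlen]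
  -- discriminant
  have hprod : (L.map (fun v => Q v)).prod = ∏ i, Q (v i) := by
    rw [hL, List.map_ofFn, List.prod_ofFn]
    rfl
  rw [hprod]
  have hG : LinearMap.BilinForm.toMatrix (Pi.basisFun F (Fin n)) (QuadraticMap.polarBilin Q) =
      Matrix.of (fun i j : Fin n => QuadraticMap.polar ⇑Q (Pi.single i 1) (Pi.single j 1)) := by
    ext i j
    rw [LinearMap.BilinForm.toMatrix_apply, Pi.basisFun_apply, Pi.basisFun_apply,
      QuadraticMap.polarBilin_apply_apply]
    rfl
  have hD : LinearMap.BilinForm.toMatrix v (QuadraticMap.polarBilin Q) =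
      Matrix.diagonal (fun i => 2 * Q (v i)) := by
    ext i j
    rw [LinearMap.BilinForm.toMatrix_apply]
    by_cases hij : i = j
    · rw [hij, Matrix.diagonal_apply_eq, Bself92]
    · rw [Matrix.diagonal_apply_ne _ hij, horth i j hij]
  have hchg := LinearMap.BilinForm.toMatrix_mul_basis_toMatrix (Pi.basisFun F (Fin n)) v
    (QuadraticMap.polarBilin Q)
  rw [hG, hD] at hchg
  have hdet := congrArg Matrix.det hchg
  rw [Matrix.det_mul, Matrix.det_mul, Matrix.det_transpose, Matrix.det_diagonal, Finset.prod_mul_distrib,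
    Finset.prod_const, Finset.card_univ, Fintype.card_fin] at hdet
  obtain ⟨d, hd⟩ : ∃ d : F, d = ((Pi.basisFun F (Fin n)).toMatrix ⇑v).det := ⟨_, rfl⟩
  rw [← hd] at hdet
  obtain ⟨e, hee⟩ := he
  have h2e : (2 : F) ^ n = (2 ^ e) * (2 ^ e) := by
    rw [hee, pow_add]
  have hP0 : ∏ i, Q (v i) ≠ 0 := Finset.prod_ne_zero_iff.mpr (fun i _ => hQv i)
  have h2e0 : (2 : F) ^ e ≠ 0 := pow_ne_zero e h2
  have hd0 : d ≠ 0 := by
    rintro rfl
    rw [zero_mul, zero_mul, h2e] at hdet
    exact mul_ne_zero (mul_ne_zero h2e0 h2e0) hP0 hdet.symm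
  rw [h2e] at hdet
  constructor
  · rintro ⟨-, t, ht⟩
    refine ⟨2 ^ e * t / d, ?_⟩
    field_simp
    rw [ht] at hdet
    linear_combination hdet
  · rintro ⟨s, hs⟩
    refine ⟨⟨e, hee⟩, s * d / 2 ^ e, ?_⟩
    field_simp
    rw [hs] at hdet
    linear_combination -hdet

end Cfsg.Agent.S2610
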