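import Cfsg.Statements.S2611
import Mathlib
import Cfsg.Statements.S2611
import Cfsg.Agent.S2615

set_option autoImplicit false
open Cfsg
open scoped commutatorElement

namespace Cfsg.Agent.S2611

open Cfsg.Agent.S0832 Cfsg.Agent.S2612 Cfsg.Agent.S0750 Cfsg.Agent.S0794 Cfsg.Agent.S0792 Cfsg.Agent.S0786 Cfsg.Agent.S2635 Cfsg.Agent.S0789 Cfsg.Agent.S2629 Cfsg.Agent.S2633 Cfsg.Agent.S2631 Cfsg.Agent.S2628 Cfsg.Agent.S2613 Cfsg.Agent.S2626 Cfsg.Agent.S2169 Cfsg.Agent.S2632 Cfsg.Agent.S2609 Cfsg.Agent.S2615 Matrix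
open scoped commutatorElement

def gm11 {F : Type*} [Field F] {m : ℕ} (M N : Matrix (Fin m) (Fin m) F) (h1 : M * N = 1) (h2 : N * M = 1) :
    ↥(Cfsg.isometryGroup F (Cfsg.quadFormPlus m F)) :=
  ⟨⟨Matrix.fromBlocks M 0 0 Nᵀ, Matrix.fromBlocks N 0 0 Mᵀ,
    by
      rw [Matrix.fromBlocks_multiply]
      simp [h1, ← Matrix.transpose_mul],
    by
      rw [Matrix.fromBlocks_multiply]
      simp [h2, ← Matrix.transpose_mul]⟩,
   by
    rw [mem_iso29]
    intro u
    show Cfsg.quadFormPlus m F (Matrix.fromBlocks M 0 0 Nᵀ *ᵥ u) = Cfsg.quadFormPlus m F u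
    unfold Cfsg.quadFormPlus
    rw [Matrix.fromBlocks_mulVec]
    simp only [Sum.elim_inl, Sum.elim_inr, Matrix.zero_mulVec, add_zero, zero_add]
    have e : ∑ i, (M *ᵥ (u ∘ Sum.inl)) i * (Nᵀ *ᵥ (u ∘ Sum.inr)) i =
        (M *ᵥ (u ∘ Sum.inl)) ⬝ᵥ (Nᵀ *ᵥ (u ∘ Sum.inr)) := rfl
    rw [e, Matrix.dotProduct_mulVec, Matrix.vecMul_transpose, Matrix.mulVec_mulVec, h2, Matrix.one_mulVec]
    rfl⟩

theorem gm_mul11 {F : Type*} [Field F] {m : ℕ} (M N M' N' : Matrix (Fin m) (Fin m) F)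
    (h1 : M * N = 1) (h2 : N * M = 1) (h1' : M' * N' = 1) (h2' : N' * M' = 1)
    (h1'' : (M * M') * (N' * N) = 1) (h2'' : (N' * N) * (M * M') = 1) :
    gm11 (M * M') (N' * N) h1'' h2'' = gm11 M N h1 h2 * gm11 M' N' h1' h2' := by
  apply Subtype.ext
  apply Units.ext
  show Matrix.fromBlocks (M * M') 0 0 (N' * N)ᵀ = Matrix.fromBlocks M 0 0 Nᵀ * Matrix.fromBlocks M' 0 0 N'ᵀ
  rw [Matrix.fromBlocks_multiply, Matrix.transpose_mul]
  simp

def P11 {F : Type*} [Field F] [Fintype F] [DecidableEq F] {m : ℕ}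
    (χ₀ : ↥(Cfsg.isometryGroup F (Cfsg.quadFormPlus m F)) →* ℤˣ) (M : Matrix (Fin m) (Fin m) F) : Prop :=
  ∃ (N : Matrix (Fin m) (Fin m) F) (h1 : M * N = 1) (h2 : N * M = 1),
    ((χ₀ (gm11 M N h1 h2) : ℤˣ) : ℤ) = quadraticChar F M.det

theorem P_mul11 {F : Type*} [Field F] [Fintype F] [DecidableEq F] {m : ℕ}
    (χ₀ : ↥(Cfsg.isometryGroup F (Cfsg.quadFormPlus m F)) →* ℤˣ) (M M' : Matrix (Fin m) (Fin m) F)
    (hM : P11 χ₀ M) (hM' : P11 χ₀ M') : P11 χ₀ (M * M') := by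
  obtain ⟨N, h1, h2, hc⟩ := hM
  obtain ⟨N', h1', h2', hc'⟩ := hM'
  have h1'' : (M * M') * (N' * N) = 1 := by
    rw [Matrix.mul_assoc, ← Matrix.mul_assoc M', h1', Matrix.one_mul, h1]
  have h2'' : (N' * N) * (M * M') = 1 := by
    rw [Matrix.mul_assoc, ← Matrix.mul_assoc N, h2, Matrix.one_mul, h2']
  refine ⟨N' * N, h1'', h2'', ?_⟩
  rw [gm_mul11 M N M' N' h1 h2 h1' h2', map_mul, Units.val_mul, hc, hc', Matrix.det_mul, map_mul]

theorem P_one11 {F : Type*} [Field F] [Fintype F] [DecidableEq F] {m : ℕ}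
    (χ₀ : ↥(Cfsg.isometryGroup F (Cfsg.quadFormPlus m F)) →* ℤˣ) : P11 χ₀ (1 : Matrix (Fin m) (Fin m) F) := by
  refine ⟨1, Matrix.one_mul 1, Matrix.one_mul 1, ?_⟩
  have e : gm11 (1 : Matrix (Fin m) (Fin m) F) 1 (Matrix.one_mul 1) (Matrix.one_mul 1) = 1 := by
    apply Subtype.ext
    apply Units.ext
    show Matrix.fromBlocks (1 : Matrix (Fin m) (Fin m) F) 0 0 (1 : Matrix (Fin m) (Fin m) F)ᵀ = 1
    rw [Matrix.transpose_one, Matrix.fromBlocks_one]
  rw [e, map_one, Units.val_one, Matrix.det_one, map_one]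

theorem P_list11 {F : Type*} [Field F] [Fintype F] [DecidableEq F] {m : ℕ}
    (χ₀ : ↥(Cfsg.isometryGroup F (Cfsg.quadFormPlus m F)) →* ℤˣ) :
    ∀ L : List (Matrix (Fin m) (Fin m) F), (∀ M ∈ L, P11 χ₀ M) → P11 χ₀ L.prod := by
  intro L
  induction L with
  | nil =>
    intro _
    rw [List.prod_nil]
    exact P_one11 χ₀
  | cons M L ih =>
    intro h
    rw [List.prod_cons]
    exact P_mul11 χ₀ M L.prod (h M List.mem_cons_self) (ih (fun M' hM' => h M' (List.mem_cons_of_mem _ hM')))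

theorem P_transv11 {F : Type*} [Field F] [Fintype F] [DecidableEq F] (h2 : (2 : F) ≠ 0) {m : ℕ}
    (χ₀ : ↥(Cfsg.isometryGroup F (Cfsg.quadFormPlus m F)) →* ℤˣ) (i j : Fin m) (hij : i ≠ j) (c : F) :
    P11 χ₀ (Matrix.transvection i j c) := by
  have hinv : ∀ d : F, Matrix.transvection i j d * Matrix.transvection i j (-d) = 1 := by
    intro d
    rw [Matrix.transvection_mul_transvection_same i j hij, add_neg_cancel, Matrix.transvection_zero]
  have hinv' : ∀ d : F, Matrix.transvection i j (-d) * Matrix.transvection i j d = 1 := by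
    intro d
    rw [Matrix.transvection_mul_transvection_same i j hij, neg_add_cancel, Matrix.transvection_zero]
  refine ⟨Matrix.transvection i j (-c), hinv c, hinv' c, ?_⟩
  have e : gm11 (Matrix.transvection i j c) (Matrix.transvection i j (-c)) (hinv c) (hinv' c) =
      gm11 (Matrix.transvection i j (c / 2)) (Matrix.transvection i j (-(c / 2))) (hinv (c / 2)) (hinv' (c / 2)) *
      gm11 (Matrix.transvection i j (c / 2)) (Matrix.transvection i j (-(c / 2))) (hinv (c / 2)) (hinv' (c / 2)) := by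
    apply Subtype.ext
    apply Units.ext
    show Matrix.fromBlocks (Matrix.transvection i j c) 0 0 (Matrix.transvection i j (-c))ᵀ =
      Matrix.fromBlocks (Matrix.transvection i j (c / 2)) 0 0 (Matrix.transvection i j (-(c / 2)))ᵀ *
      Matrix.fromBlocks (Matrix.transvection i j (c / 2)) 0 0 (Matrix.transvection i j (-(c / 2)))ᵀ
    rw [Matrix.fromBlocks_multiply, ← Matrix.transpose_mul, Matrix.transvection_mul_transvection_same i j hij,
      Matrix.transvection_mul_transvection_same i j hij]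
    have e1 : c / 2 + c / 2 = c := by
      field_simp
      ring
    have e2 : -(c / 2) + -(c / 2) = -c := by
      field_simp
      ring
    rw [e1, e2]
    simp
  rw [e, map_mul, Int.units_mul_self, Units.val_one, Matrix.det_transvection_of_ne i j hij, map_one]

theorem P_single11 {F : Type*} [Field F] [Fintype F] [DecidableEq F] {m : ℕ}
    (χ₀ : ↥(Cfsg.isometryGroup F (Cfsg.quadFormPlus m F)) →* ℤˣ) (c0 : ℤˣ)
    (hrefl : ∀ v : Fin m ⊕ Fin m → F, Cfsg.quadFormPlus m F v ≠ 0 →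
      ∃ r : ↥(Cfsg.isometryGroup F (Cfsg.quadFormPlus m F)),
        (∀ x, ((r : Matrix.GeneralLinearGroup (Fin m ⊕ Fin m) F) : Matrix (Fin m ⊕ Fin m) (Fin m ⊕ Fin m) F) *ᵥ x =
          x + (-((Cfsg.quadFormPlus m F v)⁻¹ * QuadraticMap.polarBilin (qp32 F m) v x)) • v) ∧
        ((r : Matrix.GeneralLinearGroup (Fin m ⊕ Fin m) F) : Matrix (Fin m ⊕ Fin m) (Fin m ⊕ Fin m) F).det = -1 ∧
        ((χ₀ r : ℤˣ) : ℤ) = ((c0 : ℤˣ) : ℤ) * quadraticChar F (Cfsg.quadFormPlus m F v))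
    (i : Fin m) (d : F) (hd : d ≠ 0) :
    P11 χ₀ (Matrix.diagonal (fun κ : Fin m => if κ = i then d else 1)) := by
  have h1 : Matrix.diagonal (fun κ : Fin m => if κ = i then d else 1) *
      Matrix.diagonal (fun κ : Fin m => if κ = i then d⁻¹ else 1) = 1 := by
    rw [Matrix.diagonal_mul_diagonal, ← Matrix.diagonal_one]
    congr 1
    funext κ
    by_cases h : κ = i <;> simp [h, hd]
  have h2 : Matrix.diagonal (fun κ : Fin m => if κ = i then d⁻¹ else 1) *
      Matrix.diagonal (fun κ : Fin m => if κ = i then d else 1) = 1 := by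
    rw [Matrix.diagonal_mul_diagonal, ← Matrix.diagonal_one]
    congr 1
    funext κ
    by_cases h : κ = i <;> simp [h, hd]
  refine ⟨Matrix.diagonal (fun κ : Fin m => if κ = i then d⁻¹ else 1), h1, h2, ?_⟩
  obtain ⟨a, ha⟩ : ∃ a : Fin m ⊕ Fin m → F, a = Pi.single (Sum.inl i) 1 + Pi.single (Sum.inr i) 1 := ⟨_, rfl⟩
  obtain ⟨b, hb⟩ : ∃ b : Fin m ⊕ Fin m → F, b = Pi.single (Sum.inl i) 1 + d • Pi.single (Sum.inr i) 1 := ⟨_, rfl⟩
  have hqa : Cfsg.quadFormPlus m F a = 1 := by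
    rw [ha]
    simp [Cfsg.quadFormPlus, Pi.single_apply]
  have hqb : Cfsg.quadFormPlus m F b = d := by
    rw [hb]
    simp [Cfsg.quadFormPlus, Pi.single_apply]
  have hBa : ∀ x : Fin m ⊕ Fin m → F, QuadraticMap.polarBilin (qp32 F m) a x = x (Sum.inr i) + x (Sum.inl i) := by
    intro x
    rw [QuadraticMap.polarBilin_apply_apply, qp_polar32, ha]
    simp [Pi.single_apply, Finset.sum_add_distrib]
  have hBb : ∀ x : Fin m ⊕ Fin m → F, QuadraticMap.polarBilin (qp32 F m) b x =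
      x (Sum.inr i) + d * x (Sum.inl i) := by
    intro x
    rw [QuadraticMap.polarBilin_apply_apply, qp_polar32, hb]
    simp [Pi.single_apply, Finset.sum_add_distrib]
  have hBab : QuadraticMap.polarBilin (qp32 F m) a b = d + 1 := by
    rw [hBa, hb]
    simp [Pi.single_apply]
  obtain ⟨ra, hra, hrad, hraχ⟩ := hrefl a (by rw [hqa]; exact one_ne_zero)
  obtain ⟨rb, hrb, hrbd, hrbχ⟩ := hrefl b (by rw [hqb]; exact hd)
  have key : gm11 _ _ h1 h2 = ra * rb := by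
    apply Subtype.ext
    apply Units.ext
    apply mat_ext12
    intro x
    show Matrix.fromBlocks (Matrix.diagonal (fun κ : Fin m => if κ = i then d else 1)) 0 0
        (Matrix.diagonal (fun κ : Fin m => if κ = i then d⁻¹ else 1))ᵀ *ᵥ x =
      (((ra : Matrix.GeneralLinearGroup (Fin m ⊕ Fin m) F) : Matrix (Fin m ⊕ Fin m) (Fin m ⊕ Fin m) F) *
       ((rb : Matrix.GeneralLinearGroup (Fin m ⊕ Fin m) F) : Matrix (Fin m ⊕ Fin m) (Fin m ⊕ Fin m) F)) *ᵥ x
    rw [← Matrix.mulVec_mulVec, hrb, hra, map_add, map_smul, hBab, hBa, hBb, hqa, hqb, Matrix.fromBlocks_mulVec,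
      Matrix.diagonal_transpose]
    funext κ
    rcases κ with l | l
    · by_cases hl : l = i
      · subst hl
        simp [ha, hb, Matrix.mulVec_diagonal]
        field_simp
        ring
      · simp [ha, hb, hl, Matrix.mulVec_diagonal]
    · by_cases hl : l = i
      · subst hl
        simp [ha, hb, Matrix.mulVec_diagonal]
        field_simp
        ring
      · simp [ha, hb, hl, Matrix.mulVec_diagonal]
  rw [key, map_mul, Units.val_mul, hraχ, hrbχ, hqa, hqb, map_one, Matrix.det_diagonal]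
  have hprod : (∏ κ : Fin m, if κ = i then d else 1) = d := by
    simp [Finset.prod_ite_eq']
  rw [hprod]
  have h3 : ((c0 : ℤˣ) : ℤ) * ((c0 : ℤˣ) : ℤ) = 1 := by
    rw [← Units.val_mul, Int.units_mul_self, Units.val_one]
  linear_combination (quadraticChar F d) * h3

theorem P_diag11 {F : Type*} [Field F] [Fintype F] [DecidableEq F] {m : ℕ}
    (χ₀ : ↥(Cfsg.isometryGroup F (Cfsg.quadFormPlus m F)) →* ℤˣ) (c0 : ℤˣ)
    (hrefl : ∀ v : Fin m ⊕ Fin m → F, Cfsg.quadFormPlus m F v ≠ 0 →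
      ∃ r : ↥(Cfsg.isometryGroup F (Cfsg.quadFormPlus m F)),
        (∀ x, ((r : Matrix.GeneralLinearGroup (Fin m ⊕ Fin m) F) : Matrix (Fin m ⊕ Fin m) (Fin m ⊕ Fin m) F) *ᵥ x =
          x + (-((Cfsg.quadFormPlus m F v)⁻¹ * QuadraticMap.polarBilin (qp32 F m) v x)) • v) ∧
        ((r : Matrix.GeneralLinearGroup (Fin m ⊕ Fin m) F) : Matrix (Fin m ⊕ Fin m) (Fin m ⊕ Fin m) F).det = -1 ∧
        ((χ₀ r : ℤˣ) : ℤ) = ((c0 : ℤˣ) : ℤ) * quadraticChar F (Cfsg.quadFormPlus m F v))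
    (D : Fin m → F) (hD : ∀ κ, D κ ≠ 0) : P11 χ₀ (Matrix.diagonal D) := by
  have key : ∀ i ≤ m, P11 χ₀ (Matrix.diagonal (fun κ : Fin m => if (κ : ℕ) < i then D κ else 1)) := by
    intro i
    induction i with
    | zero =>
      intro _
      have e : (fun κ : Fin m => if (κ : ℕ) < 0 then D κ else 1) = fun _ => (1 : F) := by
        funext κ
        simp
      rw [e, Matrix.diagonal_one]
      exact P_one11 χ₀
    | succ i ih =>
      intro hi
      have hlt : i < m := by omega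
      have e : Matrix.diagonal (fun κ : Fin m => if (κ : ℕ) < i + 1 then D κ else 1) =
          Matrix.diagonal (fun κ : Fin m => if (κ : ℕ) < i then D κ else 1) *
          Matrix.diagonal (fun κ : Fin m => if κ = (⟨i, hlt⟩ : Fin m) then D ⟨i, hlt⟩ else 1) := by
        rw [Matrix.diagonal_mul_diagonal]
        congr 1
        funext κ
        have hiff : κ = (⟨i, hlt⟩ : Fin m) ↔ (κ : ℕ) = i := Fin.ext_iff
        by_cases h1 : (κ : ℕ) < i
        · have h4 : ¬ κ = (⟨i, hlt⟩ : Fin m) := fun h => by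
            rw [hiff] at h
            omega
          rw [if_pos h1, if_neg h4, if_pos (by omega), mul_one]
        · by_cases h5 : (κ : ℕ) = i
          · have h6 : κ = (⟨i, hlt⟩ : Fin m) := hiff.mpr h5
            rw [if_neg h1, if_pos h6, if_pos (by omega), one_mul, h6]
          · have h4 : ¬ κ = (⟨i, hlt⟩ : Fin m) := fun h => h5 (hiff.mp h)
            rw [if_neg h1, if_neg h4, if_neg (by omega), one_mul]
      rw [e]
      exact P_mul11 χ₀ _ _ (ih (by omega)) (P_single11 χ₀ c0 hrefl ⟨i, hlt⟩ (D ⟨i, hlt⟩) (hD _))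
  have e : (fun κ : Fin m => if (κ : ℕ) < m then D κ else 1) = D := by
    funext κ
    rw [if_pos κ.2]
  have h3 := key m le_rfl
  rw [e] at h3
  exact h3

theorem P_all11 {F : Type*} [Field F] [Fintype F] [DecidableEq F] (h2 : (2 : F) ≠ 0) {m : ℕ}
    (χ₀ : ↥(Cfsg.isometryGroup F (Cfsg.quadFormPlus m F)) →* ℤˣ) (c0 : ℤˣ)
    (hrefl : ∀ v : Fin m ⊕ Fin m → F, Cfsg.quadFormPlus m F v ≠ 0 →
      ∃ r : ↥(Cfsg.isometryGroup F (Cfsg.quadFormPlus m F)),
        (∀ x, ((r : Matrix.GeneralLinearGroup (Fin m ⊕ Fin m) F) : Matrix (Fin m ⊕ Fin m) (Fin m ⊕ Fin m) F) *ᵥ x =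
          x + (-((Cfsg.quadFormPlus m F v)⁻¹ * QuadraticMap.polarBilin (qp32 F m) v x)) • v) ∧
        ((r : Matrix.GeneralLinearGroup (Fin m ⊕ Fin m) F) : Matrix (Fin m ⊕ Fin m) (Fin m ⊕ Fin m) F).det = -1 ∧
        ((χ₀ r : ℤˣ) : ℤ) = ((c0 : ℤˣ) : ℤ) * quadraticChar F (Cfsg.quadFormPlus m F v))
    (M : Matrix (Fin m) (Fin m) F) (hM : M.det ≠ 0) : P11 χ₀ M := by
  obtain ⟨L, L', D, hMe⟩ := Matrix.Pivot.exists_list_transvec_mul_diagonal_mul_list_transvec M
  have hD : ∀ κ, D κ ≠ 0 := by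
    intro κ hκ
    apply hM
    rw [hMe, Matrix.det_mul, Matrix.det_mul, Matrix.det_diagonal, Finset.prod_eq_zero (Finset.mem_univ κ) hκ]
    simp
  rw [hMe]
  refine P_mul11 χ₀ _ _ (P_mul11 χ₀ _ _ (P_list11 χ₀ _ ?_) (P_diag11 χ₀ c0 hrefl D hD)) (P_list11 χ₀ _ ?_)
  · intro M' hM'
    obtain ⟨t, -, rfl⟩ := List.mem_map.mp hM'
    exact P_transv11 h2 χ₀ t.i t.j t.hij t.c
  · intro M' hM'
    obtain ⟨t, -, rfl⟩ := List.mem_map.mp hM'
    exact P_transv11 h2 χ₀ t.i t.j t.hij t.c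

/-- For the hyperbolic quadratic form Σ x_i y_i on F^(2m) (F finite, m ≥ 1, excluding m = 2 over the field of two elements) and an invertible m × m matrix A, the block-diagonal isometry diag(A, (A⁻¹)ᵀ), which stabilises the two maximal totally singular subspaces x = 0 and y = 0, lies in Ω⁺_2m(F) (the commutator subgroup of the orthogonal group) if and only if det A is a square in F. -/
theorem result {F : Type*} [Field F] [Fintype F] {m : ℕ} (hm : 1 ≤ m) (h : Fintype.card F ≠ 2 ∨ m ≠ 2) (A : GL (Fin m) F) : (∃ g : ↥(Cfsg.isometryGroup F (Cfsg.quadFormPlus m F)), g ∈ Cfsg.Omega F (Cfsg.quadFormPlus m F) ∧ ((g : Matrix.GeneralLinearGroup (Fin m ⊕ Fin m) F) : Matrix (Fin m ⊕ Fin m) (Fin m ⊕ Fin m) F) = Matrix.fromBlocks (A : Matrix (Fin m) (Fin m) F) 0 0 ((A : Matrix (Fin m) (Fin m) F)⁻¹).transpose) ↔ IsSquare (A : Matrix (Fin m) (Fin m) F).det := by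
  classical
  have hAdet : (A : Matrix (Fin m) (Fin m) F).det ≠ 0 :=
    ((Matrix.isUnit_iff_isUnit_det _).mp A.isUnit).ne_zero
  have hA1 : (A : Matrix (Fin m) (Fin m) F) * ((A⁻¹ : GL (Fin m) F) : Matrix (Fin m) (Fin m) F) = 1 := by
    rw [← Units.val_mul, mul_inv_cancel, Units.val_one]
  have hA2 : ((A⁻¹ : GL (Fin m) F) : Matrix (Fin m) (Fin m) F) * (A : Matrix (Fin m) (Fin m) F) = 1 := by
    rw [← Units.val_mul, inv_mul_cancel, Units.val_one]
  have hinv : ((A : Matrix (Fin m) (Fin m) F))⁻¹ = ((A⁻¹ : GL (Fin m) F) : Matrix (Fin m) (Fin m) F) :=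
    (Matrix.coe_units_inv A).symm
  rw [hinv]
  have hex : (∃ g : ↥(Cfsg.isometryGroup F (Cfsg.quadFormPlus m F)), g ∈ Cfsg.Omega F (Cfsg.quadFormPlus m F) ∧
      ((g : Matrix.GeneralLinearGroup (Fin m ⊕ Fin m) F) : Matrix (Fin m ⊕ Fin m) (Fin m ⊕ Fin m) F) =
        Matrix.fromBlocks (A : Matrix (Fin m) (Fin m) F) 0 0
          (((A⁻¹ : GL (Fin m) F) : Matrix (Fin m) (Fin m) F)).transpose) ↔
      gm11 _ _ hA1 hA2 ∈ commutator ↥(Cfsg.isometryGroup F (Cfsg.quadFormPlus m F)) := by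
    constructor
    · rintro ⟨g, hg, hgm⟩
      have h3 : g = gm11 _ _ hA1 hA2 := Subtype.ext (Units.ext hgm)
      rw [← h3]
      exact hg
    · intro h'
      exact ⟨_, h', rfl⟩
  rw [hex]
  by_cases h2 : (2 : F) = 0
  · haveI : CharP F 2 := CharTwo.of_one_ne_zero_of_two_eq_zero one_ne_zero h2
    have hsq : IsSquare (A : Matrix (Fin m) (Fin m) F).det :=
      FiniteField.isSquare_of_char_two (ringChar.eq F 2) _
    refine ⟨fun _ => hsq, fun _ => ?_⟩
    rw [comm_equiv29 (Psi29 F m)]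
    have h' : Fintype.card F ≠ 2 ∨ m + m ≠ 4 := by
      rcases h with h | h
      · exact Or.inl h
      · right
        omega
    have hΩ : commutator ↥(Cfsg.isometryGroup F ⇑(qf29 F m)) = Subgroup.closure (Tset92 (qf29 F m)) :=
      Cfsg.Agent.S2635.result (by omega) h' (qf29 F m) (qf_nondeg29 F m)
    rw [hΩ, ← main_sum29 hm h _ (w0_ts29 F m) (w0_dim29 F m)]
    have hmap : (LinearMap.ker (LinearMap.funLeft F F (Sum.inr : Fin m → Fin m ⊕ Fin m))).map
        (Matrix.mulVecLin (((gm11 _ _ hA1 hA2 : ↥(Cfsg.isometryGroup F (Cfsg.quadFormPlus m F))) :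
          Matrix.GeneralLinearGroup (Fin m ⊕ Fin m) F) : Matrix (Fin m ⊕ Fin m) (Fin m ⊕ Fin m) F)) =
        LinearMap.ker (LinearMap.funLeft F F (Sum.inr : Fin m → Fin m ⊕ Fin m)) := by
      apply Submodule.eq_of_le_of_finrank_eq
      · rintro _ ⟨x, hx, rfl⟩
        have hx' : x ∘ Sum.inr = 0 := LinearMap.mem_ker.mp hx
        rw [LinearMap.mem_ker]
        show (Matrix.fromBlocks (A : Matrix (Fin m) (Fin m) F) 0 0
          (((A⁻¹ : GL (Fin m) F) : Matrix (Fin m) (Fin m) F))ᵀ *ᵥ x) ∘ Sum.inr = 0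
        rw [Matrix.fromBlocks_mulVec, hx']
        funext j
        simp
      · exact (LinearEquiv.finrank_eq (Submodule.equivMapOfInjective _
          (gl_inj29 (gm11 _ _ hA1 hA2 : ↥(Cfsg.isometryGroup F (Cfsg.quadFormPlus m F))).1) _)).symm
    rw [hmap, inf_idem, w0_dim29, Nat.sub_self]
    exact ⟨0, rfl⟩
  · have hcard : 2 ≤ Fintype.card (Fin m ⊕ Fin m) := by
      rw [Fintype.card_sum, Fintype.card_fin]
      omega
    obtain ⟨χ₀, c0, hom, hrefl⟩ := gen_iota15 h2 (qp32 F m) (qp_nondeg32 m) hcard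
      (Cfsg.quadFormPlus m F) (fun v => qp_apply32 m v)
    obtain ⟨N, h1, h2', hc⟩ := P_all11 h2 χ₀ c0 hrefl (A : Matrix (Fin m) (Fin m) F) hAdet
    have hN : N = ((A⁻¹ : GL (Fin m) F) : Matrix (Fin m) (Fin m) F) := by
      calc N = (((A⁻¹ : GL (Fin m) F) : Matrix (Fin m) (Fin m) F) * (A : Matrix (Fin m) (Fin m) F)) * N := by
            rw [hA2, Matrix.one_mul]
        _ = ((A⁻¹ : GL (Fin m) F) : Matrix (Fin m) (Fin m) F) * ((A : Matrix (Fin m) (Fin m) F) * N) :=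
            Matrix.mul_assoc _ _ _
        _ = ((A⁻¹ : GL (Fin m) F) : Matrix (Fin m) (Fin m) F) := by rw [h1, Matrix.mul_one]
    subst hN
    have hom' := hom (gm11 _ _ hA1 hA2)
    have hdet1 : (((gm11 _ _ hA1 hA2 : ↥(Cfsg.isometryGroup F (Cfsg.quadFormPlus m F))) :
        Matrix.GeneralLinearGroup (Fin m ⊕ Fin m) F) : Matrix (Fin m ⊕ Fin m) (Fin m ⊕ Fin m) F).det = 1 := by
      show (Matrix.fromBlocks (A : Matrix (Fin m) (Fin m) F) 0 0
          (((A⁻¹ : GL (Fin m) F) : Matrix (Fin m) (Fin m) F))ᵀ).det = 1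
      rw [Matrix.det_fromBlocks_zero₁₂, Matrix.det_transpose, ← Matrix.det_mul, hA1, Matrix.det_one]
    have hc' : ((χ₀ (gm11 _ _ hA1 hA2) : ℤˣ) : ℤ) = quadraticChar F (A : Matrix (Fin m) (Fin m) F).det := hc
    constructor
    · intro hg
      have hχ1 := (hom'.mp hg).2
      rw [hχ1, Units.val_one] at hc'
      exact (quadraticChar_one_iff_isSquare hAdet).mp hc'.symm
    · intro hsq
      apply hom'.mpr
      refine ⟨hdet1, Units.ext ?_⟩
      rw [hc', (quadraticChar_one_iff_isSquare hAdet).mpr hsq]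
      rfl

end Cfsg.Agent.S2611
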