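import Cfsg.Statements.S2614
import Mathlib
import Cfsg.Statements.S2614
import Cfsg.Agent.S2615

set_option autoImplicit false
open Cfsg
open scoped commutatorElement

namespace Cfsg.Agent.S2614

open Cfsg.Agent.S0832 Cfsg.Agent.S2612 Cfsg.Agent.S0750 Cfsg.Agent.S0794 Cfsg.Agent.S0792 Cfsg.Agent.S0786 Cfsg.Agent.S2635 Cfsg.Agent.S0789 Cfsg.Agent.S2629 Cfsg.Agent.S2633 Cfsg.Agent.S2631 Cfsg.Agent.S2628 Cfsg.Agent.S2613 Cfsg.Agent.S2626 Cfsg.Agent.S2169 Cfsg.Agent.S2632 Cfsg.Agent.S2609 Cfsg.Agent.S2562 Cfsg.Agent.S2615 Matrix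
open scoped commutatorElement

noncomputable def qo14 (F : Type*) [Field F] (m : ℕ) : QuadraticForm F (Unit ⊕ (Fin m ⊕ Fin m) → F) :=
  (QuadraticMap.sq (R := F)).comp (LinearMap.proj (Sum.inl ())) +
    (qp32 F m).comp (LinearMap.funLeft F F Sum.inr)

theorem qo_apply14 {F : Type*} [Field F] (m : ℕ) (v : Unit ⊕ (Fin m ⊕ Fin m) → F) :
    qo14 F m v = Cfsg.quadFormOdd m F v := by
  unfold qo14 Cfsg.quadFormOdd
  rw [QuadraticMap.add_apply, QuadraticMap.comp_apply, QuadraticMap.comp_apply, qp_apply32]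
  simp [Cfsg.quadFormPlus, LinearMap.funLeft_apply, QuadraticMap.sq_apply, pow_two]

theorem qo_polar14 {F : Type*} [Field F] (m : ℕ) (u v : Unit ⊕ (Fin m ⊕ Fin m) → F) :
    QuadraticMap.polar ⇑(qo14 F m) u v = 2 * u (Sum.inl ()) * v (Sum.inl ()) +
      ∑ i, (u (Sum.inr (Sum.inl i)) * v (Sum.inr (Sum.inr i)) + u (Sum.inr (Sum.inr i)) * v (Sum.inr (Sum.inl i))) := by
  simp only [QuadraticMap.polar, qo_apply14, Cfsg.quadFormOdd, Pi.add_apply]
  rw [show ∀ (A B C D E G : F), A + B - (C + D) - (E + G) = (A - C - E) + (B - D - G) from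
    fun _ _ _ _ _ _ => by ring, ← Finset.sum_sub_distrib, ← Finset.sum_sub_distrib]
  congr 1
  · ring
  · apply Finset.sum_congr rfl
    intro i _
    ring

theorem qo_nondeg14 {F : Type*} [Field F] (h2 : (2 : F) ≠ 0) (m : ℕ) :
    (QuadraticMap.polarBilin (qo14 F m)).Nondegenerate := by
  classical
  have key : ∀ x, (∀ y, QuadraticMap.polar ⇑(qo14 F m) x y = 0) → x = 0 := by
    intro x hx
    funext j
    rcases j with u | (i | i)
    · have h0 := hx (Pi.single (Sum.inl ()) 1)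
      rw [qo_polar14] at h0
      simp [Pi.single_apply] at h0
      rcases h0 with h0 | h0
      · exact absurd h0 h2
      · exact h0
    · have h1 := hx (Pi.single (Sum.inr (Sum.inr i)) 1)
      rw [qo_polar14] at h1
      simpa [Pi.single_apply] using h1
    · have h1 := hx (Pi.single (Sum.inr (Sum.inl i)) 1)
      rw [qo_polar14] at h1
      simpa [Pi.single_apply] using h1
  constructor
  · intro x hx
    exact key x (fun y => by rw [← QuadraticMap.polarBilin_apply_apply]; exact hx y)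
  · intro y hy
    exact key y (fun x => by
      rw [QuadraticMap.polar_comm, ← QuadraticMap.polarBilin_apply_apply]; exact hy x)

theorem hN_odd14 {F : Type*} [Field F] [Fintype F] [DecidableEq F] (k : ℕ)
    (χ₀ : ↥(Cfsg.isometryGroup F (Cfsg.quadFormOdd k F)) →* ℤˣ) (c0 : ℤˣ)
    (hrefl : ∀ v : Unit ⊕ (Fin k ⊕ Fin k) → F, Cfsg.quadFormOdd k F v ≠ 0 →
      ∃ r : ↥(Cfsg.isometryGroup F (Cfsg.quadFormOdd k F)),
        (∀ x, ((r : Matrix.GeneralLinearGroup (Unit ⊕ (Fin k ⊕ Fin k)) F) :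
          Matrix (Unit ⊕ (Fin k ⊕ Fin k)) (Unit ⊕ (Fin k ⊕ Fin k)) F) *ᵥ x =
          x + (-((Cfsg.quadFormOdd k F v)⁻¹ * QuadraticMap.polarBilin (qo14 F k) v x)) • v) ∧
        ((r : Matrix.GeneralLinearGroup (Unit ⊕ (Fin k ⊕ Fin k)) F) :
          Matrix (Unit ⊕ (Fin k ⊕ Fin k)) (Unit ⊕ (Fin k ⊕ Fin k)) F).det = -1 ∧
        ((χ₀ r : ℤˣ) : ℤ) = ((c0 : ℤˣ) : ℤ) * quadraticChar F (Cfsg.quadFormOdd k F v)) :
    ∀ j < k, ∃ N : ↥(Cfsg.isometryGroup F (Cfsg.quadFormOdd k F)),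
      ((N : Matrix.GeneralLinearGroup (Unit ⊕ (Fin k ⊕ Fin k)) F) :
          Matrix (Unit ⊕ (Fin k ⊕ Fin k)) (Unit ⊕ (Fin k ⊕ Fin k)) F) =
        Matrix.diagonal (fun κ => if (Sum.elim (fun _ : Unit => k)
          (Sum.elim (fun l : Fin k => (l : ℕ)) (fun l : Fin k => (l : ℕ))) κ) = j then (-1 : F) else 1) ∧
      ((N : Matrix.GeneralLinearGroup (Unit ⊕ (Fin k ⊕ Fin k)) F) :
          Matrix (Unit ⊕ (Fin k ⊕ Fin k)) (Unit ⊕ (Fin k ⊕ Fin k)) F).det = 1 ∧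
      ((χ₀ N : ℤˣ) : ℤ) = quadraticChar F (-1 : F) := by
  intro j hj
  obtain ⟨jj, hjj⟩ : ∃ jj : Fin k, (jj : ℕ) = j := ⟨⟨j, hj⟩, rfl⟩
  obtain ⟨a, ha⟩ : ∃ a : Unit ⊕ (Fin k ⊕ Fin k) → F,
      a = Pi.single (Sum.inr (Sum.inl jj)) 1 + Pi.single (Sum.inr (Sum.inr jj)) 1 := ⟨_, rfl⟩
  obtain ⟨b, hb⟩ : ∃ b : Unit ⊕ (Fin k ⊕ Fin k) → F,
      b = Pi.single (Sum.inr (Sum.inl jj)) 1 - Pi.single (Sum.inr (Sum.inr jj)) 1 := ⟨_, rfl⟩
  have hqa : Cfsg.quadFormOdd k F a = 1 := by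
    rw [ha]
    simp [Cfsg.quadFormOdd, Pi.single_apply]
  have hqb : Cfsg.quadFormOdd k F b = -1 := by
    rw [hb]
    simp [Cfsg.quadFormOdd, Pi.single_apply]
  have hBa : ∀ x : Unit ⊕ (Fin k ⊕ Fin k) → F, QuadraticMap.polarBilin (qo14 F k) a x =
      x (Sum.inr (Sum.inr jj)) + x (Sum.inr (Sum.inl jj)) := by
    intro x
    rw [QuadraticMap.polarBilin_apply_apply, qo_polar14, ha]
    simp [Pi.single_apply, Finset.sum_add_distrib]
  have hBb : ∀ x : Unit ⊕ (Fin k ⊕ Fin k) → F, QuadraticMap.polarBilin (qo14 F k) b x =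
      x (Sum.inr (Sum.inr jj)) - x (Sum.inr (Sum.inl jj)) := by
    intro x
    rw [QuadraticMap.polarBilin_apply_apply, qo_polar14, hb]
    simp [Pi.single_apply, Finset.sum_add_distrib, sub_eq_add_neg]
  have hBab : QuadraticMap.polarBilin (qo14 F k) a b = 0 := by
    rw [hBa, hb]
    simp [Pi.single_apply]
  obtain ⟨ra, hra, hrad, hraχ⟩ := hrefl a (by rw [hqa]; exact one_ne_zero)
  obtain ⟨rb, hrb, hrbd, hrbχ⟩ := hrefl b (by rw [hqb]; exact neg_ne_zero.mpr one_ne_zero)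
  obtain ⟨hd, hc⟩ := pair15 _ χ₀ c0 ra rb a b hqa hqb hrad hrbd hraχ hrbχ
  refine ⟨ra * rb, ?_, hd, hc⟩
  apply mat_ext12
  intro x
  show (((ra : Matrix.GeneralLinearGroup (Unit ⊕ (Fin k ⊕ Fin k)) F) :
          Matrix (Unit ⊕ (Fin k ⊕ Fin k)) (Unit ⊕ (Fin k ⊕ Fin k)) F) *
      ((rb : Matrix.GeneralLinearGroup (Unit ⊕ (Fin k ⊕ Fin k)) F) :
          Matrix (Unit ⊕ (Fin k ⊕ Fin k)) (Unit ⊕ (Fin k ⊕ Fin k)) F)) *ᵥ x = _
  rw [← Matrix.mulVec_mulVec, hrb, hra, map_add, map_smul, hBab, hBa, hBb, hqa, hqb]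
  funext κ
  rw [Matrix.mulVec_diagonal]
  rcases κ with u | (l | l)
  · have hne : k ≠ j := by omega
    simp [ha, hb, hne]
  · by_cases hl : l = jj
    · subst hl
      simp [ha, hb, hjj]
    · have hne : (l : ℕ) ≠ j := fun h => hl (Fin.ext (h.trans hjj.symm))
      simp [ha, hb, hl, hne]
  · by_cases hl : l = jj
    · subst hl
      simp [ha, hb, hjj]
    · have hne : (l : ℕ) ≠ j := fun h => hl (Fin.ext (h.trans hjj.symm))
      simp [ha, hb, hl, hne]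

/-- For the form x_0² + Σ x_j y_j on F^(2m+1), F finite with q elements, q odd, and 1 ≤ i ≤ m: the involution of determinant one negating the first i hyperbolic pairs (and fixing x_0 and the other pairs) lies in Ω_(2m+1)(q) (commutator subgroup of the orthogonal group) if and only if q^i ≡ 1 (mod 4); its (−1)-eigenspace is a hyperbolic 2i-space. -/
theorem result {F : Type*} [Field F] [Fintype F] {q : ℕ} (hF : Fintype.card F = q) (hq : Odd q) {m : ℕ} (i : ℕ) (hi : 1 ≤ i) (him : i ≤ m) : (∃ g : ↥(Cfsg.isometryGroup F (Cfsg.quadFormOdd m F)), g ∈ Cfsg.Omega F (Cfsg.quadFormOdd m F) ∧ ((g : Matrix.GeneralLinearGroup (Unit ⊕ (Fin m ⊕ Fin m)) F) : Matrix (Unit ⊕ (Fin m ⊕ Fin m)) (Unit ⊕ (Fin m ⊕ Fin m)) F) = Matrix.diagonal (fun k : Unit ⊕ (Fin m ⊕ Fin m) => if (Sum.elim (fun _ : Unit => i) (Sum.elim (fun j : Fin m => (j : ℕ)) (fun j : Fin m => (j : ℕ))) k) < i then (-1 : F) else 1)) ↔ q ^ i % 4 =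 1 := by
  classical
  have h2 : (2 : F) ≠ 0 := by
    intro h
    obtain ⟨k, hk⟩ := hq
    have h3 := Nat.cast_card_eq_zero F
    rw [hF, hk] at h3
    push_cast at h3
    rw [h, zero_mul, zero_add] at h3
    exact one_ne_zero h3
  have hcard : 2 ≤ Fintype.card (Unit ⊕ (Fin m ⊕ Fin m)) := by
    rw [Fintype.card_sum, Fintype.card_sum, Fintype.card_unit, Fintype.card_fin]
    omega
  obtain ⟨χ₀, c0, hom, hrefl⟩ := gen_iota15 h2 (qo14 F m) (qo_nondeg14 h2 m) hcard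
    (Cfsg.quadFormOdd m F) (fun v => qo_apply14 m v)
  have hN := hN_odd14 m χ₀ c0 hrefl
  have hfin := final15 hF hq (Cfsg.quadFormOdd m F) χ₀ hom _ m hN i him
  have hD : (fun k : Unit ⊕ (Fin m ⊕ Fin m) => if (Sum.elim (fun _ : Unit => i) (Sum.elim (fun j : Fin m => (j : ℕ)) (fun j : Fin m => (j : ℕ))) k) < i then (-1 : F) else 1) =
      (fun κ : Unit ⊕ (Fin m ⊕ Fin m) => if (Sum.elim (fun _ : Unit => m) (Sum.elim (fun l : Fin m => (l : ℕ)) (fun l : Fin m => (l : ℕ))) κ) < i then (-1 : F) else 1) := by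
    funext κ
    rcases κ with u | (l | l)
    · have h3 : ¬ (m < i) := by omega
      simp [h3]
    · rfl
    · rfl
  rw [hD]
  exact hfin

end Cfsg.Agent.S2614
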