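import Cfsg.Statements.S2627
import Mathlib
import Cfsg.Statements.S2627
import Cfsg.Agent.S2615

set_option autoImplicit false
open Cfsg
open scoped commutatorElement

namespace Cfsg.Agent.S2627

open Cfsg.Agent.S0832 Cfsg.Agent.S2612 Cfsg.Agent.S0750 Cfsg.Agent.S0794 Cfsg.Agent.S0792 Cfsg.Agent.S0786 Cfsg.Agent.S2635 Cfsg.Agent.S0789 Cfsg.Agent.S2629 Cfsg.Agent.S2633 Cfsg.Agent.S2631 Cfsg.Agent.S2628 Cfsg.Agent.S2613 Cfsg.Agent.S2626 Cfsg.Agent.S2169 Cfsg.Agent.S2632 Cfsg.Agent.S2609 Cfsg.Agent.S2615 Matrix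
open scoped commutatorElement

noncomputable def qs27 {F : Type*} [Field F] {k l : ℕ} (Q₁ : QuadraticForm F (Fin k → F))
    (Q₂ : QuadraticForm F (Fin l → F)) : QuadraticForm F (Fin k ⊕ Fin l → F) :=
  Q₁.comp (LinearMap.funLeft F F Sum.inl) + Q₂.comp (LinearMap.funLeft F F Sum.inr)

theorem qs_apply27 {F : Type*} [Field F] {k l : ℕ} (Q₁ : QuadraticForm F (Fin k → F))
    (Q₂ : QuadraticForm F (Fin l → F)) (v : Fin k ⊕ Fin l → F) :
    qs27 Q₁ Q₂ v = Q₁ (v ∘ Sum.inl) + Q₂ (v ∘ Sum.inr) := rfl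

theorem qs_polar27 {F : Type*} [Field F] {k l : ℕ} (Q₁ : QuadraticForm F (Fin k → F))
    (Q₂ : QuadraticForm F (Fin l → F)) (x y : Fin k ⊕ Fin l → F) :
    QuadraticMap.polarBilin (qs27 Q₁ Q₂) x y =
      QuadraticMap.polarBilin Q₁ (x ∘ Sum.inl) (y ∘ Sum.inl) +
        QuadraticMap.polarBilin Q₂ (x ∘ Sum.inr) (y ∘ Sum.inr) := by
  have h1 := Qadd50 (qs27 Q₁ Q₂) x y
  have h2 := Qadd50 Q₁ (x ∘ Sum.inl) (y ∘ Sum.inl)
  have h3 := Qadd50 Q₂ (x ∘ Sum.inr) (y ∘ Sum.inr)
  rw [qs_apply27, qs_apply27, qs_apply27] at h1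
  have e1 : (x + y) ∘ Sum.inl = x ∘ Sum.inl + y ∘ (Sum.inl : Fin k → Fin k ⊕ Fin l) := rfl
  have e2 : (x + y) ∘ Sum.inr = x ∘ Sum.inr + y ∘ (Sum.inr : Fin l → Fin k ⊕ Fin l) := rfl
  rw [e1, e2] at h1
  linear_combination h2 + h3 - h1

theorem qs_nondeg27 {F : Type*} [Field F] {k l : ℕ} (Q₁ : QuadraticForm F (Fin k → F))
    (Q₂ : QuadraticForm F (Fin l → F)) (h₁ : (QuadraticMap.polarBilin Q₁).Nondegenerate)
    (h₂ : (QuadraticMap.polarBilin Q₂).Nondegenerate) :
    (QuadraticMap.polarBilin (qs27 Q₁ Q₂)).Nondegenerate := by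
  have key : ∀ x, (∀ y, QuadraticMap.polarBilin (qs27 Q₁ Q₂) x y = 0) → x = 0 := by
    intro x hx
    have h1 : x ∘ Sum.inl = 0 := by
      apply h₁.1
      intro y₁
      have h2 := hx (Sum.elim y₁ 0)
      rw [qs_polar27] at h2
      have e1 : (Sum.elim y₁ (0 : Fin l → F)) ∘ Sum.inl = y₁ := rfl
      have e2 : (Sum.elim y₁ (0 : Fin l → F)) ∘ Sum.inr = 0 := rfl
      rw [e1, e2, map_zero, add_zero] at h2
      exact h2
    have h1' : x ∘ Sum.inr = 0 := by
      apply h₂.1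
      intro y₁
      have h2 := hx (Sum.elim 0 y₁)
      rw [qs_polar27] at h2
      have e1 : (Sum.elim (0 : Fin k → F) y₁) ∘ Sum.inl = 0 := rfl
      have e2 : (Sum.elim (0 : Fin k → F) y₁) ∘ Sum.inr = y₁ := rfl
      rw [e1, e2, map_zero, zero_add] at h2
      exact h2
    funext j
    rcases j with i | i
    · exact congrFun h1 i
    · exact congrFun h1' i
  exact ⟨key, fun y hy => key y (fun x => by rw [Bsymm50]; exact hy x)⟩

theorem rev_prod27 {F : Type*} [Field F] {n : ℕ} (Q : QuadraticForm F (Fin n → F)) :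
    ∀ vs : List (Fin n → F), (∀ v ∈ vs, Q v ≠ 0) →
      (vs.reverse.map (fun v => Cfsg.reflectionMatrix ⇑Q v)).prod *
        (vs.map (fun v => Cfsg.reflectionMatrix ⇑Q v)).prod = 1 := by
  intro vs
  induction vs with
  | nil =>
    intro _
    simp
  | cons v vs ih =>
    intro h
    rw [List.reverse_cons, List.map_append, List.prod_append, List.map_cons, List.map_nil, List.prod_cons,
      List.prod_nil, mul_one, List.map_cons, List.prod_cons]
    rw [Matrix.mul_assoc, ← Matrix.mul_assoc (reflectionMatrix (⇑Q) v), refl_sq92 Q v (h v List.mem_cons_self),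
      Matrix.one_mul]
    exact ih (fun w hw => h w (List.mem_cons_of_mem _ hw))

theorem exists_list27 {F : Type*} [Field F] [Fintype F] {n : ℕ} (h : Fintype.card F ≠ 2 ∨ n ≠ 4)
    (Q : QuadraticForm F (Fin n → F)) (hQ : (QuadraticMap.polarBilin Q).Nondegenerate)
    (g : ↥(Cfsg.isometryGroup F ⇑Q)) :
    ∃ vs : List (Fin n → F), (∀ v ∈ vs, Q v ≠ 0) ∧
      ((g : Matrix.GeneralLinearGroup (Fin n) F) : Matrix (Fin n) (Fin n) F) =
        (vs.map (fun v => Cfsg.reflectionMatrix ⇑Q v)).prod := by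
  have hgen : Subgroup.closure (Sset92 Q) = ⊤ := Cfsg.Agent.S0786.result Q hQ h
  have hg : g ∈ Subgroup.closure (Sset92 Q) := by
    rw [hgen]
    exact Subgroup.mem_top _
  induction hg using Subgroup.closure_induction with
  | mem r hr =>
    obtain ⟨v, hv, hr⟩ := hr
    refine ⟨[v], ?_, ?_⟩
    · intro w hw
      rw [List.mem_singleton] at hw
      rw [hw]
      exact hv
    · rw [hr]
      simp
  | one =>
    refine ⟨[], ?_, ?_⟩
    · intro w hw
      exact absurd hw List.not_mem_nil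
    · simp
  | mul a b _ _ iha ihb =>
    obtain ⟨va, hva, ea⟩ := iha
    obtain ⟨vb, hvb, eb⟩ := ihb
    refine ⟨va ++ vb, ?_, ?_⟩
    · intro v hv
      rcases List.mem_append.mp hv with h | h
      · exact hva v h
      · exact hvb v h
    · show ((a : Matrix.GeneralLinearGroup (Fin n) F) : Matrix (Fin n) (Fin n) F) *
        ((b : Matrix.GeneralLinearGroup (Fin n) F) : Matrix (Fin n) (Fin n) F) = _
      rw [ea, eb, List.map_append, List.prod_append]
  | inv a _ iha =>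
    obtain ⟨va, hva, ea⟩ := iha
    refine ⟨va.reverse, fun v hv => hva v (List.mem_reverse.mp hv), ?_⟩
    have h1 := rev_prod27 Q va hva
    have h2 := mul_inv28 Q a
    calc (((a⁻¹ : ↥(Cfsg.isometryGroup F ⇑Q)) : Matrix.GeneralLinearGroup (Fin n) F) : Matrix (Fin n) (Fin n) F)
        = ((va.reverse.map (fun v => Cfsg.reflectionMatrix ⇑Q v)).prod *
            (va.map (fun v => Cfsg.reflectionMatrix ⇑Q v)).prod) *
          (((a⁻¹ : ↥(Cfsg.isometryGroup F ⇑Q)) : Matrix.GeneralLinearGroup (Fin n) F) :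
            Matrix (Fin n) (Fin n) F) := by rw [h1, Matrix.one_mul]
      _ = (va.reverse.map (fun v => Cfsg.reflectionMatrix ⇑Q v)).prod *
          (((a : Matrix.GeneralLinearGroup (Fin n) F) : Matrix (Fin n) (Fin n) F) *
          (((a⁻¹ : ↥(Cfsg.isometryGroup F ⇑Q)) : Matrix.GeneralLinearGroup (Fin n) F) :
            Matrix (Fin n) (Fin n) F)) := by rw [ea, Matrix.mul_assoc]
      _ = (va.reverse.map (fun v => Cfsg.reflectionMatrix ⇑Q v)).prod := by rw [h2, Matrix.mul_one]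

theorem rank_blk27 {F : Type*} [Field F] {k l : ℕ} (A : Matrix (Fin k) (Fin k) F) :
    (Matrix.fromBlocks A 0 0 (0 : Matrix (Fin l) (Fin l) F)).rank = A.rank := by
  obtain ⟨ι, hι⟩ : ∃ ι : (Fin k → F) →ₗ[F] (Fin k ⊕ Fin l → F), ∀ u, ι u = Sum.elim u 0 :=
    ⟨{ toFun := fun u => Sum.elim u 0
       map_add' := fun u w => by
         funext j
         rcases j with i | i <;> simp
       map_smul' := fun c u => by
         funext j
         rcases j with i | i <;> simp }, fun u => rfl⟩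
  have hinj : Function.Injective ι := by
    intro u w huw
    rw [hι, hι] at huw
    funext i
    exact congrFun huw (Sum.inl i)
  have hr : LinearMap.range (Matrix.mulVecLin (Matrix.fromBlocks A 0 0 (0 : Matrix (Fin l) (Fin l) F))) =
      (LinearMap.range (Matrix.mulVecLin A)).map ι := by
    ext y
    constructor
    · rintro ⟨x, rfl⟩
      refine ⟨A *ᵥ (x ∘ Sum.inl), ⟨x ∘ Sum.inl, rfl⟩, ?_⟩
      rw [hι, Matrix.mulVecLin_apply, Matrix.fromBlocks_mulVec]
      simp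
    · rintro ⟨_, ⟨u, rfl⟩, rfl⟩
      refine ⟨Sum.elim u 0, ?_⟩
      rw [hι, Matrix.mulVecLin_apply, Matrix.mulVecLin_apply, Matrix.fromBlocks_mulVec]
      simp
  unfold Matrix.rank
  rw [hr]
  exact (Submodule.equivMapOfInjective ι hinj _).finrank_eq.symm

theorem lift_list27 {F : Type*} [Field F] [Fintype F] [DecidableEq F] {k l : ℕ} (Q₁ : QuadraticForm F (Fin k → F))
    (Q₂ : QuadraticForm F (Fin l → F))
    (χ₀ : ↥(Cfsg.isometryGroup F (fun v : Fin k ⊕ Fin l → F => Q₁ (v ∘ Sum.inl) + Q₂ (v ∘ Sum.inr))) →* ℤˣ)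
    (c0 : ℤˣ)
    (hrefl : ∀ v : Fin k ⊕ Fin l → F, Q₁ (v ∘ Sum.inl) + Q₂ (v ∘ Sum.inr) ≠ 0 →
      ∃ r : ↥(Cfsg.isometryGroup F (fun v : Fin k ⊕ Fin l → F => Q₁ (v ∘ Sum.inl) + Q₂ (v ∘ Sum.inr))),
        (∀ x, ((r : Matrix.GeneralLinearGroup (Fin k ⊕ Fin l) F) : Matrix (Fin k ⊕ Fin l) (Fin k ⊕ Fin l) F) *ᵥ x =
          x + (-((Q₁ (v ∘ Sum.inl) + Q₂ (v ∘ Sum.inr))⁻¹ * QuadraticMap.polarBilin (qs27 Q₁ Q₂) v x)) • v) ∧
        ((r : Matrix.GeneralLinearGroup (Fin k ⊕ Fin l) F) : Matrix (Fin k ⊕ Fin l) (Fin k ⊕ Fin l) F).det = -1 ∧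
        ((χ₀ r : ℤˣ) : ℤ) = ((c0 : ℤˣ) : ℤ) * quadraticChar F (Q₁ (v ∘ Sum.inl) + Q₂ (v ∘ Sum.inr))) :
    ∀ vs : List (Fin k → F), (∀ v ∈ vs, Q₁ v ≠ 0) →
      ∃ G' : ↥(Cfsg.isometryGroup F (fun v : Fin k ⊕ Fin l → F => Q₁ (v ∘ Sum.inl) + Q₂ (v ∘ Sum.inr))),
        (∀ x, ((G' : Matrix.GeneralLinearGroup (Fin k ⊕ Fin l) F) : Matrix (Fin k ⊕ Fin l) (Fin k ⊕ Fin l) F) *ᵥ x =
          Sum.elim ((vs.map (fun v => Cfsg.reflectionMatrix ⇑Q₁ v)).prod *ᵥ (x ∘ Sum.inl)) (x ∘ Sum.inr)) ∧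
        ((G' : Matrix.GeneralLinearGroup (Fin k ⊕ Fin l) F) : Matrix (Fin k ⊕ Fin l) (Fin k ⊕ Fin l) F).det =
          (-1 : F) ^ vs.length ∧
        ((χ₀ G' : ℤˣ) : ℤ) = ((c0 : ℤˣ) : ℤ) ^ vs.length * quadraticChar F ((vs.map (fun v => Q₁ v)).prod) := by
  intro vs
  induction vs with
  | nil =>
    intro _
    refine ⟨1, ?_, ?_, ?_⟩
    · intro x
      show (1 : Matrix (Fin k ⊕ Fin l) (Fin k ⊕ Fin l) F) *ᵥ x = _
      rw [Matrix.one_mulVec]
      funext j
      rcases j with i | i <;> simp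
    · show (1 : Matrix (Fin k ⊕ Fin l) (Fin k ⊕ Fin l) F).det = _
      simp
    · rw [map_one]
      simp
  | cons v vs ih =>
    intro h
    have hv : Q₁ v ≠ 0 := h v List.mem_cons_self
    obtain ⟨G'', hact, hdet, hχ⟩ := ih (fun w hw => h w (List.mem_cons_of_mem _ hw))
    have e1 : (Sum.elim v (0 : Fin l → F)) ∘ Sum.inl = v := rfl
    have e2 : (Sum.elim v (0 : Fin l → F)) ∘ Sum.inr = 0 := rfl
    have hq : Q₁ ((Sum.elim v (0 : Fin l → F)) ∘ Sum.inl) + Q₂ ((Sum.elim v (0 : Fin l → F)) ∘ Sum.inr) = Q₁ v := by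
      rw [e1, e2, map_zero, add_zero]
    obtain ⟨r, hr, hrd, hrχ⟩ := hrefl (Sum.elim v 0) (by rw [hq]; exact hv)
    refine ⟨r * G'', ?_, ?_, ?_⟩
    · intro x
      show (((r : Matrix.GeneralLinearGroup (Fin k ⊕ Fin l) F) : Matrix (Fin k ⊕ Fin l) (Fin k ⊕ Fin l) F) *
        ((G'' : Matrix.GeneralLinearGroup (Fin k ⊕ Fin l) F) : Matrix (Fin k ⊕ Fin l) (Fin k ⊕ Fin l) F)) *ᵥ x = _
      rw [← Matrix.mulVec_mulVec, hact, hr, hq, qs_polar27, e1, e2, map_zero, LinearMap.zero_apply, add_zero,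
        List.map_cons, List.prod_cons, ← Matrix.mulVec_mulVec, refl_mulVec92]
      funext j
      rcases j with i | i
      · simp
      · simp
    · show (((r : Matrix.GeneralLinearGroup (Fin k ⊕ Fin l) F) : Matrix (Fin k ⊕ Fin l) (Fin k ⊕ Fin l) F) *
        ((G'' : Matrix.GeneralLinearGroup (Fin k ⊕ Fin l) F) : Matrix (Fin k ⊕ Fin l) (Fin k ⊕ Fin l) F)).det = _
      rw [Matrix.det_mul, hrd, hdet, List.length_cons, pow_succ]
      ring
    · rw [map_mul, Units.val_mul, hrχ, hχ, hq, List.length_cons, List.map_cons, List.prod_cons, map_mul, pow_succ]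
      ring

/-- For an orthogonal direct sum Q = Q₁ ⊕ Q₂ of quadratic forms with non-degenerate polar forms over a finite field, an isometry g₁ of Q₁ extended by the identity on the second summand lies in Ω(Q) (the commutator subgroup of the orthogonal group of Q) if and only if g₁ lies in Ω(Q₁). (Excluded: the field of two elements when the first summand or the whole space has dimension 4, where the commutator subgroup of O⁺₄(2) is smaller than the group usually called Ω.) -/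
theorem result {F : Type*} [Field F] [Fintype F] {k l : ℕ} (h : Fintype.card F ≠ 2 ∨ (k ≠ 4 ∧ k + l ≠ 4)) (Q₁ : QuadraticForm F (Fin k → F)) (Q₂ : QuadraticForm F (Fin l → F)) (h₁ : (QuadraticMap.polarBilin Q₁).Nondegenerate) (h₂ : (QuadraticMap.polarBilin Q₂).Nondegenerate) (g₁ : ↥(Cfsg.isometryGroup F ⇑Q₁)) : (∃ g : ↥(Cfsg.isometryGroup F (fun v : Fin k ⊕ Fin l → F => Q₁ (v ∘ Sum.inl) + Q₂ (v ∘ Sum.inr))), g ∈ Cfsg.Omega F (fun v : Fin k ⊕ Fin l → F => Q₁ (v ∘ Sum.inl) + Q₂ (v ∘ Sum.inr)) ∧ ((g : Matrix.GeneralLinearGroup (Fin k ⊕ Fin l) F) : Matrix (Fin k ⊕ Fin l) (Fin k ⊕ Fin l) F) = Matrix.fromBlocks ((g₁ : Matrix.GeneralLinearGroup (Fin k) F) : Matrix (Fin k) (Fin k) F) 0 0 1) ↔ g₁ ∈ Cfsg.Omega F ⇑Q₁ := by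
  classical
  constructor
  · rintro ⟨G, hG, hGm⟩
    by_cases h2 : (2 : F) = 0
    · haveI : CharP F 2 := CharTwo.of_one_ne_zero_of_two_eq_zero one_ne_zero h2
      rcases Nat.lt_or_ge k 2 with hk | hk
      · interval_cases k
        · have hg1 : g₁ = 1 := by
            apply Subtype.ext
            apply Units.ext
            ext i
            exact i.elim0
          rw [hg1]
          exact Subgroup.one_mem _
        · exfalso
          have e : (Pi.single 0 1 : Fin 1 → F) = 0 := h₁.1 _ (fun y => by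
            have hy : y = y 0 • (Pi.single 0 1 : Fin 1 → F) := by
              funext i
              fin_cases i
              simp
            rw [hy, map_smul, Bself92, h2]
            simp)
          have h3 := congrFun e 0
          simp at h3
      · have hk4 : Fintype.card F ≠ 2 ∨ k ≠ 4 := h.imp id (fun h' => h'.1)
        have hkl4 : Fintype.card F ≠ 2 ∨ k + l ≠ 4 := h.imp id (fun h' => h'.2)
        have hr1 := omega_rank69 hk hk4 (Equiv.refl (Fin k)) Q₁ h₁ (⇑Q₁) (fun v => rfl) g₁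
        have hr2 := omega_rank69 (by omega : 2 ≤ k + l) hkl4 finSumFinEquiv (qs27 Q₁ Q₂)
          (qs_nondeg27 Q₁ Q₂ h₁ h₂) (fun v : Fin k ⊕ Fin l → F => Q₁ (v ∘ Sum.inl) + Q₂ (v ∘ Sum.inr))
          (fun v => rfl) G
        rw [hr1]
        rw [hr2, hGm] at hG
        have e : Matrix.fromBlocks ((g₁ : Matrix.GeneralLinearGroup (Fin k) F) : Matrix (Fin k) (Fin k) F) 0 0
            (1 : Matrix (Fin l) (Fin l) F) - 1 =
            Matrix.fromBlocks (((g₁ : Matrix.GeneralLinearGroup (Fin k) F) : Matrix (Fin k) (Fin k) F) - 1) 0 0 0 := by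
          ext (i | i) (j | j) <;> simp [Matrix.one_apply]
        rw [e, rank_blk27] at hG
        exact hG
    · have hdetG : ((G : Matrix.GeneralLinearGroup (Fin k ⊕ Fin l) F) :
          Matrix (Fin k ⊕ Fin l) (Fin k ⊕ Fin l) F).det = 1 := by
        have hker := Abelianization.commutator_subset_ker (Matrix.GeneralLinearGroup.det.comp
          (Cfsg.isometryGroup F (fun v : Fin k ⊕ Fin l → F => Q₁ (v ∘ Sum.inl) + Q₂ (v ∘ Sum.inr))).subtype) hG
        rw [MonoidHom.mem_ker] at hker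
        exact congrArg Units.val hker
      rcases Nat.lt_or_ge k 2 with hk | hk
      · rw [hGm, Matrix.det_fromBlocks_zero₁₂, Matrix.det_one, mul_one] at hdetG
        have hg1 : g₁ = 1 := by
          apply Subtype.ext
          apply Units.ext
          interval_cases k
          · ext i
            exact i.elim0
          · ext i j
            fin_cases i
            fin_cases j
            rw [Matrix.det_fin_one] at hdetG
            simpa using hdetG
        rw [hg1]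
        exact Subgroup.one_mem _
      · have hk4 : Fintype.card F ≠ 2 ∨ k ≠ 4 := Or.inl (card_ne_two13 h2)
        obtain ⟨vs, hvs, hvm⟩ := exists_list27 hk4 Q₁ h₁ g₁
        have hcrit := Cfsg.Agent.S2609.result h2 hk Q₁ h₁ g₁ vs hvs hvm
        rw [hcrit]
        have hcard : 2 ≤ Fintype.card (Fin k ⊕ Fin l) := by
          rw [Fintype.card_sum, Fintype.card_fin, Fintype.card_fin]
          omega
        obtain ⟨χ₀, c0, hom, hrefl⟩ := gen_iota15 h2 (qs27 Q₁ Q₂) (qs_nondeg27 Q₁ Q₂ h₁ h₂) hcard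
          (fun v : Fin k ⊕ Fin l → F => Q₁ (v ∘ Sum.inl) + Q₂ (v ∘ Sum.inr)) (fun v => rfl)
        obtain ⟨G', hG'act, hG'det, hG'χ⟩ := lift_list27 Q₁ Q₂ χ₀ c0 hrefl vs hvs
        have hGG' : G' = G := by
          apply Subtype.ext
          apply Units.ext
          apply mat_ext12
          intro x
          rw [hG'act, hGm, Matrix.fromBlocks_mulVec, ← hvm]
          simp
        rw [hGG'] at hG'det hG'χ
        have hΩ := (hom G).mp hG
        have heven : Even vs.length := by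
          by_contra hne
          rw [Nat.not_even_iff_odd] at hne
          rw [hΩ.1, Odd.neg_one_pow hne] at hG'det
          apply h2
          linear_combination hG'det
        refine ⟨heven, ?_⟩
        rw [hΩ.2, Units.val_one] at hG'χ
        obtain ⟨e, he⟩ := heven
        have hc0 : ((c0 : ℤˣ) : ℤ) ^ vs.length = 1 := by
          rw [he, ← two_mul, pow_mul, ← Units.val_pow_eq_pow_val, Int.units_sq, Units.val_one, one_pow]
        rw [hc0, one_mul] at hG'χ
        exact (quadraticChar_one_iff_isSquare (list_prod09 Q₁ vs hvs)).mp hG'χ.symm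
  · intro hg₁
    obtain ⟨g, hg, hgm⟩ := Cfsg.Agent.S2626.result Q₁ Q₂ h₁ h₂ g₁ 1 hg₁ (Subgroup.one_mem _)
    exact ⟨g, hg, hgm⟩

end Cfsg.Agent.S2627
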