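import Cfsg.Statements.S2640
import Mathlib
import Cfsg.Statements.S2640
import Cfsg.Agent.S2639

set_option autoImplicit false
open Cfsg
open scoped commutatorElement

namespace Cfsg.Agent.S2640

open Cfsg.Agent.S2629 Cfsg.Agent.S2639 Cfsg.Agent.S2679 Matrix

theorem zeta40 {F K : Type*} [Field F] [Fintype F] [Field K] [Fintype K] [Algebra F K] {q : ℕ}
    (hF : Fintype.card F = q) (hK : Fintype.card K = q ^ 2) : ∃ ζ : K, ζ ^ (q + 1) = -1 := by
  classical
  have hq1 : 1 < q := by rw [← hF]; exact Fintype.one_lt_card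
  have hfac : (q + 1) * (q - 1) + 1 = q ^ 2 := by
    obtain ⟨q', rfl⟩ : ∃ q', q = q' + 1 := ⟨q - 1, by omega⟩
    simp only [Nat.add_sub_cancel]
    ring
  obtain ⟨g, hg⟩ := IsCyclic.exists_monoid_generator (α := Kˣ)
  have hord : orderOf g = (q + 1) * (q - 1) := by
    have h1 : orderOf g = Nat.card Kˣ := by
      apply orderOf_eq_card_of_forall_mem_zpowers
      intro x
      obtain ⟨n, hn⟩ := (Submonoid.mem_powers_iff _ _).mp (hg x)
      exact ⟨n, by simpa using hn⟩
    rw [h1, Nat.card_eq_fintype_card, Fintype.card_units, hK]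
    omega
  obtain ⟨n, hn⟩ := (Submonoid.mem_powers_iff _ _).mp (hg (-1))
  have hm1 : ((-1 : Kˣ)) ^ (q - 1) = 1 := by
    apply Units.ext
    have h0 : ((-1 : F)) ^ (q - 1) = 1 := by
      rw [← hF]
      exact FiniteField.pow_card_sub_one_eq_one (-1) (by simp)
    have := congrArg (algebraMap F K) h0
    simpa using this
  have hdvd : (q + 1) * (q - 1) ∣ n * (q - 1) := by
    rw [← hord]
    apply orderOf_dvd_of_pow_eq_one
    rw [pow_mul, hn, hm1]
  have hdvd' : (q + 1) ∣ n := Nat.dvd_of_mul_dvd_mul_right (by omega) hdvd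
  obtain ⟨n', rfl⟩ := hdvd'
  refine ⟨((g ^ n' : Kˣ) : K), ?_⟩
  have := congrArg (fun x : Kˣ => (x : K)) hn
  simp only [Units.val_pow_eq_pow_val, Units.val_neg, Units.val_one] at this
  rw [← this, Units.val_pow_eq_pow_val, ← pow_mul, mul_comm]

def Θfun40 {F K : Type*} [Field F] [Field K] [Algebra F K] (ε : (F × F) ≃ₗ[F] K) (ζ : K) (a c : F) (k : ℕ)
    (u : Fin (k + k) → K) : Fin (k + k) ⊕ Fin (k + k) → F :=
  Sum.elim
    (Fin.addCases (fun j => (ε.symm (u (Fin.castAdd k j) - ζ * u (Fin.natAdd k j))).1)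
      (fun j => (ε.symm (u (Fin.castAdd k j) - ζ * u (Fin.natAdd k j))).2))
    (Fin.addCases
      (fun j => 2 * (ε.symm (ζ * u (Fin.natAdd k j))).1 - a * (ε.symm (ζ * u (Fin.natAdd k j))).2 +
        (ε.symm (u (Fin.castAdd k j) - ζ * u (Fin.natAdd k j))).1 -
        a * (ε.symm (u (Fin.castAdd k j) - ζ * u (Fin.natAdd k j))).2)
      (fun j => -a * (ε.symm (ζ * u (Fin.natAdd k j))).1 + 2 * c * (ε.symm (ζ * u (Fin.natAdd k j))).2 +
        c * (ε.symm (u (Fin.castAdd k j) - ζ * u (Fin.natAdd k j))).2))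

theorem ev11_40 {F K : Type*} [Field F] [Field K] [Algebra F K] (ε : (F × F) ≃ₗ[F] K) (ζ : K) (a c : F) (k : ℕ)
    (u : Fin (k + k) → K) (j : Fin k) : Θfun40 ε ζ a c k u (Sum.inl (Fin.castAdd k j)) =
      (ε.symm (u (Fin.castAdd k j) - ζ * u (Fin.natAdd k j))).1 := by
  simp only [Θfun40, Sum.elim_inl, Fin.addCases_left]

theorem ev12_40 {F K : Type*} [Field F] [Field K] [Algebra F K] (ε : (F × F) ≃ₗ[F] K) (ζ : K) (a c : F) (k : ℕ)
    (u : Fin (k + k) → K) (j : Fin k) : Θfun40 ε ζ a c k u (Sum.inl (Fin.natAdd k j)) =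
      (ε.symm (u (Fin.castAdd k j) - ζ * u (Fin.natAdd k j))).2 := by
  simp only [Θfun40, Sum.elim_inl, Fin.addCases_right]

theorem ev21_40 {F K : Type*} [Field F] [Field K] [Algebra F K] (ε : (F × F) ≃ₗ[F] K) (ζ : K) (a c : F) (k : ℕ)
    (u : Fin (k + k) → K) (j : Fin k) : Θfun40 ε ζ a c k u (Sum.inr (Fin.castAdd k j)) =
      2 * (ε.symm (ζ * u (Fin.natAdd k j))).1 - a * (ε.symm (ζ * u (Fin.natAdd k j))).2 +
        (ε.symm (u (Fin.castAdd k j) - ζ * u (Fin.natAdd k j))).1 -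
        a * (ε.symm (u (Fin.castAdd k j) - ζ * u (Fin.natAdd k j))).2 := by
  simp only [Θfun40, Sum.elim_inr, Fin.addCases_left]

theorem ev22_40 {F K : Type*} [Field F] [Field K] [Algebra F K] (ε : (F × F) ≃ₗ[F] K) (ζ : K) (a c : F) (k : ℕ)
    (u : Fin (k + k) → K) (j : Fin k) : Θfun40 ε ζ a c k u (Sum.inr (Fin.natAdd k j)) =
      -a * (ε.symm (ζ * u (Fin.natAdd k j))).1 + 2 * c * (ε.symm (ζ * u (Fin.natAdd k j))).2 +
        c * (ε.symm (u (Fin.castAdd k j) - ζ * u (Fin.natAdd k j))).2 := by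
  simp only [Θfun40, Sum.elim_inr, Fin.addCases_right]

def Θlin40 {F K : Type*} [Field F] [Field K] [Algebra F K] (ε : (F × F) ≃ₗ[F] K) (ζ : K) (a c : F) (k : ℕ) :
    (Fin (k + k) → K) →ₗ[F] (Fin (k + k) ⊕ Fin (k + k) → F) where
  toFun := Θfun40 ε ζ a c k
  map_add' := by
    intro u v; funext i
    rcases i with i | i <;> refine Fin.addCases (fun j => ?_) (fun j => ?_) i
    · rw [Pi.add_apply, ev11_40, ev11_40, ev11_40]
      simp only [Pi.add_apply, mul_add, add_sub_add_comm, map_add, Prod.fst_add]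
    · rw [Pi.add_apply, ev12_40, ev12_40, ev12_40]
      simp only [Pi.add_apply, mul_add, add_sub_add_comm, map_add, Prod.snd_add]
    · rw [Pi.add_apply, ev21_40, ev21_40, ev21_40]
      simp only [Pi.add_apply, mul_add, add_sub_add_comm, map_add, Prod.fst_add, Prod.snd_add]
      ring
    · rw [Pi.add_apply, ev22_40, ev22_40, ev22_40]
      simp only [Pi.add_apply, mul_add, add_sub_add_comm, map_add, Prod.fst_add, Prod.snd_add]
      ring
  map_smul' := by
    intro r u; funext i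
    rcases i with i | i <;> refine Fin.addCases (fun j => ?_) (fun j => ?_) i
    · rw [Pi.smul_apply, ev11_40, ev11_40]
      simp only [Pi.smul_apply, mul_smul_comm, ← smul_sub, map_smul, Prod.smul_fst, smul_eq_mul, RingHom.id_apply]
    · rw [Pi.smul_apply, ev12_40, ev12_40]
      simp only [Pi.smul_apply, mul_smul_comm, ← smul_sub, map_smul, Prod.smul_snd, smul_eq_mul, RingHom.id_apply]
    · rw [Pi.smul_apply, ev21_40, ev21_40]
      simp only [Pi.smul_apply, mul_smul_comm, ← smul_sub, map_smul, Prod.smul_fst, Prod.smul_snd, smul_eq_mul,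
        RingHom.id_apply]
      ring
    · rw [Pi.smul_apply, ev22_40, ev22_40]
      simp only [Pi.smul_apply, mul_smul_comm, ← smul_sub, map_smul, Prod.smul_fst, Prod.smul_snd, smul_eq_mul,
        RingHom.id_apply]
      ring

theorem core40 {F K : Type*} [Field F] [Fintype F] [Field K] [Fintype K] [Algebra F K] {q : ℕ}
    (hF : Fintype.card F = q) (hK : Fintype.card K = q ^ 2) (l : K) (a c : F)
    (hac : ∀ z₁ z₂ : F, z₁ ^ 2 + a * z₁ * z₂ + c * z₂ ^ 2 = 0 → z₁ = 0 ∧ z₂ = 0)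
    (hl : l ^ 2 + algebraMap F K a * l + algebraMap F K c = 0) (k : ℕ) :
    ∃ φ : ↥(Cfsg.GU (k + k) K q) →* ↥(Cfsg.isometryGroup F (Cfsg.quadFormPlus (k + k) F)),
      Function.Injective φ := by
  classical
  obtain ⟨hadd, hfix, hlq⟩ := frob39 hF hK l a c hac hl
  obtain ⟨ζ, hζ⟩ := zeta40 (F := F) (K := K) hF hK
  have hζ0 : ζ ≠ 0 := by
    intro h
    rw [h, zero_pow (by omega)] at hζ
    exact one_ne_zero (neg_eq_zero.mp hζ.symm)
  have hdisc : 4 * c - a ^ 2 ≠ 0 := by
    intro h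
    apply disc79 (algebraMap F K) l a c hac hl
    have h' := congrArg (algebraMap F K) h
    simp only [map_sub, map_mul, map_pow, map_ofNat, map_zero] at h'
    have hsq : (-algebraMap F K a - l - l) ^ 2 = 0 := by linear_combination 4 * hl - h'
    exact pow_eq_zero_iff (two_ne_zero) |>.mp hsq
  let ε : (F × F) ≃ₗ[F] K := LinearEquiv.ofBijective (lin39 l) (coord39 hF hK l a c hac hl)
  have hε : ∀ p : F × F, ε p = algebraMap F K p.1 + algebraMap F K p.2 * l := fun p => rfl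
  have halg : ∀ p r : F × F,
      algebraMap F K (p.1 * (2 * r.1 - a * r.2 + p.1 - a * p.2)) +
        algebraMap F K (p.2 * (-a * r.1 + 2 * c * r.2 + c * p.2)) =
      (ε p + ε r) * (ε p + ε r) ^ q - ε r * (ε r) ^ q := by
    intro p r
    rw [hε, hε]
    simp only [hadd, mul_pow, hfix, hlq, map_add, map_mul, map_sub, map_neg, map_ofNat]
    linear_combination ((algebraMap F K p.2 + algebraMap F K r.2) ^ 2 - (algebraMap F K r.2) ^ 2) * hl
  let Θ : (Fin (k + k) → K) →ₗ[F] (Fin (k + k) ⊕ Fin (k + k) → F) := Θlin40 ε ζ a c k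
  have hΘ11 : ∀ u j, Θ u (Sum.inl (Fin.castAdd k j)) =
      (ε.symm (u (Fin.castAdd k j) - ζ * u (Fin.natAdd k j))).1 := fun u j => ev11_40 ε ζ a c k u j
  have hΘ12 : ∀ u j, Θ u (Sum.inl (Fin.natAdd k j)) =
      (ε.symm (u (Fin.castAdd k j) - ζ * u (Fin.natAdd k j))).2 := fun u j => ev12_40 ε ζ a c k u j
  have hΘ21 : ∀ u j, Θ u (Sum.inr (Fin.castAdd k j)) =
      2 * (ε.symm (ζ * u (Fin.natAdd k j))).1 - a * (ε.symm (ζ * u (Fin.natAdd k j))).2 +
            (ε.symm (u (Fin.castAdd k j) - ζ * u (Fin.natAdd k j))).1 -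
            a * (ε.symm (u (Fin.castAdd k j) - ζ * u (Fin.natAdd k j))).2 := fun u j => ev21_40 ε ζ a c k u j
  have hΘ22 : ∀ u j, Θ u (Sum.inr (Fin.natAdd k j)) =
      -a * (ε.symm (ζ * u (Fin.natAdd k j))).1 + 2 * c * (ε.symm (ζ * u (Fin.natAdd k j))).2 +
            c * (ε.symm (u (Fin.castAdd k j) - ζ * u (Fin.natAdd k j))).2 := fun u j => ev22_40 ε ζ a c k u j
  have hQ : ∀ u : Fin (k + k) → K,
      algebraMap F K (Cfsg.quadFormPlus (k + k) F (Θ u)) = Cfsg.hermForm (k + k) K q u u := by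
    intro u
    unfold Cfsg.quadFormPlus Cfsg.hermForm
    rw [Fin.sum_univ_add, Fin.sum_univ_add, map_add, map_sum, map_sum, ← Finset.sum_add_distrib,
      ← Finset.sum_add_distrib]
    apply Finset.sum_congr rfl
    intro j _
    rw [hΘ11, hΘ12, hΘ21, hΘ22, halg]
    simp only [LinearEquiv.apply_symm_apply, sub_add_cancel]
    rw [mul_pow]
    linear_combination (-(u (Fin.natAdd k j) * u (Fin.natAdd k j) ^ q)) * hζ
  have hinj0 : ∀ u, Θ u = 0 → u = 0 := by
    intro u hu
    have hW : ∀ j, u (Fin.castAdd k j) - ζ * u (Fin.natAdd k j) = 0 := by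
      intro j
      have h1 := congrFun hu (Sum.inl (Fin.castAdd k j))
      have h2 := congrFun hu (Sum.inl (Fin.natAdd k j))
      rw [hΘ11] at h1
      rw [hΘ12] at h2
      have h3 : ε.symm (u (Fin.castAdd k j) - ζ * u (Fin.natAdd k j)) = 0 := Prod.ext h1 h2
      have h4 := congrArg ε h3
      rwa [LinearEquiv.apply_symm_apply, map_zero] at h4
    have hY : ∀ j, ζ * u (Fin.natAdd k j) = 0 := by
      intro j
      have h1 := congrFun hu (Sum.inr (Fin.castAdd k j))
      have h2 := congrFun hu (Sum.inr (Fin.natAdd k j))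
      rw [hΘ21, hW j] at h1
      rw [hΘ22, hW j] at h2
      simp only [map_zero, Prod.fst_zero, Prod.snd_zero, mul_zero, add_zero, sub_zero, Pi.zero_apply] at h1 h2
      have hs : (4 * c - a ^ 2) * (ε.symm (ζ * u (Fin.natAdd k j))).1 = 0 := by
        linear_combination (2 * c) * h1 + a * h2
      have ht : (4 * c - a ^ 2) * (ε.symm (ζ * u (Fin.natAdd k j))).2 = 0 := by
        linear_combination a * h1 + 2 * h2
      have hs' := (mul_eq_zero.mp hs).resolve_left hdisc
      have ht' := (mul_eq_zero.mp ht).resolve_left hdisc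
      have h3 : ε.symm (ζ * u (Fin.natAdd k j)) = 0 := Prod.ext hs' ht'
      have h4 := congrArg ε h3
      rwa [LinearEquiv.apply_symm_apply, map_zero] at h4
    funext i
    refine Fin.addCases (fun j => ?_) (fun j => ?_) i
    · have := hW j
      rw [hY j, sub_zero] at this
      exact this
    · exact (mul_eq_zero.mp (hY j)).resolve_left hζ0
  have hbij : Function.Bijective Θ := by
    rw [Fintype.bijective_iff_injective_and_card]
    constructor
    · intro u v huv
      have := hinj0 (u - v) (by rw [map_sub, huv, sub_self])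
      exact sub_eq_zero.mp this
    · rw [Fintype.card_fun, Fintype.card_fun, hK, hF, Fintype.card_sum, Fintype.card_fin]
      ring
  let E : (Fin (k + k) → K) ≃ₗ[F] (Fin (k + k) ⊕ Fin (k + k) → F) := LinearEquiv.ofBijective Θ hbij
  have hEΘ : ∀ u, E u = Θ u := fun u => rfl
  let Φ : Matrix (Fin (k + k)) (Fin (k + k)) K →
      Matrix (Fin (k + k) ⊕ Fin (k + k)) (Fin (k + k) ⊕ Fin (k + k)) F := fun M =>
    LinearMap.toMatrix' (E.toLinearMap ∘ₗ ((Matrix.toLin' M).restrictScalars F) ∘ₗ E.symm.toLinearMap)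
  have hΦ : ∀ M w, Φ M *ᵥ w = E (M *ᵥ E.symm w) := by
    intro M w
    show LinearMap.toMatrix' _ *ᵥ w = _
    rw [LinearMap.toMatrix'_mulVec]
    rfl
  have hext : ∀ A B : Matrix (Fin (k + k) ⊕ Fin (k + k)) (Fin (k + k) ⊕ Fin (k + k)) F,
      (∀ w, A *ᵥ w = B *ᵥ w) → A = B := by
    intro A B h
    apply Matrix.toLin'.injective
    apply LinearMap.ext
    intro w
    rw [Matrix.toLin'_apply, Matrix.toLin'_apply, h]
  have hΦ1 : Φ 1 = 1 := by
    apply hext
    intro w
    rw [hΦ, Matrix.one_mulVec, Matrix.one_mulVec, LinearEquiv.apply_symm_apply]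
  have hΦmul : ∀ M N, Φ (M * N) = Φ M * Φ N := by
    intro M N
    apply hext
    intro w
    rw [← Matrix.mulVec_mulVec, hΦ, hΦ, hΦ, LinearEquiv.symm_apply_apply, Matrix.mulVec_mulVec]
  let Φhom : Matrix (Fin (k + k)) (Fin (k + k)) K →*
      Matrix (Fin (k + k) ⊕ Fin (k + k)) (Fin (k + k) ⊕ Fin (k + k)) F :=
    { toFun := Φ, map_one' := hΦ1, map_mul' := hΦmul }
  let Ψ : Matrix.GeneralLinearGroup (Fin (k + k)) K →* Matrix.GeneralLinearGroup (Fin (k + k) ⊕ Fin (k + k)) F :=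
    Units.map Φhom
  have hΨ : ∀ g : Matrix.GeneralLinearGroup (Fin (k + k)) K,
      ((Ψ g : Matrix.GeneralLinearGroup (Fin (k + k) ⊕ Fin (k + k)) F) : Matrix _ _ F) = Φ g.1 := fun g => rfl
  have hmem : ∀ g : ↥(Cfsg.GU (k + k) K q), Ψ g.1 ∈ Cfsg.isometryGroup F (Cfsg.quadFormPlus (k + k) F) := by
    intro g
    have hg : ∀ u v : Fin (k + k) → K,
        Cfsg.hermForm (k + k) K q (g.1.1 *ᵥ u) (g.1.1 *ᵥ v) = Cfsg.hermForm (k + k) K q u v := g.2
    rw [mem_iso29]
    intro w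
    rw [hΨ, hΦ]
    apply (algebraMap F K).injective
    have hw : w = E (E.symm w) := (LinearEquiv.apply_symm_apply _ _).symm
    conv_rhs => rw [hw]
    rw [hEΘ, hEΘ, hQ, hQ, hg]
  refine ⟨(Ψ.comp (Cfsg.GU (k + k) K q).subtype).codRestrict _ hmem, ?_⟩
  intro x y hxy
  have e1 : Ψ x.1 = Ψ y.1 := congrArg Subtype.val hxy
  have h1 : Φ x.1.1 = Φ y.1.1 := by rw [← hΨ, ← hΨ, e1]
  apply Subtype.ext
  apply Units.ext
  apply Matrix.toLin'.injective
  apply LinearMap.ext
  intro u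
  rw [Matrix.toLin'_apply, Matrix.toLin'_apply]
  have h2 := hΦ x.1.1 (E u)
  rw [h1, hΦ, LinearEquiv.symm_apply_apply] at h2
  exact (E.injective h2).symm

/-- For m even, the unitary group GU_m(q) (over the field with q² elements) embeds in the orthogonal group O⁺_2m(q) of the hyperbolic form Σ x_i y_i over the field with q elements (there is an injective homomorphism). -/
theorem result {K F : Type*} [Field K] [Fintype K] [Field F] [Fintype F] {q : ℕ} (hK : Fintype.card K = q ^ 2) (hF : Fintype.card F = q) (m : ℕ) (hm : Even m) : ∃ φ : ↥(Cfsg.GU m K q) →* ↥(Cfsg.isometryGroup F (Cfsg.quadFormPlus m F)), Function.Injective φ := by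
  obtain ⟨a, c, hac⟩ := exists_aniso39 (F := F)
  obtain ⟨ι, l, hl⟩ := Cfsg.Agent.S2679.field79 hF hK a c hac
  letI : Algebra F K := ι.toAlgebra
  obtain ⟨k, rfl⟩ := hm
  exact core40 hF hK l a c hac hl k

end Cfsg.Agent.S2640
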