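import Cfsg.Statements.S2641
import Mathlib
import Cfsg.Statements.S2641
import Cfsg.Agent.S2640

set_option autoImplicit false
open Cfsg
open scoped commutatorElement

namespace Cfsg.Agent.S2641

open Cfsg.Agent.S2629 Cfsg.Agent.S2639 Cfsg.Agent.S2679 Cfsg.Agent.S2640 Matrix

theorem gen41 {F K : Type*} [Field F] [Field K] [Algebra F K] {q n : ℕ} {idx : Type} [Fintype idx] [DecidableEq idx]
    (E : (Fin n → K) ≃ₗ[F] (idx → F)) (Q : (idx → F) → F)
    (hQ : ∀ u : Fin n → K, algebraMap F K (Q (E u)) = Cfsg.hermForm n K q u u) :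
    ∃ φ : ↥(Cfsg.GU n K q) →* ↥(Cfsg.isometryGroup F Q), Function.Injective φ := by
  classical
  let Φ : Matrix (Fin n) (Fin n) K → Matrix idx idx F := fun M =>
    LinearMap.toMatrix' (E.toLinearMap ∘ₗ ((Matrix.toLin' M).restrictScalars F) ∘ₗ E.symm.toLinearMap)
  have hΦ : ∀ M w, Φ M *ᵥ w = E (M *ᵥ E.symm w) := by
    intro M w
    show LinearMap.toMatrix' _ *ᵥ w = _
    rw [LinearMap.toMatrix'_mulVec]
    rfl
  have hext : ∀ A B : Matrix idx idx F, (∀ w, A *ᵥ w = B *ᵥ w) → A = B := by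
    intro A B h
    apply Matrix.toLin'.injective
    apply LinearMap.ext
    intro w
    rw [Matrix.toLin'_apply, Matrix.toLin'_apply, h]
  have hΦ1 : Φ 1 = 1 := by
    apply hext
    intro w
    rw [hΦ, Matrix.one_mulVec, Matrix.one_mulVec, LinearEquiv.apply_symm_apply]
  have hΦmul : ∀ M N, Φ (M * N) = Φ M * Φ N := by
    intro M N
    apply hext
    intro w
    rw [← Matrix.mulVec_mulVec, hΦ, hΦ, hΦ, LinearEquiv.symm_apply_apply, Matrix.mulVec_mulVec]
  let Φhom : Matrix (Fin n) (Fin n) K →* Matrix idx idx F :=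
    { toFun := Φ, map_one' := hΦ1, map_mul' := hΦmul }
  let Ψ : Matrix.GeneralLinearGroup (Fin n) K →* Matrix.GeneralLinearGroup idx F := Units.map Φhom
  have hΨ : ∀ g : Matrix.GeneralLinearGroup (Fin n) K,
      ((Ψ g : Matrix.GeneralLinearGroup idx F) : Matrix _ _ F) = Φ g.1 := fun g => rfl
  have hmem : ∀ g : ↥(Cfsg.GU n K q), Ψ g.1 ∈ Cfsg.isometryGroup F Q := by
    intro g
    have hg : ∀ u v : Fin n → K,
        Cfsg.hermForm n K q (g.1.1 *ᵥ u) (g.1.1 *ᵥ v) = Cfsg.hermForm n K q u v := g.2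
    rw [mem_iso29]
    intro w
    rw [hΨ, hΦ]
    apply (algebraMap F K).injective
    have hw : w = E (E.symm w) := (LinearEquiv.apply_symm_apply _ _).symm
    conv_rhs => rw [hw]
    rw [hQ, hQ, hg]
  refine ⟨(Ψ.comp (Cfsg.GU n K q).subtype).codRestrict _ hmem, ?_⟩
  intro x y hxy
  have e1 : Ψ x.1 = Ψ y.1 := congrArg Subtype.val hxy
  have h1 : Φ x.1.1 = Φ y.1.1 := by rw [← hΨ, ← hΨ, e1]
  apply Subtype.ext
  apply Units.ext
  apply Matrix.toLin'.injective
  apply LinearMap.ext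
  intro u
  rw [Matrix.toLin'_apply, Matrix.toLin'_apply]
  have h2 := hΦ x.1.1 (E u)
  rw [h1, hΦ, LinearEquiv.symm_apply_apply] at h2
  exact (E.injective h2).symm

theorem hQ41 {F K : Type*} [Field F] [Field K] [Algebra F K] {q : ℕ} (l : K) (a c : F)
    (hl : l ^ 2 + algebraMap F K a * l + algebraMap F K c = 0)
    (hadd : ∀ x y : K, (x + y) ^ q = x ^ q + y ^ q) (hfix : ∀ r : F, (algebraMap F K r) ^ q = algebraMap F K r)
    (hlq : l ^ q = -algebraMap F K a - l) (ζ : K) (hζ : ζ ^ (q + 1) = -1)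
    (ε : (F × F) ≃ₗ[F] K) (hε : ∀ p : F × F, ε p = algebraMap F K p.1 + algebraMap F K p.2 * l) (k : ℕ)
    (u : Fin (k + k) → K) :
    algebraMap F K (Cfsg.quadFormPlus (k + k) F (Θfun40 ε ζ a c k u)) = Cfsg.hermForm (k + k) K q u u := by
  have halg : ∀ p r : F × F,
      algebraMap F K (p.1 * (2 * r.1 - a * r.2 + p.1 - a * p.2)) +
        algebraMap F K (p.2 * (-a * r.1 + 2 * c * r.2 + c * p.2)) =
      (ε p + ε r) * (ε p + ε r) ^ q - ε r * (ε r) ^ q := by
    intro p r
    rw [hε, hε]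
    simp only [hadd, mul_pow, hfix, hlq, map_add, map_mul, map_sub, map_neg, map_ofNat]
    linear_combination ((algebraMap F K p.2 + algebraMap F K r.2) ^ 2 - (algebraMap F K r.2) ^ 2) * hl
  unfold Cfsg.quadFormPlus Cfsg.hermForm
  rw [Fin.sum_univ_add, Fin.sum_univ_add, map_add, map_sum, map_sum, ← Finset.sum_add_distrib,
    ← Finset.sum_add_distrib]
  apply Finset.sum_congr rfl
  intro j _
  rw [ev11_40, ev12_40, ev21_40, ev22_40, halg]
  simp only [LinearEquiv.apply_symm_apply, sub_add_cancel]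
  rw [mul_pow]
  linear_combination (-(u (Fin.natAdd k j) * u (Fin.natAdd k j) ^ q)) * hζ

theorem hinj41 {F K : Type*} [Field F] [Field K] [Algebra F K] (a c : F) (hdisc : 4 * c - a ^ 2 ≠ 0)
    (ζ : K) (hζ0 : ζ ≠ 0) (ε : (F × F) ≃ₗ[F] K) (k : ℕ) (u : Fin (k + k) → K)
    (hu : Θfun40 ε ζ a c k u = 0) : u = 0 := by
  have hW : ∀ j, u (Fin.castAdd k j) - ζ * u (Fin.natAdd k j) = 0 := by
    intro j
    have h1 := congrFun hu (Sum.inl (Fin.castAdd k j))
    have h2 := congrFun hu (Sum.inl (Fin.natAdd k j))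
    rw [ev11_40] at h1
    rw [ev12_40] at h2
    have h3 : ε.symm (u (Fin.castAdd k j) - ζ * u (Fin.natAdd k j)) = 0 := Prod.ext h1 h2
    have h4 := congrArg ε h3
    rwa [LinearEquiv.apply_symm_apply, map_zero] at h4
  have hY : ∀ j, ζ * u (Fin.natAdd k j) = 0 := by
    intro j
    have h1 := congrFun hu (Sum.inr (Fin.castAdd k j))
    have h2 := congrFun hu (Sum.inr (Fin.natAdd k j))
    rw [ev21_40, hW j] at h1
    rw [ev22_40, hW j] at h2
    simp only [map_zero, Prod.fst_zero, Prod.snd_zero, mul_zero, add_zero, sub_zero, Pi.zero_apply] at h1 h2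
    have hs : (4 * c - a ^ 2) * (ε.symm (ζ * u (Fin.natAdd k j))).1 = 0 := by
      linear_combination (2 * c) * h1 + a * h2
    have ht : (4 * c - a ^ 2) * (ε.symm (ζ * u (Fin.natAdd k j))).2 = 0 := by
      linear_combination a * h1 + 2 * h2
    have hs' := (mul_eq_zero.mp hs).resolve_left hdisc
    have ht' := (mul_eq_zero.mp ht).resolve_left hdisc
    have h3 : ε.symm (ζ * u (Fin.natAdd k j)) = 0 := Prod.ext hs' ht'
    have h4 := congrArg ε h3
    rwa [LinearEquiv.apply_symm_apply, map_zero] at h4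
  funext i
  refine Fin.addCases (fun j => ?_) (fun j => ?_) i
  · have := hW j
    rw [hY j, sub_zero] at this
    exact this
  · exact (mul_eq_zero.mp (hY j)).resolve_left hζ0

def Θlin41 {F K : Type*} [Field F] [Field K] [Algebra F K] (ε : (F × F) ≃ₗ[F] K) (ζ : K) (a c : F) (k : ℕ) :
    (Fin (k + k + 1) → K) →ₗ[F] ((Fin (k + k) ⊕ Fin (k + k)) ⊕ Fin 2 → F) where
  toFun u := Sum.elim (Θlin40 ε ζ a c k (fun i => u (Fin.castSucc i)))
    ![(ε.symm (u (Fin.last (k + k)))).1, -(ε.symm (u (Fin.last (k + k)))).2]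
  map_add' := by
    intro u v; funext i
    rcases i with i | i
    · have e : (fun i => (u + v) (Fin.castSucc i)) = (fun i => u (Fin.castSucc i)) + (fun i => v (Fin.castSucc i)) := rfl
      show (Θlin40 ε ζ a c k) (fun i => (u + v) (Fin.castSucc i)) i =
        (Θlin40 ε ζ a c k) (fun i => u (Fin.castSucc i)) i + (Θlin40 ε ζ a c k) (fun i => v (Fin.castSucc i)) i
      rw [e, map_add]; rfl
    · fin_cases i
      · show (ε.symm ((u + v) (Fin.last (k + k)))).1 =
          (ε.symm (u (Fin.last (k + k)))).1 + (ε.symm (v (Fin.last (k + k)))).1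
        rw [Pi.add_apply, map_add, Prod.fst_add]
      · show -(ε.symm ((u + v) (Fin.last (k + k)))).2 =
          -(ε.symm (u (Fin.last (k + k)))).2 + -(ε.symm (v (Fin.last (k + k)))).2
        rw [Pi.add_apply, map_add, Prod.snd_add]; ring
  map_smul' := by
    intro r u; funext i
    rcases i with i | i
    · have e : (fun i => (r • u) (Fin.castSucc i)) = r • (fun i => u (Fin.castSucc i)) := rfl
      show (Θlin40 ε ζ a c k) (fun i => (r • u) (Fin.castSucc i)) i =
        r • (Θlin40 ε ζ a c k) (fun i => u (Fin.castSucc i)) i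
      rw [e, map_smul]; rfl
    · fin_cases i
      · show (ε.symm ((r • u) (Fin.last (k + k)))).1 = r • (ε.symm (u (Fin.last (k + k)))).1
        rw [Pi.smul_apply, map_smul, Prod.smul_fst]
      · show -(ε.symm ((r • u) (Fin.last (k + k)))).2 = r • -(ε.symm (u (Fin.last (k + k)))).2
        rw [Pi.smul_apply, map_smul, Prod.smul_snd, smul_eq_mul, smul_eq_mul]; ring

theorem core41 {F K : Type*} [Field F] [Fintype F] [Field K] [Fintype K] [Algebra F K] {q : ℕ}
    (hF : Fintype.card F = q) (hK : Fintype.card K = q ^ 2) (l : K) (a c : F)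
    (hac : ∀ z₁ z₂ : F, z₁ ^ 2 + a * z₁ * z₂ + c * z₂ ^ 2 = 0 → z₁ = 0 ∧ z₂ = 0)
    (hl : l ^ 2 + algebraMap F K a * l + algebraMap F K c = 0) (k : ℕ) :
    ∃ φ : ↥(Cfsg.GU (k + k + 1) K q) →* ↥(Cfsg.isometryGroup F (Cfsg.quadFormMinus (k + k) F a c)),
      Function.Injective φ := by
  classical
  obtain ⟨hadd, hfix, hlq⟩ := frob39 hF hK l a c hac hl
  obtain ⟨ζ, hζ⟩ := zeta40 (F := F) (K := K) hF hK
  have hζ0 : ζ ≠ 0 := by
    intro h
    rw [h, zero_pow (by omega)] at hζ
    exact one_ne_zero (neg_eq_zero.mp hζ.symm)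
  have hdisc : 4 * c - a ^ 2 ≠ 0 := by
    intro h
    apply disc79 (algebraMap F K) l a c hac hl
    have h' := congrArg (algebraMap F K) h
    simp only [map_sub, map_mul, map_pow, map_ofNat, map_zero] at h'
    have hsq : (-algebraMap F K a - l - l) ^ 2 = 0 := by linear_combination 4 * hl - h'
    exact pow_eq_zero_iff (two_ne_zero) |>.mp hsq
  let ε : (F × F) ≃ₗ[F] K := LinearEquiv.ofBijective (lin39 l) (coord39 hF hK l a c hac hl)
  have hε : ∀ p : F × F, ε p = algebraMap F K p.1 + algebraMap F K p.2 * l := fun p => rfl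
  let Θ := Θlin41 ε ζ a c k
  have hΘl : ∀ u i, Θ u (Sum.inl i) = Θfun40 ε ζ a c k (fun i => u (Fin.castSucc i)) i := fun u i => rfl
  have hΘ0 : ∀ u, Θ u (Sum.inr 0) = (ε.symm (u (Fin.last (k + k)))).1 := fun u => rfl
  have hΘ1 : ∀ u, Θ u (Sum.inr 1) = -(ε.symm (u (Fin.last (k + k)))).2 := fun u => rfl
  have hnorm : ∀ p : F × F, algebraMap F K (p.1 ^ 2 + a * p.1 * (-p.2) + c * (-p.2) ^ 2) = ε p * (ε p) ^ q := by
    intro p
    rw [hε]
    simp only [hadd, mul_pow, hfix, hlq, map_add, map_mul, map_neg, map_pow]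
    linear_combination ((algebraMap F K p.2) ^ 2) * hl
  have hQ : ∀ u : Fin (k + k + 1) → K,
      algebraMap F K (Cfsg.quadFormMinus (k + k) F a c (Θ u)) = Cfsg.hermForm (k + k + 1) K q u u := by
    intro u
    have h1 := hQ41 l a c hl hadd hfix hlq ζ hζ ε hε k (fun i => u (Fin.castSucc i))
    unfold Cfsg.quadFormPlus at h1
    unfold Cfsg.quadFormMinus Cfsg.hermForm
    unfold Cfsg.hermForm at h1
    rw [Fin.sum_univ_castSucc, map_add, hΘ0, hΘ1, hnorm, LinearEquiv.apply_symm_apply]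
    simp only [hΘl]
    rw [h1]
  have hbij : Function.Bijective Θ := by
    rw [Fintype.bijective_iff_injective_and_card]
    constructor
    · intro u v huv
      have h0 : Θ (u - v) = 0 := by rw [map_sub, huv, sub_self]
      have h1 : (fun i => (u - v) (Fin.castSucc i)) = 0 := by
        apply hinj41 a c hdisc ζ hζ0 ε k
        funext i
        have := congrFun h0 (Sum.inl i)
        rw [hΘl] at this
        exact this
      have h2 : (u - v) (Fin.last (k + k)) = 0 := by
        have e0 := congrFun h0 (Sum.inr 0)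
        have e1 := congrFun h0 (Sum.inr 1)
        rw [hΘ0] at e0
        rw [hΘ1] at e1
        have h3 : ε.symm ((u - v) (Fin.last (k + k))) = 0 := Prod.ext e0 (neg_eq_zero.mp e1)
        have h4 := congrArg ε h3
        rwa [LinearEquiv.apply_symm_apply, map_zero] at h4
      have h3 : u - v = 0 := by
        funext i
        refine Fin.lastCases ?_ (fun j => ?_) i
        · exact h2
        · exact congrFun h1 j
      exact sub_eq_zero.mp h3
    · rw [Fintype.card_fun, Fintype.card_fun, hK, hF, Fintype.card_sum, Fintype.card_sum, Fintype.card_fin,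
        Fintype.card_fin, Fintype.card_fin]
      ring
  let E : (Fin (k + k + 1) → K) ≃ₗ[F] ((Fin (k + k) ⊕ Fin (k + k)) ⊕ Fin 2 → F) := LinearEquiv.ofBijective Θ hbij
  exact gen41 E (Cfsg.quadFormMinus (k + k) F a c) (fun u => hQ u)

/-- For m odd, the unitary group GU_m(q) (over the field with q² elements) embeds in the orthogonal group O⁻_2m(q) of an elliptic form (Σ_(i<m−1) x_i y_i plus an anisotropic binary form) over the field with q elements (there is an injective homomorphism). -/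
theorem result {K F : Type*} [Field K] [Fintype K] [Field F] [Fintype F] {q : ℕ} (hK : Fintype.card K = q ^ 2) (hF : Fintype.card F = q) (m : ℕ) (hm : Odd m) (a b : F) (hab : ∀ z₁ z₂ : F, z₁ ^ 2 + a * z₁ * z₂ + b * z₂ ^ 2 = 0 → z₁ = 0 ∧ z₂ = 0) : ∃ φ : ↥(Cfsg.GU m K q) →* ↥(Cfsg.isometryGroup F (Cfsg.quadFormMinus (m - 1) F a b)), Function.Injective φ := by
  obtain ⟨ι, l, hl⟩ := Cfsg.Agent.S2679.field79 hF hK a b hab
  letI : Algebra F K := ι.toAlgebra
  obtain ⟨k, rfl⟩ : ∃ k, m = k + k + 1 := by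
    obtain ⟨k, hk⟩ := hm
    exact ⟨k, by omega⟩
  exact core41 hF hK l a b hab hl k

end Cfsg.Agent.S2641
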