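import Cfsg.Statements.S2758
import Mathlib
import Cfsg.Agent.S3867
import Cfsg.Agent.Lib.Lead.DihLift

set_option autoImplicit false
open Cfsg

namespace Cfsg.Agent.S2758


open DihedralGroup in
theorem sr_pow_odd {n : ℕ} (i : ZMod n) (m : ℕ) (hm : Odd m) : (sr i : DihedralGroup n) ^ m = sr i := by
  obtain ⟨t, rfl⟩ := hm
  rw [pow_succ, pow_mul, pow_two, sr_mul_self, one_pow, one_mul]

/-- III ⇒ I -/
theorem three_one {G : Type*} [Group G] [Finite G] {p : ℕ} [Fact p.Prime] (hp2 : p ≠ 2)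
    (x y : G) (hx2 : ∃ k : ℕ, orderOf x = 2 ^ k) (hyp : ∃ k : ℕ, orderOf y = p ^ k) (hy1 : y ≠ 1)
    (hinv : x * y * x⁻¹ = y⁻¹) : Cfsg.Involves (DihedralGroup p) G := by
  classical
  have hp : p.Prime := Fact.out
  haveI : NeZero p := ⟨hp.ne_zero⟩
  obtain ⟨k, hk⟩ := hx2
  obtain ⟨j, hj⟩ := hyp
  have hj0 : j ≠ 0 := by
    rintro rfl
    rw [pow_zero, orderOf_eq_one_iff] at hj
    exact hy1 hj
  have hpodd : ¬ p ∣ 2 ^ k := by
    intro h
    have h1 := hp.dvd_of_dvd_pow h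
    have h2 := Nat.le_of_dvd (by norm_num) h1
    have h3 := hp.two_le
    omega
  -- y₁ of order p
  obtain ⟨j', rfl⟩ : ∃ j', j = j' + 1 := ⟨j - 1, by omega⟩
  have hy1p : (y ^ p ^ j') ^ p = 1 := by
    rw [← pow_mul, ← pow_succ, ← hj]; exact pow_orderOf_eq_one y
  have hy1ne : y ^ p ^ j' ≠ 1 := by
    intro h
    have h1 := orderOf_dvd_of_pow_eq_one h
    rw [hj] at h1
    have h2 := Nat.le_of_dvd (pow_pos hp.pos j') h1
    have h3 : p ^ j' < p ^ (j' + 1) := Nat.pow_lt_pow_right hp.one_lt (by omega)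
    omega
  have hinv1 : x * y ^ p ^ j' * x⁻¹ = (y ^ p ^ j')⁻¹ := by
    rw [← conj_pow, hinv, inv_pow]
  generalize y ^ p ^ j' = y₁ at hy1p hy1ne hinv1
  have hord1 : orderOf y₁ = p := orderOf_eq_prime hy1p hy1ne
  have hxy1 : x * y₁ = y₁⁻¹ * x := by
    have h0 := hinv1
    rw [mul_inv_eq_iff_eq_mul] at h0
    exact h0
  have hx1 : x ≠ 1 := by
    rintro rfl
    rw [one_mul, mul_one] at hxy1
    have h1 : y₁ * y₁ = 1 := by
      nth_rewrite 1 [hxy1]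
      exact inv_mul_cancel y₁
    have h2 : orderOf y₁ ∣ 2 := orderOf_dvd_of_pow_eq_one (by rw [pow_two]; exact h1)
    rw [hord1] at h2
    have h3 := Nat.le_of_dvd (by norm_num) h2
    have h4 := hp.two_le
    omega
  -- the subgroups
  have hxy1' : x * y₁⁻¹ = y₁ * x := by
    have h0 : x * y₁⁻¹ * x⁻¹ = y₁ := by
      have h1 := congrArg (fun t => t⁻¹) hinv1
      simp only [mul_inv_rev, inv_inv] at h1
      rw [mul_assoc]
      exact h1
    rw [mul_inv_eq_iff_eq_mul] at h0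
    exact h0
  have hcomm2 : Commute (x ^ 2) y₁ := by
    show x ^ 2 * y₁ = y₁ * x ^ 2
    rw [pow_two]
    calc x * x * y₁ = x * (x * y₁) := by rw [mul_assoc]
      _ = x * y₁⁻¹ * x := by rw [hxy1, mul_assoc]
      _ = y₁ * (x * x) := by rw [hxy1', mul_assoc]
  have hRK : Subgroup.zpowers (x ^ 2) ≤ Subgroup.zpowers y₁ ⊔ Subgroup.zpowers x := by
    rw [Subgroup.zpowers_le]
    exact (le_sup_right : Subgroup.zpowers x ≤ Subgroup.zpowers y₁ ⊔ Subgroup.zpowers x)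
      (pow_mem (Subgroup.mem_zpowers x) 2)
  have hKc : Subgroup.zpowers y₁ ⊔ Subgroup.zpowers x ≤
      Subgroup.centralizer ((Subgroup.zpowers (x ^ 2) : Subgroup G) : Set G) := by
    apply sup_le
    · rw [Subgroup.zpowers_le, Subgroup.mem_centralizer_iff]
      rintro h ⟨m, rfl⟩
      exact (hcomm2.zpow_left m).eq
    · rw [Subgroup.zpowers_le, Subgroup.mem_centralizer_iff]
      rintro h ⟨m, rfl⟩
      exact (((Commute.refl x).pow_left 2).zpow_left m).eq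
  have hRn : ((Subgroup.zpowers (x ^ 2)).subgroupOf (Subgroup.zpowers y₁ ⊔ Subgroup.zpowers x)).Normal :=
    (Subgroup.normal_subgroupOf_iff_le_normalizer hRK).mpr
      (hKc.trans (Subgroup.centralizer_le_normalizer _))
  haveI := hRn
  have hyK : y₁ ∈ Subgroup.zpowers y₁ ⊔ Subgroup.zpowers x :=
    (le_sup_left : Subgroup.zpowers y₁ ≤ Subgroup.zpowers y₁ ⊔ Subgroup.zpowers x)
      (Subgroup.mem_zpowers y₁)
  have hxK : x ∈ Subgroup.zpowers y₁ ⊔ Subgroup.zpowers x :=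
    (le_sup_right : Subgroup.zpowers x ≤ Subgroup.zpowers y₁ ⊔ Subgroup.zpowers x)
      (Subgroup.mem_zpowers x)
  set K : Subgroup G := Subgroup.zpowers y₁ ⊔ Subgroup.zpowers x with hKdef
  set R' : Subgroup ↥K := (Subgroup.zpowers (x ^ 2)).subgroupOf K with hR'def
  set X : ↥K ⧸ R' := QuotientGroup.mk' R' ⟨y₁, hyK⟩ with hXdef
  set Y : ↥K ⧸ R' := QuotientGroup.mk' R' ⟨x, hxK⟩ with hYdef
  have hmem : ∀ (g : G) (hg : g ∈ K), QuotientGroup.mk' R' ⟨g, hg⟩ = 1 ↔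
      g ∈ Subgroup.zpowers (x ^ 2) := by
    intro g hg
    rw [QuotientGroup.mk'_apply, QuotientGroup.eq_one_iff, hR'def, Subgroup.mem_subgroupOf]
  have hXp : X ^ p = 1 := by
    rw [hXdef, ← map_pow]
    have h0 : (⟨y₁, hyK⟩ : ↥K) ^ p = 1 := Subtype.ext (by simpa using hy1p)
    rw [h0, map_one]
  have hYY : Y * Y = 1 := by
    rw [hYdef, ← map_mul]
    have h0 : (⟨x, hxK⟩ : ↥K) * ⟨x, hxK⟩ = ⟨x * x, mul_mem hxK hxK⟩ := rfl
    rw [h0, hmem, ← pow_two]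
    exact Subgroup.mem_zpowers _
  have hXYX : X * Y * X = Y := by
    rw [hXdef, hYdef, ← map_mul, ← map_mul]
    congr 1
    apply Subtype.ext
    show y₁ * x * y₁ = x
    rw [mul_assoc, hxy1, ← mul_assoc, mul_inv_cancel, one_mul]
  have hXne : X ≠ 1 := by
    intro h
    rw [hXdef, hmem] at h
    have h1 : y₁ ∈ Subgroup.zpowers x :=
      (Subgroup.zpowers_le.mpr (pow_mem (Subgroup.mem_zpowers x) 2)) h
    have h2 := orderOf_dvd_of_mem_zpowers h1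
    rw [hord1, hk] at h2
    exact hpodd h2
  have hXord : orderOf X = p := orderOf_eq_prime hXp hXne
  have hYnot : Y ∉ Subgroup.zpowers X := by
    rintro ⟨i, hi⟩
    have hi' : X ^ i = Y := hi
    have h0 : QuotientGroup.mk' R' ((⟨y₁, hyK⟩ : ↥K) ^ i) = QuotientGroup.mk' R' ⟨x, hxK⟩ := by
      rw [map_zpow]; exact hi'
    rw [QuotientGroup.mk'_apply, QuotientGroup.mk'_apply, QuotientGroup.eq, hR'def,
      Subgroup.mem_subgroupOf] at h0
    have h1 : (y₁ ^ i)⁻¹ * x ∈ Subgroup.zpowers (x ^ 2) := by simpa using h0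
    obtain ⟨m, hm⟩ := h1
    have hm' : (x ^ 2) ^ m = (y₁ ^ i)⁻¹ * x := hm
    have h2 : y₁ ^ i ∈ Subgroup.zpowers x := by
      have h3 : y₁ ^ i = x * ((x ^ 2) ^ m)⁻¹ := by rw [hm']; group
      rw [h3]
      exact mul_mem (Subgroup.mem_zpowers x)
        (inv_mem (Subgroup.zpow_mem _ (pow_mem (Subgroup.mem_zpowers x) 2) m))
    have h4 : orderOf (y₁ ^ i) ∣ 2 ^ k := by
      rw [← hk]; exact orderOf_dvd_of_mem_zpowers h2
    have h5 : orderOf (y₁ ^ i) ∣ p := by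
      rw [← hord1]
      exact orderOf_dvd_of_mem_zpowers (Subgroup.zpow_mem _ (Subgroup.mem_zpowers y₁) i)
    have h6 : orderOf (y₁ ^ i) = 1 := by
      rcases (Nat.dvd_prime hp).mp h5 with h | h
      · exact h
      · rw [h] at h4
        exact absurd h4 hpodd
    have h7 : y₁ ^ i = 1 := orderOf_eq_one_iff.mp h6
    rw [h7, inv_one, one_mul] at hm'
    -- x = (x^2)^m
    have h8 : x ^ (2 * m - 1 : ℤ) = 1 := by
      rw [zpow_sub, zpow_mul, zpow_one]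
      have h9 : x ^ (2 : ℤ) = x ^ 2 := by norm_cast
      rw [h9, hm', mul_inv_cancel]
    have h10 := orderOf_dvd_iff_zpow_eq_one.mpr h8
    rw [hk] at h10
    have hk0 : k = 0 := by
      by_contra hk0
      have h11 : (2 : ℤ) ∣ ((2 ^ k : ℕ) : ℤ) := by
        have : (2 : ℕ) ∣ 2 ^ k := dvd_pow_self 2 hk0
        exact_mod_cast this
      have h12 := h11.trans h10
      omega
    rw [hk0, pow_zero, orderOf_eq_one_iff] at hk
    exact hx1 hk
  have hflip : Y⁻¹ * X * Y = X⁻¹ := by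
    have h0 : X * Y = Y * X⁻¹ := eq_mul_inv_of_mul_eq hXYX
    rw [mul_assoc, h0, inv_mul_cancel_left]
  have hXnorm : Subgroup.zpowers x ≤ Subgroup.normalizer ((Subgroup.zpowers y₁ : Subgroup G) : Set G) := by
    rw [Subgroup.zpowers_le]
    apply Cfsg.Agent.S3867.norm_of_conj_le
    rintro u ⟨m, rfl⟩
    have h0 : x * y₁ ^ m * x⁻¹ = (y₁⁻¹) ^ m := by rw [← conj_zpow, hinv1]
    show x * y₁ ^ m * x⁻¹ ∈ Subgroup.zpowers y₁
    rw [h0]
    exact Subgroup.zpow_mem _ (inv_mem (Subgroup.mem_zpowers y₁)) m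
  have hsurj : ∀ q : ↥K ⧸ R', q ∈ Subgroup.zpowers X ∨ ∃ h ∈ Subgroup.zpowers X, q = Y * h := by
    intro q
    obtain ⟨⟨g, hg⟩, rfl⟩ := QuotientGroup.mk'_surjective R' q
    obtain ⟨n', ⟨a, rfl⟩, h, ⟨b, rfl⟩, hgeq⟩ := Cfsg.Agent.Lib.Lead.mem_sup_of_le_normalizer
      (N := Subgroup.zpowers y₁) (H := Subgroup.zpowers x) hXnorm hg
    have h0 : (⟨g, hg⟩ : ↥K) = (⟨y₁, hyK⟩ : ↥K) ^ a * (⟨x, hxK⟩ : ↥K) ^ b := by
      apply Subtype.ext
      simp only [Subgroup.coe_mul, Subgroup.coe_zpow]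
      exact hgeq
    have h1 : QuotientGroup.mk' R' (⟨g, hg⟩ : ↥K) = X ^ a * Y ^ b := by
      rw [h0, map_mul, map_zpow, map_zpow]
    rw [h1]
    have hY2 : Y ^ (2 : ℤ) = 1 := by
      have h9 : Y ^ (2 : ℤ) = Y ^ 2 := by norm_cast
      rw [h9, pow_two, hYY]
    rcases Int.even_or_odd' b with ⟨c, hc | hc⟩
    · left
      rw [hc, zpow_mul, hY2, one_zpow, mul_one]
      exact Subgroup.zpow_mem _ (Subgroup.mem_zpowers X) a
    · right
      refine ⟨(X⁻¹) ^ a, Subgroup.zpow_mem _ (inv_mem (Subgroup.mem_zpowers X)) a, ?_⟩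
      rw [hc, zpow_add, zpow_mul, hY2, one_zpow, one_mul, zpow_one]
      have h5 := @conj_zpow _ _ a Y⁻¹ X
      rw [inv_inv, hflip] at h5
      rw [h5]
      group
  have hbij := Cfsg.Agent.Lib.Lead.dihHom_bijective p X Y hXp hYY hXYX hXord hYnot hsurj
  exact ⟨K, Subgroup.zpowers (x ^ 2), hRn, ⟨(MulEquiv.ofBijective _ hbij).symm⟩⟩

/-- II ⇒ III -/
theorem two_three {G : Type*} [Group G] [Finite G] {p : ℕ} [Fact p.Prime]
    (x : G) (P : Subgroup G) (hx2 : ∃ k : ℕ, orderOf x = 2 ^ k) (hP : IsPGroup p ↥P)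
    (hxN : x ∈ Subgroup.normalizer (P : Set G)) (hxC : x ∉ Subgroup.centralizer (P : Set G)) :
    ∃ x y : G, (∃ k : ℕ, orderOf x = 2 ^ k) ∧ (∃ k : ℕ, orderOf y = p ^ k) ∧ y ≠ 1 ∧
      x * y * x⁻¹ = y⁻¹ := by
  classical
  have hp : p.Prime := Fact.out
  obtain ⟨k, hk⟩ := hx2
  have hex : ∃ i : ℕ, x ^ 2 ^ i ∈ Subgroup.centralizer (P : Set G) :=
    ⟨k, by rw [← hk, pow_orderOf_eq_one]; exact one_mem _⟩
  have hi0 : Nat.find hex ≠ 0 := by
    intro h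
    have h0 := Nat.find_spec hex
    rw [h, pow_zero, pow_one] at h0
    exact hxC h0
  obtain ⟨i₁, hi₁⟩ : ∃ i₁, Nat.find hex = i₁ + 1 := ⟨Nat.find hex - 1, by omega⟩
  have hnot : x ^ 2 ^ i₁ ∉ Subgroup.centralizer (P : Set G) :=
    Nat.find_min hex (by omega)
  have hsq : x ^ 2 ^ i₁ * x ^ 2 ^ i₁ ∈ Subgroup.centralizer (P : Set G) := by
    have h0 := Nat.find_spec hex
    rw [hi₁, pow_succ, pow_mul, pow_two] at h0
    exact h0
  have hx'N : x ^ 2 ^ i₁ ∈ Subgroup.normalizer (P : Set G) := pow_mem hxN _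
  have hx'2 : ∃ l : ℕ, orderOf (x ^ 2 ^ i₁) = 2 ^ l := by
    have h0 : orderOf (x ^ 2 ^ i₁) ∣ 2 ^ k := by rw [← hk]; exact orderOf_pow_dvd _
    obtain ⟨l, _, hl⟩ := (Nat.dvd_prime_pow Nat.prime_two).mp h0
    exact ⟨l, hl⟩
  generalize x ^ 2 ^ i₁ = x' at hnot hsq hx'N hx'2
  rw [Subgroup.mem_centralizer_iff] at hnot
  push Not at hnot
  obtain ⟨g, hg, hgx⟩ := hnot
  have hgP : g ∈ P := hg
  have hconjP : x' * g * x'⁻¹ ∈ P := (Subgroup.mem_normalizer_iff.mp hx'N g).mp hgP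
  have hs : x' * x' * g = g * (x' * x') := by
    rw [Subgroup.mem_centralizer_iff] at hsq
    exact (hsq g hg).symm
  refine ⟨x', g⁻¹ * (x' * g * x'⁻¹), hx'2, ?_, ?_, ?_⟩
  · have hyP : g⁻¹ * (x' * g * x'⁻¹) ∈ P := mul_mem (inv_mem hgP) hconjP
    obtain ⟨a, ha⟩ := hP ⟨_, hyP⟩
    have ha' : (g⁻¹ * (x' * g * x'⁻¹)) ^ p ^ a = 1 := by simpa using congrArg Subtype.val ha
    obtain ⟨l, _, hl⟩ := (Nat.dvd_prime_pow hp).mp (orderOf_dvd_of_pow_eq_one ha')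
    exact ⟨l, hl⟩
  · intro h
    apply hgx
    have h1 : x' * g * x'⁻¹ = g := by
      have h2 := inv_mul_eq_one.mp h
      exact h2.symm
    rw [mul_inv_eq_iff_eq_mul] at h1
    exact h1.symm
  · calc x' * (g⁻¹ * (x' * g * x'⁻¹)) * x'⁻¹
        = x' * g⁻¹ * x'⁻¹ * (x' * x' * g) * x'⁻¹ * x'⁻¹ := by group
      _ = x' * g⁻¹ * x'⁻¹ * (g * (x' * x')) * x'⁻¹ * x'⁻¹ := by rw [hs]
      _ = (g⁻¹ * (x' * g * x'⁻¹))⁻¹ := by group

open DihedralGroup in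
/-- I ⇒ II -/
theorem one_two {G : Type*} [Group G] [Finite G] {p : ℕ} [Fact p.Prime] (hp2 : p ≠ 2)
    (h : Cfsg.Involves (DihedralGroup p) G) :
    ∃ (x : G) (P : Subgroup G), (∃ k : ℕ, orderOf x = 2 ^ k) ∧ IsPGroup p ↥P ∧
      x ∈ Subgroup.normalizer (P : Set G) ∧ x ∉ Subgroup.centralizer (P : Set G) := by
  classical
  have hp : p.Prime := Fact.out
  haveI : NeZero p := ⟨hp.ne_zero⟩
  have hpodd : Odd p := hp.odd_of_ne_two hp2
  obtain ⟨K, R, hRn, ⟨e⟩⟩ := h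
  haveI := hRn
  set φ : ↥K →* DihedralGroup p :=
    e.toMonoidHom.comp (QuotientGroup.mk' (R.subgroupOf K)) with hφ
  have hφs : Function.Surjective φ :=
    e.surjective.comp (QuotientGroup.mk'_surjective (R.subgroupOf K))
  -- the rotation subgroup
  have hrotn : (Subgroup.zpowers (r 1 : DihedralGroup p)).Normal := by
    apply Subgroup.normal_of_index_eq_two
    have h1 := (Subgroup.zpowers (r 1 : DihedralGroup p)).card_mul_index
    rw [Nat.card_zpowers, orderOf_r_one, DihedralGroup.nat_card] at h1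
    have h2 : p * (Subgroup.zpowers (r 1 : DihedralGroup p)).index = p * 2 := by rw [h1, mul_comm]
    exact Nat.eq_of_mul_eq_mul_left hp.pos h2
  haveI hAn : ((Subgroup.zpowers (r 1 : DihedralGroup p)).comap φ).Normal := hrotn.comap φ
  have hrmem : ∀ j : ZMod p, (r j : DihedralGroup p) ∈ Subgroup.zpowers (r 1 : DihedralGroup p) := by
    intro j
    refine ⟨(j.val : ℤ), ?_⟩
    show (r 1 : DihedralGroup p) ^ (j.val : ℤ) = r j
    rw [zpow_natCast, r_one_pow, ZMod.natCast_zmod_val]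
  have hsrnot : ∀ i : ZMod p, (sr i : DihedralGroup p) ∉ Subgroup.zpowers (r 1 : DihedralGroup p) := by
    rintro i ⟨z, hz⟩
    have hz' : (r 1 : DihedralGroup p) ^ z = sr i := hz
    rw [r_zpow] at hz'
    cases hz'
  have hrot : ∀ u : ↥K, (∃ a : ℕ, u ^ p ^ a = 1) → ∃ j, φ u = r j := by
    rintro u ⟨a, ha⟩
    rcases hu : φ u with j | i
    · exact ⟨j, rfl⟩
    · exfalso
      have h1 : (φ u) ^ p ^ a = 1 := by rw [← map_pow, ha, map_one]
      rw [hu, sr_pow_odd i _ (hpodd.pow)] at h1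
      rw [one_def] at h1
      cases h1
  obtain ⟨P⟩ : Nonempty (Sylow p ↥K) := inferInstance
  have hPA : (P : Subgroup ↥K) ≤ (Subgroup.zpowers (r 1 : DihedralGroup p)).comap φ := by
    intro u hu
    obtain ⟨a, ha⟩ := P.isPGroup' ⟨u, hu⟩
    have ha' : u ^ p ^ a = 1 := by simpa using congrArg Subtype.val ha
    obtain ⟨j, hj⟩ := hrot u ⟨a, ha'⟩
    rw [Subgroup.mem_comap, hj]
    exact hrmem j
  have hF : Subgroup.normalizer ((P : Subgroup ↥K) : Set ↥K) ⊔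
      (Subgroup.zpowers (r 1 : DihedralGroup p)).comap φ = ⊤ := Sylow.normalizer_sup_eq_top' P hPA
  obtain ⟨v₀, hv₀⟩ := hφs (sr 0)
  have hv₀mem : v₀ ∈ ((Subgroup.normalizer ((P : Subgroup ↥K) : Set ↥K) ⊔
      (Subgroup.zpowers (r 1 : DihedralGroup p)).comap φ : Subgroup ↥K) : Set ↥K) := by
    rw [hF]; trivial
  rw [Subgroup.mul_normal] at hv₀mem
  obtain ⟨n, hn, a, ha, hna⟩ := Set.mem_mul.mp hv₀mem
  have hnN : n ∈ Subgroup.normalizer ((P : Subgroup ↥K) : Set ↥K) := hn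
  have haA : φ a ∈ Subgroup.zpowers (r 1 : DihedralGroup p) := ha
  obtain ⟨i, hi⟩ : ∃ i, φ n = sr i := by
    rcases hu : φ n with j | i
    · exfalso
      have h1 : φ v₀ = φ n * φ a := by rw [← map_mul, hna]
      rw [hv₀, hu] at h1
      apply hsrnot 0
      rw [h1]
      exact mul_mem (hrmem j) haA
    · exact ⟨i, rfl⟩
  obtain ⟨k, m, hm, hkm⟩ := Nat.exists_eq_two_pow_mul_odd (orderOf_pos n).ne'
  have hx₀N : n ^ m ∈ Subgroup.normalizer ((P : Subgroup ↥K) : Set ↥K) := pow_mem hnN m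
  have hx₀φ : φ (n ^ m) = sr i := by rw [map_pow, hi, sr_pow_odd i m hm]
  have hx₀ord : ∃ l : ℕ, orderOf (n ^ m) = 2 ^ l := by
    have h0 : orderOf (n ^ m) ∣ 2 ^ k := orderOf_dvd_of_pow_eq_one (by
      rw [← pow_mul, mul_comm, ← hkm]; exact pow_orderOf_eq_one n)
    obtain ⟨l, _, hl⟩ := (Nat.dvd_prime_pow Nat.prime_two).mp h0
    exact ⟨l, hl⟩
  generalize n ^ m = x₀ at hx₀N hx₀φ hx₀ord
  -- an element of P with nontrivial image
  have hex : ∃ u₀ ∈ (P : Subgroup ↥K), φ u₀ ≠ 1 := by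
    by_contra hcon
    push Not at hcon
    have hle : (P : Subgroup ↥K) ≤ φ.ker := fun u hu => MonoidHom.mem_ker.mpr (hcon u hu)
    have h1 : φ.ker.index ∣ (P : Subgroup ↥K).index := Subgroup.index_dvd_of_le hle
    rw [Subgroup.index_ker, MonoidHom.range_eq_top.mpr hφs, Subgroup.card_top,
      DihedralGroup.nat_card] at h1
    exact P.not_dvd_index ((Dvd.intro_left 2 rfl).trans h1)
  obtain ⟨u₀, hu₀, hu₀φ⟩ := hex
  obtain ⟨a₀, ha₀⟩ := P.isPGroup' ⟨u₀, hu₀⟩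
  have ha₀' : u₀ ^ p ^ a₀ = 1 := by simpa using congrArg Subtype.val ha₀
  obtain ⟨j, hj⟩ := hrot u₀ ⟨a₀, ha₀'⟩
  have hj0 : j ≠ 0 := by
    rintro rfl
    apply hu₀φ
    rw [hj, one_def]
  obtain ⟨l, hl⟩ := hx₀ord
  refine ⟨(x₀ : G), (P : Subgroup ↥K).map K.subtype, ⟨l, by rw [Subgroup.orderOf_coe, hl]⟩,
    P.isPGroup'.map K.subtype, ?_, ?_⟩
  · apply Cfsg.Agent.S3867.norm_of_conj_le
    rintro _ ⟨w, hw, rfl⟩
    exact ⟨x₀ * w * x₀⁻¹, (Subgroup.mem_normalizer_iff.mp hx₀N w).mp hw, rfl⟩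
  · intro hc
    rw [Subgroup.mem_centralizer_iff] at hc
    have h1 := hc (u₀ : G) ⟨u₀, hu₀, rfl⟩
    have h2 : u₀ * x₀ = x₀ * u₀ := Subtype.ext h1
    have h3 : φ u₀ * φ x₀ = φ x₀ * φ u₀ := by rw [← map_mul, ← map_mul, h2]
    rw [hj, hx₀φ, r_mul_sr, sr_mul_r] at h3
    have h4 : i - j = i + j := by
      injection h3
    have h5 : (2 : ZMod p) * j = 0 := by
      have h6 : j + j = 0 := by linear_combination -h4
      rw [two_mul]; exact h6
    have h2ne : (2 : ZMod p) ≠ 0 := by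
      intro h7
      have h8 : ((2 : ℕ) : ZMod p) = 0 := by exact_mod_cast h7
      rw [ZMod.natCast_eq_zero_iff] at h8
      have h9 := Nat.le_of_dvd (by norm_num) h8
      have h10 := hp.two_le
      omega
    rcases mul_eq_zero.mp h5 with h7 | h7
    · exact h2ne h7
    · exact hj0 h7
theorem result {G : Type*} [Group G] [Finite G] {p : ℕ} [Fact p.Prime] (hp : p ≠ 2) : (Cfsg.Involves (DihedralGroup p) G ↔ ∃ (x : G) (P : Subgroup G), (∃ k : ℕ, orderOf x = 2 ^ k) ∧ IsPGroup p ↥P ∧ x ∈ Subgroup.normalizer (P : Set G) ∧ x ∉ Subgroup.centralizer (P : Set G)) ∧ (Cfsg.Involves (DihedralGroup p) G ↔ ∃ x y : G, (∃ k : ℕ, orderOf x = 2 ^ k) ∧ (∃ k : ℕ, orderOf y = p ^ k) ∧ y ≠ 1 ∧ x * y * x⁻¹ = y⁻¹) := by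
  have h12 := one_two (G := G) hp
  have h23 : (∃ (x : G) (P : Subgroup G), (∃ k : ℕ, orderOf x = 2 ^ k) ∧ IsPGroup p ↥P ∧
      x ∈ Subgroup.normalizer (P : Set G) ∧ x ∉ Subgroup.centralizer (P : Set G)) →
      ∃ x y : G, (∃ k : ℕ, orderOf x = 2 ^ k) ∧ (∃ k : ℕ, orderOf y = p ^ k) ∧ y ≠ 1 ∧
        x * y * x⁻¹ = y⁻¹ := by
    rintro ⟨x, P, hx2, hP, hxN, hxC⟩
    exact two_three x P hx2 hP hxN hxC
  have h31 : (∃ x y : G, (∃ k : ℕ, orderOf x = 2 ^ k) ∧ (∃ k : ℕ, orderOf y = p ^ k) ∧ y ≠ 1 ∧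
        x * y * x⁻¹ = y⁻¹) → Cfsg.Involves (DihedralGroup p) G := by
    rintro ⟨x, y, hx2, hyp, hy1, hinv⟩
    exact three_one hp x y hx2 hyp hy1 hinv
  exact ⟨⟨h12, fun h => h31 (h23 h)⟩, ⟨fun h => h23 (h12 h), h31⟩⟩

end Cfsg.Agent.S2758
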