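import Cfsg.Statements.S2898
import Mathlib
import Cfsg.Prelude.Def_CaseTheorems
import Cfsg.Prelude.Def_LocalStructure
import Cfsg.Agent.Lib.Helper4.PPrime
import Cfsg.Agent.Lib.Helper4.StrEmb
import Cfsg.Agent.Lib.Helper3.FpfInv

set_option autoImplicit false
open Cfsg
open scoped commutatorElement

namespace Cfsg.Agent.S2898

open Cfsg Cfsg.Agent.Lib

/-- Let G be a finite group of even order with parabolic characteristic 2. If the centre of G ⧸ O(G) is trivial, then O(G) = 1. -/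
theorem result {G : Type*} [Group G] [Finite G] (h2 : 2 ∣ Nat.card G) (hG : Cfsg.IsOfParabolicCharacteristic 2 G) [hN : (Cfsg.oddCore G).Normal] (hZ : Subgroup.center (G ⧸ Cfsg.oddCore G) = ⊥) : Cfsg.oddCore G = ⊥ := by
  haveI : Fact (Nat.Prime 2) := ⟨Nat.prime_two⟩
  by_contra hO
  have hcop : (Nat.card ↥(Cfsg.oddCore G)).Coprime 2 := Helper4.pPrimeCore_coprime 2 G
  obtain ⟨S⟩ : Nonempty (Sylow 2 G) := inferInstance
  have hS1 : (S : Subgroup G) ≠ ⊥ := by
    intro h
    have h1 := S.card_eq_multiplicity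
    rw [h, Subgroup.card_bot] at h1
    have h3 : 0 < (Nat.card G).factorization 2 :=
      Nat.prime_two.factorization_pos_of_dvd Nat.card_pos.ne' h2
    have h4 := Nat.one_lt_pow h3.ne' (by norm_num : 1 < 2)
    omega
  obtain ⟨z, hzS, hz2, hzc⟩ :=
    Helper4.exists_central_order_p S.isPGroup' le_rfl Subgroup.le_normalizer hS1
  have hzz : z * z = 1 := by
    rw [← pow_two, ← hz2]
    exact pow_orderOf_eq_one z
  have hz1 : z ≠ 1 := by
    rintro rfl
    rw [orderOf_one] at hz2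
    norm_num at hz2
  have hSC : (S : Subgroup G) ≤ Subgroup.centralizer ({z} : Set G) := by
    intro s hs
    rw [Subgroup.mem_centralizer_iff]
    intro y hy
    rw [Set.mem_singleton_iff] at hy
    rw [hy]
    exact (hzc s hs).symm
  have hpar1 : IsParabolic 2 (Subgroup.normalizer ((Subgroup.zpowers z : Subgroup G) : Set G)) :=
    ⟨S, hSC.trans (Helper4.centralizer_singleton_le_normalizer_zpowers z)⟩
  have hRp : IsPGroup 2 (Subgroup.zpowers z) := by
    apply IsPGroup.of_card (n := 1)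
    rw [Nat.card_zpowers, hz2, pow_one]
  have hR1 : Subgroup.zpowers z ≠ ⊥ := by
    rw [Ne, Subgroup.zpowers_eq_bot]
    exact hz1
  have hchar1 := hG _ hRp hR1 hpar1
  have hfpf : Cfsg.oddCore G ⊓ Subgroup.centralizer ({z} : Set G) = ⊥ := by
    rw [eq_bot_iff]
    rintro d ⟨hdO, hdC⟩
    rw [Subgroup.mem_bot]
    exact Helper4.pPrimeCore_inf_eq_one_of_charP _ hchar1 d hdO
      (Helper4.centralizer_singleton_le_normalizer_zpowers z hdC)
  have hinv := Helper3.fpf_involution_inverts z hzz (Cfsg.oddCore G) hfpf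
  have hinvg : ∀ g : G, ∀ o ∈ Cfsg.oddCore G, (g * z * g⁻¹) * o * (g * z * g⁻¹)⁻¹ = o⁻¹ := by
    intro g
    exact Helper3.fpf_conj_inverts z hzz (Cfsg.oddCore G) hfpf (g * z * g⁻¹) (isConj_iff.mpr ⟨g, rfl⟩)
  have hC : ∀ g : G, z * (g * z * g⁻¹) ∈ Subgroup.centralizer ((Cfsg.oddCore G : Subgroup G) : Set G) := by
    intro g
    rw [Subgroup.mem_centralizer_iff]
    intro o ho
    have e1 := hinvg g o ho
    have e2 := hinv o⁻¹ ((Cfsg.oddCore G).inv_mem ho)
    rw [inv_inv] at e2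
    have e3 : (g * z * g⁻¹) * o = o⁻¹ * (g * z * g⁻¹) := by
      rw [← e1]; group
    have e4 : z * o⁻¹ = o * z := by
      have := congrArg (· * z) e2
      simpa [mul_assoc] using this
    calc o * (z * (g * z * g⁻¹)) = (o * z) * (g * z * g⁻¹) := by group
      _ = z * o⁻¹ * (g * z * g⁻¹) := by rw [e4]
      _ = z * (o⁻¹ * (g * z * g⁻¹)) := by group
      _ = z * ((g * z * g⁻¹) * o) := by rw [e3]
      _ = z * (g * z * g⁻¹) * o := by group
  haveI hCn : (Subgroup.centralizer ((Cfsg.oddCore G : Subgroup G) : Set G)).Normal :=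
    Subgroup.normal_centralizer
  have hT : (S : Subgroup G) ⊓ Subgroup.centralizer ((Cfsg.oddCore G : Subgroup G) : Set G) = ⊥ := by
    by_contra hT1
    have hTp : IsPGroup 2 ((S : Subgroup G) ⊓ Subgroup.centralizer ((Cfsg.oddCore G : Subgroup G) : Set G) : Subgroup G) :=
      S.isPGroup'.to_inf_left
    have hpar2 : IsParabolic 2 (Subgroup.normalizer (((S : Subgroup G) ⊓ Subgroup.centralizer ((Cfsg.oddCore G : Subgroup G) : Set G) : Subgroup G) : Set G)) := by
      refine ⟨S, ?_⟩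
      intro s hs
      rw [Subgroup.mem_normalizer_iff]
      intro x
      constructor
      · intro hx
        obtain ⟨hx1, hx2⟩ := Subgroup.mem_inf.mp hx
        exact Subgroup.mem_inf.mpr ⟨Subgroup.mul_mem _ (Subgroup.mul_mem _ hs hx1) (Subgroup.inv_mem _ hs), hCn.conj_mem x hx2 s⟩
      · intro hx
        obtain ⟨hx1, hx2⟩ := Subgroup.mem_inf.mp hx
        have e : s⁻¹ * (s * x * s⁻¹) * s⁻¹⁻¹ = x := by group
        refine Subgroup.mem_inf.mpr ⟨?_, ?_⟩
        · have := Subgroup.mul_mem _ (Subgroup.mul_mem _ (Subgroup.inv_mem _ hs) hx1) (Subgroup.inv_mem _ (Subgroup.inv_mem _ hs))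
          rwa [e] at this
        · have := hCn.conj_mem _ hx2 s⁻¹
          rwa [e] at this
    have hchar2 := hG _ hTp hT1 hpar2
    apply hO
    rw [eq_bot_iff]
    intro o ho
    rw [Subgroup.mem_bot]
    apply Helper4.pPrimeCore_inf_eq_one_of_charP _ hchar2 o ho
    apply Subgroup.centralizer_le_normalizer
    rw [Subgroup.mem_centralizer_iff]
    intro t ht
    have ht2 := (Subgroup.mem_inf.mp ht).2
    rw [Subgroup.mem_centralizer_iff] at ht2
    exact (ht2 o ho).symm
  have hCodd : (Nat.card ↥(Subgroup.centralizer ((Cfsg.oddCore G : Subgroup G) : Set G))).Coprime 2 := by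
    apply Nat.Coprime.symm
    rw [Nat.Prime.coprime_iff_not_dvd Nat.prime_two]
    intro hdvd
    obtain ⟨c, hc⟩ := exists_prime_orderOf_dvd_card' (G := ↥(Subgroup.centralizer ((Cfsg.oddCore G : Subgroup G) : Set G))) 2 hdvd
    have hc' : orderOf (c : G) = 2 := by rw [Subgroup.orderOf_coe]; exact hc
    have hzp : IsPGroup 2 (Subgroup.zpowers (c : G)) := by
      apply IsPGroup.of_card (n := 1)
      rw [Nat.card_zpowers, hc', pow_one]
    obtain ⟨k, -, hk⟩ := (Helper8.sylIn_top S).exists_conj_le hzp le_top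
    have h1 : k * (c : G) * k⁻¹ ∈ (S : Subgroup G) ⊓ Subgroup.centralizer ((Cfsg.oddCore G : Subgroup G) : Set G) :=
      ⟨hk (Helper8.cj_mem (Subgroup.mem_zpowers _)), hCn.conj_mem _ c.2 k⟩
    rw [hT, Subgroup.mem_bot] at h1
    have h3 : (c : G) = 1 := by
      have := congrArg (fun w => k⁻¹ * w * k) h1
      simpa [mul_assoc] using this
    rw [h3, orderOf_one] at hc'
    norm_num at hc'
  have hCO : Subgroup.centralizer ((Cfsg.oddCore G : Subgroup G) : Set G) ≤ Cfsg.oddCore G :=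
    Helper4.le_pPrimeCore hCn hCodd
  have hzi : z⁻¹ = z := inv_eq_of_mul_eq_one_right hzz
  have hzcen : (QuotientGroup.mk z : G ⧸ Cfsg.oddCore G) ∈ Subgroup.center (G ⧸ Cfsg.oddCore G) := by
    rw [Subgroup.mem_center_iff]
    intro y
    obtain ⟨g, rfl⟩ := QuotientGroup.mk_surjective y
    rw [← QuotientGroup.mk_mul, ← QuotientGroup.mk_mul, QuotientGroup.eq]
    have h1 := hCO (hC g⁻¹)
    have e : (g * z)⁻¹ * (z * g) = z * (g⁻¹ * z * g⁻¹⁻¹) := by
      rw [mul_inv_rev, hzi, inv_inv]; group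
    rw [e]
    exact h1
  rw [hZ, Subgroup.mem_bot, QuotientGroup.eq_one_iff] at hzcen
  have h5 := Helper4.pow_card_pPrimeCore hzcen
  have h6 := orderOf_dvd_of_pow_eq_one h5
  rw [hz2] at h6
  exact (Nat.Prime.coprime_iff_not_dvd Nat.prime_two).mp hcop.symm h6

end Cfsg.Agent.S2898
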