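import Cfsg.Statements.S2908
import Mathlib
import Cfsg.Statements.S2908
import Cfsg.Agent.Lib.Lead.Coprime
import Cfsg.Agent.Lib.Lead.PQ

set_option autoImplicit false
open Cfsg
open scoped commutatorElement

namespace Cfsg.Agent.S2908

open Cfsg Cfsg.Agent.Lib
open scoped commutatorElement
open Pointwise

/-- Let P be a p-subgroup of a finite group, normalized by a p-subgroup A and by a subgroup B of order prime to p that commutes elementwise with A. If [P, B] ≤ [P, A], then B centralizes P. -/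
theorem result {G : Type*} [Group G] [Finite G] {p : ℕ} [Fact p.Prime] (P A B : Subgroup G) (hP : IsPGroup p ↥P) (hA : IsPGroup p ↥A) (hB : ¬ p ∣ Nat.card ↥B) (hnA : A ≤ Subgroup.normalizer (P : Set G)) (hnB : B ≤ Subgroup.normalizer (P : Set G)) (hAB : ⁅A, B⁆ = ⊥) (hcomm : ⁅P, B⁆ ≤ ⁅P, A⁆) : ⁅P, B⁆ = ⊥ := by
  have hp : p.Prime := Fact.out
  by_contra hne
  have hcop : (Nat.card B).Coprime (Nat.card P) := by
    obtain ⟨k, hk⟩ := IsPGroup.iff_card.mp hP
    rw [hk]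
    exact Nat.Coprime.pow_right k ((Nat.Prime.coprime_iff_not_dvd hp).mpr hB).symm
  have hsolv : Group.IsSolvable B ∨ Group.IsSolvable P := Or.inr (by
    haveI := hP.isNilpotent
    infer_instance)
  have hP₁P : ⁅P, B⁆ ≤ P := Lead.commutator_le_of_le_normalizer P B hnB
  have hP₁p : IsPGroup p ↥(⁅P, B⁆) := hP.to_le hP₁P
  have hcc : ⁅⁅P, B⁆, B⁆ = ⁅P, B⁆ := Lead.commutator_commutator_eq_of_coprime B P hnB hcop hsolv
  have hΓp : IsPGroup p ↥(P ⊔ A) := IsPGroup.to_sup_of_normal_left' hP hA hnA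
  have hab : ∀ a ∈ A, ∀ b ∈ B, a * b = b * a := by
    intro a ha b hb
    have := Subgroup.commutator_mem_commutator ha hb
    rw [hAB, Subgroup.mem_bot] at this
    exact commutatorElement_eq_one_iff_mul_comm.mp this
  have hAnB : A ≤ Subgroup.normalizer (B : Set G) := by
    intro a ha
    apply Subgroup.centralizer_le_normalizer
    rw [Subgroup.mem_centralizer_iff]
    intro b hb
    exact (hab a ha b hb).symm
  have hBnA : B ≤ Subgroup.normalizer (A : Set G) := by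
    intro b hb
    apply Subgroup.centralizer_le_normalizer
    rw [Subgroup.mem_centralizer_iff]
    intro a ha
    exact hab a ha b hb
  have hΓP₁ : P ⊔ A ≤ Subgroup.normalizer ((⁅P, B⁆ : Subgroup G) : Set G) :=
    sup_le (Lead.le_normalizer_commutator P B) (fun a ha => Lead.mem_normalizer_commutator (hnA ha) (hAnB ha))
  have hlt : ⁅⁅P, B⁆, P ⊔ A⁆ < ⁅P, B⁆ := Lead.commutator_lt_of_pgroups hP₁p hΓp hΓP₁ hne
  have hBΓ : B ≤ Subgroup.normalizer ((P ⊔ A : Subgroup G) : Set G) := by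
    intro b hb
    apply Lead.mem_normalizer_of_conj_smul_eq
    have h1 : MulAut.conj b • (P ⊔ A) = MulAut.conj b • P ⊔ MulAut.conj b • A :=
      Subgroup.map_sup P A (MulAut.conj b).toMonoidHom
    rw [h1, Lead.conj_smul_eq_of_mem_normalizer (hnB hb), Lead.conj_smul_eq_of_mem_normalizer (hBnA hb)]
  have hBX : B ≤ Subgroup.normalizer ((⁅⁅P, B⁆, P ⊔ A⁆ : Subgroup G) : Set G) :=
    fun b hb => Lead.mem_normalizer_commutator (Lead.le_normalizer_commutator_right P B hb) (hBΓ hb)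
  have hΓX : P ⊔ A ≤ Subgroup.normalizer ((⁅⁅P, B⁆, P ⊔ A⁆ : Subgroup G) : Set G) :=
    Lead.le_normalizer_commutator_right _ _
  have hCX : P ⊓ Subgroup.centralizer (B : Set G) ≤ Subgroup.normalizer ((⁅⁅P, B⁆, P ⊔ A⁆ : Subgroup G) : Set G) :=
    fun c hc => hΓX ((le_sup_left : P ≤ P ⊔ A) (Subgroup.mem_inf.mp hc).1)
  have hPA : ⁅P, A⁆ ≤ ⁅⁅P, B⁆, P ⊔ A⁆ ⊔ (P ⊓ Subgroup.centralizer (B : Set G)) := by
    rw [Subgroup.commutator_le]
    intro y hy a ha
    obtain ⟨x, hx, c, hc, rfl⟩ := Lead.exists_commutator_mul_centralizer B P hnB hcop hsolv hy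
    obtain ⟨hcP, hcB⟩ := Subgroup.mem_inf.mp hc
    have e : ⁅x * c, a⁆ = ⁅x, ⁅c, a⁆⁆ * ⁅c, a⁆ * ⁅x, a⁆ := by
      simp only [commutatorElement_def]; group
    have hca : ⁅c, a⁆ ∈ P ⊓ Subgroup.centralizer (B : Set G) := by
      have h1 : a * c⁻¹ * a⁻¹ ∈ P := (Subgroup.mem_normalizer_iff.mp (hnA ha) c⁻¹).mp (P.inv_mem hcP)
      have h2 : a * c⁻¹ * a⁻¹ ∈ Subgroup.centralizer (B : Set G) := by
        rw [Subgroup.mem_centralizer_iff] at hcB ⊢
        intro b hb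
        have h3 := hab a ha b hb
        have h4 := hcB b hb
        have h5 : b * c⁻¹ = c⁻¹ * b := by
          calc b * c⁻¹ = c⁻¹ * (c * b) * c⁻¹ := by group
            _ = c⁻¹ * (b * c) * c⁻¹ := by rw [← h4]
            _ = c⁻¹ * b := by group
        have h6 : b * a⁻¹ = a⁻¹ * b := by
          calc b * a⁻¹ = a⁻¹ * (a * b) * a⁻¹ := by group
            _ = a⁻¹ * (b * a) * a⁻¹ := by rw [h3]
            _ = a⁻¹ * b := by group
        calc b * (a * c⁻¹ * a⁻¹) = (b * a) * c⁻¹ * a⁻¹ := by group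
          _ = (a * b) * c⁻¹ * a⁻¹ := by rw [h3]
          _ = a * (b * c⁻¹) * a⁻¹ := by group
          _ = a * (c⁻¹ * b) * a⁻¹ := by rw [h5]
          _ = a * c⁻¹ * (b * a⁻¹) := by group
          _ = a * c⁻¹ * (a⁻¹ * b) := by rw [h6]
          _ = a * c⁻¹ * a⁻¹ * b := by group
      have e2 : ⁅c, a⁆ = c * (a * c⁻¹ * a⁻¹) := by rw [commutatorElement_def]; group
      rw [e2]
      exact Subgroup.mul_mem _ hc (Subgroup.mem_inf.mpr ⟨h1, h2⟩)
    rw [e]
    refine Subgroup.mul_mem _ (Subgroup.mul_mem _ ?_ ?_) ?_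
    · exact (le_sup_left : _ ≤ ⁅⁅P, B⁆, P ⊔ A⁆ ⊔ (P ⊓ Subgroup.centralizer (B : Set G)))
        (Subgroup.commutator_mem_commutator hx ((le_sup_left : P ≤ P ⊔ A) (Subgroup.mem_inf.mp hca).1))
    · exact (le_sup_right : _ ≤ ⁅⁅P, B⁆, P ⊔ A⁆ ⊔ (P ⊓ Subgroup.centralizer (B : Set G))) hca
    · exact (le_sup_left : _ ≤ ⁅⁅P, B⁆, P ⊔ A⁆ ⊔ (P ⊓ Subgroup.centralizer (B : Set G)))
        (Subgroup.commutator_mem_commutator hx ((le_sup_right : A ≤ P ⊔ A) ha))
  have hfin : ⁅⁅P, B⁆, B⁆ ≤ ⁅⁅P, B⁆, P ⊔ A⁆ := by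
    rw [Subgroup.commutator_le]
    intro y hy b hb
    obtain ⟨x, hx, c, hc, rfl⟩ := Lead.mem_sup_of_le_normalizer hCX (hPA (hcomm hy))
    have hcb : ⁅c, b⁆ = 1 := by
      rw [commutatorElement_eq_one_iff_mul_comm]
      exact (Subgroup.mem_centralizer_iff.mp (Subgroup.mem_inf.mp hc).2 b hb).symm
    have e : ⁅x * c, b⁆ = x * ⁅c, b⁆ * x⁻¹ * ⁅x, b⁆ := by
      simp only [commutatorElement_def]; group
    rw [e, hcb]
    have e2 : x * 1 * x⁻¹ * ⁅x, b⁆ = x * (b * x⁻¹ * b⁻¹) := by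
      rw [commutatorElement_def]; group
    rw [e2]
    exact Subgroup.mul_mem _ hx ((Subgroup.mem_normalizer_iff.mp (hBX hb) x⁻¹).mp (Subgroup.inv_mem _ hx))
  rw [hcc] at hfin
  exact (not_le_of_gt hlt) hfin

end Cfsg.Agent.S2908
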