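import Cfsg.Statements.S2909
import Mathlib
import Cfsg.Statements.S2909
import Cfsg.Agent.S2908
import Cfsg.Agent.Lib.Helper4.StrEmb
import Cfsg.Agent.Lib.Helper4.CoprimeGen
import Cfsg.Agent.Lib.Lead.PQ

set_option autoImplicit false
open Cfsg
open scoped commutatorElement

namespace Cfsg.Agent.S2909

open Cfsg Cfsg.Agent.Lib
open scoped commutatorElement

theorem aux {G : Type*} [Group G] [Finite G] {p : ℕ} [Fact p.Prime] (E : Subgroup G) [hEn : E.Normal] (hE : IsPGroup p ↥E) (U : Subgroup G) (hU : Cfsg.IsElementaryAbelian p U) (hcond : (∀ u ∈ U, u ≠ 1 → E ⊓ Subgroup.centralizer (U : Set G) = E ⊓ Subgroup.centralizer ({u} : Set G)) ∨ (∀ u ∈ U, u ≠ 1 → ⁅E, U⁆ = ⁅E, Subgroup.zpowers u⁆)) (R : Subgroup G) (hR : ¬ p ∣ Nat.card ↥R) (hRU : U ≤ Subgroup.normalizer (R : Set G)) (x : G) (hxU : x ∈ U) (hx1 : x ≠ 1) :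
    ⁅R ⊓ Subgroup.centralizer ({x} : Set G), U⁆ ≤ Subgroup.centralizer (E : Set G) := by
  have hp : p.Prime := Fact.out
  have hUcomm : ∀ u ∈ U, ∀ v ∈ U, u * v = v * u := by
    intro u hu v hv
    have := hU.1.is_comm.comm ⟨u, hu⟩ ⟨v, hv⟩
    exact congrArg Subtype.val this
  have hxp : x ^ p = 1 := hU.2 x hxU
  have hUN : U ≤ Subgroup.normalizer ((R ⊓ Subgroup.centralizer ({x} : Set G) : Subgroup G) : Set G) := by
    have key : ∀ u ∈ U, ∀ r ∈ R ⊓ Subgroup.centralizer ({x} : Set G), u * r * u⁻¹ ∈ R ⊓ Subgroup.centralizer ({x} : Set G) := by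
      intro u hu r hr
      obtain ⟨hr1, hr2⟩ := Subgroup.mem_inf.mp hr
      refine Subgroup.mem_inf.mpr ⟨(Subgroup.mem_normalizer_iff.mp (hRU hu) r).mp hr1, ?_⟩
      rw [Subgroup.mem_centralizer_iff] at hr2 ⊢
      intro y hy
      rw [Set.mem_singleton_iff] at hy
      subst hy
      have h1 := hr2 y rfl
      have h2 := hUcomm u hu y hxU
      have h3 : y * u⁻¹ = u⁻¹ * y := by
        calc y * u⁻¹ = u⁻¹ * (u * y) * u⁻¹ := by group
          _ = u⁻¹ * (y * u) * u⁻¹ := by rw [h2]
          _ = u⁻¹ * y := by group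
      calc y * (u * r * u⁻¹) = (y * u) * r * u⁻¹ := by group
        _ = (u * y) * r * u⁻¹ := by rw [h2]
        _ = u * (y * r) * u⁻¹ := by group
        _ = u * (r * y) * u⁻¹ := by rw [h1]
        _ = u * r * (y * u⁻¹) := by group
        _ = u * r * (u⁻¹ * y) := by rw [h3]
        _ = u * r * u⁻¹ * y := by group
    intro u hu
    rw [Subgroup.mem_normalizer_iff]
    intro r
    refine ⟨key u hu r, fun hr => ?_⟩
    have := key u⁻¹ (U.inv_mem hu) _ hr
    simpa [mul_assoc] using this
  have hQle : ⁅R ⊓ Subgroup.centralizer ({x} : Set G), U⁆ ≤ R ⊓ Subgroup.centralizer ({x} : Set G) :=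
    Lead.commutator_le_of_le_normalizer _ U hUN
  have hQcop : (Nat.card ↥(⁅R ⊓ Subgroup.centralizer ({x} : Set G), U⁆)).Coprime p :=
    Nat.Coprime.coprime_dvd_left (Subgroup.card_dvd_of_le (hQle.trans inf_le_left))
      ((Nat.Prime.coprime_iff_not_dvd hp).mpr hR).symm
  have hZp : IsPGroup p ↥(Subgroup.zpowers x) := by
    have hd : Nat.card (Subgroup.zpowers x) ∣ p ^ 1 := by
      rw [Nat.card_zpowers, pow_one]; exact orderOf_dvd_of_pow_eq_one hxp
    obtain ⟨k, -, hk⟩ := (Nat.dvd_prime_pow hp).mp hd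
    exact IsPGroup.of_card hk
  have hNE : Subgroup.normalizer (E : Set G) = ⊤ := Subgroup.normalizer_eq_top_iff.mpr hEn
  have hZQ : Subgroup.zpowers x ≤ Subgroup.centralizer ((⁅R ⊓ Subgroup.centralizer ({x} : Set G), U⁆ : Subgroup G) : Set G) := by
    rw [Subgroup.zpowers_le, Subgroup.mem_centralizer_iff]
    intro q hq
    have := (Subgroup.mem_inf.mp (hQle hq)).2
    rw [Subgroup.mem_centralizer_iff] at this
    exact (this x rfl).symm
  have hfin : ⁅E, ⁅R ⊓ Subgroup.centralizer ({x} : Set G), U⁆⁆ = ⊥ := by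
    rcases hcond with hc | hc
    · apply Lead.thompson_pq p (Subgroup.zpowers x) _ hZp hQcop hZQ (Nat.card E) E rfl hE
        (by rw [hNE]; exact le_top) (by rw [hNE]; exact le_top)
      have hE0 := hc x hxU hx1
      have hQC : ⁅R ⊓ Subgroup.centralizer ({x} : Set G), U⁆ ≤
          Subgroup.centralizer ((E ⊓ Subgroup.centralizer (U : Set G) : Subgroup G) : Set G) := by
        rw [Subgroup.commutator_le]
        intro r hr u hu
        rw [Subgroup.mem_centralizer_iff]
        intro e he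
        obtain ⟨he1, he2⟩ := Subgroup.mem_inf.mp he
        have hue : u * e = e * u := by
          rw [Subgroup.mem_centralizer_iff] at he2
          exact he2 u hu
        have he' : r⁻¹ * e * r ∈ E ⊓ Subgroup.centralizer (U : Set G) := by
          rw [hE0]
          refine Subgroup.mem_inf.mpr ⟨?_, ?_⟩
          · have := hEn.conj_mem e he1 r⁻¹
            simpa using this
          · have hrx := (Subgroup.mem_inf.mp hr).2
            rw [Subgroup.mem_centralizer_iff] at hrx ⊢
            intro y hy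
            rw [Set.mem_singleton_iff] at hy
            subst hy
            have h1 := hrx y rfl
            have h2 : y * e = e * y := by
              rw [Subgroup.mem_centralizer_iff] at he2
              exact he2 y hxU
            have h3 : y * r⁻¹ = r⁻¹ * y := by
              calc y * r⁻¹ = r⁻¹ * (r * y) * r⁻¹ := by group
                _ = r⁻¹ * (y * r) * r⁻¹ := by rw [h1]
                _ = r⁻¹ * y := by group
            calc y * (r⁻¹ * e * r) = (y * r⁻¹) * e * r := by group
              _ = (r⁻¹ * y) * e * r := by rw [h3]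
              _ = r⁻¹ * (y * e) * r := by group
              _ = r⁻¹ * (e * y) * r := by rw [h2]
              _ = r⁻¹ * e * (y * r) := by group
              _ = r⁻¹ * e * (r * y) := by rw [h1]
              _ = r⁻¹ * e * r * y := by group
        have hue' : u * (r⁻¹ * e * r) = (r⁻¹ * e * r) * u := by
          have := (Subgroup.mem_inf.mp he').2
          rw [Subgroup.mem_centralizer_iff] at this
          exact this u hu
        have hue2 : u⁻¹ * e = e * u⁻¹ := by
          calc u⁻¹ * e = u⁻¹ * (e * u) * u⁻¹ := by group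
            _ = u⁻¹ * (u * e) * u⁻¹ := by rw [hue]
            _ = e * u⁻¹ := by group
        rw [commutatorElement_def]
        calc e * (r * u * r⁻¹ * u⁻¹) = r * ((r⁻¹ * e * r) * u) * r⁻¹ * u⁻¹ := by group
          _ = r * (u * (r⁻¹ * e * r)) * r⁻¹ * u⁻¹ := by rw [hue']
          _ = r * u * r⁻¹ * (e * u⁻¹) := by group
          _ = r * u * r⁻¹ * (u⁻¹ * e) := by rw [hue2]
          _ = r * u * r⁻¹ * u⁻¹ * e := by group
      intro e he
      obtain ⟨he1, he2⟩ := Subgroup.mem_inf.mp he
      have he3 : e ∈ E ⊓ Subgroup.centralizer (U : Set G) := by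
        rw [hE0]
        refine Subgroup.mem_inf.mpr ⟨he1, ?_⟩
        rw [Subgroup.mem_centralizer_iff] at he2 ⊢
        intro y hy
        rw [Set.mem_singleton_iff] at hy
        subst hy
        exact he2 y (Subgroup.mem_zpowers y)
      rw [Subgroup.mem_centralizer_iff]
      intro q hq
      have := Subgroup.mem_centralizer_iff.mp (hQC hq) e he3
      exact this.symm
    · have hE1 := hc x hxU hx1
      have hnUE1 : U ≤ Subgroup.normalizer ((⁅E, U⁆ : Subgroup G) : Set G) :=
        Lead.le_normalizer_commutator_right E U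
      have hnRE1 : R ⊓ Subgroup.centralizer ({x} : Set G) ≤ Subgroup.normalizer ((⁅E, U⁆ : Subgroup G) : Set G) := by
        intro r hr
        rw [hE1]
        apply Lead.mem_normalizer_commutator
        · rw [hNE]; exact Subgroup.mem_top _
        · exact Helper4.centralizer_singleton_le_normalizer_zpowers x (Subgroup.mem_inf.mp hr).2
      let T : Subgroup G :=
        { carrier := {g | g ∈ Subgroup.normalizer ((⁅E, U⁆ : Subgroup G) : Set G) ∧ ∀ e ∈ E, ⁅e, g⁆ ∈ ⁅E, U⁆}
          one_mem' := ⟨Subgroup.one_mem _, fun e _ => by simp⟩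
          mul_mem' := by
            rintro g h ⟨hg1, hg2⟩ ⟨hh1, hh2⟩
            refine ⟨Subgroup.mul_mem _ hg1 hh1, fun e he => ?_⟩
            have e1 : ⁅e, g * h⁆ = ⁅e, g⁆ * (g * ⁅e, h⁆ * g⁻¹) := by
              simp only [commutatorElement_def]; group
            rw [e1]
            exact Subgroup.mul_mem _ (hg2 e he) ((Subgroup.mem_normalizer_iff.mp hg1 _).mp (hh2 e he))
          inv_mem' := by
            rintro g ⟨hg1, hg2⟩
            refine ⟨Subgroup.inv_mem _ hg1, fun e he => ?_⟩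
            have e1 : ⁅e, g⁻¹⁆ = g⁻¹ * ⁅e, g⁆⁻¹ * g⁻¹⁻¹ := by
              simp only [commutatorElement_def]; group
            rw [e1]
            exact (Subgroup.mem_normalizer_iff.mp (Subgroup.inv_mem _ hg1) _).mp (Subgroup.inv_mem _ (hg2 e he)) }
      have hUT : U ≤ T := fun u hu => ⟨hnUE1 hu, fun e he => Subgroup.commutator_mem_commutator he hu⟩
      have hQT : ⁅R ⊓ Subgroup.centralizer ({x} : Set G), U⁆ ≤ T := by
        rw [Subgroup.commutator_le]
        intro r hr u hu
        have hrn := hnRE1 hr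
        have h1 : r * u * r⁻¹ ∈ T := by
          obtain ⟨hu1, hu2⟩ := hUT hu
          refine ⟨Subgroup.mul_mem _ (Subgroup.mul_mem _ hrn hu1) (Subgroup.inv_mem _ hrn), fun e he => ?_⟩
          have e1 : ⁅e, r * u * r⁻¹⁆ = r * ⁅r⁻¹ * e * r, u⁆ * r⁻¹ := by
            simp only [commutatorElement_def]; group
          rw [e1]
          have he' : r⁻¹ * e * r ∈ E := by
            have := hEn.conj_mem e he r⁻¹
            simpa using this
          exact (Subgroup.mem_normalizer_iff.mp hrn _).mp (hu2 _ he')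
        have e2 : ⁅r, u⁆ = (r * u * r⁻¹) * u⁻¹ := by rw [commutatorElement_def]
        rw [e2]
        exact T.mul_mem h1 (T.inv_mem (hUT hu))
      have hcomm : ⁅E, ⁅R ⊓ Subgroup.centralizer ({x} : Set G), U⁆⁆ ≤ ⁅E, Subgroup.zpowers x⁆ := by
        rw [← hE1, Subgroup.commutator_le]
        intro e he q hq
        exact (hQT hq).2 e he
      have hB : ¬ p ∣ Nat.card ↥(⁅R ⊓ Subgroup.centralizer ({x} : Set G), U⁆) := by
        intro h
        have := Nat.Coprime.eq_one_of_dvd hQcop.symm h
        exact hp.one_lt.ne' this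
      have hAB : ⁅Subgroup.zpowers x, ⁅R ⊓ Subgroup.centralizer ({x} : Set G), U⁆⁆ = ⊥ :=
        Subgroup.commutator_eq_bot_iff_le_centralizer.mpr hZQ
      exact Cfsg.Agent.S2908.result E (Subgroup.zpowers x) _ hE hZp hB (by rw [hNE]; exact le_top)
        (by rw [hNE]; exact le_top) hAB hcomm
  rw [Subgroup.commutator_comm] at hfin
  exact Subgroup.commutator_eq_bot_iff_le_centralizer.mp hfin

/-- Let p be a prime, E a normal p-subgroup of the finite group G, and U a non-cyclic elementary abelian p-subgroup of G such that either C_E(U) = C_E(u) for every nontrivial u ∈ U, or [E, U] = [E, ⟨u⟩] for every nontrivial u ∈ U. If R is a subgroup of order prime to p normalized by U, then [R, U] centralizes E. -/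
theorem result {G : Type*} [Group G] [Finite G] {p : ℕ} [Fact p.Prime] (E : Subgroup G) [E.Normal] (hE : IsPGroup p ↥E) (U : Subgroup G) (hU : Cfsg.IsElementaryAbelian p U) (hnc : ¬ IsCyclic ↥U) (hcond : (∀ u ∈ U, u ≠ 1 → E ⊓ Subgroup.centralizer (U : Set G) = E ⊓ Subgroup.centralizer ({u} : Set G)) ∨ (∀ u ∈ U, u ≠ 1 → ⁅E, U⁆ = ⁅E, Subgroup.zpowers u⁆)) (R : Subgroup G) (hR : ¬ p ∣ Nat.card ↥R) (hRU : U ≤ Subgroup.normalizer (R : Set G)) : ⁅R, U⁆ ≤ Subgroup.centralizer (E : Set G) := by
  have hp : p.Prime := Fact.out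
  have hUcomm : ∀ u ∈ U, ∀ v ∈ U, u * v = v * u := by
    intro u hu v hv
    have := hU.1.is_comm.comm ⟨u, hu⟩ ⟨v, hv⟩
    exact congrArg Subtype.val this
  have hCn : (Subgroup.centralizer (E : Set G)).Normal := Subgroup.normal_centralizer
  obtain ⟨b, hbU, hb1⟩ : ∃ b ∈ U, b ≠ 1 := by
    by_contra hcon
    push Not at hcon
    apply hnc
    haveI : Subsingleton ↥U := ⟨fun u v => Subtype.ext ((hcon u u.2).trans (hcon v v.2).symm)⟩
    exact isCyclic_of_subsingleton
  obtain ⟨a, haU, haZ⟩ : ∃ a ∈ U, a ∉ Subgroup.zpowers b := by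
    by_contra hcon
    push Not at hcon
    apply hnc
    rw [isCyclic_iff_exists_zpowers_eq_top]
    refine ⟨⟨b, hbU⟩, ?_⟩
    rw [eq_top_iff]
    intro y _
    obtain ⟨k, hk⟩ := Subgroup.mem_zpowers_iff.mp (hcon y y.2)
    rw [Subgroup.mem_zpowers_iff]
    refine ⟨k, ?_⟩
    apply Subtype.ext
    simpa using hk
  let R₀ : Subgroup G :=
    { carrier := {g | ∀ u ∈ U, ⁅g, u⁆ ∈ Subgroup.centralizer (E : Set G)}
      one_mem' := fun u _ => by simp
      mul_mem' := by
        intro g h hg hh u hu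
        have e1 : ⁅g * h, u⁆ = g * ⁅h, u⁆ * g⁻¹ * ⁅g, u⁆ := by
          simp only [commutatorElement_def]; group
        rw [e1]
        exact Subgroup.mul_mem _ (hCn.conj_mem _ (hh u hu) g) (hg u hu)
      inv_mem' := by
        intro g hg u hu
        have e1 : ⁅g⁻¹, u⁆ = g⁻¹ * ⁅g, u⁆⁻¹ * g⁻¹⁻¹ := by
          simp only [commutatorElement_def]; group
        rw [e1]
        exact hCn.conj_mem _ (Subgroup.inv_mem _ (hg u hu)) g⁻¹ }
  have hstep : ∀ x ∈ U, x ≠ 1 → R ⊓ Subgroup.centralizer ({x} : Set G) ≤ R₀ := by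
    intro x hxU hx1 r hr u hu
    exact aux E hE U hU hcond R hR hRU x hxU hx1 (Subgroup.commutator_mem_commutator hr hu)
  have hRR₀ : R ≤ R₀ := by
    apply Helper4.coprime_generation a b (hU.2 a haU) (hU.2 b hbU) (hUcomm a haU b hbU) R (hRU haU) (hRU hbU)
      ((Nat.Prime.coprime_iff_not_dvd hp).mpr hR).symm R₀ (hstep b hbU hb1)
    intro i
    apply hstep _ (U.mul_mem haU (U.pow_mem hbU i))
    intro h
    apply haZ
    have h6 : a = (b ^ i)⁻¹ := eq_inv_of_mul_eq_one_left h
    rw [h6]
    exact Subgroup.inv_mem _ (Subgroup.pow_mem _ (Subgroup.mem_zpowers _) i)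
  rw [Subgroup.commutator_le]
  intro r hr u hu
  exact hRR₀ hr u hu

end Cfsg.Agent.S2909
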