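import Cfsg.Statements.S2910
import Cfsg.Agent.Lib.Helper6.FrobNC
import Cfsg.Agent.Lib.Helper6.OmegaCent
import Cfsg.Agent.Lib.Helper2.Comp9

set_option autoImplicit false
open Cfsg

namespace Cfsg.Agent.S2910

theorem result {G : Type*} [Group G] [Finite G] {p : ℕ} [Fact p.Prime] (hp : p ≠ 2) (hdiv : p ∣ Nat.card G) (P : Sylow p G) (hZ : Cfsg.omegaOne p (P : Subgroup G) ≤ Subgroup.center G) : Cfsg.HasNormalPComplement p G ∧ ¬ Cfsg.IsQuasisimple G := by
  have hnpc : Cfsg.HasNormalPComplement p G := by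
    apply Cfsg.Agent.Lib.Helper6.frobenius_npc
    apply Cfsg.Agent.Lib.Helper6.frobCond_of_sylow P
    intro Q hQP g hg hcop
    have hA : (Nat.card (Subgroup.zpowers g)).Coprime p := by
      rw [Nat.card_zpowers]; exact hcop
    have hQ : IsPGroup p Q := P.isPGroup'.to_le hQP
    have hAP : Subgroup.zpowers g ≤ Subgroup.normalizer (Q : Set G) := Subgroup.zpowers_le.mpr hg
    have key := Cfsg.Agent.Lib.Helper6.centralizes_of_centralizes_omega (Subgroup.zpowers g) Q hA hQ hAP ?_
    · exact key (Subgroup.mem_zpowers g)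
    · intro x hx hx2 a _
      have hxp : x ^ p = 1 := by
        rcases hx2 with h | ⟨h, _⟩
        · exact h
        · exact absurd h hp
      have hxc : x ∈ Subgroup.center G := hZ (Subgroup.subset_closure ⟨hQP hx, hxp⟩)
      have := Subgroup.mem_center_iff.mp hxc a
      rw [this, mul_inv_cancel_right]
  refine ⟨hnpc, ?_⟩
  intro hqs
  obtain ⟨P', N, hN, hc⟩ := hnpc
  have hperf : commutator G = ⊤ := hqs.1.commutator_eq_top
  have hNtop : N = ⊤ := by
    apply Cfsg.Agent.Lib.Helper2.Comp.eq_top_of_pgroup_quot_of_perfect p N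
    · intro x
      have hx : x ∈ N ⊔ (P' : Subgroup G) := by rw [hc.sup_eq_top]; trivial
      rw [Subgroup.mem_sup_of_normal_left] at hx
      obtain ⟨n, hn, y, hy, rfl⟩ := hx
      obtain ⟨k, hk⟩ := P'.isPGroup' ⟨y, hy⟩
      have hk' : y ^ (p ^ k) = 1 := by
        have := congrArg Subtype.val hk
        simpa using this
      refine ⟨k, ?_⟩
      rw [← QuotientGroup.eq_one_iff, QuotientGroup.mk_pow, QuotientGroup.mk_mul,
        (QuotientGroup.eq_one_iff n).mpr hn, one_mul, ← QuotientGroup.mk_pow, hk']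
      rfl
    · rw [hperf, top_sup_eq]
  have hcard := hc.card_mul_card
  rw [hNtop, Subgroup.card_top] at hcard
  have hG0 : 0 < Nat.card G := Nat.card_pos
  have hP1 : Nat.card (P' : Subgroup G) = 1 := by
    have : Nat.card G * Nat.card (P' : Subgroup G) = Nat.card G * 1 := by rw [mul_one]; exact hcard
    exact Nat.eq_of_mul_eq_mul_left hG0 this
  have hpd : p ∣ Nat.card (P' : Subgroup G) := P'.dvd_card_of_dvd_card hdiv
  rw [hP1] at hpd
  exact (Fact.out : p.Prime).one_lt.ne' (Nat.dvd_one.mp hpd)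

end Cfsg.Agent.S2910
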