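import Cfsg.Statements.S2922
import Mathlib
import Cfsg.Statements.S2922
import Cfsg.Agent.Lib.Helper4.CharP
import Cfsg.Agent.Lib.Helper2.Comp12
import Cfsg.Agent.Lib.Helper2.Comp7

set_option autoImplicit false
open Cfsg
open scoped commutatorElement

namespace Cfsg.Agent.S2922

open Cfsg Cfsg.Agent.Lib
open scoped commutatorElement

/-- Let p be a prime, X a finite group, B a p-subgroup of X and C a normal subgroup of B. If N_X(C) has characteristic p (its generalized Fitting subgroup is O_p(N_X(C))), then N_X(B) and C_X(B) have characteristic p. -/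
theorem result {X : Type*} [Group X] [Finite X] {p : ℕ} [Fact p.Prime] (B C : Subgroup X) (hB : IsPGroup p ↥B) (hCB : C ≤ B) (hCn : (C.subgroupOf B).Normal) (hC : Cfsg.generalizedFittingSubgroup ↥(Subgroup.normalizer (C : Set X)) = Cfsg.pCore p ↥(Subgroup.normalizer (C : Set X))) : Cfsg.generalizedFittingSubgroup ↥(Subgroup.normalizer (B : Set X)) = Cfsg.pCore p ↥(Subgroup.normalizer (B : Set X)) ∧ Cfsg.generalizedFittingSubgroup ↥(Subgroup.centralizer (B : Set X)) = Cfsg.pCore p ↥(Subgroup.centralizer (B : Set X)) := by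
  have hBN : B ≤ Subgroup.normalizer (C : Set X) :=
    (Subgroup.normal_subgroupOf_iff_le_normalizer hCB).mp hCn
  have hB'p : IsPGroup p (B.subgroupOf (Subgroup.normalizer (C : Set X))) := hB.comap_subtype
  have h1 := Helper2.Comp.gfs_normalizer_eq_pCore p hC (B.subgroupOf (Subgroup.normalizer (C : Set X))) hB'p
  have h1' := (Helper2.Comp.gfs_eq_pCore_iff p).mp h1
  obtain ⟨C', hC'⟩ : ∃ C' : Subgroup X, C' = (Subgroup.normalizer
      ((B.subgroupOf (Subgroup.normalizer (C : Set X)) : Subgroup ↥(Subgroup.normalizer (C : Set X))) :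
        Set ↥(Subgroup.normalizer (C : Set X)))).map (Subgroup.normalizer (C : Set X)).subtype := ⟨_, rfl⟩
  have hcrit : Cfsg.generalizedFittingSubgroup ↥C' = Cfsg.pCore p ↥C' := by
    rw [Helper2.Comp.gfs_eq_pCore_iff p]
    subst hC'
    exact Helper4.charP_of_equiv p (Subgroup.equivMapOfInjective _ _ (Subgroup.subtype_injective _)) h1'
  have hBC' : B ≤ C' := by
    rw [hC']
    intro b hb
    refine ⟨⟨b, hBN hb⟩, ?_, rfl⟩
    exact Subgroup.le_normalizer (Subgroup.mem_subgroupOf.mpr hb)
  have hCC' : Subgroup.centralizer (B : Set X) ≤ C' := by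
    rw [hC']
    intro c hc
    have hcN : c ∈ Subgroup.normalizer (C : Set X) :=
      Subgroup.centralizer_le_normalizer _ (Subgroup.centralizer_le (SetLike.coe_subset_coe.mpr hCB) hc)
    refine ⟨⟨c, hcN⟩, ?_, rfl⟩
    have hcc : ∀ b ∈ B, c * b * c⁻¹ = b := by
      intro b hb
      have := Subgroup.mem_centralizer_iff.mp hc b hb
      rw [← this]; group
    apply Subgroup.mem_normalizer_iff.mpr
    intro x
    constructor
    · intro hx
      apply Subgroup.mem_subgroupOf.mpr
      have hx' : (x : X) ∈ B := Subgroup.mem_subgroupOf.mp hx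
      show c * (x : X) * c⁻¹ ∈ B
      rw [hcc _ hx']
      exact hx'
    · intro hx
      apply Subgroup.mem_subgroupOf.mpr
      have hx' : c * (x : X) * c⁻¹ ∈ B := Subgroup.mem_subgroupOf.mp hx
      have h2 := hcc _ hx'
      have h3 : c * (x : X) * c⁻¹ = (x : X) := by
        calc c * (x : X) * c⁻¹ = c⁻¹ * (c * (c * (x : X) * c⁻¹) * c⁻¹) * c := by group
          _ = c⁻¹ * (c * (x : X) * c⁻¹) * c := by rw [h2]
          _ = x := by group
      rw [← h3]
      exact hx'
  have hres1 := Helper2.Comp.gfs_eq_pCore_of_local p hB hBC' hCC' Subgroup.le_normalizer le_rfl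
    (Subgroup.centralizer_le_normalizer _) hcrit
  refine ⟨hres1, ?_⟩
  have h2 := (Helper2.Comp.gfs_eq_pCore_iff p).mp hres1
  haveI : ((Subgroup.centralizer (B : Set X)).subgroupOf (Subgroup.normalizer (B : Set X))).Normal :=
    (Subgroup.normal_subgroupOf_iff_le_normalizer (Subgroup.centralizer_le_normalizer _)).mpr
      (Helper2.Comp.le_normalizer_centralizer le_rfl)
  have h3 := Helper4.charP_of_normal h2
    ((Subgroup.centralizer (B : Set X)).subgroupOf (Subgroup.normalizer (B : Set X)))
  rw [Helper2.Comp.gfs_eq_pCore_iff p]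
  exact Helper4.charP_of_equiv p (Subgroup.subgroupOfEquivOfLe (Subgroup.centralizer_le_normalizer _)) h3

end Cfsg.Agent.S2922
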