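import Cfsg.Statements.S2958
import Mathlib

set_option autoImplicit false
open Cfsg

namespace Cfsg.Agent.S2958

/-- Let X, A, B be subgroups of a group G such that G is generated by the conjugates of X and every conjugate of X is contained in A or in B. Then A = G or B = G. -/
theorem result {G : Type*} [Group G] (X A B : Subgroup G) (hgen : (⨆ g : G, X.map (MulAut.conj g).toMonoidHom) = ⊤) (hcover : ∀ g : G, X.map (MulAut.conj g).toMonoidHom ≤ A ∨ X.map (MulAut.conj g).toMonoidHom ≤ B) : A = ⊤ ∨ B = ⊤ := by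
  classical
  by_cases hA : A = ⊤
  · exact Or.inl hA
  right
  have hmem : ∀ (g z : G), z ∈ X → g * z * g⁻¹ ∈ X.map (MulAut.conj g).toMonoidHom := by
    intro g z hz
    exact ⟨z, hz, by simp⟩
  have hmem' : ∀ (g y : G), y ∈ X.map (MulAut.conj g).toMonoidHom → ∃ z ∈ X, y = g * z * g⁻¹ := by
    rintro g y ⟨z, hz, rfl⟩
    exact ⟨z, hz, by simp⟩
  let S : Set G := {g | ¬ X.map (MulAut.conj g).toMonoidHom ≤ A}
  let U : Set G := {y | ∃ g ∈ S, y ∈ X.map (MulAut.conj g).toMonoidHom}
  let N : Subgroup G := Subgroup.closure U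
  have hNB : N ≤ B := by
    show Subgroup.closure U ≤ B
    rw [Subgroup.closure_le]
    rintro y ⟨g, hg, hy⟩
    rcases hcover g with h | h
    · exact absurd h hg
    · exact h hy
  have hSne : ∃ g₀, g₀ ∈ S := by
    by_contra hne
    push Not at hne
    apply hA
    rw [eq_top_iff, ← hgen]
    apply iSup_le
    intro g
    by_contra h
    exact hne g h
  obtain ⟨g₀, hg₀⟩ := hSne
  have L : ∀ (h x : G), x ∈ X.map (MulAut.conj h).toMonoidHom → ∀ n ∈ N, x * n * x⁻¹ ∈ N := by
    intro h x hx n hn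
    by_cases hh : h ∈ S
    · have hxN : x ∈ N := Subgroup.subset_closure ⟨h, hh, hx⟩
      exact N.mul_mem (N.mul_mem hxN hn) (N.inv_mem hxN)
    · have hxA : x ∈ A := by
        have h3 : X.map (MulAut.conj h).toMonoidHom ≤ A := by
          by_contra h'; exact hh h'
        exact h3 hx
      refine Subgroup.closure_induction (p := fun n _ => x * n * x⁻¹ ∈ N) ?_ ?_ ?_ ?_ hn
      · rintro y ⟨g, hg, hy⟩
        apply Subgroup.subset_closure
        refine ⟨x * g, ?_, ?_⟩
        · intro hle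
          apply hg
          intro w hw
          obtain ⟨z, hz, rfl⟩ := hmem' g w hw
          have h1 : (x * g) * z * (x * g)⁻¹ ∈ A := hle (hmem (x * g) z hz)
          have h2 : g * z * g⁻¹ = x⁻¹ * ((x * g) * z * (x * g)⁻¹) * x := by group
          rw [h2]
          exact A.mul_mem (A.mul_mem (A.inv_mem hxA) h1) hxA
        · obtain ⟨z, hz, rfl⟩ := hmem' g y hy
          have h2 : x * (g * z * g⁻¹) * x⁻¹ = (x * g) * z * (x * g)⁻¹ := by group
          rw [h2]
          exact hmem (x * g) z hz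
      · simp
      · intro a b _ _ ha hb
        have h3 : x * (a * b) * x⁻¹ = (x * a * x⁻¹) * (x * b * x⁻¹) := by group
        rw [h3]; exact N.mul_mem ha hb
      · intro a _ ha
        have h3 : x * a⁻¹ * x⁻¹ = (x * a * x⁻¹)⁻¹ := by group
        rw [h3]; exact N.inv_mem ha
  have hnorm : ∀ y : G, y ∈ Subgroup.normalizer (N : Set G) := by
    have h4 : (⊤ : Subgroup G) ≤ Subgroup.normalizer (N : Set G) := by
      rw [← hgen]
      apply iSup_le
      intro h x hx
      rw [Subgroup.mem_normalizer_iff]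
      intro n
      constructor
      · exact L h x hx n
      · intro hn
        have hx' : x⁻¹ ∈ X.map (MulAut.conj h).toMonoidHom := Subgroup.inv_mem _ hx
        have h5 := L h x⁻¹ hx' _ hn
        have h2 : x⁻¹ * (x * n * x⁻¹) * x⁻¹⁻¹ = n := by group
        rwa [h2] at h5
    intro y; exact h4 (Subgroup.mem_top y)
  rw [eq_top_iff]
  refine le_trans ?_ hNB
  rw [← hgen]
  apply iSup_le
  intro g w hw
  obtain ⟨z, hz, rfl⟩ := hmem' g w hw
  have h1 : g₀ * z * g₀⁻¹ ∈ N := Subgroup.subset_closure ⟨g₀, hg₀, hmem g₀ z hz⟩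
  have h2 := (Subgroup.mem_normalizer_iff.mp (hnorm (g * g₀⁻¹)) _).mp h1
  have h3 : g * g₀⁻¹ * (g₀ * z * g₀⁻¹) * (g * g₀⁻¹)⁻¹ = g * z * g⁻¹ := by group
  rwa [h3] at h2

end Cfsg.Agent.S2958
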