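import Cfsg.Statements.S2959
import Mathlib
import Cfsg.Agent.Lib.Helper5.PPrime

set_option autoImplicit false
open Cfsg Cfsg.Agent.Lib.Helper5

namespace Cfsg.Agent.S2959

/-- Let G be a finite group of characteristic p, that is C_G(O_p(G)) ≤ O_p(G), with p prime, and let L be a subgroup of G normalized by O_p(G). Then L has characteristic p: C_L(O_p(L)) ≤ O_p(L). -/
theorem result {G : Type*} [Group G] [Finite G] {p : ℕ} [Fact p.Prime] (hG : Subgroup.centralizer (Cfsg.pCore p G : Set G) ≤ Cfsg.pCore p G) (L : Subgroup G) (hL : Cfsg.pCore p G ≤ Subgroup.normalizer (L : Set G)) : Subgroup.centralizer (Cfsg.pCore p ↥L : Set ↥L) ≤ Cfsg.pCore p ↥L := by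
  have hpp : p.Prime := Fact.out
  have hRn : (Cfsg.pCore p G).Normal := Cfsg.Agent.Lib.Helper4.pCore_normal p G
  have hRp : IsPGroup p (Cfsg.pCore p G) := Cfsg.Agent.Lib.Helper4.pCore_isPGroup p G
  have hQn : (Cfsg.pCore p ↥L).Normal := Cfsg.Agent.Lib.Helper4.pCore_normal p ↥L
  have ha : (Cfsg.pCore p G).subgroupOf L ≤ Cfsg.pCore p ↥L := by
    apply Cfsg.Agent.Lib.Helper4.le_pCore
    · exact hRn.subgroupOf L
    · exact hRp.comap_subtype
  have hb : ∀ c ∈ Subgroup.centralizer (Cfsg.pCore p ↥L : Set ↥L), (orderOf c).Coprime p → c = 1 := by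
    intro c hc hcop
    have hcop' : (orderOf (c : G)).Coprime p := by rw [Subgroup.orderOf_coe]; exact hcop
    have h1 : (c : G) ∈ Subgroup.centralizer (Cfsg.pCore p G : Set G) := by
      rw [Subgroup.mem_centralizer_iff]
      intro r hr
      have huL : r * (c : G) * r⁻¹ * (c : G)⁻¹ ∈ L := by
        have h2 : r * (c : G) * r⁻¹ ∈ L := by
          have h3 := hL hr
          rw [Subgroup.mem_normalizer_iff] at h3
          exact (h3 c).mp c.2
        exact mul_mem h2 (inv_mem c.2)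
      have huR : r * (c : G) * r⁻¹ * (c : G)⁻¹ ∈ Cfsg.pCore p G := by
        have h2 : (c : G) * r⁻¹ * (c : G)⁻¹ ∈ Cfsg.pCore p G := hRn.conj_mem _ (inv_mem hr) _
        have e : r * (c : G) * r⁻¹ * (c : G)⁻¹ = r * ((c : G) * r⁻¹ * (c : G)⁻¹) := by group
        rw [e]; exact mul_mem hr h2
      have huQ : (⟨_, huL⟩ : ↥L) ∈ Cfsg.pCore p ↥L := ha (Subgroup.mem_subgroupOf.mpr huR)
      have hcomm := Subgroup.mem_centralizer_iff.mp hc _ huQ
      have hcomm' : Commute (r * (c : G) * r⁻¹ * (c : G)⁻¹) (c : G) := congrArg Subtype.val hcomm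
      obtain ⟨k, hk⟩ := hRp ⟨_, huR⟩
      have hk' : (r * (c : G) * r⁻¹ * (c : G)⁻¹) ^ p ^ k = 1 := by
        simpa using congrArg Subtype.val hk
      exact (commute_of_comm_pElement r c k hk' hcomm' hcop').eq
    have h2 := eq_one_of_mem_pGroup_of_coprime hRp (hG h1) hcop'
    exact Subtype.ext h2
  have hcp : IsPGroup p (Subgroup.centralizer (Cfsg.pCore p ↥L : Set ↥L)) :=
    isPGroup_of_pprime_trivial hpp _ hb
  haveI := hQn
  have hcn : (Subgroup.centralizer (Cfsg.pCore p ↥L : Set ↥L)).Normal := inferInstance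
  exact Cfsg.Agent.Lib.Helper4.le_pCore hcn hcp

end Cfsg.Agent.S2959
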