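import Cfsg.Statements.S2960
import Mathlib
import Cfsg.Agent.Lib.Helper5.PPrime
import Cfsg.Agent.Lib.Helper5.SylowChain
import Cfsg.Agent.S0028

set_option autoImplicit false
open Cfsg Cfsg.Agent.Lib.Helper5

namespace Cfsg.Agent.S2960

/-- Let G be a finite group of characteristic p (C_G(O_p(G)) ≤ O_p(G)), p prime, T a Sylow p-subgroup of G and Q a normal subgroup of T with C_T(Q) ≤ Q. Then C_G(Q) ≤ Q. -/
theorem result {G : Type*} [Group G] [Finite G] {p : ℕ} [Fact p.Prime] (hG : Subgroup.centralizer (Cfsg.pCore p G : Set G) ≤ Cfsg.pCore p G) (T : Sylow p G) (Q : Subgroup G) (hQT : Q ≤ (T : Subgroup G)) (hQn : (T : Subgroup G) ≤ Subgroup.normalizer (Q : Set G)) (hC : (T : Subgroup G) ⊓ Subgroup.centralizer (Q : Set G) ≤ Q) : Subgroup.centralizer (Q : Set G) ≤ Q := by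
  have hpp : p.Prime := Fact.out
  have hRn : (Cfsg.pCore p G).Normal := Cfsg.Agent.Lib.Helper4.pCore_normal p G
  have hRp : IsPGroup p (Cfsg.pCore p G) := Cfsg.Agent.Lib.Helper4.pCore_isPGroup p G
  have hRT : Cfsg.pCore p G ≤ T := Cfsg.Agent.Lib.Helper4.pCore_le_sylow T
  have hQp : IsPGroup p Q := T.2.to_le hQT
  have step2 : ∀ x ∈ Subgroup.centralizer (Q : Set G), (orderOf x).Coprime p → x = 1 := by
    intro x hx hcop
    have hQx : Q ≤ Subgroup.centralizer ((Subgroup.zpowers x : Subgroup G) : Set G) := by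
      rw [Subgroup.le_centralizer_iff]
      exact Subgroup.zpowers_le.mpr hx
    have h1 : Subgroup.zpowers x ≤ Subgroup.centralizer ((Cfsg.pCore p G : Subgroup G) : Set G) := by
      apply Cfsg.Agent.S0028.result p Q (Subgroup.zpowers x) (Cfsg.pCore p G) hQp
        (by rw [Nat.card_zpowers]; exact hcop) hRp hQx
      · intro q _
        exact mem_normalizer_of_normal (Cfsg.pCore p G) q
      · intro q _
        exact mem_normalizer_of_normal (Cfsg.pCore p G) q
      · intro a ha
        exact hQx (hC ⟨hRT ha.1, ha.2⟩)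
    exact eq_one_of_mem_pGroup_of_coprime hRp (hG (h1 (Subgroup.mem_zpowers x))) hcop
  have hCp : IsPGroup p (Subgroup.centralizer (Q : Set G)) := isPGroup_of_pprime_trivial hpp _ step2
  have hTC : (T : Subgroup G) ≤
      Subgroup.normalizer ((Subgroup.centralizer (Q : Set G) : Subgroup G) : Set G) :=
    le_trans hQn (normalizer_le_normalizer_centralizer Q)
  have hsup : IsPGroup p (Subgroup.centralizer (Q : Set G) ⊔ (T : Subgroup G) : Subgroup G) :=
    IsPGroup.to_sup_of_normal_left' hCp T.2 hTC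
  have heq := T.3 hsup le_sup_right
  intro g hg
  apply hC
  refine ⟨?_, hg⟩
  have h1 : g ∈ Subgroup.centralizer (Q : Set G) ⊔ (T : Subgroup G) := Subgroup.mem_sup_left hg
  rw [heq] at h1
  exact h1

end Cfsg.Agent.S2960
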