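import Cfsg.Statements.S2961
import Mathlib
import Cfsg.Agent.S0028
import Cfsg.Agent.Lib.Helper4.Basic
import Cfsg.Agent.Lib.Helper4.CharP

set_option autoImplicit false
open Cfsg

namespace Cfsg.Agent.S2961

/-- Let G be a finite group of characteristic p (C_G(O_p(G)) ≤ O_p(G)), p prime, T a Sylow p-subgroup of G and Q a normal subgroup of T with C_T(Q) ≤ Q. Then every subgroup L of G containing Q has characteristic p: C_L(O_p(L)) ≤ O_p(L). -/
theorem result {G : Type*} [Group G] [Finite G] {p : ℕ} [Fact p.Prime] (hG : Subgroup.centralizer (Cfsg.pCore p G : Set G) ≤ Cfsg.pCore p G) (T : Sylow p G) (Q : Subgroup G) (hQT : Q ≤ (T : Subgroup G)) (hQn : (T : Subgroup G) ≤ Subgroup.normalizer (Q : Set G)) (hC : (T : Subgroup G) ⊓ Subgroup.centralizer (Q : Set G) ≤ Q) (L : Subgroup G) (hQL : Q ≤ L) : Subgroup.centralizer (Cfsg.pCore p ↥L : Set ↥L) ≤ Cfsg.pCore p ↥L := by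
  classical
  obtain ⟨R, hR⟩ : ∃ R : Subgroup G, R = Cfsg.pCore p G := ⟨_, rfl⟩
  rw [← hR] at hG
  have hRn : R.Normal := by rw [hR]; exact Cfsg.Agent.Lib.Helper4.pCore_normal p G
  have hRp : IsPGroup p R := by rw [hR]; exact Cfsg.Agent.Lib.Helper4.pCore_isPGroup p G
  have hRT : R ≤ (T : Subgroup G) := by rw [hR]; exact Cfsg.Agent.Lib.Helper4.pCore_le_sylow T
  have hQp : IsPGroup p Q := T.2.to_le hQT
  have hRQ : ∀ r ∈ R, ∀ q ∈ Q, r * q * r⁻¹ ∈ Q := by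
    intro r hr q hq
    exact ((hQn (hRT hr)) q).mp hq
  -- Step 1: `C_G(Q)` has no nontrivial `p'`-elements
  have step1 : ∀ y : G, (∀ q ∈ Q, q * y = y * q) → ∀ m : ℕ, m.Coprime p → y ^ m = 1 → y = 1 := by
    intro y hy m hm hym
    have hYcard : (Nat.card (Subgroup.zpowers y)).Coprime p := by
      rw [Nat.card_zpowers]
      exact Nat.Coprime.coprime_dvd_left (orderOf_dvd_of_pow_eq_one hym) hm
    have h := Cfsg.Agent.S0028.result p Q (Subgroup.zpowers y) R hQp hYcard hRp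
      (by
        intro q hq
        rw [Subgroup.mem_centralizer_iff]
        intro h hh
        obtain ⟨k, rfl⟩ := Subgroup.mem_zpowers_iff.mp hh
        exact ((show Commute y q from (hy q hq).symm).zpow_left k).eq)
      (by rw [Subgroup.normalizer_eq_top]; exact le_top)
      (by rw [Subgroup.normalizer_eq_top]; exact le_top)
      (by
        intro x hx
        have hxQ : x ∈ Q := hC ⟨hRT hx.1, hx.2⟩
        rw [Subgroup.mem_centralizer_iff]
        intro h hh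
        obtain ⟨k, rfl⟩ := Subgroup.mem_zpowers_iff.mp hh
        exact ((show Commute y x from (hy x hxQ).symm).zpow_left k).eq)
    have hyR : y ∈ R := hG (h (Subgroup.mem_zpowers y))
    exact Cfsg.Agent.Lib.Helper4.pelem_coprime_one R hRp y hyR m hm hym
  -- translation: normal `p`-subgroups of `L`
  have hP'p : IsPGroup p (Cfsg.pCore p ↥L) := Cfsg.Agent.Lib.Helper4.pCore_isPGroup p ↥L
  haveI hP'n : (Cfsg.pCore p ↥L).Normal := Cfsg.Agent.Lib.Helper4.pCore_normal p ↥L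
  have hle : ∀ M : Subgroup G, IsPGroup p M → (∀ l ∈ L, ∀ m ∈ M, l * m * l⁻¹ ∈ M) →
      ∀ m (_ : m ∈ M) (hmL : m ∈ L), (⟨m, hmL⟩ : L) ∈ Cfsg.pCore p ↥L := by
    intro M hMp hMn m hm hmL
    have h1 : (M.subgroupOf L).Normal := by
      constructor
      intro x hx l
      rw [Subgroup.mem_subgroupOf] at hx ⊢
      exact hMn l l.2 x hx
    have h2 : IsPGroup p (M.subgroupOf L) := hMp.comap_subtype
    exact Cfsg.Agent.Lib.Helper4.le_pCore h1 h2 (Subgroup.mem_subgroupOf.mpr hm)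
  have hDn : (Subgroup.centralizer (Cfsg.pCore p ↥L : Set ↥L)).Normal := inferInstance
  -- elements of `R ⊓ L` are centralized by `D`
  have hFa : ∀ d' ∈ Subgroup.centralizer (Cfsg.pCore p ↥L : Set ↥L), ∀ s ∈ R ⊓ L,
      (d' : G) * s * (d' : G)⁻¹ = s := by
    intro d' hd' s hs
    have hsP : (⟨s, hs.2⟩ : L) ∈ Cfsg.pCore p ↥L :=
      hle (R ⊓ L) (hRp.to_le inf_le_left)
        (fun l hl m hm => ⟨hRn.conj_mem m hm.1 l, L.mul_mem (L.mul_mem hl hm.2) (L.inv_mem hl)⟩)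
        s hs hs.2
    have h1 := (Subgroup.mem_centralizer_iff.mp hd') _ hsP
    have h2 : s * (d' : G) = (d' : G) * s := congrArg Subtype.val h1
    rw [← h2, mul_inv_cancel_right]
  -- the stabiliser of the series `R ≥ R ⊓ L ≥ 1` inside `D`
  let M₁ : Subgroup G :=
    { carrier := {g | (∃ hg : g ∈ L, (⟨g, hg⟩ : L) ∈
          Subgroup.centralizer (Cfsg.pCore p ↥L : Set ↥L)) ∧
          ∀ r ∈ R, g * r * g⁻¹ * r⁻¹ ∈ R ⊓ L}
      one_mem' := ⟨⟨L.one_mem, Subgroup.one_mem _⟩, fun r _ => by simp⟩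
      mul_mem' := by
        rintro g h ⟨⟨hgL, hgD⟩, hg⟩ ⟨⟨hhL, hhD⟩, hh⟩
        refine ⟨⟨L.mul_mem hgL hhL, Subgroup.mul_mem _ hgD hhD⟩, fun r hr => ?_⟩
        have e : g * h * r * (g * h)⁻¹ * r⁻¹ =
            (g * (h * r * h⁻¹ * r⁻¹) * g⁻¹) * (g * r * g⁻¹ * r⁻¹) := by group
        rw [e, hFa ⟨g, hgL⟩ hgD _ (hh r hr)]
        exact Subgroup.mul_mem _ (hh r hr) (hg r hr)
      inv_mem' := by
        rintro g ⟨⟨hgL, hgD⟩, hg⟩
        refine ⟨⟨L.inv_mem hgL, Subgroup.inv_mem _ hgD⟩, fun r hr => ?_⟩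
        have hr' : g⁻¹ * r * g ∈ R := by
          have := hRn.conj_mem r hr g⁻¹
          simpa using this
        have h1 := hg _ hr'
        have e : g⁻¹ * r * g⁻¹⁻¹ * r⁻¹ = (g * (g⁻¹ * r * g) * g⁻¹ * (g⁻¹ * r * g)⁻¹)⁻¹ := by group
        rw [e]
        exact Subgroup.inv_mem _ h1 }
  have hM₁L : ∀ g ∈ M₁, g ∈ L := fun g hg => hg.1.1
  have hM₁p : IsPGroup p M₁ := by
    apply Cfsg.Agent.Lib.Helper4.isPGroup_of_pprime_trivial
    intro y hy m hm hym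
    obtain ⟨a, ha⟩ := (hRp.to_le (inf_le_left : R ⊓ L ≤ R)).exists_card_eq
    have hpow : ∀ r ∈ R, ∀ k : ℕ, y ^ k * r * (y ^ k)⁻¹ = (y * r * y⁻¹ * r⁻¹) ^ k * r := by
      intro r hr k
      induction k with
      | zero => simp
      | succ k ih =>
        have hs := hy.2 r hr
        have hcomm : y * (y * r * y⁻¹ * r⁻¹) * y⁻¹ = y * r * y⁻¹ * r⁻¹ :=
          hFa ⟨y, hy.1.1⟩ hy.1.2 _ hs
        have hcommk : y * (y * r * y⁻¹ * r⁻¹) ^ k * y⁻¹ = (y * r * y⁻¹ * r⁻¹) ^ k := by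
          rw [← conj_pow, hcomm]
        calc y ^ (k + 1) * r * (y ^ (k + 1))⁻¹ = y * (y ^ k * r * (y ^ k)⁻¹) * y⁻¹ := by
              rw [pow_succ']; group
          _ = y * ((y * r * y⁻¹ * r⁻¹) ^ k * r) * y⁻¹ := by rw [ih]
          _ = (y * (y * r * y⁻¹ * r⁻¹) ^ k * y⁻¹) * (y * r * y⁻¹ * r⁻¹) * r := by group
          _ = (y * r * y⁻¹ * r⁻¹) ^ (k + 1) * r := by rw [hcommk, pow_succ]
    have hyN : y ^ (p ^ a) ∈ Subgroup.centralizer (R : Set G) := by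
      rw [Subgroup.mem_centralizer_iff]
      intro r hr
      have h1 := hpow r hr (p ^ a)
      have h2 : (y * r * y⁻¹ * r⁻¹) ^ (p ^ a) = 1 := by
        have h3 : (⟨y * r * y⁻¹ * r⁻¹, hy.2 r hr⟩ : (R ⊓ L : Subgroup G)) ^ (p ^ a) = 1 := by
          rw [← ha]; exact pow_card_eq_one'
        exact congrArg Subtype.val h3
      rw [h2, one_mul] at h1
      exact (mul_inv_eq_iff_eq_mul.mp h1).symm
    have hyR : y ^ (p ^ a) ∈ R := hG hyN
    have h4 : y ^ (p ^ a) = 1 :=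
      Cfsg.Agent.Lib.Helper4.pelem_coprime_one R hRp _ hyR m hm (by
        rw [← pow_mul, mul_comm, pow_mul, hym, one_pow])
    have h5 : y ^ Nat.gcd m (p ^ a) = 1 := pow_gcd_eq_one.mpr ⟨hym, h4⟩
    rwa [Nat.Coprime.pow_right a hm, pow_one] at h5
  have hM₁n : ∀ l ∈ L, ∀ g ∈ M₁, l * g * l⁻¹ ∈ M₁ := by
    rintro l hl g ⟨⟨hgL, hgD⟩, hg⟩
    refine ⟨⟨L.mul_mem (L.mul_mem hl hgL) (L.inv_mem hl), ?_⟩, fun r hr => ?_⟩
    · exact hDn.conj_mem ⟨g, hgL⟩ hgD ⟨l, hl⟩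
    · have hr' : l⁻¹ * r * l ∈ R := by
        have := hRn.conj_mem r hr l⁻¹
        simpa using this
      have h1 := hg _ hr'
      have e : l * g * l⁻¹ * r * (l * g * l⁻¹)⁻¹ * r⁻¹ =
          l * (g * (l⁻¹ * r * l) * g⁻¹ * (l⁻¹ * r * l)⁻¹) * l⁻¹ := by group
      rw [e]
      exact ⟨hRn.conj_mem _ h1.1 l, L.mul_mem (L.mul_mem hl h1.2) (L.inv_mem hl)⟩
  have hM₁P : ∀ g (hg : g ∈ M₁), (⟨g, hM₁L g hg⟩ : L) ∈ Cfsg.pCore p ↥L :=
    fun g hg => hle M₁ hM₁p hM₁n g hg (hM₁L g hg)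
  apply Cfsg.Agent.Lib.Helper4.le_pCore hDn
  apply Cfsg.Agent.Lib.Helper4.isPGroup_of_pprime_trivial
  intro d' hd' m hm hdm
  have hdQ : ∀ q ∈ Q, q * (d' : G) = (d' : G) * q := by
    intro q hq
    have hcM : (d' : G) * q * (d' : G)⁻¹ * q⁻¹ ∈ M₁ := by
      refine ⟨⟨L.mul_mem (L.mul_mem (L.mul_mem d'.2 (hQL hq)) (L.inv_mem d'.2))
        (L.inv_mem (hQL hq)), ?_⟩, fun r hr => ?_⟩
      · have h1 := hDn.conj_mem d'⁻¹ (Subgroup.inv_mem _ hd') ⟨q, hQL hq⟩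
        have h2 := Subgroup.mul_mem _ hd' h1
        have e : (⟨(d' : G) * q * (d' : G)⁻¹ * q⁻¹, L.mul_mem (L.mul_mem (L.mul_mem d'.2 (hQL hq))
            (L.inv_mem d'.2)) (L.inv_mem (hQL hq))⟩ : L) =
            d' * ((⟨q, hQL hq⟩ : L) * d'⁻¹ * (⟨q, hQL hq⟩ : L)⁻¹) := by
          apply Subtype.ext
          simp [mul_assoc]
        rw [e]; exact h2
      · have hs₁ : r⁻¹ * q⁻¹ * r * q ∈ Q ⊓ R := by
          refine ⟨?_, ?_⟩
          · have := hRQ r⁻¹ (R.inv_mem hr) q⁻¹ (Q.inv_mem hq)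
            rw [inv_inv] at this
            exact Q.mul_mem this hq
          · have := hRn.conj_mem r hr q⁻¹
            rw [inv_inv] at this
            have h2 := R.mul_mem (R.inv_mem hr) this
            have e : r⁻¹ * (q⁻¹ * r * q) = r⁻¹ * q⁻¹ * r * q := by group
            rwa [e] at h2
        have hr₂ : (d' : G)⁻¹ * (q⁻¹ * r * q) * (d' : G) ∈ R := by
          have h1 := hRn.conj_mem r hr q⁻¹
          rw [inv_inv] at h1
          have h2 := hRn.conj_mem _ h1 (d' : G)⁻¹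
          rw [inv_inv] at h2
          exact h2
        have hs₂ : q * ((d' : G)⁻¹ * (q⁻¹ * r * q) * (d' : G)) * q⁻¹ *
            ((d' : G)⁻¹ * (q⁻¹ * r * q) * (d' : G))⁻¹ ∈ Q ⊓ R := by
          refine ⟨?_, ?_⟩
          · have h1 := hRQ _ hr₂ q⁻¹ (Q.inv_mem hq)
            have h2 := Q.mul_mem hq h1
            have e : q * (((d' : G)⁻¹ * (q⁻¹ * r * q) * (d' : G)) * q⁻¹ *
                ((d' : G)⁻¹ * (q⁻¹ * r * q) * (d' : G))⁻¹) =
                q * ((d' : G)⁻¹ * (q⁻¹ * r * q) * (d' : G)) * q⁻¹ *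
                ((d' : G)⁻¹ * (q⁻¹ * r * q) * (d' : G))⁻¹ := by group
            rwa [e] at h2
          · exact R.mul_mem (hRn.conj_mem _ hr₂ q) (R.inv_mem hr₂)
        have hs₃ : r * (r⁻¹ * q⁻¹ * r * q) * r⁻¹ ∈ Q ⊓ R :=
          ⟨hRQ r hr _ hs₁.1, hRn.conj_mem _ hs₁.2 r⟩
        have hQRL : Q ⊓ R ≤ R ⊓ L := fun x hx => ⟨hx.2, hQL hx.1⟩
        have e : (d' : G) * q * (d' : G)⁻¹ * q⁻¹ * r * ((d' : G) * q * (d' : G)⁻¹ * q⁻¹)⁻¹ * r⁻¹ =
            ((d' : G) * (q * ((d' : G)⁻¹ * (q⁻¹ * r * q) * (d' : G)) * q⁻¹ *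
              ((d' : G)⁻¹ * (q⁻¹ * r * q) * (d' : G))⁻¹) * (d' : G)⁻¹) *
            (r * (r⁻¹ * q⁻¹ * r * q) * r⁻¹) := by group
        rw [e, hFa d' hd' _ (hQRL hs₂)]
        exact Subgroup.mul_mem _ (hQRL hs₂) (hQRL hs₃)
    have hcP := hM₁P _ hcM
    -- c' central in D', so its order divides m
    obtain ⟨c', hc'⟩ : ∃ c' : L, c' = d' * (⟨q, hQL hq⟩ : L) * d'⁻¹ * (⟨q, hQL hq⟩ : L)⁻¹ :=
      ⟨_, rfl⟩
    have hc'P : c' ∈ Cfsg.pCore p ↥L := by
      have e : c' = ⟨(d' : G) * q * (d' : G)⁻¹ * q⁻¹, hM₁L _ hcM⟩ := by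
        rw [hc']; apply Subtype.ext; simp
      rw [e]; exact hcP
    have hcd : c' * d' = d' * c' := (Subgroup.mem_centralizer_iff.mp hd') c' hc'P
    have hconj : (⟨q, hQL hq⟩ : L) * d' * (⟨q, hQL hq⟩ : L)⁻¹ = c'⁻¹ * d' := by
      rw [hc']; group
    have hpow : (c'⁻¹ * d') ^ m = 1 := by
      rw [← hconj, conj_pow, hdm]; group
    have hcm : c' ^ m = 1 := by
      have h1 : Commute c'⁻¹ d' := (show Commute c' d' from hcd).inv_left
      rw [h1.mul_pow, hdm, mul_one, inv_pow, inv_eq_one] at hpow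
      exact hpow
    have hc1 : c' = 1 :=
      Cfsg.Agent.Lib.Helper4.pelem_coprime_one _ hP'p c' hc'P m hm hcm
    rw [hc1] at hc'
    have h6 : (1 : G) = (d' : G) * q * (d' : G)⁻¹ * q⁻¹ := by
      have := congrArg Subtype.val hc'
      simpa using this
    have h7 : (d' : G) * q = q * (d' : G) := by
      have : (d' : G) * q * (d' : G)⁻¹ * q⁻¹ * (q * (d' : G)) = q * (d' : G) := by
        rw [← h6, one_mul]
      rw [← this]; group
    exact h7.symm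
  have := step1 (d' : G) hdQ m hm (by
    have := congrArg Subtype.val hdm
    simpa using this)
  exact Subtype.ext this

end Cfsg.Agent.S2961
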