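import Cfsg.Statements.S2963
import Mathlib

set_option autoImplicit false
open Cfsg

namespace Cfsg.Agent.S2963

/-- Let n be odd. If the symmetric group of degree n is a minimal parabolic group for the prime 2, that is, a Sylow 2-subgroup is not normal and lies in exactly one maximal subgroup, then n = 2^m + 1 for some natural number m. -/
theorem result (n : ℕ) (hn : Odd n) (h : Cfsg.IsPMinimal 2 (Equiv.Perm (Fin n))) : ∃ m : ℕ, n = 2 ^ m + 1 := by
  classical
  by_contra hcon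
  push Not at hcon
  haveI : Fact (Nat.Prime 2) := ⟨Nat.prime_two⟩
  obtain ⟨S⟩ : Nonempty (Sylow 2 (Equiv.Perm (Fin n))) := inferInstance
  obtain ⟨hSn, M, ⟨hM, hSM⟩, hMuniq⟩ := h S
  -- a fixed point of S
  have hfix : ∃ x : Fin n, ∀ σ ∈ (S : Subgroup (Equiv.Perm (Fin n))), σ x = x := by
    have h1 := IsPGroup.nonempty_fixed_point_of_prime_not_dvd_card S.isPGroup' (Fin n) (by
      rw [Nat.card_eq_fintype_card, Fintype.card_fin]
      exact fun h2 => (Nat.not_even_iff_odd.mpr hn) (even_iff_two_dvd.mpr h2))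
    obtain ⟨x, hx⟩ := h1
    refine ⟨x, fun σ hσ => ?_⟩
    exact hx ⟨σ, hσ⟩
  obtain ⟨x, hx⟩ := hfix
  have hy : ∃ y : Fin n, y ≠ x := by
    by_contra hno
    push Not at hno
    apply hSn
    have htriv : ∀ g : Equiv.Perm (Fin n), g = 1 := by
      intro g
      apply Equiv.ext
      intro a
      exact (hno (g a)).trans (hno a).symm
    constructor
    intro a ha g
    rw [htriv g]; simpa using ha
  obtain ⟨y, hyx⟩ := hy
  obtain ⟨O, hO⟩ : ∃ O : Set (Fin n),
      O = {a | ∃ σ ∈ (S : Subgroup (Equiv.Perm (Fin n))), σ y = a} := ⟨_, rfl⟩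
  have hyO : y ∈ O := by rw [hO]; exact ⟨1, one_mem _, rfl⟩
  have hxO : x ∉ O := by
    rw [hO]; rintro ⟨σ, hσ, hσy⟩
    apply hyx
    exact σ.injective (hσy.trans (hx σ hσ).symm)
  have hz : ∃ z : Fin n, z ≠ x ∧ z ∉ O := by
    by_contra hno
    push Not at hno
    obtain ⟨k, hk⟩ := S.isPGroup'.card_orbit y
    apply hcon k
    have h1 : (MulAction.orbit (↥(S : Subgroup (Equiv.Perm (Fin n)))) y) = ({x}ᶜ : Set (Fin n)) := by
      ext a
      constructor
      · rintro ⟨⟨σ, hσ⟩, rfl⟩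
        intro hax
        apply hxO
        rw [hO]
        exact ⟨σ, hσ, hax⟩
      · intro ha
        have h2 := hno a ha
        rw [hO] at h2
        obtain ⟨σ, hσ, rfl⟩ := h2
        exact ⟨⟨σ, hσ⟩, rfl⟩
    rw [h1] at hk
    have h2 : Nat.card (({x}ᶜ : Set (Fin n))) = n - 1 := by
      rw [Nat.card_eq_fintype_card, Fintype.card_compl_set]
      simp
    rw [h2] at hk
    have h3 : 0 < n := Fin.pos x
    omega
  obtain ⟨z, hzx, hzO⟩ := hz
  have hYinv : ∀ σ ∈ (S : Subgroup (Equiv.Perm (Fin n))), ∀ a, a ∈ insert x O → σ a ∈ insert x O := by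
    intro σ hσ a ha
    rcases ha with ha | ha
    · left; rw [ha]; exact hx σ hσ
    · right
      rw [hO] at ha ⊢
      obtain ⟨τ, hτ, rfl⟩ := ha
      exact ⟨σ * τ, mul_mem hσ hτ, rfl⟩
  obtain ⟨H₂, hH₂⟩ : ∃ H : Subgroup (Equiv.Perm (Fin n)),
      ∀ σ, σ ∈ H ↔ ∀ a, σ a ∈ insert x O ↔ a ∈ insert x O :=
    ⟨{ carrier := {σ | ∀ a, σ a ∈ insert x O ↔ a ∈ insert x O}
       one_mem' := fun a => Iff.rfl
       mul_mem' := fun {σ τ} hσ hτ a => (hσ (τ a)).trans (hτ a)
       inv_mem' := fun {σ} hσ a => by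
         have h1 := hσ (σ⁻¹ a)
         rw [Equiv.Perm.inv_def] at h1 ⊢
         rw [Equiv.apply_symm_apply] at h1
         exact h1.symm }, fun σ => Iff.rfl⟩
  have hSH₁ : (S : Subgroup (Equiv.Perm (Fin n))) ≤ MulAction.stabilizer (Equiv.Perm (Fin n)) x := by
    intro σ hσ
    rw [MulAction.mem_stabilizer_iff]
    exact hx σ hσ
  have hSH₂ : (S : Subgroup (Equiv.Perm (Fin n))) ≤ H₂ := by
    intro σ hσ
    rw [hH₂]
    intro a
    constructor
    · intro h1
      have h2 := hYinv σ⁻¹ (inv_mem hσ) _ h1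
      rwa [Equiv.Perm.inv_def, Equiv.symm_apply_apply] at h2
    · exact hYinv σ hσ a
  have hH₁top : MulAction.stabilizer (Equiv.Perm (Fin n)) x ≠ ⊤ := by
    intro htop
    have h1 : Equiv.swap x y ∈ MulAction.stabilizer (Equiv.Perm (Fin n)) x := by
      rw [htop]; exact Subgroup.mem_top _
    rw [MulAction.mem_stabilizer_iff, Equiv.Perm.smul_def, Equiv.swap_apply_left] at h1
    exact hyx h1
  have hH₂top : H₂ ≠ ⊤ := by
    intro htop
    have h1 : Equiv.swap x z ∈ H₂ := by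
      rw [htop]; exact Subgroup.mem_top _
    rw [hH₂] at h1
    have h2 := (h1 x).mpr (Set.mem_insert x O)
    rw [Equiv.swap_apply_left] at h2
    rcases h2 with h2 | h2
    · exact hzx h2
    · exact hzO h2
  obtain ⟨M₁, hM₁, hH₁M⟩ := (eq_top_or_exists_le_coatom _).resolve_left hH₁top
  obtain ⟨M₂, hM₂, hH₂M⟩ := (eq_top_or_exists_le_coatom _).resolve_left hH₂top
  have e1 : M₁ = M := hMuniq M₁ ⟨hM₁, hSH₁.trans hH₁M⟩
  have e2 : M₂ = M := hMuniq M₂ ⟨hM₂, hSH₂.trans hH₂M⟩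
  apply hM.1
  rw [eq_top_iff, ← Equiv.Perm.closure_isSwap, Subgroup.closure_le]
  have hxy : Equiv.swap x y ∈ M := by
    rw [← e2]; apply hH₂M; rw [hH₂]; intro c
    by_cases hcx : c = x
    · rw [hcx, Equiv.swap_apply_left]
      exact ⟨fun _ => Set.mem_insert x O, fun _ => Set.mem_insert_of_mem x hyO⟩
    · by_cases hcy : c = y
      · rw [hcy, Equiv.swap_apply_right]
        exact ⟨fun _ => Set.mem_insert_of_mem x hyO, fun _ => Set.mem_insert x O⟩
      · rw [Equiv.swap_apply_of_ne_of_ne hcx hcy]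
  have hfixM : ∀ τ : Equiv.Perm (Fin n), τ x = x → τ ∈ M := by
    intro τ hτ; rw [← e1]; apply hH₁M; rw [MulAction.mem_stabilizer_iff]; exact hτ
  have hswx : ∀ b, b ≠ x → Equiv.swap x b ∈ M := by
    intro b hb
    by_cases hby : b = y
    · rw [hby]; exact hxy
    · have hτ : Equiv.swap y b ∈ M :=
        hfixM _ (Equiv.swap_apply_of_ne_of_ne hyx.symm (Ne.symm hb))
      have e := Equiv.swap_apply_apply (Equiv.swap y b) x y
      rw [Equiv.swap_apply_of_ne_of_ne hyx.symm (Ne.symm hb), Equiv.swap_apply_left] at e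
      rw [e]; exact mul_mem (mul_mem hτ hxy) (inv_mem hτ)
  rintro σ ⟨a, b, hab, rfl⟩
  by_cases hax : a = x
  · rw [hax] at hab ⊢; exact hswx b (Ne.symm hab)
  · by_cases hbx : b = x
    · rw [hbx, Equiv.swap_comm]; exact hswx a hax
    · exact hfixM _ (Equiv.swap_apply_of_ne_of_ne (Ne.symm hax) (Ne.symm hbx))

end Cfsg.Agent.S2963
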