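import Cfsg.Statements.S2998
import Mathlib
import Cfsg.Agent.Lib.Helper5.DStar
import Cfsg.Agent.Lib.Helper5.NormalCompl
import Cfsg.Agent.Lib.Helper5.Replacement

set_option autoImplicit false
open Cfsg Cfsg.Agent.Lib.Helper5

namespace Cfsg.Agent.S2998

/-- Let G be a finite group, p a prime, P a Sylow p-subgroup of G and x ∈ P an element such that N_G(R) ≤ C_G(x) for every nontrivial subgroup R of P. Then P ≤ C_G(x); every G-conjugate of x lying in P equals x (so g ∈ C_G(x) whenever g x g⁻¹ ∈ P); and for every normal subgroup N of G, the image of x in G ⧸ N has the same property with respect to the image of P: the normalizer of every nontrivial subgroup of the image of P centralizes the image of x. -/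
theorem result {G : Type*} [Group G] [Finite G] {p : ℕ} [Fact p.Prime] (P : Sylow p G) (x : G) (hxP : x ∈ (P : Subgroup G)) (hlc : ∀ R : Subgroup G, R ≤ (P : Subgroup G) → R ≠ ⊥ → Subgroup.normalizer (R : Set G) ≤ Subgroup.centralizer ({x} : Set G)) : (P : Subgroup G) ≤ Subgroup.centralizer ({x} : Set G) ∧ (∀ g : G, g * x * g⁻¹ ∈ (P : Subgroup G) → g * x * g⁻¹ = x) ∧ ∀ (N : Subgroup G) [N.Normal], ∀ R : Subgroup (G ⧸ N), R ≤ (P : Subgroup G).map (QuotientGroup.mk' N) → R ≠ ⊥ → Subgroup.normalizer (R : Set (G ⧸ N)) ≤ Subgroup.centralizer ({(QuotientGroup.mk x : G ⧸ N)} : Set (G ⧸ N)) := by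
  classical
  have h1 : (P : Subgroup G) ≤ Subgroup.centralizer ({x} : Set G) := by
    by_cases hP : (P : Subgroup G) = ⊥
    · rw [hP]; exact bot_le
    · exact Subgroup.le_normalizer.trans (hlc P le_rfl hP)
  have hcx : ∀ g, g ∈ Subgroup.centralizer ({x} : Set G) ↔ g * x = x * g := by
    intro g
    rw [Subgroup.mem_centralizer_iff]
    constructor
    · intro h; exact (h x rfl).symm
    · intro h y hy; rw [Set.mem_singleton_iff] at hy; rw [hy]; exact h.symm
  refine ⟨h1, ?_, ?_⟩
  · intro g hg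
    by_cases hx1 : x = 1
    · rw [hx1]; group
    have hP : (P : Subgroup G) ≠ ⊥ := by
      intro h; rw [h, Subgroup.mem_bot] at hxP; exact hx1 hxP
    have hy1 : g * x * g⁻¹ ≠ 1 := by
      intro h
      apply hx1
      have e : x = g⁻¹ * (g * x * g⁻¹) * g := by group
      rw [e, h]; group
    have hzy : Subgroup.zpowers (g * x * g⁻¹) ≠ ⊥ := by
      rw [Ne, Subgroup.zpowers_eq_bot]; exact hy1
    have hCy : Subgroup.centralizer ({g * x * g⁻¹} : Set G) ≤ Subgroup.centralizer ({x} : Set G) := by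
      refine le_trans ?_ (hlc (Subgroup.zpowers (g * x * g⁻¹)) (Subgroup.zpowers_le.mpr hg) hzy)
      refine le_trans ?_ (Subgroup.centralizer_le_normalizer _)
      rw [Subgroup.le_centralizer_iff, Subgroup.zpowers_le, Subgroup.mem_centralizer_iff]
      intro h hh
      exact (Subgroup.mem_centralizer_iff.mp hh _ rfl).symm
    have hU : IsPGroup p ((P : Subgroup G).map (MulAut.conj g).toMonoidHom) :=
      P.isPGroup'.map _
    have hUC : (P : Subgroup G).map (MulAut.conj g).toMonoidHom ≤ Subgroup.centralizer ({x} : Set G) := by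
      refine le_trans ?_ hCy
      rintro _ ⟨a, ha, rfl⟩
      have h2 := (hcx a).mp (h1 ha)
      rw [Subgroup.mem_centralizer_iff]
      intro h hh
      rw [Set.mem_singleton_iff] at hh
      rw [hh]
      show g * x * g⁻¹ * (g * a * g⁻¹) = g * a * g⁻¹ * (g * x * g⁻¹)
      have e1 : g * x * g⁻¹ * (g * a * g⁻¹) = g * (x * a) * g⁻¹ := by group
      have e2 : g * a * g⁻¹ * (g * x * g⁻¹) = g * (a * x) * g⁻¹ := by group
      rw [e1, e2, h2]
    obtain ⟨c, hc, hcU⟩ := exists_conj_mem_sylow_of_le P _ h1 _ hU hUC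
    have hcg : c * g ∈ Subgroup.normalizer ((P : Subgroup G) : Set G) := by
      apply mem_normalizer_of_forall_conj_mem
      intro a ha
      have h2 := hcU _ ⟨a, ha, rfl⟩
      have e : c * g * a * (c * g)⁻¹ = c * ((MulAut.conj g).toMonoidHom a) * c⁻¹ := by
        show c * g * a * (c * g)⁻¹ = c * (g * a * g⁻¹) * c⁻¹
        group
      rw [e]; exact h2
    have h3 := hlc P le_rfl hP hcg
    have h4 : g ∈ Subgroup.centralizer ({x} : Set G) := (Subgroup.mul_mem_cancel_left _ hc).mp h3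
    rw [hcx] at h4
    rw [h4]; group
  · intro N _ R hR hR1 gb hgb
    obtain ⟨g, rfl⟩ := QuotientGroup.mk_surjective gb
    have hgR : ∀ b : G, (QuotientGroup.mk b : G ⧸ N) ∈ R →
        (QuotientGroup.mk (g * b * g⁻¹) : G ⧸ N) ∈ R := by
      intro b hb
      have := (Subgroup.mem_normalizer_iff.mp hgb (QuotientGroup.mk b)).mp hb
      exact this
    obtain ⟨R₀, hR₀⟩ : ∃ R₀ : Subgroup G, R₀ = (P : Subgroup G) ⊓ R.comap (QuotientGroup.mk' N) :=
      ⟨_, rfl⟩
    have hmem : ∀ b, b ∈ R₀ ↔ b ∈ (P : Subgroup G) ∧ (QuotientGroup.mk b : G ⧸ N) ∈ R := by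
      intro b; rw [hR₀, Subgroup.mem_inf, Subgroup.mem_comap]; rfl
    have hR₀P : R₀ ≤ (P : Subgroup G) := by rw [hR₀]; exact inf_le_left
    have hR₀1 : R₀ ≠ ⊥ := by
      obtain ⟨⟨r, hr⟩, hr1⟩ := (Subgroup.ne_bot_iff_exists_ne_one).mp hR1
      obtain ⟨a, ha, har⟩ := hR hr
      have haR : a ∈ R₀ :=
        (hmem a).mpr ⟨ha, by rw [show (QuotientGroup.mk a : G ⧸ N) = r from har]; exact hr⟩
      intro hbot
      rw [hbot, Subgroup.mem_bot] at haR
      apply hr1
      apply Subtype.ext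
      show r = 1
      rw [← har, haR, map_one]
    have hU : IsPGroup p (R₀.map (MulAut.conj g).toMonoidHom) :=
      (P.isPGroup'.to_le hR₀P).map _
    have hUM : R₀.map (MulAut.conj g).toMonoidHom ≤ (P : Subgroup G) ⊔ N := by
      rintro _ ⟨b, hb, rfl⟩
      have hb' := (hmem b).mp hb
      have h2 := hgR b hb'.2
      obtain ⟨d, hd, hdr⟩ := hR h2
      have h3 : d⁻¹ * (g * b * g⁻¹) ∈ N := QuotientGroup.eq.mp hdr
      have e : (MulAut.conj g).toMonoidHom b = d * (d⁻¹ * (g * b * g⁻¹)) := by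
        show g * b * g⁻¹ = _
        group
      rw [e]
      exact Subgroup.mul_mem_sup hd h3
    obtain ⟨m, hm, hmU⟩ := exists_conj_mem_sylow_of_le P ((P : Subgroup G) ⊔ N) le_sup_left _ hU hUM
    obtain ⟨a, ha, n, hn, hman⟩ := exists_mul_of_mem_sup_of_le_normalizer (P : Subgroup G) N
      (by intro z _; exact mem_normalizer_of_forall_conj_mem N z (fun y hy => ‹N.Normal›.conj_mem y hy z))
      m hm
    have hn1 : (QuotientGroup.mk' N) n = 1 := (QuotientGroup.eq_one_iff n).mpr hn
    have hnU : ∀ b ∈ R₀, (n * g) * b * (n * g)⁻¹ ∈ R₀ := by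
      intro b hb
      have hb' := (hmem b).mp hb
      have h2 := hmU _ ⟨b, hb, rfl⟩
      rw [hmem]
      constructor
      · have e : n * g * b * (n * g)⁻¹ = a⁻¹ * (m * ((MulAut.conj g).toMonoidHom b) * m⁻¹) * a := by
          show n * g * b * (n * g)⁻¹ = a⁻¹ * (m * (g * b * g⁻¹) * m⁻¹) * a
          rw [hman]; group
        rw [e]
        exact mul_mem (mul_mem (inv_mem ha) h2) ha
      · have h3 := hgR b hb'.2
        have e : n * g * b * (n * g)⁻¹ = n * (g * b * g⁻¹) * n⁻¹ := by group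
        rw [e]
        show (QuotientGroup.mk' N) (n * (g * b * g⁻¹) * n⁻¹) ∈ R
        rw [map_mul, map_mul, map_inv, hn1, one_mul, inv_one, mul_one]
        exact h3
    have hnorm : n * g ∈ Subgroup.normalizer (R₀ : Set G) :=
      mem_normalizer_of_forall_conj_mem R₀ (n * g) hnU
    have hcent := hlc R₀ hR₀P hR₀1 hnorm
    rw [hcx] at hcent
    rw [Subgroup.mem_centralizer_iff]
    intro h hh
    rw [Set.mem_singleton_iff] at hh
    rw [hh]
    have e1 : (QuotientGroup.mk g : G ⧸ N) = (QuotientGroup.mk' N) (n * g) := by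
      rw [map_mul, hn1, one_mul]; rfl
    rw [e1]
    show (QuotientGroup.mk' N) x * (QuotientGroup.mk' N) (n * g) = (QuotientGroup.mk' N) (n * g) * (QuotientGroup.mk' N) x
    rw [← map_mul, ← map_mul, hcent]

end Cfsg.Agent.S2998
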