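import Cfsg.Statements.S3003
import Mathlib
import Cfsg.Agent.Lib.Helper4.CoprimeGen
import Cfsg.Agent.Lib.Helper5.ChermakDelgado

set_option autoImplicit false
open Cfsg

namespace Cfsg.Agent.S3003


theorem norm_inf' {G : Type*} [Group G] {A B : Subgroup G} {a : G}
    (hA : a ∈ Subgroup.normalizer (A : Set G)) (hB : a ∈ Subgroup.normalizer (B : Set G)) :
    a ∈ Subgroup.normalizer ((A ⊓ B : Subgroup G) : Set G) := by
  rw [Subgroup.mem_normalizer_iff] at *
  intro h
  rw [Subgroup.mem_inf, Subgroup.mem_inf, hA h, hB h]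

theorem part1 {G : Type*} [Group G] [Finite G] {p : ℕ} [Fact p.Prime] (Q : Subgroup G)
    (hQp : IsPGroup p ↥Q) (hlarge : Cfsg.IsLarge Q) (G₁ : Subgroup G) (hQG : Q ≤ G₁)
    (R : Subgroup G) (hR : (Nat.card ↥R).Coprime p)
    (hGR : G₁ ≤ Subgroup.normalizer (R : Set G)) (U : Subgroup G)
    (h : ∃ x ∈ U, x ≠ 1 ∧ ∃ g ∈ G₁, g * x * g⁻¹ ∈ Q ⊓ Subgroup.centralizer (Q : Set G)) :
    R ⊓ Subgroup.centralizer (U : Set G) = ⊥ := by
  obtain ⟨x, hxU, hx1, g, hg, hy⟩ := h
  have hQR : Q ⊓ R = ⊥ := by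
    obtain ⟨n, hn⟩ := hQp.exists_card_eq
    apply Subgroup.inf_eq_bot_of_coprime
    rw [hn]
    exact Nat.Coprime.pow_left n hR.symm
  rw [eq_bot_iff]
  intro r hr
  obtain ⟨hrR, hrC⟩ := Subgroup.mem_inf.mp hr
  rw [Subgroup.mem_bot]
  have hr'R : g * r * g⁻¹ ∈ R := by
    have := hGR hg
    rw [Subgroup.mem_normalizer_iff] at this
    exact (this r).mp hrR
  have hrx : r * x = x * r := (Subgroup.mem_centralizer_iff.mp hrC x hxU).symm
  have hcomm : (g * r * g⁻¹) * (g * x * g⁻¹) = (g * x * g⁻¹) * (g * r * g⁻¹) := by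
    calc g * r * g⁻¹ * (g * x * g⁻¹) = g * (r * x) * g⁻¹ := by group
      _ = g * (x * r) * g⁻¹ := by rw [hrx]
      _ = _ := by group
  have hy1 : g * x * g⁻¹ ≠ 1 := by
    intro h
    apply hx1
    have : x = g⁻¹ * (g * x * g⁻¹) * g := by group
    rw [this, h]; group
  have hzy : Subgroup.zpowers (g * x * g⁻¹) ≤ Subgroup.centralizer (Q : Set G) := by
    rw [Subgroup.zpowers_le]; exact (Subgroup.mem_inf.mp hy).2
  have hzy1 : Subgroup.zpowers (g * x * g⁻¹) ≠ ⊥ := by
    rw [Ne, Subgroup.zpowers_eq_bot]; exact hy1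
  have hr'N : g * r * g⁻¹ ∈ Subgroup.normalizer (Q : Set G) := by
    apply hlarge.2 _ hzy hzy1
    apply Subgroup.centralizer_le_normalizer
    rw [Subgroup.mem_centralizer_iff]
    intro h hh
    obtain ⟨k, rfl⟩ := Subgroup.mem_zpowers_iff.mp hh
    exact ((Commute.zpow_left (show Commute (g * x * g⁻¹) (g * r * g⁻¹) from hcomm.symm) k)).eq
  have hr'C : g * r * g⁻¹ ∈ Subgroup.centralizer (Q : Set G) := by
    rw [Subgroup.mem_centralizer_iff]
    intro q hq
    have h1 : (g * r * g⁻¹) * q * (g * r * g⁻¹)⁻¹ * q⁻¹ ∈ Q := by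
      have := (Subgroup.mem_normalizer_iff.mp hr'N q).mp hq
      exact Q.mul_mem this (Q.inv_mem hq)
    have h2 : (g * r * g⁻¹) * q * (g * r * g⁻¹)⁻¹ * q⁻¹ ∈ R := by
      have hqN := hGR (hQG hq)
      have := (Subgroup.mem_normalizer_iff.mp hqN (g * r * g⁻¹)⁻¹).mp (R.inv_mem hr'R)
      have := R.mul_mem hr'R this
      convert this using 1; group
    have h3 : (g * r * g⁻¹) * q * (g * r * g⁻¹)⁻¹ * q⁻¹ ∈ Q ⊓ R := ⟨h1, h2⟩
    rw [hQR, Subgroup.mem_bot] at h3
    have : (g * r * g⁻¹) * q = q * (g * r * g⁻¹) := by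
      calc (g * r * g⁻¹) * q = ((g * r * g⁻¹) * q * (g * r * g⁻¹)⁻¹ * q⁻¹) * (q * (g * r * g⁻¹)) := by group
        _ = q * (g * r * g⁻¹) := by rw [h3, one_mul]
    exact this.symm
  have h4 : g * r * g⁻¹ ∈ Q ⊓ R := ⟨hlarge.1 hr'C, hr'R⟩
  rw [hQR, Subgroup.mem_bot] at h4
  have hr : r = g⁻¹ * (g * r * g⁻¹) * g := by group
  rw [hr, h4]; group

/-- Let G be a finite group, p a prime and Q a large p-subgroup of G: C_G(Q) ≤ Q and N_G(U) ≤ N_G(Q) for every nontrivial subgroup U of C_G(Q). Let Q ≤ G₁ ≤ G, let R be a subgroup of order prime to p normalized by G₁, and let U ≤ G₁ be a p-subgroup. If U contains a nontrivial element which is G₁-conjugate to an element of Z(Q), then C_R(U) = 1. In particular, if U is elementary abelian of order at least p² and every maximal subgroup of U contains a nontrivial element G₁-conjugate into Z(Q), then R = 1. -/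
theorem result {G : Type*} [Group G] [Finite G] {p : ℕ} [Fact p.Prime] (Q : Subgroup G) (hQp : IsPGroup p ↥Q) (hlarge : Cfsg.IsLarge Q) (G₁ : Subgroup G) (hQG : Q ≤ G₁) (R : Subgroup G) (hR : (Nat.card ↥R).Coprime p) (hGR : G₁ ≤ Subgroup.normalizer (R : Set G)) (U : Subgroup G) (hUG : U ≤ G₁) (hUp : IsPGroup p ↥U) : ((∃ x ∈ U, x ≠ 1 ∧ ∃ g ∈ G₁, g * x * g⁻¹ ∈ Q ⊓ Subgroup.centralizer (Q : Set G)) → R ⊓ Subgroup.centralizer (U : Set G) = ⊥) ∧ (Cfsg.IsElementaryAbelian p U → p ^ 2 ≤ Nat.card ↥U → (∀ U₀ : Subgroup G, U₀ ≤ U → IsCoatom (U₀.subgroupOf U) → ∃ x ∈ U₀, x ≠ 1 ∧ ∃ g ∈ G₁, g * x * g⁻¹ ∈ Q ⊓ Subgroup.centralizer (Q : Set G)) → R = ⊥) := by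
  refine ⟨fun h => part1 Q hQp hlarge G₁ hQG R hR hGR U h, ?_⟩
  intro hEA hcard hco
  have hp : p.Prime := Fact.out
  have hUc : ∀ u ∈ U, ∀ v ∈ U, u * v = v * u := by
    intro u hu v hv
    have h := Subgroup.le_centralizer_iff_isMulCommutative.mpr hEA.1
    exact (Subgroup.mem_centralizer_iff.mp (h hv) u hu)
  by_contra hne
  let s : Set (Subgroup G) := {V | V ≤ U ∧ ¬ (R ⊓ Subgroup.centralizer (V : Set G) ≤ ⊥)}
  have hbot : (⊥ : Subgroup G) ∈ s := by
    refine ⟨bot_le, fun h => hne ?_⟩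
    rw [eq_bot_iff]
    intro r hr
    apply h
    refine ⟨hr, Subgroup.mem_centralizer_iff.mpr ?_⟩
    intro v hv
    rw [SetLike.mem_coe, Subgroup.mem_bot] at hv
    rw [hv]; simp
  obtain ⟨V, -, hVmax⟩ := (Set.toFinite s).exists_le_maximal hbot
  obtain ⟨⟨hVU, hVbad⟩, hVm⟩ := hVmax
  -- step: for x ∈ U \ V, C_R(V) ⊓ C(x) ≤ ⊥
  have hstep : ∀ x ∈ U, x ∉ V →
      (R ⊓ Subgroup.centralizer (V : Set G)) ⊓ Subgroup.centralizer ({x} : Set G) ≤ ⊥ := by
    intro x hxU hxV
    have hV' : V ⊔ Subgroup.zpowers x ≤ U := sup_le hVU (by rw [Subgroup.zpowers_le]; exact hxU)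
    have hnot : ¬ (V ⊔ Subgroup.zpowers x ∈ s) := by
      intro hs
      have := hVm hs le_sup_left
      exact hxV (this (Subgroup.mem_sup_right (Subgroup.mem_zpowers x)))
    have hle : R ⊓ Subgroup.centralizer ((V ⊔ Subgroup.zpowers x : Subgroup G) : Set G) ≤ ⊥ := by
      by_contra hcon
      exact hnot ⟨hV', hcon⟩
    refine le_trans ?_ hle
    intro z hz
    obtain ⟨⟨hzR, hzV⟩, hzx⟩ := hz
    refine ⟨hzR, ?_⟩
    rw [Cfsg.Agent.Lib.Helper5.centralizer_sup]
    refine ⟨hzV, Subgroup.mem_centralizer_iff.mpr ?_⟩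
    intro h hh
    obtain ⟨k, rfl⟩ := Subgroup.mem_zpowers_iff.mp hh
    have hc : x * z = z * x := Subgroup.mem_centralizer_iff.mp hzx x (Set.mem_singleton x)
    exact ((Commute.zpow_left (show Commute x z from hc) k)).eq
  by_cases htop : V.subgroupOf U = ⊤
  · -- V = U
    have hUV : U ≤ V := Subgroup.subgroupOf_eq_top.mp htop
    have hUnt : (⊥ : Subgroup ↥U) ≠ ⊤ := by
      intro h
      have h1 : Nat.card ↥U = 1 := by
        have := Subgroup.card_top (G := ↥U)
        rw [← h, Subgroup.card_bot] at this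
        exact this.symm
      have : 2 ^ 2 ≤ p ^ 2 := Nat.pow_le_pow_left hp.two_le 2
      omega
    rcases eq_top_or_exists_le_coatom (⊥ : Subgroup ↥U) with h | ⟨W, hW, -⟩
    · exact hUnt h
    · have hWU : W.map U.subtype ≤ U := by
        intro x hx
        obtain ⟨y, -, rfl⟩ := Subgroup.mem_map.mp hx
        exact y.2
      have hWeq : (W.map U.subtype).subgroupOf U = W := by
        ext y
        rw [Subgroup.mem_subgroupOf, Subgroup.mem_map]
        constructor
        · rintro ⟨z, hz, hzy⟩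
          have : z = y := Subtype.ext hzy
          rwa [← this]
        · intro hy
          exact ⟨y, hy, rfl⟩
      have h1 := part1 Q hQp hlarge G₁ hQG R hR hGR (W.map U.subtype)
        (hco _ hWU (by rw [hWeq]; exact hW))
      apply hVbad
      rw [← h1]
      exact inf_le_inf_left _ (Subgroup.centralizer_le (le_trans hWU hUV))
  · by_cases hco' : IsCoatom (V.subgroupOf U)
    · have h1 := part1 Q hQp hlarge G₁ hQG R hR hGR V (hco V hVU hco')
      exact hVbad (le_of_eq h1)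
    · rw [SetLike.isCoatom_iff] at hco'
      push Not at hco'
      obtain ⟨W, a', hVW, ha'V, ha'W, hWtop⟩ := hco' htop
      have hb' : ∃ b' : ↥U, b' ∉ W := by
        by_contra hcon
        push Not at hcon
        exact hWtop ((Subgroup.eq_top_iff' W).mpr hcon)
      obtain ⟨b', hb'W⟩ := hb'
      have haV : (a' : G) ∉ V := fun h => ha'V (Subgroup.mem_subgroupOf.mpr h)
      have hbV : (b' : G) ∉ V := fun h => hb'W (hVW (Subgroup.mem_subgroupOf.mpr h))
      have hb'p : b' ^ p = 1 := Subtype.ext (by simpa using hEA.2 b' b'.2)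
      have habV : ∀ i : ℕ, (a' : G) * (b' : G) ^ i ∉ V := by
        intro i h
        have h1 : a' * b' ^ i ∈ W := hVW (Subgroup.mem_subgroupOf.mpr (by simpa using h))
        have h2 : b' ^ i ∈ W := by
          have := W.mul_mem (W.inv_mem ha'W) h1
          simpa using this
        by_cases hpi : p ∣ i
        · obtain ⟨k, rfl⟩ := hpi
          have : (b' : G) ^ (p * k) = 1 := by
            rw [pow_mul, hEA.2 b' b'.2, one_pow]
          rw [this, mul_one] at h
          exact haV h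
        · have hcop : Nat.Coprime i p := (Nat.Coprime.symm ((Nat.Prime.coprime_iff_not_dvd hp).mpr hpi))
          have hz : b' ∈ Subgroup.zpowers (b' ^ i) := by
            have hord : orderOf b' ∣ p := orderOf_dvd_of_pow_eq_one hb'p
            have hcop2 : Nat.Coprime (orderOf b') i := Nat.Coprime.coprime_dvd_left hord hcop.symm
            obtain ⟨m, hm⟩ := exists_pow_eq_self_of_coprime hcop2.symm (x := b')
            have h3 : (b' ^ i) ^ m ∈ Subgroup.zpowers (b' ^ i) := Subgroup.npow_mem_zpowers _ _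
            rwa [hm] at h3
          have hle : Subgroup.zpowers (b' ^ i) ≤ W := by
            rw [Subgroup.zpowers_le]; exact h2
          exact hb'W (hle hz)
      have hcentV : ∀ u ∈ U, u ∈ Subgroup.centralizer (V : Set G) := by
        intro u hu
        rw [Subgroup.mem_centralizer_iff]
        intro v hv
        exact hUc v (hVU hv) u hu
      have hnormV : ∀ u ∈ U, u ∈ Subgroup.normalizer
          ((R ⊓ Subgroup.centralizer (V : Set G) : Subgroup G) : Set G) := by
        intro u hu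
        exact norm_inf' (hGR (hUG hu)) (Subgroup.le_normalizer (hcentV u hu))
      have hcop' : (Nat.card ↥(R ⊓ Subgroup.centralizer (V : Set G))).Coprime p :=
        Nat.Coprime.coprime_dvd_left (Subgroup.card_dvd_of_le inf_le_left) hR
      have := Cfsg.Agent.Lib.Helper4.coprime_generation (p := p) (a' : G) (b' : G)
        (hEA.2 a' a'.2) (hEA.2 b' b'.2) (hUc a' a'.2 b' b'.2)
        (R ⊓ Subgroup.centralizer (V : Set G)) (hnormV a' a'.2) (hnormV b' b'.2) hcop' ⊥
        (hstep b' b'.2 hbV)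
        (fun i => hstep _ (U.mul_mem a'.2 (U.pow_mem b'.2 i)) (habV i))
      exact hVbad this

end Cfsg.Agent.S3003
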