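import Cfsg.Statements.S3004
import Mathlib
import Cfsg.Agent.Lib.Helper5.ChermakDelgado

set_option autoImplicit false
open scoped Pointwise
open Cfsg

namespace Cfsg.Agent.S3004

open Cfsg.Agent.Lib.Helper5 in
theorem isCentralizerLarge_iff {S : Type*} [Group S] [Finite S] (R : Subgroup S) :
    Cfsg.IsCentralizerLarge R ↔ ∀ L : Subgroup S, cdm L ≤ cdm R := by
  unfold Cfsg.IsCentralizerLarge Cfsg.maxCentralizerProduct
  set T : Set ℕ := {k : ℕ | ∃ R : Subgroup S,
    Nat.card ↥R * Nat.card ↥(Subgroup.centralizer (R : Set S)) = k} with hT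
  have hfin : T.Finite := by
    have : T = Set.range (fun L : Subgroup S => cdm L) := by
      ext k; simp [hT, cdm]
    rw [this]; exact Set.finite_range _
  have hne : T.Nonempty := ⟨_, ⊥, rfl⟩
  have hmem : sSup T ∈ T := Nat.sSup_mem hne hfin.bddAbove
  constructor
  · intro h L
    rw [cdm_def R, h]
    exact le_csSup hfin.bddAbove ⟨L, rfl⟩
  · intro h
    obtain ⟨L, hL⟩ := hmem
    apply le_antisymm
    · exact le_csSup hfin.bddAbove ⟨R, rfl⟩
    · rw [← hL]; exact h L

/-- Let P be a finite p-group and call a subgroup R of P measure-largest if |R|·|C_P(R)| is as large as possible among subgroups of P. If Q and R are measure-largest then QR = RQ is a subgroup, QR and Q ∩ R are measure-largest, C_P(Q) is measure-largest, Q = C_P(C_P(Q)), and C_P(Q ∩ R) = C_P(Q)·C_P(R). -/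
theorem result {p : ℕ} [Fact p.Prime] (P : Type*) [Group P] [Finite P] (hP : IsPGroup p P) (Q R : Subgroup P) (hQ : Cfsg.IsCentralizerLarge Q) (hR : Cfsg.IsCentralizerLarge R) : ((Q ⊔ R : Subgroup P) : Set P) = (Q : Set P) * (R : Set P) ∧ Cfsg.IsCentralizerLarge (Q ⊔ R) ∧ Cfsg.IsCentralizerLarge (Q ⊓ R) ∧ Cfsg.IsCentralizerLarge (Subgroup.centralizer (Q : Set P)) ∧ Q = Subgroup.centralizer ((Subgroup.centralizer (Q : Set P) : Subgroup P) : Set P) ∧ ((Subgroup.centralizer (Q : Set P) ⊔ Subgroup.centralizer (R : Set P) : Subgroup P) : Set P) = (Subgroup.centralizer (Q : Set P) : Set P) * (Subgroup.centralizer (R : Set P) : Set P) ∧ Subgroup.centralizer ((Q ⊓ R : Subgroup P) : Set P) = Subgroup.centralizer (Q : Set P) ⊔ Subgroup.centralizer (R : Set P) := by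
  rw [isCentralizerLarge_iff] at hQ hR
  obtain ⟨e1, e2, e3, e4, e5⟩ := Cfsg.Agent.Lib.Helper5.cdm_max_sup_inf hQ hR
  obtain ⟨c1, c2⟩ := Cfsg.Agent.Lib.Helper5.cdm_max_centralizer hQ
  refine ⟨e3, ?_, ?_, ?_, c2.symm, e5, e4⟩
  · rw [isCentralizerLarge_iff]; intro L; rw [e1]; exact hQ L
  · rw [isCentralizerLarge_iff]; intro L; rw [e2]; exact hQ L
  · rw [isCentralizerLarge_iff]; intro L; rw [c1]; exact hQ L

end Cfsg.Agent.S3004
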