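import Cfsg.Statements.S3005
import Mathlib
import Cfsg.Agent.Lib.Helper5.ChermakDelgado
import Cfsg.Agent.S3004

set_option autoImplicit false
open scoped Pointwise
open Cfsg

namespace Cfsg.Agent.S3005

open Cfsg.Agent.Lib.Helper5

/-- `|R| * |R ⊓ C(R)|`, the central measure. -/
noncomputable def cm {S : Type*} [Group S] (R : Subgroup S) : ℕ :=
  Nat.card R * Nat.card (R ⊓ Subgroup.centralizer (R : Set S) : Subgroup S)

theorem center_map_subtype {S : Type*} [Group S] (R : Subgroup S) :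
    (Subgroup.center ↥R).map R.subtype = R ⊓ Subgroup.centralizer (R : Set S) := by
  ext x
  constructor
  · rintro ⟨⟨y, hy⟩, hc, rfl⟩
    refine ⟨hy, ?_⟩
    show y ∈ Subgroup.centralizer (R : Set S)
    rw [Subgroup.mem_centralizer_iff]
    intro z hz
    have := (Subgroup.mem_center_iff.mp hc) ⟨z, hz⟩
    exact congrArg Subtype.val this
  · rintro ⟨hx, hc⟩
    refine ⟨⟨x, hx⟩, ?_, rfl⟩
    rw [SetLike.mem_coe, Subgroup.mem_center_iff]
    intro z
    apply Subtype.ext
    exact (Subgroup.mem_centralizer_iff.mp hc) z z.2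

theorem card_center_eq {S : Type*} [Group S] (R : Subgroup S) :
    Nat.card (Subgroup.center ↥R) =
      Nat.card (R ⊓ Subgroup.centralizer (R : Set S) : Subgroup S) := by
  rw [← center_map_subtype, Subgroup.card_subtype]

theorem isCentrallyLarge_iff {S : Type*} [Group S] [Finite S] (R : Subgroup S) :
    Cfsg.IsCentrallyLarge R ↔ ∀ L : Subgroup S, cm L ≤ cm R := by
  unfold Cfsg.IsCentrallyLarge Cfsg.maxCentralProduct
  set T : Set ℕ := {k : ℕ | ∃ R : Subgroup S,
    Nat.card ↥R * Nat.card ↥(Subgroup.center ↥R) = k} with hT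
  have hfin : T.Finite := by
    have : T = Set.range (fun L : Subgroup S => cm L) := by
      ext k; simp [hT, cm, card_center_eq]
    rw [this]; exact Set.finite_range _
  have hne : T.Nonempty := ⟨_, ⊥, rfl⟩
  have hmem : sSup T ∈ T := Nat.sSup_mem hne hfin.bddAbove
  have hcm : ∀ L : Subgroup S, cm L = Nat.card ↥L * Nat.card ↥(Subgroup.center ↥L) := by
    intro L; rw [card_center_eq]; rfl
  constructor
  · intro h L
    rw [hcm R, h, hcm L]
    exact le_csSup hfin.bddAbove ⟨L, rfl⟩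
  · intro h
    obtain ⟨L, hL⟩ := hmem
    apply le_antisymm
    · exact le_csSup hfin.bddAbove ⟨R, rfl⟩
    · rw [← hL, ← hcm, ← hcm]; exact h L

theorem cm_le_cdm {S : Type*} [Group S] [Finite S] (R : Subgroup S) : cm R ≤ cdm R :=
  Nat.mul_le_mul_left _ (Subgroup.card_le_of_le inf_le_right)

theorem cm_sup_centralizer {S : Type*} [Group S] [Finite S] {Q : Subgroup S}
    (hQ : ∀ L : Subgroup S, cdm L ≤ cdm Q) :
    cm (Q ⊔ Subgroup.centralizer (Q : Set S)) = cdm Q := by
  obtain ⟨c1, c2⟩ := cdm_max_centralizer hQ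
  have hC : ∀ L : Subgroup S, cdm L ≤ cdm (Subgroup.centralizer (Q : Set S)) := fun L => by
    rw [c1]; exact hQ L
  obtain ⟨-, -, e3, -, -⟩ := cdm_max_sup_inf hQ hC
  have h1 := card_mul_set_mul_card_inf Q (Subgroup.centralizer (Q : Set S))
  rw [← e3] at h1
  unfold cm
  rw [centralizer_sup, c2]
  have h2 : (Q ⊔ Subgroup.centralizer (Q : Set S)) ⊓ (Subgroup.centralizer (Q : Set S) ⊓ Q) =
      Q ⊓ Subgroup.centralizer (Q : Set S) := by
    rw [inf_comm (Subgroup.centralizer (Q : Set S)) Q]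
    exact inf_eq_right.mpr (inf_le_left.trans le_sup_left)
  rw [h2]
  exact h1

theorem cl_imp {S : Type*} [Group S] [Finite S] {Q : Subgroup S}
    (hQ : ∀ L : Subgroup S, cm L ≤ cm Q) :
    (∀ L : Subgroup S, cdm L ≤ cdm Q) ∧ Subgroup.centralizer (Q : Set S) ≤ Q := by
  obtain ⟨Q₀, hQ₀⟩ := exists_cdm_max (G := S)
  have h1 := cm_sup_centralizer hQ₀
  have h2 := hQ (Q₀ ⊔ Subgroup.centralizer (Q₀ : Set S))
  have h3 := cm_le_cdm Q
  have h4 := hQ₀ Q
  have h5 : cdm Q = cdm Q₀ := by omega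
  have h6 : cm Q = cdm Q := by omega
  refine ⟨fun L => h5 ▸ hQ₀ L, ?_⟩
  unfold cm cdm at h6
  have h7 := Nat.eq_of_mul_eq_mul_left Nat.card_pos h6
  have h8 := Subgroup.eq_of_le_of_card_ge (inf_le_right : Q ⊓ Subgroup.centralizer (Q : Set S) ≤ _) h7.ge
  exact inf_eq_right.mp h8

theorem cl_of {S : Type*} [Group S] [Finite S] {Q : Subgroup S}
    (hQ : ∀ L : Subgroup S, cdm L ≤ cdm Q) (hc : Subgroup.centralizer (Q : Set S) ≤ Q) :
    ∀ L : Subgroup S, cm L ≤ cm Q := by
  intro L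
  have h1 : cm Q = cdm Q := by
    unfold cm cdm
    rw [inf_eq_right.mpr hc]
  rw [h1]
  exact (cm_le_cdm L).trans (hQ L)

theorem cl_sup {S : Type*} [Group S] [Finite S] {Q R : Subgroup S}
    (hQ : ∀ L : Subgroup S, cm L ≤ cm Q) (hR : ∀ L : Subgroup S, cm L ≤ cm R) :
    ((Q ⊔ R : Subgroup S) : Set S) = (Q : Set S) * (R : Set S) ∧
      ∀ L : Subgroup S, cm L ≤ cm (Q ⊔ R) := by
  obtain ⟨q1, q2⟩ := cl_imp hQ
  obtain ⟨r1, r2⟩ := cl_imp hR
  obtain ⟨e1, -, e3, -, -⟩ := cdm_max_sup_inf q1 r1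
  refine ⟨e3, cl_of (fun L => e1 ▸ q1 L) ?_⟩
  rw [centralizer_sup]
  exact (inf_le_left.trans q2).trans le_sup_left

/-- Let P be a finite p-group; call R ≤ P centrally large if |R|·|Z(R)| is as large as possible among subgroups of P, and measure-largest if |R|·|C_P(R)| is as large as possible. Then: a centrally large Q is measure-largest with C_P(Q) = Z(Q); a measure-largest Q is centrally large if and only if C_P(Q) ≤ Q; if Q and R are centrally large then QR = RQ is a centrally large subgroup; and the subgroups generated by all centrally large subgroups, respectively by all minimal centrally large subgroups, are themselves centrally large. -/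
theorem result {p : ℕ} [Fact p.Prime] (P : Type*) [Group P] [Finite P] (hP : IsPGroup p P) : (∀ Q : Subgroup P, Cfsg.IsCentrallyLarge Q → Cfsg.IsCentralizerLarge Q ∧ Subgroup.centralizer (Q : Set P) = Q ⊓ Subgroup.centralizer (Q : Set P)) ∧ (∀ Q : Subgroup P, Cfsg.IsCentralizerLarge Q → (Cfsg.IsCentrallyLarge Q ↔ Subgroup.centralizer (Q : Set P) ≤ Q)) ∧ (∀ Q R : Subgroup P, Cfsg.IsCentrallyLarge Q → Cfsg.IsCentrallyLarge R → ((Q ⊔ R : Subgroup P) : Set P) = (Q : Set P) * (R : Set P) ∧ Cfsg.IsCentrallyLarge (Q ⊔ R)) ∧ Cfsg.IsCentrallyLarge (Cfsg.centrallyLargeJoin P) ∧ Cfsg.IsCentrallyLarge (Cfsg.minimalCentrallyLargeJoin P) := by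
  classical
  have hsup : SupClosed {R : Subgroup P | Cfsg.IsCentrallyLarge R} := by
    intro Q hQ R hR
    rw [Set.mem_ofPred_eq, isCentrallyLarge_iff] at hQ hR ⊢
    exact (cl_sup hQ hR).2
  have hne : ∃ R : Subgroup P, Cfsg.IsCentrallyLarge R := by
    obtain ⟨R, hR⟩ := Finite.exists_max (fun L : Subgroup P => cm L)
    exact ⟨R, (isCentrallyLarge_iff R).mpr hR⟩
  refine ⟨?_, ?_, ?_, ?_, ?_⟩
  · intro Q hQ
    rw [isCentrallyLarge_iff] at hQ
    obtain ⟨q1, q2⟩ := cl_imp hQ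
    exact ⟨(Cfsg.Agent.S3004.isCentralizerLarge_iff Q).mpr q1, (inf_eq_right.mpr q2).symm⟩
  · intro Q hQ
    rw [Cfsg.Agent.S3004.isCentralizerLarge_iff] at hQ
    rw [isCentrallyLarge_iff]
    exact ⟨fun h => (cl_imp h).2, fun h => cl_of hQ h⟩
  · intro Q R hQ hR
    rw [isCentrallyLarge_iff] at hQ hR ⊢
    exact cl_sup hQ hR
  · exact hsup.sSup_mem_of_nonempty (Set.toFinite _) hne subset_rfl
  · refine hsup.sSup_mem_of_nonempty (Set.toFinite _) ?_ (fun R hR => hR.1)
    obtain ⟨m, hm⟩ := Set.Finite.exists_minimal (s := {R : Subgroup P | Cfsg.IsCentrallyLarge R})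
      (Set.toFinite _) hne
    exact ⟨m, hm.1, fun R' hle hR' => le_antisymm hle (hm.2 hR' hle)⟩

end Cfsg.Agent.S3005
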