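import Cfsg.Statements.S3006
import Mathlib
import Cfsg.Agent.Lib.Helper5.ChermakDelgado
import Cfsg.Agent.S3005

set_option autoImplicit false
open scoped Pointwise
open Cfsg

namespace Cfsg.Agent.S3006

open Cfsg.Agent.Lib.Helper5 Cfsg.Agent.S3005

theorem mem_sup_of_commute {G : Type*} [Group G] {H K : Subgroup G}
    (hc : ∀ h ∈ H, ∀ k ∈ K, h * k = k * h) {x : G} (hx : x ∈ H ⊔ K) :
    ∃ h ∈ H, ∃ k ∈ K, x = h * k := by
  rw [Subgroup.sup_eq_closure] at hx
  induction hx using Subgroup.closure_induction with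
  | mem y hy =>
    rcases hy with hy | hy
    · exact ⟨y, hy, 1, K.one_mem, by simp⟩
    · exact ⟨1, H.one_mem, y, hy, by simp⟩
  | one => exact ⟨1, H.one_mem, 1, K.one_mem, by simp⟩
  | mul y z _ _ ihy ihz =>
    obtain ⟨h₁, hh₁, k₁, hk₁, rfl⟩ := ihy
    obtain ⟨h₂, hh₂, k₂, hk₂, rfl⟩ := ihz
    refine ⟨h₁ * h₂, H.mul_mem hh₁ hh₂, k₁ * k₂, K.mul_mem hk₁ hk₂, ?_⟩
    calc h₁ * k₁ * (h₂ * k₂) = h₁ * (k₁ * h₂) * k₂ := by group
      _ = h₁ * (h₂ * k₁) * k₂ := by rw [hc h₂ hh₂ k₁ hk₁]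
      _ = h₁ * h₂ * (k₁ * k₂) := by group
  | inv y _ ih =>
    obtain ⟨h, hh, k, hk, rfl⟩ := ih
    refine ⟨h⁻¹, H.inv_mem hh, k⁻¹, K.inv_mem hk, ?_⟩
    rw [mul_inv_rev]
    exact (hc h⁻¹ (H.inv_mem hh) k⁻¹ (K.inv_mem hk)).symm

theorem maxAbelian_centralizer {P : Type*} [Group P] [Finite P] {A : Subgroup P}
    (hA : A ∈ Cfsg.maxAbelianSubgroups P) : Subgroup.centralizer (A : Set P) = A := by
  obtain ⟨hAc, hAmax⟩ := hA
  have hle : A ≤ Subgroup.centralizer (A : Set P) :=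
    Subgroup.le_centralizer_iff_isMulCommutative.mpr hAc
  apply le_antisymm _ hle
  intro x hx
  have hZ : Subgroup.zpowers x ≤ Subgroup.centralizer (A : Set P) := by
    rwa [Subgroup.zpowers_le]
  have hB : IsMulCommutative ↥(A ⊔ Subgroup.zpowers x) := by
    rw [← Subgroup.le_centralizer_iff_isMulCommutative, centralizer_sup]
    refine sup_le (le_inf hle (Subgroup.le_centralizer_iff.mp hZ)) (le_inf hZ ?_)
    exact Subgroup.le_centralizer_iff_isMulCommutative.mpr inferInstance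
  have h1 := hAmax _ hB
  have h2 : A ⊔ Subgroup.zpowers x = A := (Subgroup.eq_of_le_of_card_ge le_sup_left h1).symm
  rw [← h2]
  exact (le_sup_right : Subgroup.zpowers x ≤ A ⊔ Subgroup.zpowers x) (Subgroup.mem_zpowers x)

theorem cl_arith {a q z d t w a₁ : ℕ} (i1 : a₁ ≤ a) (i2 : d * z ≤ a₁ * w) (i3 : t * w ≤ q * z)
    (i4 : q * a ≤ t * d) (hq : 0 < q) (hd : 0 < d) (hw : 0 < w) :
    t * d ≤ q * a ∧ q * z ≤ t * w ∧ a ≤ a₁ := by
  have E1 : t * d * w ≤ q * z * d := by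
    calc t * d * w = (t * w) * d := by ring
      _ ≤ (q * z) * d := Nat.mul_le_mul_right _ i3
  have E2 : q * z * d ≤ q * a₁ * w := by
    calc q * z * d = q * (d * z) := by ring
      _ ≤ q * (a₁ * w) := Nat.mul_le_mul_left _ i2
      _ = q * a₁ * w := by ring
  have E3 : q * a₁ * w ≤ q * a * w := Nat.mul_le_mul_right _ (Nat.mul_le_mul_left _ i1)
  have E4 : q * a * w ≤ t * d * w := Nat.mul_le_mul_right _ i4
  refine ⟨?_, ?_, ?_⟩
  · exact Nat.le_of_mul_le_mul_right (E1.trans (E2.trans E3)) hw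
  · have : q * z * d ≤ t * w * d := by
      calc q * z * d ≤ q * a * w := E2.trans E3
        _ ≤ t * d * w := E4
        _ = t * w * d := by ring
    exact Nat.le_of_mul_le_mul_right this hd
  · have h1 : q * a * w ≤ q * a₁ * w := E4.trans (E1.trans E2)
    have h2 := Nat.le_of_mul_le_mul_right h1 hw
    exact Nat.le_of_mul_le_mul_left h2 hq

theorem cl_sup_maxAbelian {P : Type*} [Group P] [Finite P] {Q A : Subgroup P}
    (hQ : ∀ L : Subgroup P, cm L ≤ cm Q) (hA : A ∈ Cfsg.maxAbelianSubgroups P) :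
    ((Q ⊔ A : Subgroup P) : Set P) = (Q : Set P) * (A : Set P) ∧
    (∀ L : Subgroup P, cm L ≤ cm (Q ⊔ A)) ∧
    (Q ⊓ A) ⊔ Subgroup.centralizer (Q : Set P) ∈ Cfsg.maxAbelianSubgroups P := by
  obtain ⟨q1, q2⟩ := cl_imp hQ
  obtain ⟨-, c2⟩ := cdm_max_centralizer q1
  have hCA := maxAbelian_centralizer hA
  have hAc : A ≤ Subgroup.centralizer (A : Set P) := hCA.ge
  have hDC : Q ⊓ A ≤ Subgroup.centralizer ((Q ⊓ A : Subgroup P) : Set P) :=
    (inf_le_right.trans hAc).trans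
      (Subgroup.centralizer_le (SetLike.coe_subset_coe.mpr inf_le_right))
  have hCD : Subgroup.centralizer (Q : Set P) ≤
      Subgroup.centralizer ((Q ⊓ A : Subgroup P) : Set P) :=
    Subgroup.centralizer_le (SetLike.coe_subset_coe.mpr inf_le_left)
  have hA₁ : IsMulCommutative ↥((Q ⊓ A) ⊔ Subgroup.centralizer (Q : Set P)) := by
    rw [← Subgroup.le_centralizer_iff_isMulCommutative, centralizer_sup, c2]
    exact sup_le (le_inf hDC inf_le_left) (le_inf hCD q2)
  have i1 : Nat.card ↥((Q ⊓ A) ⊔ Subgroup.centralizer (Q : Set P)) ≤ Nat.card A := hA.2 _ hA₁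
  have i2 := card_mul_card_le (Q ⊓ A) (Subgroup.centralizer (Q : Set P))
  have i3 : cdm (Q ⊔ A) ≤ cdm Q := q1 _
  have i4 := card_mul_card_le Q A
  have hw : Subgroup.centralizer ((Q ⊔ A : Subgroup P) : Set P) =
      (Q ⊓ A) ⊓ Subgroup.centralizer (Q : Set P) := by
    rw [centralizer_sup, hCA]
    apply le_antisymm
    · exact le_inf (le_inf (inf_le_left.trans q2) inf_le_right) inf_le_left
    · exact le_inf inf_le_right (inf_le_left.trans inf_le_right)
  unfold cdm at i3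
  rw [hw] at i3
  obtain ⟨k1, k2, k3⟩ := cl_arith i1 i2 i3 i4 Nat.card_pos Nat.card_pos Nat.card_pos
  refine ⟨coe_sup_eq_mul_of_card Q A k1, ?_, ⟨hA₁, fun B hB => (hA.2 B hB).trans k3⟩⟩
  apply cl_of
  · intro L
    have : cdm (Q ⊔ A) = cdm Q := le_antisymm (q1 _) (by unfold cdm; rw [hw]; exact k2)
    rw [this]; exact q1 L
  · rw [hw]; exact (inf_le_left.trans inf_le_left).trans le_sup_left

/-- Let P be a finite p-group, Q a centrally large subgroup of P (|Q|·|Z(Q)| maximal among subgroups of P) and A an abelian subgroup of P of largest order. Then QA = AQ is a centrally large subgroup of P, C_{QA}(Q ∩ A) = Z(Q)·A, and the subgroup generated by all centrally large subgroups of P contains C_P(Z(J(P))), where J(P) is generated by the abelian subgroups of largest order. -/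
theorem result {p : ℕ} [Fact p.Prime] (P : Type*) [Group P] [Finite P] (hP : IsPGroup p P) (Q A : Subgroup P) (hQ : Cfsg.IsCentrallyLarge Q) (hA : A ∈ Cfsg.maxAbelianSubgroups P) : ((Q ⊔ A : Subgroup P) : Set P) = (Q : Set P) * (A : Set P) ∧ Cfsg.IsCentrallyLarge (Q ⊔ A) ∧ (Q ⊔ A) ⊓ Subgroup.centralizer ((Q ⊓ A : Subgroup P) : Set P) = (Q ⊓ Subgroup.centralizer (Q : Set P)) ⊔ A ∧ (((Q ⊓ Subgroup.centralizer (Q : Set P)) ⊔ A : Subgroup P) : Set P) = ((Q ⊓ Subgroup.centralizer (Q : Set P)) : Set P) * (A : Set P) ∧ Subgroup.centralizer ((Cfsg.thompsonSubgroupA P ⊓ Subgroup.centralizer (Cfsg.thompsonSubgroupA P : Set P) : Subgroup P) : Set P) ≤ Cfsg.centrallyLargeJoin P := by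
  classical
  rw [isCentrallyLarge_iff] at hQ
  obtain ⟨s1, s2, s3⟩ := cl_sup_maxAbelian hQ hA
  obtain ⟨q1, q2⟩ := cl_imp hQ
  obtain ⟨-, c2⟩ := cdm_max_centralizer q1
  have hCA := maxAbelian_centralizer hA
  have hCA₁ := maxAbelian_centralizer s3
  rw [centralizer_sup, c2] at hCA₁
  have hZ : Q ⊓ Subgroup.centralizer (Q : Set P) = Subgroup.centralizer (Q : Set P) :=
    inf_eq_right.mpr q2
  have hcomm : ∀ h ∈ Q ⊓ A, ∀ k ∈ Subgroup.centralizer (Q : Set P), h * k = k * h := by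
    intro h hh k hk
    exact (Subgroup.mem_centralizer_iff.mp hk) h hh.1
  have hA_D : A ≤ Subgroup.centralizer ((Q ⊓ A : Subgroup P) : Set P) :=
    hCA.ge.trans (Subgroup.centralizer_le (SetLike.coe_subset_coe.mpr inf_le_right))
  have hge : (Q ⊓ Subgroup.centralizer (Q : Set P)) ⊔ A ≤
      (Q ⊔ A) ⊓ Subgroup.centralizer ((Q ⊓ A : Subgroup P) : Set P) := by
    rw [hZ]
    exact sup_le (le_inf (q2.trans le_sup_left)
      (Subgroup.centralizer_le (SetLike.coe_subset_coe.mpr inf_le_left))) (le_inf le_sup_right hA_D)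
  have hX : ∀ x ∈ (Q ⊔ A) ⊓ Subgroup.centralizer ((Q ⊓ A : Subgroup P) : Set P),
      x ∈ ((Q ⊓ Subgroup.centralizer (Q : Set P) : Subgroup P) : Set P) * (A : Set P) := by
    rintro x ⟨hx1, hx2⟩
    have hx1' : x ∈ ((Q ⊔ A : Subgroup P) : Set P) := hx1
    rw [s1] at hx1'
    obtain ⟨q₀, hq₀, a₀, ha₀, rfl⟩ := hx1'
    have hq₀' : q₀ ∈ Subgroup.centralizer ((Q ⊓ A : Subgroup P) : Set P) := by
      have := Subgroup.mul_mem _ hx2 (Subgroup.inv_mem _ (hA_D ha₀))
      simpa using this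
    have hq₁ : q₀ ∈ (Q ⊓ A) ⊔ Subgroup.centralizer (Q : Set P) := by
      rw [← hCA₁]; exact ⟨hq₀', hq₀⟩
    obtain ⟨d₀, hd₀, z₀, hz₀, rfl⟩ := mem_sup_of_commute hcomm hq₁
    refine ⟨z₀, ?_, d₀ * a₀, A.mul_mem hd₀.2 ha₀, ?_⟩
    · rw [hZ]; exact hz₀
    · show z₀ * (d₀ * a₀) = d₀ * z₀ * a₀
      rw [← mul_assoc, ← hcomm d₀ hd₀ z₀ hz₀]
  refine ⟨s1, (isCentrallyLarge_iff _).mpr s2, le_antisymm ?_ hge, ?_, ?_⟩
  · intro x hx
    exact mul_set_subset_sup (Q ⊓ Subgroup.centralizer (Q : Set P)) A (hX x hx)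
  · apply Set.Subset.antisymm
    · intro x hx; exact hX x (hge hx)
    · exact mul_set_subset_sup (Q ⊓ Subgroup.centralizer (Q : Set P)) A
  · have hT := (Cfsg.Agent.S3005.result P hP).2.2.2.1
    rw [isCentrallyLarge_iff] at hT
    obtain ⟨t1, t2⟩ := cl_imp hT
    obtain ⟨-, tc2⟩ := cdm_max_centralizer t1
    have hle : ∀ A' ∈ Cfsg.maxAbelianSubgroups P, A' ≤ Cfsg.centrallyLargeJoin P := by
      intro A' hA'
      have h1 := (cl_sup_maxAbelian hT hA').2.1
      have h2 : Cfsg.centrallyLargeJoin P ⊔ A' ≤ Cfsg.centrallyLargeJoin P :=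
        le_sSup ((isCentrallyLarge_iff _).mpr h1)
      exact le_sup_right.trans h2
    have hJ : Cfsg.thompsonSubgroupA P ≤ Cfsg.centrallyLargeJoin P := sSup_le hle
    have hCT : Subgroup.centralizer (Cfsg.centrallyLargeJoin P : Set P) ≤
        Cfsg.thompsonSubgroupA P ⊓ Subgroup.centralizer (Cfsg.thompsonSubgroupA P : Set P) := by
      refine le_inf ?_ (Subgroup.centralizer_le (SetLike.coe_subset_coe.mpr hJ))
      calc Subgroup.centralizer (Cfsg.centrallyLargeJoin P : Set P)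
          ≤ Subgroup.centralizer (A : Set P) :=
            Subgroup.centralizer_le (SetLike.coe_subset_coe.mpr (hle A hA))
        _ = A := hCA
        _ ≤ Cfsg.thompsonSubgroupA P := le_sSup hA
    calc Subgroup.centralizer ((Cfsg.thompsonSubgroupA P ⊓
          Subgroup.centralizer (Cfsg.thompsonSubgroupA P : Set P) : Subgroup P) : Set P)
        ≤ Subgroup.centralizer ((Subgroup.centralizer (Cfsg.centrallyLargeJoin P : Set P) :
            Subgroup P) : Set P) :=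
          Subgroup.centralizer_le (SetLike.coe_subset_coe.mpr hCT)
      _ = Cfsg.centrallyLargeJoin P := tc2

end Cfsg.Agent.S3006
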