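import Cfsg.Statements.S3007
import Mathlib
import Cfsg.Agent.Lib.Helper5.ChermakDelgado
import Cfsg.Agent.S3006

set_option autoImplicit false
open Cfsg

namespace Cfsg.Agent.S3007

open scoped Pointwise
open Cfsg.Agent.Lib.Helper5 Cfsg.Agent.S3005 Cfsg.Agent.S3006

theorem mcl_decomp {P : Type*} [Group P] [Finite P] {Q R : Subgroup P}
    (hQ : Cfsg.IsMinimalCentrallyLarge Q) (hR : Cfsg.IsCentrallyLarge R) :
    (Q ⊓ R) ⊔ Subgroup.centralizer (Q : Set P) = Q := by
  have hQ1 := (isCentrallyLarge_iff Q).mp hQ.1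
  have hR1 := (isCentrallyLarge_iff R).mp hR
  obtain ⟨q1, q2⟩ := cl_imp hQ1
  obtain ⟨r1, r2⟩ := cl_imp hR1
  obtain ⟨c1, c2⟩ := cdm_max_centralizer q1
  obtain ⟨-, e2, -, e4, e5⟩ := cdm_max_sup_inf q1 r1
  have hD : ∀ L : Subgroup P, cdm L ≤ cdm (Q ⊓ R) := fun L => by rw [e2]; exact q1 L
  have hC : ∀ L : Subgroup P, cdm L ≤ cdm (Subgroup.centralizer (Q : Set P)) := fun L => by
    rw [c1]; exact q1 L
  obtain ⟨f1, -, -, -, -⟩ := cdm_max_sup_inf hD hC
  have hle : (Q ⊓ R) ⊔ Subgroup.centralizer (Q : Set P) ≤ Q := sup_le inf_le_left q2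
  apply hQ.2 _ hle
  rw [isCentrallyLarge_iff]
  apply cl_of (fun L => by rw [f1]; exact hD L)
  rw [centralizer_sup, e4, c2]
  rintro x ⟨hx1, hx2⟩
  have hx1' : x ∈ ((Subgroup.centralizer (Q : Set P) ⊔ Subgroup.centralizer (R : Set P) :
      Subgroup P) : Set P) := hx1
  rw [e5] at hx1'
  obtain ⟨z₁, hz₁, z₂, hz₂, rfl⟩ := hx1'
  have hz₂Q : z₂ ∈ Q := by
    have := Q.mul_mem (Q.inv_mem (q2 hz₁)) hx2
    simpa using this
  exact Subgroup.mul_mem _ (Subgroup.mem_sup_right hz₁) (Subgroup.mem_sup_left ⟨hz₂Q, r2 hz₂⟩)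

theorem commutator_eq_of_decomp {P : Type*} [Group P] {Q D : Subgroup P} (hDQ : D ≤ Q)
    (h : D ⊔ Subgroup.centralizer (Q : Set P) = Q) : ⁅Q, Q⁆ = ⁅D, D⁆ := by
  apply le_antisymm _ (Subgroup.commutator_mono hDQ hDQ)
  rw [Subgroup.commutator_le]
  intro g₁ hg₁ g₂ hg₂
  have hcomm : ∀ h ∈ D, ∀ k ∈ Subgroup.centralizer (Q : Set P), h * k = k * h :=
    fun h hh k hk => (Subgroup.mem_centralizer_iff.mp hk) h (hDQ hh)
  have hg₂' := hg₂
  rw [← h] at hg₁ hg₂'
  obtain ⟨d₁, hd₁, z₁, hz₁, rfl⟩ := mem_sup_of_commute hcomm hg₁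
  obtain ⟨d₂, hd₂, z₂, hz₂, rfl⟩ := mem_sup_of_commute hcomm hg₂'
  have e1 : z₁ * (d₂ * z₂) = (d₂ * z₂) * z₁ := ((Subgroup.mem_centralizer_iff.mp hz₁) _ hg₂).symm
  have e2 : z₂ * d₁ = d₁ * z₂ := (hcomm d₁ hd₁ z₂ hz₂).symm
  have e3 : z₂ * d₁⁻¹ = d₁⁻¹ * z₂ := (Commute.inv_right (show Commute z₂ d₁ from e2)).eq
  have key : d₁ * z₁ * (d₂ * z₂) * (d₁ * z₁)⁻¹ * (d₂ * z₂)⁻¹ = d₁ * d₂ * d₁⁻¹ * d₂⁻¹ := by
    calc d₁ * z₁ * (d₂ * z₂) * (d₁ * z₁)⁻¹ * (d₂ * z₂)⁻¹
        = d₁ * (z₁ * (d₂ * z₂)) * z₁⁻¹ * d₁⁻¹ * (d₂ * z₂)⁻¹ := by group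
      _ = d₁ * ((d₂ * z₂) * z₁) * z₁⁻¹ * d₁⁻¹ * (d₂ * z₂)⁻¹ := by rw [e1]
      _ = d₁ * d₂ * (z₂ * d₁⁻¹) * z₂⁻¹ * d₂⁻¹ := by group
      _ = d₁ * d₂ * (d₁⁻¹ * z₂) * z₂⁻¹ * d₂⁻¹ := by rw [e3]
      _ = d₁ * d₂ * d₁⁻¹ * d₂⁻¹ := by group
  rw [commutatorElement_def, key, ← commutatorElement_def]
  exact Subgroup.commutator_mem_commutator hd₁ hd₂

theorem mcl_arith {q r w d zq zr : ℕ} (h1 : q * w = d * zq) (h2 : r * w = d * zr)
    (h3 : q * zq = r * zr) (hw : 0 < w) (hd : 0 < d) (hzq : 0 < zq) (hzr : 0 < zr) :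
    q = r ∧ zq = zr := by
  have h4 : q * zr = r * zq := by
    have : (w * d) * (q * zr) = (w * d) * (r * zq) := by
      calc (w * d) * (q * zr) = (q * w) * (d * zr) := by ring
        _ = (d * zq) * (r * w) := by rw [h1, h2]
        _ = (w * d) * (r * zq) := by ring
    exact Nat.eq_of_mul_eq_mul_left (Nat.mul_pos hw hd) this
  have h5 : q * q = r * r := by
    have : (zq * zr) * (q * q) = (zq * zr) * (r * r) := by
      calc (zq * zr) * (q * q) = (q * zq) * (q * zr) := by ring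
        _ = (r * zr) * (r * zq) := by rw [h3, h4]
        _ = (zq * zr) * (r * r) := by ring
    exact Nat.eq_of_mul_eq_mul_left (Nat.mul_pos hzq hzr) this
  have h6 : q = r := Nat.mul_self_inj.mp h5
  refine ⟨h6, ?_⟩
  subst h6
  have hq : 0 < q := by
    rcases Nat.eq_zero_or_pos q with h | h
    · subst h; simp at h1; rcases h1 with h1 | h1 <;> omega
    · exact h
  exact Nat.eq_of_mul_eq_mul_left hq h3

theorem mcl_pair {P : Type*} [Group P] [Finite P] {Q R : Subgroup P}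
    (hQ : Cfsg.IsMinimalCentrallyLarge Q) (hR : Cfsg.IsMinimalCentrallyLarge R) :
    ⁅Q, Q⁆ = ⁅R, R⁆ ∧ Nat.card Q = Nat.card R ∧
      Nat.card (Subgroup.centralizer (Q : Set P)) = Nat.card (Subgroup.centralizer (R : Set P)) := by
  have dQ := mcl_decomp hQ hR.1
  have dR := mcl_decomp hR hQ.1
  rw [inf_comm] at dR
  have hQ1 := (isCentrallyLarge_iff Q).mp hQ.1
  have hR1 := (isCentrallyLarge_iff R).mp hR.1
  obtain ⟨q1, q2⟩ := cl_imp hQ1
  obtain ⟨r1, r2⟩ := cl_imp hR1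
  refine ⟨?_, ?_⟩
  · rw [commutator_eq_of_decomp inf_le_left dQ, commutator_eq_of_decomp inf_le_right dR]
  · have hcq : ∀ h ∈ Q ⊓ R, ∀ k ∈ Subgroup.centralizer (Q : Set P), h * k = k * h :=
      fun h hh k hk => (Subgroup.mem_centralizer_iff.mp hk) h hh.1
    have hcr : ∀ h ∈ Q ⊓ R, ∀ k ∈ Subgroup.centralizer (R : Set P), h * k = k * h :=
      fun h hh k hk => (Subgroup.mem_centralizer_iff.mp hk) h hh.2
    have sQ : ((Q : Subgroup P) : Set P) =
        ((Q ⊓ R : Subgroup P) : Set P) * (Subgroup.centralizer (Q : Set P) : Set P) := by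
      apply Set.Subset.antisymm
      · intro x hx
        have hx' : x ∈ (Q ⊓ R) ⊔ Subgroup.centralizer (Q : Set P) := by rw [dQ]; exact hx
        obtain ⟨h, hh, k, hk, rfl⟩ := mem_sup_of_commute hcq hx'
        exact ⟨h, hh, k, hk, rfl⟩
      · intro x hx
        have := mul_set_subset_sup _ _ hx
        rw [dQ] at this
        exact this
    have sR : ((R : Subgroup P) : Set P) =
        ((Q ⊓ R : Subgroup P) : Set P) * (Subgroup.centralizer (R : Set P) : Set P) := by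
      apply Set.Subset.antisymm
      · intro x hx
        have hx' : x ∈ (Q ⊓ R) ⊔ Subgroup.centralizer (R : Set P) := by rw [dR]; exact hx
        obtain ⟨h, hh, k, hk, rfl⟩ := mem_sup_of_commute hcr hx'
        exact ⟨h, hh, k, hk, rfl⟩
      · intro x hx
        have := mul_set_subset_sup _ _ hx
        rw [dR] at this
        exact this
    have hW : (Q ⊓ R) ⊓ Subgroup.centralizer (Q : Set P) =
        (Q ⊓ R) ⊓ Subgroup.centralizer (R : Set P) := by
      apply le_antisymm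
      · refine le_inf inf_le_left ?_
        have : (Q ⊓ R) ⊓ Subgroup.centralizer (Q : Set P) ≤
            Subgroup.centralizer (((Q ⊓ R) ⊔ Subgroup.centralizer (R : Set P) : Subgroup P) :
              Set P) := by
          rw [centralizer_sup]
          refine le_inf (inf_le_right.trans
            (Subgroup.centralizer_le (SetLike.coe_subset_coe.mpr inf_le_left))) ?_
          exact (inf_le_left.trans inf_le_right).trans (le_centralizer_centralizer R)
        rwa [dR] at this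
      · refine le_inf inf_le_left ?_
        have : (Q ⊓ R) ⊓ Subgroup.centralizer (R : Set P) ≤
            Subgroup.centralizer (((Q ⊓ R) ⊔ Subgroup.centralizer (Q : Set P) : Subgroup P) :
              Set P) := by
          rw [centralizer_sup]
          refine le_inf (inf_le_right.trans
            (Subgroup.centralizer_le (SetLike.coe_subset_coe.mpr inf_le_right))) ?_
          exact (inf_le_left.trans inf_le_left).trans (le_centralizer_centralizer Q)
        rwa [dQ] at this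
    have cQ := card_mul_set_mul_card_inf (Q ⊓ R) (Subgroup.centralizer (Q : Set P))
    have cR := card_mul_set_mul_card_inf (Q ⊓ R) (Subgroup.centralizer (R : Set P))
    rw [← sQ] at cQ
    rw [← sR, ← hW] at cR
    have hcd : cdm Q = cdm R := le_antisymm (r1 Q) (q1 R)
    unfold cdm at hcd
    exact mcl_arith cQ cR hcd Nat.card_pos Nat.card_pos Nat.card_pos Nat.card_pos

theorem cm_of_comm {P : Type*} [Group P] [Finite P] {B : Subgroup P} (hB : IsMulCommutative ↥B) :
    cm B = Nat.card B * Nat.card B := by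
  unfold cm
  rw [inf_eq_left.mpr (Subgroup.le_centralizer_iff_isMulCommutative.mpr hB)]

/-- Let P be a finite p-group and Q, R minimal centrally large subgroups of P (centrally large: |Q|·|Z(Q)| maximal among subgroups of P; minimal among such under inclusion). Then Q = (Q ∩ R)·Z(Q), the derived subgroups [Q, Q] and [R, R] coincide, |Q| = |R| and |Z(Q)| = |Z(R)|; and if Q is abelian then the minimal centrally large subgroups of P are exactly the abelian subgroups of P of largest order. -/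
theorem result {p : ℕ} [Fact p.Prime] (P : Type*) [Group P] [Finite P] (hP : IsPGroup p P) (Q R : Subgroup P) (hQ : Cfsg.IsMinimalCentrallyLarge Q) (hR : Cfsg.IsMinimalCentrallyLarge R) : (Q ⊓ R) ⊔ (Q ⊓ Subgroup.centralizer (Q : Set P)) = Q ∧ ⁅Q, Q⁆ = ⁅R, R⁆ ∧ Nat.card ↥Q = Nat.card ↥R ∧ Nat.card ↥(Q ⊓ Subgroup.centralizer (Q : Set P)) = Nat.card ↥(R ⊓ Subgroup.centralizer (R : Set P)) ∧ (IsMulCommutative ↥Q → ∀ X : Subgroup P, Cfsg.IsMinimalCentrallyLarge X ↔ X ∈ Cfsg.maxAbelianSubgroups P) := by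
  classical
  have hQ1 := (isCentrallyLarge_iff Q).mp hQ.1
  have hR1 := (isCentrallyLarge_iff R).mp hR.1
  obtain ⟨q1, q2⟩ := cl_imp hQ1
  obtain ⟨r1, r2⟩ := cl_imp hR1
  have hZQ : Q ⊓ Subgroup.centralizer (Q : Set P) = Subgroup.centralizer (Q : Set P) :=
    inf_eq_right.mpr q2
  have hZR : R ⊓ Subgroup.centralizer (R : Set P) = Subgroup.centralizer (R : Set P) :=
    inf_eq_right.mpr r2
  obtain ⟨p1, p2, p3⟩ := mcl_pair hQ hR
  refine ⟨?_, p1, p2, ?_, ?_⟩
  · rw [hZQ]; exact mcl_decomp hQ hR.1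
  · rw [hZQ, hZR]; exact p3
  · intro hQc X
    have hcmQ : cm Q = Nat.card Q * Nat.card Q := cm_of_comm hQc
    have hle : ∀ B : Subgroup P, IsMulCommutative ↥B → Nat.card B ≤ Nat.card Q := by
      intro B hB
      have h1 := hQ1 B
      rw [hcmQ, cm_of_comm hB] at h1
      exact Nat.mul_self_le_mul_self_iff.mp h1
    constructor
    · intro hX
      obtain ⟨x1, x2, -⟩ := mcl_pair hQ hX
      have hQQ : ⁅Q, Q⁆ = ⊥ := by
        rw [Subgroup.commutator_eq_bot_iff_le_centralizer]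
        exact Subgroup.le_centralizer_iff_isMulCommutative.mpr hQc
      have hXc : IsMulCommutative ↥X := by
        rw [← Subgroup.le_centralizer_iff_isMulCommutative,
          ← Subgroup.commutator_eq_bot_iff_le_centralizer, ← x1, hQQ]
      exact ⟨hXc, fun B hB => x2 ▸ hle B hB⟩
    · rintro ⟨hXc, hXmax⟩
      have hXQ : Nat.card X = Nat.card Q := le_antisymm (hle X hXc) (hXmax Q hQc)
      have hXcl : ∀ L : Subgroup P, cm L ≤ cm X := by
        intro L
        rw [cm_of_comm hXc, hXQ, ← hcmQ]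
        exact hQ1 L
      refine ⟨(isCentrallyLarge_iff X).mpr hXcl, ?_⟩
      intro X' hX'le hX'
      have hX'c : IsMulCommutative ↥X' := by
        rw [← Subgroup.le_centralizer_iff_isMulCommutative]
        exact (hX'le.trans (Subgroup.le_centralizer_iff_isMulCommutative.mpr hXc)).trans
          (Subgroup.centralizer_le (SetLike.coe_subset_coe.mpr hX'le))
      have h1 := (isCentrallyLarge_iff X').mp hX' X
      rw [cm_of_comm hX'c, cm_of_comm hXc] at h1
      have h2 : Nat.card X ≤ Nat.card X' := Nat.mul_self_le_mul_self_iff.mp h1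
      exact Subgroup.eq_of_le_of_card_ge hX'le h2

end Cfsg.Agent.S3007
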