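import Cfsg.Statements.S3012
import Mathlib

set_option autoImplicit false
open Cfsg

namespace Cfsg.Agent.S3012

/-- Let G be a finite group, V a nontrivial elementary abelian 2-subgroup of G satisfying the Sidki pair condition (every odd-order element inverted by an element of V commutes with a nontrivial element of V), and K a normal subgroup of G with V ∩ K = 1. Then the image of V in G/K satisfies the Sidki pair condition in G/K. -/
theorem result {G : Type*} [Group G] [Finite G] (V K : Subgroup G) [K.Normal] (hV : Cfsg.IsElementaryAbelian 2 V) (hV1 : V ≠ ⊥) (hS : Cfsg.IsSidkiPair V) (hVK : V ⊓ K = ⊥) : Cfsg.IsSidkiPair (V.map (QuotientGroup.mk' K)) := by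
  have hker : ∀ w, (QuotientGroup.mk' K) w = 1 → w ∈ K := fun w hw => (QuotientGroup.eq_one_iff w).mp hw
  intro hb vb hvb hodd hinv
  obtain ⟨v, hv, rfl⟩ := hvb
  obtain ⟨h, rfl⟩ := QuotientGroup.mk'_surjective K hb
  suffices t : ∃ w ∈ V, w ≠ 1 ∧ (QuotientGroup.mk' K) w * (QuotientGroup.mk' K) h =
      (QuotientGroup.mk' K) h * (QuotientGroup.mk' K) w by
    obtain ⟨w, hw, hw1, hwc⟩ := t
    refine ⟨(QuotientGroup.mk' K) w, ⟨w, hw, rfl⟩, ?_, hwc⟩
    intro h1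
    have h2 : w ∈ V ⊓ K := ⟨hw, hker w h1⟩
    rw [hVK] at h2
    exact hw1 (Subgroup.mem_bot.mp h2)
  generalize QuotientGroup.mk' K = φ at hinv hodd ⊢
  have hv2 : v ^ 2 = 1 := hV.2 v hv
  have hvv : v * v = 1 := by rw [← pow_two]; exact hv2
  have hvinv : v⁻¹ = v := by
    rw [inv_eq_iff_mul_eq_one]; exact hvv
  obtain ⟨c, hc⟩ : ∃ c : G, c = h * v * h⁻¹ * v⁻¹ := ⟨_, rfl⟩
  have hcinv : v * c * v⁻¹ = c⁻¹ := by
    rw [hc, hvinv]
    have e1 : v * (h * v * h⁻¹ * v) * v = v * h * v * h⁻¹ * (v * v) := by group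
    have e2 : (h * v * h⁻¹ * v)⁻¹ = v⁻¹ * h * v⁻¹ * h⁻¹ := by group
    rw [e1, e2, hvv, hvinv, mul_one]
  have hcb : φ c = φ h * φ h := by
    have h1 : φ v * (φ h)⁻¹ * (φ v)⁻¹ = φ h := by
      have h2 := congrArg (fun z => z⁻¹) hinv
      simp only [mul_inv_rev, inv_inv] at h2
      rw [mul_assoc]; exact h2
    rw [hc, map_mul, map_mul, map_mul, map_inv, map_inv]
    calc φ h * φ v * (φ h)⁻¹ * (φ v)⁻¹ = φ h * (φ v * (φ h)⁻¹ * (φ v)⁻¹) := by group
      _ = φ h * φ h := by rw [h1]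
  obtain ⟨a, m, hm, hn⟩ := Nat.exists_eq_two_pow_mul_odd (orderOf_pos c).ne'
  have hodd' : Odd (orderOf (c ^ 2 ^ a)) := by
    apply Odd.of_dvd_nat hm
    apply orderOf_dvd_of_pow_eq_one
    rw [← pow_mul, ← hn, pow_orderOf_eq_one]
  have hinv' : v * c ^ 2 ^ a * v⁻¹ = (c ^ 2 ^ a)⁻¹ := by
    rw [← conj_pow, hcinv, inv_pow]
  obtain ⟨w, hw, hw1, hwc⟩ := hS (c ^ 2 ^ a) v hv hodd' hinv'
  refine ⟨w, hw, hw1, ?_⟩
  have h1 : Commute (φ w) (φ (c ^ 2 ^ a)) := by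
    show φ w * φ (c ^ 2 ^ a) = φ (c ^ 2 ^ a) * φ w
    rw [← map_mul, ← map_mul, hwc]
  rw [map_pow, hcb, ← pow_two, ← pow_mul, ← pow_succ'] at h1
  have hcop : Nat.Coprime (2 ^ (a + 1)) (orderOf (φ h)) :=
    Nat.Coprime.pow_left (a + 1) (Nat.coprime_two_left.mpr hodd)
  obtain ⟨j, hj⟩ := exists_pow_eq_self_of_coprime hcop
  have h2 := h1.pow_right j
  rw [hj] at h2
  exact h2

end Cfsg.Agent.S3012
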