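import Cfsg.Statements.S3013
import Mathlib
import Cfsg.Agent.Lib.Helper5.DStar

set_option autoImplicit false
open Cfsg Cfsg.Agent.Lib.Helper5

namespace Cfsg.Agent.S3013

/-- Let G be a finite group and V a nontrivial elementary abelian 2-subgroup of G satisfying the Sidki pair condition. Let v ∈ V and let x be an element of odd order inverted by v, and put C = C_G(v) ∩ C_G(x), the centralizer of the dihedral subgroup generated by v and x. Then C ∩ V is nontrivial and satisfies the Sidki pair condition inside C: every odd-order element of C inverted by an element of C ∩ V commutes with a nontrivial element of C ∩ V. -/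
theorem result {G : Type*} [Group G] [Finite G] (V : Subgroup G) (hV : Cfsg.IsElementaryAbelian 2 V) (hV1 : V ≠ ⊥) (hS : Cfsg.IsSidkiPair V) (v x : G) (hv : v ∈ V) (hx : Odd (orderOf x)) (hinv : v * x * v⁻¹ = x⁻¹) (C : Subgroup G) (hC : C = Subgroup.centralizer ({v} : Set G) ⊓ Subgroup.centralizer ({x} : Set G)) : C ⊓ V ≠ ⊥ ∧ Cfsg.IsSidkiPair ((C ⊓ V).subgroupOf C) := by
  have hVc : ∀ a ∈ V, ∀ b ∈ V, a * b = b * a := comm_of_isMulCommutative hV.1
  have hCmem : ∀ g, g ∈ C ↔ g * v = v * g ∧ g * x = x * g := by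
    intro g
    rw [hC, Subgroup.mem_inf, Subgroup.mem_centralizer_iff, Subgroup.mem_centralizer_iff]
    constructor
    · rintro ⟨h1, h2⟩; exact ⟨(h1 v rfl).symm, (h2 x rfl).symm⟩
    · rintro ⟨h1, h2⟩
      refine ⟨fun y hy => ?_, fun y hy => ?_⟩
      · rw [Set.mem_singleton_iff] at hy; rw [hy]; exact h1.symm
      · rw [Set.mem_singleton_iff] at hy; rw [hy]; exact h2.symm
  have key : ∀ h u : G, h ∈ C → u ∈ C → u ∈ V → Odd (orderOf h) → u * h * u⁻¹ = h⁻¹ →
      ∃ w ∈ V, w ≠ 1 ∧ w ∈ C ∧ w * h = h * w := by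
    intro h u hhC huC huV hodd hinvh
    obtain ⟨hhv, hhx⟩ := (hCmem h).mp hhC
    obtain ⟨huv, hux⟩ := (hCmem u).mp huC
    have hcomm : Commute x h := hhx.symm
    have hodd2 : Odd (orderOf (x * h)) := by
      have h1 := hcomm.orderOf_mul_dvd_lcm
      have h2 : Odd (Nat.lcm (orderOf x) (orderOf h)) :=
        Odd.of_dvd_nat (hx.mul hodd) (Nat.lcm_dvd_mul _ _)
      exact Odd.of_dvd_nat h2 h1
    have hinv2 : (v * u) * (x * h) * (v * u)⁻¹ = (x * h)⁻¹ := by
      have e1 : u * x * u⁻¹ = x := by rw [hux]; group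
      have e2 : v * h⁻¹ * v⁻¹ = h⁻¹ := by
        have e3 : v * h⁻¹ = h⁻¹ * v := by
          calc v * h⁻¹ = h⁻¹ * (h * v) * h⁻¹ := by group
            _ = h⁻¹ * (v * h) * h⁻¹ := by rw [hhv]
            _ = h⁻¹ * v := by group
        rw [e3]; group
      calc (v * u) * (x * h) * (v * u)⁻¹ = v * ((u * x * u⁻¹) * (u * h * u⁻¹)) * v⁻¹ := by group
        _ = v * (x * h⁻¹) * v⁻¹ := by rw [e1, hinvh]
        _ = (v * x * v⁻¹) * (v * h⁻¹ * v⁻¹) := by group
        _ = x⁻¹ * h⁻¹ := by rw [hinv, e2]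
        _ = (x * h)⁻¹ := by rw [hcomm.eq]; group
    obtain ⟨w, hw, hw1, hwc⟩ := hS (x * h) (v * u) (mul_mem hv huV) hodd2 hinv2
    have hwv : w * v = v * w := hVc w hw v hv
    have hwc2 : w * (x⁻¹ * h) = (x⁻¹ * h) * w := by
      have e1 : x⁻¹ * h = v * (x * h) * v⁻¹ := by
        have e2 : v * h * v⁻¹ = h := by rw [← hhv]; group
        calc x⁻¹ * h = (v * x * v⁻¹) * (v * h * v⁻¹) := by rw [hinv, e2]
          _ = v * (x * h) * v⁻¹ := by group
      have e4 : w * v⁻¹ = v⁻¹ * w := hVc w hw v⁻¹ (inv_mem hv)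
      rw [e1]
      calc w * (v * (x * h) * v⁻¹) = (w * v) * (x * h) * v⁻¹ := by group
        _ = (v * w) * (x * h) * v⁻¹ := by rw [hwv]
        _ = v * (w * (x * h)) * v⁻¹ := by group
        _ = v * ((x * h) * w) * v⁻¹ := by rw [hwc]
        _ = v * (x * h) * (w * v⁻¹) := by group
        _ = v * (x * h) * (v⁻¹ * w) := by rw [e4]
        _ = v * (x * h) * v⁻¹ * w := by group
    have hwxx : Commute w (x * x) := by
      have e : x * x = (x * h) * (x⁻¹ * h)⁻¹ := by group
      rw [e]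
      exact (show Commute w (x * h) from hwc).mul_right
        ((show Commute w (x⁻¹ * h) from hwc2).inv_right)
    have hwx : Commute w x := by
      have hcop : Nat.Coprime 2 (orderOf x) := Nat.coprime_two_left.mpr hx
      obtain ⟨j, hj⟩ := exists_pow_eq_self_of_coprime hcop
      have h3 := hwxx.pow_right j
      rw [← pow_two, hj] at h3
      exact h3
    have hwh : Commute w h := by
      have e : h = x⁻¹ * (x * h) := by group
      rw [e]
      exact hwx.inv_right.mul_right hwc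
    exact ⟨w, hw, hw1, (hCmem w).mpr ⟨hwv, hwx.eq⟩, hwh.eq⟩
  constructor
  · obtain ⟨w, hw, hw1, hwC, -⟩ := key 1 1 (one_mem C) (one_mem C) (one_mem V)
      (by rw [orderOf_one]; exact odd_one) (by group)
    intro hbot
    have h1 : w ∈ C ⊓ V := ⟨hwC, hw⟩
    rw [hbot] at h1
    exact hw1 (Subgroup.mem_bot.mp h1)
  · intro h' u' hu' hodd' hinv'
    obtain ⟨w, hw, hw1, hwC, hwh⟩ := key h'.1 u'.1 h'.2 u'.2 (Subgroup.mem_subgroupOf.mp hu').2
      (by rw [Subgroup.orderOf_coe]; exact hodd') (congrArg Subtype.val hinv')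
    refine ⟨⟨w, hwC⟩, Subgroup.mem_subgroupOf.mpr ⟨hwC, hw⟩, ?_, Subtype.ext hwh⟩
    intro h1
    exact hw1 (congrArg Subtype.val h1)

end Cfsg.Agent.S3013
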