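import Cfsg.Statements.S3014
import Mathlib

set_option autoImplicit false
open Cfsg

namespace Cfsg.Agent.S3014


theorem conj_eq_of_le {G : Type*} [Group G] [Finite G] (H M : Subgroup G) (hHM : H ≤ M)
    (hcl : ∀ g : G, (H ⊔ H.map (MulAut.conj g).toMonoidHom) ⊓ M = H) (g : G)
    (hg : H.map (MulAut.conj g).toMonoidHom ≤ M) : H.map (MulAut.conj g).toMonoidHom = H := by
  have h1 := hcl g
  rw [inf_eq_left.mpr (sup_le hHM hg)] at h1
  have h2 : H.map (MulAut.conj g).toMonoidHom ≤ H := by
    calc _ ≤ H ⊔ H.map (MulAut.conj g).toMonoidHom := le_sup_right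
      _ = H := h1
  exact Subgroup.eq_of_le_of_card_ge h2
    (Subgroup.card_map_of_injective (MulAut.conj g).injective).ge

/-- The transfer argument: the case where the normal closure is everything is contradictory. -/
theorem transfer_contra {G : Type*} [Group G] [Finite G] (H M : Subgroup G) (hHM : H ≤ M)
    (hcl : ∀ g : G, (H ⊔ H.map (MulAut.conj g).toMonoidHom) ⊓ M = H)
    (hmaxH : IsCoatom (H.subgroupOf M)) (hmaxM : IsCoatom M)
    (hKt : Subgroup.normalClosure (H : Set G) = ⊤) : False := by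
  classical
  have hA := conj_eq_of_le H M hHM hcl
  have hB : M ≤ Subgroup.normalizer (H : Set G) := by
    intro m hm
    rw [Subgroup.mem_normalizer_iff_map_conj_eq]
    apply hA
    rintro _ ⟨a, ha, rfl⟩
    exact M.mul_mem (M.mul_mem hm (hHM ha)) (M.inv_mem hm)
  have hNne : ¬ M ≤ H := fun h => hmaxH.1 (Subgroup.subgroupOf_eq_top.mpr h)
  have hNH : Subgroup.normalizer (H : Set G) = M := by
    rcases hmaxM.le_iff.mp hB with h | h
    · exfalso
      haveI hn : H.Normal := Subgroup.normalizer_eq_top_iff.mp h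
      have h1 : Subgroup.normalClosure (H : Set G) = H := Subgroup.normalClosure_eq_self H
      rw [hKt] at h1
      exact hNne (h1 ▸ le_top)
    · exact h
  have hstar : ∀ g : G, g ∉ M → ∀ m ∈ M, g * m * g⁻¹ ∈ M → g * m * g⁻¹ ∈ H := by
    intro g hg m hm hy
    by_contra hyH
    have hyN : g * m * g⁻¹ ∈ Subgroup.normalizer
        ((H ⊔ H.map (MulAut.conj g).toMonoidHom : Subgroup G) : Set G) := by
      rw [Subgroup.mem_normalizer_iff_map_conj_eq, Subgroup.map_sup]
      have e1 : H.map (MulAut.conj (g * m * g⁻¹)).toMonoidHom = H :=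
        Subgroup.mem_normalizer_iff_map_conj_eq.mp (hB hy)
      have e2 : (H.map (MulAut.conj g).toMonoidHom).map (MulAut.conj (g * m * g⁻¹)).toMonoidHom
          = H.map (MulAut.conj g).toMonoidHom := by
        apply Subgroup.mem_normalizer_iff_map_conj_eq.mp
        exact Subgroup.le_normalizer_map (MulAut.conj g).toMonoidHom
          (Subgroup.mem_map.mpr ⟨m, hB hm, rfl⟩)
      exact congrArg₂ (· ⊔ ·) e1 e2
    have hMle : M ≤ Subgroup.normalizer
        ((H ⊔ H.map (MulAut.conj g).toMonoidHom : Subgroup G) : Set G) := by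
      have h1 : H.subgroupOf M ≤ (H ⊔ Subgroup.zpowers (g * m * g⁻¹)).subgroupOf M :=
        Subgroup.comap_mono le_sup_left
      rcases hmaxH.le_iff.mp h1 with h2 | h2
      · have h3 : M ≤ H ⊔ Subgroup.zpowers (g * m * g⁻¹) := Subgroup.subgroupOf_eq_top.mp h2
        refine h3.trans (sup_le ?_ ?_)
        · exact le_sup_left.trans Subgroup.le_normalizer
        · rw [Subgroup.zpowers_le]; exact hyN
      · exfalso
        have h3 := Subgroup.subgroupOf_inj.mp h2
        rw [inf_eq_left.mpr hHM, inf_eq_left.mpr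
          (sup_le hHM (by rw [Subgroup.zpowers_le]; exact hy))] at h3
        apply hyH
        have h4 : g * m * g⁻¹ ∈ H ⊔ Subgroup.zpowers (g * m * g⁻¹) :=
          (le_sup_right : Subgroup.zpowers (g * m * g⁻¹) ≤ _) (Subgroup.mem_zpowers _)
        rw [h3] at h4
        exact h4
    have hHgM : ¬ H.map (MulAut.conj g).toMonoidHom ≤ M := by
      intro h
      have h1 := hA g h
      have h2 : g ∈ Subgroup.normalizer (H : Set G) :=
        Subgroup.mem_normalizer_iff_map_conj_eq.mpr h1
      rw [hNH] at h2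
      exact hg h2
    have hNt : Subgroup.normalizer
        ((H ⊔ H.map (MulAut.conj g).toMonoidHom : Subgroup G) : Set G) = ⊤ := by
      rcases hmaxM.le_iff.mp hMle with h | h
      · exact h
      · exfalso
        apply hHgM
        rw [← h]
        exact le_sup_right.trans Subgroup.le_normalizer
    haveI hLn : (H ⊔ H.map (MulAut.conj g).toMonoidHom).Normal :=
      Subgroup.normalizer_eq_top_iff.mp hNt
    have hKL : Subgroup.normalClosure (H : Set G) ≤ H ⊔ H.map (MulAut.conj g).toMonoidHom :=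
      Subgroup.normalClosure_le_normal (SetLike.coe_subset_coe.mpr le_sup_left)
    rw [hKt, top_le_iff] at hKL
    have h5 := hcl g
    rw [hKL, top_inf_eq] at h5
    exact hNne h5.le
  haveI hNn : (H.subgroupOf M).Normal :=
    (Subgroup.normal_subgroupOf_iff_le_normalizer hHM).mpr hB
  have hcyc : IsCyclic (↥M ⧸ H.subgroupOf M) := by
    obtain ⟨t, htM, htH⟩ := SetLike.not_le_iff_exists.mp hNne
    rw [isCyclic_iff_exists_zpowers_eq_top]
    refine ⟨QuotientGroup.mk' _ ⟨t, htM⟩, ?_⟩
    have h1 : H.subgroupOf M ≤ (Subgroup.zpowers (QuotientGroup.mk' (H.subgroupOf M) ⟨t, htM⟩)).comap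
        (QuotientGroup.mk' (H.subgroupOf M)) := by
      intro a ha
      rw [Subgroup.mem_comap]
      have h2 : QuotientGroup.mk' (H.subgroupOf M) a = 1 := (QuotientGroup.eq_one_iff a).mpr ha
      rw [h2]; exact one_mem _
    rcases hmaxH.le_iff.mp h1 with h2 | h2
    · rw [eq_top_iff]
      intro b _
      obtain ⟨a, rfl⟩ := QuotientGroup.mk'_surjective (H.subgroupOf M) b
      have h3 : a ∈ (Subgroup.zpowers (QuotientGroup.mk' (H.subgroupOf M) ⟨t, htM⟩)).comap
          (QuotientGroup.mk' (H.subgroupOf M)) := by rw [h2]; exact Subgroup.mem_top a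
      exact Subgroup.mem_comap.mp h3
    · exfalso
      apply htH
      have h3 : (⟨t, htM⟩ : ↥M) ∈ (Subgroup.zpowers
          (QuotientGroup.mk' (H.subgroupOf M) ⟨t, htM⟩)).comap
          (QuotientGroup.mk' (H.subgroupOf M)) := Subgroup.mem_comap.mpr (Subgroup.mem_zpowers _)
      rw [h2] at h3
      exact Subgroup.mem_subgroupOf.mp h3
  letI : CommGroup (↥M ⧸ H.subgroupOf M) := IsCyclic.commGroup
  let ϕ : ↥M →* ↥M ⧸ H.subgroupOf M := QuotientGroup.mk' (H.subgroupOf M)
  have hϕ : ∀ (y : G) (hy : y ∈ M), ϕ ⟨y, hy⟩ = 1 ↔ y ∈ H := by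
    intro y hy
    exact (QuotientGroup.eq_one_iff _).trans Subgroup.mem_subgroupOf
  have hfac : ∀ (u : G) (c : G) (n : ℕ), u ∈ H → c⁻¹ * u ^ n * c ∈ M → c⁻¹ * u ^ n * c ∈ H := by
    intro u c n hu hmem
    by_cases hc : c ∈ M
    · have h1 := (Subgroup.mem_normalizer_iff.mp (hB (M.inv_mem hc)) (u ^ n)).mp (H.pow_mem hu _)
      simpa using h1
    · have h1 := hstar c⁻¹ (fun h' => hc (by simpa using M.inv_mem h')) (u ^ n)
        (M.pow_mem (hHM hu) _) (by simpa using hmem)
      simpa using h1
  have hV1 : ∀ h ∈ H, MonoidHom.transfer ϕ h = 1 := by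
    intro h hh
    haveI : Fintype (Quotient (MulAction.orbitRel (Subgroup.zpowers h) (G ⧸ M))) :=
      Fintype.ofFinite _
    rw [MonoidHom.transfer_eq_prod_quotient_orbitRel_zpowers_quot]
    apply Finset.prod_eq_one
    intro q _
    rw [hϕ]
    exact hfac h _ _ hh (QuotientGroup.out_conj_pow_minimalPeriod_mem M h q.out)
  have hV2 : ∀ g : G, MonoidHom.transfer ϕ g = 1 := by
    intro g
    have h1 : Subgroup.normalClosure (H : Set G) ≤ (MonoidHom.transfer ϕ).ker := by
      apply Subgroup.normalClosure_le_normal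
      intro h hh
      exact MonoidHom.mem_ker.mpr (hV1 h hh)
    rw [hKt] at h1
    exact MonoidHom.mem_ker.mp (h1 (Subgroup.mem_top g))
  obtain ⟨t, htM, htH⟩ := SetLike.not_le_iff_exists.mp hNne
  have hV3 := hV2 t
  haveI : Fintype (Quotient (MulAction.orbitRel (Subgroup.zpowers t) (G ⧸ M))) :=
    Fintype.ofFinite _
  rw [MonoidHom.transfer_eq_prod_quotient_orbitRel_zpowers_quot] at hV3
  have hfix : t • ((1 : G) : G ⧸ M) = ((1 : G) : G ⧸ M) := by
    rw [MulAction.Quotient.smul_mk, QuotientGroup.eq]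
    simpa using M.inv_mem htM
  have hout : (Quotient.mk'' ((1 : G) : G ⧸ M) :
      Quotient (MulAction.orbitRel (Subgroup.zpowers t) (G ⧸ M))).out = ((1 : G) : G ⧸ M) := by
    have h2 := Quotient.mk_out' (s₁ := MulAction.orbitRel (Subgroup.zpowers t) (G ⧸ M))
      ((1 : G) : G ⧸ M)
    rw [MulAction.orbitRel_apply, MulAction.mem_orbit_iff] at h2
    obtain ⟨⟨z, hz⟩, hz2⟩ := h2
    rw [← hz2]
    have hzM : z ∈ M := (Subgroup.zpowers_le.mpr htM) hz
    show ((z • (1 : G) : G) : G ⧸ M) = _
    rw [QuotientGroup.eq]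
    simpa using M.inv_mem hzM
  have hprod : ∏ q : Quotient (MulAction.orbitRel (Subgroup.zpowers t) (G ⧸ M)),
      ϕ ⟨q.out.out⁻¹ * t ^ Function.minimalPeriod (t • ·) q.out * q.out.out,
        QuotientGroup.out_conj_pow_minimalPeriod_mem M t q.out⟩
      = ϕ ⟨(Quotient.mk'' ((1 : G) : G ⧸ M) :
          Quotient (MulAction.orbitRel (Subgroup.zpowers t) (G ⧸ M))).out.out⁻¹ *
          t ^ Function.minimalPeriod (t • ·) (Quotient.mk'' ((1 : G) : G ⧸ M) :
          Quotient (MulAction.orbitRel (Subgroup.zpowers t) (G ⧸ M))).out *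
          (Quotient.mk'' ((1 : G) : G ⧸ M) :
          Quotient (MulAction.orbitRel (Subgroup.zpowers t) (G ⧸ M))).out.out,
        QuotientGroup.out_conj_pow_minimalPeriod_mem M t _⟩ := by
    apply Finset.prod_eq_single
    · intro q _ hq
      rw [hϕ]
      have hc : q.out.out ∉ M := by
        intro hc
        apply hq
        have h1 : q.out = ((1 : G) : G ⧸ M) := by
          rw [← QuotientGroup.out_eq' q.out, QuotientGroup.eq]
          simpa using M.inv_mem hc
        rw [← Quotient.out_eq' q, h1]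
      have h1 := hstar (q.out.out)⁻¹ (fun h' => hc (by simpa using M.inv_mem h'))
        (t ^ Function.minimalPeriod (t • ·) q.out) (M.pow_mem htM _)
        (by simpa using QuotientGroup.out_conj_pow_minimalPeriod_mem M t q.out)
      simpa using h1
    · intro h; exact absurd (Finset.mem_univ _) h
  rw [hprod, hϕ] at hV3
  have hc₀ : (Quotient.mk'' ((1 : G) : G ⧸ M) :
      Quotient (MulAction.orbitRel (Subgroup.zpowers t) (G ⧸ M))).out.out ∈ M := by
    have h1 : (((Quotient.mk'' ((1 : G) : G ⧸ M) :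
        Quotient (MulAction.orbitRel (Subgroup.zpowers t) (G ⧸ M))).out.out : G) : G ⧸ M)
        = ((1 : G) : G ⧸ M) := by rw [QuotientGroup.out_eq', hout]
    have h2 := QuotientGroup.eq.mp h1
    simpa using h2
  have hn₀ : Function.minimalPeriod (t • ·) (Quotient.mk'' ((1 : G) : G ⧸ M) :
      Quotient (MulAction.orbitRel (Subgroup.zpowers t) (G ⧸ M))).out = 1 := by
    rw [Function.minimalPeriod_eq_one_iff_isFixedPt, hout]
    exact hfix
  rw [hn₀, pow_one] at hV3
  apply htH
  have h7 := (Subgroup.mem_normalizer_iff.mp (hB hc₀) _).mp hV3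
  simpa [mul_assoc] using h7

/-- Let G be a finite group and H ≤ M ≤ G subgroups such that for every g ∈ G the subgroup generated by H and g H g⁻¹ meets M exactly in H. If H is a maximal subgroup of M and M is a maximal subgroup of G, then the normal closure of H in G meets M exactly in H. -/
theorem result {G : Type*} [Group G] [Finite G] (H M : Subgroup G) (hHM : H ≤ M) (hcl : ∀ g : G, (H ⊔ H.map (MulAut.conj g).toMonoidHom) ⊓ M = H) (hmaxH : IsCoatom (H.subgroupOf M)) (hmaxM : IsCoatom M) : Subgroup.normalClosure (H : Set G) ⊓ M = H := by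
  have hA := conj_eq_of_le H M hHM hcl
  by_contra hne
  have hHK : H ≤ Subgroup.normalClosure (H : Set G) := Subgroup.le_normalClosure
  have hMK : M ≤ Subgroup.normalClosure (H : Set G) := by
    have h1 : H.subgroupOf M ≤ (Subgroup.normalClosure (H : Set G) ⊓ M).subgroupOf M :=
      Subgroup.comap_mono (le_inf hHK hHM)
    rcases hmaxH.le_iff.mp h1 with h2 | h2
    · exact (Subgroup.subgroupOf_eq_top.mp h2).trans inf_le_left
    · exfalso; apply hne
      have h3 := Subgroup.subgroupOf_inj.mp h2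
      rw [inf_assoc, inf_idem, inf_eq_left.mpr hHM] at h3
      exact h3
  rcases hmaxM.le_iff.mp hMK with hKt | hKM
  · exact transfer_contra H M hHM hcl hmaxH hmaxM hKt
  · apply hne
    haveI hn : H.Normal := by
      rw [Subgroup.normal_iff_map_conj_eq]
      intro g
      apply hA
      rw [← hKM]
      rintro _ ⟨a, ha, rfl⟩
      exact Subgroup.normalClosure_normal.conj_mem a (hHK ha) g
    rw [Subgroup.normalClosure_eq_self H]; exact inf_eq_left.mpr hHM

end Cfsg.Agent.S3014
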