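import Cfsg.Statements.S3020
import Mathlib
import Cfsg.Agent.Lib.Helper4.PPrime
import Cfsg.Agent.Lib.Helper6.NormGrow

set_option autoImplicit false
open Cfsg

namespace Cfsg.Agent.S3020

/-- Let G be a finite group, p a prime and H an abelian p-subgroup of G that is extremely closed (for every g, the subgroup generated by H and g H g⁻¹ meets N_G(H) exactly in H). Then for every g ∈ G, the subgroup T generated by H and g H g⁻¹ is the product of H with O_{p'}(T), and H meets O_{p'}(T) trivially; that is, O_{p'}(T) is a normal p-complement of H in T. -/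
theorem result {G : Type*} [Group G] [Finite G] {p : ℕ} [Fact p.Prime] (H : Subgroup G) (hHp : IsPGroup p H) (hHab : IsMulCommutative H) (hcl : Cfsg.IsExtremelyClosed H) (g : G) (T : Subgroup G) (hT : T = H ⊔ H.map (MulAut.conj g).toMonoidHom) : H ⊔ (Cfsg.pPrimeCore p ↥T).map T.subtype = T ∧ H ⊓ (Cfsg.pPrimeCore p ↥T).map T.subtype = ⊥ := by
  have hHT : H ≤ T := by rw [hT]; exact le_sup_left
  have hTN : T ⊓ Subgroup.normalizer (H : Set G) = H := by rw [hT]; exact hcl g
  have hnorm : ∀ t : ↥T, t ∈ Subgroup.normalizer ((H.subgroupOf T : Subgroup ↥T) : Set ↥T) →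
      (t : G) ∈ H := by
    intro t ht
    have h1 : (t : G) ∈ Subgroup.normalizer (H : Set G) := by
      rw [Subgroup.mem_normalizer_iff] at ht ⊢
      intro h
      constructor
      · intro hh
        have h3 := (ht ⟨h, hHT hh⟩).mp (Subgroup.mem_subgroupOf.mpr hh)
        exact Subgroup.mem_subgroupOf.mp h3
      · intro hh
        have hhT : h ∈ T := by
          have e : h = (t : G)⁻¹ * ((t : G) * h * (t : G)⁻¹) * (t : G) := by group
          rw [e]
          exact mul_mem (mul_mem (inv_mem t.2) (hHT hh)) t.2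
        have h3 := (ht ⟨h, hhT⟩).mpr (Subgroup.mem_subgroupOf.mpr hh)
        exact Subgroup.mem_subgroupOf.mp h3
    have h2 : (t : G) ∈ T ⊓ Subgroup.normalizer (H : Set G) := Subgroup.mem_inf.mpr ⟨t.2, h1⟩
    rw [hTN] at h2
    exact h2
  have hH'p : IsPGroup p (H.subgroupOf T) := hHp.comap_subtype
  obtain ⟨S, hS⟩ := hH'p.exists_le_sylow
  have hSeq : (S : Subgroup ↥T) = H.subgroupOf T := by
    by_contra hne
    have hlt : H.subgroupOf T < (S : Subgroup ↥T) := lt_of_le_of_ne hS (Ne.symm hne)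
    obtain ⟨r, hrS, hrN, hrC⟩ := Cfsg.Agent.Lib.Helper6.exists_mem_normalizer_not_mem S.2 hlt
    exact hrC (Subgroup.mem_subgroupOf.mpr (hnorm r hrN))
  have hNC : Subgroup.normalizer ((S : Subgroup ↥T) : Set ↥T) ≤
      Subgroup.centralizer ((S : Subgroup ↥T) : Set ↥T) := by
    intro t ht
    rw [hSeq] at ht ⊢
    have h1 := hnorm t ht
    rw [Subgroup.mem_centralizer_iff]
    intro h hh
    have h2 := hHab.is_comm.comm ⟨(h : G), Subgroup.mem_subgroupOf.mp hh⟩ ⟨(t : G), h1⟩
    apply Subtype.ext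
    have h3 : (h : G) * (t : G) = (t : G) * (h : G) := congrArg Subtype.val h2
    exact h3
  have hcomp := MonoidHom.ker_transferSylow_isComplement' S hNC
  have hKle : (MonoidHom.transferSylow S hNC).ker ≤ Cfsg.pPrimeCore p ↥T := by
    apply Cfsg.Agent.Lib.Helper4.le_pPrimeCore (MonoidHom.normal_ker _)
    have h1 := MonoidHom.not_dvd_card_ker_transferSylow S hNC
    exact ((Nat.Prime.coprime_iff_not_dvd Fact.out).mpr h1).symm
  have hsup : H.subgroupOf T ⊔ Cfsg.pPrimeCore p ↥T = ⊤ := by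
    rw [eq_top_iff, ← hcomp.sup_eq_top, sup_comm, ← hSeq]
    exact sup_le_sup_left hKle _
  have hinf : H.subgroupOf T ⊓ Cfsg.pPrimeCore p ↥T = ⊥ := by
    have h1 : (Nat.card (H.subgroupOf T)).Coprime (Nat.card (Cfsg.pPrimeCore p ↥T)) := by
      obtain ⟨n, hn⟩ := IsPGroup.iff_card.mp hH'p
      rw [hn]
      exact (Cfsg.Agent.Lib.Helper4.pPrimeCore_coprime p ↥T).symm.pow_left n
    exact disjoint_iff.mp (Subgroup.disjoint_of_coprime_natCard h1)
  constructor
  · have h1 := congrArg (Subgroup.map T.subtype) hsup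
    rw [Subgroup.map_sup, Subgroup.map_subgroupOf_eq_of_le hHT] at h1
    rw [h1, ← MonoidHom.range_eq_map, Subgroup.range_subtype]
  · rw [eq_bot_iff]
    rintro a ⟨haH, o, ho, rfl⟩
    have h1 : o ∈ H.subgroupOf T ⊓ Cfsg.pPrimeCore p ↥T :=
      Subgroup.mem_inf.mpr ⟨Subgroup.mem_subgroupOf.mpr haH, ho⟩
    rw [hinf, Subgroup.mem_bot] at h1
    rw [Subgroup.mem_bot, h1]; rfl

end Cfsg.Agent.S3020
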