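import Cfsg.Statements.S3025
import Mathlib
import Cfsg.Agent.Lib.Helper5.UniqueP

set_option autoImplicit false
open Cfsg Cfsg.Agent.Lib

namespace Cfsg.Agent.S3025

/-- Let F be a finite group and H a nontrivial subgroup of F that is contained in every nontrivial subgroup of F which H normalizes. Then F has a nontrivial normal subgroup N contained in every nontrivial normal subgroup of F (a unique minimal normal subgroup), N is simple, and one of the following holds: C_F(N) = 1; or H = N has prime order p, C_F(N) is cyclic of order a power of p, and F/C_F(N) is cyclic of order dividing p − 1; or H = N has order 2, N is central in F, and F is a generalized quaternion group. -/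
theorem result {F : Type*} [Group F] [Finite F] (H : Subgroup F) (hH : H ≠ ⊥)
    (hmin : ∀ R : Subgroup F, R ≠ ⊥ → H ≤ Subgroup.normalizer (R : Set F) → H ≤ R) :
    ∃ N : Subgroup F, N.Normal ∧ N ≠ ⊥ ∧ (∀ M : Subgroup F, M.Normal → M ≠ ⊥ → N ≤ M) ∧ IsSimpleGroup ↥N ∧
      (Subgroup.centralizer (N : Set F) = ⊥ ∨
       (H = N ∧ (Nat.card N).Prime ∧ IsCyclic ↥(Subgroup.centralizer (N : Set F)) ∧
          (∃ k : ℕ, 1 ≤ k ∧ Nat.card ↥(Subgroup.centralizer (N : Set F)) = Nat.card N ^ k) ∧
          (∃ g : F, Subgroup.centralizer (N : Set F) ⊔ Subgroup.zpowers g = ⊤) ∧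
          (Subgroup.centralizer (N : Set F)).index ∣ Nat.card N - 1) ∨
       (H = N ∧ Nat.card N = 2 ∧ Subgroup.centralizer (N : Set F) = ⊤ ∧
          ∃ k : ℕ, 1 ≤ k ∧ Nonempty (F ≃* QuaternionGroup (2 ^ k)))) := by
  classical
  obtain ⟨N, hN⟩ : ∃ N : Subgroup F, N = Subgroup.normalClosure (H : Set F) := ⟨_, rfl⟩
  have hNn : N.Normal := by rw [hN]; exact Subgroup.normalClosure_normal
  have hHN : H ≤ N := by rw [hN]; exact Subgroup.le_normalClosure
  have hNb : N ≠ ⊥ := fun h => hH (le_bot_iff.mp (h ▸ hHN))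
  have hNmin : ∀ M : Subgroup F, M.Normal → M ≠ ⊥ → N ≤ M := by
    intro M hM hMb
    haveI := hM
    have h1 : H ≤ M := hmin M hMb (by rw [Subgroup.normalizer_eq_top]; exact le_top)
    rw [hN]
    exact Subgroup.normalClosure_le_normal (SetLike.coe_subset_coe.mpr h1)
  have hNs : IsSimpleGroup ↥N := by
    haveI : Nontrivial ↥N := (Subgroup.nontrivial_iff_ne_bot _).mpr hNb
    refine ⟨fun R' hR' => ?_⟩
    haveI := hR'
    by_contra hcon
    push_neg at hcon
    obtain ⟨hR'b, hR't⟩ := hcon
    have hRb : R'.map N.subtype ≠ ⊥ :=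
      fun h => hR'b ((Subgroup.map_eq_bot_iff_of_injective _ N.subtype_injective).mp h)
    have hNR : N ≤ Subgroup.normalizer ((R'.map N.subtype : Subgroup F) : Set F) := by
      have h2 := Subgroup.le_normalizer_map (H := R') N.subtype
      rw [Subgroup.normalizer_eq_top, ← MonoidHom.range_eq_map, Subgroup.range_subtype] at h2
      exact h2
    have hconj : ∀ g : F, H ≤ (R'.map N.subtype).map (MulAut.conj g).toMonoidHom := by
      intro g
      apply hmin
      · intro h
        exact hRb ((Subgroup.map_eq_bot_iff_of_injective _ (MulAut.conj g).injective).mp h)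
      · refine hHN.trans ?_
        have h2 := Subgroup.le_normalizer_map (H := R'.map N.subtype) (MulAut.conj g).toMonoidHom
        refine le_trans ?_ h2
        intro n hn
        refine Subgroup.mem_map.mpr ⟨g⁻¹ * n * g, hNR ?_, by simp [mul_assoc]⟩
        have h3 := hNn.conj_mem n hn g⁻¹
        simpa using h3
    have hcl : Subgroup.normalClosure (H : Set F) ≤ R'.map N.subtype := by
      show Subgroup.closure (Group.conjugatesOfSet (H : Set F)) ≤ _
      rw [Subgroup.closure_le]
      intro y hy
      obtain ⟨a, ha, hay⟩ := Group.mem_conjugatesOfSet_iff.mp hy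
      obtain ⟨c, rfl⟩ := isConj_iff.mp hay
      obtain ⟨r, hr, hra⟩ := Subgroup.mem_map.mp (hconj c⁻¹ ha)
      have e : c * a * c⁻¹ = r := by rw [← hra]; simp [mul_assoc]
      rw [SetLike.mem_coe, e]; exact hr
    have hNR' : N ≤ R'.map N.subtype := hN.le.trans hcl
    apply hR't
    rw [eq_top_iff]
    intro n _
    obtain ⟨t, ht, hte⟩ := Subgroup.mem_map.mp (hNR' n.2)
    have e : t = n := Subtype.ext hte
    rw [← e]; exact ht
  refine ⟨N, hNn, hNb, hNmin, hNs, ?_⟩
  by_cases hC : Subgroup.centralizer (N : Set F) = ⊥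
  · left; exact hC
  right
  haveI := hNn
  have hCn : (Subgroup.centralizer (N : Set F)).Normal := Subgroup.normal_centralizer
  have hNC : N ≤ Subgroup.centralizer (N : Set F) := hNmin _ hCn hC
  have hNcomm : IsMulCommutative ↥N := Subgroup.le_centralizer_iff_isMulCommutative.mp hNC
  have hprime : (Nat.card N).Prime := by
    letI : CommGroup ↥N := { (inferInstance : Group ↥N) with mul_comm := hNcomm.is_comm.comm }
    exact IsSimpleGroup.prime_card
  haveI : Fact (Nat.card N).Prime := ⟨hprime⟩
  have hHeq : H = N := by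
    apply Subgroup.eq_of_le_of_card_ge hHN
    have h1 := Subgroup.card_dvd_of_le hHN
    rcases (Nat.dvd_prime hprime).mp h1 with h2 | h2
    · exact absurd (Subgroup.card_eq_one.mp h2) hH
    · exact h2.ge
  have hRC : ∀ R : Subgroup F, R ≠ ⊥ → R ≤ Subgroup.centralizer (N : Set F) → N ≤ R := by
    intro R hRb hRC
    have h1 : H ≤ R := by
      apply hmin R hRb
      rw [hHeq]
      exact (Subgroup.le_centralizer_iff.mp hRC).trans (Subgroup.centralizer_le_normalizer _)
    rw [← hHeq]; exact h1
  have hCp : IsPGroup (Nat.card N) ↥(Subgroup.centralizer (N : Set F)) := by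
    rw [IsPGroup.iff_card]
    refine ⟨_, Nat.eq_prime_pow_of_unique_prime_dvd Nat.card_pos.ne' ?_⟩
    intro q hq hqd
    haveI : Fact q.Prime := ⟨hq⟩
    obtain ⟨x, hx⟩ := exists_prime_orderOf_dvd_card' (G := ↥(Subgroup.centralizer (N : Set F))) q hqd
    have hxo : orderOf (x : F) = q := by rw [Subgroup.orderOf_coe]; exact hx
    have hx1 : Subgroup.zpowers (x : F) ≠ ⊥ := by
      rw [Ne, Subgroup.zpowers_eq_bot]
      intro h
      rw [h, orderOf_one] at hxo
      exact hq.one_lt.ne hxo
    have h1 : N ≤ Subgroup.zpowers (x : F) := hRC _ hx1 (Subgroup.zpowers_le.mpr x.2)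
    have h2 := Subgroup.card_dvd_of_le h1
    rw [Nat.card_zpowers, hxo] at h2
    exact ((Nat.prime_dvd_prime_iff_eq hprime hq).mp h2).symm
  have hCU : ∀ A B : Subgroup ↥(Subgroup.centralizer (N : Set F)),
      Nat.card A = Nat.card N → Nat.card B = Nat.card N → A = B := by
    have key : ∀ A : Subgroup ↥(Subgroup.centralizer (N : Set F)), Nat.card A = Nat.card N →
        A.map (Subgroup.centralizer (N : Set F)).subtype = N := by
      intro A hA
      have hAb : A.map (Subgroup.centralizer (N : Set F)).subtype ≠ ⊥ := by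
        intro h
        have h1 := (Subgroup.map_eq_bot_iff_of_injective _ (Subgroup.subtype_injective _)).mp h
        rw [h1, Subgroup.card_bot] at hA
        exact hprime.one_lt.ne hA
      have h1 := hRC _ hAb (Subgroup.map_subtype_le A)
      refine (Subgroup.eq_of_le_of_card_ge h1 ?_).symm
      rw [Subgroup.card_map_of_injective (Subgroup.subtype_injective _), hA]
    intro A B hA hB
    apply Subgroup.map_injective (Subgroup.subtype_injective (Subgroup.centralizer (N : Set F)))
    rw [key A hA, key B hB]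
  have hR1 := Helper5.cyclic_or_quaternion_of_unique_subgroup (Nat.card N) hCp hCU
  have hNcyc : IsCyclic ↥N := isCyclic_of_prime_card (p := Nat.card N) rfl
  have hAutCyc : IsCyclic (MulAut ↥N) := (IsCyclic.mulAutMulEquiv ↥N).isCyclic.mpr inferInstance
  have hAutCard : Nat.card (MulAut ↥N) = Nat.card N - 1 := by
    rw [IsCyclic.card_mulAut, Nat.totient_prime hprime]
  have hker : (MulAut.conjNormal (H := N)).ker = Subgroup.centralizer (N : Set F) := by
    ext f
    rw [MonoidHom.mem_ker, Subgroup.mem_centralizer_iff]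
    constructor
    · intro h n hn
      have h1 : ((MulAut.conjNormal f (⟨n, hn⟩ : ↥N) : ↥N) : F) = n := by rw [h]; rfl
      rw [MulAut.conjNormal_apply] at h1
      exact (mul_inv_eq_iff_eq_mul.mp h1).symm
    · intro h
      ext n
      rw [MulAut.conjNormal_apply]
      have h1 := h n n.2
      show f * ↑n * f⁻¹ = ↑n
      rw [← h1]; group
  have hidx : (Subgroup.centralizer (N : Set F)).index ∣ Nat.card N - 1 := by
    rw [← hker, Subgroup.index_ker, ← hAutCard]
    exact Subgroup.card_subgroup_dvd_card _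
  have hgen : ∃ g : F, Subgroup.centralizer (N : Set F) ⊔ Subgroup.zpowers g = ⊤ := by
    haveI : IsCyclic ↥(MulAut.conjNormal (H := N)).range := Subgroup.isCyclic _
    obtain ⟨γ, hγ⟩ := IsCyclic.exists_generator (α := ↥(MulAut.conjNormal (H := N)).range)
    obtain ⟨g, hg⟩ := γ.2
    refine ⟨g, ?_⟩
    rw [eq_top_iff]
    intro f _
    have h1 := hγ ⟨MulAut.conjNormal f, f, rfl⟩
    obtain ⟨i, hi⟩ := Subgroup.mem_zpowers_iff.mp h1
    have h2 : MulAut.conjNormal (H := N) (g ^ i) = MulAut.conjNormal f := by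
      rw [map_zpow, hg]
      exact congrArg Subtype.val hi
    have h3 : f * (g ^ i)⁻¹ ∈ Subgroup.centralizer (N : Set F) := by
      rw [← hker, MonoidHom.mem_ker, map_mul, map_inv, h2, mul_inv_cancel]
    have e : f = (f * (g ^ i)⁻¹) * g ^ i := by group
    rw [e]
    exact Subgroup.mul_mem _ (le_sup_left (a := Subgroup.centralizer (N : Set F)) h3)
      (le_sup_right (a := Subgroup.centralizer (N : Set F))
        (Subgroup.zpow_mem _ (Subgroup.mem_zpowers g) i))
  have hCk : ∃ k : ℕ, 1 ≤ k ∧
      Nat.card ↥(Subgroup.centralizer (N : Set F)) = Nat.card N ^ k := by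
    obtain ⟨k, hk⟩ := IsPGroup.iff_card.mp hCp
    refine ⟨k, ?_, hk⟩
    by_contra h0
    have hk0 : k = 0 := by omega
    rw [hk0, pow_zero] at hk
    exact hC (Subgroup.card_eq_one.mp hk)
  rcases hR1 with hcyc | ⟨hp2, n, ⟨e⟩⟩
  · left
    exact ⟨hHeq, hprime, hcyc, hCk, hgen, hidx⟩
  · by_cases hcyc : IsCyclic ↥(Subgroup.centralizer (N : Set F))
    · left
      exact ⟨hHeq, hprime, hcyc, hCk, hgen, hidx⟩
    · right
      have hCtop : Subgroup.centralizer (N : Set F) = ⊤ := by
        rw [hp2] at hidx
        exact Subgroup.index_eq_one.mp (Nat.dvd_one.mp hidx)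
      refine ⟨hHeq, hp2, hCtop, n, ?_, ?_⟩
      · by_contra h0
        have hn0 : n = 0 := by omega
        apply hcyc
        subst hn0
        have e' : ↥(Subgroup.centralizer (N : Set F)) ≃* QuaternionGroup 1 := e
        have hq : IsCyclic (QuaternionGroup 1) :=
          isCyclic_of_orderOf_eq_card (QuaternionGroup.xa 0)
            (by rw [QuaternionGroup.orderOf_xa, Nat.card_eq_fintype_card, QuaternionGroup.card])
        exact e'.isCyclic.mpr hq
      · have e2 : F ≃* ↥(Subgroup.centralizer (N : Set F)) :=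
          (Subgroup.topEquiv.symm).trans (MulEquiv.subgroupCongr hCtop.symm)
        exact ⟨e2.trans e⟩

end Cfsg.Agent.S3025
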