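import Cfsg.Statements.S3027
import Mathlib

set_option autoImplicit false
open Cfsg

namespace Cfsg.Agent.S3027

/-- Let G be a finite group and D a normal subgroup of G such that G/D is perfect (that is, G = G′D). Then among the subnormal subgroups B of G with BD = G there is a least one, and it is normal in G. -/
theorem result {G : Type*} [Group G] [Finite G] (D : Subgroup G) [D.Normal] (hperf : ⁅(⊤ : Subgroup G), (⊤ : Subgroup G)⁆ ⊔ D = ⊤) :
    ∃ B : Subgroup G, B.Normal ∧ B ⊔ D = ⊤ ∧ ∀ B' : Subgroup G, B'.IsSubnormal → B' ⊔ D = ⊤ → B ≤ B' := by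
  classical
  have key : ∀ H : Subgroup G, H ⊔ D = ⊤ ↔ H.map (QuotientGroup.mk' D) = ⊤ := by
    intro H
    constructor
    · intro h
      have := congrArg (Subgroup.map (QuotientGroup.mk' D)) h
      rw [Subgroup.map_sup, Subgroup.map_top_of_surjective _ (QuotientGroup.mk'_surjective D)] at this
      have hD : D.map (QuotientGroup.mk' D) = ⊥ := by
        rw [Subgroup.map_eq_bot_iff, QuotientGroup.ker_mk']
      rwa [hD, sup_bot_eq] at this
    · intro h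
      have := congrArg (Subgroup.comap (QuotientGroup.mk' D)) h
      rwa [Subgroup.comap_map_eq, QuotientGroup.ker_mk', Subgroup.comap_top] at this
  have hQ : ⁅(⊤ : Subgroup (G ⧸ D)), (⊤ : Subgroup (G ⧸ D))⁆ = (⊤ : Subgroup (G ⧸ D)) := by
    have := (key _).mp hperf
    rwa [Subgroup.map_commutator, Subgroup.map_top_of_surjective _ (QuotientGroup.mk'_surjective D)] at this
  have L1 : ∀ M₁ M₂ : Subgroup G, M₁ ⊔ D = ⊤ → M₂ ⊔ D = ⊤ → ⁅M₁, M₂⁆ ⊔ D = ⊤ := by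
    intro M₁ M₂ h₁ h₂
    rw [key] at h₁ h₂ ⊢
    rw [Subgroup.map_commutator, h₁, h₂, hQ]
  have mono : ∀ M₁ M₂ : Subgroup G, M₁ ≤ M₂ → M₁ ⊔ D = ⊤ → M₂ ⊔ D = ⊤ := by
    intro M₁ M₂ h h₁
    rw [eq_top_iff, ← h₁]
    exact sup_le_sup_right h D
  obtain ⟨B, hBmin⟩ := Set.Finite.exists_minimal (s := {N : Subgroup G | N.Normal ∧ N ⊔ D = ⊤})
    (Set.toFinite _) ⟨⊤, inferInstance, top_sup_eq _⟩
  obtain ⟨⟨hBn, hBs⟩, hBle⟩ := hBmin
  have hBleast : ∀ N : Subgroup G, N.Normal → N ⊔ D = ⊤ → B ≤ N := by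
    intro N hN hNs
    have h1 : (B ⊓ N).Normal := inferInstance
    have h2 : (B ⊓ N) ⊔ D = ⊤ := mono _ _ (Subgroup.commutator_le_inf B N) (L1 B N hBs hNs)
    exact (hBle ⟨h1, h2⟩ inf_le_left).trans inf_le_right
  have L1' : ∀ M₁ M₂ : Subgroup G, M₁ ≤ B → M₂ ≤ B → (∀ b ∈ B, ∀ m ∈ M₁, b * m * b⁻¹ ∈ M₁) →
      (∀ b ∈ B, ∀ m ∈ M₂, b * m * b⁻¹ ∈ M₂) → M₁ ⊔ D = ⊤ → M₂ ⊔ D = ⊤ → (M₁ ⊓ M₂) ⊔ D = ⊤ := by
    intro M₁ M₂ h1 h2 n1 n2 s1 s2
    apply mono _ _ _ (L1 M₁ M₂ s1 s2)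
    rw [Subgroup.commutator_le]
    intro a ha c hc
    refine ⟨?_, ?_⟩
    · rw [commutatorElement_def]
      have : a * c * a⁻¹ * c⁻¹ = a * (c * a⁻¹ * c⁻¹) := by simp [mul_assoc]
      rw [this]; exact M₁.mul_mem ha (n1 c (h2 hc) _ (M₁.inv_mem ha))
    · rw [commutatorElement_def]
      exact M₂.mul_mem (n2 a (h1 ha) c hc) (M₂.inv_mem hc)
  have L3 : ∀ M : Subgroup G, M ≤ B → (∀ b ∈ B, ∀ m ∈ M, b * m * b⁻¹ ∈ M) → M ⊔ D = ⊤ → B ≤ M := by
    intro M hMB hMn hMs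
    obtain ⟨M₀, hM₀le, hM₀min⟩ := Set.Finite.exists_le_minimal
      (s := {M' : Subgroup G | M' ≤ B ∧ (∀ b ∈ B, ∀ m ∈ M', b * m * b⁻¹ ∈ M') ∧ M' ⊔ D = ⊤})
      (Set.toFinite _) (a := M) ⟨hMB, hMn, hMs⟩
    obtain ⟨⟨h0B, h0n, h0s⟩, h0min⟩ := hM₀min
    have hnorm : M₀.Normal := by
      constructor
      intro m hm g
      let M₁ : Subgroup G := M₀.comap (MulAut.conj g).toMonoidHom
      have hmem : ∀ x, x ∈ M₁ ↔ g * x * g⁻¹ ∈ M₀ := by
        intro x
        simp [M₁, Subgroup.mem_comap]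
      have h1B : M₁ ≤ B := by
        intro x hx
        rw [hmem] at hx
        have := hBn.conj_mem _ (h0B hx) g⁻¹
        simpa [mul_assoc] using this
      have h1n : ∀ b ∈ B, ∀ m ∈ M₁, b * m * b⁻¹ ∈ M₁ := by
        intro b hb x hx
        rw [hmem] at hx ⊢
        have := h0n (g * b * g⁻¹) (hBn.conj_mem b hb g) _ hx
        simpa [mul_assoc] using this
      have h1s : M₁ ⊔ D = ⊤ := by
        rw [eq_top_iff]
        intro x _
        have hx : g * x * g⁻¹ ∈ M₀ ⊔ D := h0s ▸ Subgroup.mem_top _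
        rw [Subgroup.mem_sup_of_normal_right] at hx
        obtain ⟨y, hy, z, hz, hyz⟩ := hx
        rw [Subgroup.mem_sup_of_normal_right]
        refine ⟨g⁻¹ * y * g, ?_, g⁻¹ * z * g, ?_, ?_⟩
        · rw [hmem]; simpa [mul_assoc] using hy
        · have := ‹D.Normal›.conj_mem z hz g⁻¹
          simpa using this
        · have : g⁻¹ * y * g * (g⁻¹ * z * g) = g⁻¹ * (y * z) * g := by group
          rw [this, hyz]; group
      have hin := h0min (y := M₀ ⊓ M₁) ⟨inf_le_left.trans h0B,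
        fun b hb m hm => ⟨h0n b hb m hm.1, h1n b hb m hm.2⟩,
        L1' M₀ M₁ h0B h1B h0n h1n h0s h1s⟩ inf_le_left
      exact (hmem m).mp (hin hm).2
    exact (hBleast M₀ hnorm h0s).trans hM₀le
  refine ⟨B, hBn, hBs, ?_⟩
  intro B' hB'
  induction hB' with
  | top => intro _; exact le_top
  | step H K h_le hSubn hN ih =>
    intro hHs
    have hBK : B ≤ K := ih (mono H K h_le hHs)
    have hconj : ∀ k ∈ K, ∀ h ∈ H, k * h * k⁻¹ ∈ H := by
      intro k hk h hh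
      have := hN.conj_mem ⟨h, h_le hh⟩ (by simpa [Subgroup.mem_subgroupOf] using hh) ⟨k, hk⟩
      simpa [Subgroup.mem_subgroupOf] using this
    have hM : B ≤ B ⊓ H := by
      apply L3 (B ⊓ H) inf_le_left
      · intro b hb m hm
        exact ⟨hBn.conj_mem m hm.1 b, hconj b (hBK hb) m hm.2⟩
      · apply mono _ _ _ (L1 B H hBs hHs)
        rw [Subgroup.commutator_le]
        intro b hb h hh
        refine ⟨?_, ?_⟩
        · rw [commutatorElement_def]
          have : b * h * b⁻¹ * h⁻¹ = b * (h * b⁻¹ * h⁻¹) := by simp [mul_assoc]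
          rw [this]; exact B.mul_mem hb (hBn.conj_mem _ (B.inv_mem hb) h)
        · rw [commutatorElement_def]
          exact H.mul_mem (hconj b (hBK hb) h hh) (H.inv_mem hh)
    exact hM.trans inf_le_right

end Cfsg.Agent.S3027
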