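import Cfsg.Statements.S3053
import Mathlib
import Cfsg.Agent.Lib.Helper3.SylowIn
import Cfsg.Agent.Lib.Lead.Basic

set_option autoImplicit false
open Cfsg

namespace Cfsg.Agent.S3053

open scoped commutatorElement Pointwise

theorem cpow {G : Type*} [Group G] (g x : G) (n : ℕ) : (g⁻¹ * x * g) ^ n = g⁻¹ * x ^ n * g := by
  have := conj_pow (a := g⁻¹) (b := x) (i := n)
  simpa using this

theorem pow_comm_aux {Q : Type*} [Group Q] (a b c : Q) (hc : ∀ g : Q, g * c = c * g)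
    (hab : a * b = b * a * c) (n : ℕ) : a ^ n * b = b * a ^ n * c ^ n := by
  induction n with
  | zero => simp
  | succ n ih =>
    calc a ^ (n + 1) * b = a ^ n * (a * b) := by rw [pow_succ, mul_assoc]
      _ = a ^ n * (b * a * c) := by rw [hab]
      _ = (a ^ n * b) * a * c := by simp only [mul_assoc]
      _ = (b * a ^ n * c ^ n) * a * c := by rw [ih]
      _ = b * a ^ n * (c ^ n * a) * c := by simp only [mul_assoc]
      _ = b * a ^ n * (a * c ^ n) * c := by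
          rw [← ((show Commute a c from hc a).pow_right n).eq]
      _ = b * a ^ (n + 1) * c ^ (n + 1) := by
          rw [pow_succ a n, pow_succ c n]; simp only [mul_assoc]

theorem central_pow_one {Q : Type*} [Group Q] [Finite Q] {p : ℕ}
    (hZ : Nat.card (Subgroup.center Q) = p) (c : Q) (hc : c ∈ Subgroup.center Q) : c ^ p = 1 := by
  have h1 : (⟨c, hc⟩ : Subgroup.center Q) ^ Nat.card (Subgroup.center Q) = 1 := pow_card_eq_one'
  rw [hZ] at h1
  have h3 := congrArg Subtype.val h1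
  simpa using h3

theorem pow_central {Q : Type*} [Group Q] [Finite Q] {p : ℕ}
    (h2 : ∀ x y : Q, ⁅x, y⁆ ∈ Subgroup.center Q) (hZ : Nat.card (Subgroup.center Q) = p)
    (x y : Q) : x ^ p * y = y * x ^ p := by
  have hc : x⁻¹ * y⁻¹ * x * y ∈ Subgroup.center Q := by
    have := h2 x⁻¹ y⁻¹
    rw [commutatorElement_def] at this
    simpa using this
  have hc' : ∀ g : Q, g * (x⁻¹ * y⁻¹ * x * y) = (x⁻¹ * y⁻¹ * x * y) * g :=
    fun g => Subgroup.mem_center_iff.1 hc g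
  have hab : x * y = y * x * (x⁻¹ * y⁻¹ * x * y) := by group
  have h1 := pow_comm_aux x y _ hc' hab p
  rw [h1, central_pow_one hZ _ hc, mul_one]

theorem pow_mul_hom {Q : Type*} [Group Q] [Finite Q] {p : ℕ} [Fact p.Prime] (hp : p ≠ 2)
    (h2 : ∀ x y : Q, ⁅x, y⁆ ∈ Subgroup.center Q) (hZ : Nat.card (Subgroup.center Q) = p)
    (x y : Q) : (x * y) ^ p = x ^ p * y ^ p := by
  have hpp : p.Prime := Fact.out
  obtain ⟨d, hddef⟩ : ∃ d, d = y⁻¹ * x⁻¹ * y * x := ⟨_, rfl⟩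
  have hdc : d ∈ Subgroup.center Q := by
    have := h2 y⁻¹ x⁻¹
    rw [commutatorElement_def] at this
    rw [hddef]
    simpa using this
  have hd : ∀ g : Q, g * d = d * g := fun g => Subgroup.mem_center_iff.1 hdc g
  have hdn : ∀ (k : ℕ) (g : Q), g * d ^ k = d ^ k * g :=
    fun k g => ((show Commute g d from hd g).pow_right k).eq
  have hyx : y * x = x * y * d := by rw [hddef]; group
  have aux : ∀ n : ℕ, (x * y) ^ n = x ^ n * y ^ n * d ^ (n.choose 2) := by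
    intro n
    induction n with
    | zero => simp
    | succ n ih =>
      have hch : (n + 1).choose 2 = n + n.choose 2 := by
        have := Nat.choose_succ_succ n 1
        simpa [Nat.choose_one_right] using this
      calc (x * y) ^ (n + 1) = (x * y) ^ n * (x * y) := pow_succ _ _
        _ = x ^ n * y ^ n * d ^ (n.choose 2) * (x * y) := by rw [ih]
        _ = x ^ n * y ^ n * ((x * y) * d ^ (n.choose 2)) := by
            rw [mul_assoc, ← hdn (n.choose 2) (x * y)]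
        _ = x ^ n * (y ^ n * x) * y * d ^ (n.choose 2) := by simp only [mul_assoc]
        _ = x ^ n * (x * y ^ n * d ^ n) * y * d ^ (n.choose 2) := by
            rw [pow_comm_aux y x d hd hyx n]
        _ = x ^ n * x * y ^ n * (d ^ n * y) * d ^ (n.choose 2) := by simp only [mul_assoc]
        _ = x ^ n * x * y ^ n * (y * d ^ n) * d ^ (n.choose 2) := by rw [← hdn n y]
        _ = x ^ (n + 1) * y ^ (n + 1) * d ^ ((n + 1).choose 2) := by
            rw [hch, pow_succ x n, pow_succ y n, pow_add]; simp only [mul_assoc]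
  rw [aux p]
  have h2lt : 2 < p := lt_of_le_of_ne hpp.two_le (Ne.symm hp)
  obtain ⟨k, hk⟩ := Nat.Prime.dvd_choose_self hpp (by norm_num : (2 : ℕ) ≠ 0) h2lt
  rw [hk, pow_mul, central_pow_one hZ d hdc, one_pow, mul_one]

theorem struct {Q : Type*} [Group Q] [Finite Q] {p : ℕ} [Fact p.Prime] (hp : p ≠ 2)
    (h2 : ∀ x y : Q, ⁅x, y⁆ ∈ Subgroup.center Q) (hZ : Nat.card (Subgroup.center Q) = p)
    (hcard : Nat.card Q = p ^ 3) (hexp : Monoid.exponent Q = p ^ 2) :
    ∃ E : Subgroup Q, (∀ x, x ∈ E ↔ x ^ p = 1) ∧ Nat.card E = p ^ 2 ∧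
      (∀ a ∈ E, ∀ b ∈ E, a * b = b * a) ∧ (∀ x, (∀ e ∈ E, x * e = e * x) → x ∈ E) := by
  have hpp : p.Prime := Fact.out
  have hcen : ∀ x y : Q, x ^ p * y = y * x ^ p := pow_central h2 hZ
  let f : Q →* Q :=
    { toFun := fun x => x ^ p, map_one' := one_pow p, map_mul' := pow_mul_hom hp h2 hZ }
  have hfa : ∀ x, f x = x ^ p := fun x => rfl
  have hmem : ∀ x, x ∈ f.ker ↔ x ^ p = 1 := fun x => by rw [MonoidHom.mem_ker, hfa]
  have hrange_le : f.range ≤ Subgroup.center Q := by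
    rintro _ ⟨x, rfl⟩
    rw [Subgroup.mem_center_iff]
    intro g
    rw [hfa]
    exact (hcen x g).symm
  have hplt : p < p ^ 2 := by nlinarith [hpp.two_le]
  have hrange_ne : Nat.card f.range ≠ 1 := by
    intro h1
    have hbot : f.range = ⊥ := Subgroup.card_eq_one.1 h1
    have hall : ∀ x : Q, x ^ p = 1 := by
      intro x
      have : f x ∈ f.range := ⟨x, rfl⟩
      rw [hbot, Subgroup.mem_bot] at this
      exact this
    have hdvd : Monoid.exponent Q ∣ p := Monoid.exponent_dvd_of_forall_pow_eq_one hall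
    rw [hexp] at hdvd
    have := Nat.le_of_dvd hpp.pos hdvd
    omega
  have hrange_card : Nat.card f.range = p := by
    have h1 : Nat.card f.range ∣ p := by
      rw [← hZ]
      exact Subgroup.card_dvd_of_le hrange_le
    rcases (Nat.dvd_prime hpp).1 h1 with h | h
    · exact absurd h hrange_ne
    · exact h
  have hker_card : Nat.card f.ker = p ^ 2 := by
    have h1 := Subgroup.card_mul_index f.ker
    rw [Subgroup.index_ker, hrange_card, hcard] at h1
    have : Nat.card f.ker * p = p ^ 2 * p := by rw [h1]; ring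
    exact Nat.eq_of_mul_eq_mul_right hpp.pos this
  have hab : ∀ a ∈ f.ker, ∀ b ∈ f.ker, a * b = b * a := by
    intro a ha b hb
    have hc := IsPGroup.commutative_of_card_eq_prime_sq (p := p) (G := f.ker) hker_card
    have := hc ⟨a, ha⟩ ⟨b, hb⟩
    exact congrArg Subtype.val this
  refine ⟨f.ker, hmem, hker_card, hab, ?_⟩
  intro x hx
  by_contra hxE
  obtain ⟨M, hMdef⟩ : ∃ M : Subgroup Q, M = f.ker ⊔ Subgroup.zpowers x := ⟨_, rfl⟩
  have hEM : f.ker ≤ M := by rw [hMdef]; exact le_sup_left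
  have hxM : x ∈ M := by
    rw [hMdef]
    exact (show Subgroup.zpowers x ≤ f.ker ⊔ Subgroup.zpowers x from le_sup_right)
      (Subgroup.mem_zpowers x)
  have hMcard : Nat.card M = p ^ 3 := by
    have h1 : p ^ 2 ∣ Nat.card M := hker_card ▸ Subgroup.card_dvd_of_le hEM
    have h3 : Nat.card M ∣ p ^ 3 := hcard ▸ Subgroup.card_subgroup_dvd_card M
    have h4 : Nat.card M ≠ p ^ 2 := by
      intro h
      have : f.ker = M := Subgroup.eq_of_le_of_card_ge hEM (by rw [h, hker_card])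
      exact hxE (this ▸ hxM)
    obtain ⟨k, hk⟩ := h1
    have hk' : k ∣ p := by
      rw [hk] at h3
      have : p ^ 2 * k ∣ p ^ 2 * p := by
        rw [show p ^ 2 * p = p ^ 3 by ring]; exact h3
      exact (Nat.mul_dvd_mul_iff_left (pow_pos hpp.pos 2)).1 this
    rcases (Nat.dvd_prime hpp).1 hk' with h | h
    · exact absurd (by rw [hk, h, mul_one]) h4
    · rw [hk, h]; ring
  have hMtop : M = ⊤ := Subgroup.eq_top_of_card_eq M (by rw [hMcard, hcard])
  have hEcen : f.ker ≤ Subgroup.center Q := by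
    intro e he
    rw [Subgroup.mem_center_iff]
    have hle : M ≤ Subgroup.centralizer {e} := by
      rw [hMdef]
      refine sup_le ?_ ?_
      · intro a ha
        rw [Subgroup.mem_centralizer_iff]
        intro b hb
        rw [Set.mem_singleton_iff] at hb
        rw [hb]
        exact hab e he a ha
      · rw [Subgroup.zpowers_le, Subgroup.mem_centralizer_iff]
        intro b hb
        rw [Set.mem_singleton_iff] at hb
        rw [hb]
        exact (hx e he).symm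
    intro g
    have hg : g ∈ Subgroup.centralizer {e} := hle (hMtop ▸ Subgroup.mem_top g)
    rw [Subgroup.mem_centralizer_iff] at hg
    exact (hg e rfl).symm
  have := Subgroup.card_le_of_le hEcen
  rw [hker_card, hZ] at this
  omega

/-- Let p be an odd prime and G a finite group with a Sylow p-subgroup P that is extraspecial of order p³ and exponent p². Then the centre of P is strongly closed in P with respect to G: a G-conjugate of an element of Z(P) that lies in P already lies in Z(P). In particular a nontrivial central element of P is conjugate in G to no noncentral element of P. -/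
theorem result {G : Type*} [Group G] [Finite G]
    {p : ℕ} [Fact p.Prime] (hp : p ≠ 2) (P : Sylow p G) (hE : Cfsg.IsExtraspecial p ↥P)
    (hcard : Nat.card P = p ^ 3) (hexp : Monoid.exponent ↥P = p ^ 2) :
    Cfsg.IsStronglyClosed ((Subgroup.center ↥P).map (P : Subgroup G).subtype) (P : Subgroup G) := by
  classical
  have hpp : p.Prime := Fact.out
  obtain ⟨⟨hPg, hfrat, hcomm⟩, hZc⟩ := hE
  have h2 : ∀ x y : ↥P, ⁅x, y⁆ ∈ Subgroup.center ↥P := by
    intro x y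
    rw [← hcomm, commutator_def]
    exact Subgroup.commutator_mem_commutator (Subgroup.mem_top _) (Subgroup.mem_top _)
  obtain ⟨E0, hE0mem, hE0card, hE0comm, hE0cent⟩ := struct hp h2 hZc hcard hexp
  obtain ⟨Eg, hEgdef⟩ : ∃ X : Subgroup G, X = E0.map (P : Subgroup G).subtype := ⟨_, rfl⟩
  obtain ⟨Zg, hZgdef⟩ : ∃ X : Subgroup G,
      X = (Subgroup.center ↥P).map (P : Subgroup G).subtype := ⟨_, rfl⟩
  rw [← hZgdef]
  have hEmem : ∀ x : G, x ∈ Eg ↔ x ∈ (P : Subgroup G) ∧ x ^ p = 1 := by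
    intro x
    rw [hEgdef]
    constructor
    · rintro ⟨x', hx', rfl⟩
      refine ⟨x'.2, ?_⟩
      have h1 := (hE0mem x').1 hx'
      have h3 := congrArg Subtype.val h1
      simpa using h3
    · rintro ⟨hxP, hx1⟩
      refine ⟨⟨x, hxP⟩, (hE0mem _).2 ?_, rfl⟩
      apply Subtype.ext
      simpa using hx1
  have hZmem : ∀ x : G, x ∈ Zg ↔ x ∈ (P : Subgroup G) ∧ ∀ y ∈ (P : Subgroup G), y * x = x * y := by
    intro x
    rw [hZgdef]
    constructor
    · rintro ⟨x', hx', rfl⟩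
      refine ⟨x'.2, fun y hy => ?_⟩
      have h1 := Subgroup.mem_center_iff.1 hx' ⟨y, hy⟩
      have h3 := congrArg Subtype.val h1
      simpa using h3
    · rintro ⟨hxP, hx1⟩
      refine ⟨⟨x, hxP⟩, Subgroup.mem_center_iff.2 (fun y => ?_), rfl⟩
      apply Subtype.ext
      simpa using hx1 y.1 y.2
  have hEcard : Nat.card Eg = p ^ 2 := by
    rw [hEgdef, ← hE0card]
    exact (Nat.card_congr (E0.equivMapOfInjective _ (Subgroup.subtype_injective _)).toEquiv).symm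
  have hZcard : Nat.card Zg = p := by
    rw [hZgdef]
    exact ((Nat.card_congr ((Subgroup.center ↥P).equivMapOfInjective _
      (Subgroup.subtype_injective _)).toEquiv).symm).trans hZc
  have hEP : Eg ≤ (P : Subgroup G) := fun x hx => ((hEmem x).1 hx).1
  have hEcomm : ∀ a ∈ Eg, ∀ b ∈ Eg, a * b = b * a := by
    rw [hEgdef]
    rintro _ ⟨a', ha', rfl⟩ _ ⟨b', hb', rfl⟩
    have h1 := hE0comm a' ha' b' hb'
    have h3 := congrArg Subtype.val h1
    simpa using h3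
  have hEcent : ∀ x ∈ (P : Subgroup G), (∀ e ∈ Eg, x * e = e * x) → x ∈ Eg := by
    intro x hx hc
    have hx' : (⟨x, hx⟩ : ↥P) ∈ E0 := by
      apply hE0cent
      intro e he
      apply Subtype.ext
      have := hc e.1 (by rw [hEgdef]; exact ⟨e, he, rfl⟩)
      simpa using this
    rw [hEgdef]
    exact ⟨⟨x, hx⟩, hx', rfl⟩
  have hZE : Zg ≤ Eg := by
    intro x hx
    rw [hEmem]
    refine ⟨((hZmem x).1 hx).1, ?_⟩
    have h1 : (⟨x, hx⟩ : Zg) ^ Nat.card Zg = 1 := pow_card_eq_one'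
    rw [hZcard] at h1
    have h3 := congrArg Subtype.val h1
    simpa using h3
  have hcommZ : ∀ a ∈ (P : Subgroup G), ∀ b ∈ (P : Subgroup G), a * b * a⁻¹ * b⁻¹ ∈ Zg := by
    intro a ha b hb
    rw [hZgdef]
    refine ⟨⁅(⟨a, ha⟩ : ↥P), ⟨b, hb⟩⁆, h2 _ _, ?_⟩
    simp [commutatorElement_def]
  have hpowE : ∀ x ∈ (P : Subgroup G), x ^ p ∈ Eg := by
    intro x hx
    rw [hEmem]
    refine ⟨pow_mem hx p, ?_⟩
    have h1 : (⟨x, hx⟩ : ↥P) ^ (p ^ 2) = 1 := by
      rw [← hexp]; exact Monoid.pow_exponent_eq_one _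
    have h3 := congrArg Subtype.val h1
    rw [← pow_mul, ← pow_two]
    simpa using h3
  have hnormP : ∀ w ∈ (P : Subgroup G), ∀ e ∈ Eg, w * e * w⁻¹ ∈ Eg := by
    intro w hw e he
    rw [hEmem]
    refine ⟨mul_mem (mul_mem hw (hEP he)) (inv_mem hw), ?_⟩
    rw [conj_pow, ((hEmem e).1 he).2]; group
  have hsurj : ∀ x₀ : G, (∀ e ∈ Eg, x₀⁻¹ * e * x₀ ∈ Eg) → ∀ e ∈ Eg, x₀ * e * x₀⁻¹ ∈ Eg := by
    intro x₀ hx₀ e he
    let φ : Eg → Eg := fun e => ⟨x₀⁻¹ * e.1 * x₀, hx₀ e.1 e.2⟩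
    have hinj : Function.Injective φ := by
      intro a b hab
      have h1 : x₀⁻¹ * a.1 * x₀ = x₀⁻¹ * b.1 * x₀ := congrArg Subtype.val hab
      apply Subtype.ext
      exact mul_left_cancel (mul_right_cancel h1)
    obtain ⟨e', he'⟩ := Finite.surjective_of_injective hinj ⟨e, he⟩
    have h1 : x₀⁻¹ * e'.1 * x₀ = e := congrArg Subtype.val he'
    have h3 : x₀ * e * x₀⁻¹ = e'.1 := by rw [← h1]; group
    rw [h3]; exact e'.2
  have hEp : IsPGroup p Eg := P.isPGroup'.to_le hEP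
  have hF3 : ∀ B : Subgroup G, IsPGroup p B → Eg ≤ B → ∀ x ∈ B,
      (x ^ p = 1 ∨ ∀ e ∈ Eg, x * e = e * x) → x ∈ Eg := by
    intro B hB hEB x hx hcase
    obtain ⟨x₀, hx₀⟩ := Cfsg.Agent.Lib.Helper3.pgroup_le_conj_sylow P B hB
    have hE1 : ∀ e ∈ Eg, x₀⁻¹ * e * x₀ ∈ Eg := by
      intro e he
      rw [hEmem]
      refine ⟨hx₀ e (hEB he), ?_⟩
      rw [cpow, ((hEmem e).1 he).2]; group
    have hE2 := hsurj x₀ hE1
    have hw : x₀⁻¹ * x * x₀ ∈ Eg := by
      rcases hcase with h | h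
      · rw [hEmem]
        refine ⟨hx₀ x hx, ?_⟩
        rw [cpow, h]; group
      · apply hEcent _ (hx₀ x hx)
        intro e he
        have he' := hE2 e he
        have h1 := h _ he'
        calc x₀⁻¹ * x * x₀ * e = x₀⁻¹ * (x * (x₀ * e * x₀⁻¹)) * x₀ := by group
          _ = x₀⁻¹ * ((x₀ * e * x₀⁻¹) * x) * x₀ := by rw [h1]
          _ = e * (x₀⁻¹ * x * x₀) := by group
    have h4 := hE2 _ hw
    have h3 : x₀ * (x₀⁻¹ * x * x₀) * x₀⁻¹ = x := by group
    rwa [h3] at h4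
  refine ⟨by rw [hZgdef]; exact Subgroup.map_subtype_le _, ?_⟩
  intro z hz g hgz
  by_contra hcon
  have hzP := ((hZmem z).1 hz).1
  have hzc := ((hZmem z).1 hz).2
  have hzE := hZE hz
  have hzp := ((hEmem z).1 hzE).2
  obtain ⟨y, hydef⟩ : ∃ y, y = g * z * g⁻¹ := ⟨_, rfl⟩
  rw [← hydef] at hgz hcon
  have hyp : y ^ p = 1 := by rw [hydef, conj_pow, hzp]; group
  have hyE : y ∈ Eg := (hEmem y).2 ⟨hgz, hyp⟩
  obtain ⟨H, hHdef⟩ : ∃ H : Subgroup G, H = Subgroup.centralizer {y} := ⟨_, rfl⟩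
  have hHmem : ∀ x, x ∈ H ↔ y * x = x * y := by
    intro x
    rw [hHdef, Subgroup.mem_centralizer_iff]
    constructor
    · intro h; exact h y rfl
    · intro h b hb
      rw [Set.mem_singleton_iff] at hb
      rw [hb]; exact h
  obtain ⟨R, hRdef⟩ : ∃ R : Subgroup G, R = ((g • P : Sylow p G) : Subgroup G) := ⟨_, rfl⟩
  have hRmem : ∀ x, x ∈ R ↔ g⁻¹ * x * g ∈ (P : Subgroup G) := by
    intro x
    rw [hRdef, Sylow.coe_subgroup_smul, Cfsg.Agent.Lib.Lead.mem_conj_smul]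
  have hRp : IsPGroup p R := by rw [hRdef]; exact (g • P).isPGroup'
  have hRH : R ≤ H := by
    intro x hx
    rw [hHmem]
    have h1 := hzc _ ((hRmem x).1 hx)
    rw [hydef]
    calc g * z * g⁻¹ * x = g * (z * (g⁻¹ * x * g)) * g⁻¹ := by group
      _ = g * (g⁻¹ * x * g * z) * g⁻¹ := by rw [h1]
      _ = x * (g * z * g⁻¹) := by group
  have hidx : ¬ p ∣ R.relIndex H := by
    intro hd
    have h1 := Subgroup.relIndex_mul_index hRH
    have h3 : p ∣ R.index := by rw [← h1]; exact Dvd.dvd.mul_right hd _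
    rw [hRdef] at h3
    exact (g • P).not_dvd_index h3
  have hEH : Eg ≤ H := by
    intro e he
    rw [hHmem]
    exact hEcomm y hyE e he
  obtain ⟨n, hnH, hn⟩ := Cfsg.Agent.Lib.Helper3.conj_into_sylowIn H R Eg hRp hidx hEH hEp
  obtain ⟨h, hhdef⟩ : ∃ h, h = n⁻¹ * g := ⟨_, rfl⟩
  have hh1 : ∀ e ∈ Eg, h⁻¹ * e * h ∈ Eg := by
    intro e he
    rw [hEmem]
    have h1 := (hRmem _).1 (hn e he)
    have h3 : h⁻¹ * e * h = g⁻¹ * (n * e * n⁻¹) * g := by rw [hhdef]; group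
    refine ⟨by rw [h3]; exact h1, ?_⟩
    rw [cpow, ((hEmem e).1 he).2]; group
  have hh2 := hsurj h hh1
  have hhz : h * z * h⁻¹ = y := by
    have h1 := (hHmem n).1 hnH
    rw [hhdef]
    calc n⁻¹ * g * z * (n⁻¹ * g)⁻¹ = n⁻¹ * (g * z * g⁻¹) * n := by group
      _ = n⁻¹ * y * n := by rw [← hydef]
      _ = n⁻¹ * (y * n) := by group
      _ = n⁻¹ * (n * y) := by rw [h1]
      _ = y := by group
  have hz1 : z ≠ 1 := by
    intro h1
    apply hcon
    rw [hydef, h1]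
    simp
  have hordz : orderOf z = p := by
    have h1 : orderOf z ∣ p := orderOf_dvd_of_pow_eq_one hzp
    rcases (Nat.dvd_prime hpp).1 h1 with h | h
    · exact absurd (orderOf_eq_one_iff.1 h) hz1
    · exact h
  have hZz : Zg = Subgroup.zpowers z := by
    symm
    apply Subgroup.eq_of_le_of_card_ge
    · rw [Subgroup.zpowers_le]; exact hz
    · rw [hZcard, Nat.card_zpowers, hordz]
  have hZpow : ∀ w ∈ Zg, ∃ k : ℕ, z ^ k = w := by
    intro w hw
    rw [hZz] at hw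
    have := (isOfFinOrder_of_finite z).mem_powers_iff_mem_zpowers.2 hw
    exact (Submonoid.mem_powers_iff _ _).1 this
  have hgen : Subgroup.closure {z, y} = Eg := by
    obtain ⟨M, hMdef⟩ : ∃ M : Subgroup G, M = Subgroup.closure {z, y} := ⟨_, rfl⟩
    rw [← hMdef]
    have hzM : z ∈ M := by rw [hMdef]; exact Subgroup.subset_closure (by simp)
    have hyM : y ∈ M := by rw [hMdef]; exact Subgroup.subset_closure (by simp)
    have hME : M ≤ Eg := by
      rw [hMdef, Subgroup.closure_le]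
      intro w hw
      simp only [Set.mem_insert_iff, Set.mem_singleton_iff] at hw
      rcases hw with h | h
      · rw [h]; exact hzE
      · rw [h]; exact hyE
    have hZM : Zg ≤ M := by rw [hZz, Subgroup.zpowers_le]; exact hzM
    have h1 : p ∣ Nat.card M := hZcard ▸ Subgroup.card_dvd_of_le hZM
    have h3 : Nat.card M ∣ p ^ 2 := hEcard ▸ Subgroup.card_dvd_of_le hME
    have h4 : Nat.card M ≠ p := by
      intro h
      have : Zg = M := Subgroup.eq_of_le_of_card_ge hZM (by rw [h, hZcard])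
      exact hcon (this ▸ hyM)
    apply Subgroup.eq_of_le_of_card_ge hME
    obtain ⟨k, hk⟩ := h1
    have hk' : k ∣ p := by
      rw [hk, pow_two] at h3
      exact (Nat.mul_dvd_mul_iff_left hpp.pos).1 h3
    rcases (Nat.dvd_prime hpp).1 hk' with h | h
    · exact absurd (by rw [hk, h, mul_one]) h4
    · rw [hEcard, hk, h, pow_two]
  have hcentE : ∀ w : G, w * z = z * w → w * y = y * w → ∀ e ∈ Eg, w * e = e * w := by
    intro w hwz hwy e he
    rw [← hgen] at he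
    have hle : Subgroup.closure {z, y} ≤ Subgroup.centralizer {w} := by
      rw [Subgroup.closure_le]
      intro a ha
      simp only [Set.mem_insert_iff, Set.mem_singleton_iff] at ha
      rw [SetLike.mem_coe, Subgroup.mem_centralizer_iff]
      intro b hb
      rw [Set.mem_singleton_iff] at hb
      rw [hb]
      rcases ha with h | h
      · rw [h]; exact hwz
      · rw [h]; exact hwy
    have h1 := hle he
    rw [Subgroup.mem_centralizer_iff] at h1
    exact h1 w rfl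
  obtain ⟨r, hrP, hrE⟩ : ∃ r, r ∈ (P : Subgroup G) ∧ r ∉ Eg := by
    by_contra hno
    push_neg at hno
    have hle : (P : Subgroup G) ≤ Eg := hno
    have h1 := Subgroup.card_le_of_le hle
    have hPc : Nat.card (P : Subgroup G) = p ^ 3 := hcard
    rw [hPc, hEcard] at h1
    have : p ^ 2 < p ^ 3 := Nat.pow_lt_pow_right hpp.one_lt (by norm_num)
    omega
  have hru : r * z * r⁻¹ = z := by
    have h1 := hzc r hrP
    rw [h1]; group
  obtain ⟨a, ha⟩ := hZpow _ (hcommZ r hrP y hgz)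
  have hrv : r * y * r⁻¹ = y * z ^ a := by
    rw [ha]
    have hc : Commute y (r * y * r⁻¹ * y⁻¹) := hEcomm _ hyE _ (hZE (hcommZ r hrP y hgz))
    rw [hc.eq]; group
  obtain ⟨s, hsdef⟩ : ∃ s, s = h * r * h⁻¹ := ⟨_, rfl⟩
  have hsv : s * y * s⁻¹ = y := by
    rw [hsdef, ← hhz]
    calc h * r * h⁻¹ * (h * z * h⁻¹) * (h * r * h⁻¹)⁻¹ = h * (r * z * r⁻¹) * h⁻¹ := by group
      _ = h * z * h⁻¹ := by rw [hru]
  obtain ⟨u', hu'def⟩ : ∃ u', u' = h⁻¹ * z * h := ⟨_, rfl⟩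
  have hu'E : u' ∈ Eg := by rw [hu'def]; exact hh1 z hzE
  have hu'P := hEP hu'E
  obtain ⟨b, hb⟩ := hZpow _ (hcommZ r hrP u' hu'P)
  have hsu : s * z * s⁻¹ = z * y ^ b := by
    have h1 : r * u' * r⁻¹ = z ^ b * u' := by rw [hb]; group
    have h3 : s * z * s⁻¹ = h * (r * u' * r⁻¹) * h⁻¹ := by rw [hsdef, hu'def]; group
    rw [h3, h1]
    have h4 : h * (z ^ b * u') * h⁻¹ = (h * z * h⁻¹) ^ b * (h * u' * h⁻¹) := by
      rw [conj_pow]; group
    rw [h4, hhz]
    have h5 : h * u' * h⁻¹ = z := by rw [hu'def]; group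
    rw [h5]
    exact ((show Commute y z from hEcomm _ hyE _ hzE).pow_left b).eq
  have hpowz : ∀ k, p ∣ k → z ^ k = 1 := by
    rintro k ⟨m, rfl⟩; rw [pow_mul, hzp, one_pow]
  have hpowy : ∀ k, p ∣ k → y ^ k = 1 := by
    rintro k ⟨m, rfl⟩; rw [pow_mul, hyp, one_pow]
  have hpa : ¬ p ∣ a := by
    intro hd
    apply hrE
    apply hEcent r hrP
    apply hcentE r (hzc r hrP)
    have h1 : r * y * r⁻¹ = y := by rw [hrv, hpowz a hd, mul_one]
    calc r * y = r * y * r⁻¹ * r := by group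
      _ = y * r := by rw [h1]
  have hpb : ¬ p ∣ b := by
    intro hd
    apply hrE
    apply hEcent r hrP
    have hsE : ∀ e ∈ Eg, s * e = e * s := by
      apply hcentE s
      · have h1 : s * z * s⁻¹ = z := by rw [hsu, hpowy b hd, mul_one]
        calc s * z = s * z * s⁻¹ * s := by group
          _ = z * s := by rw [h1]
      · calc s * y = s * y * s⁻¹ * s := by group
          _ = y * s := by rw [hsv]
    intro e he
    have h1 := hsE _ (hh2 e he)
    rw [hsdef] at h1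
    calc r * e = h⁻¹ * (h * r * h⁻¹ * (h * e * h⁻¹)) * h := by group
      _ = h⁻¹ * (h * e * h⁻¹ * (h * r * h⁻¹)) * h := by rw [h1]
      _ = e * r := by group
  obtain ⟨j, hj⟩ : ∃ j : ℕ, p ∣ a * b * j + 1 := by
    obtain ⟨c, hcdef⟩ : ∃ c : ZMod p, c = ((a * b : ℕ) : ZMod p) := ⟨_, rfl⟩
    have hc0 : c ≠ 0 := by
      intro h0
      rw [hcdef, ZMod.natCast_eq_zero_iff] at h0
      rcases (Nat.Prime.dvd_mul hpp).1 h0 with h | h
      · exact hpa h
      · exact hpb h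
    refine ⟨(-c⁻¹).val, ?_⟩
    rw [← ZMod.natCast_eq_zero_iff, Nat.cast_add, Nat.cast_mul, ← hcdef, ZMod.natCast_zmod_val,
      Nat.cast_one, mul_neg, mul_inv_cancel₀ hc0, neg_add_cancel]
  have huv : Commute z y := hEcomm z hzE y hyE
  have hsj_u : ∀ k : ℕ, s ^ k * z * (s ^ k)⁻¹ = z * y ^ (b * k) := by
    intro k
    induction k with
    | zero => simp
    | succ k ih =>
      have e1 : b * (k + 1) = b + b * k := by ring
      calc s ^ (k + 1) * z * (s ^ (k + 1))⁻¹ = s * (s ^ k * z * (s ^ k)⁻¹) * s⁻¹ := by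
            rw [pow_succ']; group
        _ = s * (z * y ^ (b * k)) * s⁻¹ := by rw [ih]
        _ = (s * z * s⁻¹) * (s * y * s⁻¹) ^ (b * k) := by rw [conj_pow]; group
        _ = z * y ^ b * y ^ (b * k) := by rw [hsu, hsv]
        _ = z * y ^ (b * (k + 1)) := by rw [e1, pow_add, mul_assoc]
  have hsj_v : ∀ k : ℕ, s ^ k * y * (s ^ k)⁻¹ = y := by
    intro k
    have hc : Commute s y := by
      show s * y = y * s
      calc s * y = s * y * s⁻¹ * s := by group
        _ = y * s := by rw [hsv]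
    have h1 := (hc.pow_left k).eq
    rw [h1]; group
  obtain ⟨τ, hτdef⟩ : ∃ τ, τ = r * s ^ j * r := ⟨_, rfl⟩
  have hpz1 : z ^ (a * b * j + 1) = 1 := hpowz _ hj
  have hpy1 : y ^ (a * b * j + 1) = 1 := hpowy _ hj
  have hτu : τ * z * τ⁻¹ = y ^ (b * j) := by
    calc τ * z * τ⁻¹ = r * (s ^ j * (r * z * r⁻¹) * (s ^ j)⁻¹) * r⁻¹ := by rw [hτdef]; group
      _ = r * (z * y ^ (b * j)) * r⁻¹ := by rw [hru, hsj_u]
      _ = (r * z * r⁻¹) * (r * y * r⁻¹) ^ (b * j) := by rw [conj_pow]; group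
      _ = z * (y * z ^ a) ^ (b * j) := by rw [hru, hrv]
      _ = z * (y ^ (b * j) * (z ^ a) ^ (b * j)) := by rw [(huv.symm.pow_right a).mul_pow]
      _ = y ^ (b * j) * (z * (z ^ a) ^ (b * j)) := (huv.pow_right (b * j)).left_comm _
      _ = y ^ (b * j) * z ^ (a * b * j + 1) := by
          rw [show a * b * j + 1 = a * (b * j) + 1 by ring, pow_succ' z (a * (b * j)),
            pow_mul z a (b * j)]
      _ = y ^ (b * j) := by rw [hpz1, mul_one]
  have hτv : τ * y * τ⁻¹ = z ^ a := by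
    calc τ * y * τ⁻¹ = r * (s ^ j * (r * y * r⁻¹) * (s ^ j)⁻¹) * r⁻¹ := by rw [hτdef]; group
      _ = r * (s ^ j * (y * z ^ a) * (s ^ j)⁻¹) * r⁻¹ := by rw [hrv]
      _ = r * ((s ^ j * y * (s ^ j)⁻¹) * (s ^ j * z * (s ^ j)⁻¹) ^ a) * r⁻¹ := by
          rw [conj_pow]; group
      _ = r * (y * (z * y ^ (b * j)) ^ a) * r⁻¹ := by rw [hsj_v, hsj_u]
      _ = r * (y * (z ^ a * (y ^ (b * j)) ^ a)) * r⁻¹ := by
          rw [(huv.pow_right (b * j)).mul_pow]
      _ = r * (z ^ a * (y * (y ^ (b * j)) ^ a)) * r⁻¹ := by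
          rw [(huv.symm.pow_right a).left_comm]
      _ = r * (z ^ a * y ^ (a * b * j + 1)) * r⁻¹ := by
          rw [show a * b * j + 1 = b * j * a + 1 by ring, pow_succ' y (b * j * a),
            pow_mul y (b * j) a]
      _ = r * z ^ a * r⁻¹ := by rw [hpy1, mul_one]
      _ = (r * z * r⁻¹) ^ a := by rw [conj_pow]
      _ = z ^ a := by rw [hru]
  obtain ⟨t₀, ht₀def⟩ : ∃ t₀, t₀ = τ * τ := ⟨_, rfl⟩
  have ht₀u : t₀ * z * t₀⁻¹ = z⁻¹ := by
    have h1 : t₀ * z * t₀⁻¹ = z ^ (a * (b * j)) := by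
      calc t₀ * z * t₀⁻¹ = τ * (τ * z * τ⁻¹) * τ⁻¹ := by rw [ht₀def]; group
        _ = τ * y ^ (b * j) * τ⁻¹ := by rw [hτu]
        _ = (τ * y * τ⁻¹) ^ (b * j) := by rw [conj_pow]
        _ = z ^ (a * (b * j)) := by rw [hτv, ← pow_mul]
    rw [h1]
    apply eq_inv_of_mul_eq_one_left
    rw [← pow_succ, show a * (b * j) + 1 = a * b * j + 1 by ring]
    exact hpz1
  have ht₀v : t₀ * y * t₀⁻¹ = y⁻¹ := by
    have h1 : t₀ * y * t₀⁻¹ = y ^ (b * j * a) := by
      calc t₀ * y * t₀⁻¹ = τ * (τ * y * τ⁻¹) * τ⁻¹ := by rw [ht₀def]; group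
        _ = τ * z ^ a * τ⁻¹ := by rw [hτv]
        _ = (τ * z * τ⁻¹) ^ a := by rw [conj_pow]
        _ = y ^ (b * j * a) := by rw [hτu, ← pow_mul]
    rw [h1]
    apply eq_inv_of_mul_eq_one_left
    rw [← pow_succ, show b * j * a + 1 = a * b * j + 1 by ring]
    exact hpy1
  have hinv0 : ∀ e ∈ Eg, t₀ * e * t₀⁻¹ = e⁻¹ := by
    intro e he
    have key : ∀ e ∈ Subgroup.closure ({z, y} : Set G), e ∈ Eg ∧ t₀ * e * t₀⁻¹ = e⁻¹ := by
      intro e he
      induction he using Subgroup.closure_induction with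
      | mem x hx =>
        simp only [Set.mem_insert_iff, Set.mem_singleton_iff] at hx
        rcases hx with h | h
        · rw [h]; exact ⟨hzE, ht₀u⟩
        · rw [h]; exact ⟨hyE, ht₀v⟩
      | one => exact ⟨one_mem _, by simp⟩
      | mul x w _ _ hx hw =>
        refine ⟨mul_mem hx.1 hw.1, ?_⟩
        have e1 : t₀ * (x * w) * t₀⁻¹ = (t₀ * x * t₀⁻¹) * (t₀ * w * t₀⁻¹) := by group
        rw [e1, hx.2, hw.2, mul_inv_rev]
        exact hEcomm _ (inv_mem hx.1) _ (inv_mem hw.1)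
      | inv x _ hx =>
        refine ⟨inv_mem hx.1, ?_⟩
        have e1 : t₀ * x⁻¹ * t₀⁻¹ = (t₀ * x * t₀⁻¹)⁻¹ := by group
        rw [e1, hx.2]
    exact (key e (by rw [hgen]; exact he)).2
  have hodd : ∀ m : ℕ, ∀ e ∈ Eg, t₀ ^ (2 * m + 1) * e * (t₀ ^ (2 * m + 1))⁻¹ = e⁻¹ := by
    intro m
    induction m with
    | zero => intro e he; simpa using hinv0 e he
    | succ m ih =>
      intro e he
      have h1 : t₀ ^ (2 * (m + 1) + 1) = t₀ ^ (2 * m + 1) * t₀ * t₀ := by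
        rw [show 2 * (m + 1) + 1 = (2 * m + 1) + 1 + 1 by ring, pow_succ, pow_succ]
      rw [h1]
      calc t₀ ^ (2 * m + 1) * t₀ * t₀ * e * (t₀ ^ (2 * m + 1) * t₀ * t₀)⁻¹
          = t₀ ^ (2 * m + 1) * (t₀ * (t₀ * e * t₀⁻¹) * t₀⁻¹) * (t₀ ^ (2 * m + 1))⁻¹ := by group
        _ = t₀ ^ (2 * m + 1) * (t₀ * e⁻¹ * t₀⁻¹) * (t₀ ^ (2 * m + 1))⁻¹ := by rw [hinv0 e he]
        _ = t₀ ^ (2 * m + 1) * e * (t₀ ^ (2 * m + 1))⁻¹ := by
            rw [hinv0 _ (inv_mem he), inv_inv]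
        _ = e⁻¹ := ih e he
  obtain ⟨k2, m2, hm2odd, hk2⟩ := Nat.exists_eq_two_pow_mul_odd (orderOf_pos t₀).ne'
  obtain ⟨m3, hm3⟩ := hm2odd
  obtain ⟨t₁, ht₁def⟩ : ∃ t₁, t₁ = t₀ ^ m2 := ⟨_, rfl⟩
  have ht₁inv : ∀ e ∈ Eg, t₁ * e * t₁⁻¹ = e⁻¹ := by
    intro e he; rw [ht₁def, hm3]; exact hodd m3 e he
  have ht₁pow : t₁ ^ (2 ^ k2) = 1 := by
    rw [ht₁def, ← pow_mul, mul_comm, ← hk2]; exact pow_orderOf_eq_one t₀
  have ht₁grp : IsPGroup 2 (Subgroup.zpowers t₁) := by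
    have h1 : orderOf t₁ ∣ 2 ^ k2 := orderOf_dvd_of_pow_eq_one ht₁pow
    obtain ⟨i, -, hi⟩ := (Nat.dvd_prime_pow Nat.prime_two).1 h1
    exact IsPGroup.of_card (n := i) (by rw [Nat.card_zpowers, hi])
  obtain ⟨K, hKmem⟩ : ∃ K : Subgroup G, ∀ n, n ∈ K ↔
      ((∀ e ∈ Eg, n * e * n⁻¹ = e) ∨ (∀ e ∈ Eg, n * e * n⁻¹ = e⁻¹)) := by
    refine ⟨{ carrier := {n | (∀ e ∈ Eg, n * e * n⁻¹ = e) ∨ (∀ e ∈ Eg, n * e * n⁻¹ = e⁻¹)}
              one_mem' := Or.inl (fun e _ => by simp)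
              mul_mem' := ?_
              inv_mem' := ?_ }, fun n => Iff.rfl⟩
    · intro a b ha hb
      have hconj : ∀ e : G, a * b * e * (a * b)⁻¹ = a * (b * e * b⁻¹) * a⁻¹ := fun e => by group
      rcases ha with ha | ha <;> rcases hb with hb | hb
      · left; intro e he; rw [hconj, hb e he, ha e he]
      · right; intro e he; rw [hconj, hb e he, ha _ (inv_mem he)]
      · right; intro e he; rw [hconj, hb e he, ha e he]
      · left; intro e he; rw [hconj, hb e he, ha _ (inv_mem he), inv_inv]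
    · intro a ha
      rcases ha with ha | ha
      · left; intro e he
        have h1 := ha e he
        calc a⁻¹ * e * a⁻¹⁻¹ = a⁻¹ * (a * e * a⁻¹) * a := by rw [h1, inv_inv]
          _ = e := by group
      · right; intro e he
        have h1 := ha _ (inv_mem he)
        rw [inv_inv] at h1
        calc a⁻¹ * e * a⁻¹⁻¹ = a⁻¹ * (a * e⁻¹ * a⁻¹) * a := by rw [h1, inv_inv]
          _ = e⁻¹ := by group
  have ht₁K : t₁ ∈ K := (hKmem t₁).2 (Or.inr ht₁inv)
  have h2grp : IsPGroup 2 ((Subgroup.zpowers t₁).subgroupOf K) := ht₁grp.comap_subtype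
  obtain ⟨T, hT⟩ := h2grp.exists_le_sylow
  obtain ⟨T', hT'def⟩ : ∃ T' : Subgroup G, T' = (T : Subgroup K).map K.subtype := ⟨_, rfl⟩
  have ht₁T : t₁ ∈ T' := by
    rw [hT'def]
    exact ⟨⟨t₁, ht₁K⟩, hT (Subgroup.mem_subgroupOf.2 (Subgroup.mem_zpowers t₁)), rfl⟩
  have hT'K : T' ≤ K := by rw [hT'def]; exact Subgroup.map_subtype_le _
  have hT'2 : IsPGroup 2 T' := by rw [hT'def]; exact T.isPGroup'.map _
  have hidx2 : ¬ 2 ∣ T'.relIndex K := by
    have h1 : T'.relIndex K = (T : Subgroup K).index := by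
      rw [hT'def]
      show (((T : Subgroup K).map K.subtype).comap K.subtype).index = _
      rw [Subgroup.comap_map_eq_self_of_injective (Subgroup.subtype_injective K)]
    rw [h1]
    exact T.not_dvd_index
  have hrn : ∀ e ∈ Eg, r * e * r⁻¹ ∈ Eg := hnormP r hrP
  have hrn' : ∀ e ∈ Eg, r⁻¹ * e * r ∈ Eg := by
    intro e he
    have h1 := hnormP r⁻¹ (inv_mem hrP) e he
    simpa using h1
  obtain ⟨B, hBdef⟩ : ∃ B : Subgroup G, B = T'.map (MulAut.conj r).toMonoidHom := ⟨_, rfl⟩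
  have hBK : B ≤ K := by
    rw [hBdef]
    rintro _ ⟨x, hx, rfl⟩
    have hxK := (hKmem x).1 (hT'K hx)
    rw [hKmem]
    have hconj : ∀ e : G, (MulAut.conj r).toMonoidHom x * e * ((MulAut.conj r).toMonoidHom x)⁻¹
        = r * (x * (r⁻¹ * e * r) * x⁻¹) * r⁻¹ := by
      intro e
      show r * x * r⁻¹ * e * (r * x * r⁻¹)⁻¹ = _
      group
    rcases hxK with hx1 | hx1
    · left; intro e he; rw [hconj, hx1 _ (hrn' e he)]; group
    · right; intro e he; rw [hconj, hx1 _ (hrn' e he)]; group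
  have hB2 : IsPGroup 2 B := by rw [hBdef]; exact hT'2.map _
  obtain ⟨c, hcK, hc⟩ := Cfsg.Agent.Lib.Helper3.conj_into_sylowIn K T' B hT'2 hidx2 hBK hB2
  have hc' : ∀ x ∈ T', c * (r * x * r⁻¹) * c⁻¹ ∈ T' := by
    intro x hx
    exact hc _ (by rw [hBdef]; exact ⟨x, hx, rfl⟩)
  obtain ⟨r₁, hr₁T, hr₁E⟩ : ∃ r₁ : G, (∀ x ∈ T', r₁ * x * r₁⁻¹ ∈ T') ∧
      (∀ e ∈ Eg, r₁ * e * r₁⁻¹ = r * e * r⁻¹) := by
    rcases (hKmem c).1 hcK with hc1 | hc1
    · refine ⟨c * r, ?_, ?_⟩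
      · intro x hx
        have h1 := hc' x hx
        have e1 : c * r * x * (c * r)⁻¹ = c * (r * x * r⁻¹) * c⁻¹ := by group
        rw [e1]; exact h1
      · intro e he
        have e1 : c * r * e * (c * r)⁻¹ = c * (r * e * r⁻¹) * c⁻¹ := by group
        rw [e1, hc1 _ (hrn e he)]
    · refine ⟨t₁ * c * r, ?_, ?_⟩
      · intro x hx
        have h1 := hc' x hx
        have e1 : t₁ * c * r * x * (t₁ * c * r)⁻¹ = t₁ * (c * (r * x * r⁻¹) * c⁻¹) * t₁⁻¹ := by
          group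
        rw [e1]
        exact mul_mem (mul_mem ht₁T h1) (inv_mem ht₁T)
      · intro e he
        have e1 : t₁ * c * r * e * (t₁ * c * r)⁻¹ = t₁ * (c * (r * e * r⁻¹) * c⁻¹) * t₁⁻¹ := by
          group
        rw [e1, hc1 _ (hrn e he), ht₁inv _ (inv_mem (hrn e he)), inv_inv]
  have hpowT : ∀ k : ℕ, ∀ x ∈ T', r₁ ^ k * x * (r₁ ^ k)⁻¹ ∈ T' := by
    intro k
    induction k with
    | zero => intro x hx; simpa using hx
    | succ k ih =>
      intro x hx
      have e1 : r₁ ^ (k + 1) * x * (r₁ ^ (k + 1))⁻¹ = r₁ * (r₁ ^ k * x * (r₁ ^ k)⁻¹) * r₁⁻¹ := by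
        rw [pow_succ']; group
      rw [e1]; exact hr₁T _ (ih x hx)
  have hrpowE : ∀ k : ℕ, ∀ e ∈ Eg, r ^ k * e * (r ^ k)⁻¹ ∈ Eg :=
    fun k e he => hnormP _ (pow_mem hrP k) e he
  have hpowE1 : ∀ k : ℕ, ∀ e ∈ Eg, r₁ ^ k * e * (r₁ ^ k)⁻¹ = r ^ k * e * (r ^ k)⁻¹ := by
    intro k
    induction k with
    | zero => intro e he; simp
    | succ k ih =>
      intro e he
      have e1 : r₁ ^ (k + 1) * e * (r₁ ^ (k + 1))⁻¹ = r₁ * (r₁ ^ k * e * (r₁ ^ k)⁻¹) * r₁⁻¹ := by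
        rw [pow_succ']; group
      have e2 : r ^ (k + 1) * e * (r ^ (k + 1))⁻¹ = r * (r ^ k * e * (r ^ k)⁻¹) * r⁻¹ := by
        rw [pow_succ']; group
      rw [e1, e2, ih e he, hr₁E _ (hrpowE k e he)]
  obtain ⟨kp, m', hm'nd, hkp⟩ :=
    Nat.exists_eq_pow_mul_and_not_dvd (orderOf_pos r₁).ne' p hpp.ne_one
  obtain ⟨r₂, hr₂def⟩ : ∃ r₂, r₂ = r₁ ^ m' := ⟨_, rfl⟩
  have hr₂pow : r₂ ^ (p ^ kp) = 1 := by
    rw [hr₂def, ← pow_mul, mul_comm, ← hkp]; exact pow_orderOf_eq_one r₁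
  have hr₂E : ∀ e ∈ Eg, r₂ * e * r₂⁻¹ = r ^ m' * e * (r ^ m')⁻¹ := by
    intro e he; rw [hr₂def]; exact hpowE1 m' e he
  obtain ⟨q, hqdef⟩ : ∃ q, q = r₂ ^ p := ⟨_, rfl⟩
  have hq1 : q = r₁ ^ (m' * p) := by rw [hqdef, hr₂def, pow_mul]
  have hqpow : q ^ (p ^ kp) = 1 := by
    rw [hqdef, ← pow_mul, mul_comm, pow_mul, hr₂pow, one_pow]
  have hqcent : ∀ e ∈ Eg, q * e = e * q := by
    intro e he
    have h1 := hpowE1 (m' * p) e he
    have h3 : r ^ (m' * p) ∈ Eg := by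
      rw [mul_comm, pow_mul]; exact pow_mem (hpowE r hrP) m'
    have h4 : r ^ (m' * p) * e * (r ^ (m' * p))⁻¹ = e := by
      rw [hEcomm _ h3 e he]; group
    rw [h4, ← hq1] at h1
    calc q * e = q * e * q⁻¹ * q := by group
      _ = e * q := by rw [h1]
  have hpgrp_of_pow : ∀ x : G, x ^ (p ^ kp) = 1 → IsPGroup p (Subgroup.zpowers x) := by
    intro x hx
    have h1 : orderOf x ∣ p ^ kp := orderOf_dvd_of_pow_eq_one hx
    obtain ⟨i, -, hi⟩ := (Nat.dvd_prime_pow hpp).1 h1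
    exact IsPGroup.of_card (n := i) (by rw [Nat.card_zpowers, hi])
  have hnormal_of : ∀ x : G, (∀ e ∈ Eg, x * e * x⁻¹ ∈ Eg) →
      Subgroup.zpowers x ≤ Subgroup.normalizer (Eg : Set G) := by
    intro x hx
    rw [Subgroup.zpowers_le, Subgroup.mem_normalizer_iff]
    intro e
    constructor
    · exact hx e
    · intro he
      have h1 : ∀ e ∈ Eg, x⁻¹⁻¹ * e * x⁻¹ ∈ Eg := by
        intro e he; rw [inv_inv]; exact hx e he
      have h3 := hsurj x⁻¹ h1 _ he
      have e1 : x⁻¹ * (x * e * x⁻¹) * x⁻¹⁻¹ = e := by group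
      rwa [e1] at h3
  have hqE : q ∈ Eg := by
    have hq_n : ∀ e ∈ Eg, q * e * q⁻¹ ∈ Eg := by
      intro e he
      have h1 : q * e * q⁻¹ = e := by rw [hqcent e he]; group
      rw [h1]; exact he
    have hB1 : IsPGroup p (Subgroup.zpowers q ⊔ Eg : Subgroup G) :=
      IsPGroup.to_sup_of_normal_right' (hpgrp_of_pow q hqpow) hEp (hnormal_of q hq_n)
    exact hF3 _ hB1 le_sup_right q
      ((show Subgroup.zpowers q ≤ Subgroup.zpowers q ⊔ Eg from le_sup_left)
        (Subgroup.mem_zpowers q)) (Or.inr hqcent)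
  have hcop2p : Nat.Coprime 2 p := (Nat.coprime_primes Nat.prime_two hpp).2 (Ne.symm hp)
  have hq_one : q = 1 := by
    have h1 : q * t₁ * q⁻¹ ∈ T' := by
      rw [hq1]
      exact hpowT (m' * p) t₁ ht₁T
    have h3 : t₁ * q⁻¹ * t₁⁻¹ = q := by
      have h := ht₁inv _ (inv_mem hqE)
      rwa [inv_inv] at h
    have h4 : q * q ∈ T' := by
      have e1 : q * q = q * t₁ * q⁻¹ * t₁⁻¹ := by
        calc q * q = q * (t₁ * q⁻¹ * t₁⁻¹) := by rw [h3]
          _ = q * t₁ * q⁻¹ * t₁⁻¹ := by group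
      rw [e1]; exact mul_mem h1 (inv_mem ht₁T)
    obtain ⟨i, hi⟩ := hT'2 ⟨q * q, h4⟩
    have hi' : (q * q) ^ (2 ^ i) = 1 := by
      have h := congrArg Subtype.val hi
      simpa using h
    have hqq : (q * q) ^ (p ^ kp) = 1 := by
      rw [(Commute.refl q).mul_pow, hqpow, one_mul]
    have hcop : Nat.Coprime (2 ^ i) (p ^ kp) := Nat.Coprime.pow _ _ hcop2p
    have ho : orderOf (q * q) = 1 := by
      have d1 : orderOf (q * q) ∣ 2 ^ i := orderOf_dvd_of_pow_eq_one hi'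
      have d2 : orderOf (q * q) ∣ p ^ kp := orderOf_dvd_of_pow_eq_one hqq
      have d3 := Nat.dvd_gcd d1 d2
      rw [Nat.Coprime.gcd_eq_one hcop] at d3
      exact Nat.dvd_one.1 d3
    have hqq1 : q * q = 1 := orderOf_eq_one_iff.1 ho
    have ho2 : orderOf q ∣ 2 := orderOf_dvd_of_pow_eq_one (by rw [pow_two]; exact hqq1)
    have ho3 : orderOf q ∣ p ^ kp := orderOf_dvd_of_pow_eq_one hqpow
    have hcop2 : Nat.Coprime 2 (p ^ kp) := Nat.Coprime.pow_right _ hcop2p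
    have d3 := Nat.dvd_gcd ho2 ho3
    rw [Nat.Coprime.gcd_eq_one hcop2] at d3
    exact orderOf_eq_one_iff.1 (Nat.dvd_one.1 d3)
  have hr₂p : r₂ ^ p = 1 := by rw [← hqdef]; exact hq_one
  have hr₂n : ∀ e ∈ Eg, r₂ * e * r₂⁻¹ ∈ Eg := by
    intro e he; rw [hr₂E e he]; exact hrpowE m' e he
  have hB2' : IsPGroup p (Subgroup.zpowers r₂ ⊔ Eg : Subgroup G) :=
    IsPGroup.to_sup_of_normal_right' (hpgrp_of_pow r₂ hr₂pow) hEp (hnormal_of r₂ hr₂n)
  have hr₂Eg : r₂ ∈ Eg :=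
    hF3 _ hB2' le_sup_right r₂
      ((show Subgroup.zpowers r₂ ≤ Subgroup.zpowers r₂ ⊔ Eg from le_sup_left)
        (Subgroup.mem_zpowers r₂)) (Or.inl hr₂p)
  have hrm : r ^ m' ∈ Eg := by
    apply hEcent _ (pow_mem hrP m')
    intro e he
    have h1 := hr₂E e he
    have h3 : r₂ * e * r₂⁻¹ = e := by rw [hEcomm _ hr₂Eg e he]; group
    rw [h3] at h1
    calc r ^ m' * e = r ^ m' * e * (r ^ m')⁻¹ * r ^ m' := by group
      _ = e * r ^ m' := by rw [← h1]
  have hcop3 : Nat.Coprime m' p := Nat.Coprime.symm ((Nat.Prime.coprime_iff_not_dvd hpp).2 hm'nd)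
  obtain ⟨x, -, hx⟩ := Nat.exists_mul_mod_eq_one_of_coprime hcop3 hpp.one_lt
  have hdm := Nat.div_add_mod (m' * x) p
  rw [hx] at hdm
  apply hrE
  have h1 : r ^ (m' * x) = (r ^ p) ^ (m' * x / p) * r := by
    rw [← pow_mul, ← pow_succ, hdm]
  have h3 : r = ((r ^ p) ^ (m' * x / p))⁻¹ * (r ^ m') ^ x := by
    rw [← pow_mul r m' x, h1]; group
  rw [h3]
  exact mul_mem (inv_mem (pow_mem (hpowE r hrP) _)) (pow_mem hrm x)

end Cfsg.Agent.S3053
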