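import Cfsg.Statements.S3058
import Mathlib
import Cfsg.Agent.Lib.Helper5.SylowChain
import Cfsg.Agent.Lib.Helper4.CoprimeGen
import Cfsg.Agent.Lib.Lead.Coprime

set_option autoImplicit false
open Cfsg Cfsg.Agent.Lib.Helper5

namespace Cfsg.Agent.S3058


open scoped Pointwise

theorem N_le_connStab {G : Type*} [Group G] [Finite G] (p : ℕ) [Fact p.Prime]
    (N M : Subgroup G) [hNn : N.Normal] [hMn : M.Normal] (hN : p ∣ Nat.card N) (hM : p ∣ Nat.card M)
    (hK : ¬ p ∣ Nat.card ↥(N ⊓ M)) (S : Sylow p G) : N ≤ connStab S := by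
  have hp : p.Prime := Fact.out
  obtain ⟨x, hxS, hxN, hxo⟩ := exists_order_p_in_sylow_inf N hN S
  obtain ⟨y, hyS, hyM, hyo⟩ := exists_order_p_in_sylow_inf M hM S
  have hKn : (N ⊓ M).Normal := inferInstance
  have hcop : (Nat.card ↥(N ⊓ M)).Coprime p := ((Nat.Prime.coprime_iff_not_dvd hp).mpr hK).symm
  have hKS : (N ⊓ M) ⊓ (S : Subgroup G) = ⊥ := by
    obtain ⟨k, hk⟩ := S.2.exists_card_eq
    apply Subgroup.inf_eq_bot_of_coprime
    rw [hk]
    exact Nat.Coprime.pow_right k hcop
  have hx1 : x ≠ 1 := by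
    intro h; rw [h, orderOf_one] at hxo; exact hp.one_lt.ne hxo
  have hy1 : y ≠ 1 := by
    intro h; rw [h, orderOf_one] at hyo; exact hp.one_lt.ne hyo
  have hxp : x ^ p = 1 := by rw [← hxo]; exact pow_orderOf_eq_one x
  have hyp : y ^ p = 1 := by rw [← hyo]; exact pow_orderOf_eq_one y
  -- x and y commute
  have hxy : x * y = y * x := by
    have h1 : x * y * x⁻¹ * y⁻¹ ∈ (N ⊓ M) ⊓ (S : Subgroup G) := by
      refine ⟨⟨?_, ?_⟩, ?_⟩
      · have : x * y * x⁻¹ * y⁻¹ = x * (y * x⁻¹ * y⁻¹) := by group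
        rw [this]
        exact N.mul_mem hxN (hNn.conj_mem _ (N.inv_mem hxN) y)
      · exact M.mul_mem (hMn.conj_mem _ hyM x) (M.inv_mem hyM)
      · exact Subgroup.mul_mem _ (Subgroup.mul_mem _ (Subgroup.mul_mem _ hxS hyS) (Subgroup.inv_mem _ hxS))
          (Subgroup.inv_mem _ hyS)
    rw [hKS, Subgroup.mem_bot] at h1
    calc x * y = (x * y * x⁻¹ * y⁻¹) * (y * x) := by group
      _ = y * x := by rw [h1, one_mul]
  -- K ≤ connStab S by coprime generation
  have hKle : N ⊓ M ≤ connStab S := by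
    apply Cfsg.Agent.Lib.Helper4.coprime_generation (p := p) x y hxp hyp hxy (N ⊓ M)
      (mem_normalizer_of_normal _ x) (mem_normalizer_of_normal _ y) hcop (connStab S)
    · exact le_trans inf_le_right (centralizer_le_connStab S y hyS hy1)
    · intro i
      refine le_trans inf_le_right (centralizer_le_connStab S (x * y ^ i)
        (Subgroup.mul_mem _ hxS (Subgroup.pow_mem _ hyS i)) ?_)
      intro h
      have hx' : x = (y ^ i)⁻¹ := eq_inv_of_mul_eq_one_left h
      have : x ∈ (N ⊓ M) ⊓ (S : Subgroup G) :=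
        ⟨⟨hxN, by rw [hx']; exact M.inv_mem (M.pow_mem hyM i)⟩, hxS⟩
      rw [hKS, Subgroup.mem_bot] at this
      exact hx1 this
  -- N ≤ connStab S
  intro n hn
  have hmem : n * y * n⁻¹ * y⁻¹ ∈ N ⊓ M := by
    refine ⟨?_, ?_⟩
    · have : n * y * n⁻¹ * y⁻¹ = n * (y * n⁻¹ * y⁻¹) := by group
      rw [this]
      exact N.mul_mem hn (hNn.conj_mem _ (N.inv_mem hn) y)
    · exact M.mul_mem (hMn.conj_mem _ hyM n) (M.inv_mem hyM)
  have hsz := Cfsg.Agent.Lib.Lead.sz_conj (N ⊓ M) (Subgroup.zpowers y) (Subgroup.zpowers (n * y * n⁻¹))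
    (fun z _ => mem_normalizer_of_normal _ z)
    (by
      rw [Subgroup.zpowers_le]
      have : n * y * n⁻¹ = (n * y * n⁻¹ * y⁻¹) * y := by group
      rw [this]
      exact Subgroup.mul_mem_sup hmem (Subgroup.mem_zpowers y))
    (by rw [Nat.card_zpowers, Nat.card_zpowers, orderOf_conj_eq'])
    (by rw [Nat.card_zpowers, hyo]; exact hcop)
    (Or.inr (isSolvable_of_comm (fun a b => (Subgroup.zpowers_isMulCommutative y).is_comm.comm a b)))
  obtain ⟨k, hk, hkeq⟩ := hsz
  have hnorm : k⁻¹ * n ∈ Subgroup.normalizer ((Subgroup.zpowers y : Subgroup G) : Set G) := by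
    apply mem_normalizer_of_conj_smul_eq
    rw [map_mul, mul_smul, conj_smul_zpowers, ← hkeq, map_inv, inv_smul_smul]
  have h2 : k⁻¹ * n ∈ connStab S :=
    normalizer_le_connStab S (Subgroup.zpowers y) (by rw [Subgroup.zpowers_le]; exact hyS)
      (by rw [Ne, Subgroup.zpowers_eq_bot]; exact hy1) hnorm
  have h3 : n = k * (k⁻¹ * n) := by group
  rw [h3]
  exact Subgroup.mul_mem _ (hKle hk) h2

/-- Let p be a prime and G a finite group whose Sylow p-subgroups are not chain-connected through nontrivial intersections (so G has a strongly p-embedded subgroup). If N and M are normal subgroups of G whose orders are both divisible by p, then the order of N ∩ M is divisible by p. Consequently, among the normal subgroups of G whose order is divisible by p there is a smallest one (the intersection of all of them). -/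
theorem result {G : Type*} [Group G] [Finite G]
    (p : ℕ) [Fact p.Prime] (hG : ¬ Cfsg.IsSylowChainConnected p G)
    (N M : Subgroup G) [N.Normal] [M.Normal] (hN : p ∣ Nat.card N) (hM : p ∣ Nat.card M) :
    p ∣ Nat.card ↥(N ⊓ M) := by
  by_contra hK
  apply hG
  apply isSylowChainConnected_of_sylConn
  obtain ⟨P₀⟩ : Nonempty (Sylow p N) := inferInstance
  have hfr := Sylow.normalizer_sup_eq_top P₀
  have hQ₀p : IsPGroup p ((P₀ : Subgroup N).map N.subtype) := P₀.2.map N.subtype
  have hQ₀ne : (P₀ : Subgroup N).map N.subtype ≠ ⊥ := by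
    intro h
    rw [Subgroup.map_eq_bot_iff_of_injective _ N.subtype_injective] at h
    exact P₀.ne_bot_of_dvd_card hN h
  obtain ⟨S₀, hS₀⟩ := hQ₀p.exists_le_sylow
  have h1 : N ≤ connStab S₀ := N_le_connStab p N M hN hM hK S₀
  have h2 := normalizer_le_connStab S₀ _ hS₀ hQ₀ne
  have htop : connStab S₀ = ⊤ := top_le_iff.mp (hfr ▸ sup_le h2 h1)
  exact sylConn_of_connStab_eq_top S₀ htop

end Cfsg.Agent.S3058
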