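import Cfsg.Statements.S3059
import Mathlib
import Cfsg.Agent.Lib.Helper5.SylowChain
import Cfsg.Agent.Lib.Helper4.Basic
import Cfsg.Agent.S3056

set_option autoImplicit false
open Cfsg Cfsg.Agent.Lib.Helper5

namespace Cfsg.Agent.S3059


open scoped Pointwise

theorem closure_normal_of_conj_inv {G : Type*} [Group G] (s : Set G)
    (h : ∀ g x, x ∈ s → g * x * g⁻¹ ∈ s) : (Subgroup.closure s).Normal := by
  constructor
  intro n hn g
  refine Subgroup.closure_induction (p := fun x _ => g * x * g⁻¹ ∈ Subgroup.closure s) ?_ ?_ ?_ ?_ hn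
  · intro x hx; exact Subgroup.subset_closure (h g x hx)
  · simp
  · intro x y _ _ hx hy
    have : g * (x * y) * g⁻¹ = (g * x * g⁻¹) * (g * y * g⁻¹) := by group
    rw [this]; exact Subgroup.mul_mem _ hx hy
  · intro x _ hx
    have : g * x⁻¹ * g⁻¹ = (g * x * g⁻¹)⁻¹ := by group
    rw [this]; exact Subgroup.inv_mem _ hx

/-- Let p be a prime and H a strongly p-embedded subgroup of the finite group G in the classical sense: H is proper, p divides the order of H, and H ∩ gHg⁻¹ has order prime to p for every g outside H. Then for every normal subgroup N of G of order divisible by p, G = H · O^p(N), where O^p(N) is the subgroup generated by the elements of N of order prime to p. -/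
theorem result {G : Type*} [Group G] [Finite G]
    (p : ℕ) [Fact p.Prime] (H : Subgroup G) (hH : H ≠ ⊤) (hpH : p ∣ Nat.card H)
    (hse : ∀ g : G, g ∉ H → ¬ p ∣ Nat.card ↥(H ⊓ H.map (MulAut.conj g).toMonoidHom))
    (N : Subgroup G) [N.Normal] (hN : p ∣ Nat.card N) :
    H ⊔ Subgroup.closure {g : G | g ∈ N ∧ (orderOf g).Coprime p} = ⊤ := by
  have hp : p.Prime := Fact.out
  obtain ⟨S, hSH⟩ := Cfsg.Agent.S3056.exists_sylow_le_of_se p H hpH hse
  set L : Subgroup G := Subgroup.closure {g : G | g ∈ N ∧ (orderOf g).Coprime p} with hL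
  have hNn : N.Normal := inferInstance
  have hLn : L.Normal := by
    apply closure_normal_of_conj_inv
    intro g x hx
    refine ⟨hNn.conj_mem x hx.1 g, ?_⟩
    rw [orderOf_conj_eq']; exact hx.2
  -- N ≤ S ⊔ L
  have hNSL : N ≤ (S : Subgroup G) ⊔ L := by
    have hπ : Function.Surjective (QuotientGroup.mk' L) := QuotientGroup.mk'_surjective L
    have hNp : IsPGroup p (N.map (QuotientGroup.mk' L)) := by
      rintro ⟨y, hy⟩
      obtain ⟨n, hn, rfl⟩ := Subgroup.mem_map.mp hy
      obtain ⟨k, m, hm, hkm⟩ := Nat.exists_eq_pow_mul_and_not_dvd (orderOf_pos n).ne' p hp.ne_one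
      refine ⟨k, ?_⟩
      apply Subtype.ext
      show (QuotientGroup.mk' L n) ^ (p ^ k) = 1
      rw [← map_pow]
      show (QuotientGroup.mk (n ^ (p ^ k)) : G ⧸ L) = 1
      rw [QuotientGroup.eq_one_iff]
      apply Subgroup.subset_closure
      refine ⟨N.pow_mem hn _, ?_⟩
      have ho : orderOf (n ^ (p ^ k)) = m := by
        rw [orderOf_pow' n (pow_ne_zero k hp.ne_zero), hkm,
          Nat.gcd_eq_right (dvd_mul_right (p ^ k) m),
          Nat.mul_div_cancel_left m (pow_pos hp.pos k)]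
      rw [ho]
      exact ((Nat.Prime.coprime_iff_not_dvd hp).mpr hm).symm
    have hle := Cfsg.Agent.Lib.Helper4.normal_pGroup_le_sylow (S.mapSurjective hπ)
      (Subgroup.Normal.map hNn (QuotientGroup.mk' L) hπ) hNp
    intro n hn
    have h1 : QuotientGroup.mk' L n ∈ ((S.mapSurjective hπ : Sylow p (G ⧸ L)) : Subgroup (G ⧸ L)) :=
      hle (Subgroup.mem_map_of_mem _ hn)
    rw [Sylow.coe_mapSurjective] at h1
    obtain ⟨s, hs, hsn⟩ := Subgroup.mem_map.mp h1
    have h2 : s⁻¹ * n ∈ L := by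
      have : (QuotientGroup.mk s : G ⧸ L) = QuotientGroup.mk n := hsn
      exact QuotientGroup.eq.mp this
    have e : n = s * (s⁻¹ * n) := by group
    rw [e]
    exact Subgroup.mul_mem_sup hs h2
  -- H ⊔ N = ⊤ by Frattini
  have hHN : H ⊔ N = ⊤ := by
    obtain ⟨P₀⟩ : Nonempty (Sylow p N) := inferInstance
    have hfr := Sylow.normalizer_sup_eq_top P₀
    have hQ₀p : IsPGroup p ((P₀ : Subgroup N).map N.subtype) := P₀.2.map N.subtype
    have hQ₀ne : (P₀ : Subgroup N).map N.subtype ≠ ⊥ := by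
      intro h
      rw [Subgroup.map_eq_bot_iff_of_injective _ N.subtype_injective] at h
      exact P₀.ne_bot_of_dvd_card hN h
    obtain ⟨T, hT⟩ := hQ₀p.exists_le_sylow
    obtain ⟨x, rfl⟩ := MulAction.exists_smul_eq G S T
    obtain ⟨w, hw1⟩ := (Subgroup.ne_bot_iff_exists_ne_one).mp hQ₀ne
    rw [eq_top_iff]
    intro g _
    have hg : x * g * x⁻¹ ∈ Subgroup.normalizer (((P₀ : Subgroup N).map N.subtype : Subgroup G) : Set G) ⊔ N := by
      rw [hfr]; trivial
    obtain ⟨a, ha, b, hb, hab⟩ := (Subgroup.mem_sup_of_normal_right).mp hg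
    have haH : x⁻¹ * a * x ∈ H := by
      by_contra hy
      apply hse _ hy
      have hw1' : x⁻¹ * (w : G) * x ∈ (S : Subgroup G) := (mem_sylow_smul_iff x w S).mp (hT w.2)
      have hw2 : x⁻¹ * (w : G) * x ≠ 1 := by
        intro h
        apply hw1
        apply Subtype.ext
        have e : (w : G) = x * (x⁻¹ * (w : G) * x) * x⁻¹ := by group
        rw [e, h]; simp
      refine Cfsg.Agent.S3056.p_dvd_card_of_mem S.2 hw1' hw2
        ⟨hSH hw1', (Cfsg.Agent.S3056.mem_map_conj_iff' H _ _).mpr ?_⟩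
      have ha' : a⁻¹ * (w : G) * a⁻¹⁻¹ ∈ (P₀ : Subgroup N).map N.subtype := by
        have hainv := Subgroup.inv_mem _ ha
        rw [Subgroup.mem_normalizer_iff] at hainv
        exact (hainv w).mp w.2
      have h3 : x⁻¹ * (a⁻¹ * (w : G) * a⁻¹⁻¹) * x ∈ (S : Subgroup G) :=
        (mem_sylow_smul_iff x _ S).mp (hT ha')
      have e : (x⁻¹ * a * x)⁻¹ * (x⁻¹ * (w : G) * x) * (x⁻¹ * a * x) = x⁻¹ * (a⁻¹ * (w : G) * a⁻¹⁻¹) * x := by
        group
      rw [e]
      exact hSH h3
    have hbN : x⁻¹ * b * x ∈ N := by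
      have := hNn.conj_mem b hb x⁻¹
      simpa using this
    have e : g = (x⁻¹ * a * x) * (x⁻¹ * b * x) := by
      have : x⁻¹ * a * x * (x⁻¹ * b * x) = x⁻¹ * (a * b) * x := by group
      rw [this, hab]; group
    rw [e]
    exact Subgroup.mul_mem_sup haH hbN
  rw [eq_top_iff, ← hHN]
  apply sup_le le_sup_left
  exact le_trans hNSL (sup_le (le_trans hSH le_sup_left) le_sup_right)

end Cfsg.Agent.S3059
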