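import Cfsg.Statements.S3062
import Mathlib
import Cfsg.Agent.Lib.Helper5.Replacement

set_option autoImplicit false
open Cfsg Cfsg.Agent.Lib.Helper5

namespace Cfsg.Agent.S3062

/-- Let S be a finite p-group, J(S) the subgroup generated by the abelian subgroups of S of largest order and Z(J(S)) its centre. Then Z(S) ≤ D*(S) ≤ Z(J(S)), and every maximal normal abelian subgroup of S contains D*(S). -/
theorem result {S : Type*} [Group S] [Finite S] {p : ℕ} [Fact p.Prime]
    (hS : IsPGroup p S) :
    Subgroup.center S ≤ Cfsg.dStar S ∧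
    Cfsg.dStar S ≤ Cfsg.thompsonSubgroupA S ⊓ Subgroup.centralizer (Cfsg.thompsonSubgroupA S : Set S) ∧
    ∀ A : Subgroup S, A.Normal → IsMulCommutative A →
      (∀ B : Subgroup S, B.Normal → IsMulCommutative B → A ≤ B → B = A) → Cfsg.dStar S ≤ A := by
  unfold Cfsg.thompsonSubgroupA Cfsg.dStar
  refine ⟨?_, ?_, ?_⟩
  · apply le_sSup
    refine ⟨isMulCommutative_of_comm ?_, ?_⟩
    · intro a ha b hb
      exact Subgroup.mem_center_iff.mp hb a
    · intro x _ a ha
      exact (Subgroup.mem_center_iff.mp ha x).symm
  · obtain ⟨M, hMn, hMc, hmax⟩ := exists_max_normal_abelian S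
    have hM := comm_of_isMulCommutative hMc
    have hex : ∃ E₀, E₀ ∈ Cfsg.maxAbelianSubgroups S := by
      have hbot : IsMulCommutative (⊥ : Subgroup S) := by
        apply isMulCommutative_of_comm
        intro a ha b hb
        rw [Subgroup.mem_bot] at ha hb
        rw [ha, hb]
      haveI : Nonempty {B : Subgroup S // IsMulCommutative B} := ⟨⟨⊥, hbot⟩⟩
      obtain ⟨⟨E₀, hE₀⟩, hmaxE⟩ :=
        Finite.exists_max (fun B : {B : Subgroup S // IsMulCommutative B} => Nat.card B.1)
      exact ⟨E₀, hE₀, fun B hB => hmaxE ⟨B, hB⟩⟩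
    apply sSup_le
    intro A hA
    have hAM : A ≤ M := dStarFamily_le_max_normal_abelian hS A hA M hMn hMc hmax
    have hAcomm := comm_of_isMulCommutative hA.1
    have hsub : ∀ E' ∈ Cfsg.maxAbelianSubgroups S, (∀ a ∈ A, ∀ e ∈ E', a * e = e * a) → A ≤ E' := by
      intro E' hE' hcen'
      have hE'comm := comm_of_isMulCommutative hE'.1
      have hsupc : IsMulCommutative (A ⊔ E' : Subgroup S) := by
        have hcl : A ⊔ E' = Subgroup.closure ((A : Set S) ∪ (E' : Set S)) := by
          rw [Subgroup.closure_union, Subgroup.closure_eq, Subgroup.closure_eq]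
        rw [hcl]
        apply Subgroup.isMulCommutative_closure
        intro u hu v hv
        rcases hu with hu | hu <;> rcases hv with hv | hv
        · exact hAcomm u hu v hv
        · exact hcen' u hu v hv
        · exact (hcen' v hv u hu).symm
        · exact hE'comm u hu v hv
      have h1 := hE'.2 _ hsupc
      have h2 : E' = A ⊔ E' := Subgroup.eq_of_le_of_card_ge le_sup_right h1
      rw [h2]; exact le_sup_left
    have key : ∀ n : ℕ, ∀ E ∈ Cfsg.maxAbelianSubgroups S,
        Nat.card M - Nat.card (E ⊓ M : Subgroup S) = n → ∀ a ∈ A, ∀ e ∈ E, a * e = e * a := by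
      intro n
      induction n using Nat.strong_induction_on with
      | _ n ih =>
        intro E hE hn
        have hEcomm := comm_of_isMulCommutative hE.1
        by_cases hMN : M ≤ Subgroup.normalizer (E : Set S)
        · exact dStar_centralizes_of_normalizes hS A hA E hEcomm (hAM.trans hMN)
        · obtain ⟨E', hE', hlt, hnorm⟩ := thompson_replacement hS M hMn hM E hE hMN
          have hle' : Nat.card (E' ⊓ M : Subgroup S) ≤ Nat.card M := Subgroup.card_le_of_le inf_le_right
          have hcen' := ih (Nat.card M - Nat.card (E' ⊓ M : Subgroup S)) (by omega) E' hE' rfl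
          have hAE' : A ≤ E' := hsub E' hE' hcen'
          exact dStar_centralizes_of_normalizes hS A hA E hEcomm (hAE'.trans hnorm)
    have hcen : ∀ E ∈ Cfsg.maxAbelianSubgroups S, ∀ a ∈ A, ∀ e ∈ E, a * e = e * a :=
      fun E hE => key _ E hE rfl
    apply le_inf
    · obtain ⟨E₀, hE₀⟩ := hex
      exact (hsub E₀ hE₀ (hcen E₀ hE₀)).trans (le_sSup hE₀)
    · rw [Subgroup.le_centralizer_iff]
      apply sSup_le
      intro E hE e he
      rw [Subgroup.mem_centralizer_iff]
      intro a ha
      exact hcen E hE a ha e he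
  · intro A hAn hAc hAmax
    apply sSup_le
    intro A' hA'
    exact dStarFamily_le_max_normal_abelian hS A' hA' A hAn hAc hAmax

end Cfsg.Agent.S3062
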