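import Cfsg.Statements.S3063
import Mathlib
import Cfsg.Agent.Lib.Helper1.Conj2
import Cfsg.Agent.Lib.Helper1.Abel

set_option autoImplicit false
open Cfsg

namespace Cfsg.Agent.S3063


open Cfsg.Agent.Lib
open scoped commutatorElement

theorem comm_mem_commutator {S : Type*} [Group S] (x a : S) : x * a * x⁻¹ * a⁻¹ ∈ commutator S := by
  rw [commutator_def, ← commutatorElement_def]
  exact Subgroup.commutator_mem_commutator (Subgroup.mem_top x) (Subgroup.mem_top a)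

/-- a maximal-order abelian subgroup is self-centralizing -/
theorem selfcent {S : Type*} [Group S] [Finite S] (B : Subgroup S)
    (hB : B ∈ Cfsg.maxAbelianSubgroups S) (c : S) (hc : ∀ b ∈ B, c * b = b * c) : c ∈ B := by
  have hBc : ∀ a ∈ B, ∀ b ∈ B, a * b = b * a := fun a ha b hb =>
    congrArg Subtype.val (hB.1.is_comm.comm ⟨a, ha⟩ ⟨b, hb⟩)
  have hcomm := Helper1.comm_of_mem_sup (A := B) (Z := Subgroup.zpowers c) hBc
    (by
      rintro a ha z ⟨k, rfl⟩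
      exact ((show Commute a c from (hc a ha).symm).zpow_right k).eq)
    (by
      rintro z ⟨k, rfl⟩ w ⟨l, rfl⟩
      exact ((Commute.refl c).zpow_zpow k l).eq)
  have h1 := hB.2 _ (Helper1.isMulCommutative_of_comm hcomm)
  have h2 : B = B ⊔ Subgroup.zpowers c := Subgroup.eq_of_le_of_card_ge le_sup_left h1
  rw [h2]
  exact (le_sup_right : Subgroup.zpowers c ≤ _) (Subgroup.mem_zpowers c)

theorem replacement {S : Type*} [Group S] [Finite S] (hmeta : IsMulCommutative ↥(commutator S))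
    (B : Subgroup S) (hB : B ∈ Cfsg.maxAbelianSubgroups S) (x : S)
    (H1 : ∀ a ∈ B, ∀ b ∈ B, (x * b * x⁻¹ * b⁻¹)⁻¹ * a * (x * b * x⁻¹ * b⁻¹) * a⁻¹ ∈ B)
    (H2 : ∀ a ∈ B ⊓ commutator S, x * a * x⁻¹ * a⁻¹ ∈ B) :
    ∃ Bs ∈ Cfsg.maxAbelianSubgroups S, Bs ≤ B ⊔ B.map (MulAut.conj x).toMonoidHom ∧
      B ⊓ commutator S ≤ Bs ∧ ∀ a ∈ B, x * a * x⁻¹ * a⁻¹ ∈ Bs := by
  classical
  have hDn : (commutator S).Normal := inferInstance
  have hDc : ∀ a ∈ commutator S, ∀ b ∈ commutator S, a * b = b * a := fun a ha b hb =>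
    congrArg Subtype.val (hmeta.is_comm.comm ⟨a, ha⟩ ⟨b, hb⟩)
  have hBc : ∀ a ∈ B, ∀ b ∈ B, a * b = b * a := fun a ha b hb =>
    congrArg Subtype.val (hB.1.is_comm.comm ⟨a, ha⟩ ⟨b, hb⟩)
  have hδD : ∀ a : S, x * a * x⁻¹ * a⁻¹ ∈ commutator S := comm_mem_commutator x
  obtain ⟨Mt, hMt⟩ : ∃ Mt : Subgroup S, Mt =
      Subgroup.closure {y | ∃ a ∈ B, y = x * a * x⁻¹ * a⁻¹} ⊔ (B ⊓ commutator S) := ⟨_, rfl⟩
  have hδM : ∀ a ∈ B, x * a * x⁻¹ * a⁻¹ ∈ Mt := by
    intro a ha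
    rw [hMt]
    exact (le_sup_left : Subgroup.closure _ ≤ _) (Subgroup.subset_closure ⟨a, ha, rfl⟩)
  have hNM : B ⊓ commutator S ≤ Mt := by rw [hMt]; exact le_sup_right
  have hMD : Mt ≤ commutator S := by
    rw [hMt]
    apply sup_le
    · rw [Subgroup.closure_le]
      rintro _ ⟨a, -, rfl⟩
      exact hδD a
    · exact inf_le_right
  obtain ⟨K, hK⟩ : ∃ K : Subgroup S, K = B ⊓ Subgroup.centralizer (Mt : Set S) := ⟨_, rfl⟩
  have hKB : K ≤ B := by rw [hK]; exact inf_le_left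
  have hKM : ∀ m ∈ Mt, ∀ k ∈ K, m * k = k * m := by
    intro m hm k hk
    rw [hK] at hk
    exact Subgroup.mem_centralizer_iff.mp hk.2 m hm
  -- (c)
  have hc : ∀ a ∈ B, ∀ b ∈ B, ∃ c ∈ B ⊓ commutator S,
      x * (a * b) * x⁻¹ * (a * b)⁻¹ = (x * a * x⁻¹ * a⁻¹) * (x * b * x⁻¹ * b⁻¹) * c := by
    intro a ha b hb
    refine ⟨(x * b * x⁻¹ * b⁻¹)⁻¹ * a * (x * b * x⁻¹ * b⁻¹) * a⁻¹, ⟨H1 a ha b hb, ?_⟩, by group⟩
    have h1 : (x * b * x⁻¹ * b⁻¹)⁻¹ * a * (x * b * x⁻¹ * b⁻¹) * a⁻¹ =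
        (x * b * x⁻¹ * b⁻¹)⁻¹ * (a * (x * b * x⁻¹ * b⁻¹) * a⁻¹) := by group
    rw [h1]
    exact Subgroup.mul_mem _ (Subgroup.inv_mem _ (hδD b)) (hDn.conj_mem _ (hδD b) a)
  -- (★)
  have hstar : ∀ a ∈ B, x * a * x⁻¹ * a⁻¹ ∈ B ⊓ commutator S → a ∈ K := by
    intro a ha hδa
    rw [hK]
    refine ⟨ha, ?_⟩
    have hle : Mt ≤ Subgroup.centralizer ({a} : Set S) := by
      rw [hMt]
      apply sup_le
      · rw [Subgroup.closure_le]
        rintro _ ⟨b, hb, rfl⟩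
        show x * b * x⁻¹ * b⁻¹ ∈ Subgroup.centralizer ({a} : Set S)
        rw [Subgroup.mem_centralizer_singleton_iff]
        -- δ(a b) = δ(a) * (a δ(b) a⁻¹);  δ(b a) = δ(b) * (b δ(a) b⁻¹)
        have e1 : x * (a * b) * x⁻¹ * (a * b)⁻¹ =
            (x * a * x⁻¹ * a⁻¹) * (a * (x * b * x⁻¹ * b⁻¹) * a⁻¹) := by group
        have e2 : x * (b * a) * x⁻¹ * (b * a)⁻¹ =
            (x * b * x⁻¹ * b⁻¹) * (b * (x * a * x⁻¹ * a⁻¹) * b⁻¹) := by group
        have e3 : b * (x * a * x⁻¹ * a⁻¹) * b⁻¹ = x * a * x⁻¹ * a⁻¹ := by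
          rw [hBc b hb _ hδa.1, mul_assoc, mul_inv_cancel, mul_one]
        rw [hBc b hb a ha, e1, e3, hDc _ (hδD b) _ (hδD a)] at e2
        have e4 := mul_left_cancel e2
        -- e4 : a * δ b * a⁻¹ = δ b
        calc x * b * x⁻¹ * b⁻¹ * a = (a * (x * b * x⁻¹ * b⁻¹) * a⁻¹) * a := by rw [e4]
          _ = a * (x * b * x⁻¹ * b⁻¹) := by group
      · intro n hn
        rw [Subgroup.mem_centralizer_singleton_iff]
        exact hBc n hn.1 a ha
    show a ∈ Subgroup.centralizer (Mt : Set S)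
    rw [Subgroup.mem_centralizer_iff]
    intro m hm
    exact Subgroup.mem_centralizer_singleton_iff.mp (hle hm)
  -- abelian
  have hcomm := Helper1.comm_of_mem_sup (A := Mt) (Z := K)
    (fun a ha b hb => hDc a (hMD ha) b (hMD hb)) hKM
    (fun a ha b hb => hBc a (hKB ha) b (hKB hb))
  -- injection
  have hcard : Nat.card B ≤ Nat.card ↥(Mt ⊔ K) := by
    have hrep : ∀ a : B, ∃ r : B, (r : S)⁻¹ * (a : S) ∈ K ∧
        (QuotientGroup.mk r : ↥B ⧸ K.subgroupOf B) = QuotientGroup.mk a ∧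
        ∀ b : B, (QuotientGroup.mk b : ↥B ⧸ K.subgroupOf B) = QuotientGroup.mk a →
          (Quotient.out (QuotientGroup.mk b : ↥B ⧸ K.subgroupOf B)) = r := by
      intro a
      refine ⟨Quotient.out (QuotientGroup.mk a : ↥B ⧸ K.subgroupOf B), ?_, ?_, ?_⟩
      · obtain ⟨h, hh⟩ := QuotientGroup.mk_out_eq_mul (K.subgroupOf B) a
        rw [hh]
        have : ((a * (h : B) : B) : S)⁻¹ * (a : S) = (((h : B)⁻¹ : B) : S) := by
          push_cast; group
        rw [this]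
        exact Subgroup.mem_subgroupOf.mp (Subgroup.inv_mem _ h.2)
      · exact QuotientGroup.out_eq' _
      · intro b hb
        rw [hb]
    choose rep hrepK hrepmk hrepeq using hrep
    have hfmem : ∀ a : B, x * (rep a : S) * x⁻¹ * (rep a : S)⁻¹ * ((rep a : S)⁻¹ * (a : S)) ∈ Mt ⊔ K :=
      fun a => Subgroup.mul_mem _ ((le_sup_left : Mt ≤ Mt ⊔ K) (hδM _ (rep a).2))
        ((le_sup_right : K ≤ Mt ⊔ K) (hrepK a))
    apply Nat.card_le_card_of_injective
      (fun a : B => (⟨x * (rep a : S) * x⁻¹ * (rep a : S)⁻¹ * ((rep a : S)⁻¹ * (a : S)), hfmem a⟩ : ↥(Mt ⊔ K)))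
    intro a b hab
    have hab' : x * (rep a : S) * x⁻¹ * (rep a : S)⁻¹ * ((rep a : S)⁻¹ * (a : S)) =
        x * (rep b : S) * x⁻¹ * (rep b : S)⁻¹ * ((rep b : S)⁻¹ * (b : S)) := congrArg Subtype.val hab
    -- δ(rb)⁻¹ δ(ra) = kb ka⁻¹ ∈ K
    have h1 : (x * (rep b : S) * x⁻¹ * (rep b : S)⁻¹)⁻¹ * (x * (rep a : S) * x⁻¹ * (rep a : S)⁻¹) =
        ((rep b : S)⁻¹ * (b : S)) * ((rep a : S)⁻¹ * (a : S))⁻¹ := by
      rw [inv_mul_eq_iff_eq_mul, ← mul_assoc, ← hab']; group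
    have h2 : (x * (rep b : S) * x⁻¹ * (rep b : S)⁻¹)⁻¹ * (x * (rep a : S) * x⁻¹ * (rep a : S)⁻¹) ∈
        B ⊓ commutator S := by
      refine ⟨?_, Subgroup.mul_mem _ (Subgroup.inv_mem _ (hδD _)) (hδD _)⟩
      rw [h1]
      exact hKB (Subgroup.mul_mem _ (hrepK b) (Subgroup.inv_mem _ (hrepK a)))
    -- δ(ra) = δ(rb) δ(rb⁻¹ ra) c
    obtain ⟨c, hcN, hce⟩ := hc (rep b : S) (rep b).2 ((rep b : S)⁻¹ * (rep a : S))
      (B.mul_mem (B.inv_mem (rep b).2) (rep a).2)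
    rw [mul_inv_cancel_left] at hce
    have h3 : x * ((rep b : S)⁻¹ * (rep a : S)) * x⁻¹ * ((rep b : S)⁻¹ * (rep a : S))⁻¹ =
        (x * (rep b : S) * x⁻¹ * (rep b : S)⁻¹)⁻¹ * (x * (rep a : S) * x⁻¹ * (rep a : S)⁻¹) * c⁻¹ := by
      rw [hce]; group
    have h4 : x * ((rep b : S)⁻¹ * (rep a : S)) * x⁻¹ * ((rep b : S)⁻¹ * (rep a : S))⁻¹ ∈
        B ⊓ commutator S := by
      rw [h3]
      exact Subgroup.mul_mem _ h2 (Subgroup.inv_mem _ hcN)
    have h5 := hstar _ (B.mul_mem (B.inv_mem (rep b).2) (rep a).2) h4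
    have h6 : (QuotientGroup.mk (rep b) : ↥B ⧸ K.subgroupOf B) = QuotientGroup.mk (rep a) := by
      rw [QuotientGroup.eq, Subgroup.mem_subgroupOf]
      exact h5
    have h7 : rep a = rep b := by
      have e1 := hrepeq a b (by rw [← hrepmk b, h6, hrepmk a])
      have e2 := hrepeq b b rfl
      rw [← e1, e2]
    rw [h7] at hab'
    have h8 : (a : S) = (b : S) := mul_left_cancel (mul_left_cancel hab')
    exact Subtype.ext h8
  refine ⟨Mt ⊔ K, ⟨Helper1.isMulCommutative_of_comm hcomm, ?_⟩, ?_, ?_, ?_⟩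
  · intro C hC
    exact (hB.2 C hC).trans hcard
  · apply sup_le
    · rw [hMt]
      apply sup_le
      · rw [Subgroup.closure_le]
        rintro _ ⟨a, ha, rfl⟩
        exact Subgroup.mul_mem _ ((le_sup_right : B.map (MulAut.conj x).toMonoidHom ≤ _) ⟨a, ha, rfl⟩)
          ((le_sup_left : B ≤ _) (B.inv_mem ha))
      · exact inf_le_left.trans le_sup_left
    · exact hKB.trans le_sup_left
  · exact hNM.trans le_sup_left
  · intro a ha
    exact (le_sup_left : Mt ≤ Mt ⊔ K) (hδM a ha)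

/-- A weak replacement Theorem for metabelian p-groups: let S be a finite p-group whose derived subgroup is abelian and A an abelian subgroup of S of largest possible order. Then the normal closure of A in S contains an abelian subgroup B of the same order as A that is normal in S. -/
theorem result {S : Type*} [Group S] [Finite S] {p : ℕ} [Fact p.Prime]
    (hS : IsPGroup p S) (hmeta : IsMulCommutative ↥(commutator S))
    (A : Subgroup S) (hA : A ∈ Cfsg.maxAbelianSubgroups S) :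
    ∃ B ∈ Cfsg.maxAbelianSubgroups S, B.Normal ∧ B ≤ Subgroup.normalClosure (A : Set S) := by
  classical
  have hDn : (commutator S).Normal := inferInstance
  have hDc : ∀ a ∈ commutator S, ∀ b ∈ commutator S, a * b = b * a := fun a ha b hb =>
    congrArg Subtype.val (hmeta.is_comm.comm ⟨a, ha⟩ ⟨b, hb⟩)
  have hMn : (Subgroup.normalClosure (A : Set S)).Normal := Subgroup.normalClosure_normal
  -- choose B
  obtain ⟨B, ⟨hBA, hBM⟩, hmax⟩ := Set.exists_max_image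
    {B : Subgroup S | B ∈ Cfsg.maxAbelianSubgroups S ∧ B ≤ Subgroup.normalClosure (A : Set S)}
    (fun B => Nat.card ↥(B ⊓ commutator S)) (Set.toFinite _)
    ⟨A, hA, Subgroup.subset_normalClosure⟩
  have hBc : ∀ a ∈ B, ∀ b ∈ B, a * b = b * a := fun a ha b hb =>
    congrArg Subtype.val (hBA.1.is_comm.comm ⟨a, ha⟩ ⟨b, hb⟩)
  have key : ∀ x : S,
      (∀ a ∈ B, ∀ b ∈ B, (x * b * x⁻¹ * b⁻¹)⁻¹ * a * (x * b * x⁻¹ * b⁻¹) * a⁻¹ ∈ B) →
      (∀ a ∈ B ⊓ commutator S, x * a * x⁻¹ * a⁻¹ ∈ B) →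
      x ∈ Subgroup.normalizer (B : Set S) := by
    intro x H1 H2
    obtain ⟨Bs, hBs, hle, hN, hδ⟩ := replacement hmeta B hBA x H1 H2
    have hBsM : Bs ≤ Subgroup.normalClosure (A : Set S) := by
      refine hle.trans (sup_le hBM ?_)
      rintro _ ⟨b, hb, rfl⟩
      exact hMn.conj_mem b (hBM hb) x
    have h1 := hmax Bs ⟨hBs, hBsM⟩
    have h2 : B ⊓ commutator S = Bs ⊓ commutator S :=
      Subgroup.eq_of_le_of_card_ge (le_inf hN inf_le_right) h1
    apply Helper1.mem_normalizer_of_conj_le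
    intro a ha
    have h3 : x * a * x⁻¹ * a⁻¹ ∈ B ⊓ commutator S := by
      rw [h2]; exact ⟨hδ a ha, comm_mem_commutator x a⟩
    have h4 : x * a * x⁻¹ = (x * a * x⁻¹ * a⁻¹) * a := by group
    rw [h4]
    exact B.mul_mem h3.1 ha
  have hH1 : ∀ x : S, (∀ b ∈ B, x * b * x⁻¹ * b⁻¹ ∈ Subgroup.normalizer (B : Set S)) →
      ∀ a ∈ B, ∀ b ∈ B, (x * b * x⁻¹ * b⁻¹)⁻¹ * a * (x * b * x⁻¹ * b⁻¹) * a⁻¹ ∈ B := by
    intro x hx a ha b hb
    have h1 := Subgroup.inv_mem _ (hx b hb)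
    have h2 := (Subgroup.mem_normalizer_iff.mp h1 a).mp ha
    rw [inv_inv] at h2
    exact B.mul_mem h2 (B.inv_mem ha)
  -- Step 1
  have hDN : commutator S ≤ Subgroup.normalizer (B : Set S) := by
    by_contra hcon
    have hlt : Subgroup.normalizer (B : Set S) ⊓ (B ⊔ commutator S) < B ⊔ commutator S := by
      refine lt_of_le_of_ne inf_le_right ?_
      intro h
      apply hcon
      have h1 : commutator S ≤ Subgroup.normalizer (B : Set S) ⊓ (B ⊔ commutator S) := by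
        rw [h]; exact le_sup_right
      exact h1.trans inf_le_left
    obtain ⟨z, hzQ, hzP, hzN⟩ := Helper1.exists_normalizing_of_lt (hS.to_subgroup _) hlt
    have hzQ' : z ∈ ((B ⊔ commutator S : Subgroup S) : Set S) := hzQ
    rw [Subgroup.mul_normal] at hzQ'
    obtain ⟨b₀, hb₀, d, hd, rfl⟩ := Set.mem_mul.mp hzQ'
    have hBP : B ≤ Subgroup.normalizer (B : Set S) ⊓ (B ⊔ commutator S) :=
      le_inf Subgroup.le_normalizer le_sup_left
    have hdP : d ∉ Subgroup.normalizer (B : Set S) ⊓ (B ⊔ commutator S) := by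
      intro h
      exact hzP (Subgroup.mul_mem _ (hBP hb₀) h)
    have hdN : d ∈ Subgroup.normalizer
        ((Subgroup.normalizer (B : Set S) ⊓ (B ⊔ commutator S) : Subgroup S) : Set S) := by
      have h1 : d = b₀⁻¹ * (b₀ * d) := by group
      rw [h1]
      exact Subgroup.mul_mem _ (Subgroup.inv_mem _ (Subgroup.le_normalizer (hBP hb₀))) hzN
    apply hdP
    refine ⟨key d (hH1 d ?_) ?_, (le_sup_right : commutator S ≤ _) hd⟩
    · intro b hb
      have h1 := (Subgroup.mem_normalizer_iff.mp hdN b).mp (hBP hb)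
      have h2 := Subgroup.mul_mem _ h1 (Subgroup.inv_mem _ (hBP hb))
      exact h2.1
    · intro a ha
      have h1 : d * a * d⁻¹ * a⁻¹ = 1 := by
        rw [hDc d hd a ha.2]; group
      rw [h1]; exact B.one_mem
  -- Step 2
  have hall : ∀ x : S, x ∈ Subgroup.normalizer (B : Set S) := by
    intro x
    refine key x (hH1 x (fun b _ => hDN (comm_mem_commutator x b))) ?_
    intro a ha
    have h1 : x * a * x⁻¹ ∈ B := by
      apply selfcent B hBA
      intro b hb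
      obtain ⟨d', hd'⟩ : ∃ d' : S, d' = x⁻¹ * b * x * b⁻¹ := ⟨_, rfl⟩
      have hd : d' ∈ commutator S := by
        have := comm_mem_commutator x⁻¹ b
        rw [inv_inv] at this
        rw [hd']; exact this
      have e1 : x⁻¹ * b * x = d' * b := by rw [hd']; group
      have e2 : a * (x⁻¹ * b * x) = (x⁻¹ * b * x) * a := by
        rw [e1, ← mul_assoc, hDc a ha.2 d' hd, mul_assoc, hBc a ha.1 b hb, mul_assoc]
      calc x * a * x⁻¹ * b = x * (a * (x⁻¹ * b * x)) * x⁻¹ := by group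
        _ = x * ((x⁻¹ * b * x) * a) * x⁻¹ := by rw [e2]
        _ = b * (x * a * x⁻¹) := by group
    exact B.mul_mem h1 (B.inv_mem ha.1)
  have hBn : B.Normal := by
    rw [← Subgroup.normalizer_eq_top_iff, eq_top_iff]
    intro x _
    exact hall x
  exact ⟨B, hBA, hBn, hBM⟩

end Cfsg.Agent.S3063
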