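import Cfsg.Statements.S3064
import Mathlib
import Cfsg.Agent.Lib.Helper5.ChermakDelgado
import Cfsg.Agent.Lib.Helper5.SylowChain
import Cfsg.Agent.Lib.Lead.Frob5

set_option autoImplicit false
open Cfsg Cfsg.Agent.Lib.Helper5

namespace Cfsg.Agent.S3064

universe u

theorem pow_card_subgroup_eq_one {G : Type*} [Group G] (H : Subgroup G) {h : G} (hh : h ∈ H) :
    h ^ Nat.card H = 1 := by
  have h2 : (⟨h, hh⟩ : ↥H) ^ Nat.card ↥H = 1 := pow_card_eq_one'
  have h3 := congrArg Subtype.val h2
  rwa [Subgroup.coe_pow, Subgroup.coe_one] at h3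

/-- in a minimal situation, the element `x` is central in every proper subgroup containing it -/
theorem key_sub {G : Type u} [Group G] [Finite G] {p : ℕ} [Fact p.Prime]
    (IH : ∀ (G' : Type u) [Group G'] [Finite G'] (S' : Sylow p G') (x' : G'),
      Nat.card G' < Nat.card G → x' ∈ S' →
      (∀ g : G', g⁻¹ * x' * g ∈ S' → g⁻¹ * x' * g = x') →
      (∀ H : Subgroup G', (Nat.card H).Coprime p → (∀ h ∈ H, x' * h * x'⁻¹ ∈ H) →
        ∀ h ∈ H, x' * h = h * x') → x' ∈ Subgroup.center G')
    (S : Sylow p G) (x : G) (hx : x ∈ S)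
    (hU : ∀ g : G, g⁻¹ * x * g ∈ S → g⁻¹ * x * g = x)
    (hb : ∀ H : Subgroup G, (Nat.card H).Coprime p → (∀ h ∈ H, x * h * x⁻¹ ∈ H) →
      ∀ h ∈ H, x * h = h * x)
    (M : Subgroup G) (hM : M ≠ ⊤) (hxM : x ∈ M) : ∀ m ∈ M, m * x = x * m := by
  have hpp : p.Prime := Fact.out
  have hcard : Nat.card ↥M < Nat.card G :=
    lt_of_le_of_ne (Subgroup.card_le_card_group M) (fun h => hM ((Subgroup.card_eq_iff_eq_top M).mp h))
  obtain ⟨k, hk⟩ := S.isPGroup' ⟨x, hx⟩
  have hxk : x ^ p ^ k = 1 := by simpa using congrArg Subtype.val hk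
  have ho : orderOf (⟨x, hxM⟩ : ↥M) = orderOf x := (Subgroup.orderOf_coe (⟨x, hxM⟩ : ↥M)).symm
  obtain ⟨j, -, hj⟩ := (Nat.dvd_prime_pow hpp).mp (orderOf_dvd_of_pow_eq_one hxk)
  have hzp : IsPGroup p ↥(Subgroup.zpowers (⟨x, hxM⟩ : ↥M)) :=
    IsPGroup.of_card (n := j) (by rw [Nat.card_zpowers, ho, hj])
  obtain ⟨SM, hSM⟩ := hzp.exists_le_sylow
  have hxSM : (⟨x, hxM⟩ : ↥M) ∈ SM := hSM (Subgroup.mem_zpowers _)
  have hSMp : IsPGroup p ↥((SM : Subgroup ↥M).map M.subtype) := SM.isPGroup'.map _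
  obtain ⟨Q, hQ⟩ := hSMp.exists_le_sylow
  obtain ⟨c, hc⟩ := MulAction.exists_smul_eq G S Q
  have hmemQ : ∀ y : G, y ∈ Q → c⁻¹ * y * c ∈ S := by
    intro y hy
    rw [← hc] at hy
    exact (mem_sylow_smul_iff c y S).mp hy
  have hxc : c⁻¹ * x * c = x := hU c (hmemQ x (hQ ⟨⟨x, hxM⟩, hxSM, rfl⟩))
  have hcxc : c * x * c⁻¹ = x := by
    have h6 : c * x * c⁻¹ = c * (c⁻¹ * x * c) * c⁻¹ := by rw [hxc]
    rw [h6]; group
  have hcen := IH ↥M SM ⟨x, hxM⟩ hcard hxSM
    (by
      intro m hmS
      have h1 : ((m⁻¹ * ⟨x, hxM⟩ * m : ↥M) : G) ∈ Q := hQ ⟨_, hmS, rfl⟩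
      have h2 := hmemQ _ h1
      have h3 : c⁻¹ * ((m⁻¹ * ⟨x, hxM⟩ * m : ↥M) : G) * c =
          ((m : G) * c)⁻¹ * x * ((m : G) * c) := by
        simp only [Subgroup.coe_mul, Subgroup.coe_inv]
        group
      rw [h3] at h2
      have h4 := hU _ h2
      apply Subtype.ext
      have h5 : ((m⁻¹ * ⟨x, hxM⟩ * m : ↥M) : G) =
          c * (((m : G) * c)⁻¹ * x * ((m : G) * c)) * c⁻¹ := by
        simp only [Subgroup.coe_mul, Subgroup.coe_inv]; group
      rw [h5, h4]
      exact hcxc)
    (by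
      intro H' hH' hinv h hh
      have h1 := hb (H'.map M.subtype)
        (by rw [Subgroup.card_map_of_injective (Subgroup.subtype_injective M)]; exact hH')
        (by
          rintro _ ⟨h', hh', rfl⟩
          exact ⟨_, hinv h' hh', rfl⟩) (h : G) ⟨h, hh, rfl⟩
      exact Subtype.ext h1)
  intro m hm
  have h7 := Subgroup.mem_center_iff.mp hcen ⟨m, hm⟩
  exact congrArg Subtype.val h7

theorem main (p : ℕ) [Fact p.Prime] : ∀ (n : ℕ) (G : Type u) [Group G] [Finite G] (S : Sylow p G)
    (x : G), Nat.card G = n → x ∈ S →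
    (∀ g : G, g⁻¹ * x * g ∈ S → g⁻¹ * x * g = x) →
    (∀ H : Subgroup G, (Nat.card H).Coprime p → (∀ h ∈ H, x * h * x⁻¹ ∈ H) →
      ∀ h ∈ H, x * h = h * x) → x ∈ Subgroup.center G := by
  intro n
  induction n using Nat.strong_induction_on with
  | _ n ih =>
    intro G _ _ S x hn hx hU hb
    have hpp : p.Prime := Fact.out
    by_contra hxZ
    have IH : ∀ (G' : Type u) [Group G'] [Finite G'] (S' : Sylow p G') (x' : G'),
        Nat.card G' < Nat.card G → x' ∈ S' →
        (∀ g : G', g⁻¹ * x' * g ∈ S' → g⁻¹ * x' * g = x') →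
        (∀ H : Subgroup G', (Nat.card H).Coprime p → (∀ h ∈ H, x' * h * x'⁻¹ ∈ H) →
          ∀ h ∈ H, x' * h = h * x') → x' ∈ Subgroup.center G' := by
      intro G' _ _ S' x' hlt hx' hU' hb'
      exact ih (Nat.card G') (hn ▸ hlt) G' S' x' rfl hx' hU' hb'
    have hsub := key_sub IH S x hx hU hb
    obtain ⟨C, hCdef⟩ : ∃ C : Subgroup G, C = Subgroup.centralizer ({x} : Set G) := ⟨_, rfl⟩
    have hCmem : ∀ g : G, g ∈ C ↔ x * g = g * x := by
      intro g; rw [hCdef, Subgroup.mem_centralizer_iff]; simp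
    have hxC : x ∈ C := (hCmem x).mpr rfl
    have hCtop : C ≠ ⊤ := by
      intro h
      apply hxZ
      rw [Subgroup.mem_center_iff]
      intro g
      have h1 : g ∈ C := by rw [h]; exact Subgroup.mem_top g
      exact ((hCmem g).mp h1).symm
    have hgen : ∀ g : G, g ∉ C → Subgroup.closure ({x, g * x * g⁻¹} : Set G) = ⊤ := by
      intro g hg
      by_contra hne
      have hxM : x ∈ Subgroup.closure ({x, g * x * g⁻¹} : Set G) :=
        Subgroup.subset_closure (by simp)
      have hyM : g * x * g⁻¹ ∈ Subgroup.closure ({x, g * x * g⁻¹} : Set G) :=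
        Subgroup.subset_closure (by simp)
      have hcomm : g * x * g⁻¹ * x = x * (g * x * g⁻¹) := hsub _ hne hxM _ hyM
      have hxp : IsPGroup p ↥(Subgroup.zpowers x) :=
        S.isPGroup'.to_le (Subgroup.zpowers_le.mpr hx)
      have hyp : IsPGroup p ↥(Subgroup.zpowers (g * x * g⁻¹)) := by
        have h1 : Subgroup.zpowers (g * x * g⁻¹) =
            (Subgroup.zpowers x).map (MulAut.conj g).toMonoidHom := by
          rw [MonoidHom.map_zpowers]; rfl
        rw [h1]; exact hxp.map _
      have hnorm : Subgroup.zpowers x ≤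
          Subgroup.normalizer ((Subgroup.zpowers (g * x * g⁻¹) : Subgroup G) : Set G) := by
        rw [Subgroup.zpowers_le]
        apply Subgroup.centralizer_le_normalizer
        rw [Subgroup.mem_centralizer_iff]
        intro h hh
        obtain ⟨i, rfl⟩ := Subgroup.mem_zpowers_iff.mp hh
        exact (Commute.zpow_left (show Commute (g * x * g⁻¹) x from hcomm) i).eq
      have hAp : IsPGroup p ↥(Subgroup.zpowers x ⊔ Subgroup.zpowers (g * x * g⁻¹)) :=
        IsPGroup.to_sup_of_normal_right' hxp hyp hnorm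
      obtain ⟨Q, hQ⟩ := hAp.exists_le_sylow
      obtain ⟨c, hc⟩ := MulAction.exists_smul_eq G S Q
      have hmemQ : ∀ y : G, y ∈ Q → c⁻¹ * y * c ∈ S := by
        intro y hy
        rw [← hc] at hy
        exact (mem_sylow_smul_iff c y S).mp hy
      have h1 := hU c (hmemQ x (hQ (Subgroup.mem_sup_left (Subgroup.mem_zpowers x))))
      have h2 := hmemQ _ (hQ (Subgroup.mem_sup_right (Subgroup.mem_zpowers (g * x * g⁻¹))))
      have e : c⁻¹ * (g * x * g⁻¹) * c = (g⁻¹ * c)⁻¹ * x * (g⁻¹ * c) := by group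
      rw [e] at h2
      have h3 := hU _ h2
      apply hg
      rw [hCmem]
      have h4 : g * x * g⁻¹ = c * ((g⁻¹ * c)⁻¹ * x * (g⁻¹ * c)) * c⁻¹ := by group
      rw [h3] at h4
      have h5 : c * x * c⁻¹ = x := by
        have h6 : c * x * c⁻¹ = c * (c⁻¹ * x * c) * c⁻¹ := by rw [h1]
        rw [h6]; group
      rw [h5] at h4
      have h7 : g * x = g * x * g⁻¹ * g := by group
      rw [h7, h4]
    have hZC : Subgroup.center G ≤ C := by
      intro z hz
      rw [hCmem]
      exact (Subgroup.mem_center_iff.mp hz x)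
    have hSC : (S : Subgroup G) ≤ C := by
      by_cases hS : (S : Subgroup G) = ⊤
      · exfalso; apply hxZ
        rw [Subgroup.mem_center_iff]
        intro g
        have h0 : g⁻¹ * x * g ∈ (S : Subgroup G) := by rw [hS]; exact Subgroup.mem_top _
        have h1 := hU g h0
        have h2 : x * g = g * (g⁻¹ * x * g) := by group
        rw [h2, h1]
      · intro s hs
        rw [hCmem]
        exact (hsub _ hS hx s hs).symm
    obtain ⟨Cb, hCb⟩ : ∃ Cb : Subgroup (G ⧸ Subgroup.center G),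
        Cb = C.map (QuotientGroup.mk' (Subgroup.center G)) := ⟨_, rfl⟩
    have hCbmem : ∀ g : G, (QuotientGroup.mk' (Subgroup.center G) g) ∈ Cb ↔ g ∈ C := by
      intro g
      rw [hCb]
      constructor
      · rintro ⟨c, hc, hcg⟩
        rw [QuotientGroup.mk'_apply, QuotientGroup.mk'_apply, QuotientGroup.eq] at hcg
        have h1 : g = c * (c⁻¹ * g) := by group
        rw [h1]; exact mul_mem hc (hZC hcg)
      · intro hg; exact ⟨g, hg, rfl⟩
    have hFrob : Cfsg.IsFrobeniusComplement Cb := by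
      refine ⟨?_, ?_, ?_⟩
      · intro h
        have h1 : (QuotientGroup.mk' (Subgroup.center G) x) ∈ Cb := (hCbmem x).mpr hxC
        rw [h, Subgroup.mem_bot, QuotientGroup.mk'_apply, QuotientGroup.eq_one_iff] at h1
        exact hxZ h1
      · intro h
        apply hCtop
        rw [eq_top_iff]
        intro g _
        rw [← hCbmem, h]; exact Subgroup.mem_top _
      · intro gb hgb
        obtain ⟨g, rfl⟩ := QuotientGroup.mk'_surjective (Subgroup.center G) gb
        rw [hCbmem] at hgb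
        rw [eq_bot_iff]
        rintro yb ⟨hy1, hy2⟩
        obtain ⟨y, rfl⟩ := QuotientGroup.mk'_surjective (Subgroup.center G) yb
        have hy1' : (QuotientGroup.mk' (Subgroup.center G) y) ∈ Cb := hy1
        rw [hCbmem] at hy1'
        have hy2' : (QuotientGroup.mk' (Subgroup.center G) g)⁻¹ *
            (QuotientGroup.mk' (Subgroup.center G) y) *
            (QuotientGroup.mk' (Subgroup.center G) g) ∈ Cb :=
          (mem_conj_smul_iff _ _ _).mp hy2
        rw [← map_inv, ← map_mul, ← map_mul, hCbmem] at hy2'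
        rw [Subgroup.mem_bot, QuotientGroup.mk'_apply, QuotientGroup.eq_one_iff]
        have hcl := hgen g hgb
        have hle : Subgroup.closure ({x, g * x * g⁻¹} : Set G) ≤ Subgroup.centralizer {y} := by
          rw [Subgroup.closure_le]
          intro w hw
          rw [SetLike.mem_coe, Subgroup.mem_centralizer_iff]
          intro y' hy'
          rw [Set.mem_singleton_iff] at hy'
          rw [hy']
          rcases hw with hw | hw
          · rw [hw]; exact ((hCmem y).mp hy1').symm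
          · rw [Set.mem_singleton_iff] at hw
            rw [hw]
            have h1 := (hCmem _).mp hy2'
            have e1 : y * (g * x * g⁻¹) = g * ((g⁻¹ * y * g) * x) * g⁻¹ := by group
            have e2 : g * x * g⁻¹ * y = g * (x * (g⁻¹ * y * g)) * g⁻¹ := by group
            rw [e1, e2, h1]
        rw [hcl] at hle
        rw [Subgroup.mem_center_iff]
        intro w
        have h8 := Subgroup.mem_centralizer_iff.mp (hle (Subgroup.mem_top w)) y rfl
        exact h8.symm
    obtain ⟨Nb, hNbK, hNbn, hNbC⟩ := Cfsg.Agent.Lib.Lead.frobenius_kernel_subgroup Cb hFrob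
    obtain ⟨N, hNdef⟩ : ∃ N : Subgroup G,
        N = Nb.comap (QuotientGroup.mk' (Subgroup.center G)) := ⟨_, rfl⟩
    have hNmem : ∀ g : G, g ∈ N ↔ QuotientGroup.mk' (Subgroup.center G) g ∈ Nb := by
      intro g; rw [hNdef, Subgroup.mem_comap]
    have hNn : N.Normal := by rw [hNdef]; exact hNbn.comap _
    have hNbcop : (Nat.card Nb).Coprime p := by
      have h1 : Cb.index = Nat.card Nb := hNbC.index_eq_card
      rw [← h1]
      have h2 : Cb.index = C.index := by
        rw [hCb]
        exact Subgroup.index_map_eq C (QuotientGroup.mk'_surjective _)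
          (by rw [QuotientGroup.ker_mk']; exact hZC)
      rw [h2]
      apply Nat.Coprime.symm
      rw [Nat.Prime.coprime_iff_not_dvd hpp]
      intro hdvd
      exact S.not_dvd_index (dvd_trans hdvd (Subgroup.index_dvd_of_le hSC))
    obtain ⟨PN⟩ : Nonempty (Sylow p ↥N) := inferInstance
    have hPNc : ∀ y : ↥N, y ∈ PN → (y : G) ∈ Subgroup.center G := by
      intro y hy
      obtain ⟨j, hj⟩ := PN.isPGroup' ⟨y, hy⟩
      have hj' : (y : G) ^ p ^ j = 1 := by
        have h1 := congrArg Subtype.val (congrArg Subtype.val hj)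
        simpa using h1
      have hyN : QuotientGroup.mk' (Subgroup.center G) (y : G) ∈ Nb := (hNmem _).mp y.2
      have h1 : (QuotientGroup.mk' (Subgroup.center G) (y : G)) ^ Nat.card Nb = 1 :=
        pow_card_subgroup_eq_one Nb hyN
      have h2 : (QuotientGroup.mk' (Subgroup.center G) (y : G)) ^ p ^ j = 1 := by
        rw [← map_pow, hj', map_one]
      have h3 : (QuotientGroup.mk' (Subgroup.center G) (y : G)) ^ Nat.gcd (Nat.card Nb) (p ^ j)
          = 1 := pow_gcd_eq_one.mpr ⟨h1, h2⟩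
      rw [Nat.Coprime.gcd_eq_one (Nat.Coprime.pow_right j hNbcop), pow_one,
        QuotientGroup.mk'_apply, QuotientGroup.eq_one_iff] at h3
      exact h3
    haveI hPNn : (PN : Subgroup ↥N).Normal := by
      constructor
      intro y hy n
      have h1 := hPNc y hy
      have h2 : n * y * n⁻¹ = y := by
        apply Subtype.ext
        have h3 := Subgroup.mem_center_iff.mp h1 (n : G)
        simp only [Subgroup.coe_mul, Subgroup.coe_inv]
        rw [h3]; group
      rw [h2]; exact hy
    have hcop : Nat.Coprime (Nat.card (PN : Subgroup ↥N)) (PN : Subgroup ↥N).index :=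
      PN.card_coprime_index
    obtain ⟨K₁, hK₁⟩ := Subgroup.exists_right_complement'_of_coprime hcop
    have hK₁card : (Nat.card K₁).Coprime p := by
      have h1 : (PN : Subgroup ↥N).index = Nat.card K₁ := hK₁.symm.index_eq_card
      rw [← h1]
      exact Nat.Coprime.symm ((Nat.Prime.coprime_iff_not_dvd hpp).mpr PN.not_dvd_index)
    have hKpow : ∀ k : ↥N, k ∈ K₁ → (k : G) ^ Nat.card K₁ = 1 := by
      intro k hk
      have h2 : k ^ Nat.card ↥K₁ = 1 := pow_card_subgroup_eq_one K₁ hk
      have h3 := congrArg Subtype.val h2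
      rwa [Subgroup.coe_pow, Subgroup.coe_one] at h3
    have hinv : ∀ h ∈ K₁.map N.subtype, x * h * x⁻¹ ∈ K₁.map N.subtype := by
      rintro _ ⟨k, hk, rfl⟩
      show x * (k : G) * x⁻¹ ∈ Subgroup.map N.subtype K₁
      have hxk : x * (k : G) * x⁻¹ ∈ N := hNn.conj_mem _ k.2 x
      obtain ⟨⟨y, k'⟩, hyk, -⟩ := hK₁.existsUnique (⟨x * (k : G) * x⁻¹, hxk⟩ : ↥N)
      have hyk' : ((y : ↥N) : G) * ((k' : ↥N) : G) = x * (k : G) * x⁻¹ := by
        have h1 := congrArg Subtype.val hyk
        simpa using h1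
      have hyc : ((y : ↥N) : G) ∈ Subgroup.center G := hPNc y.1 y.2
      have hkm : (k : G) ^ Nat.card K₁ = 1 := hKpow k hk
      have hk'm : ((k' : ↥N) : G) ^ Nat.card K₁ = 1 := hKpow k'.1 k'.2
      have h1 : (x * (k : G) * x⁻¹) ^ Nat.card K₁ = 1 := by rw [conj_pow, hkm]; group
      rw [← hyk'] at h1
      have hcomm : Commute ((y : ↥N) : G) ((k' : ↥N) : G) :=
        (Subgroup.mem_center_iff.mp hyc _).symm
      rw [hcomm.mul_pow, hk'm, mul_one] at h1
      obtain ⟨j, hj⟩ := PN.isPGroup' ⟨y.1, y.2⟩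
      have hj' : ((y : ↥N) : G) ^ p ^ j = 1 := by
        have h2 := congrArg Subtype.val (congrArg Subtype.val hj)
        simpa using h2
      have h3 : ((y : ↥N) : G) ^ Nat.gcd (Nat.card K₁) (p ^ j) = 1 :=
        pow_gcd_eq_one.mpr ⟨h1, hj'⟩
      rw [Nat.Coprime.gcd_eq_one (Nat.Coprime.pow_right j hK₁card), pow_one] at h3
      rw [h3, one_mul] at hyk'
      rw [← hyk']
      exact ⟨k'.1, k'.2, rfl⟩
    have hcentK := hb (K₁.map N.subtype)
      (by rw [Subgroup.card_map_of_injective (Subgroup.subtype_injective N)]; exact hK₁card) hinv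
    have hNC : N ≤ C := by
      intro n hn
      obtain ⟨⟨y, k⟩, hyk, -⟩ := hK₁.existsUnique (⟨n, hn⟩ : ↥N)
      have hyk' : ((y : ↥N) : G) * ((k : ↥N) : G) = n := by
        have h1 := congrArg Subtype.val hyk
        simpa using h1
      rw [hCmem, ← hyk']
      have hyc : ((y : ↥N) : G) ∈ Subgroup.center G := hPNc y.1 y.2
      have h1 := Subgroup.mem_center_iff.mp hyc x
      have h2 := hcentK ((k : ↥N) : G) ⟨k.1, k.2, rfl⟩
      rw [← mul_assoc, h1, mul_assoc, h2, mul_assoc]
    have hNbCb : Nb ≤ Cb := by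
      intro yb hyb
      obtain ⟨y, rfl⟩ := QuotientGroup.mk'_surjective (Subgroup.center G) yb
      rw [hCbmem]; exact hNC ((hNmem y).mpr hyb)
    have hNbbot : Nb = ⊥ := by
      have hd := hNbC.disjoint
      rw [eq_bot_iff]
      exact hd le_rfl hNbCb
    have hCbtop : Cb = ⊤ := by
      have h1 : Cb.index = Nat.card Nb := hNbC.index_eq_card
      rw [hNbbot, Subgroup.card_bot] at h1
      exact Subgroup.index_eq_one.mp h1
    exact hFrob.2.1 hCbtop

/-- Let S be a Sylow p-subgroup of the finite group G and x an element of S such that (i) x is the only G-conjugate of x lying in S, and (ii) x centralizes every subgroup of order prime to p that it normalizes. Then x lies in the centre of G. -/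
theorem result {G : Type*} [Group G] [Finite G] {p : ℕ} [Fact p.Prime]
    (S : Sylow p G) (x : G) (hx : x ∈ S)
    (hU : ∀ g : G, g⁻¹ * x * g ∈ S → g⁻¹ * x * g = x)
    (hb : ∀ H : Subgroup G, (Nat.card H).Coprime p → (∀ h ∈ H, x * h * x⁻¹ ∈ H) → ∀ h ∈ H, x * h = h * x) :
    x ∈ Subgroup.center G := by
  exact main p (Nat.card G) G S x rfl hx hU hb

end Cfsg.Agent.S3064
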