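import Cfsg.Statements.S3075
import Mathlib

set_option autoImplicit false
open Cfsg

namespace Cfsg.Agent.S3075

theorem neg_one_ne_one_of_card {F : Type*} [Field F] [Fintype F] {p : ℕ} (hpp : p.Prime) (hp : p ≠ 2)
    (hF : Fintype.card F = p) : (-1 : F) ≠ 1 := by
  intro h
  have h2 : (1 : F) + 1 = 0 := by
    nth_rewrite 1 [← h]; ring
  have hd : addOrderOf (1 : F) ∣ 2 := by
    apply addOrderOf_dvd_of_nsmul_eq_zero
    rw [two_nsmul]; exact h2
  have hd2 : addOrderOf (1 : F) ∣ p := by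
    rw [← hF]; exact addOrderOf_dvd_card
  have hne : addOrderOf (1 : F) ≠ 1 := by
    rw [Ne, AddMonoid.addOrderOf_eq_one_iff]; exact one_ne_zero
  have h3 : addOrderOf (1 : F) = 2 := by
    rcases (Nat.dvd_prime Nat.prime_two).mp hd with h1 | h1
    · exact absurd h1 hne
    · exact h1
  rw [h3] at hd2
  exact hp ((Nat.prime_dvd_prime_iff_eq Nat.prime_two hpp).mp hd2).symm

/-- the central involution of `SL₂` -/
def zm (F : Type*) [Field F] : Matrix.SpecialLinearGroup (Fin 2) F :=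
  ⟨!![(-1 : F), 0; 0, -1], by simp [Matrix.det_fin_two]⟩

theorem zm_sq (F : Type*) [Field F] : zm F * zm F = 1 := by
  apply Subtype.ext
  show (zm F).1 * (zm F).1 = 1
  simp [zm, Matrix.one_fin_two]

theorem zm_central (F : Type*) [Field F] (g : Matrix.SpecialLinearGroup (Fin 2) F) :
    g * zm F = zm F * g := by
  apply Subtype.ext
  show g.1 * (zm F).1 = (zm F).1 * g.1
  have h : (zm F).1 = -1 := by
    simp [zm, Matrix.one_fin_two]
  rw [h]; simp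

theorem zm_ne_one (F : Type*) [Field F] (h : (-1 : F) ≠ 1) : zm F ≠ 1 := by
  intro h1
  have h2 := congrArg (fun m : Matrix.SpecialLinearGroup (Fin 2) F => m.1 0 0) h1
  have h3 : (zm F).1 0 0 = -1 := by simp [zm]
  have h4 : (1 : Matrix.SpecialLinearGroup (Fin 2) F).1 0 0 = 1 := by simp
  simp only [h3, h4] at h2
  exact h h2

theorem sl2_not_comm (F : Type*) [Field F] :
    ∃ u l : Matrix.SpecialLinearGroup (Fin 2) F, u * l ≠ l * u := by
  refine ⟨⟨!![1, 1; 0, 1], by simp [Matrix.det_fin_two]⟩,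
    ⟨!![1, 0; 1, 1], by simp [Matrix.det_fin_two]⟩, ?_⟩
  intro h
  have h2 := congrArg (fun m : Matrix.SpecialLinearGroup (Fin 2) F => m.1 0 0) h
  have h3 : (!![(1:F), 1; 0, 1] * !![(1:F), 0; 1, 1]) 0 0 =
      (!![(1:F), 0; 1, 1] * !![(1:F), 1; 0, 1]) 0 0 := h2
  simp at h3

theorem cyc_comm {N : Type*} [Group N] (D : Subgroup N) (hD : ∀ n : N, ∀ x ∈ D, n * x * n⁻¹ ∈ D)
    (hcyc : IsCyclic D) (n₁ n₂ : N) (x : N) (hx : x ∈ D) :
    ((n₂ * n₁)⁻¹ * (n₁ * n₂)) * x = x * ((n₂ * n₁)⁻¹ * (n₁ * n₂)) := by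
  obtain ⟨g, hg⟩ := hcyc.exists_generator
  obtain ⟨i, hi⟩ := hg ⟨n₁ * g * n₁⁻¹, hD n₁ g g.2⟩
  obtain ⟨k, hk⟩ := hg ⟨n₂ * g * n₂⁻¹, hD n₂ g g.2⟩
  have hi' : n₁ * (g : N) * n₁⁻¹ = (g : N) ^ i := by
    have h1 := congrArg Subtype.val hi
    simpa using h1.symm
  have hk' : n₂ * (g : N) * n₂⁻¹ = (g : N) ^ k := by
    have h1 := congrArg Subtype.val hk
    simpa using h1.symm
  have e1 : (n₁ * n₂) * (g : N) * (n₁ * n₂)⁻¹ = (g : N) ^ (i * k) := by
    have h1 : (n₁ * n₂) * (g : N) * (n₁ * n₂)⁻¹ = n₁ * (n₂ * (g : N) * n₂⁻¹) * n₁⁻¹ := by group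
    rw [h1, hk', ← conj_zpow, hi', ← zpow_mul]
  have e2 : (n₂ * n₁) * (g : N) * (n₂ * n₁)⁻¹ = (g : N) ^ (i * k) := by
    have h1 : (n₂ * n₁) * (g : N) * (n₂ * n₁)⁻¹ = n₂ * (n₁ * (g : N) * n₁⁻¹) * n₂⁻¹ := by group
    rw [h1, hi', ← conj_zpow, hk', ← zpow_mul, mul_comm]
  have hcg : Commute ((n₂ * n₁)⁻¹ * (n₁ * n₂)) (g : N) := by
    show (n₂ * n₁)⁻¹ * (n₁ * n₂) * (g : N) = (g : N) * ((n₂ * n₁)⁻¹ * (n₁ * n₂))
    have h1 : (n₂ * n₁)⁻¹ * (n₁ * n₂) * (g : N) =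
        (n₂ * n₁)⁻¹ * ((n₁ * n₂) * (g : N) * (n₁ * n₂)⁻¹) * (n₁ * n₂) := by group
    rw [h1, e1, ← e2]; group
  obtain ⟨l, hl⟩ := hg ⟨x, hx⟩
  have hl' : x = (g : N) ^ l := by
    have h1 := congrArg Subtype.val hl
    simpa using h1.symm
  rw [hl']
  exact (hcg.zpow_right l).eq

/-- the elements of `A` inverted by `t₀` -/
def invSub {N : Type*} [Group N] (A : Subgroup N) (hcomm : ∀ a ∈ A, ∀ b ∈ A, a * b = b * a)
    (t₀ : N) : Subgroup N where
  carrier := {a | a ∈ A ∧ t₀ * a * t₀⁻¹ = a⁻¹}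
  one_mem' := ⟨one_mem _, by simp⟩
  mul_mem' := by
    rintro a b ⟨ha, ha'⟩ ⟨hb, hb'⟩
    refine ⟨mul_mem ha hb, ?_⟩
    have h1 : t₀ * (a * b) * t₀⁻¹ = (t₀ * a * t₀⁻¹) * (t₀ * b * t₀⁻¹) := by group
    rw [h1, ha', hb', mul_inv_rev]
    exact hcomm _ (inv_mem ha) _ (inv_mem hb)
  inv_mem' := by
    rintro a ⟨ha, ha'⟩
    refine ⟨inv_mem ha, ?_⟩
    have h1 : t₀ * a⁻¹ * t₀⁻¹ = (t₀ * a * t₀⁻¹)⁻¹ := by group
    rw [h1, ha']

theorem cyclic_of_lt {N : Type*} [Group N] [Finite N] {p : ℕ} (hpp : p.Prime) (A H : Subgroup N)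
    (hA : Nat.card A = p ^ 2) (hHA : H ≤ A) (hne : H ≠ A) : IsCyclic H := by
  have hd : Nat.card H ∣ p ^ 2 := hA ▸ Subgroup.card_dvd_of_le hHA
  obtain ⟨k, hk, hk'⟩ := (Nat.dvd_prime_pow hpp).mp hd
  interval_cases k
  · have h1 : Nat.card H = 1 := by simpa using hk'
    have : Subsingleton H := (Nat.card_eq_one_iff_unique.mp h1).1
    exact isCyclic_of_subsingleton
  · have : Fact p.Prime := ⟨hpp⟩
    exact isCyclic_of_prime_card (p := p) (by simpa using hk')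
  · exfalso; apply hne
    exact Subgroup.eq_of_le_of_card_ge hHA (by rw [hA, hk'])

/-- Let p be an odd prime and N a finite group with a normal elementary abelian subgroup A of order p² that is its own centralizer in N, such that N/A is isomorphic to SL₂(p) (over any field F with p elements). Then N splits over A: some subgroup U of N satisfies A ∩ U = 1 and AU = N. -/
theorem result {N : Type*} [Group N] [Finite N] {p : ℕ} [Fact p.Prime] (hp : p ≠ 2)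
    (A : Subgroup N) [A.Normal] (hAcomm : IsMulCommutative A) (hAcard : Nat.card A = p ^ 2) (hAexp : Monoid.exponent ↥A = p)
    (hAself : Subgroup.centralizer (A : Set N) = A)
    {F : Type*} [Field F] [Fintype F] (hF : Fintype.card F = p) (e : N ⧸ A ≃* Matrix.SpecialLinearGroup (Fin 2) F) :
    ∃ U : Subgroup N, A ⊓ U = ⊥ ∧ A ⊔ U = ⊤ := by
  classical
  have hpp : p.Prime := Fact.out
  have hA : A.Normal := inferInstance
  have hodd : ¬ 2 ∣ p := fun h => hp ((Nat.prime_dvd_prime_iff_eq Nat.prime_two hpp).mp h).symm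
  have hcomm : ∀ a ∈ A, ∀ b ∈ A, a * b = b * a := by
    intro a ha b hb
    have h1 := hAcomm.is_comm.comm ⟨a, ha⟩ ⟨b, hb⟩
    exact congrArg Subtype.val h1
  have hexp : ∀ a ∈ A, a ^ p = 1 := by
    intro a ha
    have h1 := Monoid.pow_exponent_eq_one (⟨a, ha⟩ : A)
    rw [hAexp] at h1
    have h2 := congrArg Subtype.val h1
    simpa using h2
  have hodd1 : ∀ a ∈ A, a ^ 2 = 1 → a = 1 := by
    intro a ha h2
    have h1 : orderOf a ∣ 2 := orderOf_dvd_of_pow_eq_one h2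
    have h3 : orderOf a ∣ p := orderOf_dvd_of_pow_eq_one (hexp a ha)
    have h4 : orderOf a ∣ Nat.gcd 2 p := Nat.dvd_gcd h1 h3
    have hg : Nat.gcd 2 p = 1 := (Nat.coprime_primes Nat.prime_two hpp).mpr (Ne.symm hp)
    rw [hg, Nat.dvd_one] at h4
    exact orderOf_eq_one_iff.mp h4
  have hneg := neg_one_ne_one_of_card hpp hp hF
  obtain ⟨t, ht⟩ := QuotientGroup.mk_surjective (e.symm (zm F))
  have ht2 : t ^ 2 ∈ A := by
    rw [← QuotientGroup.eq_one_iff, QuotientGroup.mk_pow, ht, ← map_pow, pow_two, zm_sq, map_one]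
  obtain ⟨k, hk⟩ : ∃ k, p = 2 * k + 1 := by
    rcases Nat.even_or_odd' p with ⟨k, hk | hk⟩
    · exact absurd ⟨k, hk⟩ hodd
    · exact ⟨k, hk⟩
  obtain ⟨t₀, ht₀⟩ : ∃ t₀ : N, t₀ = t ^ p := ⟨_, rfl⟩
  have ht₀2 : t₀ ^ 2 = 1 := by
    rw [ht₀, ← pow_mul, mul_comm, pow_mul]; exact hexp _ ht2
  have ht₀q : ((t₀ : N) : N ⧸ A) = e.symm (zm F) := by
    rw [ht₀, QuotientGroup.mk_pow, ht, hk, pow_succ, pow_mul, ← map_pow, pow_two, zm_sq, map_one,
      one_pow, one_mul]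
  have ht₀nA : t₀ ∉ A := by
    intro h
    rw [← QuotientGroup.eq_one_iff, ht₀q] at h
    apply zm_ne_one F hneg
    have h2 := congrArg e h
    simpa using h2
  have hcentral : ∀ n : N, n * t₀ * n⁻¹ * t₀⁻¹ ∈ A := by
    intro n
    rw [← QuotientGroup.eq_one_iff]
    simp only [QuotientGroup.mk_mul, QuotientGroup.mk_inv, ht₀q]
    have hc : (n : N ⧸ A) * e.symm (zm F) = e.symm (zm F) * (n : N ⧸ A) := by
      apply e.injective
      rw [map_mul, map_mul, e.apply_symm_apply]; exact zm_central F _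
    rw [hc]; group
  have hτ : ∀ n : N, ∀ a ∈ A, t₀ * (n * a * n⁻¹) * t₀⁻¹ = n * (t₀ * a * t₀⁻¹) * n⁻¹ := by
    intro n a ha
    have h1 := hcentral n
    have h2 : t₀ * (n * a * n⁻¹) * t₀⁻¹ ∈ A := hA.conj_mem _ (hA.conj_mem a ha n) t₀
    have h3 := hcomm _ h1 _ h2
    have e1 : n * (t₀ * a * t₀⁻¹) * n⁻¹ = (n * t₀ * n⁻¹ * t₀⁻¹) * (t₀ * (n * a * n⁻¹) * t₀⁻¹) *
        (n * t₀ * n⁻¹ * t₀⁻¹)⁻¹ := by group
    rw [e1, h3, mul_inv_cancel_right]
  -- key claim: t₀ inverts A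
  have hinv : ∀ a ∈ A, t₀ * a * t₀⁻¹ = a⁻¹ := by
    by_contra hcon
    have hAm_ne : invSub A hcomm t₀ ≠ A := by
      intro h
      apply hcon
      intro a ha
      have h1 : a ∈ invSub A hcomm t₀ := by rw [h]; exact ha
      exact h1.2
    have hAm_le : invSub A hcomm t₀ ≤ A := fun a ha => ha.1
    have hAp_le : A ⊓ Subgroup.centralizer {t₀} ≤ A := inf_le_left
    have hAp_ne : A ⊓ Subgroup.centralizer {t₀} ≠ A := by
      intro h
      apply ht₀nA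
      have h0 : t₀ ∈ Subgroup.centralizer (A : Set N) := by
        rw [Subgroup.mem_centralizer_iff]
        intro a ha
        have h1 : a ∈ A ⊓ Subgroup.centralizer {t₀} := by rw [h]; exact ha
        have h2 := Subgroup.mem_centralizer_iff.mp h1.2 t₀ (Set.mem_singleton _)
        exact h2.symm
      rw [hAself] at h0
      exact h0
    have hcyc_p := cyclic_of_lt hpp A _ hAcard hAp_le hAp_ne
    have hcyc_m := cyclic_of_lt hpp A _ hAcard hAm_le hAm_ne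
    have hnorm_p : ∀ n : N, ∀ x ∈ A ⊓ Subgroup.centralizer {t₀},
        n * x * n⁻¹ ∈ A ⊓ Subgroup.centralizer {t₀} := by
      intro n x hx
      refine Subgroup.mem_inf.mpr ⟨hA.conj_mem x hx.1 n, ?_⟩
      rw [Subgroup.mem_centralizer_iff]
      intro h hh
      rw [Set.mem_singleton_iff] at hh
      rw [hh]
      have h2 := Subgroup.mem_centralizer_iff.mp hx.2 t₀ (Set.mem_singleton _)
      have h3 := hτ n x hx.1
      have h4 : t₀ * x * t₀⁻¹ = x := by rw [h2]; group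
      rw [h4] at h3
      calc t₀ * (n * x * n⁻¹) = (t₀ * (n * x * n⁻¹) * t₀⁻¹) * t₀ := by group
        _ = (n * x * n⁻¹) * t₀ := by rw [h3]
    have hnorm_m : ∀ n : N, ∀ x ∈ invSub A hcomm t₀, n * x * n⁻¹ ∈ invSub A hcomm t₀ := by
      intro n x hx
      refine ⟨hA.conj_mem x hx.1 n, ?_⟩
      rw [hτ n x hx.1, hx.2]; group
    have hab : ∀ n₁ n₂ : N, (n₂ * n₁)⁻¹ * (n₁ * n₂) ∈ A := by
      intro n₁ n₂
      have h0 : (n₂ * n₁)⁻¹ * (n₁ * n₂) ∈ Subgroup.centralizer (A : Set N) := by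
        rw [Subgroup.mem_centralizer_iff]
        intro a ha
        have hτa : t₀ * a * t₀⁻¹ ∈ A := hA.conj_mem a ha t₀
        have hττ : t₀ * (t₀ * a * t₀⁻¹) * t₀⁻¹ = a := by
          have e1 : t₀ * (t₀ * a * t₀⁻¹) * t₀⁻¹ = (t₀ * t₀) * a * (t₀ * t₀)⁻¹ := by group
          rw [e1, ← pow_two, ht₀2]; group
        have h1 : a * (t₀ * a * t₀⁻¹) ∈ A ⊓ Subgroup.centralizer {t₀} := by
          refine Subgroup.mem_inf.mpr ⟨mul_mem ha hτa, ?_⟩
          rw [Subgroup.mem_centralizer_iff]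
          intro h hh
          rw [Set.mem_singleton_iff] at hh
          rw [hh]
          calc t₀ * (a * (t₀ * a * t₀⁻¹)) = (t₀ * a * t₀⁻¹) * (t₀ * (t₀ * a * t₀⁻¹) * t₀⁻¹) * t₀ := by
                group
            _ = (t₀ * a * t₀⁻¹) * a * t₀ := by rw [hττ]
            _ = a * (t₀ * a * t₀⁻¹) * t₀ := by rw [hcomm _ hτa _ ha]
        have h2 : a * (t₀ * a * t₀⁻¹)⁻¹ ∈ invSub A hcomm t₀ := by
          refine ⟨mul_mem ha (inv_mem hτa), ?_⟩
          calc t₀ * (a * (t₀ * a * t₀⁻¹)⁻¹) * t₀⁻¹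
              = (t₀ * a * t₀⁻¹) * (t₀ * (t₀ * a * t₀⁻¹) * t₀⁻¹)⁻¹ := by group
            _ = (t₀ * a * t₀⁻¹) * a⁻¹ := by rw [hττ]
            _ = (a * (t₀ * a * t₀⁻¹)⁻¹)⁻¹ := by group
        have c1 := cyc_comm _ hnorm_p hcyc_p n₁ n₂ _ h1
        have c2 := cyc_comm _ hnorm_m hcyc_m n₁ n₂ _ h2
        have ha2 : a ^ 2 = (a * (t₀ * a * t₀⁻¹)) * (a * (t₀ * a * t₀⁻¹)⁻¹) := by
          calc a ^ 2 = a * (a * (t₀ * a * t₀⁻¹)) * (t₀ * a * t₀⁻¹)⁻¹ := by rw [pow_two]; group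
            _ = a * ((t₀ * a * t₀⁻¹) * a) * (t₀ * a * t₀⁻¹)⁻¹ := by rw [hcomm _ ha _ hτa]
            _ = (a * (t₀ * a * t₀⁻¹)) * (a * (t₀ * a * t₀⁻¹)⁻¹) := by group
        have c3 : Commute ((n₂ * n₁)⁻¹ * (n₁ * n₂)) (a ^ 2) := by
          show (n₂ * n₁)⁻¹ * (n₁ * n₂) * a ^ 2 = a ^ 2 * ((n₂ * n₁)⁻¹ * (n₁ * n₂))
          rw [ha2, ← mul_assoc, c1, mul_assoc, c2, ← mul_assoc]
        have ha3 : a = (a ^ 2) ^ (k + 1) := by
          rw [← pow_mul, show 2 * (k + 1) = p + 1 by omega, pow_succ, hexp a ha, one_mul]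
        rw [ha3]
        exact ((c3.pow_right (k + 1)).eq).symm
      rw [hAself] at h0
      exact h0
    obtain ⟨u, l, hul⟩ := sl2_not_comm F
    obtain ⟨n₁, hn₁⟩ := QuotientGroup.mk_surjective (e.symm u)
    obtain ⟨n₂, hn₂⟩ := QuotientGroup.mk_surjective (e.symm l)
    apply hul
    have h1 := hab n₁ n₂
    rw [← QuotientGroup.eq_one_iff] at h1
    simp only [QuotientGroup.mk_mul, QuotientGroup.mk_inv, hn₁, hn₂] at h1
    have h5 : e.symm u * e.symm l = e.symm l * e.symm u := by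
      rw [inv_mul_eq_one] at h1; exact h1.symm
    have h6 := congrArg e h5
    simpa using h6
  refine ⟨Subgroup.centralizer {t₀}, ?_, ?_⟩
  · rw [eq_bot_iff]
    intro a ha
    rw [Subgroup.mem_bot]
    have h2 := Subgroup.mem_centralizer_iff.mp ha.2 t₀ (Set.mem_singleton _)
    have h3 := hinv a ha.1
    apply hodd1 a ha.1
    have h4 : a = a⁻¹ := by rw [← h3, h2]; group
    rw [pow_two]; nth_rewrite 1 [h4]; exact inv_mul_cancel a
  · rw [eq_top_iff]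
    intro n _
    have ha''A : n * t₀ * n⁻¹ * t₀⁻¹ ∈ A := hcentral n
    obtain ⟨b, hb⟩ : ∃ b : N, b = (n * t₀ * n⁻¹ * t₀⁻¹) ^ (k + 1) := ⟨_, rfl⟩
    have hbA : b ∈ A := by rw [hb]; exact pow_mem ha''A _
    have hb2 : b * b = n * t₀ * n⁻¹ * t₀⁻¹ := by
      rw [hb, ← pow_add, show k + 1 + (k + 1) = p + 1 by omega, pow_succ, hexp _ ha''A, one_mul]
    have hbt : t₀ * b⁻¹ * t₀⁻¹ = b := by rw [hinv b⁻¹ (inv_mem hbA), inv_inv]
    have hmem : b⁻¹ * n ∈ Subgroup.centralizer {t₀} := by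
      rw [Subgroup.mem_centralizer_iff]
      intro h hh
      rw [Set.mem_singleton_iff] at hh
      rw [hh]
      have e1 : n * t₀ = b * b * t₀ * n := by rw [hb2]; group
      have e2 : t₀ * b⁻¹ = b * t₀ := by
        calc t₀ * b⁻¹ = (t₀ * b⁻¹ * t₀⁻¹) * t₀ := by group
          _ = b * t₀ := by rw [hbt]
      calc t₀ * (b⁻¹ * n) = (t₀ * b⁻¹) * n := by group
        _ = b * t₀ * n := by rw [e2]
        _ = b⁻¹ * (b * b * t₀ * n) := by group
        _ = b⁻¹ * (n * t₀) := by rw [e1]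
        _ = b⁻¹ * n * t₀ := by group
    have h7 : n = b * (b⁻¹ * n) := by group
    rw [h7]
    exact mul_mem (Subgroup.mem_sup_left hbA) (Subgroup.mem_sup_right hmem)

end Cfsg.Agent.S3075
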