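import Cfsg.Statements.S3087
import Mathlib
import Cfsg.Agent.Lib.Helper5.ChermakDelgado

set_option autoImplicit false
open Cfsg Cfsg.Agent.Lib.Helper5

namespace Cfsg.Agent.S3087

/-- the vectors of `U` fixed by all elements of `X`, as a subgroup of `Multiplicative V` -/
def fixSub {G V : Type*} [Group G] [AddCommGroup V] {p : ℕ} [Module (ZMod p) V]
    (ρ : Representation (ZMod p) G V) (U : Submodule (ZMod p) V) (X : Set G) :
    Subgroup (Multiplicative V) where
  carrier := {v | Multiplicative.toAdd v ∈ U ∧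
    ∀ x ∈ X, ρ x (Multiplicative.toAdd v) = Multiplicative.toAdd v}
  one_mem' := ⟨U.zero_mem, fun x _ => map_zero (ρ x)⟩
  mul_mem' := by
    rintro u v ⟨hu1, hu2⟩ ⟨hv1, hv2⟩
    refine ⟨U.add_mem hu1 hv1, fun x hx => ?_⟩
    show ρ x (Multiplicative.toAdd u + Multiplicative.toAdd v) =
      Multiplicative.toAdd u + Multiplicative.toAdd v
    rw [map_add, hu2 x hx, hv2 x hx]
  inv_mem' := by
    rintro u ⟨hu1, hu2⟩
    refine ⟨U.neg_mem hu1, fun x hx => ?_⟩
    show ρ x (-Multiplicative.toAdd u) = -Multiplicative.toAdd u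
    rw [map_neg, hu2 x hx]

/-- Let p be a prime, G a finite group acting linearly on a finite vector space V over the field with p elements, W a G-invariant subspace, and A a subgroup of G with |A|·|C_V(A)| ≥ |B|·|C_V(B)| for every subgroup B of A. Then |A|·|C_W(A)| ≥ |B|·|C_W(B)| for every subgroup B of A that contains C_A(W); that is, the image of A in the group induced on W satisfies the same maximality condition. -/
theorem result {G V : Type*} [Group G] [Finite G] [AddCommGroup V] [Finite V] (p : ℕ) [Fact p.Prime] [Module (ZMod p) V]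
    (ρ : Representation (ZMod p) G V) (W : Submodule (ZMod p) V) (hW : ∀ g : G, ∀ w ∈ W, ρ g w ∈ W)
    (A : Subgroup G)
    (hP : ∀ B : Subgroup G, B ≤ A →
      Nat.card ↥B * Nat.card {v : V // ∀ b ∈ B, ρ b v = v} ≤ Nat.card ↥A * Nat.card {v : V // ∀ a ∈ A, ρ a v = v})
    (B : Subgroup G) (hBA : B ≤ A) (hCB : ∀ a ∈ A, (∀ w ∈ W, ρ a w = w) → a ∈ B) :
    Nat.card ↥B * Nat.card {w : W // ∀ b ∈ B, ρ b w = w} ≤ Nat.card ↥A * Nat.card {w : W // ∀ a ∈ A, ρ a w = w} := by
  classical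
  have hfixV : ∀ X : Subgroup G, Nat.card (fixSub ρ ⊤ (X : Set G)) =
      Nat.card {v : V // ∀ a ∈ X, ρ a v = v} := by
    intro X
    exact Nat.card_congr
      { toFun := fun v => ⟨Multiplicative.toAdd v.1, v.2.2⟩
        invFun := fun v => ⟨Multiplicative.ofAdd v.1, Submodule.mem_top, v.2⟩
        left_inv := fun v => rfl
        right_inv := fun v => rfl }
  have hfixW : ∀ X : Subgroup G, Nat.card (fixSub ρ W (X : Set G)) =
      Nat.card {w : W // ∀ b ∈ X, ρ b w = w} := by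
    intro X
    exact Nat.card_congr
      { toFun := fun v => ⟨⟨Multiplicative.toAdd v.1, v.2.1⟩, v.2.2⟩
        invFun := fun w => ⟨Multiplicative.ofAdd (w.1 : V), w.1.2, w.2⟩
        left_inv := fun v => rfl
        right_inv := fun v => rfl }
  obtain ⟨D, hD⟩ : ∃ D : Subgroup G, ∀ a, a ∈ D ↔ a ∈ A ∧ ∀ v ∈ fixSub ρ W (B : Set G),
      ρ a (Multiplicative.toAdd v) = Multiplicative.toAdd v :=
    ⟨{ carrier := {a | a ∈ A ∧ ∀ v ∈ fixSub ρ W (B : Set G),
          ρ a (Multiplicative.toAdd v) = Multiplicative.toAdd v}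
       one_mem' := ⟨A.one_mem, fun v _ => by rw [map_one]; rfl⟩
       mul_mem' := by
         rintro a b ⟨ha1, ha2⟩ ⟨hb1, hb2⟩
         refine ⟨A.mul_mem ha1 hb1, fun v hv => ?_⟩
         rw [map_mul, Module.End.mul_apply, hb2 v hv, ha2 v hv]
       inv_mem' := by
         rintro a ⟨ha1, ha2⟩
         refine ⟨A.inv_mem ha1, fun v hv => ?_⟩
         have h1 := ha2 v hv
         calc ρ a⁻¹ (Multiplicative.toAdd v) = ρ a⁻¹ (ρ a (Multiplicative.toAdd v)) := by rw [h1]
           _ = (ρ a⁻¹ * ρ a) (Multiplicative.toAdd v) := rfl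
           _ = Multiplicative.toAdd v := by rw [← map_mul, inv_mul_cancel, map_one]; rfl },
      fun a => Iff.rfl⟩
  have hDA : D ≤ A := fun a ha => ((hD a).mp ha).1
  have hBD : B ≤ D := fun b hb => (hD b).mpr ⟨hBA hb, fun v hv => hv.2 b hb⟩
  have h1 := card_mul_card_le (fixSub ρ ⊤ (A : Set G)) (fixSub ρ W (B : Set G))
  have h2 : fixSub ρ ⊤ (A : Set G) ⊓ fixSub ρ W (B : Set G) ≤ fixSub ρ W (A : Set G) := by
    intro v hv
    rw [Subgroup.mem_inf] at hv
    exact ⟨hv.2.1, hv.1.2⟩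
  have h3 : fixSub ρ ⊤ (A : Set G) ⊔ fixSub ρ W (B : Set G) ≤ fixSub ρ ⊤ (D : Set G) := by
    apply sup_le
    · intro v hv; exact ⟨Submodule.mem_top, fun x hx => hv.2 x (hDA hx)⟩
    · intro v hv; exact ⟨Submodule.mem_top, fun x hx => ((hD x).mp hx).2 v hv⟩
  have h4 := hP D hDA
  rw [← hfixV D, ← hfixV A] at h4
  rw [← hfixW B, ← hfixW A]
  have c2 := Subgroup.card_le_of_le h2
  have c3 := Subgroup.card_le_of_le h3
  have c4 := Subgroup.card_le_of_le hBD
  have hpos : 0 < Nat.card (fixSub ρ ⊤ (A : Set G)) := Nat.card_pos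
  have key : Nat.card B * Nat.card (fixSub ρ W (B : Set G)) * Nat.card (fixSub ρ ⊤ (A : Set G)) ≤
      Nat.card A * Nat.card (fixSub ρ W (A : Set G)) * Nat.card (fixSub ρ ⊤ (A : Set G)) := by
    calc Nat.card B * Nat.card (fixSub ρ W (B : Set G)) * Nat.card (fixSub ρ ⊤ (A : Set G))
        = Nat.card B * (Nat.card (fixSub ρ ⊤ (A : Set G)) * Nat.card (fixSub ρ W (B : Set G))) := by
          ring
      _ ≤ Nat.card B * (Nat.card ↥(fixSub ρ ⊤ (A : Set G) ⊔ fixSub ρ W (B : Set G)) *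
            Nat.card ↥(fixSub ρ ⊤ (A : Set G) ⊓ fixSub ρ W (B : Set G))) :=
          Nat.mul_le_mul_left _ h1
      _ ≤ Nat.card D * (Nat.card (fixSub ρ ⊤ (D : Set G)) * Nat.card (fixSub ρ W (A : Set G))) :=
          Nat.mul_le_mul c4 (Nat.mul_le_mul c3 c2)
      _ = (Nat.card D * Nat.card (fixSub ρ ⊤ (D : Set G))) * Nat.card (fixSub ρ W (A : Set G)) := by
          ring
      _ ≤ (Nat.card A * Nat.card (fixSub ρ ⊤ (A : Set G))) * Nat.card (fixSub ρ W (A : Set G)) :=
          Nat.mul_le_mul_right _ h4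
      _ = Nat.card A * Nat.card (fixSub ρ W (A : Set G)) * Nat.card (fixSub ρ ⊤ (A : Set G)) := by
          ring
  exact Nat.le_of_mul_le_mul_right key hpos

end Cfsg.Agent.S3087
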