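import Cfsg.Statements.S3155
import Mathlib

set_option autoImplicit false
open Cfsg

namespace Cfsg.Agent.S3155

/-- Let B be the direct product of three cyclic groups of order 4. Then the automorphism of B inverting every element is not the square of any automorphism of B. -/
theorem result {B : Type*} [CommGroup B] [Finite B] (hB : Nonempty (B ≃* Multiplicative (ZMod 4 × ZMod 4 × ZMod 4)))
    (τ : B ≃* B) : τ.trans τ ≠ MulEquiv.inv B := by
  obtain ⟨e⟩ := hB
  intro hτ
  haveI : Fact (1 < 4) := ⟨by norm_num⟩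
  have hφ : ∀ y : Multiplicative (ZMod 4 × ZMod 4 × ZMod 4),
      e (τ (e.symm (e (τ (e.symm y))))) = y⁻¹ := by
    intro y
    rw [MulEquiv.symm_apply_apply]
    have h1 : τ (τ (e.symm y)) = (e.symm y)⁻¹ := by
      have h2 := congrArg (fun t : B ≃* B => t (e.symm y)) hτ
      exact h2
    rw [h1, map_inv, MulEquiv.apply_symm_apply]
  obtain ⟨f, hf⟩ : ∃ f : (ZMod 4 × ZMod 4 × ZMod 4) →+ (ZMod 4 × ZMod 4 × ZMod 4),
      ∀ m, f (f m) = -m := by
    refine ⟨AddMonoidHom.toMultiplicative.symm ((e.symm.trans τ).trans e).toMonoidHom, ?_⟩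
    intro m
    exact congrArg Multiplicative.toAdd (hφ (Multiplicative.ofAdd m))
  have hF : (f.toZModLinearMap 4).comp (f.toZModLinearMap 4) =
      (-1 : ZMod 4) • (LinearMap.id : (ZMod 4 × ZMod 4 × ZMod 4) →ₗ[ZMod 4] _) := by
    apply LinearMap.ext
    intro m
    show f (f m) = (-1 : ZMod 4) • m
    rw [hf, neg_one_smul]
  have hdet := congrArg LinearMap.det hF
  rw [LinearMap.det_comp, LinearMap.det_smul, LinearMap.det_id, mul_one] at hdet
  have hrank : Module.finrank (ZMod 4) (ZMod 4 × ZMod 4 × ZMod 4) = 3 := by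
    simp
  rw [hrank] at hdet
  have key : ∀ x : ZMod 4, x * x ≠ (-1) ^ 3 := by decide
  exact key _ hdet

end Cfsg.Agent.S3155
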