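import Cfsg.Statements.S3178
import Mathlib
import Cfsg.Agent.Lib.Helper5.ThompsonTransfer
import Cfsg.Agent.Lib.Helper5.NormalCompl
import Cfsg.Agent.Lib.Helper5.ChermakDelgado

set_option autoImplicit false
open Cfsg

namespace Cfsg.Agent.S3178

/-- Groups with a modular Sylow 2-subgroup have a normal 2-complement. Let S, of order 2^(n+1) with n ≥ 3, be a Sylow 2-subgroup of a finite group G, and suppose S contains an element a of order 2^n and an involution b with b a b⁻¹ = a^(2^(n-1) + 1); so S is the non-abelian 2-group with a cyclic subgroup of index 2 that is neither dihedral, semidihedral nor generalized quaternion. Then G has a normal 2-complement. -/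
theorem result {G : Type*} [Group G] [Finite G]
    (S : Sylow 2 G) (n : ℕ) (hn : 3 ≤ n) (hS : Nat.card ↥(S : Subgroup G) = 2 ^ (n + 1))
    (a b : G) (ha : a ∈ (S : Subgroup G)) (hb : b ∈ (S : Subgroup G))
    (hao : orderOf a = 2 ^ n) (hbo : orderOf b = 2) (hrel : b * a * b⁻¹ = a ^ (2 ^ (n - 1) + 1)) :
    Cfsg.HasNormalPComplement 2 G := by
  classical
  have hn1 : 2 ^ (n - 1) * 2 = 2 ^ n := by
    rw [← pow_succ]; congr 1; omega
  have hn2 : 2 ^ (n - 2) * 2 = 2 ^ (n - 1) := by
    rw [← pow_succ]; congr 1; omega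
  have hn3 : 2 ^ (n - 3) * 2 = 2 ^ (n - 2) := by
    rw [← pow_succ]; congr 1; omega
  have hAS : Subgroup.zpowers a ≤ (S : Subgroup G) := by
    rw [Subgroup.zpowers_le]; exact ha
  have hAcard : Nat.card (Subgroup.zpowers a) = 2 ^ n := by rw [Nat.card_zpowers, hao]
  have hAidx : (Subgroup.zpowers a).relIndex (S : Subgroup G) = 2 := by
    have := Cfsg.Agent.Lib.Helper5.card_mul_relIndex_of_le hAS
    rw [hAcard, hS, pow_succ] at this
    exact Nat.eq_of_mul_eq_mul_left (by positivity) this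
  have hA' : ((Subgroup.zpowers a).subgroupOf (S : Subgroup G)).index = 2 := hAidx
  have hmul : ∀ s t : G, s ∈ (S : Subgroup G) → t ∈ (S : Subgroup G) →
      (s * t ∈ Subgroup.zpowers a ↔ (s ∈ Subgroup.zpowers a ↔ t ∈ Subgroup.zpowers a)) := by
    intro s t hs ht
    have := Subgroup.mul_mem_iff_of_index_two hA' (a := ⟨s, hs⟩) (b := ⟨t, ht⟩)
    simpa only [Subgroup.mem_subgroupOf, Subgroup.coe_mul] using this
  have hsq : ∀ s ∈ (S : Subgroup G), s * s ∈ Subgroup.zpowers a :=
    fun s hs => (hmul s s hs hs).mpr Iff.rfl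
  obtain ⟨z, hz⟩ : ∃ z : G, z = a ^ (2 ^ (n - 1)) := ⟨_, rfl⟩
  have hzA : z ∈ Subgroup.zpowers a := by
    rw [hz]; exact Subgroup.pow_mem _ (Subgroup.mem_zpowers a) _
  have hz2 : z * z = 1 := by
    rw [hz, ← pow_add, ← mul_two, hn1, ← hao, pow_orderOf_eq_one]
  have hz1 : z ≠ 1 := by
    intro h
    rw [hz] at h
    have h1 := orderOf_dvd_of_pow_eq_one h
    rw [hao] at h1
    have h2 := Nat.le_of_dvd (by positivity) h1
    have h3 : 2 ^ (n - 1) < 2 ^ n := Nat.pow_lt_pow_right (by norm_num) (by omega)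
    omega
  have hzo : orderOf z = 2 := by
    haveI : Fact (Nat.Prime 2) := ⟨Nat.prime_two⟩
    exact orderOf_eq_prime (by rw [pow_two]; exact hz2) hz1
  have hbA : b ∉ Subgroup.zpowers a := by
    intro hbA
    obtain ⟨k, hk⟩ := Subgroup.mem_zpowers_iff.mp hbA
    have hcomm : Commute b a := by
      rw [← hk]; exact (Commute.refl a).zpow_left k
    have h1 : b * a * b⁻¹ = a := by rw [hcomm.eq]; group
    rw [h1, pow_succ, ← hz] at hrel
    exact hz1 (mul_eq_right.mp hrel.symm)
  have hinvA : ∀ x ∈ Subgroup.zpowers a, orderOf x = 2 → x = z := by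
    intro x hx hxo
    obtain ⟨k, rfl⟩ := Subgroup.mem_zpowers_iff.mp hx
    have hx2 : (a ^ k) ^ 2 = 1 := by rw [← hxo]; exact pow_orderOf_eq_one _
    have hx1 : a ^ k ≠ 1 := by
      intro h
      rw [h, orderOf_one] at hxo
      omega
    have h1 : a ^ (k * 2) = 1 := by
      rw [zpow_mul, zpow_ofNat]; exact hx2
    have h2 : ((orderOf a : ℕ) : ℤ) ∣ k * 2 := orderOf_dvd_iff_zpow_eq_one.mpr h1
    rw [hao, ← hn1] at h2
    push_cast at h2
    have h3 : (2 : ℤ) ^ (n - 1) ∣ k := Int.dvd_of_mul_dvd_mul_right (by norm_num) h2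
    obtain ⟨j, rfl⟩ := h3
    have h4 : a ^ ((2 : ℤ) ^ (n - 1) * j) = z ^ j := by
      rw [zpow_mul, hz]
      congr 1
      exact_mod_cast zpow_natCast a (2 ^ (n - 1))
    rw [h4] at hx1 ⊢
    rcases Int.even_or_odd' j with ⟨i, rfl | rfl⟩
    · exfalso; apply hx1
      rw [zpow_mul, zpow_two, hz2, one_zpow]
    · rw [zpow_add_one, zpow_mul, zpow_two, hz2, one_zpow, one_mul]
  have hba2 : b * (a * a) * b⁻¹ = a * a := by
    have h1 : b * (a * a) * b⁻¹ = (b * a * b⁻¹) * (b * a * b⁻¹) := by group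
    have h2 : 2 ^ (n - 1) + 1 + (2 ^ (n - 1) + 1) = 2 ^ n + 2 := by omega
    rw [h1, hrel, ← pow_add, h2, pow_add, ← hao, pow_orderOf_eq_one, one_mul, pow_two]
  have hz' : z = (a * a) ^ (2 ^ (n - 2)) := by
    rw [hz, ← pow_two, ← pow_mul, mul_comm, hn2]
  have hbz : Commute b z := by
    have h1 : b * z * b⁻¹ = z := by
      rw [hz', ← conj_pow, hba2]
    have h2 : b * z = z * b := by
      rw [mul_inv_eq_iff_eq_mul] at h1; exact h1
    exact h2
  have hSz : ∀ s ∈ (S : Subgroup G), Commute s z := by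
    intro s hs
    by_cases hsA : s ∈ Subgroup.zpowers a
    · obtain ⟨k, rfl⟩ := Subgroup.mem_zpowers_iff.mp hsA
      rw [hz]
      exact ((Commute.refl a).zpow_left k).pow_right _
    · have hsb : s * b ∈ Subgroup.zpowers a :=
        (hmul s b hs hb).mpr ⟨fun h => absurd h hsA, fun h => absurd h hbA⟩
      obtain ⟨k, hk⟩ := Subgroup.mem_zpowers_iff.mp hsb
      have hs_eq : s = a ^ k * b⁻¹ := by rw [hk]; group
      have haz : Commute (a ^ k) z := by
        rw [hz]; exact ((Commute.refl a).zpow_left k).pow_right _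
      rw [hs_eq]
      exact haz.mul_left hbz.inv_left
  have hnotconj : ∀ g : G, g * b * g⁻¹ ∉ Subgroup.zpowers a := by
    intro g hg
    have ho : orderOf (g * b * g⁻¹) = 2 := by
      rw [Cfsg.Agent.Lib.Helper5.orderOf_conj_eq', hbo]
    have hgz : g * b * g⁻¹ = z := hinvA _ hg ho
    have hu₀z : Commute (g * (a * a) * g⁻¹) z := by
      rw [← hgz]
      refine (Commute.conj_iff g).mpr ?_
      have h2 : b * (a * a) = (a * a) * b := by
        have := hba2; rw [mul_inv_eq_iff_eq_mul] at this; exact this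
      exact (show Commute b (a * a) from h2).symm
    have hSC : (S : Subgroup G) ≤ Subgroup.centralizer ({z} : Set G) := by
      intro s hs
      rw [Subgroup.mem_centralizer_iff]
      intro y hy
      rw [Set.mem_singleton_iff] at hy
      rw [hy]; exact (hSz s hs).eq.symm
    have hUC : Subgroup.zpowers (g * (a * a) * g⁻¹) ≤ Subgroup.centralizer ({z} : Set G) := by
      rw [Subgroup.zpowers_le, Subgroup.mem_centralizer_iff]
      intro y hy
      rw [Set.mem_singleton_iff] at hy
      rw [hy]; exact hu₀z.eq.symm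
    have hU : IsPGroup 2 (Subgroup.zpowers (g * (a * a) * g⁻¹)) := by
      have h1 : (g * (a * a) * g⁻¹) ^ (2 ^ n) = 1 := by
        rw [conj_pow, ← pow_two, ← pow_mul, mul_comm, pow_mul, ← hao, pow_orderOf_eq_one, one_pow]
        group
      obtain ⟨j, -, hj⟩ := (Nat.dvd_prime_pow Nat.prime_two).mp (orderOf_dvd_of_pow_eq_one h1)
      exact IsPGroup.of_card (by rw [Nat.card_zpowers, hj])
    obtain ⟨c, hc, hcU⟩ := Cfsg.Agent.Lib.Helper5.exists_conj_mem_sylow_of_le S _ hSC _ hU hUC
    have hcz : c * z = z * c := by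
      rw [Subgroup.mem_centralizer_iff] at hc
      exact (hc z rfl).symm
    have hcu := hcU _ (Subgroup.mem_zpowers _)
    have hu : (c * g) * (a * a) * (c * g)⁻¹ ∈ (S : Subgroup G) := by
      have : (c * g) * (a * a) * (c * g)⁻¹ = c * (g * (a * a) * g⁻¹) * c⁻¹ := by group
      rw [this]; exact hcu
    have hpow : ((c * g) * (a * a) * (c * g)⁻¹) ^ (2 ^ (n - 2)) = (c * g) * z * (c * g)⁻¹ := by
      rw [conj_pow, ← hz']
    have hsqA : ((c * g) * (a * a) * (c * g)⁻¹) ^ (2 ^ (n - 2)) ∈ Subgroup.zpowers a := by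
      rw [← hn3, mul_two, pow_add]
      exact hsq _ (Subgroup.pow_mem _ hu _)
    rw [hpow] at hsqA
    have hhz : (c * g) * z * (c * g)⁻¹ = z :=
      hinvA _ hsqA (by rw [Cfsg.Agent.Lib.Helper5.orderOf_conj_eq']; exact hzo)
    have hhb : (c * g) * b * (c * g)⁻¹ = z := by
      have : (c * g) * b * (c * g)⁻¹ = c * (g * b * g⁻¹) * c⁻¹ := by group
      rw [this, hgz, hcz, mul_inv_cancel_right]
    have hzb : z = b := by
      have h := hhz.trans hhb.symm
      exact mul_left_cancel (mul_right_cancel h)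
    exact hbA (hzb ▸ hzA)
  have hodd : Odd (S : Subgroup G).index :=
    Nat.odd_iff.mpr (Nat.two_dvd_ne_zero.mp S.not_dvd_index)
  obtain ⟨N, hN, hbN⟩ := Cfsg.Agent.Lib.Helper5.transfer_index_two (S : Subgroup G)
    (Subgroup.zpowers a) hAidx hodd b (by
      intro r k hk hmem
      rw [hbo] at hk
      rcases (Nat.dvd_prime Nat.prime_two).mp hk with rfl | rfl
      · simp only [pow_one]
        constructor
        · intro h; exact absurd (by simpa using h) (hnotconj r⁻¹)
        · intro h; exact absurd h (by decide)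
      · constructor
        · intro _; exact even_two
        · intro _
          have : b ^ 2 = 1 := by rw [← hbo]; exact pow_orderOf_eq_one b
          rw [this]; simp)
  haveI hNn : N.Normal := Subgroup.normal_of_index_eq_two hN
  have hbb : b * b = 1 := by
    have : b ^ 2 = 1 := by rw [← hbo]; exact pow_orderOf_eq_one b
    rwa [pow_two] at this
  obtain ⟨w, hwS, hwN, hwo⟩ : ∃ w ∈ (S : Subgroup G), w ∈ N ∧ orderOf w = 2 ^ n := by
    by_cases haN : a ∈ N
    · exact ⟨a, ha, haN, hao⟩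
    · refine ⟨a * b, (S : Subgroup G).mul_mem ha hb,
        (Subgroup.mul_mem_iff_of_index_two hN).mpr ⟨fun h => absurd h haN, fun h => absurd h hbN⟩, ?_⟩
      have hab2 : (a * b) ^ 2 = a ^ (2 ^ (n - 1) + 2) := by
        have h1 : (a * b) ^ 2 = a * (b * a * b⁻¹) * (b * b) := by rw [pow_two]; group
        rw [h1, hrel, hbb, mul_one, ← pow_succ']
      have hab3 : (a * b) ^ (2 ^ (n - 1)) = z := by
        have e1 : (2 ^ (n - 1) + 2) * 2 ^ (n - 2) = 2 ^ n * 2 ^ (n - 3) + 2 ^ (n - 1) := by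
          rw [add_mul, ← hn1, ← hn2, ← hn3]; ring
        have e0 : (a * b) ^ (2 ^ (n - 1)) = ((a * b) ^ 2) ^ (2 ^ (n - 2)) := by
          rw [← pow_mul, mul_comm, hn2]
        rw [e0, hab2, ← pow_mul, e1, pow_add, pow_mul, ← hao, pow_orderOf_eq_one, one_pow,
          one_mul, hz]
      have hab4 : (a * b) ^ (2 ^ (n - 1 + 1)) = 1 := by
        rw [pow_succ, pow_mul, hab3, pow_two, hz2]
      have hfin := orderOf_eq_prime_pow (p := 2) (n := n - 1) (x := a * b)
        (by rw [hab3]; exact hz1) hab4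
      rw [hfin]; congr 1; omega
  obtain ⟨P'⟩ : Nonempty (Sylow 2 N) := inferInstance
  have hP'cyc : IsCyclic P' := by
    have hQ₀ : IsPGroup 2 ((P' : Subgroup N).map N.subtype) := P'.2.map N.subtype
    obtain ⟨x, -, hx⟩ := Cfsg.Agent.Lib.Helper5.exists_conj_mem_sylow_of_le S ⊤ le_top _ hQ₀ le_top
    have hSN : (S : Subgroup G) ⊓ N = Subgroup.zpowers w := by
      symm
      apply Subgroup.eq_of_le_of_card_ge
      · rw [Subgroup.zpowers_le]; exact ⟨hwS, hwN⟩
      · rw [Nat.card_zpowers, hwo]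
        have h1 : Nat.card ((S : Subgroup G) ⊓ N : Subgroup G) ∣ 2 ^ (n + 1) := by
          rw [← hS]; exact Subgroup.card_dvd_of_le inf_le_left
        obtain ⟨j, hj, hj2⟩ := (Nat.dvd_prime_pow Nat.prime_two).mp h1
        rw [hj2]
        rcases Nat.lt_or_ge j (n + 1) with hlt | hge
        · exact Nat.pow_le_pow_right (by norm_num) (by omega)
        · exfalso
          have hj3 : j = n + 1 := le_antisymm hj hge
          have h2 : (S : Subgroup G) ⊓ N = (S : Subgroup G) :=
            Subgroup.eq_of_le_of_card_ge inf_le_left (by rw [hj2, hj3, hS])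
          have hb' : b ∈ (S : Subgroup G) ⊓ N := by rw [h2]; exact hb
          exact hbN hb'.2
    let φ : P' →* G := ((MulAut.conj x).toMonoidHom.comp N.subtype).comp (P' : Subgroup N).subtype
    have hφ : ∀ y : P', φ y ∈ Subgroup.zpowers w := by
      intro y
      rw [← hSN]
      refine ⟨?_, ?_⟩
      · exact hx _ ⟨y.1, y.2, rfl⟩
      · exact hNn.conj_mem _ y.1.2 x
    have hinj : Function.Injective (φ.codRestrict (Subgroup.zpowers w) hφ) := by
      intro y₁ y₂ h
      have h1 : φ y₁ = φ y₂ := congrArg Subtype.val h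
      have h2 : x * ((y₁ : N) : G) * x⁻¹ = x * ((y₂ : N) : G) * x⁻¹ := h1
      have h3 : ((y₁ : N) : G) = ((y₂ : N) : G) := mul_left_cancel (mul_right_cancel h2)
      exact Subtype.ext (Subtype.ext h3)
    exact isCyclic_of_injective (φ.codRestrict (Subgroup.zpowers w) hφ) hinj
  obtain ⟨K, hKn, hK⟩ :=
    Cfsg.Agent.Lib.Helper5.exists_normal_two_complement_of_index_two N hN P' hP'cyc
  exact ⟨S, K, hKn, hK S⟩

end Cfsg.Agent.S3178
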