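import Cfsg.Statements.S3180
import Mathlib
import Cfsg.Agent.Lib.Helper5.SylowChain
import Cfsg.Agent.Lib.Helper5.Replacement

set_option autoImplicit false
open Cfsg Cfsg.Agent.Lib.Helper5

namespace Cfsg.Agent.S3180

theorem conj_pair {G : Type*} [Group G] [Finite G] {p : ℕ} [Fact p.Prime] (P : Sylow p G)
    (C U₁ U₂ : Subgroup G) (h₁ : IsPGroup p U₁) (h₂ : IsPGroup p U₂) (hC₁ : U₁ ≤ C) (hC₂ : U₂ ≤ C) :
    ∃ c ∈ C, ∃ u : G, (∀ a ∈ U₁, u * a * u⁻¹ ∈ (P : Subgroup G)) ∧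
      (∀ a ∈ U₂, u * (c * a * c⁻¹) * u⁻¹ ∈ (P : Subgroup G)) := by
  have h₁' : IsPGroup p (U₁.subgroupOf C) := h₁.comap_subtype
  have h₂' : IsPGroup p (U₂.subgroupOf C) := h₂.comap_subtype
  obtain ⟨R, hR⟩ := h₁'.exists_le_sylow
  obtain ⟨R', hR'⟩ := h₂'.exists_le_sylow
  obtain ⟨c, hc⟩ := MulAction.exists_smul_eq C R' R
  have hR₀ : IsPGroup p ((R : Subgroup C).map C.subtype) := R.isPGroup'.map _
  obtain ⟨P', hP'⟩ := hR₀.exists_le_sylow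
  obtain ⟨u, hu⟩ := MulAction.exists_smul_eq G P' P
  have key : ∀ r : C, r ∈ (R : Subgroup C) → u * (r : G) * u⁻¹ ∈ (P : Subgroup G) := by
    intro r hr
    have h1 : (r : G) ∈ (P' : Subgroup G) := hP' ⟨r, hr, rfl⟩
    rw [← hu, mem_sylow_smul_iff]
    have e : u⁻¹ * (u * (r : G) * u⁻¹) * u = r := by group
    rw [e]; exact h1
  refine ⟨c, c.2, u, ?_, ?_⟩
  · intro a ha
    exact key ⟨a, hC₁ ha⟩ (hR (Subgroup.mem_subgroupOf.mpr ha))
  · intro a ha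
    have h1 : (⟨a, hC₂ ha⟩ : C) ∈ (R' : Subgroup C) := hR' (Subgroup.mem_subgroupOf.mpr ha)
    have h2 : c * ⟨a, hC₂ ha⟩ * c⁻¹ ∈ (R : Subgroup C) := by
      rw [← hc, mem_sylow_smul_iff]
      have e : c⁻¹ * (c * ⟨a, hC₂ ha⟩ * c⁻¹) * c = ⟨a, hC₂ ha⟩ := by group
      rw [e]; exact h1
    exact key _ h2

/-- Let P be a Sylow p-subgroup of a finite group J and P₁ a subgroup of P that is weakly closed in P with respect to J. If J acts on a set and two points, each fixed by every element of P₁, lie in one J-orbit, then they lie in one orbit of the normalizer of P₁ in J. -/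
theorem result {J : Type*} [Group J] [Finite J]
    {p : ℕ} [Fact p.Prime] (P : Sylow p J) (P₁ : Subgroup J) (hW : Cfsg.IsWeaklyClosed P₁ (P : Subgroup J))
    {Ω : Type*} [MulAction J Ω] (x y : Ω) (hx : ∀ g ∈ P₁, g • x = x) (hy : ∀ g ∈ P₁, g • y = y)
    (hc : ∃ g : J, g • x = y) :
    ∃ g ∈ Subgroup.normalizer (P₁ : Set J), g • x = y := by
  obtain ⟨g, hg⟩ := hc
  have hP₁p : IsPGroup p P₁ := P.isPGroup'.to_le hW.1
  have h1 : P₁ ≤ MulAction.stabilizer J x := fun a ha => MulAction.mem_stabilizer_iff.mpr (hx a ha)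
  have h2 : P₁.map (MulAut.conj g⁻¹).toMonoidHom ≤ MulAction.stabilizer J x := by
    rintro _ ⟨a, ha, rfl⟩
    rw [MulAction.mem_stabilizer_iff]
    show (g⁻¹ * a * g⁻¹⁻¹) • x = x
    rw [inv_inv, mul_smul, mul_smul, hg, hy a ha, ← hg, inv_smul_smul]
  obtain ⟨c, hc, u, hu1, hu2⟩ := conj_pair P _ _ _ hP₁p (hP₁p.map _) h1 h2
  have hun : P₁.map (MulAut.conj u).toMonoidHom = P₁ := by
    apply hW.2
    rintro _ ⟨a, ha, rfl⟩
    exact hu1 a ha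
  have hvn : P₁.map (MulAut.conj (u * c * g⁻¹)).toMonoidHom = P₁ := by
    apply hW.2
    rintro _ ⟨a, ha, rfl⟩
    have h3 := hu2 _ ⟨a, ha, rfl⟩
    show u * c * g⁻¹ * a * (u * c * g⁻¹)⁻¹ ∈ _
    have e : u * c * g⁻¹ * a * (u * c * g⁻¹)⁻¹ =
        u * (c * ((MulAut.conj g⁻¹).toMonoidHom a) * c⁻¹) * u⁻¹ := by
      show u * c * g⁻¹ * a * (u * c * g⁻¹)⁻¹ = u * (c * (g⁻¹ * a * g⁻¹⁻¹) * c⁻¹) * u⁻¹
      group
    rw [e]; exact h3
  have hu' : u ∈ Subgroup.normalizer (P₁ : Set J) := by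
    apply mem_normalizer_of_forall_conj_mem
    intro a ha
    have h3 : u * a * u⁻¹ ∈ P₁.map (MulAut.conj u).toMonoidHom := ⟨a, ha, rfl⟩
    rwa [hun] at h3
  have hv' : u * c * g⁻¹ ∈ Subgroup.normalizer (P₁ : Set J) := by
    apply mem_normalizer_of_forall_conj_mem
    intro a ha
    have h3 : (u * c * g⁻¹) * a * (u * c * g⁻¹)⁻¹ ∈ P₁.map (MulAut.conj (u * c * g⁻¹)).toMonoidHom :=
      ⟨a, ha, rfl⟩
    rwa [hvn] at h3
  have h4 : g * c⁻¹ ∈ Subgroup.normalizer (P₁ : Set J) := by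
    have h5 := inv_mem (mul_mem (inv_mem hu') hv')
    have e : (u⁻¹ * (u * c * g⁻¹))⁻¹ = g * c⁻¹ := by group
    rw [e] at h5; exact h5
  refine ⟨g * c⁻¹, h4, ?_⟩
  have h6 : c⁻¹ • x = x := MulAction.mem_stabilizer_iff.mp (inv_mem hc)
  rw [mul_smul, h6, hg]

end Cfsg.Agent.S3180
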