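import Cfsg.Statements.S3196
import Mathlib

set_option autoImplicit false
open Cfsg

namespace Cfsg.Agent.S3196


variable {G : Type*} [Group G]

/-- elementwise commuting of two subgroups -/
def Cm (X Y : Subgroup G) : Prop := ∀ x ∈ X, ∀ y ∈ Y, x * y = y * x

theorem cm_symm {X Y : Subgroup G} (h : Cm X Y) : Cm Y X := fun y hy x hx => (h x hx y hy).symm

theorem gen_pow {p : ℕ} (hp : p.Prime) {X : Subgroup G} (hX : Nat.card X = p) {x : G} (hx : x ∈ X)
    (hx1 : x ≠ 1) : ∀ y ∈ X, ∃ k : ℤ, x ^ k = y := by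
  haveI := Fact.mk hp
  have h := zpowers_eq_top_of_prime_card (G := X) hX (g := ⟨x, hx⟩) (by simpa [Subtype.ext_iff] using hx1)
  intro y hy
  have hm : (⟨y, hy⟩ : X) ∈ Subgroup.zpowers (⟨x, hx⟩ : X) := by rw [h]; trivial
  obtain ⟨k, hk⟩ := Subgroup.mem_zpowers_iff.1 hm
  exact ⟨k, by simpa using congrArg Subtype.val hk⟩

theorem cm_of_gen {p : ℕ} (hp : p.Prime) {X Y : Subgroup G} (hX : Nat.card X = p) (hY : Nat.card Y = p)
    {x y : G} (hx : x ∈ X) (hx1 : x ≠ 1) (hy : y ∈ Y) (hy1 : y ≠ 1) (h : x * y = y * x) : Cm X Y := by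
  intro a ha b hb
  obtain ⟨k, rfl⟩ := gen_pow hp hX hx hx1 a ha
  obtain ⟨l, rfl⟩ := gen_pow hp hY hy hy1 b hb
  exact (Commute.zpow_zpow (show Commute x y from h) k l).eq

theorem cm_self {p : ℕ} (hp : p.Prime) {X : Subgroup G} (hX : Nat.card X = p) : Cm X X := by
  intro a ha b hb
  by_cases ha1 : a = 1
  · subst ha1; simp
  obtain ⟨l, rfl⟩ := gen_pow hp hX ha ha1 b hb
  exact (Commute.zpow_right (Commute.refl a) l).eq

theorem eq_of_mem {p : ℕ} (hp : p.Prime) {X Y : Subgroup G} (hX : Nat.card X = p) (hY : Nat.card Y = p)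
    {x : G} (hx : x ∈ X) (hy : x ∈ Y) (hx1 : x ≠ 1) : X = Y := by
  apply le_antisymm
  · intro a ha
    obtain ⟨k, rfl⟩ := gen_pow hp hX hx hx1 a ha
    exact Y.zpow_mem hy k
  · intro a ha
    obtain ⟨k, rfl⟩ := gen_pow hp hY hy hx1 a ha
    exact X.zpow_mem hx k

theorem mem_sup_comm {X Y : Subgroup G} (h : Cm X Y) {z : G} (hz : z ∈ X ⊔ Y) :
    ∃ a ∈ X, ∃ b ∈ Y, z = a * b := by
  let P : Subgroup G :=
    { carrier := {z | ∃ a ∈ X, ∃ b ∈ Y, z = a * b}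
      mul_mem' := by
        rintro _ _ ⟨a, ha, b, hb, rfl⟩ ⟨a', ha', b', hb', rfl⟩
        refine ⟨a * a', X.mul_mem ha ha', b * b', Y.mul_mem hb hb', ?_⟩
        have := h a' ha' b hb
        calc a * b * (a' * b') = a * (b * a') * b' := by group
          _ = a * (a' * b) * b' := by rw [this]
          _ = a * a' * (b * b') := by group
      one_mem' := ⟨1, X.one_mem, 1, Y.one_mem, by simp⟩
      inv_mem' := by
        rintro _ ⟨a, ha, b, hb, rfl⟩
        refine ⟨a⁻¹, X.inv_mem ha, b⁻¹, Y.inv_mem hb, ?_⟩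
        have := h a⁻¹ (X.inv_mem ha) b⁻¹ (Y.inv_mem hb)
        rw [this]; group }
  have hle : X ⊔ Y ≤ P :=
    sup_le (fun a ha => ⟨a, ha, 1, Y.one_mem, by simp⟩) (fun b hb => ⟨1, X.one_mem, b, hb, by simp⟩)
  exact hle hz

theorem pow_mem_K {p : ℕ} {X : Subgroup G} (hX : Nat.card X = p) {x : G} (hx : x ∈ X) : x ^ p = 1 := by
  have := pow_card_eq_one' (G := X) (x := ⟨x, hx⟩)
  rw [hX] at this
  simpa using congrArg Subtype.val this

theorem card_zpowers_of {p : ℕ} (hp : p.Prime) {z : G} (hz : z ^ p = 1) (hz1 : z ≠ 1) :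
    Nat.card (Subgroup.zpowers z) = p := by
  haveI := Fact.mk hp
  rw [Nat.card_zpowers]; exact orderOf_eq_prime hz hz1

theorem comm_id1 (A x t : G) (hA : Commute t A) (hx : Commute t x) :
    A⁻¹ * (x * t)⁻¹ * A * (x * t) = A⁻¹ * x⁻¹ * A * x := by
  have hA' : A⁻¹ * t⁻¹ = t⁻¹ * A⁻¹ := by rw [← mul_inv_rev, ← mul_inv_rev, hA.eq]
  have hw : t * (A⁻¹ * x⁻¹ * A * x) = (A⁻¹ * x⁻¹ * A * x) * t :=
    (((hA.inv_right.mul_right hx.inv_right).mul_right hA).mul_right hx).eq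
  calc A⁻¹ * (x * t)⁻¹ * A * (x * t) = (A⁻¹ * t⁻¹) * x⁻¹ * A * x * t := by group
    _ = t⁻¹ * ((A⁻¹ * x⁻¹ * A * x) * t) := by rw [hA']; group
    _ = t⁻¹ * (t * (A⁻¹ * x⁻¹ * A * x)) := by rw [hw]
    _ = A⁻¹ * x⁻¹ * A * x := by group

theorem comm_id2 (a x t : G) (ha : Commute t a) (hx : Commute t x) :
    (a * t)⁻¹ * x⁻¹ * (a * t) * x = a⁻¹ * x⁻¹ * a * x := by
  have hw : t * (a⁻¹ * x⁻¹ * a * x) = (a⁻¹ * x⁻¹ * a * x) * t :=
    (((ha.inv_right.mul_right hx.inv_right).mul_right ha).mul_right hx).eq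
  calc (a * t)⁻¹ * x⁻¹ * (a * t) * x = t⁻¹ * (a⁻¹ * x⁻¹ * a) * (t * x) := by group
    _ = t⁻¹ * (a⁻¹ * x⁻¹ * a) * (x * t) := by rw [hx.eq]
    _ = t⁻¹ * ((a⁻¹ * x⁻¹ * a * x) * t) := by group
    _ = t⁻¹ * (t * (a⁻¹ * x⁻¹ * a * x)) := by rw [hw]
    _ = a⁻¹ * x⁻¹ * a * x := by group

theorem exists_radical [Finite G] {p : ℕ} (hp : p.Prime) (K : Set (Subgroup G))
    (hK : ∀ X ∈ K, Nat.card ↥X = p)
    (hKc : ∀ X ∈ K, ∀ g : G, X.map (MulAut.conj g).toMonoidHom ∈ K)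
    (hex : ∃ X ∈ K, ∃ Y ∈ K, X ≠ Y ∧ Cm X Y)
    (ha : ∀ X ∈ K, ∀ Y ∈ K, X ≠ Y → Cm X Y →
      ∀ Z : Subgroup G, Z ≤ X ⊔ Y → Nat.card ↥Z = p → Z ∈ K)
    (hb : ∀ X ∈ K, ∀ Y ∈ K, X ≠ Y → Cm X Y →
      ∀ W ∈ K, (X ⊔ Y) ⊓ Subgroup.centralizer (W : Set G) ≠ ⊥) :
    ∃ V ∈ K, ∀ W ∈ K, Cm V W := by
  classical
  have pt : ∀ X ∈ K, ∀ Y ∈ K, X ≠ Y → Cm X Y → ∀ z ∈ X ⊔ Y, z ≠ 1 → Subgroup.zpowers z ∈ K := by
    intro X hX Y hY hne hc z hz hz1
    apply ha X hX Y hY hne hc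
    · rw [Subgroup.zpowers_le]; exact hz
    · obtain ⟨a, haX, b, hbY, rfl⟩ := mem_sup_comm hc hz
      apply card_zpowers_of hp _ hz1
      rw [(show Commute a b from hc a haX b hbY).mul_pow, pow_mem_K (hK X hX) haX,
        pow_mem_K (hK Y hY) hbY, one_mul]
  have ln : ∀ X ∈ K, ∀ Y ∈ K, X ≠ Y → Cm X Y → ∀ W ∈ K,
      ∃ a ∈ X, ∃ b ∈ Y, a * b ≠ 1 ∧ ∀ w ∈ W, w * (a * b) = (a * b) * w := by
    intro X hX Y hY hne hc W hW
    obtain ⟨⟨z, hz⟩, hz1⟩ := (Subgroup.ne_bot_iff_exists_ne_one).1 (hb X hX Y hY hne hc W hW)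
    obtain ⟨a, haX, b, hbY, rfl⟩ := mem_sup_comm hc hz.1
    refine ⟨a, haX, b, hbY, by simpa [Subtype.ext_iff] using hz1, ?_⟩
    intro w hw
    exact (Subgroup.mem_centralizer_iff.1 hz.2 w hw)
  by_contra hno
  push_neg at hno
  obtain ⟨X0, hX0, Y0, hY0, hne0, hc0⟩ := hex
  have hKfin : K.Finite := Set.toFinite K
  obtain ⟨d, hd, hmax⟩ := Set.exists_max_image K (fun d => {y | y ∈ K ∧ Cm d y}.ncard) hKfin ⟨X0, hX0⟩
  obtain ⟨u, hu, hdu⟩ := hno d hd
  have hud : ¬ Cm u d := fun h => hdu (cm_symm h)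
  have hA : ∃ x ∈ K, ∃ w ∈ K, Cm d x ∧ Cm u x ∧ Cm d w ∧ Cm u w ∧ ¬ Cm x w := by
    by_contra hM
    push_neg at hM
    have h2 : ∀ y ∈ K, y ≠ d → Cm d y → ∃ Z ∈ K, Cm d Z ∧ Cm u Z ∧ y ≤ d ⊔ Z := by
      intro y hy hyd hdy
      obtain ⟨a, had, b, hby, hab1, hcent⟩ := ln d hd y hy (Ne.symm hyd) hdy u hu
      have hZK : Subgroup.zpowers (a * b) ∈ K := pt d hd y hy (Ne.symm hyd) hdy _
        (Subgroup.mul_mem _ (Subgroup.mem_sup_left had) (Subgroup.mem_sup_right hby)) hab1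
      have hdz : ∀ g ∈ d, g * (a * b) = (a * b) * g := by
        intro g hg
        have e1 := cm_self hp (hK d hd) g hg a had
        have e2 := hdy g hg b hby
        rw [← mul_assoc, e1, mul_assoc, e2, mul_assoc]
      have hdZ : Cm d (Subgroup.zpowers (a * b)) := by
        intro g hg z hz
        obtain ⟨k, rfl⟩ := Subgroup.mem_zpowers_iff.1 hz
        exact (Commute.zpow_right (hdz g hg) k).eq
      have huZ : Cm u (Subgroup.zpowers (a * b)) := by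
        intro g hg z hz
        obtain ⟨k, rfl⟩ := Subgroup.mem_zpowers_iff.1 hz
        exact (Commute.zpow_right (hcent g hg) k).eq
      refine ⟨_, hZK, hdZ, huZ, ?_⟩
      have hb1 : b ≠ 1 := by
        rintro rfl
        rw [mul_one] at hab1 hZK huZ
        have : Subgroup.zpowers a = d :=
          eq_of_mem hp (hK _ hZK) (hK d hd) (Subgroup.mem_zpowers a) had hab1
        rw [this] at huZ
        exact hud huZ
      intro g hg
      obtain ⟨k, rfl⟩ := gen_pow hp (hK y hy) hby hb1 g hg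
      apply Subgroup.zpow_mem
      have hbm : a⁻¹ * (a * b) ∈ d ⊔ Subgroup.zpowers (a * b) :=
        Subgroup.mul_mem _ (Subgroup.mem_sup_left (d.inv_mem had))
          (Subgroup.mem_sup_right (Subgroup.mem_zpowers _))
      rwa [inv_mul_cancel_left] at hbm
    have h1 : ∃ y ∈ K, y ≠ d ∧ Cm d y := by
      obtain ⟨a, haX, b, hbY, hab1, hcent⟩ := ln X0 hX0 Y0 hY0 hne0 hc0 d hd
      have hZK := pt X0 hX0 Y0 hY0 hne0 hc0 _
        (Subgroup.mul_mem _ (Subgroup.mem_sup_left haX) (Subgroup.mem_sup_right hbY)) hab1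
      by_cases hZd : Subgroup.zpowers (a * b) = d
      · have hdle : ∀ g ∈ d, g ∈ X0 ⊔ Y0 := by
          intro g hg
          rw [← hZd] at hg
          obtain ⟨k, rfl⟩ := Subgroup.mem_zpowers_iff.1 hg
          exact Subgroup.zpow_mem _
            (Subgroup.mul_mem _ (Subgroup.mem_sup_left haX) (Subgroup.mem_sup_right hbY)) k
        have hdX : Cm d X0 := by
          intro g hg x hx
          obtain ⟨a', ha', b', hb', rfl⟩ := mem_sup_comm hc0 (hdle g hg)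
          have e1 := cm_self hp (hK X0 hX0) a' ha' x hx
          have e2 := hc0 x hx b' hb'
          rw [mul_assoc, ← e2, ← mul_assoc, e1, mul_assoc]
        have hdY : Cm d Y0 := by
          intro g hg y hy
          obtain ⟨a', ha', b', hb', rfl⟩ := mem_sup_comm hc0 (hdle g hg)
          have e1 := cm_self hp (hK Y0 hY0) b' hb' y hy
          have e2 := hc0 a' ha' y hy
          rw [mul_assoc, e1, ← mul_assoc, e2, mul_assoc]
        by_cases hXd : X0 = d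
        · exact ⟨Y0, hY0, fun h => hne0 (hXd.trans h.symm), hdY⟩
        · exact ⟨X0, hX0, hXd, hdX⟩
      · refine ⟨_, hZK, hZd, ?_⟩
        intro g hg z hz
        obtain ⟨k, rfl⟩ := Subgroup.mem_zpowers_iff.1 hz
        exact (Commute.zpow_right (hcent g hg) k).eq
    obtain ⟨y1, hy1, hy1d, hdy1⟩ := h1
    obtain ⟨x, hx, hdx, hux, -⟩ := h2 y1 hy1 hy1d hdy1
    have hsub : {y | y ∈ K ∧ Cm d y} ⊂ {y | y ∈ K ∧ Cm x y} := by
      refine (Set.ssubset_iff_exists).2 ⟨?_, u, ⟨hu, cm_symm hux⟩, fun h => hdu h.2⟩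
      rintro y ⟨hy, hdy⟩
      refine ⟨hy, ?_⟩
      by_cases hyd : y = d
      · rw [hyd]; exact cm_symm hdx
      obtain ⟨Z, hZ, hdZ, huZ, hyle⟩ := h2 y hy hyd hdy
      have hxZ : Cm x Z := hM x hx Z hZ hdx hux hdZ huZ
      intro g hg z hz
      obtain ⟨a', ha', b', hb', rfl⟩ := mem_sup_comm hdZ (hyle hz)
      have e1 := hdx a' ha' g hg
      have e2 := hxZ g hg b' hb'
      rw [← mul_assoc, ← e1, mul_assoc, e2, mul_assoc]
    have h3 := Set.ncard_lt_ncard hsub (Set.toFinite _)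
    have h4 := hmax x hx
    exact absurd h4 (not_le.2 h3)
  obtain ⟨x, hx, w, hw, hdx, hux, hdw, huw, hxw⟩ := hA
  have hdu' : ∃ d₀ ∈ d, ∃ u₀ ∈ u, d₀ * u₀ ≠ u₀ * d₀ := by
    by_contra h; push_neg at h; exact hdu h
  obtain ⟨d₀, hd₀, u₀, hu₀, hdu₀⟩ := hdu'
  have hxw' : ∃ x₀ ∈ x, ∃ w₀ ∈ w, x₀ * w₀ ≠ w₀ * x₀ := by
    by_contra h; push_neg at h; exact hxw h
  obtain ⟨x₀, hx₀, w₀, hw₀, hxw₀⟩ := hxw'
  have hd₀1 : d₀ ≠ 1 := by rintro rfl; simp at hdu₀
  have hx₀1 : x₀ ≠ 1 := by rintro rfl; simp at hxw₀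
  have hxd : x ≠ d := by rintro rfl; exact hud hux
  have hwu : w ≠ u := by rintro rfl; exact hdu hdw
  have hxd1 : x₀ * d₀ ≠ 1 := by
    intro h
    have hx₀d : x₀ ∈ d := by
      have : x₀ = d₀⁻¹ := eq_inv_of_mul_eq_one_left h
      rw [this]; exact d.inv_mem hd₀
    exact hxd (eq_of_mem hp (hK x hx) (hK d hd) hx₀ hx₀d hx₀1)
  have hP1 := pt x hx d hd hxd (cm_symm hdx) _
    (Subgroup.mul_mem _ (Subgroup.mem_sup_left hx₀) (Subgroup.mem_sup_right hd₀)) hxd1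
  obtain ⟨a, haw, b, hbu, hab1, hcent⟩ := ln w hw u hu hwu (cm_symm huw) _ hP1
  have hz := hcent (x₀ * d₀) (Subgroup.mem_zpowers _)
  have c1 : d₀ * a = a * d₀ := hdw d₀ hd₀ a haw
  have c2 : b * x₀ = x₀ * b := hux b hbu x₀ hx₀
  have c3 : a * b = b * a := (cm_symm huw) a haw b hbu
  have c4 : d₀ * x₀ = x₀ * d₀ := hdx d₀ hd₀ x₀ hx₀
  have key : a⁻¹ * x₀⁻¹ * a * x₀ = d₀ * b * d₀⁻¹ * b⁻¹ := by
    have e : a * x₀ * (b * d₀) = x₀ * a * (d₀ * b) := by
      calc a * x₀ * (b * d₀) = a * (x₀ * b) * d₀ := by group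
        _ = a * (b * x₀) * d₀ := by rw [c2]
        _ = a * b * (x₀ * d₀) := by group
        _ = x₀ * d₀ * (a * b) := hz.symm
        _ = x₀ * (d₀ * a) * b := by group
        _ = x₀ * (a * d₀) * b := by rw [c1]
        _ = x₀ * a * (d₀ * b) := by group
    calc a⁻¹ * x₀⁻¹ * a * x₀ = (x₀ * a)⁻¹ * (a * x₀ * (b * d₀)) * (b * d₀)⁻¹ := by group
      _ = (x₀ * a)⁻¹ * (x₀ * a * (d₀ * b)) * (b * d₀)⁻¹ := by rw [e]
      _ = d₀ * b * d₀⁻¹ * b⁻¹ := by group
  obtain ⟨c, hcdef⟩ : ∃ c, c = a⁻¹ * x₀⁻¹ * a * x₀ := ⟨_, rfl⟩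
  have hc2 : c = d₀ * b * d₀⁻¹ * b⁻¹ := hcdef.trans key
  have hcx : Commute c x₀ := by
    rw [hc2]
    have h1 : Commute d₀ x₀ := c4
    have h2 : Commute b x₀ := c2
    exact ((h1.mul_left h2).mul_left h1.inv_left).mul_left h2.inv_left
  have hca : Commute c a := by
    rw [hc2]
    have h1 : Commute d₀ a := c1
    have h2 : Commute b a := c3.symm
    exact ((h1.mul_left h2).mul_left h1.inv_left).mul_left h2.inv_left
  have ha1 : a ≠ 1 := by
    rintro rfl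
    have hb1 : b ≠ 1 := by simpa using hab1
    have hc1 : c = 1 := by rw [hcdef]; group
    rw [hc1] at hc2
    have : d₀ * b = b * d₀ := by
      have h5 : d₀ * b * d₀⁻¹ * b⁻¹ = 1 := hc2.symm
      calc d₀ * b = (d₀ * b * d₀⁻¹ * b⁻¹) * (b * d₀) := by group
        _ = b * d₀ := by rw [h5, one_mul]
    exact hdu (cm_of_gen hp (hK d hd) (hK u hu) hd₀ hd₀1 hbu hb1 this)
  have hax : a * x₀ ≠ x₀ * a := by
    intro h
    exact hxw (cm_symm (cm_of_gen hp (hK w hw) (hK x hx) haw ha1 hx₀ hx₀1 h))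
  have hc1 : c ≠ 1 := by
    intro h
    apply hax
    rw [hcdef] at h
    calc a * x₀ = x₀ * a * (a⁻¹ * x₀⁻¹ * a * x₀) := by group
      _ = x₀ * a := by rw [h, mul_one]
  have hCx : ∀ t ∈ Subgroup.zpowers c, Commute t x₀ := by
    intro t ht; obtain ⟨k, rfl⟩ := Subgroup.mem_zpowers_iff.1 ht; exact hcx.zpow_left k
  have hCa : ∀ t ∈ Subgroup.zpowers c, Commute t a := by
    intro t ht; obtain ⟨k, rfl⟩ := Subgroup.mem_zpowers_iff.1 ht; exact hca.zpow_left k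
  have hCC : ∀ t ∈ Subgroup.zpowers c, ∀ t' ∈ Subgroup.zpowers c, Commute t t' := by
    intro t ht t' ht'
    obtain ⟨k, rfl⟩ := Subgroup.mem_zpowers_iff.1 ht
    obtain ⟨l, rfl⟩ := Subgroup.mem_zpowers_iff.1 ht'
    exact Commute.zpow_zpow (Commute.refl c) k l
  have hX' := hKc x hx a⁻¹
  obtain ⟨e, hedef⟩ : ∃ e, e = a⁻¹ * x₀ * a := ⟨_, rfl⟩
  have heX' : e ∈ x.map (MulAut.conj a⁻¹).toMonoidHom := by
    refine ⟨x₀, hx₀, ?_⟩
    simp [hedef, MulAut.conj_apply]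
  have hce : c = e⁻¹ * x₀ := by rw [hcdef, hedef]; group
  have hex₀ : Commute e x₀ := by
    have : e = x₀ * c⁻¹ := by rw [hcdef, hedef]; group
    rw [this]; exact (Commute.refl x₀).mul_left hcx.inv_left
  have he1 : e ≠ 1 := by
    intro h; rw [hedef] at h
    apply hx₀1
    calc x₀ = a * (a⁻¹ * x₀ * a) * a⁻¹ := by group
      _ = 1 := by rw [h]; group
  have hxX' : Cm x (x.map (MulAut.conj a⁻¹).toMonoidHom) :=
    cm_of_gen hp (hK x hx) (hK _ hX') hx₀ hx₀1 heX' he1 hex₀.symm.eq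
  have hcnx : c ∉ x := by
    intro hcx'
    obtain ⟨k, hk⟩ := gen_pow hp (hK x hx) hcx' hc1 x₀ hx₀
    apply hax
    rw [← hk]; exact (hca.zpow_left k).symm.eq
  have hxneX' : x ≠ x.map (MulAut.conj a⁻¹).toMonoidHom := by
    intro h
    apply hcnx
    rw [hce]
    exact x.mul_mem (x.inv_mem (h ▸ heX')) hx₀
  have hC : Subgroup.zpowers c ∈ K := by
    apply pt x hx _ hX' hxneX' hxX' c _ hc1
    rw [hce]
    exact Subgroup.mul_mem _ (Subgroup.inv_mem _ (Subgroup.mem_sup_right heX'))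
      (Subgroup.mem_sup_left hx₀)
  have hxC : x ≠ Subgroup.zpowers c := by
    intro h; apply hcnx; rw [h]; exact Subgroup.mem_zpowers c
  have hwC : w ≠ Subgroup.zpowers c := by
    intro h
    have : a ∈ Subgroup.zpowers c := h ▸ haw
    exact hax (hCx a this).eq
  have hcmxC : Cm x (Subgroup.zpowers c) :=
    cm_of_gen hp (hK x hx) (hK _ hC) hx₀ hx₀1 (Subgroup.mem_zpowers c) hc1 hcx.symm.eq
  have hcmwC : Cm w (Subgroup.zpowers c) :=
    cm_of_gen hp (hK w hw) (hK _ hC) haw ha1 (Subgroup.mem_zpowers c) hc1 hca.symm.eq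
  obtain ⟨W, hW, hCW⟩ := hno _ hC
  apply hCW
  have hyc : ∀ y ∈ W, Commute y c := by
    intro y hy
    obtain ⟨s, hs, t, ht, hst1, hcen1⟩ := ln x hx _ hC hxC hcmxC W hW
    obtain ⟨s', hs', t', ht', hst1', hcen1'⟩ := ln w hw _ hC hwC hcmwC W hW
    have hy1 : Commute y (s * t) := hcen1 y hy
    have hy2 : Commute y (s' * t') := hcen1' y hy
    by_cases hs1 : s = 1
    · subst hs1
      rw [one_mul] at hy1 hst1
      obtain ⟨k, hk⟩ := gen_pow hp (hK _ hC) ht hst1 c (Subgroup.mem_zpowers c)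
      rw [← hk]; exact hy1.zpow_right k
    by_cases hs1' : s' = 1
    · subst hs1'
      rw [one_mul] at hy2 hst1'
      obtain ⟨k, hk⟩ := gen_pow hp (hK _ hC) ht' hst1' c (Subgroup.mem_zpowers c)
      rw [← hk]; exact hy2.zpow_right k
    obtain ⟨k, hk⟩ := gen_pow hp (hK x hx) hs hs1 x₀ hx₀
    obtain ⟨l, hl⟩ := gen_pow hp (hK w hw) hs' hs1' a haw
    have hst : Commute s t := hcmxC s hs t ht
    have hst' : Commute s' t' := hcmwC s' hs' t' ht'
    have e1 : (s * t) ^ k = x₀ * t ^ k := by rw [hst.mul_zpow, hk]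
    have e2 : (s' * t') ^ l = a * t' ^ l := by rw [hst'.mul_zpow, hl]
    have hy1' : Commute y (x₀ * t ^ k) := e1 ▸ hy1.zpow_right k
    have hy2' : Commute y (a * t' ^ l) := e2 ▸ hy2.zpow_right l
    have htk : t ^ k ∈ Subgroup.zpowers c := Subgroup.zpow_mem _ ht k
    have htl : t' ^ l ∈ Subgroup.zpowers c := Subgroup.zpow_mem _ ht' l
    have hfin : (a * t' ^ l)⁻¹ * (x₀ * t ^ k)⁻¹ * (a * t' ^ l) * (x₀ * t ^ k) = c := by
      rw [comm_id1 (a * t' ^ l) x₀ (t ^ k) ((hCa _ htk).mul_right (hCC _ htk _ htl)) (hCx _ htk),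
        comm_id2 a x₀ (t' ^ l) (hCa _ htl) (hCx _ htl), hcdef]
    rw [← hfin]
    exact ((hy2'.inv_right.mul_right hy1'.inv_right).mul_right hy2').mul_right hy1'
  intro v hv y hy
  obtain ⟨k, rfl⟩ := Subgroup.mem_zpowers_iff.1 hv
  exact ((hyc y hy).zpow_right k).symm.eq

/-- Let p be a prime and K a set of subgroups of order p of a finite group G, closed under conjugation, such that at least two distinct members of K commute elementwise, and whenever two distinct members X, Y of K commute: every subgroup of order p of the group XY they generate belongs to K, and every member W of K has centralizer meeting XY nontrivially. Then some member V of K commutes elementwise with every member of K and lies in O_p(G); in particular G is not simple. -/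
theorem result {G : Type*} [Group G] [Finite G]
    {p : ℕ} (hp : p.Prime) (K : Set (Subgroup G)) (hK : ∀ X ∈ K, Nat.card ↥X = p)
    (hKc : ∀ X ∈ K, ∀ g : G, X.map (MulAut.conj g).toMonoidHom ∈ K)
    (hex : ∃ X ∈ K, ∃ Y ∈ K, X ≠ Y ∧ ∀ x ∈ X, ∀ y ∈ Y, x * y = y * x)
    (ha : ∀ X ∈ K, ∀ Y ∈ K, X ≠ Y → (∀ x ∈ X, ∀ y ∈ Y, x * y = y * x) →
      ∀ Z : Subgroup G, Z ≤ X ⊔ Y → Nat.card ↥Z = p → Z ∈ K)
    (hb : ∀ X ∈ K, ∀ Y ∈ K, X ≠ Y → (∀ x ∈ X, ∀ y ∈ Y, x * y = y * x) →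
      ∀ W ∈ K, (X ⊔ Y) ⊓ Subgroup.centralizer (W : Set G) ≠ ⊥) :
    (∃ V ∈ K, (∀ W ∈ K, ∀ v ∈ V, ∀ w ∈ W, v * w = w * v) ∧ V ≤ Cfsg.pCore p G) ∧ ¬ IsSimpleGroup G := by
  classical
  obtain ⟨V, hV, hVc⟩ := exists_radical hp K hK hKc hex ha hb
  have hconj : ∀ g : G, ∀ W ∈ K, ∀ v ∈ V, ∀ w ∈ W, (g * v * g⁻¹) * w = w * (g * v * g⁻¹) := by
    intro g W hW v hv w hw
    have hw' : g⁻¹ * w * g ∈ W.map (MulAut.conj g⁻¹).toMonoidHom :=
      ⟨w, hw, by simp [MulAut.conj_apply]⟩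
    have h1 := hVc _ (hKc W hW g⁻¹) v hv _ hw'
    calc g * v * g⁻¹ * w = g * (v * (g⁻¹ * w * g)) * g⁻¹ := by group
      _ = g * ((g⁻¹ * w * g) * v) * g⁻¹ := by rw [h1]
      _ = w * (g * v * g⁻¹) := by group
  have hSdesc : ∀ s ∈ Group.conjugatesOfSet (V : Set G), ∃ g : G, ∃ v ∈ V, s = g * v * g⁻¹ := by
    intro s hs
    obtain ⟨v, hv, hvs⟩ := Group.mem_conjugatesOfSet_iff.1 hs
    obtain ⟨g, hg⟩ := isConj_iff.1 hvs
    exact ⟨g, v, hv, hg.symm⟩
  have hScomm : ∀ s ∈ Group.conjugatesOfSet (V : Set G), ∀ s' ∈ Group.conjugatesOfSet (V : Set G),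
      s * s' = s' * s := by
    intro s hs s' hs'
    obtain ⟨g, v, hv, rfl⟩ := hSdesc s hs
    obtain ⟨h, v', hv', rfl⟩ := hSdesc s' hs'
    have hm : h * v' * h⁻¹ ∈ V.map (MulAut.conj h).toMonoidHom := ⟨v', hv', by simp [MulAut.conj_apply]⟩
    exact hconj g _ (hKc V hV h) v hv _ hm
  have hSpow : ∀ s ∈ Group.conjugatesOfSet (V : Set G), s ^ p = 1 := by
    intro s hs
    obtain ⟨g, v, hv, rfl⟩ := hSdesc s hs
    rw [conj_pow, pow_mem_K (hK V hV) hv]; group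
  have hNcomm : ∀ a ∈ Subgroup.normalClosure (V : Set G), ∀ b ∈ Subgroup.normalClosure (V : Set G),
      a * b = b * a := by
    have h1 : Subgroup.normalClosure (V : Set G) ≤
        Subgroup.centralizer (Group.conjugatesOfSet (V : Set G)) := by
      rw [Subgroup.normalClosure, Subgroup.closure_le]
      intro s hs
      rw [SetLike.mem_coe, Subgroup.mem_centralizer_iff]
      intro s' hs'
      exact hScomm s' hs' s hs
    have h2 : Subgroup.normalClosure (V : Set G) ≤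
        Subgroup.centralizer (Subgroup.normalClosure (V : Set G) : Set G) := by
      rw [Subgroup.le_centralizer_iff]
      rw [Subgroup.normalClosure, Subgroup.centralizer_closure]
      exact h1
    intro a ha b hb
    exact (Subgroup.mem_centralizer_iff.1 (h2 hb) a ha)
  have hNpow : ∀ a ∈ Subgroup.normalClosure (V : Set G), a ^ p = 1 := by
    intro a ha
    have ha' : a ∈ Subgroup.closure (Group.conjugatesOfSet (V : Set G)) := ha
    induction ha' using Subgroup.closure_induction with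
    | mem s hs => exact hSpow s hs
    | one => simp
    | mul x y hx hy ihx ihy =>
      rw [(show Commute x y from hNcomm x hx y hy).mul_pow, ihx hx, ihy hy, one_mul]
    | inv x hx ihx => rw [inv_pow, ihx hx, inv_one]
  have hVN : V ≤ Subgroup.normalClosure (V : Set G) := Subgroup.le_normalClosure
  have hNp : IsPGroup p ↥(Subgroup.normalClosure (V : Set G)) := by
    intro g
    refine ⟨1, ?_⟩
    apply Subtype.ext
    simpa using hNpow g.1 g.2
  refine ⟨⟨V, hV, hVc, hVN.trans (le_sSup ⟨Subgroup.normalClosure_normal, hNp⟩)⟩, ?_⟩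
  intro hs
  obtain ⟨X0, hX0, Y0, hY0, hne0, hc0⟩ := hex
  have hp1 : p ≠ 1 := hp.ne_one
  have hNtop : Subgroup.normalClosure (V : Set G) = ⊤ := by
    rcases hs.eq_bot_or_eq_top_of_normal _ (Subgroup.normalClosure_normal (s := (V : Set G))) with h | h
    · exfalso
      have hVb : V = ⊥ := le_bot_iff.1 (h ▸ hVN)
      have := hK V hV
      rw [hVb, Subgroup.card_bot] at this
      exact hp1 this.symm
    · exact h
  have hcomm : ∀ a b : G, a * b = b * a := by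
    intro a b
    exact hNcomm a (hNtop ▸ Subgroup.mem_top a) b (hNtop ▸ Subgroup.mem_top b)
  have htop : ∀ X ∈ K, X = ⊤ := by
    intro X hX
    have hXn : X.Normal := ⟨fun n hn g => by rw [hcomm g n]; simpa using hn⟩
    rcases hs.eq_bot_or_eq_top_of_normal X hXn with h | h
    · exfalso
      have := hK X hX
      rw [h, Subgroup.card_bot] at this
      exact hp1 this.symm
    · exact h
  exact hne0 ((htop X0 hX0).trans (htop Y0 hY0).symm)

end Cfsg.Agent.S3196
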