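import Cfsg.Statements.S3200
import Mathlib
import Cfsg.Agent.Lib.Lead.Hall
import Cfsg.Agent.Lib.Lead.Char8
import Cfsg.Agent.Lib.Helper5.OrbitCard

set_option autoImplicit false
open Cfsg Cfsg.Agent.Lib Pointwise

namespace Cfsg.Agent.S3200

universe u

/-- card-form hypothesis: a 2-subgroup and an abelian subgroup of odd order with product of orders `|H|` -/
def TwoAb (H : Type*) [Group H] : Prop :=
  ∃ S C : Subgroup H, IsPGroup 2 S ∧ ¬ 2 ∣ Nat.card C ∧ (∀ a ∈ C, ∀ b ∈ C, a * b = b * a) ∧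
    Nat.card S * Nat.card C = Nat.card H

theorem pow_two_mul_odd_unique {j k a b : ℕ} (h : 2 ^ j * a = 2 ^ k * b) (ha : ¬ 2 ∣ a)
    (hb : ¬ 2 ∣ b) : j = k ∧ a = b := by
  have hcb : Nat.Coprime (2 ^ j) b :=
    Nat.Coprime.pow_left j ((Nat.Prime.coprime_iff_not_dvd Nat.prime_two).mpr hb)
  have hca : Nat.Coprime (2 ^ k) a :=
    Nat.Coprime.pow_left k ((Nat.Prime.coprime_iff_not_dvd Nat.prime_two).mpr ha)
  have h1 : 2 ^ j ∣ 2 ^ k := hcb.dvd_of_dvd_mul_right ⟨a, h.symm⟩
  have h2 : 2 ^ k ∣ 2 ^ j := hca.dvd_of_dvd_mul_right ⟨b, h⟩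
  have hjk : j = k := le_antisymm ((Nat.pow_dvd_pow_iff_le_right (by norm_num)).mp h1)
    ((Nat.pow_dvd_pow_iff_le_right (by norm_num)).mp h2)
  subst hjk
  exact ⟨rfl, Nat.eq_of_mul_eq_mul_left (by positivity) h⟩

theorem twoAb_coprime {H : Type*} [Group H] [Finite H] (S C : Subgroup H) (hS : IsPGroup 2 S)
    (hC : ¬ 2 ∣ Nat.card C) : Nat.Coprime (Nat.card S) (Nat.card C) := by
  haveI : Fact (Nat.Prime 2) := ⟨Nat.prime_two⟩
  obtain ⟨i, hi⟩ := IsPGroup.iff_card.mp hS
  rw [hi]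
  exact Nat.Coprime.pow_left i ((Nat.Prime.coprime_iff_not_dvd Nat.prime_two).mpr hC)

theorem twoAb_factor {H : Type*} [Group H] [Finite H] (S C : Subgroup H) (hS : IsPGroup 2 S)
    (hC : ¬ 2 ∣ Nat.card C) (hcard : Nat.card S * Nat.card C = Nat.card H) (h : H) :
    ∃ s ∈ S, ∃ c ∈ C, h = s * c := by
  have hcomp := Subgroup.isComplement'_of_coprime hcard (twoAb_coprime S C hS hC)
  obtain ⟨x, hx, -⟩ := Subgroup.isComplement_iff_existsUnique.mp hcomp h
  exact ⟨x.1, x.1.2, x.2, x.2.2, hx.symm⟩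

theorem twoAb_quotient {H : Type*} [Group H] [Finite H] (hH : TwoAb H) (N : Subgroup H)
    [N.Normal] : TwoAb (H ⧸ N) := by
  classical
  haveI : Fact (Nat.Prime 2) := ⟨Nat.prime_two⟩
  obtain ⟨S, C, hS, hC, hc, hcard⟩ := hH
  have hS' : IsPGroup 2 (S.map (QuotientGroup.mk' N)) := hS.map _
  have hC' : ¬ 2 ∣ Nat.card (C.map (QuotientGroup.mk' N)) :=
    fun h2 => hC (h2.trans (Subgroup.card_map_dvd _ _))
  refine ⟨S.map (QuotientGroup.mk' N), C.map (QuotientGroup.mk' N), hS', hC', ?_, ?_⟩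
  · rintro _ ⟨a, ha, rfl⟩ _ ⟨b, hb, rfl⟩
    rw [← map_mul, ← map_mul, hc a ha b hb]
  · have hcop := twoAb_coprime _ _ hS' hC'
    have hdvd : Nat.card (S.map (QuotientGroup.mk' N)) * Nat.card (C.map (QuotientGroup.mk' N)) ∣
        Nat.card (H ⧸ N) :=
      Nat.Coprime.mul_dvd_of_dvd_of_dvd hcop (Subgroup.card_subgroup_dvd_card _)
        (Subgroup.card_subgroup_dvd_card _)
    have hle : Nat.card (H ⧸ N) ≤
        Nat.card (S.map (QuotientGroup.mk' N)) * Nat.card (C.map (QuotientGroup.mk' N)) := by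
      rw [← Nat.card_prod]
      apply Nat.card_le_card_of_surjective
        (fun x : (S.map (QuotientGroup.mk' N)) × (C.map (QuotientGroup.mk' N)) =>
          (x.1 : H ⧸ N) * (x.2 : H ⧸ N))
      intro y
      obtain ⟨h, rfl⟩ := QuotientGroup.mk'_surjective N y
      obtain ⟨s, hs, c, hc', rfl⟩ := twoAb_factor S C hS hC hcard h
      exact ⟨(⟨_, Subgroup.mem_map_of_mem _ hs⟩, ⟨_, Subgroup.mem_map_of_mem _ hc'⟩),
        (map_mul _ _ _).symm⟩
    exact le_antisymm (Nat.le_of_dvd Nat.card_pos hdvd) hle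

theorem twoAb_normal {H : Type*} [Group H] [Finite H] (hH : TwoAb H) (N : Subgroup H)
    [N.Normal] : TwoAb ↥N := by
  classical
  haveI : Fact (Nat.Prime 2) := ⟨Nat.prime_two⟩
  obtain ⟨S, C, hS, hC, hc, hcard⟩ := hH
  have hNtop : ∀ A : Subgroup H, A ≤ Subgroup.normalizer (N : Set H) := by
    intro A; rw [Subgroup.normalizer_eq_top]; exact le_top
  have e1 := Helper5.card_sup_mul_card_inf_of_le_normalizer S N (hNtop S)
  have e2 := Helper5.card_sup_mul_card_inf_of_le_normalizer C N (hNtop C)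
  obtain ⟨u', hu'⟩ := Subgroup.card_dvd_of_le (le_sup_left : S ≤ S ⊔ N)
  obtain ⟨v', hv'⟩ := Subgroup.card_dvd_of_le (le_sup_left : C ≤ C ⊔ N)
  have hu'c : u' ∣ Nat.card C := by
    have h1 : Nat.card ↥(S ⊔ N) ∣ Nat.card H := Subgroup.card_subgroup_dvd_card _
    rw [hu', ← hcard] at h1
    exact Nat.dvd_of_mul_dvd_mul_left Nat.card_pos h1
  have hv's : v' ∣ Nat.card S := by
    have h1 : Nat.card ↥(C ⊔ N) ∣ Nat.card H := Subgroup.card_subgroup_dvd_card _
    rw [hv', ← hcard, mul_comm (Nat.card S)] at h1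
    exact Nat.dvd_of_mul_dvd_mul_left Nat.card_pos h1
  have hn1 : Nat.card N = u' * Nat.card ↥(S ⊓ N) := by
    rw [hu', mul_assoc] at e1
    exact (Nat.eq_of_mul_eq_mul_left Nat.card_pos e1).symm
  have hn2 : Nat.card N = v' * Nat.card ↥(C ⊓ N) := by
    rw [hv', mul_assoc] at e2
    exact (Nat.eq_of_mul_eq_mul_left Nat.card_pos e2).symm
  have hS1 : IsPGroup 2 ↥(S ⊓ N) := hS.to_le inf_le_left
  obtain ⟨i, hi⟩ := IsPGroup.iff_card.mp hS1
  obtain ⟨s0, hs0⟩ := IsPGroup.iff_card.mp hS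
  rw [hs0] at hv's
  obtain ⟨j, -, hj⟩ := (Nat.dvd_prime_pow Nat.prime_two).mp hv's
  have hu'odd : ¬ 2 ∣ u' := fun h => hC (h.trans hu'c)
  have hc1odd : ¬ 2 ∣ Nat.card ↥(C ⊓ N) :=
    fun h => hC (h.trans (Subgroup.card_dvd_of_le inf_le_left))
  have hkey : u' = Nat.card ↥(C ⊓ N) := by
    have h3 : 2 ^ i * u' = 2 ^ j * Nat.card ↥(C ⊓ N) := by
      rw [← hi, ← hj, mul_comm, ← hn1, hn2]
    exact (pow_two_mul_odd_unique h3 hu'odd hc1odd).2
  refine ⟨(S ⊓ N).subgroupOf N, (C ⊓ N).subgroupOf N, ?_, ?_, ?_, ?_⟩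
  · exact hS1.comap_subtype
  · rw [Lead.card_subgroupOf_of_le inf_le_right]; exact hc1odd
  · intro a ha b hb
    rw [Subgroup.mem_subgroupOf] at ha hb
    exact Subtype.ext (hc _ ha.1 _ hb.1)
  · rw [Lead.card_subgroupOf_of_le inf_le_right, Lead.card_subgroupOf_of_le inf_le_right, hn1,
      ← hkey, mul_comm]

theorem twoAb_solvable : ∀ (n : ℕ) (H : Type u) [Group H] [Finite H], Nat.card H = n →
    TwoAb H → Group.IsSolvable H := by
  intro n
  induction n using Nat.strong_induction_on with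
  | _ n ih =>
    intro H _ _ hn hH
    classical
    haveI : Fact (Nat.Prime 2) := ⟨Nat.prime_two⟩
    by_cases hex : ∃ N : Subgroup H, N.Normal ∧ N ≠ ⊥ ∧ N ≠ ⊤
    · obtain ⟨N, hNn, hNb, hNt⟩ := hex
      haveI := hNn
      have hidx := Subgroup.card_mul_index N
      have hidx1 : N.index ≠ 1 := fun h => hNt (Subgroup.index_eq_one.mp h)
      have hidx0 : N.index ≠ 0 := Subgroup.index_ne_zero_of_finite
      have hN1 : Nat.card N ≠ 1 := fun h => hNb (Subgroup.card_eq_one.mp h)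
      have hNpos : 0 < Nat.card N := Nat.card_pos
      have hq : Nat.card (H ⧸ N) = N.index := rfl
      have h1 : Nat.card N < n := by
        have h3 : 2 ≤ N.index := by omega
        have h4 := Nat.mul_le_mul_left (Nat.card N) h3
        omega
      have h2 : Nat.card (H ⧸ N) < n := by
        have h3 : 2 ≤ Nat.card N := by omega
        have h4 := Nat.mul_le_mul_right N.index h3
        omega
      haveI := ih _ h1 ↥N rfl (twoAb_normal hH N)
      haveI := ih _ h2 (H ⧸ N) rfl (twoAb_quotient hH N)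
      exact Group.isSolvable_of_ker_le_range N.subtype (QuotientGroup.mk' N)
        (by rw [QuotientGroup.ker_mk', Subgroup.range_subtype])
    · push_neg at hex
      obtain ⟨S, C, hS, hC, hc, hcard⟩ := hH
      by_cases hCb : C = ⊥
      · have hHS : IsPGroup 2 H := by
          rw [hCb, Subgroup.card_bot, mul_one] at hcard
          obtain ⟨k, hk⟩ := IsPGroup.iff_card.mp hS
          exact IsPGroup.of_card (n := k) (by rw [← hcard, hk])
        haveI := hHS.isNilpotent
        exact inferInstance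
      · obtain ⟨c, hcC, hc1⟩ : ∃ c ∈ C, c ≠ 1 := by
          by_contra hcon
          push_neg at hcon
          exact hCb (eq_bot_iff.mpr (fun x hx => Subgroup.mem_bot.mpr (hcon x hx)))
        haveI : Nontrivial H := ⟨⟨c, 1, hc1⟩⟩
        haveI : IsSimpleGroup H := ⟨fun N hN => by
          by_cases hNb : N = ⊥
          · exact Or.inl hNb
          · exact Or.inr (hex N hN hNb)⟩
        have hCle : C ≤ Subgroup.centralizer ({c} : Set H) := by
          intro x hx
          rw [Subgroup.mem_centralizer_iff]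
          intro y hy
          rw [Set.mem_singleton_iff.mp hy]
          exact hc c hcC x hx
        have hidx : (Subgroup.centralizer ({c} : Set H)).index ∣ Nat.card S := by
          have h1 := Subgroup.index_dvd_of_le hCle
          have h3 := Subgroup.card_mul_index C
          have h4 : Nat.card C * C.index = Nat.card C * Nat.card S := by
            rw [h3, ← hcard, mul_comm]
          rw [Nat.eq_of_mul_eq_mul_left Nat.card_pos h4] at h1
          exact h1
        obtain ⟨k, hk⟩ := IsPGroup.iff_card.mp hS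
        rw [hk] at hidx
        obtain ⟨j, -, hj⟩ := (Nat.dvd_prime_pow Nat.prime_two).mp hidx
        have hprime := Lead.simple_class_prime_power 2 j Nat.prime_two c hc1 hj
        haveI : Fact (Nat.card H).Prime := ⟨hprime⟩
        haveI : IsCyclic H := isCyclic_of_prime_card (p := Nat.card H) rfl
        exact Group.isSolvable_of_comm
          (fun a b => (IsCyclic.isMulCommutative (α := H)).is_comm.comm a b)

theorem twoAb_conv {H : Type*} [Group H] [Finite H] (hH : TwoAb H) :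
    ∃ (P : Sylow 2 H) (D : Subgroup H), IsMulCommutative ↥D ∧
      Subgroup.IsComplement' (P : Subgroup H) D := by
  haveI : Fact (Nat.Prime 2) := ⟨Nat.prime_two⟩
  obtain ⟨S, C, hS, hC, hc, hcard⟩ := hH
  have hidx : ¬ 2 ∣ S.index := by
    have h3 := Subgroup.card_mul_index S
    have h4 : Nat.card S * S.index = Nat.card S * Nat.card C := by rw [h3, hcard]
    rw [Nat.eq_of_mul_eq_mul_left Nat.card_pos h4]; exact hC
  refine ⟨hS.toSylow hidx, C, ⟨⟨fun a b => Subtype.ext (hc a a.2 b b.2)⟩⟩, ?_⟩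
  rw [IsPGroup.toSylow_coe]
  exact Subgroup.isComplement'_of_coprime hcard (twoAb_coprime S C hS hC)

theorem twoAb_subgroup {H : Type u} [Group H] [Finite H] [Group.IsSolvable H] (hH : TwoAb H)
    (L : Subgroup H) : TwoAb ↥L := by
  classical
  haveI : Fact (Nat.Prime 2) := ⟨Nat.prime_two⟩
  obtain ⟨S, C, hS, hC, hc, hcard⟩ := hH
  obtain ⟨k, m, hm, hkm⟩ := Nat.exists_eq_two_pow_mul_odd (n := Nat.card L) Nat.card_pos.ne'
  have hm2 : ¬ 2 ∣ m := by
    intro h; exact (Nat.not_even_iff_odd.mpr hm) (even_iff_two_dvd.mpr h)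
  have hcopL : Nat.Coprime m (2 ^ k) :=
    (Nat.Coprime.pow_left k ((Nat.Prime.coprime_iff_not_dvd Nat.prime_two).mpr hm2)).symm
  obtain ⟨D, hD, -⟩ := Lead.hallD_all (Nat.card L) ↥L rfl m (2 ^ k) (by rw [hkm, mul_comm]) hcopL ⊥
    (by rw [Subgroup.card_bot]; exact Nat.coprime_one_left _)
  obtain ⟨P⟩ : Nonempty (Sylow 2 ↥L) := inferInstance
  have hPcard : Nat.card P = 2 ^ k := by
    obtain ⟨j, hj⟩ := IsPGroup.iff_card.mp P.isPGroup'
    have h1 := Subgroup.card_mul_index (P : Subgroup ↥L)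
    have h2 : ¬ 2 ∣ (P : Subgroup ↥L).index := P.not_dvd_index
    have hj' : Nat.card (P : Subgroup ↥L) = 2 ^ j := hj
    rw [hj', hkm] at h1
    rw [hj, (pow_two_mul_odd_unique h1 h2 hm2).1]
  have hDc : ∀ a ∈ D, ∀ b ∈ D, a * b = b * a := by
    obtain ⟨s0, hs0⟩ := IsPGroup.iff_card.mp hS
    have hcopH : Nat.Coprime (Nat.card C) (Nat.card S) := (twoAb_coprime S C hS hC).symm
    have hD' : (Nat.card (D.map L.subtype)).Coprime (Nat.card S) := by
      rw [Subgroup.card_map_of_injective L.subtype_injective, hD, hs0]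
      exact (Nat.Coprime.pow_left s0 ((Nat.Prime.coprime_iff_not_dvd Nat.prime_two).mpr hm2)).symm
    obtain ⟨H₁, hH₁, hDH₁⟩ := Lead.hallD_all (Nat.card H) H rfl (Nat.card C) (Nat.card S)
      (by rw [← hcard, mul_comm]) hcopH (D.map L.subtype) hD'
    obtain ⟨g, hg⟩ := Lead.hallC_all (Nat.card H) H rfl (Nat.card C) (Nat.card S)
      (by rw [← hcard, mul_comm]) hcopH C H₁ rfl hH₁
    intro a ha b hb
    have ha' : (a : H) ∈ MulAut.conj g • C := by
      rw [hg]; exact hDH₁ (Subgroup.mem_map_of_mem _ ha)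
    have hb' : (b : H) ∈ MulAut.conj g • C := by
      rw [hg]; exact hDH₁ (Subgroup.mem_map_of_mem _ hb)
    rw [Lead.mem_conj_smul] at ha' hb'
    have h1 := hc _ ha' _ hb'
    apply Subtype.ext
    show (a : H) * (b : H) = (b : H) * (a : H)
    have e1 : (a : H) * (b : H) = g * ((g⁻¹ * a * g) * (g⁻¹ * b * g)) * g⁻¹ := by group
    have e2 : (b : H) * (a : H) = g * ((g⁻¹ * b * g) * (g⁻¹ * a * g)) * g⁻¹ := by group
    rw [e1, e2, h1]
  refine ⟨(P : Subgroup ↥L), D, P.isPGroup', ?_, hDc, ?_⟩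
  · rw [hD]; exact hm2
  · rw [hPcard, hD, hkm]

/-- Let H be a finite group in which a Sylow 2-subgroup has an abelian complement (an abelian subgroup meeting it trivially whose product with it is all of H). Then H is solvable, and every subgroup and every quotient group of H again has a Sylow 2-subgroup with an abelian complement. -/
theorem result {H : Type*} [Group H] [Finite H]
    (S : Sylow 2 H) (C : Subgroup H) (hC : IsMulCommutative ↥C) (hSC : Subgroup.IsComplement' (S : Subgroup H) C) :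
    Group.IsSolvable H ∧
    (∀ L : Subgroup H, ∃ (P : Sylow 2 ↥L) (D : Subgroup ↥L), IsMulCommutative ↥D ∧ Subgroup.IsComplement' (P : Subgroup ↥L) D) ∧
    (∀ (N : Subgroup H) [N.Normal], ∃ (P : Sylow 2 (H ⧸ N)) (D : Subgroup (H ⧸ N)),
      IsMulCommutative ↥D ∧ Subgroup.IsComplement' (P : Subgroup (H ⧸ N)) D) := by
  classical
  haveI : Fact (Nat.Prime 2) := ⟨Nat.prime_two⟩
  have hTA : TwoAb H := by
    refine ⟨(S : Subgroup H), C, S.isPGroup', ?_,
      fun a ha b hb => congrArg Subtype.val (hC.is_comm.comm ⟨a, ha⟩ ⟨b, hb⟩), hSC.card_mul_card⟩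
    rw [← hSC.symm.index_eq_card]; exact S.not_dvd_index
  haveI hsolv : Group.IsSolvable H := twoAb_solvable (Nat.card H) H rfl hTA
  exact ⟨hsolv, fun L => twoAb_conv (twoAb_subgroup hTA L),
    fun N _ => twoAb_conv (twoAb_quotient hTA N)⟩

end Cfsg.Agent.S3200
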