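import Cfsg.Statements.S3208
import Mathlib

set_option autoImplicit false
open Cfsg

namespace Cfsg.Agent.S3208

/-- Let j be an involution of a finite group G, H a subgroup of G, and T a Sylow 2-subgroup of H ∩ C_G(j) containing j such that ⟨j⟩ is a characteristic subgroup of T. Then T is a Sylow 2-subgroup of H. -/
theorem result {G : Type*} [Group G] [Finite G]
    (j : G) (hj : orderOf j = 2) (H T : Subgroup G) (hT : T ≤ H ⊓ Subgroup.centralizer ({j} : Set G)) (h2 : IsPGroup 2 ↥T)
    (hSyl : ¬ 2 ∣ T.relIndex (H ⊓ Subgroup.centralizer ({j} : Set G))) (hjT : j ∈ T)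
    (hchar : ((Subgroup.zpowers j).subgroupOf T).Characteristic) :
    ¬ 2 ∣ T.relIndex H := by
  classical
  have : Fact (Nat.Prime 2) := ⟨Nat.prime_two⟩
  intro hdvd
  have hTH : T ≤ H := le_trans hT inf_le_left
  have hTC : T ≤ Subgroup.centralizer ({j} : Set G) := le_trans hT inf_le_right
  have hT'p : IsPGroup 2 (T.subgroupOf H) := h2.comap_of_injective H.subtype Subtype.coe_injective
  obtain ⟨P, hP⟩ := hT'p.exists_le_sylow
  have hne : T.subgroupOf H ≠ (P : Subgroup H) := by
    intro h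
    have h1 : ¬ 2 ∣ (P : Subgroup H).index := P.not_dvd_index
    rw [← h] at h1
    exact h1 hdvd
  have : Group.IsNilpotent (P : Subgroup H) := (P.isPGroup').isNilpotent
  have hNC := @Group.normalizerCondition_of_isNilpotent (P : Subgroup H) _ _
  have hlt' : (T.subgroupOf H).subgroupOf (P : Subgroup H) < ⊤ := by
    rw [lt_top_iff_ne_top]
    intro h
    rw [Subgroup.subgroupOf_eq_top] at h
    exact hne (le_antisymm hP h)
  have hlt2 := hNC _ hlt'
  obtain ⟨z, hzN, hzT⟩ := SetLike.exists_of_lt hlt2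
  have hxT : ((z : H) : G) ∉ T := by
    intro h
    apply hzT
    rw [Subgroup.mem_subgroupOf, Subgroup.mem_subgroupOf]
    exact h
  have hconj : ∀ t ∈ T, ((z : H) : G) * t * ((z : H) : G)⁻¹ ∈ T := by
    intro t ht
    have hh : (⟨⟨t, hTH ht⟩, hP (Subgroup.mem_subgroupOf.mpr ht)⟩ : (P : Subgroup H)) ∈
        (T.subgroupOf H).subgroupOf (P : Subgroup H) := by
      rw [Subgroup.mem_subgroupOf, Subgroup.mem_subgroupOf]
      exact ht
    have h5 := (Subgroup.mem_normalizer_iff.mp hzN _).mp hh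
    rw [Subgroup.mem_subgroupOf, Subgroup.mem_subgroupOf] at h5
    simpa using h5
  have hconj' : ∀ t ∈ T, ((z : H) : G)⁻¹ * t * ((z : H) : G) ∈ T := by
    intro t ht
    have hh : (⟨⟨t, hTH ht⟩, hP (Subgroup.mem_subgroupOf.mpr ht)⟩ : (P : Subgroup H)) ∈
        (T.subgroupOf H).subgroupOf (P : Subgroup H) := by
      rw [Subgroup.mem_subgroupOf, Subgroup.mem_subgroupOf]
      exact ht
    have h5 := (Subgroup.mem_normalizer_iff''.mp hzN _).mp hh
    rw [Subgroup.mem_subgroupOf, Subgroup.mem_subgroupOf] at h5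
    simpa using h5
  let φ : T ≃* T :=
    { toFun := fun t => ⟨((z : H) : G) * t * ((z : H) : G)⁻¹, hconj t t.2⟩
      invFun := fun t => ⟨((z : H) : G)⁻¹ * t * ((z : H) : G), hconj' t t.2⟩
      left_inv := by intro t; ext; simp [mul_assoc]
      right_inv := by intro t; ext; simp [mul_assoc]
      map_mul' := by intro a b; ext; simp [mul_assoc] }
  have hfix := hchar.fixed φ
  have hj' : (⟨j, hjT⟩ : T) ∈ (Subgroup.zpowers j).subgroupOf T :=
    Subgroup.mem_subgroupOf.mpr (Subgroup.mem_zpowers j)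
  rw [← hfix] at hj'
  have h3 : ((z : H) : G) * j * ((z : H) : G)⁻¹ ∈ Subgroup.zpowers j := by
    have h6 := Subgroup.mem_comap.mp hj'
    exact Subgroup.mem_subgroupOf.mp h6
  obtain ⟨k, hk⟩ := Subgroup.mem_zpowers_iff.mp h3
  have hk2 : j ^ (k % 2) = j ^ k := by
    have h7 := zpow_mod_orderOf j k
    rw [hj] at h7
    exact_mod_cast h7
  have h4 : ((z : H) : G) * j * ((z : H) : G)⁻¹ = j := by
    rw [← hk, ← hk2]
    rcases Int.emod_two_eq_zero_or_one k with h | h
    · exfalso
      rw [← hk2, h, zpow_zero] at hk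
      have hj1 : j = 1 := by
        have h8 := congrArg (fun w => ((z : H) : G)⁻¹ * w * ((z : H) : G)) hk
        simpa [mul_assoc] using h8.symm
      rw [hj1, orderOf_one] at hj
      exact absurd hj (by norm_num)
    · rw [h, zpow_one]
  have hxC : ((z : H) : G) ∈ Subgroup.centralizer ({j} : Set G) := by
    rw [Subgroup.mem_centralizer_iff]
    intro y hy
    rw [Set.mem_singleton_iff] at hy
    subst hy
    have h9 := congrArg (fun w => w * ((z : H) : G)) h4
    simpa [mul_assoc] using h9.symm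
  let R : Subgroup G := (P : Subgroup H).map H.subtype ⊓ Subgroup.centralizer ({j} : Set G)
  have hxR : ((z : H) : G) ∈ R := ⟨⟨(z : H), z.2, rfl⟩, hxC⟩
  have hTR : T ≤ R := by
    intro t ht
    exact ⟨⟨⟨t, hTH ht⟩, hP (Subgroup.mem_subgroupOf.mpr ht), rfl⟩, hTC ht⟩
  have hRK : R ≤ H ⊓ Subgroup.centralizer ({j} : Set G) :=
    inf_le_inf_right _ (Subgroup.map_subtype_le _)
  have hRp : IsPGroup 2 R := ((P.isPGroup').map H.subtype).to_le inf_le_left
  have hmul := Subgroup.relIndex_mul_relIndex T R (H ⊓ Subgroup.centralizer ({j} : Set G)) hTR hRK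
  apply hSyl
  rw [← hmul]
  apply Dvd.dvd.mul_right
  have hne1 : (T.subgroupOf R).index ≠ 1 := by
    rw [Ne, Subgroup.index_eq_one, Subgroup.subgroupOf_eq_top]
    intro hle
    exact hxT (hle hxR)
  obtain ⟨n, hn⟩ := hRp.index (T.subgroupOf R)
  show 2 ∣ (T.subgroupOf R).index
  rw [hn] at hne1 ⊢
  cases n with
  | zero => simp at hne1
  | succ n => exact dvd_pow_self 2 (Nat.succ_ne_zero n)

end Cfsg.Agent.S3208
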