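import Cfsg.Statements.S3209
import Mathlib
import Cfsg.Agent.Lib.Lead.SL2Klein
import Cfsg.Agent.Lib.Lead.Coprime

set_option autoImplicit false
open Cfsg

namespace Cfsg.Agent.S3209


open Cfsg.Agent.Lib

section

variable {F : Type*} [Field F]

/-- the standard element of order 4 of `SL₂` -/
def stdW : Matrix.SpecialLinearGroup (Fin 2) F := ⟨!![0, -1; 1, 0], by simp [Matrix.det_fin_two_of]⟩

theorem stdW_sq : (stdW : Matrix.SpecialLinearGroup (Fin 2) F) ^ 2 = Lead.negSL := by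
  apply Subtype.ext
  rw [pow_two]
  show (!![0, -1; 1, 0] : Matrix (Fin 2) (Fin 2) F) * !![0, -1; 1, 0] = !![-1, 0; 0, -1]
  rw [Matrix.mul_fin_two]
  simp

theorem mat_ext (x y z w x' y' z' w' : F) (h1 : x = x') (h2 : y = y') (h3 : z = z') (h4 : w = w') :
    (!![x, y; z, w] : Matrix (Fin 2) (Fin 2) F) = !![x', y'; z', w'] := by
  subst h1 h2 h3 h4; rfl

theorem conj_std [Fintype F] (hodd : Odd (Fintype.card F)) (A : Matrix.SpecialLinearGroup (Fin 2) F)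
    (hA : A ^ 2 = Lead.negSL) :
    ∃ P : Matrix.SpecialLinearGroup (Fin 2) F, A * P = P * stdW := by
  have h2 := Lead.two_ne_zero_of_odd_card hodd
  obtain ⟨a, b, c, d, hAm⟩ : ∃ a b c d : F, (A : Matrix (Fin 2) (Fin 2) F) = !![a, b; c, d] :=
    ⟨_, _, _, _, Matrix.eta_fin_two _⟩
  have hdet : a * d - b * c = 1 := by
    have := A.det_coe
    rw [hAm, Matrix.det_fin_two_of] at this
    exact this
  have hsq : (!![a, b; c, d] : Matrix (Fin 2) (Fin 2) F) * !![a, b; c, d] = !![-1, 0; 0, -1] := by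
    have := congrArg Subtype.val hA
    rw [pow_two, Matrix.SpecialLinearGroup.coe_mul, hAm] at this
    exact this
  rw [Matrix.mul_fin_two] at hsq
  have e00 := congrFun (congrFun hsq 0) 0
  have e01 := congrFun (congrFun hsq 0) 1
  have e10 := congrFun (congrFun hsq 1) 0
  have e11 := congrFun (congrFun hsq 1) 1
  simp only [Matrix.of_apply, Matrix.cons_val_zero, Matrix.cons_val_one] at e00 e01 e10 e11
  have hd : d = -a := by
    by_contra hne
    have hs : a + d ≠ 0 := fun h => hne (by linear_combination h)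
    have hb : b = 0 := by
      have : (a + d) * b = 0 := by linear_combination e01
      exact (mul_eq_zero.mp this).resolve_left hs
    have had : a - d = 0 := by
      have : (a + d) * (a - d) = 0 := by linear_combination e00 - e11
      exact (mul_eq_zero.mp this).resolve_left hs
    apply h2
    linear_combination e00 - hdet - a * had - 2 * c * hb
  subst hd
  obtain ⟨v₁, v₂, hv⟩ : ∃ v₁ v₂ : F, c * v₁ ^ 2 - 2 * a * v₁ * v₂ - b * v₂ ^ 2 = 1 := by
    by_cases hc0 : c = 0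
    · have ha : a ≠ 0 := by
        rintro rfl
        rw [hc0] at hdet
        simp at hdet
      refine ⟨-(1 + b) / (2 * a), 1, ?_⟩
      rw [hc0]
      field_simp
      ring
    · have hodd' : Fintype.card F % 2 = 1 := Nat.odd_iff.mp hodd
      have hci : c⁻¹ ≠ 0 := inv_ne_zero hc0
      obtain ⟨s, t, hst⟩ := FiniteField.exists_root_sum_quadratic (R := F)
        (f := Polynomial.C c * Polynomial.X ^ 2 + Polynomial.C 0 * Polynomial.X + Polynomial.C 0)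
        (g := Polynomial.C c⁻¹ * Polynomial.X ^ 2 + Polynomial.C 0 * Polynomial.X + Polynomial.C (-1))
        (Polynomial.degree_quadratic hc0) (Polynomial.degree_quadratic hci) hodd'
      simp only [Polynomial.eval_add, Polynomial.eval_mul, Polynomial.eval_C, Polynomial.eval_pow,
        Polynomial.eval_X] at hst
      have hi : c * c⁻¹ = 1 := mul_inv_cancel₀ hc0
      refine ⟨s + a * c⁻¹ * t, t, ?_⟩
      linear_combination hst + (2 * a * s * t + a ^ 2 * c⁻¹ * t ^ 2 + b * t ^ 2) * hi + c⁻¹ * t ^ 2 * hdet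
  refine ⟨⟨!![v₁, a * v₁ + b * v₂; v₂, c * v₁ - a * v₂], by
    rw [Matrix.det_fin_two_of]; linear_combination hv⟩, ?_⟩
  apply Subtype.ext
  show (A : Matrix (Fin 2) (Fin 2) F) * !![v₁, a * v₁ + b * v₂; v₂, c * v₁ - a * v₂] =
    !![v₁, a * v₁ + b * v₂; v₂, c * v₁ - a * v₂] * !![0, -1; 1, 0]
  rw [hAm, Matrix.mul_fin_two, Matrix.mul_fin_two]
  apply mat_ext
  · ring
  · linear_combination (-v₁) * hdet
  · ring
  · linear_combination (-v₂) * hdet

theorem sl_facts {G : Type*} [Group G] [Fintype F] (hF : Odd (Fintype.card F))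
    (L : Subgroup G) (e : ↥L ≃* Matrix.SpecialLinearGroup (Fin 2) F) (j : G) (hjL : j ∈ L)
    (hj1 : j ≠ 1) (hj2 : j * j = 1) :
    (∀ y ∈ L, y * y = 1 → y = 1 ∨ y = j) ∧
    (∃ x ∈ L, x * x = j ∧ ∀ y ∈ L, y * y = j → ∃ g ∈ L, g * x * g⁻¹ = y) := by
  have hJ : e ⟨j, hjL⟩ = Lead.negSL := by
    have h1 : (e ⟨j, hjL⟩) ^ 2 = 1 := by
      rw [← map_pow, pow_two]
      have : (⟨j, hjL⟩ : L) * ⟨j, hjL⟩ = 1 := Subtype.ext hj2
      rw [this, map_one]
    rcases Lead.SL2_sq_eq_one hF _ h1 with h | h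
    · exfalso; apply hj1
      have : (⟨j, hjL⟩ : L) = 1 := e.injective (by rw [h, map_one])
      exact congrArg Subtype.val this
    · exact h
  refine ⟨?_, ?_⟩
  · intro y hy hyy
    have h1 : (e ⟨y, hy⟩) ^ 2 = 1 := by
      rw [← map_pow, pow_two]
      have : (⟨y, hy⟩ : L) * ⟨y, hy⟩ = 1 := Subtype.ext hyy
      rw [this, map_one]
    rcases Lead.SL2_sq_eq_one hF _ h1 with h | h
    · left
      have : (⟨y, hy⟩ : L) = 1 := e.injective (by rw [h, map_one])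
      exact congrArg Subtype.val this
    · right
      have : (⟨y, hy⟩ : L) = ⟨j, hjL⟩ := e.injective (by rw [h, hJ])
      exact congrArg Subtype.val this
  · refine ⟨(e.symm stdW : L), (e.symm stdW).2, ?_, ?_⟩
    · have : (e.symm stdW) * (e.symm stdW) = (⟨j, hjL⟩ : L) := by
        apply e.injective
        rw [map_mul, e.apply_symm_apply, hJ, ← pow_two, stdW_sq]
      exact congrArg Subtype.val this
    · intro y hy hyy
      have h1 : (e ⟨y, hy⟩) ^ 2 = Lead.negSL := by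
        rw [← map_pow, pow_two, ← hJ]
        congr 1
        exact Subtype.ext hyy
      obtain ⟨P, hP⟩ := conj_std hF _ h1
      refine ⟨(e.symm P : L), (e.symm P).2, ?_⟩
      have : e.symm P * e.symm stdW * (e.symm P)⁻¹ = (⟨y, hy⟩ : L) := by
        apply e.injective
        rw [map_mul, map_mul, map_inv, e.apply_symm_apply, e.apply_symm_apply, ← hP,
          mul_inv_cancel_right]
      exact congrArg Subtype.val this

end

/-- Let L₁ ≅ SL₂(q₁) and L₂ ≅ SL₂(q₂), q₁ and q₂ odd, be elementwise-commuting subgroups of a finite group meeting in ⟨j⟩ for an involution j. Then L₁L₂ has exactly two conjugacy classes of involutions: the central involution j, and one further class (there is an involution x ≠ j in L₁L₂, and every involution of L₁L₂ other than j is conjugate to x by an element of L₁L₂). -/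
theorem result {G : Type*} [Group G] [Finite G]
    {F₁ : Type*} [Field F₁] [Fintype F₁] {F₂ : Type*} [Field F₂] [Fintype F₂]
    (hF₁ : Odd (Fintype.card F₁)) (hF₂ : Odd (Fintype.card F₂)) (L₁ L₂ : Subgroup G)
    (e₁ : ↥L₁ ≃* Matrix.SpecialLinearGroup (Fin 2) F₁) (e₂ : ↥L₂ ≃* Matrix.SpecialLinearGroup (Fin 2) F₂)
    (hc : ∀ x ∈ L₁, ∀ y ∈ L₂, x * y = y * x) (j : G) (hj : orderOf j = 2) (hm : L₁ ⊓ L₂ = Subgroup.zpowers j) :
    ∃ x ∈ L₁ ⊔ L₂, orderOf x = 2 ∧ x ≠ j ∧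
      ∀ y ∈ L₁ ⊔ L₂, orderOf y = 2 → y = j ∨ ∃ g ∈ L₁ ⊔ L₂, g * x * g⁻¹ = y := by
  classical
  have hj1 : j ≠ 1 := by rintro rfl; rw [orderOf_one] at hj; omega
  have hj2 : j * j = 1 := by rw [← pow_two, ← hj]; exact pow_orderOf_eq_one j
  have hjmem : j ∈ L₁ ⊓ L₂ := by rw [hm]; exact Subgroup.mem_zpowers j
  have hinter : ∀ u ∈ L₁ ⊓ L₂, u = 1 ∨ u = j := by
    intro u hu
    rw [hm] at hu
    obtain ⟨k, rfl⟩ := Subgroup.mem_zpowers_iff.mp hu
    have hjz : j ^ (2 : ℤ) = 1 := by rw [zpow_two]; exact hj2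
    rcases Int.even_or_odd' k with ⟨m, hk | hk⟩
    · left; rw [hk, zpow_mul, hjz, one_zpow]
    · right; rw [hk, zpow_add, zpow_mul, hjz, one_zpow, one_mul, zpow_one]
  obtain ⟨hinv₁, x₁, hx₁L, hx₁j, hconj₁⟩ := sl_facts hF₁ L₁ e₁ j hjmem.1 hj1 hj2
  obtain ⟨hinv₂, x₂, hx₂L, hx₂j, hconj₂⟩ := sl_facts hF₂ L₂ e₂ j hjmem.2 hj1 hj2
  have hL₁ : L₁ ≤ L₁ ⊔ L₂ := le_sup_left
  have hL₂ : L₂ ≤ L₁ ⊔ L₂ := le_sup_right
  have hx₁ne : x₁ ∉ L₁ ⊓ L₂ := by
    intro h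
    rcases hinter x₁ h with h1 | h1
    · rw [h1, one_mul] at hx₁j; exact hj1 hx₁j.symm
    · rw [h1, hj2] at hx₁j; exact hj1 hx₁j.symm
  have hprod2 : ∀ a ∈ L₁, ∀ b ∈ L₂, (a * b) * (a * b) = (a * a) * (b * b) := by
    intro a ha b hb
    calc (a * b) * (a * b) = a * (b * a) * b := by group
      _ = a * (a * b) * b := by rw [hc a ha b hb]
      _ = (a * a) * (b * b) := by group
  refine ⟨x₁ * x₂, Subgroup.mul_mem _ (hL₁ hx₁L) (hL₂ hx₂L), ?_, ?_, ?_⟩
  · have : Fact (Nat.Prime 2) := ⟨Nat.prime_two⟩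
    apply orderOf_eq_prime
    · rw [pow_two, hprod2 x₁ hx₁L x₂ hx₂L, hx₁j, hx₂j, hj2]
    · intro h
      apply hx₁ne
      refine ⟨hx₁L, ?_⟩
      have : x₁ = x₂⁻¹ := eq_inv_of_mul_eq_one_left h
      rw [this]; exact L₂.inv_mem hx₂L
  · intro h
    apply hx₁ne
    refine ⟨hx₁L, ?_⟩
    have h2 : x₁ * x₂ = x₁ * x₁ := by rw [h, hx₁j]
    have h3 : x₂ = x₁ := mul_left_cancel h2
    rw [← h3]; exact hx₂L
  · intro y hy hyo
    have hy1 : y ≠ 1 := by rintro rfl; rw [orderOf_one] at hyo; omega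
    have hy2 : y * y = 1 := by rw [← pow_two, ← hyo]; exact pow_orderOf_eq_one y
    have hnorm : L₂ ≤ Subgroup.normalizer (L₁ : Set G) := by
      intro b hb
      rw [Subgroup.mem_normalizer_iff]
      intro a
      constructor
      · intro ha
        rw [← hc a ha b hb, mul_inv_cancel_right]; exact ha
      · intro h
        have h1 := hc _ h b hb
        have h3 : b * a * b⁻¹ * b = b * a := by group
        rw [h3] at h1
        have h2 : a = b * a * b⁻¹ := mul_left_cancel h1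
        rw [h2]; exact h
    obtain ⟨y₁, hy₁, y₂, hy₂, rfl⟩ := Lead.mem_sup_of_le_normalizer hnorm hy
    have h1 := hprod2 y₁ hy₁ y₂ hy₂
    rw [hy2] at h1
    have h2 : y₁ * y₁ ∈ L₁ ⊓ L₂ := by
      refine ⟨L₁.mul_mem hy₁ hy₁, ?_⟩
      have : y₁ * y₁ = (y₂ * y₂)⁻¹ := eq_inv_of_mul_eq_one_left h1.symm
      rw [this]; exact L₂.inv_mem (L₂.mul_mem hy₂ hy₂)
    rcases hinter _ h2 with h3 | h3
    · left
      have h4 : y₂ * y₂ = 1 := by rw [h3, one_mul] at h1; exact h1.symm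
      rcases hinv₁ y₁ hy₁ h3 with a1 | a1 <;> rcases hinv₂ y₂ hy₂ h4 with a2 | a2
      · exfalso; apply hy1; rw [a1, a2, one_mul]
      · rw [a1, a2, one_mul]
      · rw [a1, a2, mul_one]
      · exfalso; apply hy1; rw [a1, a2, hj2]
    · right
      have h4 : y₂ * y₂ = j := by
        rw [h3] at h1
        have : y₂ * y₂ = j⁻¹ := eq_inv_of_mul_eq_one_right h1.symm
        rw [this]; exact inv_eq_of_mul_eq_one_left hj2
      obtain ⟨g₁, hg₁, hg₁x⟩ := hconj₁ y₁ hy₁ h3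
      obtain ⟨g₂, hg₂, hg₂x⟩ := hconj₂ y₂ hy₂ h4
      refine ⟨g₁ * g₂, Subgroup.mul_mem _ (hL₁ hg₁) (hL₂ hg₂), ?_⟩
      rw [← hg₁x, ← hg₂x]
      have c1 : g₂ * x₁ = x₁ * g₂ := (hc x₁ hx₁L g₂ hg₂).symm
      have c2 : g₂⁻¹ * g₁⁻¹ = g₁⁻¹ * g₂⁻¹ := (hc g₁⁻¹ (L₁.inv_mem hg₁) g₂⁻¹ (L₂.inv_mem hg₂)).symm
      have c3 : x₂ * g₁⁻¹ = g₁⁻¹ * x₂ := (hc g₁⁻¹ (L₁.inv_mem hg₁) x₂ hx₂L).symm
      have c4 : g₂ * g₁⁻¹ = g₁⁻¹ * g₂ := (hc g₁⁻¹ (L₁.inv_mem hg₁) g₂ hg₂).symm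
      calc g₁ * g₂ * (x₁ * x₂) * (g₁ * g₂)⁻¹ = g₁ * (g₂ * x₁) * x₂ * (g₂⁻¹ * g₁⁻¹) := by group
        _ = g₁ * (x₁ * g₂) * x₂ * (g₁⁻¹ * g₂⁻¹) := by rw [c1, c2]
        _ = g₁ * x₁ * (g₂ * (x₂ * g₁⁻¹)) * g₂⁻¹ := by group
        _ = g₁ * x₁ * (g₂ * (g₁⁻¹ * x₂)) * g₂⁻¹ := by rw [c3]
        _ = g₁ * x₁ * ((g₂ * g₁⁻¹) * x₂) * g₂⁻¹ := by group
        _ = g₁ * x₁ * ((g₁⁻¹ * g₂) * x₂) * g₂⁻¹ := by rw [c4]
        _ = g₁ * x₁ * g₁⁻¹ * (g₂ * x₂ * g₂⁻¹) := by group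

end Cfsg.Agent.S3209
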