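import Cfsg.Statements.S3224
import Mathlib
import Cfsg.Agent.S0206
import Cfsg.Agent.Lib.Helper5.UniqueP
import Cfsg.Agent.Lib.Helper5.OrbitCard

set_option autoImplicit false
open Cfsg Cfsg.Agent.Lib

namespace Cfsg.Agent.S3224

universe u

theorem invol_zpowers {G : Type*} [Group G] [Finite G] (a v : G) (k : ℕ) (hk : orderOf a = 2 * k)
    (hv : v ∈ Subgroup.zpowers a) (hv2 : v * v = 1) (hv1 : v ≠ 1) : v = a ^ k := by
  obtain ⟨i, hi⟩ := (Submonoid.mem_powers_iff _ _).mp (mem_powers_iff_mem_zpowers.mpr hv)
  have h1 : a ^ (2 * i) = 1 := by rw [two_mul, pow_add, hi]; exact hv2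
  have h2 : 2 * k ∣ 2 * i := by rw [← hk]; exact orderOf_dvd_of_pow_eq_one h1
  obtain ⟨t, ht⟩ := (Nat.mul_dvd_mul_iff_left (by norm_num : 0 < 2)).mp h2
  have hw : (a ^ k) ^ 2 = 1 := by rw [← pow_mul, mul_comm, ← hk]; exact pow_orderOf_eq_one a
  rw [ht, pow_mul] at hi
  rcases Nat.even_or_odd' t with ⟨s, rfl | rfl⟩
  · rw [pow_mul, hw, one_pow] at hi; exact absurd hi.symm hv1
  · rw [pow_succ, pow_mul, hw, one_pow, one_mul] at hi; exact hi.symm

theorem two_elts {G : Type*} [Group G] (H : Subgroup G) (hH : Nat.card H = 2) (w : G) (hw : w ∈ H)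
    (hw1 : w ≠ 1) (c : G) (hc : c ∈ H) : c = 1 ∨ c = w := by
  by_cases hc1 : c = 1
  · exact Or.inl hc1
  right
  obtain ⟨y, -, hy⟩ := (Nat.card_eq_two_iff' (1 : ↥H)).mp hH
  have h1 := hy ⟨c, hc⟩ (fun h => hc1 (congrArg Subtype.val h))
  have h2 := hy ⟨w, hw⟩ (fun h => hw1 (congrArg Subtype.val h))
  exact congrArg Subtype.val (h1.trans h2.symm)

theorem eq_top_of_index_two {G : Type*} [Group G] [Finite G] (A H : Subgroup G) (hA : A.index = 2)
    (hAH : A ≤ H) (x : G) (hxH : x ∈ H) (hxA : x ∉ A) : H = ⊤ := by
  have h1 := Subgroup.index_dvd_of_le hAH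
  rw [hA] at h1
  rcases (Nat.dvd_prime Nat.prime_two).mp h1 with h2 | h2
  · exact Subgroup.index_eq_one.mp h2
  · exfalso
    have h3 := Subgroup.card_mul_index A
    have h4 := Subgroup.card_mul_index H
    rw [hA] at h3; rw [h2] at h4
    have h5 : Nat.card H ≤ Nat.card A := by omega
    have h6 := Subgroup.eq_of_le_of_card_ge hAH h5
    exact hxA (by rw [h6]; exact hxH)

theorem mem_cent {G : Type*} [Group G] (x g : G) :
    g ∈ Subgroup.centralizer ({x} : Set G) ↔ x * g = g * x := by
  rw [Subgroup.mem_centralizer_iff]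
  constructor
  · intro h; exact h x rfl
  · intro h y hy; rw [Set.mem_singleton_iff.mp hy]; exact h

theorem exists_cyclic_max : ∀ (n : ℕ) (S : Type u) [Group S] [Finite S], Nat.card S = n →
    IsPGroup 2 S → ∀ x : S, x * x = 1 → x ≠ 1 →
    Nat.card ↥(Subgroup.centralizer ({x} : Set S)) = 4 → 8 ≤ Nat.card S →
    ∃ a : S, x ∉ Subgroup.zpowers a ∧ (Subgroup.zpowers a).index = 2 := by
  intro n
  induction n using Nat.strong_induction_on with
  | _ n ih =>
    intro S _ _ hcard hS x hx2 hx1 hC h8
    classical
    haveI : Fact (Nat.Prime 2) := ⟨Nat.prime_two⟩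
    have hxinv : x⁻¹ = x := inv_eq_of_mul_eq_one_left hx2
    have hxC : x ∈ Subgroup.centralizer ({x} : Set S) := (mem_cent x x).mpr rfl
    have hZC : Subgroup.center S ≤ Subgroup.centralizer ({x} : Set S) :=
      Subgroup.center_le_centralizer _
    have hxZ : x ∉ Subgroup.center S := by
      intro h
      have h1 : Subgroup.centralizer ({x} : Set S) = ⊤ := by
        rw [eq_top_iff]; intro g _
        rw [mem_cent]
        exact (Subgroup.mem_center_iff.mp h g).symm
      rw [h1, Subgroup.card_top] at hC
      omega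
    haveI : Nontrivial S := Finite.one_lt_card_iff_nontrivial.mp (by omega)
    have hZcard : Nat.card (Subgroup.center S) = 2 := by
      have h1 : Nat.card (Subgroup.center S) ∣ 4 := by
        rw [← hC]; exact Subgroup.card_dvd_of_le hZC
      have h2 : Nat.card (Subgroup.center S) ≠ 4 := by
        intro h
        have h3 := Subgroup.eq_of_le_of_card_ge hZC (by rw [h, hC])
        exact hxZ (by rw [h3]; exact hxC)
      have h3 : Nat.card (Subgroup.center S) ≠ 1 := by
        intro h
        haveI := IsPGroup.center_nontrivial hS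
        exact (Subgroup.nontrivial_iff_ne_bot _).mp inferInstance (Subgroup.card_eq_one.mp h)
      have h4 := Nat.le_of_dvd (by norm_num) h1
      obtain ⟨c, hc⟩ : ∃ c, c = Nat.card (Subgroup.center S) := ⟨_, rfl⟩
      rw [← hc] at h1 h2 h3 h4 ⊢
      interval_cases c <;> omega
    obtain ⟨z, hzZ, hz1⟩ : ∃ z ∈ Subgroup.center S, z ≠ 1 := by
      haveI := IsPGroup.center_nontrivial hS
      obtain ⟨⟨z, hz⟩, hz1⟩ := exists_ne (1 : ↥(Subgroup.center S))
      exact ⟨z, hz, fun h => hz1 (Subtype.ext h)⟩
    have hZ : ∀ c ∈ Subgroup.center S, c = 1 ∨ c = z := two_elts _ hZcard z hzZ hz1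
    have hzc : ∀ g : S, g * z = z * g := Subgroup.mem_center_iff.mp hzZ
    have hzz : z * z = 1 := by
      rcases hZ _ (Subgroup.mul_mem _ hzZ hzZ) with h | h
      · exact h
      · have := mul_left_cancel (a := z) (b := z) (c := 1) (by rw [mul_one]; exact h)
        exact absurd this hz1
    by_cases h88 : Nat.card S = 8
    · -- order 8
      obtain ⟨a, ha⟩ : ∃ a : S, a * a ≠ 1 := by
        by_contra hcon
        push_neg at hcon
        apply hxZ
        rw [Subgroup.mem_center_iff]
        intro g
        have hi : ∀ b : S, b⁻¹ = b := fun b => inv_eq_of_mul_eq_one_left (hcon b)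
        calc g * x = (g * x)⁻¹ := (hi _).symm
          _ = x⁻¹ * g⁻¹ := mul_inv_rev _ _
          _ = x * g := by rw [hi, hi]
      have ha1 : a ≠ 1 := fun h => ha (by rw [h, one_mul])
      have ho : orderOf a = 4 := by
        have h1 : orderOf a ∣ 8 := by rw [← h88]; exact orderOf_dvd_natCard a
        have h2 : orderOf a ≠ 1 := fun h => ha1 (orderOf_eq_one_iff.mp h)
        have h3 : orderOf a ≠ 2 := by
          intro h
          apply ha
          rw [← pow_two, ← h]; exact pow_orderOf_eq_one a
        have h4 : orderOf a ≠ 8 := by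
          intro h
          haveI : IsCyclic S := isCyclic_of_orderOf_eq_card a (by rw [h, h88])
          apply hxZ
          rw [Subgroup.mem_center_iff]
          intro g
          exact (IsCyclic.isMulCommutative (α := S)).is_comm.comm g x
        have h5 := Nat.le_of_dvd (by norm_num) h1
        obtain ⟨c, hc⟩ : ∃ c, c = orderOf a := ⟨_, rfl⟩
        rw [← hc] at h1 h2 h3 h4 h5 ⊢
        interval_cases c <;> omega
      have hidx : (Subgroup.zpowers a).index = 2 := by
        have h1 := Subgroup.card_mul_index (Subgroup.zpowers a)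
        rw [Nat.card_zpowers, ho, h88] at h1
        omega
      refine ⟨a, ?_, hidx⟩
      intro hxa
      have hxe : x = a ^ 2 := invol_zpowers a x 2 (by rw [ho]) hxa hx2 hx1
      haveI hAn : (Subgroup.zpowers a).Normal := Subgroup.normal_of_index_eq_two hidx
      apply hxZ
      rw [Subgroup.mem_center_iff]
      intro g
      have h1 : g * x * g⁻¹ ∈ Subgroup.zpowers a := hAn.conj_mem x hxa g
      have h2 : (g * x * g⁻¹) * (g * x * g⁻¹) = 1 := by
        have e : (g * x * g⁻¹) * (g * x * g⁻¹) = g * (x * x) * g⁻¹ := by group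
        rw [e, hx2]; group
      have h3 : g * x * g⁻¹ ≠ 1 := by
        intro h
        apply hx1
        have e : x = g⁻¹ * (g * x * g⁻¹) * g := by group
        rw [e, h]; group
      have h4 := invol_zpowers a _ 2 (by rw [ho]) h1 h2 h3
      rw [← hxe] at h4
      exact mul_inv_eq_iff_eq_mul.mp h4
    · have h16 : 16 ≤ Nat.card S := by
        obtain ⟨m, hm⟩ := IsPGroup.iff_card.mp hS
        have hm4 : 4 ≤ m := by
          by_contra hlt
          have : m ≤ 3 := by omega
          interval_cases m <;> norm_num at hm <;> omega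
        rw [hm]
        calc 16 = 2 ^ 4 := by norm_num
          _ ≤ 2 ^ m := Nat.pow_le_pow_right (by norm_num) hm4
      have hQcard : Nat.card (S ⧸ Subgroup.center S) * 2 = Nat.card S := by
        rw [← hZcard]; exact (Subgroup.card_eq_card_quotient_mul_card_subgroup _).symm
      have hQp : IsPGroup 2 (S ⧸ Subgroup.center S) := hS.to_quotient _
      obtain ⟨xb, hxb⟩ : ∃ xb : S ⧸ Subgroup.center S, xb = QuotientGroup.mk x := ⟨_, rfl⟩
      have hxb2 : xb * xb = 1 := by rw [hxb, ← QuotientGroup.mk_mul, hx2]; rfl
      have hxb1 : xb ≠ 1 := by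
        rw [hxb]; intro h; exact hxZ ((QuotientGroup.eq_one_iff x).mp h)
      have hD : ∀ g : S, (QuotientGroup.mk g : S ⧸ Subgroup.center S) ∈
          Subgroup.centralizer ({xb} : Set (S ⧸ Subgroup.center S)) →
          g * x * g⁻¹ = x ∨ g * x * g⁻¹ = z * x := by
        intro g hg
        rw [mem_cent, hxb, ← QuotientGroup.mk_mul, ← QuotientGroup.mk_mul, QuotientGroup.eq] at hg
        rcases hZ _ hg with h | h
        · left
          have h' : x * g = g * x := inv_mul_eq_one.mp h
          rw [← h']; group
        · right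
          have e : g * x = x * g * z := by rw [← h]; group
          calc g * x * g⁻¹ = x * g * z * g⁻¹ := by rw [e]
            _ = x * (g * z) * g⁻¹ := by group
            _ = x * (z * g) * g⁻¹ := by rw [hzc g]
            _ = x * z := by group
            _ = z * x := hzc x
      obtain ⟨CQ, hCQdef⟩ : ∃ CQ : Subgroup (S ⧸ Subgroup.center S),
          CQ = Subgroup.centralizer ({xb} : Set (S ⧸ Subgroup.center S)) := ⟨_, rfl⟩
      obtain ⟨D, hDdef⟩ : ∃ D : Subgroup S,
          D = CQ.comap (QuotientGroup.mk' (Subgroup.center S)) := ⟨_, rfl⟩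
      have hDmem : ∀ g ∈ D, g * x * g⁻¹ = x ∨ g * x * g⁻¹ = z * x := by
        intro g hg
        rw [hDdef, Subgroup.mem_comap, hCQdef] at hg
        exact hD g hg
      have hDcard2 : Nat.card D = 2 * Nat.card CQ := by
        have h1 : D.index = CQ.index := by
          rw [hDdef]; exact Subgroup.index_comap_of_surjective _ (QuotientGroup.mk'_surjective _)
        have h2 := Subgroup.card_mul_index D
        have h3 := Subgroup.card_mul_index CQ
        rw [h1] at h2
        have h4 : 0 < CQ.index := Nat.pos_of_ne_zero Subgroup.index_ne_zero_of_finite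
        have h5 : Nat.card D * CQ.index = (2 * Nat.card CQ) * CQ.index := by
          rw [h2, mul_assoc, h3, ← hQcard, mul_comm]
        exact Nat.eq_of_mul_eq_mul_right h4 h5
      have hDcard : Nat.card D ≤ 8 := by
        by_cases hex : ∃ h ∈ D, h ∉ Subgroup.centralizer ({x} : Set S)
        · obtain ⟨h, hhD, hhC⟩ := hex
          have hnc : ∀ g ∈ D, g ∉ Subgroup.centralizer ({x} : Set S) → g * x = z * x * g := by
            intro g hg hgC
            rcases hDmem g hg with h' | h'
            · exfalso; apply hgC; rw [mem_cent]; exact (mul_inv_eq_iff_eq_mul.mp h').symm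
            · exact mul_inv_eq_iff_eq_mul.mp h'
          have hsub : (D : Set S) ⊆ (Subgroup.centralizer ({x} : Set S) : Set S) ∪
              (fun c => h * c) '' (Subgroup.centralizer ({x} : Set S) : Set S) := by
            intro g hg
            by_cases hgC : g ∈ Subgroup.centralizer ({x} : Set S)
            · left; exact hgC
            · right
              refine ⟨h⁻¹ * g, ?_, by group⟩
              have e1 := hnc g hg hgC
              have e2 := hnc h hhD hhC
              rw [SetLike.mem_coe, mem_cent]
              calc x * (h⁻¹ * g) = h⁻¹ * (h * x) * h⁻¹ * g := by group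
                _ = h⁻¹ * (z * x * h) * h⁻¹ * g := by rw [e2]
                _ = h⁻¹ * (z * x * g) := by group
                _ = h⁻¹ * (g * x) := by rw [e1]
                _ = h⁻¹ * g * x := by group
          have h1 : Nat.card D = (D : Set S).ncard := Nat.card_coe_set_eq (D : Set S)
          have h2 : Nat.card ↥(Subgroup.centralizer ({x} : Set S)) =
              ((Subgroup.centralizer ({x} : Set S) : Subgroup S) : Set S).ncard :=
            Nat.card_coe_set_eq _
          have h3 := Set.ncard_le_ncard hsub (Set.toFinite _)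
          have h4 := Set.ncard_union_le (Subgroup.centralizer ({x} : Set S) : Set S)
              ((fun c => h * c) '' (Subgroup.centralizer ({x} : Set S) : Set S))
          have h5 := Set.ncard_image_le (f := fun c => h * c)
              (Set.toFinite (Subgroup.centralizer ({x} : Set S) : Set S))
          omega
        · push_neg at hex
          have h1 : D ≤ Subgroup.centralizer ({x} : Set S) := hex
          have h2 := Subgroup.card_le_of_le h1
          omega
      have hCQ : Nat.card CQ = 4 := by
        have hxbC : xb ∈ CQ := by rw [hCQdef]; exact (mem_cent xb xb).mpr rfl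
        have h2dvd : 2 ∣ Nat.card CQ := by
          have h1 : orderOf xb = 2 := orderOf_eq_prime (by rw [pow_two]; exact hxb2) hxb1
          have h2 := Subgroup.card_dvd_of_le (Subgroup.zpowers_le.mpr hxbC)
          rw [Nat.card_zpowers, h1] at h2; exact h2
        have hne2 : Nat.card CQ ≠ 2 := by
          intro h2
          haveI : Nontrivial (S ⧸ Subgroup.center S) :=
            Finite.one_lt_card_iff_nontrivial.mp (by omega)
          haveI := IsPGroup.center_nontrivial hQp
          obtain ⟨⟨zb, hzb⟩, hzb1⟩ := exists_ne (1 : ↥(Subgroup.center (S ⧸ Subgroup.center S)))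
          have hzb1' : zb ≠ 1 := fun h => hzb1 (Subtype.ext h)
          have hzbC : zb ∈ CQ := by rw [hCQdef]; exact Subgroup.center_le_centralizer _ hzb
          rcases two_elts CQ h2 xb hxbC hxb1 zb hzbC with h3 | h3
          · exact hzb1' h3
          · have h4 : CQ = ⊤ := by
              rw [eq_top_iff]; intro g _
              rw [hCQdef, mem_cent, ← h3]
              exact (Subgroup.mem_center_iff.mp hzb g).symm
            rw [h4, Subgroup.card_top] at h2
            omega
        have hpos : 0 < Nat.card CQ := Nat.card_pos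
        omega
      rw [hCQdef] at hCQ
      obtain ⟨ab, hab1, hab2⟩ := ih (Nat.card (S ⧸ Subgroup.center S)) (by omega)
        (S ⧸ Subgroup.center S) rfl hQp xb hxb2 hxb1 hCQ (by omega)
      obtain ⟨a, ha⟩ := QuotientGroup.mk_surjective ab
      obtain ⟨A, hA⟩ : ∃ A : Subgroup S,
          A = (Subgroup.zpowers ab).comap (QuotientGroup.mk' (Subgroup.center S)) := ⟨_, rfl⟩
      have hAidx : A.index = 2 := by
        rw [hA, Subgroup.index_comap_of_surjective _ (QuotientGroup.mk'_surjective _)]; exact hab2
      have hxA : x ∉ A := by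
        rw [hA, Subgroup.mem_comap]; rw [hxb] at hab1; exact hab1
      have haA : a ∈ A := by
        rw [hA, Subgroup.mem_comap]
        show (QuotientGroup.mk a : S ⧸ Subgroup.center S) ∈ _
        rw [ha]; exact Subgroup.mem_zpowers ab
      have hzA : z ∈ A := by
        rw [hA, Subgroup.mem_comap]
        have h1 : (QuotientGroup.mk' (Subgroup.center S)) z = 1 := (QuotientGroup.eq_one_iff z).mpr hzZ
        rw [h1]; exact Subgroup.one_mem _
      haveI hAn : A.Normal := Subgroup.normal_of_index_eq_two hAidx
      have hAel : ∀ g ∈ A, ∃ i : ℕ, g = a ^ i ∨ g = a ^ i * z := by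
        intro g hg
        rw [hA, Subgroup.mem_comap] at hg
        obtain ⟨i, hi⟩ := (Submonoid.mem_powers_iff _ _).mp (mem_powers_iff_mem_zpowers.mpr hg)
        refine ⟨i, ?_⟩
        have h1 : (QuotientGroup.mk (a ^ i) : S ⧸ Subgroup.center S) = QuotientGroup.mk g := by
          rw [QuotientGroup.mk_pow, ha]; exact hi
        rw [QuotientGroup.eq] at h1
        rcases hZ _ h1 with h | h
        · left; exact (inv_mul_eq_one.mp h).symm
        · right; rw [← h]; group
      have hzmem : z ∈ Subgroup.zpowers a := by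
        by_contra hzn
        have hAcard : Nat.card A * 2 = Nat.card S := by
          have := Subgroup.card_mul_index A; rw [hAidx] at this; exact this
        have hAle : A ≤ Subgroup.zpowers a ⊔ Subgroup.center S := by
          intro g hg
          obtain ⟨i, h | h⟩ := hAel g hg
          · rw [h]; exact Subgroup.mem_sup_left (Subgroup.pow_mem _ (Subgroup.mem_zpowers a) i)
          · rw [h]
            exact Subgroup.mul_mem _
              (Subgroup.mem_sup_left (Subgroup.pow_mem _ (Subgroup.mem_zpowers a) i))
              (Subgroup.mem_sup_right hzZ)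
        have h1 := Helper5.card_sup_mul_card_inf_of_le_normalizer (Subgroup.zpowers a)
          (Subgroup.center S) (by rw [Subgroup.normalizer_eq_top]; exact le_top)
        have h2 : 0 < Nat.card ↥(Subgroup.zpowers a ⊓ Subgroup.center S) := Nat.card_pos
        have h3 := Subgroup.card_le_of_le hAle
        rw [Nat.card_zpowers, hZcard] at h1
        have h4 : Nat.card ↥(Subgroup.zpowers a ⊔ Subgroup.center S) ≤
            Nat.card ↥(Subgroup.zpowers a ⊔ Subgroup.center S) *
              Nat.card ↥(Subgroup.zpowers a ⊓ Subgroup.center S) := Nat.le_mul_of_pos_right _ h2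
        have ho4 : 4 ≤ orderOf a := by omega
        obtain ⟨j, hj⟩ := Helper5.orderOf_eq_pow_of_isPGroup hS a
        have hj2 : 2 ≤ j := by
          by_contra hlt
          have hj1 : j ≤ 1 := by omega
          have hle : orderOf a ≤ 2 := by
            rw [hj]
            calc 2 ^ j ≤ 2 ^ 1 := Nat.pow_le_pow_right (by norm_num) hj1
              _ = 2 := by norm_num
          omega
        obtain ⟨k', hk'⟩ : ∃ k', orderOf a = 2 * (2 * k') := by
          refine ⟨2 ^ (j - 2), ?_⟩
          rw [hj, ← mul_assoc, ← pow_two, ← pow_add]; congr 1; omega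
        have hk'0 : 0 < k' := by
          rcases Nat.eq_zero_or_pos k' with h | h
          · rw [h] at hk'; omega
          · exact h
        obtain ⟨b, hb⟩ : ∃ b, b = a ^ k' := ⟨_, rfl⟩
        obtain ⟨w, hw⟩ : ∃ w, w = a ^ (2 * k') := ⟨_, rfl⟩
        have hwb : w = b * b := by rw [hw, hb, ← pow_add, two_mul]
        have hw1 : w ≠ 1 := by
          rw [hw]; exact pow_ne_one_of_lt_orderOf (by omega) (by omega)
        have hww : w * w = 1 := by
          rw [hw, ← pow_add, ← two_mul, ← hk']; exact pow_orderOf_eq_one a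
        have hwa : w ∈ Subgroup.zpowers a := by
          rw [hw]; exact Subgroup.pow_mem _ (Subgroup.mem_zpowers a) _
        have hbA : b ∈ A := by rw [hb]; exact Subgroup.pow_mem _ haA _
        have hconj : x * w * x⁻¹ ∈ Subgroup.zpowers a := by
          have e : x * w * x⁻¹ = (x * b * x⁻¹) * (x * b * x⁻¹) := by rw [hwb]; group
          rw [e]
          obtain ⟨i, h | h⟩ := hAel _ (hAn.conj_mem b hbA x)
          · rw [h, ← pow_add]; exact Subgroup.pow_mem _ (Subgroup.mem_zpowers a) _
          · rw [h]
            have e2 : a ^ i * z * (a ^ i * z) = a ^ i * a ^ i * (z * z) := by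
              calc a ^ i * z * (a ^ i * z) = a ^ i * (z * a ^ i) * z := by group
                _ = a ^ i * (a ^ i * z) * z := by rw [← hzc (a ^ i)]
                _ = a ^ i * a ^ i * (z * z) := by group
            rw [e2, hzz, mul_one, ← pow_add]
            exact Subgroup.pow_mem _ (Subgroup.mem_zpowers a) _
        have hconj2 : x * w * x⁻¹ = w := by
          have h1 : (x * w * x⁻¹) * (x * w * x⁻¹) = 1 := by
            have e : (x * w * x⁻¹) * (x * w * x⁻¹) = x * (w * w) * x⁻¹ := by group
            rw [e, hww]; group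
          have h2 : x * w * x⁻¹ ≠ 1 := by
            intro h; apply hw1
            have e : w = x⁻¹ * (x * w * x⁻¹) * x := by group
            rw [e, h]; group
          have h3 := invol_zpowers a _ (2 * k') hk' hconj h1 h2
          rw [h3, hw]
        have hwC : w ∈ Subgroup.centralizer ({x} : Set S) ⊓ A := by
          refine ⟨?_, Subgroup.zpowers_le.mpr haA hwa⟩
          show w ∈ Subgroup.centralizer ({x} : Set S)
          rw [mem_cent]; exact mul_inv_eq_iff_eq_mul.mp hconj2
        have hCA : Subgroup.center S = Subgroup.centralizer ({x} : Set S) ⊓ A := by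
          have hle : Subgroup.center S ≤ Subgroup.centralizer ({x} : Set S) ⊓ A := by
            refine le_inf hZC ?_
            intro c hc
            rcases hZ c hc with h | h
            · rw [h]; exact Subgroup.one_mem _
            · rw [h]; exact hzA
          apply Subgroup.eq_of_le_of_card_ge hle
          rw [hZcard]
          have h1 : Nat.card ↥(Subgroup.centralizer ({x} : Set S) ⊓ A) ∣ 4 := by
            rw [← hC]; exact Subgroup.card_dvd_of_le inf_le_left
          have h2 : Nat.card ↥(Subgroup.centralizer ({x} : Set S) ⊓ A) ≠ 4 := by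
            intro h
            have h3 := Subgroup.eq_of_le_of_card_ge
              (inf_le_left : Subgroup.centralizer ({x} : Set S) ⊓ A ≤
                Subgroup.centralizer ({x} : Set S)) (by rw [h, hC])
            apply hxA
            have h4 : x ∈ Subgroup.centralizer ({x} : Set S) ⊓ A := by rw [h3]; exact hxC
            exact h4.2
          have h4 := Nat.le_of_dvd (by norm_num) h1
          obtain ⟨c, hc⟩ : ∃ c, c = Nat.card ↥(Subgroup.centralizer ({x} : Set S) ⊓ A) := ⟨_, rfl⟩
          rw [← hc] at h1 h2 h4 ⊢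
          interval_cases c <;> omega
        rw [← hCA] at hwC
        rcases hZ w hwC with h | h
        · exact hw1 h
        · exact hzn (by rw [← h]; exact hwa)
      have hAeq : Subgroup.zpowers a = A := by
        apply le_antisymm (Subgroup.zpowers_le.mpr haA)
        intro g hg
        obtain ⟨i, h | h⟩ := hAel g hg
        · rw [h]; exact Subgroup.pow_mem _ (Subgroup.mem_zpowers a) i
        · rw [h]; exact Subgroup.mul_mem _ (Subgroup.pow_mem _ (Subgroup.mem_zpowers a) i) hzmem
      exact ⟨a, by rw [hAeq]; exact hxA, by rw [hAeq]; exact hAidx⟩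

/-- A finite 2-group containing an involution whose centralizer has order 4 is dihedral, quasi-dihedral (semidihedral), or of order 4. -/
theorem result {S : Type*} [Group S] [Finite S] (hS : IsPGroup 2 S)
    (x : S) (hx : orderOf x = 2) (hC : Nat.card ↥(Subgroup.centralizer ({x} : Set S)) = 4) :
    (∃ n : ℕ, Nonempty (S ≃* DihedralGroup n)) ∨ Cfsg.IsQuasiDihedral S ∨ Nat.card S = 4 := by
  classical
  haveI : Fact (Nat.Prime 2) := ⟨Nat.prime_two⟩
  have hxx : x * x = 1 := by rw [← pow_two, ← hx]; exact pow_orderOf_eq_one x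
  have hx1 : x ≠ 1 := by intro h; rw [h, orderOf_one] at hx; omega
  have hxinv : x⁻¹ = x := inv_eq_of_mul_eq_one_left hxx
  by_cases h4 : Nat.card S = 4
  · right; right; exact h4
  have h8 : 8 ≤ Nat.card S := by
    obtain ⟨m, hm⟩ := IsPGroup.iff_card.mp hS
    have h1 : 4 ∣ Nat.card S := by rw [← hC]; exact Subgroup.card_subgroup_dvd_card _
    have hm3 : 3 ≤ m := by
      by_contra hlt
      have : m ≤ 2 := by omega
      interval_cases m <;> norm_num at hm <;> omega
    rw [hm]
    calc 8 = 2 ^ 3 := by norm_num
      _ ≤ 2 ^ m := Nat.pow_le_pow_right (by norm_num) hm3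
  obtain ⟨a, hxa, hidx⟩ := exists_cyclic_max _ S rfl hS x hxx hx1 hC h8
  haveI hAn : (Subgroup.zpowers a).Normal := Subgroup.normal_of_index_eq_two hidx
  have hcard : orderOf a * 2 = Nat.card S := by
    have := Subgroup.card_mul_index (Subgroup.zpowers a)
    rw [hidx, Nat.card_zpowers] at this; exact this
  obtain ⟨j, hj⟩ := Helper5.orderOf_eq_pow_of_isPGroup hS a
  have hj2 : 2 ≤ j := by
    by_contra hlt
    have hj1 : j ≤ 1 := by omega
    have hle : orderOf a ≤ 2 := by
      rw [hj]
      calc 2 ^ j ≤ 2 ^ 1 := Nat.pow_le_pow_right (by norm_num) hj1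
        _ = 2 := by norm_num
    omega
  obtain ⟨k, hk⟩ : ∃ k, k = 2 ^ (j - 1) := ⟨_, rfl⟩
  have hok : orderOf a = 2 * k := by
    rw [hj, hk, ← pow_succ']; congr 1; omega
  have hk2 : 2 ≤ k := by
    rw [hk]
    calc 2 = 2 ^ 1 := by norm_num
      _ ≤ 2 ^ (j - 1) := Nat.pow_le_pow_right (by norm_num) (by omega)
  have hcomm : ∀ b ∈ Subgroup.zpowers a, ∀ c ∈ Subgroup.zpowers a, b * c = c * b := by
    intro b hb c hc
    obtain ⟨i, rfl⟩ := Subgroup.mem_zpowers_iff.mp hb
    obtain ⟨l, rfl⟩ := Subgroup.mem_zpowers_iff.mp hc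
    rw [← zpow_add, ← zpow_add, add_comm]
  obtain ⟨w, hw⟩ : ∃ w, w = a ^ k := ⟨_, rfl⟩
  have hw1 : w ≠ 1 := by rw [hw]; exact pow_ne_one_of_lt_orderOf (by omega) (by omega)
  have hww : w * w = 1 := by rw [hw, ← pow_add, ← two_mul, ← hok]; exact pow_orderOf_eq_one a
  have hwa : w ∈ Subgroup.zpowers a := by
    rw [hw]; exact Subgroup.pow_mem _ (Subgroup.mem_zpowers a) _
  have hconj2 : x * w * x⁻¹ = w := by
    have h1 : (x * w * x⁻¹) * (x * w * x⁻¹) = 1 := by
      have e : (x * w * x⁻¹) * (x * w * x⁻¹) = x * (w * w) * x⁻¹ := by group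
      rw [e, hww]; group
    have h2 : x * w * x⁻¹ ≠ 1 := by
      intro h; apply hw1
      have e : w = x⁻¹ * (x * w * x⁻¹) * x := by group
      rw [e, h]; group
    have h3 := invol_zpowers a _ k hok (hAn.conj_mem w hwa x) h1 h2
    rw [h3, hw]
  obtain ⟨I, hI⟩ : ∃ I : Subgroup S,
      I = Subgroup.centralizer ({x} : Set S) ⊓ Subgroup.zpowers a := ⟨_, rfl⟩
  have hxC : x ∈ Subgroup.centralizer ({x} : Set S) := (mem_cent x x).mpr rfl
  have hwI : w ∈ I := by
    rw [hI]
    exact ⟨(mem_cent x w).mpr (mul_inv_eq_iff_eq_mul.mp hconj2), hwa⟩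
  have hIcard : Nat.card I = 2 := by
    have h1 : Nat.card I ∣ 4 := by
      rw [← hC, hI]; exact Subgroup.card_dvd_of_le inf_le_left
    have h2 : Nat.card I ≠ 4 := by
      intro h
      have h3 : I = Subgroup.centralizer ({x} : Set S) := by
        rw [hI]
        exact Subgroup.eq_of_le_of_card_ge inf_le_left (by rw [← hI, h, hC])
      apply hxa
      have h4 : x ∈ I := by rw [h3]; exact hxC
      rw [hI] at h4
      exact h4.2
    have h3 : Nat.card I ≠ 1 := by
      intro h
      have h4 := Subgroup.card_eq_one.mp h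
      rw [h4, Subgroup.mem_bot] at hwI
      exact hw1 hwI
    have h5 := Nat.le_of_dvd (by norm_num) h1
    obtain ⟨c, hc⟩ : ∃ c, c = Nat.card I := ⟨_, rfl⟩
    rw [← hc] at h1 h2 h3 h5 ⊢
    interval_cases c <;> omega
  have hIel : ∀ c ∈ I, c = 1 ∨ c = w := two_elts I hIcard w hwI hw1
  have hxax : x * a * x⁻¹ ∈ Subgroup.zpowers a := hAn.conj_mem a (Subgroup.mem_zpowers a) x
  have hNI : a * (x * a * x⁻¹) ∈ I := by
    rw [hI]
    refine ⟨?_, Subgroup.mul_mem _ (Subgroup.mem_zpowers a) hxax⟩
    show a * (x * a * x⁻¹) ∈ Subgroup.centralizer ({x} : Set S)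
    rw [mem_cent]
    have hc2 : x * (x * a * x⁻¹) = a * x := by
      have e : x * (x * a * x⁻¹) = (x * x) * a * x⁻¹ := by group
      rw [e, hxx, one_mul, hxinv]
    calc x * (a * (x * a * x⁻¹)) = (x * a * x⁻¹) * (x * (x * a * x⁻¹)) := by group
      _ = (x * a * x⁻¹) * (a * x) := by rw [hc2]
      _ = ((x * a * x⁻¹) * a) * x := by group
      _ = (a * (x * a * x⁻¹)) * x := by rw [hcomm _ hxax _ (Subgroup.mem_zpowers a)]
  rcases hIel _ hNI with hN | hN
  · left
    have hinv : x * a * x⁻¹ = a⁻¹ := eq_inv_of_mul_eq_one_right hN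
    have ha1 : a ≠ 1 := by
      intro h; rw [h, orderOf_one] at hok; omega
    obtain ⟨y, hy⟩ : ∃ y, y = x * a := ⟨_, rfl⟩
    have hyy : y * y = 1 := by
      have e : y * y = (x * a * x⁻¹) * (x * x) * a := by rw [hy]; group
      rw [e, hinv, hxx]; group
    have hy1 : y ≠ 1 := by
      intro h
      apply hxa
      rw [hy] at h
      have h' : x = a⁻¹ := eq_inv_of_mul_eq_one_left h
      rw [h']; exact Subgroup.inv_mem _ (Subgroup.mem_zpowers a)
    have hyo : orderOf y = 2 := orderOf_eq_prime (by rw [pow_two]; exact hyy) hy1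
    have hxy : x ≠ y := by
      intro h; apply ha1
      rw [hy] at h
      exact mul_left_cancel (a := x) (b := a) (c := 1) (by rw [mul_one]; exact h.symm)
    obtain ⟨e⟩ := Cfsg.Agent.S0206.result x y hx hyo hxy
    have hcl : Subgroup.closure ({x, y} : Set S) = ⊤ := by
      apply eq_top_of_index_two (Subgroup.zpowers a) _ hidx ?_ x
        (Subgroup.subset_closure (by simp)) hxa
      rw [Subgroup.zpowers_le]
      have e1 : a = x⁻¹ * y := by rw [hy]; group
      rw [e1]
      exact Subgroup.mul_mem _ (Subgroup.inv_mem _ (Subgroup.subset_closure (by simp)))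
        (Subgroup.subset_closure (by simp))
    exact ⟨orderOf (x * y),
      ⟨(Subgroup.topEquiv.symm).trans ((MulEquiv.subgroupCongr hcl.symm).trans e)⟩⟩
  · right; left
    have hconj : x * a * x⁻¹ = a ^ (k - 1) := by
      have h1 : x * a * x⁻¹ = a⁻¹ * w := by rw [← hN]; group
      rw [h1, hw]
      have h2 : a ^ k = a * a ^ (k - 1) := by rw [← pow_succ']; congr 1; omega
      rw [h2]; group
    have hj3 : 3 ≤ j := by
      by_contra hlt
      have hj' : j = 2 := by omega
      have hk' : k = 2 := by rw [hk, hj']; norm_num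
      rw [hk'] at hconj
      have haI : a ∈ I := by
        rw [hI]; refine ⟨?_, Subgroup.mem_zpowers a⟩
        show a ∈ Subgroup.centralizer ({x} : Set S)
        rw [mem_cent]
        have h1 : x * a * x⁻¹ = a := by rw [hconj]; simp
        exact mul_inv_eq_iff_eq_mul.mp h1
      rcases hIel a haI with h | h
      · rw [h, orderOf_one] at hok; omega
      · rw [hw, hk'] at h
        have h1 : a = 1 := by
          have h' : a * 1 = a * a := by rw [mul_one, ← pow_two]; exact h
          exact (mul_left_cancel h').symm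
        rw [h1, orderOf_one] at hok; omega
    refine ⟨j, hj3, ?_, a, x, hj, hx, ?_⟩
    · rw [← hcard, hj, pow_succ]
    · rw [hconj, hk]

end Cfsg.Agent.S3224
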