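import Cfsg.Statements.S3225
import Mathlib
import Cfsg.Agent.Lib.Helper5.ThompsonTransfer

set_option autoImplicit false
open Cfsg

namespace Cfsg.Agent.S3225

/-- Let G be a finite group of even order with no subgroup of index 2, S a Sylow 2-subgroup of G and M a subgroup of index 2 in S such that, for some n ≥ 1, every element of S outside M has order greater than 2^(n−1). Then every element of S of order 2ⁿ is conjugate in G to an element of M. -/
theorem result {G : Type*} [Group G] [Finite G] (hev : Even (Nat.card G))
    (hG : ∀ H : Subgroup G, H.index ≠ 2) (S : Sylow 2 G) (M : Subgroup G) (hMS : M ≤ (S : Subgroup G)) (hM : M.relIndex (S : Subgroup G) = 2)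
    (n : ℕ) (hn : 1 ≤ n) (hord : ∀ y ∈ (S : Subgroup G), y ∉ M → 2 ^ (n - 1) < orderOf y)
    (x : G) (hx : x ∈ (S : Subgroup G)) (hxn : orderOf x = 2 ^ n) :
    ∃ g : G, g * x * g⁻¹ ∈ M := by
  by_contra hcon
  push Not at hcon
  have hodd : Odd (S : Subgroup G).index := by
    have := S.not_dvd_index
    exact Nat.odd_iff.mpr (Nat.two_dvd_ne_zero.mp this)
  obtain ⟨N, hN, -⟩ := Cfsg.Agent.Lib.Helper5.transfer_index_two (S : Subgroup G) M hM hodd x (by
    intro r k hk hmem
    rw [hxn] at hk
    obtain ⟨j, hj, rfl⟩ := (Nat.dvd_prime_pow Nat.prime_two).mp hk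
    rcases Nat.eq_zero_or_pos j with rfl | hjpos
    · simp only [pow_zero, pow_one]
      constructor
      · intro h
        exact absurd (by simpa using h) (hcon r⁻¹)
      · intro h; exact absurd h (by decide)
    · constructor
      · intro _; exact (Nat.even_pow.mpr ⟨even_two, hjpos.ne'⟩)
      · intro _
        by_contra hnot
        have h1 := hord _ hmem hnot
        have ho : orderOf (r⁻¹ * x ^ 2 ^ j * r) = 2 ^ (n - j) := by
          have e1 : r⁻¹ * x ^ 2 ^ j * r = (MulAut.conj r⁻¹) (x ^ 2 ^ j) := by
            simp [MulAut.conj_apply]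
          rw [e1, MulEquiv.orderOf_eq, orderOf_pow_of_dvd (by positivity) (by rw [hxn]; exact hk),
            hxn, Nat.pow_div hj (by norm_num)]
        rw [ho] at h1
        have h2 : n - j ≤ n - 1 := by omega
        exact absurd (Nat.pow_le_pow_right (by norm_num) h2) (not_le.mpr h1))
  exact hG N hN

end Cfsg.Agent.S3225
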