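import Cfsg.Statements.S3276
import Mathlib
import Cfsg.Agent.Lib.Helper5.DStar

set_option autoImplicit false
open Cfsg Cfsg.Agent.Lib.Helper5

namespace Cfsg.Agent.S3276

theorem ncard_four_le {α : Type*} (a b c d : α) : ({a, b, c, d} : Set α).ncard ≤ 4 := by
  have h1 := Set.ncard_insert_le a ({b, c, d} : Set α)
  have h2 := Set.ncard_insert_le b ({c, d} : Set α)
  have h3 := Set.ncard_insert_le c ({d} : Set α)
  have h4 := Set.ncard_singleton d
  omega

/-- Let x and y be commuting, non-conjugate involutions of a finite group G, and suppose that for every involution u commuting with x, each conjugate of y that commutes with u also commutes with y. Then the normal closure of y is a proper, normal, elementary abelian 2-subgroup of G; and if y is the only involution of that normal closure commuting with x, it has order at most 4. -/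
theorem result {G : Type*} [Group G] [Finite G] (x y : G) (hx : orderOf x = 2) (hy : orderOf y = 2)
    (hxy : Commute x y) (hnc : ¬ IsConj x y)
    (hstar : ∀ u : G, orderOf u = 2 → Commute u x → ∀ g : G, Commute (g * y * g⁻¹) u → Commute (g * y * g⁻¹) y) :
    Subgroup.normalClosure ({y} : Set G) ≠ ⊤ ∧ Cfsg.IsElementaryAbelian 2 (Subgroup.normalClosure ({y} : Set G)) ∧
      ((∀ u ∈ Subgroup.normalClosure ({y} : Set G), orderOf u = 2 → Commute u x → u = y) →
        Nat.card ↥(Subgroup.normalClosure ({y} : Set G)) ≤ 4) := by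
  have hx2 : x * x = 1 := by rw [← pow_two, ← hx, pow_orderOf_eq_one]
  have hy2 : y * y = 1 := by rw [← pow_two, ← hy, pow_orderOf_eq_one]
  have hx1 : x ≠ 1 := by intro h; rw [h, orderOf_one] at hx; omega
  have hy1 : y ≠ 1 := by intro h; rw [h, orderOf_one] at hy; omega
  have hxinv : x⁻¹ = x := inv_eq_of_mul_eq_one_left hx2
  have hyinv : y⁻¹ = y := inv_eq_of_mul_eq_one_left hy2
  have key : ∀ g : G, (g * y * g⁻¹) * y = y * (g * y * g⁻¹) := by
    intro g
    obtain ⟨y', hy'⟩ : ∃ y' : G, y' = g * y * g⁻¹ := ⟨_, rfl⟩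
    have hy'2 : y' * y' = 1 := by
      rw [hy']
      have : g * y * g⁻¹ * (g * y * g⁻¹) = g * (y * y) * g⁻¹ := by group
      rw [this, hy2]; group
    have hy'inv : y'⁻¹ = y' := inv_eq_of_mul_eq_one_left hy'2
    obtain ⟨r, hr⟩ : ∃ r : G, r = x * y' := ⟨_, rfl⟩
    have hxr : x * r * x⁻¹ = r⁻¹ := by
      rw [hr, mul_inv_rev, hy'inv, hxinv, ← mul_assoc x x y', hx2, one_mul]
    have hyr : y' * r * y'⁻¹ = r⁻¹ := by
      rw [hr, mul_inv_rev, hy'inv, hxinv]
      rw [mul_assoc, mul_assoc, hy'2, mul_one]
    have hn : 0 < orderOf r := orderOf_pos r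
    rcases Nat.even_or_odd' (orderOf r) with ⟨m, hm | hm⟩
    · have hm0 : 0 < m := by omega
      obtain ⟨u, hu⟩ : ∃ u : G, u = r ^ m := ⟨_, rfl⟩
      have hu2 : u * u = 1 := by rw [hu, ← pow_add, ← two_mul, ← hm, pow_orderOf_eq_one]
      have hu1 : u ≠ 1 := by
        rw [hu]; intro h
        have h1 := orderOf_dvd_of_pow_eq_one h
        have h2 := Nat.le_of_dvd hm0 h1
        omega
      have huo : orderOf u = 2 := by
        apply orderOf_eq_prime
        · rw [pow_two]; exact hu2
        · exact hu1
      have huinv : u⁻¹ = u := inv_eq_of_mul_eq_one_left hu2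
      have hux : Commute u x := by
        have h1 : x * u * x⁻¹ = u := by
          rw [hu, ← conj_pow, hxr, inv_pow, ← hu, huinv]
        show u * x = x * u
        have h2 : x * u = x * u * x⁻¹ * x := by group
        rw [h2, h1]
      have huy : Commute y' u := by
        have h1 : y' * u * y'⁻¹ = u := by
          rw [hu, ← conj_pow, hyr, inv_pow, ← hu, huinv]
        show y' * u = u * y'
        have h2 : y' * u = y' * u * y'⁻¹ * y' := by group
        rw [h2, h1]
      have h3 := hstar u huo hux g (by rw [← hy']; exact huy)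
      exact h3.eq
    · exfalso
      apply hnc
      rw [isConj_iff]
      refine ⟨g⁻¹ * r ^ m, ?_⟩
      have h1 : r ^ m * x * (r ^ m)⁻¹ = y' := by
        have h2 : x * r ^ m * x⁻¹ = (r ^ m)⁻¹ := by rw [← conj_pow, hxr, inv_pow]
        rw [← h2]
        have h3 : r ^ m * x * (x * r ^ m * x⁻¹) = r ^ m * (x * x) * r ^ m * x⁻¹ := by group
        rw [h3, hx2, mul_one, ← pow_add, hxinv]
        have h4 : r ^ (m + m) * r = 1 := by
          rw [← pow_succ, show m + m + 1 = 2 * m + 1 by ring, ← hm, pow_orderOf_eq_one]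
        have h5 : r ^ (m + m) = r⁻¹ := eq_inv_of_mul_eq_one_left h4
        rw [h5, hr, mul_inv_rev, hy'inv, hxinv, mul_assoc, hx2, mul_one]
      have e : g⁻¹ * r ^ m * x * (g⁻¹ * r ^ m)⁻¹ = g⁻¹ * (r ^ m * x * (r ^ m)⁻¹) * g := by group
      rw [e, h1, hy']; group
  have keyall : ∀ a ∈ Group.conjugatesOfSet ({y} : Set G),
      ∀ b ∈ Group.conjugatesOfSet ({y} : Set G), a * b = b * a := by
    intro a ha b hb
    rw [Group.mem_conjugatesOfSet_iff] at ha hb
    obtain ⟨a', ha', hca⟩ := ha
    obtain ⟨b', hb', hcb⟩ := hb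
    rw [Set.mem_singleton_iff] at ha' hb'
    rw [ha', isConj_iff] at hca
    rw [hb', isConj_iff] at hcb
    obtain ⟨c, rfl⟩ := hca
    obtain ⟨d, rfl⟩ := hcb
    have h := key (d⁻¹ * c)
    have e1 : c * y * c⁻¹ * (d * y * d⁻¹) = d * ((d⁻¹ * c) * y * (d⁻¹ * c)⁻¹ * y) * d⁻¹ := by
      group
    have e2 : d * y * d⁻¹ * (c * y * c⁻¹) = d * (y * ((d⁻¹ * c) * y * (d⁻¹ * c)⁻¹)) * d⁻¹ := by
      group
    rw [e1, e2, h]
  obtain ⟨K, hK⟩ : ∃ K : Set G, K = Group.conjugatesOfSet ({y} : Set G) := ⟨_, rfl⟩
  have hN : Subgroup.normalClosure ({y} : Set G) = Subgroup.closure K := by rw [hK]; rfl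
  have hKy : ∀ k ∈ K, ∃ c : G, c * y * c⁻¹ = k := by
    intro k hk
    rw [hK, Group.mem_conjugatesOfSet_iff] at hk
    obtain ⟨a', ha', hca⟩ := hk
    rw [Set.mem_singleton_iff] at ha'
    rw [ha', isConj_iff] at hca
    exact hca
  have h1 : Subgroup.closure K ≤ Subgroup.centralizer K := by
    rw [Subgroup.closure_le]
    intro a ha
    rw [SetLike.mem_coe, Subgroup.mem_centralizer_iff]
    intro b hb
    rw [hK] at ha hb
    exact keyall b hb a ha
  have hcomm : ∀ a ∈ Subgroup.closure K, ∀ b ∈ Subgroup.closure K, a * b = b * a := by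
    intro a ha b hb
    have h2 : Subgroup.closure K ≤ Subgroup.centralizer {b} := by
      rw [Subgroup.closure_le]
      intro k hk
      rw [SetLike.mem_coe, Subgroup.mem_centralizer_iff]
      intro b' hb'
      rw [Set.mem_singleton_iff] at hb'
      rw [hb']
      exact (Subgroup.mem_centralizer_iff.mp (h1 hb) k hk).symm
    have h3 := Subgroup.mem_centralizer_iff.mp (h2 ha) b rfl
    exact h3.symm
  have hsq : ∀ a ∈ Subgroup.closure K, a * a = 1 := by
    intro a ha
    induction ha using Subgroup.closure_induction with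
    | mem k hk =>
      obtain ⟨c, rfl⟩ := hKy k hk
      have h2 : c * y * c⁻¹ * (c * y * c⁻¹) = c * (y * y) * c⁻¹ := by group
      rw [h2, hy2]; group
    | one => simp
    | mul a b ha hb iha ihb =>
      have e := hcomm a ha b hb
      calc a * b * (a * b) = a * (b * a) * b := by group
        _ = a * (a * b) * b := by rw [← e]
        _ = (a * a) * (b * b) := by group
        _ = 1 := by rw [iha, ihb, one_mul]
    | inv a ha iha =>
      have h2 : a⁻¹ * a⁻¹ = (a * a)⁻¹ := by group
      rw [h2, iha, inv_one]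
  have hEA : Cfsg.IsElementaryAbelian 2 (Subgroup.normalClosure ({y} : Set G)) := by
    rw [hN]
    refine ⟨isMulCommutative_of_comm hcomm, ?_⟩
    intro a ha; rw [pow_two]; exact hsq a ha
  refine ⟨?_, hEA, ?_⟩
  · intro htop
    rw [hN] at htop
    have hmem : ∀ a : G, a ∈ Subgroup.closure K := fun a => by rw [htop]; exact Subgroup.mem_top a
    have hall : ∀ a b : G, a * b = b * a := fun a b => hcomm a (hmem a) b (hmem b)
    have hKz : K ⊆ ((Subgroup.zpowers y : Subgroup G) : Set G) := by
      intro k hk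
      obtain ⟨c, rfl⟩ := hKy k hk
      have h2 : c * y * c⁻¹ = y := by rw [hall c y]; group
      rw [h2]; exact Subgroup.mem_zpowers y
    have hle : Subgroup.closure K ≤ Subgroup.zpowers y := (Subgroup.closure_le _).mpr hKz
    have hxz : x ∈ Subgroup.zpowers y := hle (hmem x)
    obtain ⟨k, hk⟩ := Subgroup.mem_zpowers_iff.mp hxz
    rcases Int.even_or_odd' k with ⟨j, hj | hj⟩
    · apply hx1; rw [← hk, hj, zpow_mul, zpow_two, hy2, one_zpow]
    · have hxy' : x = y := by
        rw [← hk, hj, zpow_add, zpow_mul, zpow_two, hy2, one_zpow, one_mul, zpow_one]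
      apply hnc; rw [hxy']
  · intro huniq
    rw [hN] at huniq ⊢
    have hNn : ∀ n ∈ Subgroup.closure K, ∀ g : G, g * n * g⁻¹ ∈ Subgroup.closure K := by
      intro n hn g
      have hnorm : (Subgroup.normalClosure ({y} : Set G)).Normal := Subgroup.normalClosure_normal
      rw [← hN] at hn ⊢
      exact hnorm.conj_mem n hn g
    have hphi : ∀ n ∈ Subgroup.closure K, n * (x * n * x⁻¹) = 1 ∨ n * (x * n * x⁻¹) = y := by
      intro n hn
      have hm : n * (x * n * x⁻¹) ∈ Subgroup.closure K := mul_mem hn (hNn n hn x)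
      by_cases h1 : n * (x * n * x⁻¹) = 1
      · left; exact h1
      · right
        apply huniq _ hm
        · apply orderOf_eq_prime
          · rw [pow_two]; exact hsq _ hm
          · exact h1
        · show n * (x * n * x⁻¹) * x = x * (n * (x * n * x⁻¹))
          have e1 := hcomm n hn (x * n * x⁻¹) (hNn n hn x)
          have e2 : x * (n * (x * n * x⁻¹)) =
              (x * n * x⁻¹) * ((x * x) * n * (x * x)⁻¹) * x := by group
          rw [e2, hx2, one_mul, inv_one, mul_one, ← e1]
    have hfix : ∀ n ∈ Subgroup.closure K, n * (x * n * x⁻¹) = 1 → n = 1 ∨ n = y := by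
      intro n hn h
      by_cases h1 : n = 1
      · left; exact h1
      · right
        apply huniq n hn
        · apply orderOf_eq_prime
          · rw [pow_two]; exact hsq n hn
          · exact h1
        · show n * x = x * n
          have e1 : x * n * x⁻¹ = n⁻¹ := eq_inv_of_mul_eq_one_right h
          have e2 : n⁻¹ = n := inv_eq_of_mul_eq_one_left (hsq n hn)
          rw [e2] at e1
          have e3 : x * n = x * n * x⁻¹ * x := by group
          rw [e3, e1]
    have hc : Nat.card ↥(Subgroup.closure K) = ((Subgroup.closure K : Subgroup G) : Set G).ncard :=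
      Nat.card_coe_set_eq _
    rw [hc]
    by_cases hex : ∃ n₀ ∈ Subgroup.closure K, n₀ * (x * n₀ * x⁻¹) = y
    · obtain ⟨n₀, hn₀, hn₀y⟩ := hex
      have hsub : ((Subgroup.closure K : Subgroup G) : Set G) ⊆ ({1, y, n₀, y * n₀} : Set G) := by
        intro n hn
        have hn' : n ∈ Subgroup.closure K := hn
        rcases hphi n hn' with h | h
        · rcases hfix n hn' h with h' | h'
          · rw [h']; simp
          · rw [h']; simp
        · have hm : n * n₀ ∈ Subgroup.closure K := mul_mem hn' hn₀
          have hphim : (n * n₀) * (x * (n * n₀) * x⁻¹) = 1 := by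
            have e1 : (n * n₀) * (x * (n * n₀) * x⁻¹) =
                n * (n₀ * (x * n * x⁻¹)) * (x * n₀ * x⁻¹) := by group
            have e2 := hcomm n₀ hn₀ (x * n * x⁻¹) (hNn n hn' x)
            rw [e1, e2]
            have e3 : n * (x * n * x⁻¹ * n₀) * (x * n₀ * x⁻¹) =
                (n * (x * n * x⁻¹)) * (n₀ * (x * n₀ * x⁻¹)) := by group
            rw [e3, h, hn₀y, hy2]
          have hn₀inv : n₀⁻¹ = n₀ := inv_eq_of_mul_eq_one_left (hsq n₀ hn₀)
          rcases hfix _ hm hphim with h' | h'
          · have h2 : n = n₀ := by rw [← hn₀inv]; exact eq_inv_of_mul_eq_one_left h'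
            rw [h2]; simp
          · have h2 : n = y * n₀ := by rw [← h', mul_assoc, hsq n₀ hn₀, mul_one]
            rw [h2]; simp
      exact (Set.ncard_le_ncard hsub (Set.toFinite _)).trans (ncard_four_le _ _ _ _)
    · push Not at hex
      have hsub : ((Subgroup.closure K : Subgroup G) : Set G) ⊆ ({1, y, 1, y} : Set G) := by
        intro n hn
        have hn' : n ∈ Subgroup.closure K := hn
        rcases hphi n hn' with h | h
        · rcases hfix n hn' h with h' | h'
          · rw [h']; simp
          · rw [h']; simp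
        · exact absurd h (hex n hn')
      exact (Set.ncard_le_ncard hsub (Set.toFinite _)).trans (ncard_four_le _ _ _ _)

end Cfsg.Agent.S3276
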