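import Cfsg.Statements.S3303
import Cfsg.Agent.Lib.Lead.Fitting2
import Cfsg.Agent.Lib.Lead.PCore2
import Cfsg.Agent.Lib.Helper8.Syl
import Cfsg.Agent.Lib.Helper6.PSub
import Cfsg.Agent.Lib.Helper5.QuatAut
import Cfsg.Agent.Lib.Helper2.Comp13

set_option autoImplicit false
open Cfsg

namespace Cfsg.Agent.S3303

open Cfsg.Agent.Lib in
theorem result {G : Type*} [Group G] [Finite G] (hs : Group.IsSolvable G)
    (hC : ∀ S T : Sylow 2 G, S ≠ T → IsCyclic ↥((S : Subgroup G) ⊓ (T : Subgroup G))) :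
    ∃ P : Sylow 2 (G ⧸ Cfsg.oddCore G), (P : Subgroup (G ⧸ Cfsg.oddCore G)).Normal := by
  classical
  have hf2 : Fact (Nat.Prime 2) := ⟨Nat.prime_two⟩
  obtain ⟨π, hπ⟩ : ∃ π : G →* G ⧸ Cfsg.oddCore G, π = QuotientGroup.mk' (Cfsg.oddCore G) := ⟨_, rfl⟩
  have hπs : Function.Surjective π := by rw [hπ]; exact QuotientGroup.mk'_surjective _
  have hker : ∀ g : G, π g = 1 ↔ g ∈ Cfsg.oddCore G := by
    intro g; rw [hπ]; exact QuotientGroup.eq_one_iff g
  obtain ⟨S⟩ : Nonempty (Sylow 2 G) := inferInstance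
  by_cases hall : ∀ T : Sylow 2 G, (T : Subgroup G).map π = (S : Subgroup G).map π
  · refine ⟨S.mapSurjective hπs, ?_⟩
    rw [Sylow.coe_mapSurjective]
    constructor
    intro x hx y
    obtain ⟨g, rfl⟩ := hπs y
    obtain ⟨s, hs', rfl⟩ := hx
    have hT := hall (g • S)
    rw [← hT]
    refine ⟨g * s * g⁻¹, ?_, by simp⟩
    rw [SetLike.mem_coe, Helper6.sylow_smul_mem_iff]
    have e : g⁻¹ * (g * s * g⁻¹) * g = s := by group
    rw [e]; exact hs'
  · push_neg at hall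
    obtain ⟨T, hT⟩ := hall
    obtain ⟨Q, hQ⟩ : ∃ Q : Subgroup G, Q = (S : Subgroup G) ⊓
        (Cfsg.pCore 2 (G ⧸ Cfsg.oddCore G)).comap π := ⟨_, rfl⟩
    have hQS : Q ≤ S := hQ ▸ inf_le_left
    have hQ2 : IsPGroup 2 Q := S.isPGroup'.to_le hQS
    have hRle : ∀ T' : Sylow 2 G, Cfsg.pCore 2 (G ⧸ Cfsg.oddCore G) ≤ (T' : Subgroup G).map π := by
      intro T'
      have := Lead.pCore_le_sylow' (T'.mapSurjective hπs)
      rwa [Sylow.coe_mapSurjective] at this
    have hQTO : Q ≤ (T : Subgroup G) ⊔ Cfsg.oddCore G := by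
      intro q hq
      rw [hQ] at hq
      obtain ⟨t, ht, htq⟩ := hRle T hq.2
      have h1 : t⁻¹ * q ∈ Cfsg.oddCore G := by
        rw [← hker, map_mul, map_inv, htq, inv_mul_cancel]
      have e : q = t * (t⁻¹ * q) := by group
      rw [e]
      exact Subgroup.mul_mem _ ((le_sup_left : (T : Subgroup G) ≤ _) ht)
        ((le_sup_right : Cfsg.oddCore G ≤ (T : Subgroup G) ⊔ Cfsg.oddCore G) h1)
    have hOn : (Cfsg.oddCore G).Normal := Lead.pPrimeCore_normal 2 G
    have hNtop : Subgroup.normalizer ((Cfsg.oddCore G : Subgroup G) : Set G) = ⊤ :=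
      Subgroup.normalizer_eq_top_iff.mpr hOn
    have hTN : (T : Subgroup G) ≤ Subgroup.normalizer ((Cfsg.oddCore G : Subgroup G) : Set G) := by
      rw [hNtop]; exact le_top
    have hSyl : Helper8.SylIn 2 (T : Subgroup G) ((T : Subgroup G) ⊔ Cfsg.oddCore G) :=
      (Helper8.sylIn_top T).mono le_sup_left le_top
    obtain ⟨k, hkO, hk⟩ := hSyl.exists_conj_le_of_sup hTN hQ2 hQTO
    rw [Helper8.cj_le_iff] at hk
    have hk1 : π k = 1 := (hker k).mpr hkO
    have hQT' : Q ≤ ((k⁻¹ • T : Sylow 2 G) : Subgroup G) := by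
      intro x hx
      rw [Helper6.sylow_smul_mem_iff, inv_inv]
      exact hk x hx
    have hT'ne : (k⁻¹ • T : Sylow 2 G) ≠ S := by
      intro e
      apply hT
      rw [← e]
      ext y
      constructor
      · rintro ⟨t, ht, rfl⟩
        refine ⟨k⁻¹ * t * k, ?_, ?_⟩
        · rw [SetLike.mem_coe, Helper6.sylow_smul_mem_iff, inv_inv]
          have e2 : k * (k⁻¹ * t * k) * k⁻¹ = t := by group
          rw [e2]; exact ht
        · rw [map_mul, map_mul, map_inv, hk1]; simp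
      · rintro ⟨t, ht, rfl⟩
        rw [SetLike.mem_coe, Helper6.sylow_smul_mem_iff, inv_inv] at ht
        refine ⟨k * t * k⁻¹, ht, ?_⟩
        rw [map_mul, map_mul, map_inv, hk1]; simp
    have hcyc := hC S (k⁻¹ • T) (Ne.symm hT'ne)
    have hQcyc : IsCyclic Q :=
      Subgroup.isCyclic_of_le (le_inf hQS hQT' : Q ≤ (S : Subgroup G) ⊓ ((k⁻¹ • T : Sylow 2 G) : Subgroup G))
    have hR : Cfsg.pCore 2 (G ⧸ Cfsg.oddCore G) = Q.map π := by
      apply le_antisymm
      · intro r hr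
        obtain ⟨s, hs', rfl⟩ := hRle S hr
        exact ⟨s, by rw [hQ]; exact ⟨hs', hr⟩, rfl⟩
      · rintro _ ⟨q, hq, rfl⟩
        rw [hQ] at hq; exact hq.2
    obtain ⟨c₀, hc₀⟩ := hQcyc.exists_generator
    have hRz : Cfsg.pCore 2 (G ⧸ Cfsg.oddCore G) = Subgroup.zpowers (π c₀) := by
      rw [hR]
      apply le_antisymm
      · rintro _ ⟨q, hq, rfl⟩
        obtain ⟨i, hi⟩ := Subgroup.mem_zpowers_iff.mp (hc₀ ⟨q, hq⟩)
        refine Subgroup.mem_zpowers_iff.mpr ⟨i, ?_⟩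
        have h2 : ((c₀ ^ i : Q) : G) = q := congrArg Subtype.val hi
        rw [← h2]; simp
      · rw [Subgroup.zpowers_le]; exact ⟨c₀, c₀.2, rfl⟩
    have hRn : (Cfsg.pCore 2 (G ⧸ Cfsg.oddCore G)).Normal := Lead.pCore_normal 2 _
    have hR2 : IsPGroup 2 (Cfsg.pCore 2 (G ⧸ Cfsg.oddCore G)) := Lead.pCore_isPGroup' 2
    have hObot : Cfsg.pPrimeCore 2 (G ⧸ Cfsg.oddCore G) = ⊥ := Lead.pPrimeCore_quotient 2
    have hF : Cfsg.fittingSubgroup (G ⧸ Cfsg.oddCore G) = Cfsg.pCore 2 (G ⧸ Cfsg.oddCore G) := by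
      rw [Lead.fitting_eq_iSup_pCore]
      apply le_antisymm
      · apply iSup_le
        intro p
        by_cases hp2 : (p : ℕ) = 2
        · rw [hp2]
        · have hpp : Fact (p : ℕ).Prime := ⟨p.2⟩
          have hn := Lead.pCore_normal (p : ℕ) (G ⧸ Cfsg.oddCore G)
          have hpg := Lead.pCore_isPGroup' (G := G ⧸ Cfsg.oddCore G) (p : ℕ)
          have hcop : (Nat.card (Cfsg.pCore (p : ℕ) (G ⧸ Cfsg.oddCore G))).Coprime 2 := by
            obtain ⟨n, hn'⟩ := IsPGroup.iff_card.mp hpg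
            rw [hn']
            exact Nat.Coprime.pow_left n ((Nat.coprime_primes p.2 Nat.prime_two).mpr hp2)
          have hle := Helper2.Comp.le_pPrimeCore hn hcop
          rw [hObot] at hle
          exact hle.trans bot_le
      · exact le_iSup (fun p : Nat.Primes => Cfsg.pCore (p : ℕ) (G ⧸ Cfsg.oddCore G)) ⟨2, Nat.prime_two⟩
    have hsolv : Group.IsSolvable (G ⧸ Cfsg.oddCore G) := inferInstance
    have hCF := Lead.centralizer_fitting_le (G := G ⧸ Cfsg.oddCore G)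
    rw [hF] at hCF
    have hcR : π c₀ ∈ Cfsg.pCore 2 (G ⧸ Cfsg.oddCore G) := by
      rw [hRz]; exact Subgroup.mem_zpowers _
    obtain ⟨s, hs'⟩ := (IsPGroup.iff_orderOf.mp hR2) ⟨π c₀, hcR⟩
    rw [Subgroup.orderOf_mk] at hs'
    have hodd : ∀ x : G ⧸ Cfsg.oddCore G, Odd (orderOf x) → x = 1 := by
      intro x hx
      have hgc : x * π c₀ * x⁻¹ ∈ Subgroup.zpowers (π c₀) := by
        rw [← hRz]; exact hRn.conj_mem _ hcR x
      have hcent := Helper5.conj_eq_of_two_power_cyclic (π c₀) x s (orderOf x) hs' hgc hx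
        (pow_orderOf_eq_one x)
      have hcomm : Commute x (π c₀) := by
        show x * π c₀ = π c₀ * x
        have e : x * π c₀ = x * π c₀ * x⁻¹ * x := by group
        rw [e, hcent]
      have hxC : x ∈ Subgroup.centralizer
          ((Cfsg.pCore 2 (G ⧸ Cfsg.oddCore G) : Subgroup (G ⧸ Cfsg.oddCore G)) : Set (G ⧸ Cfsg.oddCore G)) := by
        rw [hRz, Subgroup.mem_centralizer_iff]
        intro y hy
        obtain ⟨i, rfl⟩ := Subgroup.mem_zpowers_iff.mp hy
        exact ((hcomm.zpow_right i).eq).symm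
      have hxR := hCF hxC
      obtain ⟨j, hj⟩ := (IsPGroup.iff_orderOf.mp hR2) ⟨x, hxR⟩
      rw [Subgroup.orderOf_mk] at hj
      rcases Nat.eq_zero_or_pos j with h0 | hpos
      · rw [h0, pow_zero] at hj; exact orderOf_eq_one_iff.mp hj
      · exfalso
        rw [hj] at hx
        have hev : Even (2 ^ j) := Nat.even_pow.mpr ⟨even_two, hpos.ne'⟩
        exact (Nat.not_even_iff_odd.mpr hx) hev
    have hG2 : IsPGroup 2 (G ⧸ Cfsg.oddCore G) := by
      intro x
      have hn0 : orderOf x ≠ 0 := (orderOf_pos x).ne'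
      obtain ⟨k', m, hm, hkm⟩ := Nat.exists_eq_two_pow_mul_odd hn0
      have hord : orderOf (x ^ 2 ^ k') = m := by
        rw [orderOf_pow_of_dvd (by positivity) ⟨m, hkm⟩, hkm]
        exact Nat.mul_div_cancel_left m (by positivity)
      exact ⟨k', hodd _ (by rw [hord]; exact hm)⟩
    obtain ⟨P⟩ : Nonempty (Sylow 2 (G ⧸ Cfsg.oddCore G)) := inferInstance
    refine ⟨P, ?_⟩
    have hPtop : (P : Subgroup (G ⧸ Cfsg.oddCore G)) = ⊤ :=
      (P.is_maximal' (hG2.to_subgroup ⊤) le_top).symm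
    rw [hPtop]; infer_instance

end Cfsg.Agent.S3303
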