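import Cfsg.Statements.S3305
import Mathlib
import Cfsg.Agent.Lib.Helper5.NormalCompl

set_option autoImplicit false
open Cfsg

namespace Cfsg.Agent.S3305

open scoped Pointwise in
theorem mem_inv_smul_sylow {G : Type*} [Group G] {p : ℕ} (c x : G) (T : Sylow p G) :
    x ∈ ((c⁻¹ • T : Sylow p G) : Subgroup G) ↔ c * x * c⁻¹ ∈ (T : Subgroup G) := by
  rw [Sylow.coe_subgroup_smul, Subgroup.mem_pointwise_smul_iff_inv_smul_mem]
  simp [MulAut.smul_def]

/-- If any two distinct Sylow 2-subgroups of the finite group G intersect in a cyclic group, then the same holds in every quotient group G/H, H a normal subgroup of G. -/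
theorem result {G : Type*} [Group G] [Finite G]
    (hC : ∀ S T : Sylow 2 G, S ≠ T → IsCyclic ↥((S : Subgroup G) ⊓ (T : Subgroup G))) (H : Subgroup G) [H.Normal] :
    ∀ S T : Sylow 2 (G ⧸ H), S ≠ T → IsCyclic ↥((S : Subgroup (G ⧸ H)) ⊓ (T : Subgroup (G ⧸ H))) := by
  intro Sb Tb hne
  classical
  have hπ : Function.Surjective (QuotientGroup.mk' H) := QuotientGroup.mk'_surjective H
  obtain ⟨S₀, hS₀⟩ := Sylow.mapSurjective_surjective hπ 2 Sb
  obtain ⟨T₀, hT₀⟩ := Sylow.mapSurjective_surjective hπ 2 Tb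
  have hS₀' : (S₀ : Subgroup G).map (QuotientGroup.mk' H) = (Sb : Subgroup (G ⧸ H)) := by
    rw [← hS₀]; rfl
  have hT₀' : (T₀ : Subgroup G).map (QuotientGroup.mk' H) = (Tb : Subgroup (G ⧸ H)) := by
    rw [← hT₀]; rfl
  obtain ⟨R, hRdef⟩ : ∃ R : Subgroup G, R = (S₀ : Subgroup G) ⊓
      ((Sb : Subgroup (G ⧸ H)) ⊓ (Tb : Subgroup (G ⧸ H))).comap (QuotientGroup.mk' H) := ⟨_, rfl⟩
  have hR2 : IsPGroup 2 R := by rw [hRdef]; exact S₀.2.to_le inf_le_left
  have hRT : R ≤ (Tb : Subgroup (G ⧸ H)).comap (QuotientGroup.mk' H) := by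
    rw [hRdef]; intro r hr; exact hr.2.2
  have hT₀L : (T₀ : Subgroup G) ≤ (Tb : Subgroup (G ⧸ H)).comap (QuotientGroup.mk' H) := by
    rw [← hT₀']; exact Subgroup.le_comap_map _ _
  obtain ⟨c, hc, hcR⟩ := Cfsg.Agent.Lib.Helper5.exists_conj_mem_sylow_of_le T₀ _ hT₀L R hR2 hRT
  have hRT₁ : R ≤ ((c⁻¹ • T₀ : Sylow 2 G) : Subgroup G) :=
    fun u hu => (mem_inv_smul_sylow c u T₀).mpr (hcR u hu)
  have hcT : (QuotientGroup.mk' H) c ∈ (Tb : Subgroup (G ⧸ H)) := hc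
  have hT₁map : ((c⁻¹ • T₀ : Sylow 2 G) : Subgroup G).map (QuotientGroup.mk' H) =
      (Tb : Subgroup (G ⧸ H)) := by
    ext y
    constructor
    · rintro ⟨x, hx, rfl⟩
      have h1 : (QuotientGroup.mk' H) (c * x * c⁻¹) ∈ (Tb : Subgroup (G ⧸ H)) := by
        rw [← hT₀']; exact ⟨_, (mem_inv_smul_sylow c x T₀).mp hx, rfl⟩
      have h3 : (QuotientGroup.mk' H) x =
          ((QuotientGroup.mk' H) c)⁻¹ * (QuotientGroup.mk' H) (c * x * c⁻¹) *
            (QuotientGroup.mk' H) c := by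
        rw [map_mul, map_mul, map_inv]; group
      rw [h3]
      exact Subgroup.mul_mem _ (Subgroup.mul_mem _ (Subgroup.inv_mem _ hcT) h1) hcT
    · intro hy
      have h3 : (QuotientGroup.mk' H) c * y * ((QuotientGroup.mk' H) c)⁻¹ ∈
          (T₀ : Subgroup G).map (QuotientGroup.mk' H) := by
        rw [hT₀']
        exact Subgroup.mul_mem _ (Subgroup.mul_mem _ hcT hy) (Subgroup.inv_mem _ hcT)
      obtain ⟨t, ht, hty⟩ := h3
      refine ⟨c⁻¹ * t * c, (mem_inv_smul_sylow c _ T₀).mpr ?_, ?_⟩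
      · have : c * (c⁻¹ * t * c) * c⁻¹ = t := by group
        rw [this]; exact ht
      · rw [map_mul, map_mul, map_inv, hty]; group
  have hne' : S₀ ≠ (c⁻¹ • T₀ : Sylow 2 G) := by
    intro h
    apply hne
    apply Sylow.ext
    rw [← hS₀', ← hT₁map, h]
  have hcyc := hC S₀ (c⁻¹ • T₀) hne'
  have hmap : ((S₀ : Subgroup G) ⊓ ((c⁻¹ • T₀ : Sylow 2 G) : Subgroup G)).map
      (QuotientGroup.mk' H) = (Sb : Subgroup (G ⧸ H)) ⊓ (Tb : Subgroup (G ⧸ H)) := by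
    apply le_antisymm
    · rw [← hS₀', ← hT₁map]; exact Subgroup.map_inf_le _ _ _
    · intro y hy
      have hyS : y ∈ (S₀ : Subgroup G).map (QuotientGroup.mk' H) := by rw [hS₀']; exact hy.1
      obtain ⟨s, hs, rfl⟩ := hyS
      have hsR : s ∈ R := by rw [hRdef]; exact ⟨hs, hy⟩
      exact ⟨s, ⟨hs, hRT₁ hsR⟩, rfl⟩
  let f : ↥((S₀ : Subgroup G) ⊓ ((c⁻¹ • T₀ : Sylow 2 G) : Subgroup G)) →*
      ↥((Sb : Subgroup (G ⧸ H)) ⊓ (Tb : Subgroup (G ⧸ H))) :=
    ((QuotientGroup.mk' H).comp (Subgroup.subtype _)).codRestrict _ (fun x => by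
      rw [← hmap]; exact ⟨x, x.2, rfl⟩)
  have hf : Function.Surjective f := by
    rintro ⟨y, hy⟩
    rw [← hmap] at hy
    obtain ⟨x, hx, rfl⟩ := hy
    exact ⟨⟨x, hx⟩, rfl⟩
  exact isCyclic_of_surjective f hf

end Cfsg.Agent.S3305
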