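import Cfsg.Statements.S3349
import Mathlib
import Cfsg.Agent.Lib.Helper5.DStar

set_option autoImplicit false
open Cfsg Cfsg.Agent.Lib.Helper5 commutatorElement

namespace Cfsg.Agent.S3349

/-- Let Q be a finite extraspecial p-group and α an automorphism of Q fixing every element of some maximal abelian subgroup of Q. Then the order of α is a power of p. -/
theorem result {Q : Type*} [Group Q] [Finite Q]
    (p : ℕ) [Fact p.Prime] (hQ : Cfsg.IsExtraspecial p Q) (α : MulAut Q)
    (A : Subgroup Q) (hA : IsMulCommutative A) (hmax : ∀ B : Subgroup Q, A ≤ B → IsMulCommutative B → B = A)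
    (hfix : ∀ a ∈ A, α a = a) :
    ∃ k : ℕ, orderOf α = p ^ k := by
  have hQp : IsPGroup p Q := hQ.1.1
  have hcomm : commutator Q = Subgroup.center Q := hQ.1.2.2
  have hAc : ∀ a ∈ A, ∀ b ∈ A, a * b = b * a := comm_of_isMulCommutative hA
  -- the centralizer of A is A
  have hCA : Subgroup.centralizer (A : Set Q) ≤ A := by
    intro c hc
    have hcA : ∀ a ∈ A, a * c = c * a := fun a ha => Subgroup.mem_centralizer_iff.mp hc a ha
    have hB : IsMulCommutative (Subgroup.closure ((A : Set Q) ∪ {c})) := by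
      apply Subgroup.isMulCommutative_closure
      intro x hx y hy
      rcases hx with hx | hx <;> rcases hy with hy | hy
      · exact hAc x hx y hy
      · rw [Set.mem_singleton_iff] at hy; rw [hy]; exact hcA x hx
      · rw [Set.mem_singleton_iff] at hx; rw [hx]; exact (hcA y hy).symm
      · rw [Set.mem_singleton_iff] at hx hy; rw [hx, hy]
    have hle : A ≤ Subgroup.closure ((A : Set Q) ∪ {c}) := by
      intro a ha; exact Subgroup.subset_closure (Or.inl ha)
    have h1 := hmax _ hle hB
    rw [← h1]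
    exact Subgroup.subset_closure (Or.inr rfl)
  have hZA : Subgroup.center Q ≤ A := (Subgroup.center_le_centralizer _).trans hCA
  -- x⁻¹ α(x) ∈ A
  have hxA : ∀ x : Q, x⁻¹ * α x ∈ A := by
    intro x
    apply hCA
    rw [Subgroup.mem_centralizer_iff]
    intro a ha
    have h1 : ⁅x, a⁆ ∈ commutator Q := by
      rw [commutator_def]
      exact Subgroup.commutator_mem_commutator (Subgroup.mem_top x) (Subgroup.mem_top a)
    rw [hcomm] at h1
    have h2 := hfix _ (hZA h1)
    rw [commutatorElement_def, map_mul, map_mul, map_mul, map_inv, map_inv, hfix a ha] at h2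
    -- h2 : α x * a * (α x)⁻¹ * a⁻¹ = x * a * x⁻¹ * a⁻¹
    have h3 : α x * a * (α x)⁻¹ = x * a * x⁻¹ := by
      have e1 : α x * a * (α x)⁻¹ = (α x * a * (α x)⁻¹ * a⁻¹) * a := by group
      rw [e1, h2]; group
    calc a * (x⁻¹ * α x) = x⁻¹ * (x * a * x⁻¹) * α x := by group
      _ = x⁻¹ * (α x * a * (α x)⁻¹) * α x := by rw [h3]
      _ = x⁻¹ * α x * a := by group
  have hpow : ∀ (k : ℕ) (x : Q), (α ^ k) x = x * (x⁻¹ * α x) ^ k := by
    intro k
    induction k with
    | zero => intro x; simp
    | succ k ih =>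
      intro x
      rw [pow_succ', MulAut.mul_apply, ih x, map_mul, map_pow, hfix _ (hxA x), pow_succ',
        ← mul_assoc, mul_inv_cancel_left]
  have hone : α ^ Nat.card A = 1 := by
    ext x
    rw [hpow, MulAut.one_apply]
    have h1 : (⟨x⁻¹ * α x, hxA x⟩ : A) ^ Nat.card A = 1 := pow_card_eq_one'
    have h2 : (x⁻¹ * α x) ^ Nat.card A = 1 := by
      have h3 := congrArg Subtype.val h1
      exact h3
    rw [h2, mul_one]
  obtain ⟨j, hj⟩ := (hQp.to_subgroup A).exists_card_eq
  rw [hj] at hone
  have h1 := orderOf_dvd_of_pow_eq_one hone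
  obtain ⟨m, -, hm⟩ := (Nat.dvd_prime_pow (Fact.out : p.Prime)).mp h1
  exact ⟨m, hm⟩

end Cfsg.Agent.S3349
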