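import Cfsg.Statements.S3389
import Mathlib
import Cfsg.Agent.Lib.Helper5.PrimNormal
import Cfsg.Agent.Lib.Helper1.Conj2

set_option autoImplicit false
open Cfsg

namespace Cfsg.Agent.S3389


open MulAction

theorem fix_pair {G : Type*} [Group G] {Ω : Type*} [Finite Ω] [MulAction G Ω]
    (hfix : ∀ g : G, g ≠ 1 → Nat.card (MulAction.fixedBy Ω g) ≤ 2) {α β : Ω} (hab : α ≠ β)
    (h : G) (hh : h ≠ 1) (ha : h • α = α) (hb : h • β = β) (γ : Ω) (hγ : h • γ = γ) :
    γ = α ∨ γ = β := by
  have h1 : ({α, β} : Set Ω) ⊆ fixedBy Ω h := by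
    rintro x (rfl | rfl)
    · exact ha
    · exact hb
  have h2 : (fixedBy Ω h).ncard ≤ ({α, β} : Set Ω).ncard := by
    rw [Set.ncard_pair hab, ← Nat.card_coe_set_eq]
    exact hfix h hh
  have h3 := Set.eq_of_subset_of_ncard_le h1 h2 (Set.toFinite _)
  have h4 : γ ∈ ({α, β} : Set Ω) := by rw [h3]; exact hγ
  exact h4

theorem even_of_two {G : Type*} [Group G] [Finite G] {Ω : Type*} [Finite Ω] [MulAction G Ω]
    (htr : MulAction.IsPretransitive G Ω)
    (hfix : ∀ g : G, g ≠ 1 → Nat.card (MulAction.fixedBy Ω g) ≤ 2) (g : G) (hg : g ≠ 1)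
    (hgc : Nat.card (MulAction.fixedBy Ω g) = 2) : 2 ∣ Nat.card G := by
  rw [Nat.card_coe_set_eq, Set.ncard_eq_two] at hgc
  obtain ⟨α, β, hab, hgF⟩ := hgc
  have hgα : g • α = α := by
    have : α ∈ fixedBy Ω g := by rw [hgF]; simp
    exact this
  have hgβ : g • β = β := by
    have : β ∈ fixedBy Ω g := by rw [hgF]; simp
    exact this
  -- element of prime order
  have hog : orderOf g ≠ 1 := by
    intro h; exact hg (orderOf_eq_one_iff.mp h)
  set p := (orderOf g).minFac with hp
  have hpp : p.Prime := Nat.minFac_prime hog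
  haveI : Fact p.Prime := ⟨hpp⟩
  set g' := g ^ (orderOf g / p) with hg'
  have hog' : orderOf g' = p :=
    orderOf_pow_orderOf_div (orderOf_pos g).ne' (Nat.minFac_dvd _)
  have hg'1 : g' ≠ 1 := by
    intro h
    rw [h, orderOf_one] at hog'
    exact hpp.one_lt.ne hog'
  have hg'α : g' • α = α := by
    have : g' ∈ stabilizer G α := Subgroup.pow_mem _ hgα _
    exact this
  have hg'β : g' • β = β := by
    have : g' ∈ stabilizer G β := Subgroup.pow_mem _ hgβ _
    exact this
  -- Sylow
  have hzp : IsPGroup p (Subgroup.zpowers (⟨g', hg'α⟩ : stabilizer G α)) := by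
    refine IsPGroup.of_card (n := 1) ?_
    rw [Nat.card_zpowers, pow_one, ← Subgroup.orderOf_coe]
    exact hog'
  obtain ⟨Pα, hPα⟩ := hzp.exists_le_sylow
  set P := (Pα : Subgroup (stabilizer G α)).map (stabilizer G α).subtype with hP
  have hPc : Nat.card P = p ^ (Nat.card (stabilizer G α)).factorization p := by
    rw [hP, Subgroup.card_map_of_injective (Subgroup.subtype_injective _)]
    exact Pα.card_eq_multiplicity
  have hPle : P ≤ stabilizer G α := Subgroup.map_subtype_le _
  have hg'P : g' ∈ P := ⟨⟨g', hg'α⟩, hPα (Subgroup.mem_zpowers _), rfl⟩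
  have hPp : IsPGroup p P := IsPGroup.of_card hPc
  have : Nontrivial P := ⟨⟨⟨g', hg'P⟩, 1, fun h => hg'1 (by simpa using congrArg Subtype.val h)⟩⟩
  have := hPp.center_nontrivial
  obtain ⟨z', hz'⟩ := exists_ne (1 : Subgroup.center P)
  set z : G := z'.1.1 with hz
  have hzP : z ∈ P := z'.1.2
  have hz1 : z ≠ 1 := by
    intro h
    apply hz'
    ext
    exact h
  have hzc : ∀ x ∈ P, x * z = z * x := by
    intro x hx
    have h1 := Subgroup.mem_center_iff.mp z'.2 ⟨x, hx⟩
    exact congrArg Subtype.val h1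
  have hzα : z • α = α := hPle hzP
  have hzβ : z • β = β := by
    have h1 : g' • (z • β) = z • β := by
      rw [← mul_smul, hzc g' hg'P, mul_smul, hg'β]
    rcases fix_pair hfix hab g' hg'1 hg'α hg'β _ h1 with h2 | h2
    · exfalso
      apply hab
      have : z • β = z • α := by rw [h2, hzα]
      exact (smul_left_cancel z this).symm
    · exact h2
  have hPβ : P ≤ stabilizer G β := by
    intro x hx
    have hxα : x • α = α := hPle hx
    have h1 : z • (x • β) = x • β := by
      rw [← mul_smul, ← hzc x hx, mul_smul, hzβ]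
    rcases fix_pair hfix hab z hz1 hzα hzβ _ h1 with h2 | h2
    · exfalso
      apply hab
      have : x • β = x • α := by rw [h2, hxα]
      exact (smul_left_cancel x this).symm
    · exact h2
  -- conjugation
  obtain ⟨x, hx⟩ := MulAction.exists_smul_eq G α β
  have hSβ : Nat.card (stabilizer G β) = Nat.card (stabilizer G α) := by
    rw [← hx, stabilizer_smul_eq_stabilizer_map_conj,
      Subgroup.card_map_of_injective (MulAut.conj x).injective]
  set Q := P.map (MulAut.conj x).toMonoidHom with hQ
  have hQc : Nat.card Q = p ^ (Nat.card (stabilizer G β)).factorization p := by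
    rw [hSβ, ← hPc, hQ]
    exact Subgroup.card_map_of_injective (MulAut.conj x).injective
  have hPc' : Nat.card P = p ^ (Nat.card (stabilizer G β)).factorization p := by
    rw [hSβ]; exact hPc
  have hQβ : Q ≤ stabilizer G β := by
    rintro _ ⟨u, hu, rfl⟩
    have huα : u • α = α := hPle hu
    show (x * u * x⁻¹) • β = β
    rw [mul_smul, mul_smul, ← hx, inv_smul_smul, huα]
  obtain ⟨y, hyβ, hy⟩ := Cfsg.Agent.Lib.Helper1.exists_conj_of_sylow_card hQβ hPβ hQc hPc'
  set n := y * x with hn
  have hnP : ∀ u ∈ P, n * u * n⁻¹ ∈ P := by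
    intro u hu
    have h1 := hy (x * u * x⁻¹) ⟨u, hu, rfl⟩
    have h2 : n * u * n⁻¹ = y * (x * u * x⁻¹) * y⁻¹ := by rw [hn]; group
    rw [h2]; exact h1
  have hnα : n • α = β := by
    rw [hn, mul_smul, hx]; exact hyβ
  have hw := hnP z hzP
  have hw1 : n * z * n⁻¹ ≠ 1 := by
    intro h
    apply hz1
    have : n * z = n := by
      have := mul_inv_eq_one.mp h
      exact this
    exact mul_left_cancel (this.trans (mul_one n).symm)
  have hnβ : n • β = α := by
    have h1 : (n * z * n⁻¹) • (n • β) = n • β := by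
      rw [mul_smul, mul_smul, inv_smul_smul, hzβ]
    rcases fix_pair hfix hab _ hw1 (hPle hw) (hPβ hw) _ h1 with h2 | h2
    · exact h2
    · exfalso
      apply hab
      have : n • α = n • β := by rw [h2, hnα]
      exact smul_left_cancel n this
  -- even order
  by_contra hodd
  have hon : ¬ 2 ∣ orderOf n := fun h => hodd (h.trans (orderOf_dvd_natCard n))
  have hon' : orderOf n % 2 = 1 := by omega
  have h2m : orderOf n + 1 = 2 * ((orderOf n + 1) / 2) := by omega
  have h1 : n ^ (orderOf n + 1) = n := by rw [pow_succ, pow_orderOf_eq_one, one_mul]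
  have h2 : n ^ 2 ∈ stabilizer G α := by
    show (n ^ 2) • α = α
    rw [pow_two, mul_smul, hnα, hnβ]
  have h3 : n ∈ stabilizer G α := by
    rw [← h1, h2m, pow_mul]
    exact Subgroup.pow_mem _ h2 _
  have h4 : n • α = α := h3
  rw [hnα] at h4
  exact hab h4.symm

/-- Let G be a finite group acting faithfully and transitively on a finite set Ω with fixity k ≥ 1: every non-identity element fixes at most k points and some non-identity element fixes exactly k points. Then |Z(G)| divides k; if k = 2 then |G| is even; and for every prime p > k dividing |G| and every point α, either p does not divide |G_α| or G_α contains a Sylow p-subgroup of G. -/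
theorem result {G : Type*} [Group G] [Finite G] {Ω : Type*} [Fintype Ω] [MulAction G Ω] [FaithfulSMul G Ω]
    (htr : MulAction.IsPretransitive G Ω) (k : ℕ) (hk : 1 ≤ k)
    (hfix : ∀ g : G, g ≠ 1 → Nat.card (MulAction.fixedBy Ω g) ≤ k) (hex : ∃ g : G, g ≠ 1 ∧ Nat.card (MulAction.fixedBy Ω g) = k) :
    Nat.card (Subgroup.center G) ∣ k ∧ (k = 2 → 2 ∣ Nat.card G) ∧
      ∀ (p : ℕ), p.Prime → k < p → p ∣ Nat.card G → ∀ α : Ω,
        ¬ p ∣ Nat.card (MulAction.stabilizer G α) ∨ ¬ p ∣ (MulAction.stabilizer G α).index := by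
  classical
  refine ⟨?_, ?_, ?_⟩
  · obtain ⟨g, hg, hgk⟩ := hex
    rw [Nat.card_coe_set_eq] at hgk
    refine Cfsg.Agent.Lib.Helper5.free_card_dvd (A := Subgroup.center G) k (MulAction.fixedBy Ω g)
      (Set.toFinite _) hgk ?_ ?_
    · intro a x hx
      have hx' : g • x = x := hx
      show g • (a • x) = a • x
      have h1 : g • ((a : G) • x) = (a : G) • x := by
        rw [← mul_smul, (Subgroup.mem_center_iff.mp a.2 g), mul_smul, hx']
      exact h1
    · intro a x _ hax
      have hax' : (a : G) • x = x := hax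
      have h1 : ∀ y : Ω, (a : G) • y = y := by
        intro y
        obtain ⟨h, rfl⟩ := MulAction.exists_smul_eq G x y
        rw [← mul_smul, ← (Subgroup.mem_center_iff.mp a.2 h), mul_smul, hax']
      have h2 : (a : G) = 1 := by
        apply FaithfulSMul.eq_of_smul_eq_smul (α := Ω)
        intro y
        rw [h1 y, one_smul]
      exact Subtype.ext h2
  · intro hk2
    subst hk2
    obtain ⟨g, hg, hgk⟩ := hex
    exact even_of_two htr hfix g hg hgk
  · intro p hp hkp _ α
    by_contra hcon
    push Not at hcon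
    obtain ⟨h1, h2⟩ := hcon
    haveI : Fact p.Prime := ⟨hp⟩
    obtain ⟨h, hh⟩ := exists_prime_orderOf_dvd_card' p h1
    have hg1 : (h : G) ≠ 1 := by
      intro h'
      have : h = 1 := Subtype.ext h'
      rw [this, orderOf_one] at hh
      exact hp.one_lt.ne hh
    have hog : orderOf (h : G) = p := by rw [Subgroup.orderOf_coe]; exact hh
    have hzp : IsPGroup p (Subgroup.zpowers (h : G)) := by
      refine IsPGroup.of_card (n := 1) ?_
      rw [Nat.card_zpowers, pow_one, hog]
    have h3 := hzp.card_modEq_card_fixedPoints Ω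
    have h4 : p ∣ Nat.card Ω := by
      rw [← MulAction.index_stabilizer_of_transitive G α]; exact h2
    have h5 : p ∣ Nat.card (MulAction.fixedPoints (Subgroup.zpowers (h : G)) Ω) :=
      (Nat.modEq_zero_iff_dvd.mp (h3.symm.trans (Nat.modEq_zero_iff_dvd.mpr h4)))
    have h6 : MulAction.fixedPoints (Subgroup.zpowers (h : G)) Ω ⊆ MulAction.fixedBy Ω (h : G) := by
      intro x hx
      exact hx ⟨(h : G), Subgroup.mem_zpowers _⟩
    have h7 : α ∈ MulAction.fixedPoints (Subgroup.zpowers (h : G)) Ω := by
      intro c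
      have : (c : G) ∈ MulAction.stabilizer G α :=
        (Subgroup.zpowers_le.mpr h.2) c.2
      exact this
    have h8 : 0 < Nat.card (MulAction.fixedPoints (Subgroup.zpowers (h : G)) Ω) := by
      rw [Nat.card_pos_iff]
      exact ⟨⟨⟨α, h7⟩⟩, inferInstance⟩
    have h9 : Nat.card (MulAction.fixedPoints (Subgroup.zpowers (h : G)) Ω) ≤
        Nat.card (MulAction.fixedBy Ω (h : G)) := by
      rw [Nat.card_coe_set_eq, Nat.card_coe_set_eq]
      exact Set.ncard_le_ncard h6 (Set.toFinite _)
    have h10 := hfix (h : G) hg1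
    have h11 := Nat.le_of_dvd h8 h5
    omega

end Cfsg.Agent.S3389
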