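import Cfsg.Statements.S3498
import Mathlib
import Cfsg.Agent.Lib.Helper5.TransferMax
import Cfsg.Agent.Lib.Helper7.PPrime
import Cfsg.Agent.Lib.Helper6.NormGrow

set_option autoImplicit false
open Cfsg Cfsg.Agent.Lib.Helper5 Cfsg.Agent.Lib

namespace Cfsg.Agent.S3498


open scoped Pointwise

/-- a finite simple `q`-group is commutative -/
theorem simple_pgroup_comm {T : Type*} [Group T] [Finite T] (hT : IsSimpleGroup T) {q : ℕ}
    [Fact q.Prime] (hq : IsPGroup q T) : IsMulCommutative T := by
  haveI := hT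
  have h1 := hq.center_nontrivial
  rcases IsSimpleGroup.eq_bot_or_eq_top_of_normal (Subgroup.center T) inferInstance with h | h
  · rw [h] at h1
    exact absurd h1 (not_nontrivial _)
  · exact Subgroup.center_eq_top_iff.mp h

/-- A maximal subgroup of a finite almost simple group does not have prime order. Here G is almost simple in the sense that it has a non-abelian simple normal subgroup T with trivial centralizer. -/
theorem result {G : Type*} [Group G] [Finite G] (T : Subgroup G) [T.Normal] (hT : IsSimpleGroup T) (hTc : ¬ IsMulCommutative T)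
    (hC : Subgroup.centralizer (T : Set G) = ⊥) (H : Subgroup G) (hmax : IsCoatom H) : ¬ (Nat.card H).Prime := by
  classical
  intro hr
  haveI hrF : Fact (Nat.card H).Prime := ⟨hr⟩
  haveI := hT
  have hHbot : H ≠ ⊥ := by
    intro h
    rw [h, Subgroup.card_bot] at hr
    exact Nat.not_prime_one hr
  -- subgroups of H
  have hHmin : ∀ X : Subgroup G, X ≤ H → X = ⊥ ∨ X = H := by
    intro X hX
    have h1 : Nat.card X ∣ Nat.card H := Subgroup.card_dvd_of_le hX
    rcases (Nat.dvd_prime hr).mp h1 with h2 | h2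
    · exact Or.inl (Subgroup.card_eq_one.mp h2)
    · exact Or.inr (Subgroup.eq_of_le_of_card_ge hX h2.ge)
  have hab : ∀ a ∈ H, ∀ b ∈ H, a * b * a⁻¹ * b⁻¹ ∈ (⊥ : Subgroup G) := by
    intro a ha b hb
    haveI : IsCyclic ↥H := isCyclic_of_prime_card rfl
    letI : CommGroup ↥H := IsCyclic.commGroup
    have h1 : (⟨a, ha⟩ : ↥H) * ⟨b, hb⟩ = ⟨b, hb⟩ * ⟨a, ha⟩ := mul_comm _ _
    have h2 : a * b = b * a := congrArg Subtype.val h1
    rw [Subgroup.mem_bot, h2]; group
  have hTbot : T ≠ ⊥ := by
    intro h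
    apply hTc
    refine ⟨⟨fun a b => ?_⟩⟩
    have ha : a = 1 := Subtype.ext ((Subgroup.eq_bot_iff_forall T).mp h a a.2)
    have hb : b = 1 := Subtype.ext ((Subgroup.eq_bot_iff_forall T).mp h b b.2)
    rw [ha, hb]
  -- the normalizer of H
  have hNH : Subgroup.normalizer (H : Set G) = H := by
    rcases hmax.le_iff.mp (Subgroup.le_normalizer (H := H)) with h | h
    · exfalso
      have hn : H.Normal := Subgroup.normalizer_eq_top_iff.mp h
      rcases hHmin (H ⊓ T) inf_le_left with h1 | h1
      · have h2 : H ≤ Subgroup.centralizer (T : Set G) := by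
          intro a ha
          rw [Subgroup.mem_centralizer_iff]
          intro x hx
          have h3 : a * x * a⁻¹ * x⁻¹ ∈ H ⊓ T := by
            refine Subgroup.mem_inf.mpr ⟨?_, ?_⟩
            · have e : a * x * a⁻¹ * x⁻¹ = a * (x * a⁻¹ * x⁻¹) := by group
              rw [e]
              exact H.mul_mem ha (hn.conj_mem _ (H.inv_mem ha) x)
            · exact T.mul_mem (‹T.Normal›.conj_mem x hx a) (T.inv_mem hx)
          rw [h1, Subgroup.mem_bot] at h3
          have h4 : a * x * a⁻¹ * x⁻¹ * (x * a) = x * a := by rw [h3, one_mul]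
          rw [← h4]; group
        rw [hC] at h2
        exact hHbot (le_bot_iff.mp h2)
      · have hHT : H ≤ T := inf_eq_left.mp h1
        have hn' : (H.subgroupOf T).Normal := hn.subgroupOf T
        rcases IsSimpleGroup.eq_bot_or_eq_top_of_normal _ hn' with h2 | h2
        · rw [Subgroup.subgroupOf_eq_bot] at h2
          have h3 := disjoint_iff.mp h2
          rw [h1] at h3
          exact hHbot h3
        · have hTH : T ≤ H := Subgroup.subgroupOf_eq_top.mp h2
          have hTeq : T = H := le_antisymm hTH hHT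
          apply hTc
          haveI : Fact (Nat.card ↥T).Prime := ⟨by rw [hTeq]; exact hr⟩
          haveI : IsCyclic ↥T := isCyclic_of_prime_card rfl
          letI : CommGroup ↥T := IsCyclic.commGroup
          exact ⟨⟨fun a b => mul_comm a b⟩⟩
    · exact h
  have hstar : ∀ g : G, g ∉ H → ∀ m ∈ H, g * m * g⁻¹ ∈ H → g * m * g⁻¹ ∈ (⊥ : Subgroup G) := by
    intro g hg m hm hy
    by_contra hyb
    rcases hHmin (H ⊓ H.map (MulAut.conj g).toMonoidHom) inf_le_left with h | h
    · apply hyb
      rw [← h]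
      exact Subgroup.mem_inf.mpr ⟨hy, Subgroup.mem_map.mpr ⟨m, hm, rfl⟩⟩
    · have h1 : H ≤ H.map (MulAut.conj g).toMonoidHom := inf_eq_left.mp h
      have h2 : H = H.map (MulAut.conj g).toMonoidHom := Subgroup.eq_of_le_of_card_ge h1
        (Subgroup.card_map_of_injective (MulAut.conj g).injective).le
      have h3 : g ∈ Subgroup.normalizer (H : Set G) :=
        Subgroup.mem_normalizer_iff_map_conj_eq.mpr h2.symm
      rw [hNH] at h3
      exact hg h3
  obtain ⟨K₀, hK₀n, hK₀c, hK₀H⟩ := transfer_kernel_inf ⊥ H bot_le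
    (by rw [Subgroup.normalizer_eq_top]; exact le_top) hab hstar
  -- T is perfect, hence inside K₀
  have hTK : T ≤ K₀ := by
    have h1 : commutator ↥T = ⊤ := by
      rcases IsSimpleGroup.eq_bot_or_eq_top_of_normal (commutator ↥T) inferInstance with h | h
      · exact absurd ((commutator_eq_bot_iff ↥T).mp h) hTc
      · exact h
    have h2 : (commutator ↥T).map T.subtype ≤ commutator G := by
      rw [Subgroup.map_subtype_commutator, commutator_def]
      exact Subgroup.commutator_mono le_top le_top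
    rw [h1, ← MonoidHom.range_eq_map, Subgroup.range_subtype] at h2
    exact h2.trans hK₀c
  have hTH : T ⊓ H = ⊥ := by
    rw [eq_bot_iff, ← hK₀H]
    exact inf_le_inf_right H hTK
  -- H is a Sylow subgroup
  have hHp : IsPGroup (Nat.card H) H := IsPGroup.of_card (n := 1) (by rw [pow_one])
  obtain ⟨P, hP⟩ := hHp.exists_le_sylow
  have hPH : (P : Subgroup G) = H := by
    by_contra hne
    have hlt : H < (P : Subgroup G) := lt_of_le_of_ne hP (fun h => hne h.symm)
    obtain ⟨x, -, hxN, hxH⟩ := Helper6.exists_mem_normalizer_not_mem P.isPGroup' hlt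
    rw [hNH] at hxN
    exact hxH hxN
  have hrT : ¬ Nat.card H ∣ Nat.card T := by
    intro hdvd
    have h1 := Helper7.card_sup_mul_card_inf H T
    rw [hTH, Subgroup.card_bot, mul_one] at h1
    have h2 : Nat.card H ^ 2 ∣ Nat.card G := by
      have h3 : Nat.card (H ⊔ T : Subgroup G) ∣ Nat.card G := Subgroup.card_subgroup_dvd_card _
      refine dvd_trans ?_ h3
      rw [h1, pow_two]
      exact Nat.mul_dvd_mul_left _ hdvd
    have h4 := P.pow_dvd_card_of_pow_dvd_card h2
    rw [hPH] at h4
    have h5 : Nat.card H ^ 2 ≤ Nat.card H := Nat.le_of_dvd hr.pos h4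
    have h6 := hr.one_lt
    nlinarith
  -- an invariant Sylow subgroup of T
  haveI : Nontrivial ↥T := (Subgroup.nontrivial_iff_ne_bot T).mpr hTbot
  obtain ⟨q, hq, hqT⟩ := Nat.exists_prime_and_dvd
    (show Nat.card ↥T ≠ 1 from fun h => hTbot (Subgroup.card_eq_one.mp h))
  haveI : Fact q.Prime := ⟨hq⟩
  have hAp : IsPGroup (Nat.card H) (H.map (MulAut.conjNormal : G →* MulAut ↥T)) := hHp.map _
  have hnd : ¬ Nat.card H ∣ Nat.card (Sylow q ↥T) := by
    intro h
    obtain ⟨Q0⟩ : Nonempty (Sylow q ↥T) := inferInstance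
    have h1 := Q0.card_dvd_index
    have h2 : (Q0 : Subgroup ↥T).index ∣ Nat.card ↥T := Subgroup.index_dvd_card _
    exact hrT (h.trans (h1.trans h2))
  obtain ⟨Q, hQ⟩ := hAp.nonempty_fixed_point_of_prime_not_dvd_card (Sylow q ↥T) hnd
  have hQfix : ∀ h ∈ H, ∀ x : ↥T, x ∈ (Q : Subgroup ↥T) →
      (MulAut.conjNormal h : MulAut ↥T) x ∈ (Q : Subgroup ↥T) := by
    intro h hh x hx
    have h1 : (⟨MulAut.conjNormal h, Subgroup.mem_map_of_mem _ hh⟩ :
        ↥(H.map (MulAut.conjNormal : G →* MulAut ↥T))) • Q = Q := hQ _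
    have h2 : (MulAut.conjNormal h : MulAut ↥T) • (Q : Subgroup ↥T) = (Q : Subgroup ↥T) := by
      have h3 := congrArg (fun S : Sylow q ↥T => (S : Subgroup ↥T)) h1
      exact h3
    rw [← h2]
    exact Subgroup.smul_mem_pointwise_smul x _ _ hx
  have hQb : (Q : Subgroup ↥T) ≠ ⊥ := Q.ne_bot_of_dvd_card hqT
  have hQ'N : H ≤ Subgroup.normalizer (((Q : Subgroup ↥T).map T.subtype : Subgroup G) : Set G) := by
    rw [Subgroup.le_normalizer_iff]
    rintro h hh _ ⟨x, hx, rfl⟩
    exact Subgroup.mem_map.mpr ⟨_, hQfix h hh x hx, MulAut.conjNormal_apply h x⟩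
  rcases hmax.le_iff.mp (le_sup_right : H ≤ (Q : Subgroup ↥T).map T.subtype ⊔ H) with h | h
  · have h1 : ((Q : Subgroup ↥T).map T.subtype).Normal := by
      apply Subgroup.normalizer_eq_top_iff.mp
      rw [eq_top_iff, ← h]
      exact sup_le Subgroup.le_normalizer hQ'N
    have h2 : (Q : Subgroup ↥T).Normal := by
      refine ⟨fun x hx g => ?_⟩
      have h3 := h1.conj_mem _ (Subgroup.mem_map_of_mem T.subtype hx) (g : G)
      obtain ⟨y, hy, hye⟩ := Subgroup.mem_map.mp h3
      have h4 : y = g * x * g⁻¹ := Subtype.ext (by simpa using hye)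
      rw [← h4]; exact hy
    rcases IsSimpleGroup.eq_bot_or_eq_top_of_normal _ h2 with h3 | h3
    · exact hQb h3
    · apply hTc
      apply simple_pgroup_comm hT (q := q)
      intro x
      have h4 : x ∈ (Q : Subgroup ↥T) := by rw [h3]; exact Subgroup.mem_top x
      obtain ⟨k, hk⟩ := Q.isPGroup' ⟨x, h4⟩
      exact ⟨k, by simpa using congrArg Subtype.val hk⟩
  · have h1 : (Q : Subgroup ↥T).map T.subtype ≤ T ⊓ H :=
      le_inf (Subgroup.map_subtype_le _) (by rw [← h]; exact le_sup_left)
    rw [hTH, le_bot_iff] at h1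
    exact hQb ((Subgroup.map_eq_bot_iff_of_injective _ T.subtype_injective).mp h1)

end Cfsg.Agent.S3498
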