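import Cfsg.Statements.S3504
import Mathlib

set_option autoImplicit false
open Cfsg

namespace Cfsg.Agent.S3504

/-- For n ≥ 5, the fixed-point-free permutations of prime order in the symmetric group of degree n form a single conjugacy class if and only if n is a prime power. -/
theorem result (n : ℕ) (hn : 5 ≤ n) :
    Nat.card {c : ConjClasses (Equiv.Perm (Fin n)) // ∃ g : Equiv.Perm (Fin n), ConjClasses.mk g = c ∧ (orderOf g).Prime ∧ ∀ i : Fin n, g i ≠ i} = 1 ↔ IsPrimePow n := by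
  classical
  have F1 : ∀ g : Equiv.Perm (Fin n), (orderOf g).Prime → (∀ i, g i ≠ i) →
      orderOf g ∣ n ∧ g.cycleType = Multiset.replicate (n / orderOf g) (orderOf g) := by
    intro g hg hfix
    obtain ⟨k, hk⟩ := Equiv.Perm.cycleType_prime_order hg
    have hsum := Equiv.Perm.sum_cycleType g
    have hsupp : g.support = Finset.univ := by
      ext i; simp [Equiv.Perm.mem_support, hfix i]
    rw [hsupp, Finset.card_univ, Fintype.card_fin, hk, Multiset.sum_replicate, smul_eq_mul] at hsum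
    refine ⟨⟨k + 1, by rw [mul_comm]; exact hsum.symm⟩, ?_⟩
    rw [hk]
    congr 1
    exact (Nat.div_eq_of_eq_mul_left hg.pos hsum.symm).symm
  have F2 : ∀ q : ℕ, q.Prime → q ∣ n →
      ∃ g : Equiv.Perm (Fin n), orderOf g = q ∧ ∀ i, g i ≠ i := by
    intro q hq hqn
    obtain ⟨g, hg⟩ := (Equiv.Perm.exists_with_cycleType_iff (Fin n)
        (m := Multiset.replicate (n / q) q)).mpr ⟨by
      rw [Multiset.sum_replicate, smul_eq_mul, Fintype.card_fin, Nat.div_mul_cancel hqn], by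
      intro a ha
      rw [Multiset.eq_of_mem_replicate ha]; exact hq.two_le⟩
    have hkpos : 0 < n / q := Nat.div_pos (Nat.le_of_dvd (by omega) hqn) hq.pos
    have hord : orderOf g = q := by
      rw [← Equiv.Perm.lcm_cycleType, hg]
      apply Nat.dvd_antisymm
      · rw [Multiset.lcm_dvd]
        intro b hb; rw [Multiset.eq_of_mem_replicate hb]
      · apply Multiset.dvd_lcm
        rw [Multiset.mem_replicate]; exact ⟨hkpos.ne', rfl⟩
    refine ⟨g, hord, ?_⟩
    have hsum := Equiv.Perm.sum_cycleType g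
    rw [hg, Multiset.sum_replicate, smul_eq_mul, Nat.div_mul_cancel hqn] at hsum
    have hsupp : g.support = Finset.univ := by
      apply Finset.eq_univ_of_card
      rw [← hsum, Fintype.card_fin]
    intro i
    have hi : i ∈ g.support := by rw [hsupp]; exact Finset.mem_univ i
    exact Equiv.Perm.mem_support.mp hi
  rw [Nat.card_eq_one_iff_unique, isPrimePow_iff_unique_prime_dvd]
  constructor
  · rintro ⟨hsub, -⟩
    obtain ⟨p, hp, hpn⟩ := Nat.exists_prime_and_dvd (show n ≠ 1 by omega)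
    refine ⟨p, ⟨hp, hpn⟩, ?_⟩
    rintro q ⟨hq, hqn⟩
    obtain ⟨g, hg, hgf⟩ := F2 p hp hpn
    obtain ⟨g', hg', hgf'⟩ := F2 q hq hqn
    have heq := hsub.elim ⟨ConjClasses.mk g, g, rfl, by rw [hg]; exact hp, hgf⟩
      ⟨ConjClasses.mk g', g', rfl, by rw [hg']; exact hq, hgf'⟩
    have h1 : ConjClasses.mk g = ConjClasses.mk g' := congrArg Subtype.val heq
    rw [ConjClasses.mk_eq_mk_iff_isConj] at h1
    have h2 : orderOf g = orderOf g' := by
      rw [← Equiv.Perm.lcm_cycleType, ← Equiv.Perm.lcm_cycleType,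
        Equiv.Perm.isConj_iff_cycleType_eq.mp h1]
    rw [hg, hg'] at h2
    exact h2.symm
  · rintro ⟨p, ⟨hp, hpn⟩, huniq⟩
    obtain ⟨g, hg, hgf⟩ := F2 p hp hpn
    refine ⟨⟨?_⟩, ⟨⟨ConjClasses.mk g, g, rfl, by rw [hg]; exact hp, hgf⟩⟩⟩
    rintro ⟨c₁, g₁, rfl, hg₁, hgf₁⟩ ⟨c₂, g₂, rfl, hg₂, hgf₂⟩
    apply Subtype.ext
    show ConjClasses.mk g₁ = ConjClasses.mk g₂
    rw [ConjClasses.mk_eq_mk_iff_isConj, Equiv.Perm.isConj_iff_cycleType_eq]
    obtain ⟨hd₁, hc₁⟩ := F1 g₁ hg₁ hgf₁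
    obtain ⟨hd₂, hc₂⟩ := F1 g₂ hg₂ hgf₂
    have e1 := huniq _ ⟨hg₁, hd₁⟩
    have e2 := huniq _ ⟨hg₂, hd₂⟩
    rw [hc₁, hc₂, e1, e2]

end Cfsg.Agent.S3504
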