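import Cfsg.Statements.S3508
import Mathlib
import Cfsg.Agent.Lib.Helper6.AffOrd

set_option autoImplicit false
open Cfsg
open Cfsg.Agent.Lib.Helper6 Cfsg.Agent.Lib

namespace Cfsg.Agent.S3508


/-- Let a finite group G act faithfully on a set Ω with p ^ m points (p prime) and have an elementary abelian normal p-subgroup N acting regularly on Ω (so G is a group of affine transformations of an m-dimensional space over the field with p elements). If G contains an element of order p ^ r with r ≥ 1, then p ^ (r − 1) ≤ m. In particular an element of order p ^ m forces m ≤ 2, and m ≤ 1 when p is odd. -/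
theorem result {G : Type*} [Group G] [Finite G] {Ω : Type*} [Fintype Ω] [MulAction G Ω] [FaithfulSMul G Ω] (p m : ℕ) (hp : p.Prime) (hcard : Fintype.card Ω = p ^ m)
    (N : Subgroup G) [N.Normal] (hNc : IsMulCommutative N) (hNp : ∀ n ∈ N, n ^ p = 1)
    (hNtr : MulAction.IsPretransitive N Ω) (hNreg : ∀ ω : Ω, MulAction.stabilizer N ω = ⊥)
    (g : G) (r : ℕ) (hr : 1 ≤ r) (hg : orderOf g = p ^ r) :
    p ^ (r - 1) ≤ m ∧ (r = m → m ≤ 2 ∧ (2 < p → m ≤ 1)) := by
  have h1 := affine_order p m hp hcard N hNc hNp hNtr hNreg g r hr hg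
  refine ⟨h1, fun hrm => ?_⟩
  rw [hrm] at h1
  constructor
  · by_contra hm
    push Not at hm
    obtain ⟨t, rfl⟩ : ∃ t, m = t + 3 := ⟨m - 3, by omega⟩
    have h2 := two_pow_bound t
    have h3 : 2 ^ (t + 3 - 1) ≤ p ^ (t + 3 - 1) := Nat.pow_le_pow_left hp.two_le _
    have e : t + 3 - 1 = t + 2 := by omega
    rw [e] at h1 h3
    have h4 := le_trans h2 (le_trans h3 h1)
    omega
  · intro hp2
    by_contra hm
    push Not at hm
    obtain ⟨t, rfl⟩ : ∃ t, m = t + 2 := ⟨m - 2, by omega⟩
    have h2 := three_pow_bound t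
    have h3 : 3 ^ (t + 2 - 1) ≤ p ^ (t + 2 - 1) := Nat.pow_le_pow_left (by omega) _
    have e : t + 2 - 1 = t + 1 := by omega
    rw [e] at h1 h3
    have h4 := le_trans h2 (le_trans h3 h1)
    omega

end Cfsg.Agent.S3508
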