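import Cfsg.Statements.S3511
import Mathlib

set_option autoImplicit false
open Cfsg

namespace Cfsg.Agent.S3511

/-- Let a finite group G act faithfully on a set Ω. If every element of G of square-free order has a regular cycle (an orbit of the cyclic group it generates with trivial stabilizer), then every element of G has a regular cycle. -/
theorem result {G : Type*} [Group G] [Finite G] {Ω : Type*} [MulAction G Ω] [FaithfulSMul G Ω]
    (h : ∀ g : G, Squarefree (orderOf g) → ∃ ω : Ω, MulAction.stabilizer (Subgroup.zpowers g) ω = ⊥) (g : G) :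
    ∃ ω : Ω, MulAction.stabilizer (Subgroup.zpowers g) ω = ⊥ := by
  suffices H : ∀ n : ℕ, ∀ g : G, orderOf g = n →
      ∃ ω : Ω, MulAction.stabilizer (Subgroup.zpowers g) ω = ⊥ from H _ g rfl
  intro n
  induction n using Nat.strong_induction_on with
  | _ n ih =>
    intro g hgn
    by_cases hsq : Squarefree (orderOf g)
    · exact h g hsq
    · rw [Nat.squarefree_iff_prime_squarefree] at hsq
      push Not at hsq
      obtain ⟨p, hp, hpp⟩ := hsq
      obtain ⟨c, hc⟩ := hpp
      have hn0 : 0 < orderOf g := orderOf_pos g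
      have hc0 : 0 < c := by
        rcases Nat.eq_zero_or_pos c with h0 | h0
        · rw [h0, mul_zero] at hc; omega
        · exact h0
      have hord : orderOf (g ^ p) = p * c := by
        rw [orderOf_pow' g hp.ne_zero, hc, Nat.gcd_eq_right (Dvd.intro _ (mul_assoc p p c).symm),
          mul_assoc, Nat.mul_div_cancel_left _ hp.pos]
      have hlt : orderOf (g ^ p) < n := by
        rw [hord, ← hgn, hc]
        have h2 : 2 ≤ p := hp.two_le
        nlinarith
      obtain ⟨ω, hω⟩ := ih _ hlt (g ^ p) rfl
      refine ⟨ω, ?_⟩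
      rw [eq_bot_iff]
      rintro ⟨x, hx⟩ hfix
      rw [Subgroup.mem_bot]
      apply Subtype.ext
      show x = 1
      have hfix' : x • ω = ω := MulAction.mem_stabilizer_iff.mp hfix
      obtain ⟨k, hk⟩ := mem_powers_iff_mem_zpowers.mpr hx
      have hk' : g ^ k = x := hk
      subst hk'
      have hstab : ∀ j : ℕ, (g ^ p) ^ j • ω = ω → (g ^ p) ^ j = 1 := by
        intro j hj
        have h1 : (⟨(g ^ p) ^ j, Subgroup.pow_mem _ (Subgroup.mem_zpowers _) j⟩ :
            Subgroup.zpowers (g ^ p)) ∈ MulAction.stabilizer (Subgroup.zpowers (g ^ p)) ω :=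
          MulAction.mem_stabilizer_iff.mpr hj
        rw [hω, Subgroup.mem_bot] at h1
        exact congrArg Subtype.val h1
      have h2 : (g ^ p) ^ k • ω = ω := by
        rw [← pow_mul, mul_comm, pow_mul]
        have h3 : g ^ k ∈ MulAction.stabilizer G ω := MulAction.mem_stabilizer_iff.mpr hfix'
        exact MulAction.mem_stabilizer_iff.mp (pow_mem h3 p)
      have h3 := hstab k h2
      have h4 : orderOf g ∣ p * k := by
        rw [← pow_mul] at h3; exact orderOf_dvd_of_pow_eq_one h3
      rw [hc] at h4
      have h5 : p * c ∣ k := by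
        have h6 : p * (p * c) ∣ p * k := by rw [← mul_assoc]; exact h4
        exact (Nat.mul_dvd_mul_iff_left hp.pos).mp h6
      obtain ⟨j, hj⟩ := h5
      have h6 : g ^ k = (g ^ p) ^ (c * j) := by rw [← pow_mul, hj, mul_assoc]
      rw [h6]
      apply hstab
      rw [← h6]; exact hfix'

end Cfsg.Agent.S3511
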