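import Cfsg.Statements.S3514
import Mathlib
import Cfsg.Agent.Lib.Helper5.OrbitCard

set_option autoImplicit false
open Cfsg Cfsg.Agent.Lib.Helper5

namespace Cfsg.Agent.S3514

/-- Let p be a prime, V a finite vector space over the field with p elements, and H a group of linear transformations of V all of whose orbits on V have size coprime to p. (i) Every normal subgroup K of H has all its orbits on V of size coprime to p. (ii) If N is a group of linear transformations of V of order coprime to p that is normalized by H, then the group generated by N and H has all its orbits on V of size coprime to p. -/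
theorem result (p : ℕ) [Fact p.Prime] {V : Type*} [AddCommGroup V] [Module (ZMod p) V] [Finite V]
    (H : Subgroup (V ≃ₗ[ZMod p] V)) (hH : ∀ v : V, ¬ p ∣ Nat.card {u : V | ∃ h ∈ H, h v = u}) :
    (∀ K : Subgroup (V ≃ₗ[ZMod p] V), K ≤ H → H ≤ Subgroup.normalizer (K : Set (V ≃ₗ[ZMod p] V)) →
        ∀ v : V, ¬ p ∣ Nat.card {u : V | ∃ k ∈ K, k v = u}) ∧
    (∀ N : Subgroup (V ≃ₗ[ZMod p] V), ¬ p ∣ Nat.card N → H ≤ Subgroup.normalizer (N : Set (V ≃ₗ[ZMod p] V)) →
        ∀ v : V, ¬ p ∣ Nat.card {u : V | ∃ x ∈ N ⊔ H, x v = u}) := by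
  classical
  haveI : Finite (V ≃ₗ[ZMod p] V) :=
    Finite.of_injective (fun f : V ≃ₗ[ZMod p] V => (f : V → V)) DFunLike.coe_injective
  have hp : p.Prime := Fact.out
  have star : ∀ (L : Subgroup (V ≃ₗ[ZMod p] V)) (v : V),
      Nat.card {u : V | ∃ l ∈ L, l v = u} *
        Nat.card ↥(L ⊓ MulAction.stabilizer (V ≃ₗ[ZMod p] V) v) = Nat.card L :=
    fun L v => card_orbit_mul_card_inf_stabilizer L v
  constructor
  · intro K hKH hHK v
    obtain ⟨St, hSt⟩ : ∃ St, St = MulAction.stabilizer (V ≃ₗ[ZMod p] V) v := ⟨_, rfl⟩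
    have sK := star K v
    have sH := star H v
    rw [← hSt] at sK sH
    have hT : H ⊓ St ≤ Subgroup.normalizer (K : Set (V ≃ₗ[ZMod p] V)) := inf_le_left.trans hHK
    have hprod := card_sup_mul_card_inf_of_le_normalizer (H ⊓ St) K hT
    have hinf : H ⊓ St ⊓ K = K ⊓ St := by
      rw [inf_comm, ← inf_assoc, inf_eq_left.mpr hKH]
    rw [hinf] at hprod
    have hpos : 0 < Nat.card ↥(K ⊓ St) := Nat.card_pos
    have hposT : 0 < Nat.card ↥(H ⊓ St) := Nat.card_pos
    have h1 : Nat.card ↥(H ⊓ St ⊔ K) =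
        Nat.card ↥(H ⊓ St) * Nat.card {u : V | ∃ k ∈ K, k v = u} := by
      apply Nat.eq_of_mul_eq_mul_right hpos
      rw [hprod, ← sK]; ring
    have h2 : Nat.card ↥(H ⊓ St ⊔ K) ∣ Nat.card H :=
      Subgroup.card_dvd_of_le (sup_le inf_le_left hKH)
    rw [h1, ← sH, mul_comm (Nat.card {u : V | ∃ h ∈ H, h v = u})] at h2
    have h3 := Nat.dvd_of_mul_dvd_mul_left hposT h2
    exact fun hdiv => hH v (dvd_trans hdiv h3)
  · intro N hN hHN v
    obtain ⟨St, hSt⟩ : ∃ St, St = MulAction.stabilizer (V ≃ₗ[ZMod p] V) v := ⟨_, rfl⟩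
    have sL := star (N ⊔ H) v
    have sH := star H v
    rw [← hSt] at sL sH
    have hprod := card_sup_mul_card_inf_of_le_normalizer H N hHN
    rw [sup_comm] at hprod
    have hdvd : Nat.card ↥(H ⊓ St) ∣ Nat.card ↥((N ⊔ H) ⊓ St) :=
      Subgroup.card_dvd_of_le (inf_le_inf_right _ le_sup_right)
    obtain ⟨c, hc⟩ := hdvd
    have hposT : 0 < Nat.card ↥(H ⊓ St) := Nat.card_pos
    have h1 : Nat.card {u : V | ∃ x ∈ N ⊔ H, x v = u} * (c * Nat.card ↥(H ⊓ N)) =
        Nat.card {u : V | ∃ h ∈ H, h v = u} * Nat.card N := by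
      apply Nat.eq_of_mul_eq_mul_right hposT
      calc Nat.card {u : V | ∃ x ∈ N ⊔ H, x v = u} * (c * Nat.card ↥(H ⊓ N)) * Nat.card ↥(H ⊓ St)
          = (Nat.card {u : V | ∃ x ∈ N ⊔ H, x v = u} * (Nat.card ↥(H ⊓ St) * c)) *
              Nat.card ↥(H ⊓ N) := by ring
        _ = Nat.card ↥(N ⊔ H) * Nat.card ↥(H ⊓ N) := by rw [← hc, sL]
        _ = Nat.card H * Nat.card N := hprod
        _ = Nat.card {u : V | ∃ h ∈ H, h v = u} * Nat.card N * Nat.card ↥(H ⊓ St) := by
            rw [← sH]; ring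
    intro hdiv
    have h2 : p ∣ Nat.card {u : V | ∃ h ∈ H, h v = u} * Nat.card N := by
      rw [← h1]; exact Dvd.dvd.mul_right hdiv _
    rcases hp.dvd_mul.mp h2 with h3 | h3
    · exact hH v h3
    · exact hN h3

end Cfsg.Agent.S3514
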