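import Cfsg.Statements.S3515
import Mathlib

set_option autoImplicit false
open Cfsg

namespace Cfsg.Agent.S3515

theorem affine_of_three {p : ℕ} [Fact p.Prime] (hp : p ≠ 2) {d : ℕ}
    (G : Subgroup (Equiv.Perm (Fin d → ZMod p)))
    (haff : (G : Set (Equiv.Perm (Fin d → ZMod p))) ⊆ {τ : Equiv.Perm (Fin d → ZMod p) |
      ∃ (A : (Fin d → ZMod p) ≃ₗ[ZMod p] (Fin d → ZMod p)) (b : Fin d → ZMod p),
        ∀ x, τ x = A x + b})
    (σ : Equiv.Perm (Fin d → ZMod p))
    (h : ∀ t : Fin 3 → (Fin d → ZMod p), ∃ g ∈ G, ∀ i, σ (t i) = g (t i)) :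
    ∃ (A : (Fin d → ZMod p) ≃ₗ[ZMod p] (Fin d → ZMod p)) (b : Fin d → ZMod p),
      ∀ x, σ x = A x + b := by
  have h2 : (2 : ZMod p) ≠ 0 := by
    intro h0
    have h1 : ((2 : ℕ) : ZMod p) = 0 := by exact_mod_cast h0
    rw [ZMod.natCast_eq_zero_iff] at h1
    have h3 := (Nat.prime_dvd_prime_iff_eq (Fact.out : p.Prime) Nat.prime_two).mp h1
    exact hp h3
  have step1 : ∀ (x y : Fin d → ZMod p) (c : ZMod p),
      σ (x + c • (y - x)) = σ x + c • (σ y - σ x) := by
    intro x y c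
    obtain ⟨g, hg, hgt⟩ := h ![x, y, x + c • (y - x)]
    obtain ⟨A, b, hA⟩ := haff hg
    have e0 : σ x = g x := hgt 0
    have e1 : σ y = g y := hgt 1
    have e2 : σ (x + c • (y - x)) = g (x + c • (y - x)) := hgt 2
    rw [e2, e0, e1, hA, hA, hA, map_add, map_smul, map_sub]
    module
  have hhom : ∀ (c : ZMod p) (y : Fin d → ZMod p), σ (c • y) - σ 0 = c • (σ y - σ 0) := by
    intro c y
    have h1 := step1 0 y c
    rw [sub_zero, zero_add] at h1
    rw [h1]; abel
  have hadd : ∀ x y : Fin d → ZMod p, σ (x + y) - σ 0 = (σ x - σ 0) + (σ y - σ 0) := by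
    intro x y
    have hm := step1 x y (2⁻¹ : ZMod p)
    have h2m := step1 0 (x + (2⁻¹ : ZMod p) • (y - x)) 2
    have e : (0 : Fin d → ZMod p) + (2 : ZMod p) • (x + (2⁻¹ : ZMod p) • (y - x) - 0) =
        x + y := by
      rw [zero_add, sub_zero, smul_add, smul_smul, mul_inv_cancel₀ h2, one_smul, two_smul]
      abel
    rw [e, hm] at h2m
    rw [h2m]
    have e2 : (2 : ZMod p) • (σ x + (2⁻¹ : ZMod p) • (σ y - σ x) - σ 0) =
        (2 : ZMod p) • (σ x - σ 0) + (σ y - σ x) := by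
      rw [show σ x + (2⁻¹ : ZMod p) • (σ y - σ x) - σ 0 =
        (σ x - σ 0) + (2⁻¹ : ZMod p) • (σ y - σ x) by abel, smul_add, smul_smul,
        mul_inv_cancel₀ h2, one_smul]
    rw [e2, two_smul]; abel
  let f : (Fin d → ZMod p) →ₗ[ZMod p] (Fin d → ZMod p) :=
    { toFun := fun x => σ x - σ 0
      map_add' := hadd
      map_smul' := fun c x => by simpa using hhom c x }
  have hbij : Function.Bijective f := by
    constructor
    · intro x y hxy
      have h1 : σ x - σ 0 = σ y - σ 0 := hxy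
      exact σ.injective (sub_left_inj.mp h1)
    · intro w
      refine ⟨σ.symm (w + σ 0), ?_⟩
      show σ (σ.symm (w + σ 0)) - σ 0 = w
      rw [Equiv.apply_symm_apply]; abel
  refine ⟨LinearEquiv.ofBijective f hbij, σ 0, fun x => ?_⟩
  show σ x = (σ x - σ 0) + σ 0
  abel

theorem four_pts : ∀ y : Fin 2 → ZMod 2, y = 0 ∨ y = Pi.single 0 1 ∨ y = Pi.single 1 1 ∨
    y = Pi.single 0 1 + Pi.single 1 1 := by decide

theorem four_ne : (0 : Fin 2 → ZMod 2) ≠ Pi.single 0 1 + Pi.single 1 1 ∧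
    (Pi.single 0 1 : Fin 2 → ZMod 2) ≠ Pi.single 0 1 + Pi.single 1 1 ∧
    (Pi.single 1 1 : Fin 2 → ZMod 2) ≠ Pi.single 0 1 + Pi.single 1 1 := by decide

/-- Every primitive affine permutation group of degree p² is 3-closed. Let p be a prime and G a group of permutations of the plane V = F_p² consisting of affine maps x ↦ Ax + b, containing all translations, and acting primitively on V. Then any permutation σ of V that agrees on every triple of points with some element of G (σ preserves every G-orbit on ordered triples) already lies in G. -/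
theorem result (p : ℕ) [Fact p.Prime] (G : Subgroup (Equiv.Perm (Fin 2 → ZMod p)))
    (haff : (G : Set (Equiv.Perm (Fin 2 → ZMod p))) ⊆ {τ : Equiv.Perm (Fin 2 → ZMod p) | ∃ (A : (Fin 2 → ZMod p) ≃ₗ[ZMod p] (Fin 2 → ZMod p)) (b : Fin 2 → ZMod p), ∀ x, τ x = A x + b})
    (htrans : ∀ b : Fin 2 → ZMod p, ∃ g ∈ G, ∀ x, g x = x + b) (hprim : MulAction.IsPreprimitive G (Fin 2 → ZMod p))
    (σ : Equiv.Perm (Fin 2 → ZMod p)) (hσ : (∀ t : Fin 3 → (Fin 2 → ZMod p), ∃ g ∈ G, ∀ i, σ (t i) = g (t i))) : σ ∈ G := by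
  obtain ⟨e₁, he₁⟩ : ∃ e₁ : Fin 2 → ZMod p, e₁ = Pi.single 0 1 := ⟨_, rfl⟩
  obtain ⟨e₂, he₂⟩ : ∃ e₂ : Fin 2 → ZMod p, e₂ = Pi.single 1 1 := ⟨_, rfl⟩
  obtain ⟨g, hg, hgt⟩ := hσ ![0, e₁, e₂]
  have g0 : σ 0 = g 0 := hgt 0
  have g1 : σ e₁ = g e₁ := hgt 1
  have g2 : σ e₂ = g e₂ := hgt 2
  suffices h : ∀ x, σ x = g x by
    have h1 : σ = g := Equiv.ext h
    rw [h1]; exact hg
  by_cases hp : p = 2
  · subst hp
    have hall : ∀ y : Fin 2 → ZMod 2, y = 0 ∨ y = e₁ ∨ y = e₂ ∨ y = e₁ + e₂ := by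
      rw [he₁, he₂]; exact four_pts
    have hne : (0 : Fin 2 → ZMod 2) ≠ e₁ + e₂ ∧ e₁ ≠ e₁ + e₂ ∧ e₂ ≠ e₁ + e₂ := by
      rw [he₁, he₂]; exact four_ne
    intro x
    rcases hall x with hx | hx | hx | hx
    · rw [hx]; exact g0
    · rw [hx]; exact g1
    · rw [hx]; exact g2
    · rw [hx]
      have hsym := Equiv.apply_symm_apply g (σ (e₁ + e₂))
      rcases hall (g.symm (σ (e₁ + e₂))) with hy | hy | hy | hy
      · exfalso
        rw [hy, ← g0] at hsym
        exact hne.1 (σ.injective hsym)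
      · exfalso
        rw [hy, ← g1] at hsym
        exact hne.2.1 (σ.injective hsym)
      · exfalso
        rw [hy, ← g2] at hsym
        exact hne.2.2 (σ.injective hsym)
      · rw [hy] at hsym
        exact hsym.symm
  · obtain ⟨A, b, hA⟩ := affine_of_three hp G haff σ hσ
    obtain ⟨A', b', hA'⟩ := haff hg
    have hb : b = b' := by
      have h1 := g0
      rw [hA, hA', map_zero, map_zero, zero_add, zero_add] at h1
      exact h1
    have h1 : A e₁ = A' e₁ := by
      have h3 := g1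
      rw [hA, hA', hb] at h3
      exact add_right_cancel h3
    have h2 : A e₂ = A' e₂ := by
      have h3 := g2
      rw [hA, hA', hb] at h3
      exact add_right_cancel h3
    intro x
    have hx : x = x 0 • e₁ + x 1 • e₂ := by
      rw [he₁, he₂]
      funext i
      fin_cases i <;> simp
    rw [hA, hA', hb, hx, map_add, map_add, map_smul, map_smul, map_smul, map_smul, h1, h2]

end Cfsg.Agent.S3515
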