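import Cfsg.Statements.S3516
import Mathlib

set_option autoImplicit false
open Cfsg

namespace Cfsg.Agent.S3516

/-- Let p be an odd prime, d ≥ 3, and G a group of affine permutations x ↦ Ax + b of V = F_p^d containing all translations and all maps x ↦ Ax with A of determinant 1. Then the 3-closure of G is the full affine group: a permutation σ of V agrees on every triple of points with some element of G if and only if σ is an affine map. -/
theorem result (p : ℕ) [Fact p.Prime] (hp : p ≠ 2) (d : ℕ) (hd : 3 ≤ d) (G : Subgroup (Equiv.Perm (Fin d → ZMod p)))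
    (haff : (G : Set (Equiv.Perm (Fin d → ZMod p))) ⊆ {τ : Equiv.Perm (Fin d → ZMod p) | ∃ (A : (Fin d → ZMod p) ≃ₗ[ZMod p] (Fin d → ZMod p)) (b : Fin d → ZMod p), ∀ x, τ x = A x + b})
    (htrans : ∀ b : Fin d → ZMod p, ∃ g ∈ G, ∀ x, g x = x + b)
    (hsl : ∀ A : (Fin d → ZMod p) ≃ₗ[ZMod p] (Fin d → ZMod p), LinearMap.det (A : (Fin d → ZMod p) →ₗ[ZMod p] (Fin d → ZMod p)) = 1 → ∃ g ∈ G, ∀ x, g x = A x)
    (σ : Equiv.Perm (Fin d → ZMod p)) :
    (∀ t : Fin 3 → (Fin d → ZMod p), ∃ g ∈ G, ∀ i, σ (t i) = g (t i)) ↔ σ ∈ {τ : Equiv.Perm (Fin d → ZMod p) | ∃ (A : (Fin d → ZMod p) ≃ₗ[ZMod p] (Fin d → ZMod p)) (b : Fin d → ZMod p), ∀ x, τ x = A x + b} := by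
  constructor
  · intro h
    have h2 : (2 : ZMod p) ≠ 0 := by
      intro h0
      have h1 : ((2 : ℕ) : ZMod p) = 0 := by exact_mod_cast h0
      rw [ZMod.natCast_eq_zero_iff] at h1
      have h3 := (Nat.prime_dvd_prime_iff_eq (Fact.out : p.Prime) Nat.prime_two).mp h1
      exact hp h3
    have step1 : ∀ (x y : Fin d → ZMod p) (c : ZMod p),
        σ (x + c • (y - x)) = σ x + c • (σ y - σ x) := by
      intro x y c
      obtain ⟨g, hg, hgt⟩ := h ![x, y, x + c • (y - x)]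
      obtain ⟨A, b, hA⟩ := haff hg
      have e0 : σ x = g x := hgt 0
      have e1 : σ y = g y := hgt 1
      have e2 : σ (x + c • (y - x)) = g (x + c • (y - x)) := hgt 2
      rw [e2, e0, e1, hA, hA, hA, map_add, map_smul, map_sub]
      module
    have hhom : ∀ (c : ZMod p) (y : Fin d → ZMod p), σ (c • y) - σ 0 = c • (σ y - σ 0) := by
      intro c y
      have h1 := step1 0 y c
      rw [sub_zero, zero_add] at h1
      rw [h1]; abel
    have hadd : ∀ x y : Fin d → ZMod p, σ (x + y) - σ 0 = (σ x - σ 0) + (σ y - σ 0) := by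
      intro x y
      have hm := step1 x y (2⁻¹ : ZMod p)
      have h2m := step1 0 (x + (2⁻¹ : ZMod p) • (y - x)) 2
      have e : (0 : Fin d → ZMod p) + (2 : ZMod p) • (x + (2⁻¹ : ZMod p) • (y - x) - 0) =
          x + y := by
        rw [zero_add, sub_zero, smul_add, smul_smul, mul_inv_cancel₀ h2, one_smul, two_smul]
        abel
      rw [e, hm] at h2m
      rw [h2m]
      have e2 : (2 : ZMod p) • (σ x + (2⁻¹ : ZMod p) • (σ y - σ x) - σ 0) =
          (2 : ZMod p) • (σ x - σ 0) + (σ y - σ x) := by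
        rw [show σ x + (2⁻¹ : ZMod p) • (σ y - σ x) - σ 0 =
          (σ x - σ 0) + (2⁻¹ : ZMod p) • (σ y - σ x) by abel, smul_add, smul_smul,
          mul_inv_cancel₀ h2, one_smul]
      rw [e2, two_smul]; abel
    let f : (Fin d → ZMod p) →ₗ[ZMod p] (Fin d → ZMod p) :=
      { toFun := fun x => σ x - σ 0
        map_add' := hadd
        map_smul' := fun c x => by simpa using hhom c x }
    have hbij : Function.Bijective f := by
      constructor
      · intro x y hxy
        have h1 : σ x - σ 0 = σ y - σ 0 := hxy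
        exact σ.injective (sub_left_inj.mp h1)
      · intro w
        refine ⟨σ.symm (w + σ 0), ?_⟩
        show σ (σ.symm (w + σ 0)) - σ 0 = w
        rw [Equiv.apply_symm_apply]; abel
    refine ⟨LinearEquiv.ofBijective f hbij, σ 0, fun x => ?_⟩
    show σ x = (σ x - σ 0) + σ 0
    abel
  · rintro ⟨A, b, hA⟩ t
    obtain ⟨a₁, ha₁⟩ : ∃ a₁, a₁ = t 1 - t 0 := ⟨_, rfl⟩
    obtain ⟨a₂, ha₂⟩ : ∃ a₂, a₂ = t 2 - t 0 := ⟨_, rfl⟩
    obtain ⟨W, hWdef⟩ : ∃ W : Submodule (ZMod p) (Fin d → ZMod p),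
        W = Submodule.span (ZMod p) (Set.range ![a₁, a₂]) := ⟨_, rfl⟩
    have hW1 : a₁ ∈ W := by rw [hWdef]; exact Submodule.subset_span ⟨0, rfl⟩
    have hW2 : a₂ ∈ W := by rw [hWdef]; exact Submodule.subset_span ⟨1, rfl⟩
    have hWlt : W < ⊤ := by
      rw [lt_top_iff_ne_top]
      intro htop
      have h1 : Module.finrank (ZMod p) W ≤ 2 := by
        have h3 := finrank_range_le_card (R := ZMod p) ![a₁, a₂]
        rw [hWdef]
        simpa [Set.finrank] using h3
      have h2 : Module.finrank (ZMod p) W = d := by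
        rw [htop, finrank_top, Module.finrank_fin_fun]
      omega
    obtain ⟨φ, hφ0, hφW⟩ := Submodule.exists_dual_map_eq_bot_of_lt_top hWlt inferInstance
    have hφ1 : φ a₁ = 0 := by
      have h1 : φ a₁ ∈ W.map φ := Submodule.mem_map_of_mem hW1
      rw [hφW] at h1; exact (Submodule.mem_bot _).mp h1
    have hφ2 : φ a₂ = 0 := by
      have h1 : φ a₂ ∈ W.map φ := Submodule.mem_map_of_mem hW2
      rw [hφW] at h1; exact (Submodule.mem_bot _).mp h1
    obtain ⟨v₀, hv₀⟩ : ∃ v₀, φ v₀ ≠ 0 := by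
      by_contra hcon
      push Not at hcon
      exact hφ0 (LinearMap.ext (fun x => by simpa using hcon x))
    have hdetA : IsUnit (LinearMap.det (A : (Fin d → ZMod p) →ₗ[ZMod p] (Fin d → ZMod p))) :=
      A.isUnit_det'
    obtain ⟨δ, hδ⟩ : ∃ δ : ZMod p,
        δ = (LinearMap.det (A : (Fin d → ZMod p) →ₗ[ZMod p] (Fin d → ZMod p)))⁻¹ := ⟨_, rfl⟩
    have hδ0 : δ ≠ 0 := by rw [hδ]; exact inv_ne_zero hdetA.ne_zero
    obtain ⟨v, hv⟩ : ∃ v, v = ((δ - 1) / φ v₀) • v₀ := ⟨_, rfl⟩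
    have hφv : φ v = δ - 1 := by
      rw [hv, map_smul, smul_eq_mul, div_mul_cancel₀ _ hv₀]
    have hunit : IsUnit (1 + φ v) := by
      rw [hφv]
      have h1 : (1 : ZMod p) + (δ - 1) = δ := by ring
      rw [h1]; exact isUnit_iff_ne_zero.mpr hδ0
    obtain ⟨D, hDdef⟩ : ∃ D : (Fin d → ZMod p) ≃ₗ[ZMod p] (Fin d → ZMod p),
        D = LinearEquiv.dilatransvection hunit := ⟨_, rfl⟩
    have hD : ∀ x, D x = x + φ x • v := fun x => by
      rw [hDdef]; exact LinearEquiv.dilatransvection.apply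
    have hdetD : LinearMap.det (D : (Fin d → ZMod p) →ₗ[ZMod p] (Fin d → ZMod p)) = δ := by
      rw [hDdef, LinearEquiv.dilatransvection.coe_toLinearMap, LinearMap.transvection.det, hφv]
      ring
    have hdet : LinearMap.det ((D.trans A : (Fin d → ZMod p) ≃ₗ[ZMod p] (Fin d → ZMod p)) :
        (Fin d → ZMod p) →ₗ[ZMod p] (Fin d → ZMod p)) = 1 := by
      have h1 : ((D.trans A : (Fin d → ZMod p) ≃ₗ[ZMod p] (Fin d → ZMod p)) :
          (Fin d → ZMod p) →ₗ[ZMod p] (Fin d → ZMod p)) =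
          (A : (Fin d → ZMod p) →ₗ[ZMod p] (Fin d → ZMod p)).comp
            (D : (Fin d → ZMod p) →ₗ[ZMod p] (Fin d → ZMod p)) := rfl
      rw [h1, LinearMap.det_comp, hdetD, hδ, mul_inv_cancel₀ hdetA.ne_zero]
    obtain ⟨g₁, hg₁, hg₁x⟩ := hsl (D.trans A) hdet
    obtain ⟨g₂, hg₂, hg₂x⟩ := htrans (σ (t 0) - A (D (t 0)))
    refine ⟨g₂ * g₁, mul_mem hg₂ hg₁, ?_⟩
    have key : ∀ x, φ (x - t 0) = 0 → σ x = (g₂ * g₁) x := by
      intro x hx
      rw [Equiv.Perm.mul_apply, hg₂x, hg₁x, LinearEquiv.trans_apply, hA, hA]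
      have e1 : D x - D (t 0) = x - t 0 := by
        rw [← map_sub, hD, hx, zero_smul, add_zero]
      have e2 : A (D x) - A (D (t 0)) = A x - A (t 0) := by rw [← map_sub, e1, map_sub]
      have e3 : A (D x) + (A (t 0) + b - A (D (t 0))) =
          (A (D x) - A (D (t 0))) + A (t 0) + b := by abel
      rw [e3, e2]; abel
    intro i
    fin_cases i
    · show σ (t 0) = (g₂ * g₁) (t 0)
      exact key _ (by simp)
    · show σ (t 1) = (g₂ * g₁) (t 1)
      exact key _ (by rw [← ha₁]; exact hφ1)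
    · show σ (t 2) = (g₂ * g₁) (t 2)
      exact key _ (by rw [← ha₂]; exact hφ2)

end Cfsg.Agent.S3516
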