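import Cfsg.Statements.S3517
import Mathlib

set_option autoImplicit false
open Cfsg

namespace Cfsg.Agent.S3517

theorem exists_linearEquiv_of_li {K V ι : Type*} [Field K] [AddCommGroup V] [Module K V]
    [FiniteDimensional K V] (a c : ι → V) (ha : LinearIndependent K a)
    (hc : LinearIndependent K c) : ∃ g : V ≃ₗ[K] V, ∀ i, g (a i) = c i := by
  obtain ⟨g, hg⟩ := Submodule.exists_linearEquiv_restrict_eq
    ((Module.Basis.span ha).equiv (Module.Basis.span hc) (Equiv.refl ι))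
  refine ⟨g, fun i => ?_⟩
  have h1 := hg (Module.Basis.span ha i)
  simp only [Module.Basis.equiv_apply, Equiv.refl_apply, Module.Basis.coe_span_apply] at h1
  exact h1.symm

theorem exists_map_pair {d : ℕ} (a₁ a₂ c₁ c₂ : Fin d → ZMod 2) (h1 : a₁ = 0 ↔ c₁ = 0)
    (h2 : a₂ = 0 ↔ c₂ = 0) (h12 : a₁ = a₂ ↔ c₁ = c₂) :
    ∃ A : (Fin d → ZMod 2) ≃ₗ[ZMod 2] (Fin d → ZMod 2), A a₁ = c₁ ∧ A a₂ = c₂ := by
  have hself : ∀ v : Fin d → ZMod 2, v + v = 0 := fun v => by
    funext i; exact CharTwo.add_self_eq_zero (v i)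
  have hbit : ∀ s : ZMod 2, s = 0 ∨ s = 1 := by decide
  have single : ∀ a c : Fin d → ZMod 2, a ≠ 0 → c ≠ 0 →
      ∃ A : (Fin d → ZMod 2) ≃ₗ[ZMod 2] (Fin d → ZMod 2), A a = c := by
    intro a c ha hc
    obtain ⟨g, hg⟩ := exists_linearEquiv_of_li (K := ZMod 2) (ι := Unit) (fun _ => a) (fun _ => c)
      (linearIndependent_unique_iff.mpr ha) (linearIndependent_unique_iff.mpr hc)
    exact ⟨g, hg ()⟩
  have hli : ∀ a b : Fin d → ZMod 2, a ≠ 0 → b ≠ 0 → a ≠ b →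
      LinearIndependent (ZMod 2) ![a, b] := by
    intro a b ha hb hab
    rw [LinearIndependent.pair_iff]
    intro s t hst
    rcases hbit s with rfl | rfl <;> rcases hbit t with rfl | rfl
    · exact ⟨rfl, rfl⟩
    · exfalso; apply hb; simpa using hst
    · exfalso; apply ha; simpa using hst
    · exfalso; apply hab
      rw [one_smul, one_smul] at hst
      exact add_right_cancel (hst.trans (hself b).symm)
  by_cases ha1 : a₁ = 0
  · have hc1 := h1.mp ha1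
    by_cases ha2 : a₂ = 0
    · have hc2 := h2.mp ha2
      exact ⟨LinearEquiv.refl _ _, by rw [ha1, hc1]; rfl, by rw [ha2, hc2]; rfl⟩
    · have hc2 : c₂ ≠ 0 := fun h => ha2 (h2.mpr h)
      obtain ⟨A, hA⟩ := single a₂ c₂ ha2 hc2
      exact ⟨A, by rw [ha1, hc1, map_zero], hA⟩
  · have hc1 : c₁ ≠ 0 := fun h => ha1 (h1.mpr h)
    by_cases ha2 : a₂ = 0
    · have hc2 := h2.mp ha2
      obtain ⟨A, hA⟩ := single a₁ c₁ ha1 hc1
      exact ⟨A, hA, by rw [ha2, hc2, map_zero]⟩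
    · have hc2 : c₂ ≠ 0 := fun h => ha2 (h2.mpr h)
      by_cases ha12 : a₁ = a₂
      · have hc12 := h12.mp ha12
        obtain ⟨A, hA⟩ := single a₁ c₁ ha1 hc1
        exact ⟨A, hA, by rw [← ha12, ← hc12]; exact hA⟩
      · have hc12 : c₁ ≠ c₂ := fun h => ha12 (h12.mpr h)
        obtain ⟨g, hg⟩ := exists_linearEquiv_of_li (K := ZMod 2) ![a₁, a₂] ![c₁, c₂]
          (hli a₁ a₂ ha1 ha2 ha12) (hli c₁ c₂ hc1 hc2 hc12)
        exact ⟨g, by simpa using hg 0, by simpa using hg 1⟩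

/-- For d ≥ 3, the 3-closure of the affine group AGL_d(2) acting on F_2^d is the full symmetric group: every permutation of F_2^d agrees on every ordered triple of points with some affine map (AGL_d(2) is 3-transitive). -/
theorem result (d : ℕ) (hd : 3 ≤ d) (σ : Equiv.Perm (Fin d → ZMod 2)) (t : Fin 3 → (Fin d → ZMod 2)) :
    ∃ (A : (Fin d → ZMod 2) ≃ₗ[ZMod 2] (Fin d → ZMod 2)) (b : Fin d → ZMod 2), ∀ i, σ (t i) = A (t i) + b := by
  obtain ⟨A, hA1, hA2⟩ := exists_map_pair (t 1 - t 0) (t 2 - t 0) (σ (t 1) - σ (t 0))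
    (σ (t 2) - σ (t 0))
    (by rw [sub_eq_zero, sub_eq_zero, σ.injective.eq_iff])
    (by rw [sub_eq_zero, sub_eq_zero, σ.injective.eq_iff])
    (by rw [sub_left_inj, sub_left_inj, σ.injective.eq_iff])
  rw [map_sub] at hA1 hA2
  refine ⟨A, σ (t 0) - A (t 0), ?_⟩
  intro i
  fin_cases i
  · show σ (t 0) = A (t 0) + (σ (t 0) - A (t 0))
    abel
  · show σ (t 1) = A (t 1) + (σ (t 0) - A (t 0))
    have h3 : σ (t 1) = (σ (t 1) - σ (t 0)) + σ (t 0) := by abel
    rw [h3, ← hA1]; abel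
  · show σ (t 2) = A (t 2) + (σ (t 0) - A (t 0))
    have h3 : σ (t 2) = (σ (t 2) - σ (t 0)) + σ (t 0) := by abel
    rw [h3, ← hA2]; abel

end Cfsg.Agent.S3517
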