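import Cfsg.Statements.S3518
import Mathlib

set_option autoImplicit false
open Cfsg

namespace Cfsg.Agent.S3518


open Polynomial

/-- the affine permutation `x ↦ a x + b` -/
def aff {p : ℕ} [Fact p.Prime] (a : (ZMod p)ˣ) (b : ZMod p) : Equiv.Perm (ZMod p) where
  toFun x := (a : ZMod p) * x + b
  invFun y := ((a⁻¹ : (ZMod p)ˣ) : ZMod p) * (y - b)
  left_inv x := by
    show ((a⁻¹ : (ZMod p)ˣ) : ZMod p) * ((a : ZMod p) * x + b - b) = x
    rw [add_sub_cancel_right, ← mul_assoc, Units.inv_mul, one_mul]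
  right_inv y := by
    show (a : ZMod p) * (((a⁻¹ : (ZMod p)ˣ) : ZMod p) * (y - b)) + b = y
    rw [← mul_assoc, Units.mul_inv, one_mul, sub_add_cancel]

theorem aff_apply {p : ℕ} [Fact p.Prime] (a : (ZMod p)ˣ) (b x : ZMod p) : aff a b x = (a : ZMod p) * x + b :=
  rfl

/-- the kernel argument: powers of `σ` are polynomial functions of degree at most `d` -/
theorem poly_of_kernel {p : ℕ} [Fact p.Prime] (σ : Equiv.Perm (ZMod p)) (d : ℕ) (hdp : d < p)
    (hK : ∀ x y : ZMod p, (σ x - σ y) ^ d = (x - y) ^ d) (k : ℕ) (hk : k ≤ d) :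
    ∃ P : (ZMod p)[X], P.natDegree ≤ d ∧ ∀ x, P.eval x = σ x ^ k := by
  classical
  have hpp : p.Prime := Fact.out
  obtain ⟨y, hydef⟩ : ∃ y : Fin (d + 1) → ZMod p, y = fun i : Fin (d + 1) => ((i.val : ℕ) : ZMod p) := ⟨_, rfl⟩
  have hy : Function.Injective y := by
    intro i j hij
    rw [hydef] at hij
    have h1 := congrArg ZMod.val hij
    rw [ZMod.val_natCast_of_lt (by omega), ZMod.val_natCast_of_lt (by omega)] at h1
    exact Fin.ext h1
  have hv : Function.Injective (fun i => σ (y i)) := σ.injective.comp hy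
  obtain ⟨V, hVdef⟩ : ∃ V : Matrix (Fin (d + 1)) (Fin (d + 1)) (ZMod p),
      V = Matrix.vandermonde (fun i => σ (y i)) := ⟨_, rfl⟩
  have hdet : V.det ≠ 0 := by rw [hVdef]; exact Matrix.det_vandermonde_ne_zero_iff.2 hv
  have hVinv : V⁻¹ * V = 1 := Matrix.nonsing_inv_mul _ (isUnit_iff_ne_zero.2 hdet)
  obtain ⟨u, hudef⟩ : ∃ u : ZMod p → Fin (d + 1) → ZMod p,
      u = fun x (j : Fin (d + 1)) => (-1) ^ j.val * (d.choose j.val : ZMod p) * σ x ^ (d - j.val) := ⟨_, rfl⟩
  have hVu : ∀ x, V.mulVec (u x) = fun i => (x - y i) ^ d := by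
    intro x
    funext i
    rw [← hK x (y i)]
    have h1 : σ x - σ (y i) = -σ (y i) + σ x := by ring
    rw [h1, add_pow, Finset.sum_range]
    show ∑ j, V i j * u x j = _
    apply Finset.sum_congr rfl
    intro j _
    rw [hVdef, hudef, Matrix.vandermonde_apply, neg_pow]
    ring
  have hu : ∀ x, u x = V⁻¹.mulVec (fun i => (x - y i) ^ d) := by
    intro x
    rw [← hVu x, Matrix.mulVec_mulVec, hVinv, Matrix.one_mulVec]
  have hj : d - k < d + 1 := by omega
  obtain ⟨c, hcdef⟩ : ∃ c : ZMod p, c = (-1) ^ (d - k) * (d.choose (d - k) : ZMod p) := ⟨_, rfl⟩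
  have hc : c ≠ 0 := by
    rw [hcdef]
    apply mul_ne_zero
    · exact pow_ne_zero _ (neg_ne_zero.2 one_ne_zero)
    · intro h0
      rw [ZMod.natCast_eq_zero_iff] at h0
      have h2 : d.choose (d - k) ∣ d.factorial := by
        have := Nat.choose_mul_factorial_mul_factorial (Nat.sub_le d k)
        exact ⟨(d - k).factorial * (d - (d - k)).factorial, by rw [← this, mul_assoc]⟩
      have h3 : p ∣ d.factorial := h0.trans h2
      rw [hpp.dvd_factorial] at h3
      omega
  have hux : ∀ x, u x ⟨d - k, hj⟩ = c * σ x ^ k := by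
    intro x
    rw [hudef, hcdef]
    show (-1) ^ (d - k) * (d.choose (d - k) : ZMod p) * σ x ^ (d - (d - k)) = _
    rw [Nat.sub_sub_self hk]
  refine ⟨C c⁻¹ * ∑ i, C (V⁻¹ ⟨d - k, hj⟩ i) * (X - C (y i)) ^ d, ?_, ?_⟩
  · refine (natDegree_C_mul_le _ _).trans ?_
    apply natDegree_sum_le_of_forall_le
    intro i _
    refine (natDegree_C_mul_le _ _).trans ?_
    refine natDegree_pow_le.trans ?_
    rw [natDegree_X_sub_C, mul_one]
  · intro x
    have h1 := congrFun (hu x) ⟨d - k, hj⟩
    rw [hux x] at h1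
    rw [eval_mul, eval_C, eval_finsetSum]
    have h2 : ∑ i, eval x (C (V⁻¹ ⟨d - k, hj⟩ i) * (X - C (y i)) ^ d) = c * σ x ^ k := by
      rw [h1]
      show _ = ∑ i, V⁻¹ ⟨d - k, hj⟩ i * (x - y i) ^ d
      apply Finset.sum_congr rfl
      intro i _
      simp
    rw [h2, ← mul_assoc, inv_mul_cancel₀ hc, one_mul]

/-- a permutation of `ZMod p` whose difference quotients have `d`-th power one, `2d ≤ p - 1`,
is affine -/
theorem affine_of_kernel {p : ℕ} [Fact p.Prime] (σ : Equiv.Perm (ZMod p)) (d : ℕ) (hd1 : 1 ≤ d)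
    (hd2 : 2 * d ≤ p - 1) (hK : ∀ x y : ZMod p, (σ x - σ y) ^ d = (x - y) ^ d) :
    ∃ c b : ZMod p, ∀ x, σ x = c * x + b := by
  classical
  have hpp : p.Prime := Fact.out
  have hp2 := hpp.two_le
  have hdp : d < p := by omega
  obtain ⟨P₁, hP₁d, hP₁⟩ := poly_of_kernel σ d hdp hK 1 hd1
  have hr : P₁.natDegree ≤ 1 := by
    by_contra hr
    have hr2 : 2 ≤ P₁.natDegree := by omega
    obtain ⟨r, hrdef⟩ : ∃ r, r = P₁.natDegree := ⟨_, rfl⟩
    rw [← hrdef] at hr2 hP₁d
    have hq1 : d / r ≤ d / 2 := Nat.div_le_div_left hr2 (by norm_num)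
    have hk : d / r + 1 ≤ d := by omega
    have hkr1 : d < (d / r + 1) * r := by
      have h1 := Nat.div_add_mod d r
      have h2 := Nat.mod_lt d (show 0 < r by omega)
      have h3 : (d / r + 1) * r = r * (d / r) + r := by ring
      rw [h3]; omega
    have hkr2 : (d / r + 1) * r ≤ p - 1 := by
      have h1 := Nat.div_mul_le_self d r
      have h3 : (d / r + 1) * r = d / r * r + r := by ring
      rw [h3]; omega
    obtain ⟨Pk, hPkd, hPk⟩ := poly_of_kernel σ d hdp hK (d / r + 1) hk
    have hQ : P₁ ^ (d / r + 1) - Pk = 0 := by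
      apply Polynomial.eq_zero_of_natDegree_lt_card_of_eval_eq_zero (P₁ ^ (d / r + 1) - Pk)
        (Function.injective_id (α := ZMod p))
      · intro x
        simp only [id, eval_sub, eval_pow]
        rw [hP₁ x, hPk x, pow_one, sub_self]
      · rw [ZMod.card]
        refine lt_of_le_of_lt (natDegree_sub_le _ _) ?_
        rw [natDegree_pow, ← hrdef]
        have : max ((d / r + 1) * r) Pk.natDegree ≤ p - 1 := max_le hkr2 (by omega)
        omega
    have h5 : P₁ ^ (d / r + 1) = Pk := sub_eq_zero.1 hQ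
    have h6 : (P₁ ^ (d / r + 1)).natDegree = (d / r + 1) * r := by rw [natDegree_pow, ← hrdef]
    rw [h5] at h6
    omega
  have h7 := Polynomial.eq_X_add_C_of_natDegree_le_one hr
  refine ⟨P₁.coeff 1, P₁.coeff 0, ?_⟩
  intro x
  have h8 := hP₁ x
  rw [pow_one] at h8
  rw [← h8]
  conv_lhs => rw [h7]
  simp

/-- Closures of subgroups of the one-dimensional affine group. Let p be a prime and G a group of permutations of F_p lying in the affine group AGL₁(p) = {x ↦ ax + b, a ≠ 0} and containing all translations. (1) If G is a proper subgroup of AGL₁(p), then G is 2-closed: a permutation of F_p agreeing on every ordered pair of points with some element of G lies in G. (2) Every permutation of F_p agrees on every ordered pair with some element of AGL₁(p) (the 2-closure of AGL₁(p) is the symmetric group). (3) AGL₁(p) is 3-closed: a permutation agreeing on every ordered triple with some affine map is affine. -/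
theorem result (p : ℕ) [Fact p.Prime] (G : Subgroup (Equiv.Perm (ZMod p))) (hG : G ≤ Cfsg.affineGroup (ZMod p))
    (htrans : ∀ b : ZMod p, ∃ g ∈ G, ∀ x, g x = x + b) :
    (G ≠ Cfsg.affineGroup (ZMod p) → ∀ σ : Equiv.Perm (ZMod p), (∀ t : Fin 2 → ZMod p, ∃ g ∈ G, ∀ i, σ (t i) = g (t i)) → σ ∈ G) ∧
    (∀ σ : Equiv.Perm (ZMod p), (∀ t : Fin 2 → ZMod p, ∃ g ∈ Cfsg.affineGroup (ZMod p), ∀ i, σ (t i) = g (t i))) ∧
    (∀ σ : Equiv.Perm (ZMod p), (∀ t : Fin 3 → ZMod p, ∃ g ∈ Cfsg.affineGroup (ZMod p), ∀ i, σ (t i) = g (t i)) → σ ∈ Cfsg.affineGroup (ZMod p)) := by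
  classical
  have hpp : p.Prime := Fact.out
  refine ⟨?_, ?_, ?_⟩
  · intro hne σ hσ
    -- the subgroup of linear parts
    let A : Subgroup (ZMod p)ˣ :=
      { carrier := {u | aff u 0 ∈ G}
        mul_mem' := by
          intro u v hu hv
          have h1 : aff (u * v) 0 = aff u 0 * aff v 0 := by
            ext x
            simp only [aff_apply, Equiv.Perm.coe_mul, Function.comp_apply, Units.val_mul, add_zero, mul_assoc]
          show aff (u * v) 0 ∈ G
          rw [h1]; exact G.mul_mem hu hv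
        one_mem' := by
          have h1 : aff (1 : (ZMod p)ˣ) 0 = 1 := by
            ext x
            simp [aff_apply]
          show aff 1 0 ∈ G
          rw [h1]; exact G.one_mem
        inv_mem' := by
          intro u hu
          have h1 : aff u⁻¹ 0 = (aff u 0)⁻¹ := by
            rw [eq_inv_iff_mul_eq_one]
            ext x
            simp only [aff_apply, Equiv.Perm.coe_mul, Function.comp_apply, add_zero, Equiv.Perm.coe_one, id]
            rw [← mul_assoc, Units.inv_mul, one_mul]
          show aff u⁻¹ 0 ∈ G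
          rw [h1]; exact G.inv_mem hu }
    have hAmem : ∀ u : (ZMod p)ˣ, u ∈ A ↔ aff u 0 ∈ G := fun u => Iff.rfl
    -- linear parts of elements of G lie in A
    have hlin : ∀ g ∈ G, ∃ a ∈ A, ∃ b : ZMod p, ∀ x, g x = (a : ZMod p) * x + b := by
      intro g hg
      obtain ⟨a, b, hab⟩ := hG hg
      refine ⟨a, ?_, b, hab⟩
      obtain ⟨h, hh, hhx⟩ := htrans (-b)
      have h1 : aff a 0 = h * g := by
        ext x
        simp only [aff_apply, Equiv.Perm.coe_mul, Function.comp_apply, add_zero]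
        rw [hhx, hab]; ring
      rw [hAmem, h1]; exact G.mul_mem hh hg
    have hAtop : A ≠ ⊤ := by
      intro htop
      apply hne
      apply le_antisymm hG
      intro τ hτ
      obtain ⟨a, b, hab⟩ := hτ
      obtain ⟨h, hh, hhx⟩ := htrans b
      have ha : aff a 0 ∈ G := (hAmem a).1 (htop ▸ Subgroup.mem_top a)
      have h1 : τ = h * aff a 0 := by
        ext x
        simp only [aff_apply, Equiv.Perm.coe_mul, Function.comp_apply, add_zero]
        rw [hhx, hab]
      rw [h1]; exact G.mul_mem hh ha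
    obtain ⟨d, hddef⟩ : ∃ d, d = Nat.card A := ⟨_, rfl⟩
    have hd1 : 1 ≤ d := by rw [hddef]; exact Nat.card_pos
    have hd2 : 2 * d ≤ p - 1 := by
      have h1 := Subgroup.card_mul_index A
      have h2 : Nat.card (ZMod p)ˣ = p - 1 := by
        rw [Nat.card_eq_fintype_card, ZMod.card_units]
      rw [h2, ← hddef] at h1
      have h3 : A.index ≠ 1 := fun h => hAtop (Subgroup.index_eq_one.1 h)
      have h4 : A.index ≠ 0 := Subgroup.index_ne_zero_of_finite
      have h5 : 2 ≤ A.index := by omega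
      calc 2 * d = d * 2 := by ring
        _ ≤ d * A.index := Nat.mul_le_mul_left d h5
        _ = p - 1 := h1
    have hApow : ∀ a ∈ A, ((a : (ZMod p)ˣ) : ZMod p) ^ d = 1 := by
      intro a ha
      have h1 : (⟨a, ha⟩ : A) ^ Nat.card A = 1 := pow_card_eq_one'
      have h2' : (((⟨a, ha⟩ : A) ^ Nat.card A : A) : (ZMod p)ˣ) = a ^ Nat.card A := rfl
      have h2 : a ^ d = 1 := by
        rw [hddef, ← h2', h1]; rfl
      have h3 := congrArg Units.val h2
      simpa using h3
    have hK : ∀ x y : ZMod p, (σ x - σ y) ^ d = (x - y) ^ d := by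
      intro x y
      obtain ⟨g, hg, hgt⟩ := hσ ![x, y]
      obtain ⟨a, ha, b, hab⟩ := hlin g hg
      have hx : σ x = (a : ZMod p) * x + b := by
        have := hgt 0
        simpa [hab] using this
      have hy : σ y = (a : ZMod p) * y + b := by
        have := hgt 1
        simpa [hab] using this
      have h1 : σ x - σ y = (a : ZMod p) * (x - y) := by rw [hx, hy]; ring
      rw [h1, mul_pow, hApow a ha, one_mul]
    obtain ⟨c, b, hcb⟩ := affine_of_kernel σ d hd1 hd2 hK
    obtain ⟨g, hg, hgt⟩ := hσ ![1, 0]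
    obtain ⟨a, ha, b', hab⟩ := hlin g hg
    have h1 : σ 1 = (a : ZMod p) * 1 + b' := by
      have := hgt 0
      simpa [hab] using this
    have h0 : σ 0 = (a : ZMod p) * 0 + b' := by
      have := hgt 1
      simpa [hab] using this
    have hca : c = (a : ZMod p) := by
      have e1 := hcb 1
      have e0 := hcb 0
      rw [h1] at e1
      rw [h0] at e0
      linear_combination e0 - e1
    obtain ⟨h, hh, hhx⟩ := htrans b
    have h2 : σ = h * aff a 0 := by
      ext x
      simp only [aff_apply, Equiv.Perm.coe_mul, Function.comp_apply, add_zero]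
      rw [hhx, hcb x, hca]
    rw [h2]; exact G.mul_mem hh ((hAmem a).1 ha)
  · intro σ t
    by_cases h01 : t 0 = t 1
    · refine ⟨aff 1 (σ (t 0) - t 0), ⟨1, σ (t 0) - t 0, fun x => rfl⟩, ?_⟩
      intro i
      fin_cases i
      · simp [aff_apply]
      · simp only [aff_apply, Units.val_one, one_mul]
        show σ (t 1) = t 1 + (σ (t 0) - t 0)
        rw [← h01]; ring
    · have hne : σ (t 1) - σ (t 0) ≠ 0 := by
        intro h
        exact h01 (σ.injective (sub_eq_zero.1 h)).symm
      have hne' : t 1 - t 0 ≠ 0 := fun h => h01 (sub_eq_zero.1 h).symm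
      have ha0 : (σ (t 1) - σ (t 0)) / (t 1 - t 0) ≠ 0 := div_ne_zero hne hne'
      refine ⟨aff (Units.mk0 _ ha0) (σ (t 0) - (σ (t 1) - σ (t 0)) / (t 1 - t 0) * t 0),
        ⟨Units.mk0 _ ha0, _, fun x => rfl⟩, ?_⟩
      intro i
      fin_cases i
      · simp [aff_apply]
      · simp only [aff_apply, Units.val_mk0]
        show σ (t 1) = (σ (t 1) - σ (t 0)) / (t 1 - t 0) * t 1 +
          (σ (t 0) - (σ (t 1) - σ (t 0)) / (t 1 - t 0) * t 0)
        field_simp
        ring
  · intro σ hσ
    obtain ⟨g₀, ⟨a₀, b₀, hg₀⟩, ht₀⟩ := hσ ![0, 1, 0]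
    have e0 : σ 0 = b₀ := by
      have := ht₀ 0
      simpa [hg₀] using this
    have e1 : σ 1 = (a₀ : ZMod p) + b₀ := by
      have := ht₀ 1
      simpa [hg₀] using this
    refine ⟨a₀, b₀, ?_⟩
    intro x
    obtain ⟨g, ⟨a, b, hg⟩, ht⟩ := hσ ![0, 1, x]
    have f0 : σ 0 = b := by
      have := ht 0
      simpa [hg] using this
    have f1 : σ 1 = (a : ZMod p) + b := by
      have := ht 1
      simpa [hg] using this
    have f2 : σ x = (a : ZMod p) * x + b := by
      have := ht 2
      simpa [hg] using this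
    have hb : b = b₀ := f0.symm.trans e0
    have ha : (a : ZMod p) = (a₀ : ZMod p) := by
      have := f1.symm.trans e1
      rw [hb] at this
      exact add_right_cancel this
    rw [f2, ha, hb]

end Cfsg.Agent.S3518
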