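import Cfsg.Statements.S3524
import Mathlib

set_option autoImplicit false
open Cfsg

namespace Cfsg.Agent.S3524

/-- A permutation group with a base is closed at one level above the base size. Let G be a group of permutations of a set Ω and suppose some k points α₁, …, α_k are fixed simultaneously only by the identity of G (a base of size k). Then G is (k+1)-closed: a permutation of Ω that agrees on every (k+1)-tuple of points with some element of G belongs to G. -/
theorem result {Ω : Type*} (G : Subgroup (Equiv.Perm Ω)) (k : ℕ) (α : Fin k → Ω)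
    (hbase : ∀ g ∈ G, (∀ i, g (α i) = α i) → g = 1) (σ : Equiv.Perm Ω)
    (hσ : ∀ t : Fin (k + 1) → Ω, ∃ g ∈ G, ∀ i, σ (t i) = g (t i)) : σ ∈ G := by
  by_cases hΩ : Nonempty Ω
  · obtain ⟨ω₀⟩ := hΩ
    obtain ⟨g, hg, hgσ⟩ := hσ (Fin.snoc (α := fun _ => Ω) α ω₀)
    have key : ∀ x, σ x = g x := by
      intro x
      obtain ⟨g', hg', hg'σ⟩ := hσ (Fin.snoc (α := fun _ => Ω) α x)
      have h0 : g⁻¹ * g' = 1 := by
        apply hbase _ (G.mul_mem (G.inv_mem hg) hg')
        intro i
        have h1 := hgσ i.castSucc
        have h2 := hg'σ i.castSucc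
        simp only [Fin.snoc_castSucc] at h1 h2
        rw [Equiv.Perm.mul_apply, ← h2, h1]
        simp
      have hgg : g' = g := by
        have h5 := congrArg (fun t => g * t) h0
        simpa using h5
      have h3 := hg'σ (Fin.last k)
      simp only [Fin.snoc_last] at h3
      rw [h3, hgg]
    have h4 : σ = g := Equiv.ext key
    rw [h4]; exact hg
  · have h4 : σ = 1 := by
      ext x; exact (hΩ ⟨x⟩).elim
    rw [h4]; exact G.one_mem

end Cfsg.Agent.S3524
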