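import Cfsg.Statements.S3547
import Mathlib
import Cfsg.Agent.Lib.Helper5.Derangement

set_option autoImplicit false
open Cfsg

namespace Cfsg.Agent.S3547

/-- Let G act faithfully and transitively on a finite set Ω, let D be the subgroup generated by the derangements, and let r_G and r_D be the numbers of orbits of G and of D on ordered pairs of points (the permutation ranks). Then r_D − 1 = (r_G − 1)·[G : D]. -/
theorem result {G Ω : Type*} [Group G] [Finite G] [MulAction G Ω] [FaithfulSMul G Ω] [Finite Ω]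
    (htrans : MulAction.IsPretransitive G Ω) :
    Nat.card (MulAction.orbitRel.Quotient ↥(Subgroup.closure {g : G | ∀ ω : Ω, g • ω ≠ ω}) (Ω × Ω)) - 1 =
      (Nat.card (MulAction.orbitRel.Quotient G (Ω × Ω)) - 1) * (Subgroup.closure {g : G | ∀ ω : Ω, g • ω ≠ ω}).index := by
  rcases isEmpty_or_nonempty Ω with hΩ | hΩ
  · have h1 : IsEmpty (MulAction.orbitRel.Quotient ↥(Subgroup.closure {g : G | ∀ ω : Ω, g • ω ≠ ω}) (Ω × Ω)) :=
      ⟨fun q => Quotient.inductionOn' q (fun p => hΩ.false p.1)⟩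
    have h2 : IsEmpty (MulAction.orbitRel.Quotient G (Ω × Ω)) :=
      ⟨fun q => Quotient.inductionOn' q (fun p => hΩ.false p.1)⟩
    rw [Nat.card_of_isEmpty, Nat.card_of_isEmpty]
    simp
  · obtain ⟨h1, h2⟩ := Cfsg.Agent.Lib.Helper5.derangement_core htrans
      (Subgroup.closure {g : G | ∀ ω : Ω, g • ω ≠ ω}) (fun g hg => Subgroup.subset_closure hg)
    have hout : ∀ g : G, g ∉ Subgroup.closure {g : G | ∀ ω : Ω, g • ω ≠ ω} →
        Nat.card (MulAction.fixedBy (Ω × Ω) g) = 1 := by
      intro g hg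
      rw [Cfsg.Agent.Lib.Helper5.card_fixedBy_prod, h2 g hg, one_pow]
    have hsplit := Cfsg.Agent.Lib.Helper5.burnside_subgroup_split (X := Ω × Ω)
      (Subgroup.closure {g : G | ∀ ω : Ω, g • ω ≠ ω}) hout
    have hidx := Subgroup.card_mul_index (Subgroup.closure {g : G | ∀ ω : Ω, g • ω ≠ ω})
    have hDpos : 0 < Nat.card (Subgroup.closure {g : G | ∀ ω : Ω, g • ω ≠ ω}) := Nat.card_pos
    have hm0 : (Subgroup.closure {g : G | ∀ ω : Ω, g • ω ≠ ω}).index ≠ 0 :=
      Subgroup.index_ne_zero_of_finite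
    have hrG : 0 < Nat.card (MulAction.orbitRel.Quotient G (Ω × Ω)) := by
      have : Nonempty (MulAction.orbitRel.Quotient G (Ω × Ω)) :=
        (inferInstance : Nonempty (Ω × Ω)).map (Quotient.mk _)
      exact Nat.card_pos
    generalize Nat.card (MulAction.orbitRel.Quotient ↥(Subgroup.closure {g : G | ∀ ω : Ω, g • ω ≠ ω}) (Ω × Ω)) = rD at *
    generalize Nat.card (MulAction.orbitRel.Quotient G (Ω × Ω)) = rG at *
    generalize (Subgroup.closure {g : G | ∀ ω : Ω, g • ω ≠ ω}).index = m at *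
    generalize Nat.card (Subgroup.closure {g : G | ∀ ω : Ω, g • ω ≠ ω}) = d at *
    generalize Nat.card G = c at *
    subst hidx
    obtain ⟨a, rfl⟩ := Nat.exists_eq_succ_of_ne_zero hrG.ne'
    have hmpos : 0 < m := Nat.pos_of_ne_zero hm0
    have h5 : (a + 1) * m * d + d = (rD + m) * d := by
      have h6 : d ≤ d * m := Nat.le_mul_of_pos_right d hmpos
      have h7 : (a + 1) * (d * m) = rD * d + (d * m - d) := hsplit
      nlinarith [Nat.sub_add_cancel h6]
    have h8 : ((a + 1) * m + 1) * d = (rD + m) * d := by nlinarith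
    have h9 := Nat.eq_of_mul_eq_mul_right hDpos h8
    have h10 : rD = a * m + 1 := by nlinarith
    rw [h10]
    simp

end Cfsg.Agent.S3547
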