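import Cfsg.Statements.S3548
import Mathlib
import Cfsg.Agent.Lib.Helper5.Derangement

set_option autoImplicit false
open Cfsg

namespace Cfsg.Agent.S3548

/-- Let G act faithfully and transitively on a finite set with n ≥ 2 points and let D be the subgroup generated by the derangements. Then the index of D in G divides n − 1, and if it equals n − 1 then n is a prime power. -/
theorem result {G Ω : Type*} [Group G] [Finite G] [MulAction G Ω] [FaithfulSMul G Ω] [Finite Ω]
    (htrans : MulAction.IsPretransitive G Ω) (hΩ : 2 ≤ Nat.card Ω) :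
    (Subgroup.closure {g : G | ∀ ω : Ω, g • ω ≠ ω}).index ∣ Nat.card Ω - 1 ∧
    ((Subgroup.closure {g : G | ∀ ω : Ω, g • ω ≠ ω}).index = Nat.card Ω - 1 → IsPrimePow (Nat.card Ω)) := by
  classical
  have hne : Nonempty Ω := by
    by_contra h
    rw [not_nonempty_iff] at h
    rw [Nat.card_of_isEmpty] at hΩ
    omega
  have hDn : (Subgroup.closure {g : G | ∀ ω : Ω, g • ω ≠ ω}).Normal :=
    Cfsg.Agent.Lib.Helper5.closure_derangements_normal G Ω
  obtain ⟨hDt, hone⟩ := Cfsg.Agent.Lib.Helper5.derangement_core htrans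
    (Subgroup.closure {g : G | ∀ ω : Ω, g • ω ≠ ω}) (fun g hg => Subgroup.subset_closure hg)
  generalize Subgroup.closure {g : G | ∀ ω : Ω, g • ω ≠ ω} = D at *
  obtain ⟨α⟩ := hne
  have hα : ∀ h : MulAction.stabilizer G α, h • α = α := fun h => h.2
  have key := fun β hβ =>
    Cfsg.Agent.Lib.Helper5.index_dvd_card_orbit_stabilizer D hDt hone α β hβ
  have hdvd : D.index ∣ Nat.card Ω - 1 := by
    apply Cfsg.Agent.Lib.Helper5.dvd_card_sub_one_of_orbits (H := MulAction.stabilizer G α) α hα
    intro β hβ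
    exact Dvd.intro _ (key β hβ).2
  refine ⟨hdvd, ?_⟩
  intro hidx
  have hsub : ∀ β : Ω, β ≠ α → MulAction.orbit (MulAction.stabilizer G α) β ⊆ ({α}ᶜ : Set Ω) := by
    intro β hβ
    rintro x ⟨h, rfl⟩
    intro hx
    apply hβ
    have h1 : (h : G) • β = α := hx
    have h2 : β = (h : G)⁻¹ • α := by rw [eq_inv_smul_iff]; exact h1
    rw [h2]
    exact MulAction.mem_stabilizer_iff.mp (Subgroup.inv_mem _ h.2)
  have hcompl : ({α}ᶜ : Set Ω).ncard = Nat.card Ω - 1 := by
    rw [Set.ncard_compl, Set.ncard_singleton]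
  have hfacts : ∀ β : Ω, β ≠ α →
      (D.subgroupOf (MulAction.stabilizer G α) ≤ MulAction.stabilizer (MulAction.stabilizer G α) β) ∧
      MulAction.orbit (MulAction.stabilizer G α) β = ({α}ᶜ : Set Ω) := by
    intro β hβ
    obtain ⟨hle, hmul⟩ := key β hβ
    have horb_le : Nat.card (MulAction.orbit (MulAction.stabilizer G α) β) ≤ Nat.card Ω - 1 := by
      have h3 := Set.ncard_le_ncard (hsub β hβ) (Set.toFinite _)
      rw [hcompl] at h3
      rwa [Nat.card_coe_set_eq]
    have hpos : 0 < Nat.card (MulAction.orbit (MulAction.stabilizer G α) β) := by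
      have : Nonempty (MulAction.orbit (MulAction.stabilizer G α) β) :=
        ⟨⟨β, MulAction.mem_orbit_self β⟩⟩
      exact Nat.card_pos
    rw [hidx] at hmul
    have hrel : (MulAction.stabilizer (MulAction.stabilizer G α) β).relIndex
        (D.subgroupOf (MulAction.stabilizer G α)) = 1 := by
      generalize (MulAction.stabilizer (MulAction.stabilizer G α) β).relIndex
        (D.subgroupOf (MulAction.stabilizer G α)) = r at hmul
      generalize Nat.card (MulAction.orbit (MulAction.stabilizer G α) β) = c at hmul horb_le hpos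
      generalize Nat.card Ω - 1 = N at hmul horb_le
      rcases Nat.lt_or_ge r 2 with h | h
      · interval_cases r
        · simp at hmul; omega
        · rfl
      · have h4 : N * 2 ≤ N * r := Nat.mul_le_mul_left N h
        have h5 : 0 < N := by
          rcases Nat.eq_zero_or_pos N with h6 | h6
          · subst h6; simp at hmul; omega
          · exact h6
        omega
    refine ⟨Subgroup.relIndex_eq_one.mp hrel, ?_⟩
    apply Set.eq_of_subset_of_ncard_le (hsub β hβ) _ (Set.toFinite _)
    rw [hcompl, ← Nat.card_coe_set_eq, ← hmul, hrel, mul_one]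
  have hreg : ∀ d ∈ D, d • α = α → d = 1 := by
    intro d hd hdα
    apply FaithfulSMul.eq_of_smul_eq_smul (α := Ω)
    intro β
    rw [one_smul]
    by_cases hβ : β = α
    · rw [hβ]; exact hdα
    · have hmem : (⟨d, hdα⟩ : MulAction.stabilizer G α) ∈ D.subgroupOf (MulAction.stabilizer G α) :=
        Subgroup.mem_subgroupOf.mpr hd
      exact (hfacts β hβ).1 hmem
  have hconj : ∀ d ∈ D, ∀ d' ∈ D, d ≠ 1 → d' ≠ 1 → orderOf d = orderOf d' := by
    intro d hd d' hd' hd1 hd'1
    have h1 : d • α ≠ α := fun h => hd1 (hreg d hd h)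
    have h2 : d' • α ≠ α := fun h => hd'1 (hreg d' hd' h)
    have h3 : d' • α ∈ MulAction.orbit (MulAction.stabilizer G α) (d • α) := by
      rw [(hfacts (d • α) h1).2]
      exact h2
    obtain ⟨h, hh⟩ := h3
    have hh' : (h : G) • d • α = d' • α := hh
    have hc : (h : G) * d * (h : G)⁻¹ ∈ D := hDn.conj_mem d hd (h : G)
    have hfix : (d'⁻¹ * ((h : G) * d * (h : G)⁻¹)) • α = α := by
      have h4 : (h : G)⁻¹ • α = α := MulAction.mem_stabilizer_iff.mp (Subgroup.inv_mem _ h.2)
      rw [mul_smul, mul_smul, mul_smul, h4, hh', inv_smul_smul]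
    have h5 := hreg _ (D.mul_mem (D.inv_mem hd') hc) hfix
    have h6 : (h : G) * d * (h : G)⁻¹ = d' := by
      have h7 := congrArg (fun w => d' * w) h5
      simpa [mul_assoc] using h7
    rw [← h6]
    have h8 := MulEquiv.orderOf_eq (MulAut.conj (h : G)) d
    rw [MulAut.conj_apply] at h8
    exact h8.symm
  have hstab : MulAction.stabilizer D α = ⊥ := by
    rw [eq_bot_iff]
    intro d hd
    rw [Subgroup.mem_bot]
    ext
    exact hreg d d.2 (MulAction.mem_stabilizer_iff.mp hd)
  have hcardD : Nat.card D = Nat.card Ω := by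
    have h1 := MulAction.index_stabilizer_of_transitive (G := D) (X := Ω) (x := α)
    rw [hstab, Subgroup.index_bot] at h1
    exact h1
  obtain ⟨p, hp, hpd⟩ := Nat.exists_prime_and_dvd (show Nat.card Ω ≠ 1 by omega)
  have : Fact p.Prime := ⟨hp⟩
  obtain ⟨d₀, hd₀⟩ := exists_prime_orderOf_dvd_card' (G := D) p (hcardD ▸ hpd)
  have hd₀1 : (d₀ : G) ≠ 1 := by
    intro h
    have h1 : orderOf (d₀ : G) = 1 := by rw [h, orderOf_one]
    rw [Subgroup.orderOf_coe, hd₀] at h1
    exact hp.one_lt.ne' h1
  have hPG : IsPGroup p D := by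
    intro d
    by_cases hd1 : d = 1
    · exact ⟨0, by rw [hd1]; simp⟩
    · refine ⟨1, ?_⟩
      have hd1' : (d : G) ≠ 1 := fun h => hd1 (Subtype.ext h)
      have h1 := hconj (d : G) d.2 (d₀ : G) d₀.2 hd1' hd₀1
      rw [Subgroup.orderOf_coe, Subgroup.orderOf_coe, hd₀] at h1
      rw [pow_one, ← h1]
      exact pow_orderOf_eq_one d
  obtain ⟨k, hk⟩ := IsPGroup.iff_card.mp hPG
  rw [hcardD] at hk
  rw [isPrimePow_nat_iff]
  refine ⟨p, k, hp, ?_, hk.symm⟩
  rcases Nat.eq_zero_or_pos k with h | h
  · subst h; simp at hk; omega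
  · exact h

end Cfsg.Agent.S3548
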