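import Cfsg.Statements.S3549
import Mathlib
import Cfsg.Agent.Lib.Helper5.Derangement

set_option autoImplicit false
open Cfsg

namespace Cfsg.Agent.S3549

open scoped Pointwise

/-- Let G act faithfully, transitively but imprimitively on a finite set with n points, and let D be the subgroup generated by the derangements. Then the index of D in G is at most √n − 1. -/
theorem result {G Ω : Type*} [Group G] [Finite G] [MulAction G Ω] [FaithfulSMul G Ω] [Finite Ω]
    (htrans : MulAction.IsPretransitive G Ω) (himp : ¬ MulAction.IsPreprimitive G Ω) :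
    ((Subgroup.closure {g : G | ∀ ω : Ω, g • ω ≠ ω}).index : ℝ) ≤ Real.sqrt (Nat.card Ω) - 1 := by
  classical
  have hblk : ∃ B : Set Ω, MulAction.IsBlock G B ∧ ¬ MulAction.IsTrivialBlock B := by
    by_contra h
    push Not at h
    exact himp { toIsPretransitive := htrans, isTrivialBlock_of_isBlock := fun {B} hB => h B hB }
  obtain ⟨B, hB, hBnt⟩ := hblk
  have hBns : ¬ B.Subsingleton := fun h => hBnt (Or.inl h)
  have hBnu : B ≠ Set.univ := fun h => hBnt (Or.inr h)
  obtain ⟨α, hαB⟩ : B.Nonempty := by
    rw [Set.nonempty_iff_ne_empty]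
    rintro rfl
    exact hBns Set.subsingleton_empty
  have : Nonempty Ω := ⟨α⟩
  have := htrans
  have hDn : (Subgroup.closure {g : G | ∀ ω : Ω, g • ω ≠ ω}).Normal :=
    Cfsg.Agent.Lib.Helper5.closure_derangements_normal G Ω
  obtain ⟨hDt, hone⟩ := Cfsg.Agent.Lib.Helper5.derangement_core htrans
    (Subgroup.closure {g : G | ∀ ω : Ω, g • ω ≠ ω}) (fun g hg => Subgroup.subset_closure hg)
  generalize Subgroup.closure {g : G | ∀ ω : Ω, g • ω ≠ ω} = D at *
  have hbc := hB.ncard_block_mul_ncard_orbit_eq ⟨α, hαB⟩
  have h1 : D.index ∣ B.ncard - 1 := by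
    let P : SubMulAction (MulAction.stabilizer G α) Ω :=
      { carrier := B
        smul_mem' := by
          intro h x hx
          have hh : (h : G) ∈ MulAction.stabilizer G B := hB.stabilizer_le hαB h.2
          have h3 : (h : G) • x ∈ (h : G) • B := Set.smul_mem_smul_set hx
          rw [MulAction.mem_stabilizer_iff.mp hh] at h3
          exact h3 }
    have hcardP : Nat.card P = B.ncard := by
      rw [← Nat.card_coe_set_eq]
      exact Nat.card_congr (Equiv.subtypeEquivRight (fun x => Iff.rfl))
    rw [← hcardP]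
    apply Cfsg.Agent.Lib.Helper5.dvd_card_sub_one_of_orbits (H := MulAction.stabilizer G α)
      (X := P) ⟨α, hαB⟩
    · intro h
      exact Subtype.ext h.2
    · intro β hβ
      have hβ' : (β : Ω) ≠ α := fun h => hβ (Subtype.ext h)
      obtain ⟨_, hmul⟩ :=
        Cfsg.Agent.Lib.Helper5.index_dvd_card_orbit_stabilizer D hDt hone α (β : Ω) hβ'
      rw [Nat.card_coe_set_eq, ← MulAction.index_stabilizer, SubMulAction.stabilizer_of_subMul,
        MulAction.index_stabilizer, ← Nat.card_coe_set_eq]
      exact Dvd.intro _ hmul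
  have h2 : D.index ∣ (MulAction.orbit G B).ncard - 1 := by
    rw [← Nat.card_coe_set_eq]
    have : Nonempty (MulAction.orbit G B) := ⟨⟨B, MulAction.mem_orbit_self B⟩⟩
    apply Cfsg.Agent.Lib.Helper5.index_dvd_card_sub_one (X := MulAction.orbit G B) inferInstance D
    intro g hg
    by_contra hgD
    have hc1 := hone g hgD
    have hne : Nonempty (MulAction.fixedBy Ω g) := by
      by_contra hemp
      rw [not_nonempty_iff] at hemp
      rw [Nat.card_of_isEmpty] at hc1
      omega
    obtain ⟨⟨ω, hω⟩⟩ := hne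
    obtain ⟨x, hx⟩ := MulAction.exists_smul_eq G α ω
    have hωB : ω ∈ x • B := by
      rw [← hx]
      exact Set.smul_mem_smul_set hαB
    have hblk' : MulAction.IsBlock G (x • B) := hB.translate x
    have hgω : g • ω = ω := hω
    have hfixB : g • (x • B) = x • B := hblk'.smul_eq_of_mem hωB (by rw [hgω]; exact hωB)
    exact hg ⟨x • B, MulAction.mem_orbit _ x⟩ (Subtype.ext hfixB)
  have hb2 : 2 ≤ B.ncard := by
    by_contra h
    push Not at h
    exact hBns (Set.ncard_le_one_iff_subsingleton.mp (by omega))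
  have hc2 : 2 ≤ (MulAction.orbit G B).ncard := by
    by_contra h
    push Not at h
    have hcpos : 0 < (MulAction.orbit G B).ncard :=
      (Set.ncard_pos (Set.toFinite _)).mpr ⟨B, MulAction.mem_orbit_self B⟩
    have h3 : (MulAction.orbit G B).ncard = 1 := by omega
    rw [h3, mul_one] at hbc
    exact hBnu ((Set.eq_univ_iff_ncard B).mpr hbc)
  have hm1 : D.index + 1 ≤ B.ncard := by
    obtain ⟨k, hk⟩ := h1
    rcases Nat.eq_zero_or_pos k with h | h
    · subst h; omega
    · have h4 : D.index ≤ D.index * k := Nat.le_mul_of_pos_right _ h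
      omega
  have hm2 : D.index + 1 ≤ (MulAction.orbit G B).ncard := by
    obtain ⟨k, hk⟩ := h2
    rcases Nat.eq_zero_or_pos k with h | h
    · subst h; omega
    · have h4 : D.index ≤ D.index * k := Nat.le_mul_of_pos_right _ h
      omega
  have hsq : (D.index + 1) ^ 2 ≤ Nat.card Ω := by
    rw [← hbc, sq]
    exact Nat.mul_le_mul hm1 hm2
  have hfin : ((D.index : ℝ) + 1) ≤ Real.sqrt (Nat.card Ω) := by
    apply Real.le_sqrt_of_sq_le
    exact_mod_cast hsq
  linarith

end Cfsg.Agent.S3549
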