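import Cfsg.Statements.S3560
import Mathlib

set_option autoImplicit false
open Cfsg

namespace Cfsg.Agent.S3560


open scoped Pointwise

/-- coordinatewise permutation of `ι → Fin m` -/
def cw {ι : Type*} {m : ℕ} (τ : ι → Equiv.Perm (Fin m)) : Equiv.Perm (ι → Fin m) where
  toFun x := fun i => τ i (x i)
  invFun x := fun i => (τ i).symm (x i)
  left_inv x := by funext i; simp
  right_inv x := by funext i; simp

theorem cw_apply {ι : Type*} {m : ℕ} (τ : ι → Equiv.Perm (Fin m)) (x : ι → Fin m) (i : ι) :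
    cw τ x i = τ i (x i) := rfl

/-- permutation of coordinates -/
def sw {ι : Type*} (m : ℕ) (π : Equiv.Perm ι) : Equiv.Perm (ι → Fin m) where
  toFun x := fun i => x (π i)
  invFun x := fun i => x (π.symm i)
  left_inv x := by funext i; simp
  right_inv x := by funext i; simp

theorem sw_apply {ι : Type*} (m : ℕ) (π : Equiv.Perm ι) (x : ι → Fin m) (i : ι) :
    sw m π x i = x (π i) := rfl

/-- Hamming adjacency -/
def Adj {ι : Type*} {m : ℕ} (x y : ι → Fin m) : Prop :=
  ∃ i, x i ≠ y i ∧ ∀ j, j ≠ i → x j = y j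

/-- automorphism group of the Hamming graph -/
def Ham (ι : Type*) (m : ℕ) : Subgroup (Equiv.Perm (ι → Fin m)) where
  carrier := {σ | ∀ x y, Adj (σ x) (σ y) ↔ Adj x y}
  mul_mem' := by
    intro σ τ hσ hτ x y
    show Adj (σ (τ x)) (σ (τ y)) ↔ Adj x y
    rw [hσ, hτ]
  one_mem' := by
    intro x y
    exact Iff.rfl
  inv_mem' := by
    intro σ hσ x y
    show Adj (σ.symm x) (σ.symm y) ↔ Adj x y
    have h := hσ (σ.symm x) (σ.symm y)
    rw [Equiv.apply_symm_apply, Equiv.apply_symm_apply] at h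
    exact h.symm

theorem mem_Ham {ι : Type*} {m : ℕ} (σ : Equiv.Perm (ι → Fin m)) :
    σ ∈ Ham ι m ↔ ∀ x y, Adj (σ x) (σ y) ↔ Adj x y := Iff.rfl

theorem cw_mem {ι : Type*} {m : ℕ} (τ : ι → Equiv.Perm (Fin m)) : cw τ ∈ Ham ι m := by
  rw [mem_Ham]
  intro x y
  unfold Adj
  simp [cw_apply]

theorem sw_mem {ι : Type*} (m : ℕ) (π : Equiv.Perm ι) : sw m π ∈ Ham ι m := by
  rw [mem_Ham]
  intro x y
  constructor
  · rintro ⟨i, hi, hj⟩
    refine ⟨π i, hi, fun j hj' => ?_⟩
    have h := hj (π.symm j) (fun h => hj' (by rw [← h, Equiv.apply_symm_apply]))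
    rw [sw_apply, sw_apply, Equiv.apply_symm_apply] at h
    exact h
  · rintro ⟨i, hi, hj⟩
    refine ⟨π.symm i, ?_, fun j hj' => ?_⟩
    · rw [sw_apply, sw_apply, Equiv.apply_symm_apply]; exact hi
    · rw [sw_apply, sw_apply]
      exact hj (π j) (fun h => hj' (by rw [← h, Equiv.symm_apply_apply]))

theorem cw_update {ι : Type*} [DecidableEq ι] {m : ℕ} (i : ι) (τ : Equiv.Perm (Fin m))
    (z : ι → Fin m) :
    cw (Function.update (fun _ => (1 : Equiv.Perm (Fin m))) i τ) z
      = Function.update z i (τ (z i)) := by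
  funext j
  rw [cw_apply]
  by_cases hj : j = i
  · rw [hj, Function.update_self, Function.update_self]
  · rw [Function.update_of_ne hj, Function.update_of_ne hj]; rfl

theorem ham_prim {ι : Type*} [Fintype ι] [DecidableEq ι] (m : ℕ) (hm : 3 ≤ m)
    (B : Set (ι → Fin m))
    (hB : ∀ g ∈ Ham ι m, ∀ x ∈ B, g x ∈ B → ∀ y ∈ B, g y ∈ B)
    (a b : ι → Fin m) (ha : a ∈ B) (hb : b ∈ B) (hab : a ≠ b) : B = Set.univ := by
  have key : ∀ (i : ι) (τ : Equiv.Perm (Fin m)) (x : ι → Fin m), x ∈ B →
      Function.update x i (τ (x i)) ∈ B →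
      ∀ y ∈ B, Function.update y i (τ (y i)) ∈ B := by
    intro i τ x hx hx' y hy
    have h := hB (cw (Function.update (fun _ => 1) i τ)) (cw_mem _) x hx
      (by rw [cw_update]; exact hx') y hy
    rwa [cw_update] at h
  obtain ⟨i₀, hi₀⟩ : ∃ i, a i ≠ b i := by
    by_contra h
    push_neg at h
    exact hab (funext h)
  obtain ⟨c, hca, hcb⟩ : ∃ c : Fin m, c ≠ a i₀ ∧ c ≠ b i₀ := by
    by_contra h
    push_neg at h
    have hsub : (Finset.univ : Finset (Fin m)) ⊆ {a i₀, b i₀} := by
      intro c _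
      by_cases hc : c = a i₀
      · simp [hc]
      · simp [h c hc]
    have h2 := Finset.card_le_card hsub
    have h3 : ({a i₀, b i₀} : Finset (Fin m)).card ≤ 2 := Finset.card_le_two
    rw [Finset.card_univ, Fintype.card_fin] at h2
    omega
  have hb' : Function.update b i₀ c ∈ B := by
    have h := key i₀ (Equiv.swap (b i₀) c) a ha (by
      rw [Equiv.swap_apply_of_ne_of_ne hi₀ (Ne.symm hca), Function.update_eq_self]
      exact ha) b hb
    rwa [Equiv.swap_apply_left] at h
  have hline : ∀ d : Fin m, Function.update b i₀ d ∈ B := by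
    intro d
    by_cases hd : d = b i₀
    · rw [hd, Function.update_eq_self]; exact hb
    · have h := key i₀ (Equiv.swap c d) b hb (by
        rw [Equiv.swap_apply_of_ne_of_ne (Ne.symm hcb) (Ne.symm hd), Function.update_eq_self]
        exact hb) (Function.update b i₀ c) hb'
      simpa [Function.update_self, Equiv.swap_apply_left, Function.update_idem] using h
  have inv_of_line : ∀ (i : ι) (z : ι → Fin m), (∀ d, Function.update z i d ∈ B) →
      ∀ (τ : Equiv.Perm (Fin m)) (y : ι → Fin m), y ∈ B →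
        Function.update y i (τ (y i)) ∈ B := by
    intro i z hz τ y hy
    have hzB : z ∈ B := by
      have := hz (z i)
      rwa [Function.update_eq_self] at this
    exact key i τ z hzB (hz _) y hy
  have hS : ∀ (j : ι) (τ : Equiv.Perm (Fin m)) (y : ι → Fin m), y ∈ B →
      Function.update y j (τ (y j)) ∈ B := by
    intro j
    by_cases hj : j = i₀
    · rw [hj]; exact inv_of_line i₀ b hline
    · obtain ⟨z, hz⟩ : ∃ z, z = Function.update b i₀ (b j) := ⟨_, rfl⟩
      have hzB : z ∈ B := hz ▸ hline _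
      have hzi : z i₀ = b j := by rw [hz, Function.update_self]
      have hzj : z j = b j := by rw [hz, Function.update_of_ne hj]
      have hgz : sw m (Equiv.swap i₀ j) z = z := by
        funext k
        rw [sw_apply]
        by_cases hk1 : k = i₀
        · rw [hk1, Equiv.swap_apply_left, hzi, hzj]
        · by_cases hk2 : k = j
          · rw [hk2, Equiv.swap_apply_right, hzi, hzj]
          · rw [Equiv.swap_apply_of_ne_of_ne hk1 hk2]
      apply inv_of_line j z
      intro d
      have hzd : Function.update z i₀ d ∈ B := by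
        rw [hz, Function.update_idem]; exact hline d
      have h := hB (sw m (Equiv.swap i₀ j)) (sw_mem _ _) z hzB (by rw [hgz]; exact hzB) _ hzd
      have he : sw m (Equiv.swap i₀ j) (Function.update z i₀ d) = Function.update z j d := by
        funext k
        rw [sw_apply]
        by_cases hk1 : k = i₀
        · rw [hk1, Equiv.swap_apply_left, Function.update_of_ne hj,
            Function.update_of_ne (Ne.symm hj), hzi, hzj]
        · by_cases hk2 : k = j
          · rw [hk2, Equiv.swap_apply_right, Function.update_self, Function.update_self]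
          · rw [Equiv.swap_apply_of_ne_of_ne hk1 hk2, Function.update_of_ne hk1,
              Function.update_of_ne hk2]
      rwa [he] at h
  have hfin : ∀ (T : Finset ι) (w : ι → Fin m), (∀ i, i ∉ T → w i = b i) → w ∈ B := by
    intro T
    induction T using Finset.induction_on with
    | empty =>
      intro w hw
      have : w = b := funext fun i => hw i (Finset.notMem_empty i)
      rw [this]; exact hb
    | insert i T hi ih =>
      intro w hw
      have h1 : Function.update w i (b i) ∈ B := by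
        apply ih
        intro k hk
        by_cases hki : k = i
        · rw [hki, Function.update_self]
        · rw [Function.update_of_ne hki]
          exact hw k (by simp [hki, hk])
      have h2 := hS i (Equiv.swap (b i) (w i)) _ h1
      simpa [Function.update_self, Equiv.swap_apply_left, Function.update_idem,
        Function.update_eq_self] using h2
  apply Set.eq_univ_of_forall
  intro w
  exact hfin Finset.univ w (fun i hi => absurd (Finset.mem_univ i) hi)

theorem transport {Ω : Type*} [Finite Ω] (G₀ R₀ : Subgroup (Equiv.Perm Ω)) {K : Type*} [Group K]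
    (hRG : R₀ ≤ G₀) (hiso : Nonempty (R₀ ≃* K))
    (htr : ∀ x y : Ω, ∃ g ∈ R₀, g x = y)
    (hfree : ∀ g ∈ R₀, ∀ x : Ω, g x = x → g = 1)
    (hprim : ∀ B : Set Ω, (∀ g ∈ G₀, ∀ x ∈ B, g x ∈ B → ∀ y ∈ B, g y ∈ B) →
      ∀ x ∈ B, ∀ y ∈ B, x ≠ y → B = Set.univ)
    (hnot2 : ∃ x y x' y' : Ω, x ≠ y ∧ x' ≠ y' ∧ ∀ g ∈ G₀, ¬ (g x = x' ∧ g y = y')) :
    ∃ (n : ℕ) (G R : Subgroup (Equiv.Perm (Fin n))), R ≤ G ∧ Nonempty (↥R ≃* K) ∧
      MulAction.IsPretransitive ↥R (Fin n) ∧ (∀ a : Fin n, MulAction.stabilizer ↥R a = ⊥) ∧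
      MulAction.IsPreprimitive ↥G (Fin n) ∧ ¬ MulAction.IsMultiplyPretransitive ↥G (Fin n) 2 := by
  obtain ⟨φ⟩ : Nonempty (Ω ≃ Fin (Nat.card Ω)) := ⟨Finite.equivFin Ω⟩
  obtain ⟨ψ, hψ⟩ : ∃ ψ : Equiv.Perm Ω →* Equiv.Perm (Fin (Nat.card Ω)),
      ψ = φ.permCongrHom.toMonoidHom := ⟨_, rfl⟩
  have hψa : ∀ (g : Equiv.Perm Ω) (a : Fin (Nat.card Ω)), ψ g a = φ (g (φ.symm a)) := by
    intro g a; rw [hψ]; rfl
  have hψinj : Function.Injective ψ := by rw [hψ]; exact φ.permCongrHom.injective
  have hRtr : MulAction.IsPretransitive ↥(R₀.map ψ) (Fin (Nat.card Ω)) := by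
    constructor
    intro a b
    obtain ⟨g, hg, hgx⟩ := htr (φ.symm a) (φ.symm b)
    refine ⟨⟨ψ g, Subgroup.mem_map_of_mem ψ hg⟩, ?_⟩
    show ψ g a = b
    rw [hψa, hgx, Equiv.apply_symm_apply]
  have hGtr : MulAction.IsPretransitive ↥(G₀.map ψ) (Fin (Nat.card Ω)) := by
    constructor
    intro a b
    obtain ⟨g, hg, hgx⟩ := htr (φ.symm a) (φ.symm b)
    refine ⟨⟨ψ g, Subgroup.mem_map_of_mem ψ (hRG hg)⟩, ?_⟩
    show ψ g a = b
    rw [hψa, hgx, Equiv.apply_symm_apply]
  refine ⟨Nat.card Ω, G₀.map ψ, R₀.map ψ, Subgroup.map_mono hRG, ?_, hRtr, ?_, ?_, ?_⟩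
  · obtain ⟨f⟩ := hiso
    exact ⟨(R₀.equivMapOfInjective ψ hψinj).symm.trans f⟩
  · intro a
    rw [eq_bot_iff]
    rintro ⟨σ, hσ⟩ hstab
    obtain ⟨g, hg, rfl⟩ := Subgroup.mem_map.1 hσ
    have h1 : ψ g a = a := MulAction.mem_stabilizer_iff.1 hstab
    rw [hψa] at h1
    have h2 : g (φ.symm a) = φ.symm a := by
      apply φ.injective; rw [h1, Equiv.apply_symm_apply]
    have h3 := hfree g hg _ h2
    rw [Subgroup.mem_bot]
    apply Subtype.ext
    show ψ g = 1
    rw [h3, map_one]
  · refine { toIsPretransitive := hGtr, isTrivialBlock_of_isBlock := ?_ }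
    intro B hB
    by_cases hsub : B.Subsingleton
    · exact Or.inl hsub
    · right
      rw [Set.not_subsingleton_iff] at hsub
      obtain ⟨a, ha, b, hb, hab⟩ := hsub
      have hblock : ∀ g ∈ G₀, ∀ x ∈ φ ⁻¹' B, g x ∈ φ ⁻¹' B →
          ∀ y ∈ φ ⁻¹' B, g y ∈ φ ⁻¹' B := by
        intro g hg x hx hgx y hy
        obtain ⟨σ, hσ⟩ : ∃ σ : ↥(G₀.map ψ), σ = ⟨ψ g, Subgroup.mem_map_of_mem ψ hg⟩ :=
          ⟨_, rfl⟩
        have hσa : ∀ c : Fin (Nat.card Ω), σ • c = φ (g (φ.symm c)) := by
          intro c; rw [hσ]; exact hψa g c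
        have h1 : σ • B = B :=
          (MulAction.isBlock_iff_smul_eq_of_mem.1 hB) (g := σ) (a := φ x) hx (by
            rw [hσa, Equiv.symm_apply_apply]; exact hgx)
        have h4 : σ • φ y ∈ σ • B := Set.smul_mem_smul_set hy
        rw [h1, hσa, Equiv.symm_apply_apply] at h4
        exact h4
      have h2 := hprim (φ ⁻¹' B) hblock (φ.symm a) (by simpa using ha) (φ.symm b)
        (by simpa using hb) (fun h => hab (φ.symm.injective h))
      apply Set.eq_univ_of_forall
      intro c
      have : φ.symm c ∈ φ ⁻¹' B := by rw [h2]; trivial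
      simpa using this
  · intro h2t
    obtain ⟨x, y, x', y', hxy, hxy', hno⟩ := hnot2
    have key : ∀ {a b c d : Fin (Nat.card Ω)}, a ≠ b → c ≠ d →
        ∃ g : ↥(G₀.map ψ), g • a = c ∧ g • b = d := MulAction.is_two_pretransitive_iff.1 h2t
    obtain ⟨⟨σ, hσ⟩, h1, h2⟩ := @key (φ x) (φ y) (φ x') (φ y')
      (fun h => hxy (φ.injective h)) (fun h => hxy' (φ.injective h))
    obtain ⟨g, hg, rfl⟩ := Subgroup.mem_map.1 hσ
    apply hno g hg
    constructor
    · apply φ.injective
      have : ψ g (φ x) = φ x' := h1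
      rwa [hψa, Equiv.symm_apply_apply] at this
    · apply φ.injective
      have : ψ g (φ y) = φ y' := h2
      rwa [hψa, Equiv.symm_apply_apply] at this

/-- the regular action of `K` on `ι → Fin m` -/
def rho {K : Type*} [Group K] {ι : Type*} (F : ι → Type*) [∀ i, Group (F i)] (m : ℕ)
    (β : ∀ i, F i ≃ Fin m) (e : K ≃* (∀ i, F i)) : K →* Equiv.Perm (ι → Fin m) where
  toFun k := cw (fun i => (β i).symm.trans ((Equiv.mulLeft (e k i)).trans (β i)))
  map_one' := by
    refine Equiv.ext fun x => funext fun i => ?_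
    simp [cw_apply]
  map_mul' k l := by
    refine Equiv.ext fun x => funext fun i => ?_
    simp [cw_apply]

theorem rho_apply {K : Type*} [Group K] {ι : Type*} (F : ι → Type*) [∀ i, Group (F i)] (m : ℕ)
    (β : ∀ i, F i ≃ Fin m) (e : K ≃* (∀ i, F i)) (k : K) (x : ι → Fin m) (i : ι) :
    rho F m β e k x i = β i (e k i * (β i).symm (x i)) := rfl

theorem rho_mem {K : Type*} [Group K] {ι : Type*} (F : ι → Type*) [∀ i, Group (F i)] (m : ℕ)
    (β : ∀ i, F i ≃ Fin m) (e : K ≃* (∀ i, F i)) (k : K) :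
    rho F m β e k ∈ Ham ι m :=
  cw_mem (fun i => (β i).symm.trans ((Equiv.mulLeft (e k i)).trans (β i)))

theorem rho_free {K : Type*} [Group K] {ι : Type*} (F : ι → Type*) [∀ i, Group (F i)] (m : ℕ)
    (β : ∀ i, F i ≃ Fin m) (e : K ≃* (∀ i, F i)) (k : K) (x : ι → Fin m)
    (h : rho F m β e k x = x) : k = 1 := by
  have h1 : e k = 1 := by
    funext i
    have h2 := congrFun h i
    rw [rho_apply] at h2
    have h3 : e k i * (β i).symm (x i) = (β i).symm (x i) := by
      apply (β i).injective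
      rw [Equiv.apply_symm_apply]
      exact h2
    exact mul_right_cancel (h3.trans (one_mul _).symm)
  exact e.injective (by rw [h1, map_one])

theorem rho_inj {K : Type*} [Group K] {ι : Type*} (F : ι → Type*) [∀ i, Group (F i)] (m : ℕ)
    (β : ∀ i, F i ≃ Fin m) (e : K ≃* (∀ i, F i)) : Function.Injective (rho F m β e) := by
  refine (injective_iff_map_eq_one _).2 fun k hk => ?_
  exact rho_free F m β e k (fun j => β j 1) (by rw [hk]; rfl)

theorem rho_trans {K : Type*} [Group K] {ι : Type*} (F : ι → Type*) [∀ i, Group (F i)] (m : ℕ)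
    (β : ∀ i, F i ≃ Fin m) (e : K ≃* (∀ i, F i)) (x y : ι → Fin m) :
    ∃ g ∈ (rho F m β e).range, g x = y := by
  refine ⟨rho F m β e (e.symm (fun i => (β i).symm (y i) * ((β i).symm (x i))⁻¹)),
    ⟨_, rfl⟩, funext fun i => ?_⟩
  rw [rho_apply, MulEquiv.apply_symm_apply]
  simp

/-- Let K be a finite group isomorphic to a direct product of r ≥ 2 groups all of the same order m ≥ 3. Then K is not a B-group: there is a primitive but not doubly transitive permutation group (on some finite set) containing a regular subgroup isomorphic to K. -/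
theorem result {K : Type*} [Group K] [Finite K] {ι : Type*} [Fintype ι] (F : ι → Type*) [∀ i, Group (F i)]
    (hr : 2 ≤ Fintype.card ι) (m : ℕ) (hm : 3 ≤ m) (hcard : ∀ i, Nat.card (F i) = m) (e : K ≃* (∀ i, F i)) :
    ∃ (n : ℕ) (G R : Subgroup (Equiv.Perm (Fin n))), R ≤ G ∧ Nonempty (↥R ≃* K) ∧
      MulAction.IsPretransitive ↥R (Fin n) ∧ (∀ a : Fin n, MulAction.stabilizer ↥R a = ⊥) ∧
      MulAction.IsPreprimitive ↥G (Fin n) ∧ ¬ MulAction.IsMultiplyPretransitive ↥G (Fin n) 2 := by
  classical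
  have hβ : ∀ i, Nonempty (F i ≃ Fin m) := fun i => by
    haveI : Finite (F i) := Nat.finite_of_card_ne_zero (by rw [hcard i]; omega)
    exact ⟨Finite.equivFinOfCardEq (hcard i)⟩
  obtain ⟨β⟩ : Nonempty (∀ i, F i ≃ Fin m) := ⟨fun i => Classical.choice (hβ i)⟩
  refine transport (Ham ι m) (rho F m β e).range ?_ ?_ ?_ ?_ ?_ ?_
  · rintro _ ⟨k, rfl⟩
    exact rho_mem F m β e k
  · exact ⟨(MonoidHom.ofInjective (rho_inj F m β e)).symm⟩
  · intro x y
    exact rho_trans F m β e x y
  · rintro _ ⟨k, rfl⟩ x hx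
    rw [rho_free F m β e k x hx, map_one]
  · intro B hB x hx y hy hxy
    exact ham_prim m hm B hB x y hx hy hxy
  · obtain ⟨i₁, i₂, h12⟩ := Fintype.one_lt_card_iff.1 (by omega : 1 < Fintype.card ι)
    obtain ⟨v₀, v₁, hv⟩ : ∃ v₀ v₁ : Fin m, v₀ ≠ v₁ := ⟨⟨0, by omega⟩, ⟨1, by omega⟩, by simp⟩
    obtain ⟨x, hx⟩ : ∃ x : ι → Fin m, x = fun _ => v₀ := ⟨_, rfl⟩
    have hxi : ∀ i, x i = v₀ := fun i => by rw [hx]
    refine ⟨x, Function.update x i₁ v₁, x, Function.update (Function.update x i₁ v₁) i₂ v₁,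
      ?_, ?_, ?_⟩
    · intro h
      have h1 := congrFun h i₁
      rw [Function.update_self, hxi] at h1
      exact hv h1
    · intro h
      have h1 := congrFun h i₂
      rw [Function.update_self, hxi] at h1
      exact hv h1
    · rintro g hg ⟨h1, h2⟩
      have hadj : Adj x (Function.update x i₁ v₁) := by
        refine ⟨i₁, ?_, fun j hj => ?_⟩
        · rw [Function.update_self, hxi]; exact hv
        · rw [Function.update_of_ne hj]
      have h3 := ((mem_Ham g).1 hg x (Function.update x i₁ v₁)).2 hadj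
      rw [h1, h2] at h3
      obtain ⟨i, hi, hj⟩ := h3
      by_cases hi2 : i₂ = i
      · have h4 := hj i₁ (fun h => h12 (h.trans hi2.symm))
        rw [Function.update_of_ne h12, Function.update_self, hxi] at h4
        exact hv h4
      · have h4 := hj i₂ hi2
        rw [Function.update_self, hxi] at h4
        exact hv h4

end Cfsg.Agent.S3560
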