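import Cfsg.Statements.S3619
import Mathlib

set_option autoImplicit false
open Cfsg

namespace Cfsg.Agent.S3619

open MulAction
open scoped Pointwise

/-- Let G act faithfully on a finite set in such a way that every non-trivial normal subgroup of G is transitive (G is quasiprimitive). Let Γ be a subset with more than one point and not the whole set, such that the pointwise stabilizer of the complement of Γ acts transitively on Γ (a Jordan set). If that pointwise stabilizer acts primitively on Γ, then G is k-fold transitive where k is one more than the number of points outside Γ (the Jordan set is a trivial one). -/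
theorem result {G Ω : Type*} [Group G] [Finite G] [MulAction G Ω] [FaithfulSMul G Ω] [Finite Ω]
    (hqp : ∀ N : Subgroup G, N.Normal → N ≠ ⊥ → MulAction.IsPretransitive ↥N Ω)
    (Γ : Set Ω) (hΓ1 : 1 < Γ.ncard) (hΓ2 : Γ.ncard < Nat.card Ω)
    (hJ : MulAction.IsPretransitive ↥(fixingSubgroup G Γᶜ) ↥(SubMulAction.ofFixingSubgroup G Γᶜ))
    (hJp : MulAction.IsPreprimitive ↥(fixingSubgroup G Γᶜ) ↥(SubMulAction.ofFixingSubgroup G Γᶜ)) :
    MulAction.IsMultiplyPretransitive G Ω (Nat.card Ω - Γ.ncard + 1) := by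
  classical
  obtain ⟨γ₁, γ₂, hγ₁, hγ₂, hne⟩ := (Set.one_lt_ncard_iff (Set.toFinite Γ)).mp hΓ1
  have hmemΓ : ∀ ω : Ω, ω ∈ SubMulAction.ofFixingSubgroup G Γᶜ ↔ ω ∈ Γ := by
    intro ω
    rw [SubMulAction.mem_ofFixingSubgroup_iff]
    simp
  -- transitivity of K on Γ
  have htr : ∀ γ ∈ Γ, ∀ γ' ∈ Γ, ∃ k ∈ fixingSubgroup G Γᶜ, k • γ = γ' := by
    intro γ hγ γ' hγ'
    obtain ⟨k, hk⟩ := MulAction.exists_smul_eq (fixingSubgroup G Γᶜ)
      (⟨γ, (hmemΓ γ).mpr hγ⟩ : SubMulAction.ofFixingSubgroup G Γᶜ) ⟨γ', (hmemΓ γ').mpr hγ'⟩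
    exact ⟨k.1, k.2, congrArg Subtype.val hk⟩
  have hfix : ∀ k ∈ fixingSubgroup G Γᶜ, ∀ ω, ω ∉ Γ → k • ω = ω := by
    intro k hk ω hω
    exact (mem_fixingSubgroup_iff G).mp hk ω hω
  have hKΓ : ∀ k ∈ fixingSubgroup G Γᶜ, ∀ γ ∈ Γ, k • γ ∈ Γ := by
    intro k hk γ hγ
    have := ((⟨k, hk⟩ : fixingSubgroup G Γᶜ) •
      (⟨γ, (hmemΓ γ).mpr hγ⟩ : SubMulAction.ofFixingSubgroup G Γᶜ)).2
    exact (hmemΓ _).mp this
  have hKne : fixingSubgroup G Γᶜ ≠ ⊥ := by
    intro h
    obtain ⟨k, hk, hk'⟩ := htr γ₁ hγ₁ γ₂ hγ₂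
    rw [h, Subgroup.mem_bot] at hk
    rw [hk, one_smul] at hk'
    exact hne hk'
  -- G is transitive
  have htop : (⊤ : Subgroup G) ≠ ⊥ := by
    intro h
    exact hKne (le_bot_iff.mp (h ▸ le_top))
  have hGtr : IsPretransitive G Ω := by
    have h1 := hqp ⊤ inferInstance htop
    constructor
    intro x y
    obtain ⟨g, hg⟩ := h1.exists_smul_eq x y
    exact ⟨g.1, hg⟩
  -- blocks meeting Γ are trivial
  have hblock : ∀ B : Set Ω, IsBlock G B → ∀ γ ∈ Γ, γ ∈ B → IsTrivialBlock B := by
    intro B hB γ hγ hγB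
    have hD : IsBlock ↥(fixingSubgroup G Γᶜ)
        (Subtype.val ⁻¹' B : Set ↥(SubMulAction.ofFixingSubgroup G Γᶜ)) :=
      (hB.subgroup (H := fixingSubgroup G Γᶜ)).subtype_val_preimage
    have hBmem := isBlock_iff_smul_eq_of_mem.mp hB
    rcases hJp.isTrivialBlock_of_isBlock hD with hsub | huniv
    · -- B is a singleton
      left
      have key : ∀ β ∈ B, β = γ := by
        intro β hβ
        by_contra hβγ
        have hβΓ : β ∉ Γ := by
          intro hβΓ
          apply hβγ
          have := @hsub ⟨β, (hmemΓ β).mpr hβΓ⟩ hβ ⟨γ, (hmemΓ γ).mpr hγ⟩ hγB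
          exact congrArg Subtype.val this
        obtain ⟨γ', hγ', hγ'ne⟩ : ∃ γ' ∈ Γ, γ' ≠ γ := by
          by_cases h : γ₁ = γ
          · exact ⟨γ₂, hγ₂, fun h2 => hne (h.trans h2.symm)⟩
          · exact ⟨γ₁, hγ₁, h⟩
        obtain ⟨k, hk, hkγ⟩ := htr γ hγ γ' hγ'
        have hkB : k • B = B := hBmem hβ (by rw [hfix k hk β hβΓ]; exact hβ)
        have hγ'B : γ' ∈ B := by
          rw [← hkB, ← hkγ]
          exact Set.smul_mem_smul_set hγB
        apply hγ'ne
        have := @hsub ⟨γ', (hmemΓ γ').mpr hγ'⟩ hγ'B ⟨γ, (hmemΓ γ).mpr hγ⟩ hγB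
        exact congrArg Subtype.val this
      intro a ha b hb
      rw [key a ha, key b hb]
    · -- Γ ⊆ B, so B is everything
      right
      have hΓB : Γ ⊆ B := by
        intro ω hω
        have : (⟨ω, (hmemΓ ω).mpr hω⟩ : SubMulAction.ofFixingSubgroup G Γᶜ) ∈
            (Subtype.val ⁻¹' B : Set ↥(SubMulAction.ofFixingSubgroup G Γᶜ)) := by
          rw [huniv]; trivial
        exact this
      have hKB : ∀ k ∈ fixingSubgroup G Γᶜ, k • B = B := by
        intro k hk
        exact hBmem hγB (hΓB (hKΓ k hk γ hγ))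
      -- the kernel of the action on the translates of B
      have hKS : fixingSubgroup G Γᶜ ≤ ⨅ g : G, stabilizer G (g • B) := by
        intro k hk
        rw [Subgroup.mem_iInf]
        intro g
        rw [mem_stabilizer_iff]
        by_cases hsub : g • B ⊆ Γ
        · have h1 : g • B = B := by
            have h2 : g • B ⊆ (1 : G) • B := by rw [one_smul]; exact hsub.trans hΓB
            have h3 := hB.smul_eq_smul_of_subset h2
            rwa [one_smul] at h3
          rw [h1]; exact hKB k hk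
        · obtain ⟨ω, hω, hωΓ⟩ := Set.not_subset.mp hsub
          have hgB : IsBlock G (g • B) := hB.translate g
          exact (isBlock_iff_smul_eq_of_mem.mp hgB) hω (by rw [hfix k hk ω hωΓ]; exact hω)
      have hSn : (⨅ g : G, stabilizer G (g • B)).Normal := by
        constructor
        intro s hs h
        rw [Subgroup.mem_iInf] at hs ⊢
        intro g
        rw [mem_stabilizer_iff]
        have h1 := hs (h⁻¹ * g)
        rw [mem_stabilizer_iff] at h1
        calc (h * s * h⁻¹) • g • B = h • s • (h⁻¹ * g) • B := by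
              simp only [mul_smul]
          _ = h • (h⁻¹ * g) • B := by rw [h1]
          _ = g • B := by rw [← mul_smul, mul_inv_cancel_left]
      have hSne : (⨅ g : G, stabilizer G (g • B)) ≠ ⊥ := by
        intro h
        exact hKne (le_bot_iff.mp (h ▸ hKS))
      have hStr := hqp _ hSn hSne
      apply Set.eq_univ_of_forall
      intro ω
      obtain ⟨s, hs⟩ := hStr.exists_smul_eq γ ω
      have h1 := (Subgroup.mem_iInf.mp s.2) 1
      rw [mem_stabilizer_iff, one_smul] at h1
      have h2 : (s : G) • γ ∈ (s : G) • B := Set.smul_mem_smul_set hγB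
      rw [h1] at h2
      have hs' : (s : G) • γ = ω := hs
      rw [hs'] at h2
      exact h2
  have hprim : IsPreprimitive G Ω := by
    refine { toIsPretransitive := hGtr, isTrivialBlock_of_isBlock := ?_ }
    intro B hB
    rcases B.eq_empty_or_nonempty with rfl | ⟨b, hb⟩
    · left; exact Set.subsingleton_empty
    · obtain ⟨g, hg⟩ := hGtr.exists_smul_eq b γ₁
      have h1 := hblock (g • B) (hB.translate g) γ₁ hγ₁ (by rw [← hg]; exact Set.smul_mem_smul_set hb)
      exact (IsTrivialBlock.smul_iff g).mp h1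
  -- Jordan's theorem
  have hc : Γᶜ.ncard = Nat.card Ω - Γ.ncard := Set.ncard_compl Γ
  obtain ⟨n, hn⟩ : ∃ n, Nat.card Ω - Γ.ncard = n + 1 := ⟨Nat.card Ω - Γ.ncard - 1, by omega⟩
  have hres := hprim.isMultiplyPreprimitive (s := Γᶜ) (n := n) (by rw [hc, hn]) (by omega) hJp
  have e : Nat.card Ω - Γ.ncard + 1 = n + 2 := by omega
  rw [e]
  exact IsMultiplyPreprimitive.isMultiplyPretransitive G Ω (n + 2)

end Cfsg.Agent.S3619
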