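import Cfsg.Statements.S3683
import Mathlib

set_option autoImplicit false
open Cfsg

namespace Cfsg.Agent.S3683

/-- Let a finite group G act faithfully and primitively on a set Ω, and suppose the stabilizer of a point a fixes a second point b ≠ a (a suborbit of length 1 other than {a}). Then the stabilizer of a is trivial and G is cyclic of prime order. -/
theorem result {G Ω : Type*} [Group G] [Finite G] [MulAction G Ω] [FaithfulSMul G Ω] [Finite Ω]
    (hprim : MulAction.IsPreprimitive G Ω) (a b : Ω) (hab : a ≠ b) (hfix : ∀ g : G, g • a = a → g • b = b) :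
    MulAction.stabilizer G a = ⊥ ∧ IsCyclic G ∧ (Nat.card G).Prime := by
  have hnΩ : Nontrivial Ω := ⟨⟨a, b, hab⟩⟩
  have hco : IsCoatom (MulAction.stabilizer G a) :=
    MulAction.IsPreprimitive.isCoatom_stabilizer_of_isPreprimitive (G := G) a
  have htr : MulAction.IsPretransitive G Ω := hprim.toIsPretransitive
  obtain ⟨g, hg⟩ := MulAction.exists_smul_eq G a b
  have hb : MulAction.stabilizer G b
      = (MulAction.stabilizer G a).map (MulAut.conj g).toMonoidHom := by
    rw [← hg, MulAction.stabilizer_smul_eq_stabilizer_map_conj]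
  have hle : MulAction.stabilizer G a ≤ MulAction.stabilizer G b := fun x hx => hfix x hx
  have heq : MulAction.stabilizer G a = MulAction.stabilizer G b := by
    apply Subgroup.eq_of_le_of_card_ge hle
    rw [hb]
    exact le_of_eq (Subgroup.card_map_of_injective (MulAut.conj g).injective)
  have hgN : g ∈ Subgroup.normalizer (MulAction.stabilizer G a : Set G) := by
    rw [Subgroup.mem_normalizer_iff_map_conj_eq]
    exact (hb.symm.trans heq.symm)
  have hgS : g ∉ MulAction.stabilizer G a := by
    intro h
    rw [MulAction.mem_stabilizer_iff] at h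
    exact hab (h.symm.trans hg)
  have hNtop : Subgroup.normalizer (MulAction.stabilizer G a : Set G) = ⊤ := by
    apply hco.2
    exact lt_of_le_of_ne Subgroup.le_normalizer (fun h => hgS (h ▸ hgN))
  have hbot : MulAction.stabilizer G a = ⊥ := by
    rw [eq_bot_iff]
    intro x hx
    rw [Subgroup.mem_bot]
    apply FaithfulSMul.eq_of_smul_eq_smul (α := Ω)
    intro c
    rw [one_smul]
    obtain ⟨k, rfl⟩ := MulAction.exists_smul_eq G a c
    have hk : k⁻¹ ∈ Subgroup.normalizer (MulAction.stabilizer G a : Set G) := by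
      rw [hNtop]; trivial
    have h1 : k⁻¹ * x * k⁻¹⁻¹ ∈ MulAction.stabilizer G a :=
      (Subgroup.mem_normalizer_iff.mp hk x).mp hx
    rw [inv_inv, MulAction.mem_stabilizer_iff, mul_smul, mul_smul] at h1
    have h2 := congrArg (fun z => k • z) h1
    simpa using h2
  refine ⟨hbot, ?_⟩
  rw [hbot] at hco
  have hg1 : g ≠ 1 := by
    rintro rfl
    rw [one_smul] at hg
    exact hab hg
  have hnt : Nontrivial G := ⟨⟨g, 1, hg1⟩⟩
  have hcard : 1 < Nat.card G := Finite.one_lt_card
  obtain ⟨p, hp, hpd⟩ := Nat.exists_prime_and_dvd (ne_of_gt hcard)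
  have hpf : Fact p.Prime := ⟨hp⟩
  obtain ⟨x, hx⟩ := exists_prime_orderOf_dvd_card' p hpd
  have hz : Subgroup.zpowers x = ⊤ := by
    apply hco.2
    rw [bot_lt_iff_ne_bot]
    intro h
    rw [Subgroup.zpowers_eq_bot] at h
    rw [h, orderOf_one] at hx
    exact hp.one_lt.ne hx
  constructor
  · exact ⟨⟨x, fun y => by
      have : y ∈ Subgroup.zpowers x := by rw [hz]; trivial
      exact this⟩⟩
  · have : Nat.card G = p := by
      rw [← hx, ← Nat.card_zpowers, hz]
      exact Subgroup.card_top.symm
    rw [this]
    exact hp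

end Cfsg.Agent.S3683
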