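import Cfsg.Statements.S3703
import Cfsg.Agent.Lib.Helper2.FrobSplit
import Cfsg.Agent.Lib.Lead.CoprimeSylow
import Cfsg.Agent.Lib.Lead.Frob2
import Cfsg.Agent.Lib.Lead.Hall
import Cfsg.Agent.S0045

set_option autoImplicit false
open Cfsg

namespace Cfsg.Agent.S3703

universe u

open scoped Pointwise

theorem frob_fpf {Q : Type*} [Group Q] (Fb Hb : Subgroup Q) (hHb : Cfsg.IsFrobeniusComplement Hb)
    (hker : Cfsg.frobeniusKernel Hb = (Fb : Set Q)) (g f : Q) (hg : g ∉ Fb) (hf : f ∈ Fb)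
    (hcomm : g * f * g⁻¹ = f) : f = 1 := by
  by_contra hf1
  have hgk : g ∉ Cfsg.frobeniusKernel Hb := by rw [hker]; exact hg
  have hfk : f ∈ Cfsg.frobeniusKernel Hb := by rw [hker]; exact hf
  rw [Cfsg.Agent.Lib.Lead.frob_mem_kernel_iff] at hgk hfk
  push_neg at hgk
  obtain ⟨hg1, a, ha⟩ := hgk
  rcases hfk with h | h
  · exact hf1 h
  · have hx1 : a⁻¹ * g * a ≠ 1 := by
      intro h1; apply hg1
      have h2 : g = a * (a⁻¹ * g * a) * a⁻¹ := by group
      rw [h2, h1]; group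
    have hfg : f⁻¹ * g * f = g := by
      have h2 : g * f = f * g := by
        calc g * f = g * f * g⁻¹ * g := by group
          _ = f * g := by rw [hcomm]
      calc f⁻¹ * g * f = f⁻¹ * (g * f) := by group
        _ = f⁻¹ * (f * g) := by rw [h2]
        _ = g := by group
    have h2 : (a⁻¹ * f * a)⁻¹ * (a⁻¹ * g * a) * (a⁻¹ * f * a) ∈ Hb := by
      have h3 : (a⁻¹ * f * a)⁻¹ * (a⁻¹ * g * a) * (a⁻¹ * f * a) = a⁻¹ * (f⁻¹ * g * f) * a := by
        group
      rw [h3, hfg]; exact ha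
    exact h a (Cfsg.Agent.Lib.Lead.frob_TI Hb hHb (a⁻¹ * f * a) (a⁻¹ * g * a) ha hx1 h2)

theorem frob_coset {Q : Type*} [Group Q] [Finite Q] (Fb Hb : Subgroup Q) [hFn : Fb.Normal]
    (hHb : Cfsg.IsFrobeniusComplement Hb) (hker : Cfsg.frobeniusKernel Hb = (Fb : Set Q)) (h : Q)
    (hgen : Subgroup.zpowers h = Hb) (k : Q) (hk : k * h⁻¹ ∈ Fb) :
    orderOf k = Nat.card Hb ∧ ∀ i : ℕ, ¬ (Nat.card Hb ∣ i) → k ^ i ∉ Fb := by
  have hc : Nat.card Hb = orderOf h := by rw [← hgen, Nat.card_zpowers]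
  have hhHb : h ∈ Hb := hgen ▸ Subgroup.mem_zpowers h
  have hπ : (QuotientGroup.mk k : Q ⧸ Fb) = QuotientGroup.mk h := by
    apply QuotientGroup.eq.mpr
    have h1 : h⁻¹ * (k * h⁻¹) * h⁻¹⁻¹ ∈ Fb := hFn.conj_mem _ hk h⁻¹
    have h2 : k⁻¹ * h = (h⁻¹ * (k * h⁻¹) * h⁻¹⁻¹)⁻¹ := by group
    rw [h2]; exact Fb.inv_mem h1
  have hpow : ∀ i : ℕ, k ^ i ∈ Fb → h ^ i = 1 := by
    intro i hi
    have h1 : h ^ i ∈ Fb := by
      rw [← QuotientGroup.eq_one_iff] at hi ⊢
      rw [QuotientGroup.mk_pow] at hi ⊢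
      rw [← hπ]; exact hi
    have h2 : h ^ i ∈ Cfsg.frobeniusKernel Hb := by rw [hker]; exact h1
    rw [Cfsg.Agent.Lib.Lead.frob_mem_kernel_iff] at h2
    rcases h2 with h2 | h2
    · exact h2
    · exfalso
      apply h2 1
      simpa using Hb.pow_mem hhHb i
  have hsecond : ∀ i : ℕ, ¬ (Nat.card Hb ∣ i) → k ^ i ∉ Fb := by
    intro i hi hki
    apply hi
    rw [hc]
    exact orderOf_dvd_of_pow_eq_one (hpow i hki)
  refine ⟨?_, hsecond⟩
  have hc2 : 2 ≤ Nat.card Hb := by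
    haveI : Nontrivial Hb := (Subgroup.nontrivial_iff_ne_bot Hb).mpr hHb.1
    exact Finite.one_lt_card
  have hkF : k ∉ Fb := by
    have h1 := hsecond 1 (by intro h1; have := Nat.le_of_dvd (by omega) h1; omega)
    rwa [pow_one] at h1
  have hkk : k ∉ Cfsg.frobeniusKernel Hb := by rw [hker]; exact hkF
  rw [Cfsg.Agent.Lib.Lead.frob_mem_kernel_iff] at hkk
  push_neg at hkk
  obtain ⟨-, a, ha⟩ := hkk
  have h1 : (a⁻¹ * k * a) ^ Nat.card Hb = 1 := by
    have h2 := pow_card_eq_one' (G := Hb) (x := ⟨_, ha⟩)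
    exact congrArg Subtype.val h2
  have h2 : k ^ Nat.card Hb = 1 := by
    have h3 : (a⁻¹ * k * a) ^ Nat.card Hb = a⁻¹ * k ^ Nat.card Hb * a := by
      have h4 := conj_pow (a := a⁻¹) (b := k) (i := Nat.card Hb)
      rw [inv_inv] at h4
      exact h4
    rw [h3] at h1
    have h5 : k ^ Nat.card Hb = a * (a⁻¹ * k ^ Nat.card Hb * a) * a⁻¹ := by group
    rw [h5, h1]; group
  apply Nat.dvd_antisymm (orderOf_dvd_of_pow_eq_one h2)
  by_contra hnd
  apply hsecond _ hnd
  rw [pow_orderOf_eq_one]; exact Fb.one_mem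

theorem done_if {G : Type*} [Group G] [Finite G] (N : Subgroup G) [N.Normal] (c : ℕ) (hc : 0 < c)
    (g : G) (hg : orderOf (QuotientGroup.mk' N g) = c) (hgc : g ^ c ≠ 1) :
    ∃ p : ℕ, p.Prime ∧ p ∣ Nat.card N ∧ ∃ g' : G, orderOf g' = p * c := by
  have htN : g ^ c ∈ N := by
    rw [← QuotientGroup.eq_one_iff, QuotientGroup.mk_pow]
    have h1 : (QuotientGroup.mk' N g) ^ c = 1 := by rw [← hg]; exact pow_orderOf_eq_one _
    exact h1
  have hcdvd : c ∣ orderOf g := by rw [← hg]; exact orderOf_map_dvd _ g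
  obtain ⟨m, hm⟩ := hcdvd
  have hm0 : 0 < m := by
    rcases Nat.eq_zero_or_pos m with h | h
    · rw [h, mul_zero] at hm; exact absurd hm (orderOf_pos g).ne'
    · exact h
  have hord : orderOf (g ^ c) = m := by
    rw [orderOf_pow_of_dvd hc.ne' ⟨m, hm⟩, hm, Nat.mul_div_cancel_left m hc]
  have hm1 : m ≠ 1 := by
    intro h; rw [h, orderOf_eq_one_iff] at hord; exact hgc hord
  obtain ⟨p, hp, hpm⟩ := Nat.exists_prime_and_dvd hm1
  refine ⟨p, hp, ?_, g ^ (m / p), ?_⟩
  · have h1 : orderOf (⟨g ^ c, htN⟩ : N) ∣ Nat.card N := orderOf_dvd_natCard _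
    rw [Subgroup.orderOf_mk, hord] at h1
    exact hpm.trans h1
  · have hpos : 0 < m / p := Nat.div_pos (Nat.le_of_dvd hm0 hpm) hp.pos
    rw [orderOf_pow_of_dvd hpos.ne' ((Nat.div_dvd_of_dvd hpm).trans ⟨c, by rw [hm, mul_comm]⟩), hm]
    obtain ⟨q, rfl⟩ := hpm
    rw [Nat.mul_div_cancel_left q hp.pos]
    have hq : 0 < q := by
      rcases Nat.eq_zero_or_pos q with h | h
      · rw [h, mul_zero] at hm0; omega
      · exact h
    rw [show c * (p * q) = (p * c) * q by ring, Nat.mul_div_cancel _ hq]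

theorem result {G : Type*} [Group G] [Finite G] (N : Subgroup G) [N.Normal]
    (Fb Hb : Subgroup (G ⧸ N)) [Fb.Normal] (hHb : Cfsg.IsFrobeniusComplement Hb) (hker : Cfsg.frobeniusKernel Hb = (Fb : Set (G ⧸ N)))
    (hcyc : IsCyclic Hb) (hcop : (Nat.card Fb).Coprime (Nat.card N))
    (hnot : ¬ Fb ≤ (Subgroup.centralizer (N : Set G)).map (QuotientGroup.mk' N)) :
    ∃ p : ℕ, p.Prime ∧ p ∣ Nat.card N ∧ ∃ g : G, orderOf g = p * Nat.card Hb := by
  classical
  obtain ⟨c, hcdef⟩ : ∃ c, c = Nat.card Hb := ⟨_, rfl⟩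
  rw [← hcdef]
  have hc2 : 2 ≤ c := by
    rw [hcdef]
    haveI : Nontrivial Hb := (Subgroup.nontrivial_iff_ne_bot Hb).mpr hHb.1
    exact Finite.one_lt_card
  by_contra hcon
  have hdia : ∀ g : G, orderOf (QuotientGroup.mk' N g) = c → g ^ c = 1 := by
    intro g hg
    by_contra hgc
    exact hcon (done_if N c (by omega) g hg hgc)
  obtain ⟨h, hh⟩ := hcyc.exists_generator
  have hgen : Subgroup.zpowers (h : G ⧸ N) = Hb := by
    ext x; constructor
    · intro hx; obtain ⟨i, rfl⟩ := Subgroup.mem_zpowers_iff.mp hx; exact Hb.zpow_mem h.2 i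
    · intro hx; obtain ⟨i, hi⟩ := Subgroup.mem_zpowers_iff.mp (hh ⟨x, hx⟩)
      exact Subgroup.mem_zpowers_iff.mpr ⟨i, by have h1 := congrArg Subtype.val hi; simpa using h1⟩
  obtain ⟨M, hMdef⟩ : ∃ M : Subgroup G, M = Fb.comap (QuotientGroup.mk' N) := ⟨_, rfl⟩
  haveI hMn : M.Normal := by rw [hMdef]; infer_instance
  have hmemM : ∀ x : G, x ∈ M ↔ QuotientGroup.mk' N x ∈ Fb := by
    intro x; rw [hMdef]; exact Subgroup.mem_comap
  have hNM : N ≤ M := by
    intro x hx
    rw [hmemM, QuotientGroup.mk'_apply, (QuotientGroup.eq_one_iff x).mpr hx]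
    exact Fb.one_mem
  have hcardM : Nat.card M = Nat.card N * Nat.card Fb := by
    rw [hMdef]; exact Cfsg.Agent.Lib.Lead.card_comap_mk N Fb
  have hN0 : Nat.card N ≠ 0 := Nat.card_pos.ne'
  have hF0 : Nat.card Fb ≠ 0 := Nat.card_pos.ne'
  have hrN : ∀ r : ℕ, r.Prime → r ∣ Nat.card Fb → ¬ r ∣ Nat.card N := by
    intro r hr h1 h2
    have h3 := Nat.dvd_gcd h1 h2
    rw [hcop] at h3
    exact hr.one_lt.ne' (Nat.dvd_one.mp h3)
  -- (S1)
  have hS1 : ∃ (r : ℕ) (_ : Fact r.Prime) (R0 : Sylow r M), r ∣ Nat.card Fb ∧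
      ¬ ((R0 : Subgroup M).map M.subtype ≤ Subgroup.centralizer (N : Set G)) := by
    by_contra hall
    push_neg at hall
    apply hnot
    obtain ⟨Zb, hZb⟩ : ∃ Zb : Subgroup (G ⧸ N),
        Zb = (Subgroup.centralizer (N : Set G)).map (QuotientGroup.mk' N) ⊓ Fb := ⟨_, rfl⟩
    have hdvd : Nat.card Fb ∣ Nat.card Zb := by
      rw [← Nat.factorization_prime_le_iff_dvd hF0 Nat.card_pos.ne']
      intro r hr
      by_cases hrF : r ∣ Nat.card Fb
      · haveI := Fact.mk hr
        obtain ⟨R0⟩ : Nonempty (Sylow r M) := inferInstance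
        have hcent := hall r ⟨hr⟩ R0 hrF
        have hcardR := Cfsg.Agent.Lib.Lead.card_sylow_map M R0
        have hfac : (Nat.card M).factorization r = (Nat.card Fb).factorization r := by
          rw [hcardM, Nat.factorization_mul hN0 hF0]
          simp [Nat.factorization_eq_zero_of_not_dvd (hrN r hr hrF)]
        rw [hfac] at hcardR
        obtain ⟨R, hRdef⟩ : ∃ R : Subgroup G, R = (R0 : Subgroup M).map M.subtype := ⟨_, rfl⟩
        rw [← hRdef] at hcent hcardR
        have hRM : R ≤ M := hRdef ▸ Subgroup.map_subtype_le _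
        have hcopRN : (Nat.card R).Coprime (Nat.card N) := by
          rw [hcardR]
          exact Nat.Coprime.pow_left _ ((Nat.Prime.coprime_iff_not_dvd hr).mpr (hrN r hr hrF))
        have hdisj : R ⊓ N = ⊥ := disjoint_iff.mp (Subgroup.disjoint_of_coprime_natCard hcopRN)
        let f : R →* Zb := MonoidHom.codRestrict ((QuotientGroup.mk' N).comp R.subtype) Zb
          (fun x => by
            rw [hZb]
            exact ⟨Subgroup.mem_map_of_mem _ (hcent x.2), (hmemM _).mp (hRM x.2)⟩)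
        have hf : Function.Injective f := by
          rw [injective_iff_map_eq_one]
          intro a ha
          have h1 : QuotientGroup.mk' N (a : G) = 1 := congrArg Subtype.val ha
          rw [QuotientGroup.mk'_apply, QuotientGroup.eq_one_iff] at h1
          have h2 : (a : G) ∈ R ⊓ N := ⟨a.2, h1⟩
          rw [hdisj, Subgroup.mem_bot] at h2
          exact Subtype.ext h2
        have h3 := Subgroup.card_dvd_of_injective f hf
        rw [hcardR] at h3
        exact (hr.pow_dvd_iff_le_factorization Nat.card_pos.ne').mp h3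
      · rw [Nat.factorization_eq_zero_of_not_dvd hrF]; exact Nat.zero_le _
    have hle : Zb ≤ Fb := hZb ▸ inf_le_right
    have heq : Zb = Fb := Subgroup.eq_of_le_of_card_ge hle (Nat.le_of_dvd Nat.card_pos hdvd)
    rw [← heq, hZb]; exact inf_le_left
  obtain ⟨r, hrfact, R0, hrF, hRnc⟩ := hS1
  have hr := hrfact.out
  have hcardR := Cfsg.Agent.Lib.Lead.card_sylow_map M R0
  have hFr := Sylow.normalizer_sup_eq_top R0
  obtain ⟨R, hRdef⟩ : ∃ R : Subgroup G, R = (R0 : Subgroup M).map M.subtype := ⟨_, rfl⟩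
  rw [← hRdef] at hRnc hcardR hFr
  have hRM : R ≤ M := hRdef ▸ Subgroup.map_subtype_le _
  have hcopRN : (Nat.card R).Coprime (Nat.card N) := by
    rw [hcardR]
    exact Nat.Coprime.pow_left _ ((Nat.Prime.coprime_iff_not_dvd hr).mpr (hrN r hr hrF))
  have hdisj : R ⊓ N = ⊥ := disjoint_iff.mp (Subgroup.disjoint_of_coprime_natCard hcopRN)
  have hRp : IsPGroup r R := IsPGroup.of_card hcardR
  haveI hRnil : Group.IsNilpotent R := hRp.isNilpotent
  have hsolvR : Group.IsSolvable R := inferInstance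
  have hRnormN : R ≤ Subgroup.normalizer (N : Set G) := by
    rw [Subgroup.normalizer_eq_top_iff.mpr inferInstance]; exact le_top
  -- (S2)
  obtain ⟨g0, hg0⟩ := QuotientGroup.mk'_surjective N (h : G ⧸ N)
  obtain ⟨k0, hk0, m0, hm0, hkm⟩ := Subgroup.mem_sup_of_normal_right.mp
    (hFr ▸ Subgroup.mem_top g0 : g0 ∈ Subgroup.normalizer (R : Set G) ⊔ M)
  have hk0b : QuotientGroup.mk' N k0 * (h : G ⧸ N)⁻¹ ∈ Fb := by
    rw [← hg0, ← hkm, map_mul]
    have h1 : QuotientGroup.mk' N k0 * (QuotientGroup.mk' N k0 * QuotientGroup.mk' N m0)⁻¹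
        = QuotientGroup.mk' N k0 * (QuotientGroup.mk' N m0)⁻¹ * (QuotientGroup.mk' N k0)⁻¹ := by
      group
    rw [h1]
    exact Subgroup.Normal.conj_mem inferInstance _ (Fb.inv_mem ((hmemM _).mp hm0)) _
  -- (S3)
  have hS3 : ∃ (s : ℕ) (_ : Fact s.Prime) (S0 : Sylow s N),
      R ≤ Subgroup.normalizer (((S0 : Subgroup N).map N.subtype : Subgroup G) : Set G) ∧
      ¬ R ≤ Subgroup.centralizer (((S0 : Subgroup N).map N.subtype : Subgroup G) : Set G) := by
    by_contra hall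
    push_neg at hall
    apply hRnc
    rw [Subgroup.le_centralizer_iff]
    obtain ⟨C0, hC0⟩ : ∃ C0 : Subgroup G, C0 = Subgroup.centralizer (R : Set G) ⊓ N := ⟨_, rfl⟩
    have hdvd : Nat.card N ∣ Nat.card C0 := by
      rw [← Nat.factorization_prime_le_iff_dvd hN0 Nat.card_pos.ne']
      intro s hs
      haveI := Fact.mk hs
      obtain ⟨S0, hS0⟩ := Cfsg.Agent.Lib.Lead.exists_invariant_sylow R N hRnormN hcopRN
        (Or.inl hsolvR) s
      have hcent := hall s ⟨hs⟩ S0 hS0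
      have hle : (S0 : Subgroup N).map N.subtype ≤ C0 := by
        rw [hC0]
        exact le_inf (Subgroup.le_centralizer_iff.mp hcent) (Subgroup.map_subtype_le _)
      have h1 := Subgroup.card_dvd_of_le hle
      rw [Cfsg.Agent.Lib.Lead.card_sylow_map N S0] at h1
      exact (hs.pow_dvd_iff_le_factorization Nat.card_pos.ne').mp h1
    have hle : C0 ≤ N := hC0 ▸ inf_le_right
    have heq : C0 = N := Subgroup.eq_of_le_of_card_ge hle (Nat.le_of_dvd Nat.card_pos hdvd)
    rw [← heq, hC0]; exact inf_le_left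
  obtain ⟨s, hsfact, S0, hSinv, hSnc⟩ := hS3
  have hs := hsfact.out
  obtain ⟨S, hSdef⟩ : ∃ S : Subgroup G, S = (S0 : Subgroup N).map N.subtype := ⟨_, rfl⟩
  have hcardS := Cfsg.Agent.Lib.Lead.card_sylow_map N S0
  rw [← hSdef] at hSinv hSnc hcardS
  have hSN : S ≤ N := hSdef ▸ Subgroup.map_subtype_le _
  -- adjust k0
  obtain ⟨S1, hS1def⟩ : ∃ S1 : Sylow s N, S1 = (MulAut.conjNormal k0 : MulAut N) • S0 := ⟨_, rfl⟩
  have hS1map : (S1 : Subgroup N).map N.subtype = MulAut.conj k0 • S := by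
    ext x
    rw [Cfsg.Agent.Lib.Lead.mem_conj_smul, hSdef, hS1def, Sylow.pointwise_smul_def]
    constructor
    · rintro ⟨y, hy, rfl⟩
      rw [SetLike.mem_coe, Subgroup.mem_pointwise_smul_iff_inv_smul_mem] at hy
      refine ⟨_, hy, ?_⟩
      rw [← map_inv, MulAut.smul_def, Subgroup.coe_subtype, MulAut.conjNormal_apply]
      simp
    · rintro ⟨z, hz, hzx⟩
      have hxN : x ∈ N := by
        have h1 : x = k0 * (k0⁻¹ * x * k0) * k0⁻¹ := by group
        rw [h1, ← hzx]
        exact Subgroup.Normal.conj_mem inferInstance _ z.2 _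
      refine ⟨⟨x, hxN⟩, ?_, rfl⟩
      rw [SetLike.mem_coe, Subgroup.mem_pointwise_smul_iff_inv_smul_mem]
      have h2 : (MulAut.conjNormal k0 : MulAut N)⁻¹ • (⟨x, hxN⟩ : N) = z := by
        apply Subtype.ext
        rw [← map_inv, MulAut.smul_def, MulAut.conjNormal_apply]
        simp [← hzx]
      rw [h2]; exact hz
  have hS1inv : R ≤ Subgroup.normalizer (((S1 : Subgroup N).map N.subtype : Subgroup G) : Set G) := by
    rw [hS1map]
    intro a ha
    apply Cfsg.Agent.S0045.mem_normalizer_of_conj_mem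
    intro x hx
    rw [Cfsg.Agent.Lib.Lead.mem_conj_smul] at hx ⊢
    have h1 : k0⁻¹ * a * k0 ∈ R := (Subgroup.mem_normalizer_iff''.mp hk0 a).mp ha
    have h2 := (Subgroup.mem_normalizer_iff.mp (hSinv h1) _).mp hx
    have h3 : k0⁻¹ * (a * x * a⁻¹) * k0 = k0⁻¹ * a * k0 * (k0⁻¹ * x * k0) * (k0⁻¹ * a * k0)⁻¹ := by
      group
    rw [h3]; exact h2
  obtain ⟨n, hnc, hnS⟩ := Cfsg.Agent.Lib.Lead.invariant_sylow_conj R N hRnormN hcopRN
    (Or.inl hsolvR) s S1 S0 hS1inv (hSdef ▸ hSinv)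
  obtain ⟨k, hkdef⟩ : ∃ k : G, k = (n : G) * k0 := ⟨_, rfl⟩
  have hkR : k ∈ Subgroup.normalizer (R : Set G) := by
    rw [hkdef]
    exact Subgroup.mul_mem _ (Subgroup.centralizer_le_normalizer _ hnc) hk0
  have hconjS : MulAut.conj k • S = S := by
    rw [hkdef, map_mul, mul_smul, ← hS1map, ← Cfsg.Agent.Lib.Lead.map_subtype_conj_smul, hSdef]
    have h1 : ((MulAut.conj n • S1 : Sylow s N) : Subgroup N) = MulAut.conj n • (S1 : Subgroup N) :=
      rfl
    rw [← h1, hnS]
  have hkS : k ∈ Subgroup.normalizer (S : Set G) := by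
    apply Cfsg.Agent.S0045.mem_normalizer_of_conj_mem
    intro x hx
    rw [← hconjS, Cfsg.Agent.Lib.Lead.mem_conj_smul]
    have h1 : k⁻¹ * (k * x * k⁻¹) * k = x := by group
    rw [h1]; exact hx
  have hkb : QuotientGroup.mk' N k * (h : G ⧸ N)⁻¹ ∈ Fb := by
    have h1 : QuotientGroup.mk' N k = QuotientGroup.mk' N k0 := by
      rw [hkdef, map_mul, QuotientGroup.mk'_apply, (QuotientGroup.eq_one_iff (n : G)).mpr n.2,
        one_mul]
    rw [h1]; exact hk0b
  obtain ⟨hordk, hkpow⟩ := frob_coset Fb Hb hHb hker (h : G ⧸ N) hgen _ hkb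
  rw [← hcdef] at hordk hkpow
  have hkc : k ^ c = 1 := hdia k hordk
  have hsplitG : ∀ v ∈ N, ((List.range c).map (fun i => k ^ i * v * (k ^ i)⁻¹)).prod = 1 := by
    intro v hv
    have h1 : orderOf (QuotientGroup.mk' N (v * k)) = c := by
      rw [map_mul, QuotientGroup.mk'_apply, (QuotientGroup.eq_one_iff v).mpr hv, one_mul]
      exact hordk
    have h2 := hdia (v * k) h1
    rw [Cfsg.Agent.Lib.Helper2.FrobSplit.mul_pow_eq_prod, hkc, mul_one] at h2
    exact h2
  -- the prime s differs from r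
  have hSne : S ≠ ⊥ := by
    intro h1
    apply hSnc
    rw [h1]
    intro a _
    rw [Subgroup.mem_centralizer_iff]
    intro b hb
    rw [SetLike.mem_coe, Subgroup.mem_bot] at hb
    rw [hb]; simp
  have hsN : s ∣ Nat.card N := by
    by_contra h1
    apply hSne
    rw [Nat.factorization_eq_zero_of_not_dvd h1, pow_zero] at hcardS
    exact Subgroup.card_eq_one.mp hcardS
  have hrs : r ≠ s := fun h1 => hrN r hr hrF (h1 ▸ hsN)
  -- apply the splitting lemma
  have hSp : IsPGroup s (S.subgroupOf (Subgroup.normalizer (S : Set G))) := by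
    have h1 : IsPGroup s S := IsPGroup.of_card hcardS
    exact h1.comap_subtype
  have hFS := Cfsg.Agent.Lib.Helper2.FrobSplit.split_pgroup
    (D := ↥(Subgroup.normalizer (S : Set G)))
    (R.subgroupOf (Subgroup.normalizer (S : Set G))) (⟨k, hkS⟩ : ↥(Subgroup.normalizer (S : Set G)))
    c (by omega)
    (by
      intro f hf
      rw [Subgroup.mem_subgroupOf] at hf ⊢
      exact (Subgroup.mem_normalizer_iff.mp hkR _).mp hf)
    (by
      intro i hi0 hic f hf hcomm
      have hfR : (f : G) ∈ R := Subgroup.mem_subgroupOf.mp hf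
      have h1 : k ^ i * (f : G) * (k ^ i)⁻¹ = f := by
        have h2 := congrArg Subtype.val hcomm
        simpa using h2
      have h2 : (QuotientGroup.mk' N k) ^ i * QuotientGroup.mk' N (f : G)
          * ((QuotientGroup.mk' N k) ^ i)⁻¹ = QuotientGroup.mk' N (f : G) := by
        rw [← map_pow, ← map_mul, ← map_inv, ← map_mul, h1]
      have h3 : QuotientGroup.mk' N (f : G) = 1 :=
        frob_fpf Fb Hb hHb hker _ _
          (hkpow i (by intro h4; have := Nat.le_of_dvd hi0 h4; omega))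
          ((hmemM _).mp (hRM hfR)) h2
      rw [QuotientGroup.mk'_apply, QuotientGroup.eq_one_iff] at h3
      have h4 : (f : G) ∈ R ⊓ N := ⟨hfR, h3⟩
      rw [hdisj, Subgroup.mem_bot] at h4
      exact Subtype.ext h4)
    s
    (by
      rw [Cfsg.Agent.Lib.Lead.card_subgroupOf_of_le hSinv, hcardR]
      exact Nat.Coprime.pow_left _ ((Nat.coprime_primes hr hs).mpr hrs))
    _ (S.subgroupOf (Subgroup.normalizer (S : Set G))) rfl hSp MulAut.conjNormal
    (by
      intro v
      have hinj : Function.Injective ((Subgroup.normalizer (S : Set G)).subtype.comp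
          (S.subgroupOf (Subgroup.normalizer (S : Set G))).subtype) :=
        Subtype.val_injective.comp Subtype.val_injective
      apply hinj
      rw [map_list_prod, List.map_map, map_one]
      have hvN : ((v : ↥(Subgroup.normalizer (S : Set G))) : G) ∈ N :=
        hSN (Subgroup.mem_subgroupOf.mp v.2)
      have h1 := hsplitG _ hvN
      rw [← h1]
      congr 1)
  apply hSnc
  intro a ha
  rw [Subgroup.mem_centralizer_iff]
  intro b hb
  have h1 := hFS ⟨a, hSinv ha⟩ (Subgroup.mem_subgroupOf.mpr ha)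
    ⟨⟨b, Subgroup.le_normalizer hb⟩, Subgroup.mem_subgroupOf.mpr hb⟩
  have h2 : a * b * a⁻¹ = b := by
    have h3 := congrArg (fun x : ↥(S.subgroupOf (Subgroup.normalizer (S : Set G))) =>
      ((x : ↥(Subgroup.normalizer (S : Set G))) : G)) h1
    simpa [MulAut.conjNormal_apply] using h3
  calc b * a = a * b * a⁻¹ * a := by rw [h2]
    _ = a * b := by group

end Cfsg.Agent.S3703
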