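import Cfsg.Statements.S3748
import Cfsg.Agent.Lib.Helper6.Wielandt
import Cfsg.Agent.Lib.Lead.Fitting2

set_option autoImplicit false
open Cfsg

namespace Cfsg.Agent.S3748

open Cfsg.Agent.Lib.Helper6

/-- a primitive subgroup contains no nontrivial subnormal subgroup -/
theorem no_subnormal {G : Type*} [Group G] [Finite G] (M : Subgroup G) (hM : M ≠ ⊤)
    (hprim : ∀ N : Subgroup G, N ≤ M → M ≤ Subgroup.normalizer (N : Set G) → N ≠ ⊥ →
      Subgroup.normalizer (N : Set G) = M) :
    ∀ L : Subgroup G, L.IsSubnormal → L ≤ M → L = ⊥ := by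
  intro L hL hLM
  by_contra hLne
  have htop : (⊤ : Subgroup G) ≠ ⊥ := by
    intro h
    exact hLne (le_bot_iff.mp (h ▸ le_top))
  obtain ⟨A, hAn, hAne, -, hAmin⟩ := exists_min_normal_le (⊤ : Subgroup G) inferInstance htop
  have hN_le : (⨆ m : M, L.map (MulAut.conj (m : G)).toMonoidHom) ≤ M := by
    apply iSup_le
    intro m
    exact cj_le_of_mem m.2 hLM
  have hLN : L ≤ ⨆ m : M, L.map (MulAut.conj (m : G)).toMonoidHom := by
    have := le_iSup (fun m : M => L.map (MulAut.conj (m : G)).toMonoidHom) (1 : M)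
    have e : L.map (MulAut.conj ((1 : M) : G)).toMonoidHom = L := cj_one L
    exact le_of_eq_of_le e.symm this
  have hN_ne : (⨆ m : M, L.map (MulAut.conj (m : G)).toMonoidHom) ≠ ⊥ := by
    intro h
    exact hLne (le_bot_iff.mp (h ▸ hLN))
  have hMN : M ≤ Subgroup.normalizer
      ((⨆ m : M, L.map (MulAut.conj (m : G)).toMonoidHom : Subgroup G) : Set G) := by
    intro m₀ hm₀
    have hle : (⨆ m : M, L.map (MulAut.conj (m : G)).toMonoidHom).map (MulAut.conj m₀).toMonoidHom
        ≤ ⨆ m : M, L.map (MulAut.conj (m : G)).toMonoidHom := by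
      rw [Subgroup.map_iSup]
      apply iSup_le
      intro m
      rw [← cj_mul]
      exact le_iSup (fun m : M => L.map (MulAut.conj (m : G)).toMonoidHom) (⟨m₀, hm₀⟩ * m)
    apply mem_normalizer_of_conj_mem
    intro d hd
    exact hle ⟨d, hd, by simp [MulAut.conj_apply]⟩
  have hAN : A ≤ Subgroup.normalizer
      ((⨆ m : M, L.map (MulAut.conj (m : G)).toMonoidHom : Subgroup G) : Set G) := by
    intro a ha
    rw [mem_normalizer_iff_cj, Subgroup.map_iSup]
    apply iSup_congr
    intro m
    have hsub : (L.map (MulAut.conj (m : G)).toMonoidHom).IsSubnormal :=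
      hL.map (f := (MulAut.conj (m : G)).toMonoidHom) (MulAut.conj (m : G)).surjective
    have := wielandt_min_normal _ A hsub hAn hAmin ha
    rwa [mem_normalizer_iff_cj] at this
  have hNM := hprim _ hN_le hMN hN_ne
  rw [hNM] at hAN
  have hA2 := hprim A hAN (by rw [Subgroup.normalizer_eq_top_iff.mpr hAn]; exact le_top) hAne
  rw [Subgroup.normalizer_eq_top_iff.mpr hAn] at hA2
  exact hM hA2.symm

/-- Call a proper subgroup M of G primitive when M = N_G(N) for every non-trivial normal subgroup N of M. If M is a primitive subgroup of the finite group G, then no non-trivial subnormal subgroup of G is contained in M; in particular M ∩ F(G) = 1. -/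
theorem result {G : Type*} [Group G] [Finite G] (M : Subgroup G) (hM : M ≠ ⊤) (hprim : ∀ N : Subgroup G, N ≤ M → M ≤ Subgroup.normalizer (N : Set G) → N ≠ ⊥ → Subgroup.normalizer (N : Set G) = M) : (∀ L : Subgroup G, L.IsSubnormal → L ≤ M → L = ⊥) ∧ M ⊓ Cfsg.fittingSubgroup G = ⊥ := by
  have h1 := no_subnormal M hM hprim
  refine ⟨h1, ?_⟩
  apply h1 _ _ inf_le_left
  have _ : Group.IsNilpotent (Cfsg.fittingSubgroup G) := Cfsg.Agent.Lib.Lead.fitting_isNilpotent
  have hsub : ((M ⊓ Cfsg.fittingSubgroup G).subgroupOf (Cfsg.fittingSubgroup G)).IsSubnormal :=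
    isSubnormal_of_isNilpotent _ _ rfl
  exact Subgroup.IsSubnormal.trans inf_le_right hsub
    (Cfsg.Agent.Lib.Lead.fitting_normal G).isSubnormal

end Cfsg.Agent.S3748
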