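import Cfsg.Statements.S3749
import Cfsg.Agent.Lib.Lead.CoprimeSylow
import Cfsg.Agent.Lib.Lead.Fitting2
import Cfsg.Agent.Lib.Helper6.Comm
import Cfsg.Agent.Lib.Helper7.CoprimeCount

set_option autoImplicit false
open Pointwise

namespace Cfsg.Agent.S3749

open Cfsg.Agent.Lib Cfsg.Agent.Lib.Helper6 Cfsg.Agent.Lib.Lead

/-- Call a proper subgroup M of G primitive when M = N_G(N) for every non-trivial normal subgroup N of M. Let M be a primitive subgroup of the finite group G, p a prime with O_p(M) ≠ 1, and N a normal subgroup of G with M ∩ N = 1. Then p does not divide the order of N; for every prime q there is exactly one Sylow q-subgroup of N normalized by M; and if the order of N has at least two prime divisors then M is not a maximal subgroup of G. -/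
theorem result {G : Type*} [Group G] [Finite G] (M : Subgroup G) (hM : M ≠ ⊤) (hprim : ∀ N : Subgroup G, N ≤ M → M ≤ Subgroup.normalizer (N : Set G) → N ≠ ⊥ → Subgroup.normalizer (N : Set G) = M) {p : ℕ} [Fact p.Prime] (hOp : Cfsg.pCore p ↥M ≠ ⊥) (N : Subgroup G) [N.Normal] (hMN : M ⊓ N = ⊥) : ¬ p ∣ Nat.card N ∧ (∀ q : ℕ, [Fact q.Prime] → ∃! Q : Sylow q ↥N, M ≤ Subgroup.normalizer ((Q : Subgroup ↥N).map N.subtype : Set G)) ∧ ((∃ q r : ℕ, q.Prime ∧ r.Prime ∧ q ≠ r ∧ q ∣ Nat.card N ∧ r ∣ Nat.card N) → ¬ IsCoatom M) := by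
  classical
  have hp : p.Prime := Fact.out
  set P : Subgroup G := (Cfsg.pCore p ↥M).map M.subtype with hPdef
  have hPM : P ≤ M := Subgroup.map_subtype_le _
  have hPne : P ≠ ⊥ := by
    intro h
    exact hOp ((Subgroup.map_eq_bot_iff_of_injective _ M.subtype_injective).mp h)
  have hPp : IsPGroup p P := (pCore_isPGroup' p).map _
  have hMP : M ≤ Subgroup.normalizer (P : Set G) := by
    intro g hg
    apply mem_normalizer_of_conj_mem
    intro d hd
    obtain ⟨d', hd', rfl⟩ := Subgroup.mem_map.mp hd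
    exact Subgroup.mem_map.mpr ⟨⟨g, hg⟩ * d' * ⟨g, hg⟩⁻¹,
      (pCore_normal p ↥M).conj_mem d' hd' ⟨g, hg⟩, rfl⟩
  have hNP : Subgroup.normalizer (P : Set G) = M := hprim P hPM hMP hPne
  have hdisj : ∀ x : G, x ∈ M → x ∈ N → x = 1 := by
    intro x hxM hxN
    have h2 : x ∈ M ⊓ N := ⟨hxM, hxN⟩
    rw [hMN] at h2
    exact Subgroup.mem_bot.mp h2
  have hCN : ∀ n : G, n ∈ N → n ∈ Subgroup.centralizer (P : Set G) → n = 1 := by
    intro n hn hc
    apply hdisj n _ hn
    rw [← hNP]
    exact Subgroup.centralizer_le_normalizer _ hc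
  have hPN : P ≤ Subgroup.normalizer (N : Set G) := by
    rw [Subgroup.normalizer_eq_top]; exact le_top
  -- part 1
  have h1 : ¬ p ∣ Nat.card N := by
    intro hdvd
    have hmod := Helper7.card_modEq_card_inf_centralizer p P N hPp hPN
    have hbot : N ⊓ Subgroup.centralizer (P : Set G) = ⊥ := by
      rw [eq_bot_iff]
      intro n hn
      exact Subgroup.mem_bot.mpr (hCN n hn.1 hn.2)
    rw [hbot, Subgroup.card_bot] at hmod
    have h2 : Nat.card N % p = 0 := Nat.mod_eq_zero_of_dvd hdvd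
    have h3 : Nat.card N % p = 1 % p := hmod
    rw [h2, Nat.mod_eq_of_lt hp.one_lt] at h3
    exact absurd h3 (by norm_num)
  have hcop : (Nat.card P).Coprime (Nat.card N) := by
    obtain ⟨k, hk⟩ := hPp.exists_card_eq
    rw [hk]
    exact Nat.Coprime.pow_left k ((Nat.Prime.coprime_iff_not_dvd hp).mpr h1)
  have hsolv : Group.IsSolvable P ∨ Group.IsSolvable N := by
    left
    haveI := hPp.isNilpotent
    infer_instance
  -- uniqueness of P-invariant Sylow subgroups
  have huniq : ∀ (q : ℕ) [Fact q.Prime] (Q₁ Q₂ : Sylow q ↥N),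
      P ≤ Subgroup.normalizer ((Q₁ : Subgroup ↥N).map N.subtype : Set G) →
      P ≤ Subgroup.normalizer ((Q₂ : Subgroup ↥N).map N.subtype : Set G) → Q₁ = Q₂ := by
    intro q _ Q₁ Q₂ h1 h2
    obtain ⟨c, hc, hcQ⟩ := invariant_sylow_conj P N hPN hcop hsolv q Q₁ Q₂ h1 h2
    have hc1 : (c : G) = 1 := hCN c c.2 hc
    have hc1' : c = 1 := Subtype.ext hc1
    rw [hc1', map_one, one_smul] at hcQ
    exact hcQ
  have hpart2 : ∀ (q : ℕ) [Fact q.Prime], ∃! Q : Sylow q ↥N,
      M ≤ Subgroup.normalizer ((Q : Subgroup ↥N).map N.subtype : Set G) := by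
    intro q _
    obtain ⟨Q₀, hQ₀⟩ := exists_invariant_sylow P N hPN hcop hsolv q
    refine ⟨Q₀, ?_, ?_⟩
    · intro g hg
      apply mem_normalizer_of_conj_smul_eq
      have hle : MulAut.conj g • (Q₀ : Subgroup ↥N).map N.subtype ≤ N := by
        intro x hx
        rw [mem_conj_smul] at hx
        have h3 := Subgroup.map_subtype_le _ hx
        have h4 := Subgroup.Normal.conj_mem (inferInstance : N.Normal) _ h3 g
        have h5 : g * (g⁻¹ * x * g) * g⁻¹ = x := by group
        rwa [h5] at h4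
      obtain ⟨Q₁, hQ₁⟩ := exists_sylow_map_eq (p := q) N _ hle
        (by rw [card_conj_smul, card_sylow_map])
      have hQ₁P : P ≤ Subgroup.normalizer ((Q₁ : Subgroup ↥N).map N.subtype : Set G) := by
        intro x hx
        apply mem_normalizer_of_conj_smul_eq
        rw [hQ₁, ← mul_smul, ← map_mul]
        have hx' : g⁻¹ * x * g ∈ P := by
          have := (Subgroup.mem_normalizer_iff.mp (Subgroup.inv_mem _ (hMP hg)) x).mp hx
          simpa using this
        have h6 : x * g = g * (g⁻¹ * x * g) := by group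
        rw [h6, map_mul, mul_smul, conj_smul_eq_of_mem_normalizer (hQ₀ hx')]
      have h7 := huniq q Q₁ Q₀ hQ₁P hQ₀
      rw [← hQ₁, h7]
    · intro Q' hQ'
      exact huniq q Q' Q₀ (hPM.trans hQ') hQ₀
  refine ⟨h1, fun q _ => hpart2 q, ?_⟩
  rintro ⟨q, r, hq, hr, hqr, hqN, hrN⟩ hco
  haveI : Fact q.Prime := ⟨hq⟩
  obtain ⟨Q, hQ, -⟩ := hpart2 q
  set Qm : Subgroup G := (Q : Subgroup ↥N).map N.subtype with hQm
  have hQmN : Qm ≤ N := Subgroup.map_subtype_le _
  have hQmcard : Nat.card Qm = q ^ (Nat.card N).factorization q := card_sylow_map N Q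
  have hv : 0 < (Nat.card N).factorization q :=
    Nat.Prime.factorization_pos_of_dvd hq Nat.card_pos.ne' hqN
  have hQm1 : 1 < Nat.card Qm := by
    rw [hQmcard]; exact Nat.one_lt_pow hv.ne' hq.one_lt
  have hQmlt : Nat.card Qm < Nat.card N := by
    rcases lt_or_eq_of_le (Subgroup.card_le_of_le hQmN) with h | h
    · exact h
    · exfalso
      rw [hQmcard] at h
      rw [← h] at hrN
      have := (Nat.prime_dvd_prime_iff_eq hr hq).mp (hr.dvd_of_dvd_pow hrN)
      exact hqr this.symm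
  have hMQ : Qm ⊓ M = ⊥ := by
    rw [eq_bot_iff]
    intro x hx
    exact Subgroup.mem_bot.mpr (hdisj x hx.2 (hQmN hx.1))
  have hcardL : Nat.card ↥(Qm ⊔ M) = Nat.card Qm * Nat.card M := card_sup_of_le_normalizer hQ hMQ
  have hlt : M < Qm ⊔ M := by
    refine lt_of_le_of_ne le_sup_right ?_
    intro h
    have h2 : Nat.card M = Nat.card Qm * Nat.card M := by
      conv_lhs => rw [h]
      exact hcardL
    have h3 : 0 < Nat.card M := Nat.card_pos
    nlinarith
  have htop := hco.2 _ hlt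
  have hcardMN : Nat.card ↥(N ⊔ M) = Nat.card N * Nat.card M :=
    card_sup_of_le_normalizer (by rw [Subgroup.normalizer_eq_top]; exact le_top)
      (by rw [inf_comm]; exact hMN)
  have h8 : Nat.card ↥(N ⊔ M) ≤ Nat.card ↥(Qm ⊔ M) := by
    rw [htop]
    exact Subgroup.card_le_of_le le_top
  rw [hcardMN, hcardL] at h8
  have h3 : 0 < Nat.card M := Nat.card_pos
  nlinarith

end Cfsg.Agent.S3749
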