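import Cfsg.Statements.S3790
import Mathlib
import Cfsg.Agent.Lib.Helper2.PLen5
import Cfsg.Agent.Lib.Lead.Hall
set_option autoImplicit false
open Cfsg

namespace Cfsg.Agent.S3790


open Cfsg.Agent.Lib.Helper2.Comp Cfsg.Agent.Lib.Helper2.PLen5

universe u

theorem main (p : ℕ) [Fact p.Prime] : ∀ (r : ℕ) (q : Fin r → ℕ) (l : Fin r → ℕ),
    (∀ i, (q i).Prime ∧ q i ≠ p) →
    ∀ (G : Type u) [Group G] [Finite G], Group.IsSolvable G →
    (∀ s : ℕ, s.Prime → s ∣ Nat.card G → s ≠ p → ∃ i, q i = s) →
    (∀ i, Cfsg.PLengthLE (q i) (l i) G) →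
    Cfsg.PLengthLE p (Finset.univ.prod fun i => 1 + l i) G := by
  intro r
  induction r with
  | zero =>
    intro q l hq G _ _ hsol hcover hl
    have hp : p.Prime := Fact.out
    rw [Fin.prod_univ_zero]
    apply pLengthLE_one_of_isPGroup
    have hcard : Nat.card G = p ^ (Nat.card G).primeFactorsList.length := by
      apply Nat.eq_prime_pow_of_unique_prime_dvd (Nat.card_pos.ne')
      intro s hs hdvd
      by_contra hne
      obtain ⟨i, -⟩ := hcover s hs hdvd hne
      exact i.elim0
    exact IsPGroup.of_card hcard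
  | succ r ih =>
    intro q l hq G _ _ hsol hcover hl
    obtain ⟨qr, hqr⟩ : ∃ qr, qr = q (Fin.last r) := ⟨_, rfl⟩
    have hqrp : qr.Prime := hqr ▸ (hq (Fin.last r)).1
    have hqrne : qr ≠ p := hqr ▸ (hq (Fin.last r)).2
    haveI : Fact qr.Prime := ⟨hqrp⟩
    obtain ⟨L, hL⟩ : ∃ L, L = Finset.univ.prod (fun i : Fin r => 1 + l i.castSucc) := ⟨_, rfl⟩
    rw [Fin.prod_univ_castSucc, ← hL]
    have H0 : ∀ (K : Type u) [Group K] [Finite K], Group.IsSolvable K →
        (∀ s : ℕ, s.Prime → s ∣ Nat.card K → s ≠ p → ∃ i, q i = s) →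
        (∀ i : Fin r, Cfsg.PLengthLE (q i.castSucc) (l i.castSucc) K) →
        (Nat.card K).Coprime qr → Cfsg.PLengthLE p L K := by
      intro K _ _ hK hcov hlen hcop
      rw [hL]
      apply ih (fun i => q i.castSucc) (fun i => l i.castSucc) (fun i => hq i.castSucc) K hK _ hlen
      intro s hs hdvd hne
      obtain ⟨i, hi⟩ := hcov s hs hdvd hne
      rcases Fin.eq_castSucc_or_eq_last i with ⟨j, rfl⟩ | rfl
      · exact ⟨j, hi⟩
      · exfalso
        exact (Nat.Prime.coprime_iff_not_dvd hqrp).mp hcop.symm (by rw [hqr, hi]; exact hdvd)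
    have inner : ∀ (m : ℕ) (K : Type u) [Group K] [Finite K], Group.IsSolvable K →
        (∀ s : ℕ, s.Prime → s ∣ Nat.card K → s ≠ p → ∃ i, q i = s) →
        (∀ i : Fin r, Cfsg.PLengthLE (q i.castSucc) (l i.castSucc) K) →
        Cfsg.PLengthLE qr m K → Cfsg.PLengthLE p (L * (1 + m)) K := by
      intro m
      induction m with
      | zero =>
        intro K _ _ hK hcov hlen hm
        rw [Nat.add_zero, Nat.mul_one]
        apply H0 K hK hcov hlen
        have h1 : (Cfsg.upperPSeries qr K 1).1 = ⊤ := hm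
        rw [upperPSeries_one] at h1
        have h2 := Cfsg.Agent.Lib.Helper4.pPrimeCore_coprime qr K
        rw [h1, Subgroup.card_top] at h2
        exact h2
      | succ m ihm =>
        intro K _ _ hK hcov hlen hm
        obtain ⟨U1, hU1⟩ : ∃ U1 : Subgroup K, U1 = (Cfsg.upperPSeries qr K 1).1 := ⟨_, rfl⟩
        obtain ⟨U2, hU2⟩ : ∃ U2 : Subgroup K, U2 = (Cfsg.upperPSeries qr K 2).1 := ⟨_, rfl⟩
        haveI hU1n : U1.Normal := hU1 ▸ (Cfsg.upperPSeries qr K 1).2
        haveI hU2n : U2.Normal := hU2 ▸ (Cfsg.upperPSeries qr K 2).2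
        have hU12 : U1 ≤ U2 := by rw [hU1, hU2]; exact upperPSeries_le_succ qr 1
        have hquot : Cfsg.PLengthLE p (L * (1 + m)) (K ⧸ U2) := by
          apply ihm (K ⧸ U2) inferInstance
          · intro s hs hdvd hne
            exact hcov s hs (hdvd.trans (Subgroup.card_quotient_dvd_card U2)) hne
          · intro i
            haveI : Fact (q i.castSucc).Prime := ⟨(hq i.castSucc).1⟩
            exact pLengthLE_quotient _ U2 _ (hlen i)
          · exact pLengthLE_quotient_two qr U2 hU2 m hm
        have hU2len : Cfsg.PLengthLE p (L + 0) ↥U2 := by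
          apply pLengthLE_extension p (U1.subgroupOf U2) L 0
          · apply H0 ↥(U1.subgroupOf U2) inferInstance
            · intro s hs hdvd hne
              exact hcov s hs (hdvd.trans ((Subgroup.card_subgroup_dvd_card _).trans
                (Subgroup.card_subgroup_dvd_card _))) hne
            · intro i
              haveI : Fact (q i.castSucc).Prime := ⟨(hq i.castSucc).1⟩
              exact pLengthLE_normal _ (U1.subgroupOf U2) _ (pLengthLE_normal _ U2 _ (hlen i))
            · rw [Cfsg.Agent.Lib.Lead.card_subgroupOf_of_le hU12, hU1, upperPSeries_one]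
              exact Cfsg.Agent.Lib.Helper4.pPrimeCore_coprime qr K
          · apply pLengthLE_zero_of_coprime
            have hpg : IsPGroup qr (↥U2 ⧸ U1.subgroupOf U2) := by
              intro y
              obtain ⟨x, rfl⟩ := QuotientGroup.mk_surjective y
              have hx : (x : K) ∈ (Cfsg.upperPSeries qr K 2).1 := hU2 ▸ x.2
              rw [upperPSeries_succ_odd qr 1 Nat.not_even_one] at hx
              obtain ⟨k, hk⟩ := pow_mem_of_mem_comap_pCore qr _ hx
              refine ⟨k, ?_⟩
              rw [← QuotientGroup.mk_pow, QuotientGroup.eq_one_iff, Subgroup.mem_subgroupOf,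
                Subgroup.coe_pow, hU1]
              exact hk
            obtain ⟨k, hk⟩ := IsPGroup.iff_card.mp hpg
            rw [hk]
            exact Nat.Coprime.pow_left k ((Nat.coprime_primes hqrp Fact.out).mpr hqrne)
        have h3 := pLengthLE_extension p U2 (L + 0) (L * (1 + m)) hU2len hquot
        have e : L + 0 + L * (1 + m) = L * (1 + (m + 1)) := by ring
        rw [← e]; exact h3
    exact inner (l (Fin.last r)) G hsol hcover (fun i => hl i.castSucc)
      (by rw [hqr]; exact hl (Fin.last r))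
theorem result {G : Type*} [Group G] [Finite G] (hG : Group.IsSolvable G) (p : ℕ) [Fact p.Prime] (r : ℕ) (q : Fin r → ℕ) (hq : ∀ i, (q i).Prime ∧ q i ≠ p) (hinj : Function.Injective q) (hcover : ∀ s : ℕ, s.Prime → s ∣ Nat.card G → s ≠ p → ∃ i, q i = s) (l : Fin r → ℕ) (hl : ∀ i, Cfsg.PLengthLE (q i) (l i) G) : Cfsg.PLengthLE p (Finset.univ.prod fun i => 1 + l i) G := by

  exact main p r q l hq G hG hcover hl

end Cfsg.Agent.S3790
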