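import Cfsg.Statements.S3791
import Cfsg.Agent.Lib.Helper2.PLen4

set_option autoImplicit false
open Cfsg

namespace Cfsg.Agent.S3791

universe u

open Cfsg.Agent.Lib.Helper2.Comp in
theorem aux (r : ℕ) (q : Fin r → ℕ) (hq : ∀ i, (q i).Prime) (d : Fin r → ℕ) :
    ∀ (m : ℕ) (G : Type u) [Group G] [Finite G], Group.IsSolvable G →
      (∀ s : ℕ, s.Prime → s ∣ Nat.card G → ∃ i, q i = s) →
      ∀ l : Fin r → ℕ, Nat.card G + ∑ i, l i ≤ m →
      (∀ i, ∀ S : Sylow (q i) G, derivedSeries ↥(S : Subgroup G) (d i) = ⊥) →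
      (∀ i, Cfsg.PLengthLE (q i) (l i) G) →
      derivedSeries G (∑ i, d i * l i) = ⊥ := by
  intro m
  induction m with
  | zero =>
    intro G _ _ hsol hcover l hm hd hl
    exfalso
    have : 0 < Nat.card G := Nat.card_pos
    omega
  | succ m ih =>
    intro G _ _ hsol hcover l hm hd hl
    by_cases htriv : Nat.card G = 1
    · haveI : Subsingleton G := (Nat.card_eq_one_iff_unique.mp htriv).1
      exact eq_bot_iff.mpr (fun x _ => by rw [Subgroup.mem_bot]; exact Subsingleton.elim x 1)
    have hquot_d : ∀ (N : Subgroup G) [N.Normal], ∀ i, ∀ S : Sylow (q i) (G ⧸ N),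
        derivedSeries ↥(S : Subgroup (G ⧸ N)) (d i) = ⊥ := by
      intro N _ i S
      haveI : Fact (q i).Prime := ⟨hq i⟩
      obtain ⟨S₀, rfl⟩ := Sylow.mapSurjective_surjective (QuotientGroup.mk'_surjective N) (q i) S
      rw [Sylow.coe_mapSurjective]
      have h1 := map_derivedSeries_eq (f := (QuotientGroup.mk' N).subgroupMap (S₀ : Subgroup G))
        (MonoidHom.subgroupMap_surjective _ _) (d i)
      rw [hd i S₀, Subgroup.map_bot] at h1
      exact h1.symm
    have hquot_cover : ∀ (N : Subgroup G) [N.Normal], ∀ s : ℕ, s.Prime →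
        s ∣ Nat.card (G ⧸ N) → ∃ i, q i = s := by
      intro N _ s hs hdvd
      exact hcover s hs (hdvd.trans (Subgroup.card_quotient_dvd_card N))
    by_cases hA : ∃ j, q j ∣ Nat.card G ∧ Cfsg.pPrimeCore (q j) G = ⊥
    · obtain ⟨j, hjd, hjN⟩ := hA
      haveI : Fact (q j).Prime := ⟨hq j⟩
      have hlj : 1 ≤ l j := by
        by_contra hlt
        have h0 : l j = 0 := by omega
        have h1 := hl j
        rw [h0] at h1
        have h2 : (Cfsg.upperPSeries (q j) G (2 * 0 + 1)).1 = ⊤ := h1
        have e : (Cfsg.upperPSeries (q j) G (2 * 0 + 1)).1 = Cfsg.pPrimeCore (q j) G :=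
          upperPSeries_one (q j)
        rw [e, hjN] at h2
        apply htriv
        have h3 : Nat.card (⊥ : Subgroup G) = Nat.card (⊤ : Subgroup G) := by rw [h2]
        rw [Subgroup.card_bot, Subgroup.card_top] at h3
        exact h3.symm
      obtain ⟨U, hU⟩ : ∃ U : Subgroup G, U = (Cfsg.upperPSeries (q j) G 2).1 := ⟨_, rfl⟩
      haveI hUn : U.Normal := by rw [hU]; infer_instance
      have hUp : IsPGroup (q j) ↥U := by
        have hU2 : U = Cfsg.pPrimePCore (q j) G := by rw [hU]; exact upperPSeries_two (q j)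
        intro u
        have hu : (u : G) ∈ Cfsg.pPrimePCore (q j) G := hU2 ▸ u.2
        have hu' : QuotientGroup.mk' (Cfsg.pPrimeCore (q j) G) (u : G) ∈
            Cfsg.pCore (q j) (G ⧸ Cfsg.pPrimeCore (q j) G) := hu
        obtain ⟨k, hk⟩ := (Cfsg.Agent.Lib.Helper4.pCore_isPGroup (q j)
          (G ⧸ Cfsg.pPrimeCore (q j) G)) ⟨_, hu'⟩
        refine ⟨k, ?_⟩
        have hk' : (QuotientGroup.mk' (Cfsg.pPrimeCore (q j) G) (u : G)) ^ (q j) ^ k = 1 :=
          congrArg Subtype.val hk
        rw [← map_pow, QuotientGroup.mk'_apply, QuotientGroup.eq_one_iff, hjN,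
          Subgroup.mem_bot] at hk'
        exact Subtype.ext hk'
      have hUd : derivedSeries ↥U (d j) = ⊥ := by
        obtain ⟨S, hS⟩ := hUp.exists_le_sylow
        have h1 := map_derivedSeries_le_derivedSeries (Subgroup.inclusion hS) (d j)
        rw [hd j S, le_bot_iff] at h1
        exact (Subgroup.map_eq_bot_iff_of_injective _ (Subgroup.inclusion_injective hS)).mp h1
      have hlq : ∀ i, Cfsg.PLengthLE (q i) (Function.update l j (l j - 1) i) (G ⧸ U) := by
        intro i
        by_cases hij : i = j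
        · subst hij
          rw [Function.update_self]
          apply pLengthLE_quotient_two (q i) U hU
          have e1 : l i - 1 + 1 = l i := by omega
          rw [e1]; exact hl i
        · rw [Function.update_of_ne hij]
          haveI : Fact (q i).Prime := ⟨hq i⟩
          exact pLengthLE_quotient (q i) U (l i) (hl i)
      have hsum1 : ∑ i, Function.update l j (l j - 1) i + 1 = ∑ i, l i := by
        rw [Finset.sum_update_of_mem (Finset.mem_univ j),
          ← Finset.add_sum_erase Finset.univ l (Finset.mem_univ j),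
          Finset.sdiff_singleton_eq_erase]
        omega
      have hsum2 : ∑ i, d i * Function.update l j (l j - 1) i + d j = ∑ i, d i * l i := by
        have e1 : ∀ i, d i * Function.update l j (l j - 1) i
            = Function.update (fun i => d i * l i) j (d j * (l j - 1)) i := by
          intro i
          by_cases hij : i = j
          · subst hij; simp
          · simp [Function.update_of_ne hij]
        simp only [e1]
        rw [Finset.sum_update_of_mem (Finset.mem_univ j),
          ← Finset.add_sum_erase Finset.univ (fun i => d i * l i) (Finset.mem_univ j),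
          Finset.sdiff_singleton_eq_erase]
        have e2 : d j * (l j - 1) + d j = d j * l j := by
          obtain ⟨t, ht⟩ : ∃ t, l j = t + 1 := ⟨l j - 1, by omega⟩
          rw [ht, Nat.add_sub_cancel]; ring
        omega
      have hcardq : Nat.card (G ⧸ U) ≤ Nat.card G :=
        Nat.le_of_dvd Nat.card_pos (Subgroup.card_quotient_dvd_card U)
      have hq' := ih (G ⧸ U) inferInstance (hquot_cover U) (Function.update l j (l j - 1))
        (by omega) (hquot_d U) hlq
      rw [← hsum2]
      exact derivedSeries_add_eq_bot U _ _ hq' hUd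
    · push_neg at hA
      by_contra hne
      have hcard : Nat.card ↥(derivedSeries G (∑ i, d i * l i)) ≠ 1 := by
        intro h1
        exact hne (Subgroup.card_eq_one.mp h1)
      obtain ⟨s, hs, hsd⟩ := Nat.exists_prime_and_dvd hcard
      have hsG : s ∣ Nat.card G := hsd.trans (Subgroup.card_subgroup_dvd_card _)
      obtain ⟨j, rfl⟩ := hcover s hs hsG
      have hN := hA j hsG
      haveI hNn : (Cfsg.pPrimeCore (q j) G).Normal := Cfsg.Agent.Lib.Lead.pPrimeCore_normal (q j) G
      have hlt : Nat.card (G ⧸ Cfsg.pPrimeCore (q j) G) < Nat.card G := by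
        have h1 := Subgroup.card_eq_card_quotient_mul_card_subgroup (Cfsg.pPrimeCore (q j) G)
        have h2 : 1 < Nat.card (Cfsg.pPrimeCore (q j) G) :=
          (Subgroup.one_lt_card_iff_ne_bot _).mpr hN
        have h3 : 0 < Nat.card (G ⧸ Cfsg.pPrimeCore (q j) G) := Nat.card_pos
        rw [h1]; nlinarith
      have hlq : ∀ i, Cfsg.PLengthLE (q i) (l i) (G ⧸ Cfsg.pPrimeCore (q j) G) := by
        intro i
        haveI : Fact (q i).Prime := ⟨hq i⟩
        exact pLengthLE_quotient (q i) _ (l i) (hl i)
      have hq' := ih (G ⧸ Cfsg.pPrimeCore (q j) G) inferInstance (hquot_cover _) l (by omega)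
        (hquot_d _) hlq
      have hle : derivedSeries G (∑ i, d i * l i) ≤ Cfsg.pPrimeCore (q j) G := by
        have h1 := map_derivedSeries_le_derivedSeries
          (QuotientGroup.mk' (Cfsg.pPrimeCore (q j) G)) (∑ i, d i * l i)
        rw [hq', le_bot_iff, Subgroup.map_eq_bot_iff, QuotientGroup.ker_mk'] at h1
        exact h1
      have hdvd : q j ∣ Nat.card (Cfsg.pPrimeCore (q j) G) :=
        hsd.trans (Subgroup.card_dvd_of_le hle)
      have hcop := Cfsg.Agent.Lib.Lead.pPrimeCore_coprime (G := G) (q j)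
      exact (hq j).one_lt.ne' (Nat.Coprime.eq_one_of_dvd hcop.symm hdvd)

theorem result {G : Type*} [Group G] [Finite G] (hG : Group.IsSolvable G) (r : ℕ) (q : Fin r → ℕ) (hq : ∀ i, (q i).Prime) (hinj : Function.Injective q) (hcover : ∀ s : ℕ, s.Prime → s ∣ Nat.card G → ∃ i, q i = s) (d l : Fin r → ℕ) (hd : ∀ i, ∀ P : Subgroup G, (haveI := Fact.mk (hq i); ∃ S : Sylow (q i) G, (S : Subgroup G) = P) → derivedSeries ↥P (d i) = ⊥) (hl : ∀ i, Cfsg.PLengthLE (q i) (l i) G) : derivedSeries G (Finset.univ.sum fun i => d i * l i) = ⊥ := by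
  exact aux r q hq d _ G hG hcover l le_rfl (fun i S => hd i _ ⟨S, rfl⟩) hl

end Cfsg.Agent.S3791
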