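import Cfsg.Statements.S3802
import Cfsg.Agent.S3748

set_option autoImplicit false
open Cfsg

namespace Cfsg.Agent.S3802

/-- Let G be a finite group, M a maximal subgroup of G and N a subnormal subgroup of G contained in M. Then N is contained in every conjugate of M, that is, N lies in the core of M in G. -/
theorem result {G : Type*} [Group G] [Finite G] (M N : Subgroup G) (hM : IsCoatom M) (hN : N.IsSubnormal) (hNM : N ≤ M) :
    N ≤ Subgroup.normalCore M := by
  have hsurj := QuotientGroup.mk'_surjective M.normalCore
  have hker : (QuotientGroup.mk' M.normalCore).ker = M.normalCore := QuotientGroup.ker_mk' _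
  have hcomap : (M.map (QuotientGroup.mk' M.normalCore)).comap (QuotientGroup.mk' M.normalCore)
      = M := by
    rw [Subgroup.comap_map_eq, hker, sup_eq_left]
    exact Subgroup.normalCore_le M
  have hMbar : M.map (QuotientGroup.mk' M.normalCore) ≠ ⊤ := by
    intro h
    rw [h, Subgroup.comap_top] at hcomap
    exact hM.1 hcomap.symm
  have hprim : ∀ K : Subgroup (G ⧸ M.normalCore), K ≤ M.map (QuotientGroup.mk' M.normalCore) →
      M.map (QuotientGroup.mk' M.normalCore) ≤ Subgroup.normalizer (K : Set (G ⧸ M.normalCore)) →
      K ≠ ⊥ → Subgroup.normalizer (K : Set (G ⧸ M.normalCore))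
        = M.map (QuotientGroup.mk' M.normalCore) := by
    intro K hKM hMK hKne
    have hnt : Subgroup.normalizer (K : Set (G ⧸ M.normalCore)) ≠ ⊤ := by
      intro htop
      have hKn : K.Normal := Subgroup.normalizer_eq_top_iff.mp htop
      have hK0n : (K.comap (QuotientGroup.mk' M.normalCore)).Normal := hKn.comap _
      have hK0M : K.comap (QuotientGroup.mk' M.normalCore) ≤ M :=
        le_of_le_of_eq (Subgroup.comap_mono hKM) hcomap
      have hK0C : K.comap (QuotientGroup.mk' M.normalCore) ≤ M.normalCore :=
        (Subgroup.normal_le_normalCore).mpr hK0M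
      apply hKne
      rw [← Subgroup.map_comap_eq_self_of_surjective hsurj K, Subgroup.map_eq_bot_iff, hker]
      exact hK0C
    have h1 : M ≤ (Subgroup.normalizer (K : Set (G ⧸ M.normalCore))).comap
        (QuotientGroup.mk' M.normalCore) :=
      le_of_eq_of_le hcomap.symm (Subgroup.comap_mono hMK)
    have h2 : (Subgroup.normalizer (K : Set (G ⧸ M.normalCore))).comap
        (QuotientGroup.mk' M.normalCore) ≠ ⊤ := by
      intro h
      apply hnt
      rw [← Subgroup.map_comap_eq_self_of_surjective hsurj
        (Subgroup.normalizer (K : Set (G ⧸ M.normalCore))), h,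
        Subgroup.map_top_of_surjective _ hsurj]
    have h3 := (hM.le_iff_eq h2).mp h1
    rw [← Subgroup.map_comap_eq_self_of_surjective hsurj
        (Subgroup.normalizer (K : Set (G ⧸ M.normalCore))), h3]
  have key := Cfsg.Agent.S3748.no_subnormal (M.map (QuotientGroup.mk' M.normalCore)) hMbar hprim
    (N.map (QuotientGroup.mk' M.normalCore)) (hN.map hsurj) (Subgroup.map_mono hNM)
  rw [Subgroup.map_eq_bot_iff, hker] at key
  exact key

end Cfsg.Agent.S3802
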