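import Cfsg.Statements.S3803
import Cfsg.Agent.Lib.Helper6.OmegaCent
import Cfsg.Agent.Lib.Helper6.Comm
import Cfsg.Agent.Lib.Helper1.OddAut
import Cfsg.Agent.Lib.Lead.Coprime

set_option autoImplicit false
open Cfsg

namespace Cfsg.Agent.S3803

open Cfsg.Agent.Lib.Helper6
open scoped commutatorElement

/-- an odd order element normalizing a cyclic 2-group centralizes it -/
theorem cyclic_centralized {X : Type*} [Group X] [Finite X] (E : Subgroup X) (hE : IsPGroup 2 E)
    (hcyc : IsCyclic ↥E) (a : X) (ha : a ∈ Subgroup.normalizer (E : Set X)) (r : ℕ) (hr : Odd r)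
    (har : a ^ r = 1) : ∀ x ∈ E, a * x * a⁻¹ = x := by
  classical
  apply Cfsg.Agent.Lib.Helper1.centralizes_of_odd_of_centralizes_omega E ?_ ?_ a ?_ r hr ?_ ?_
  · intro u hu v hv
    obtain ⟨g, hg⟩ := hcyc.exists_generator
    obtain ⟨i, hi⟩ := Subgroup.mem_zpowers_iff.mp (hg ⟨u, hu⟩)
    obtain ⟨j, hj⟩ := Subgroup.mem_zpowers_iff.mp (hg ⟨v, hv⟩)
    have hi' : (g : X) ^ i = u := by
      have := congrArg Subtype.val hi
      simpa using this
    have hj' : (g : X) ^ j = v := by
      have := congrArg Subtype.val hj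
      simpa using this
    rw [← hi', ← hj', ← zpow_add, ← zpow_add, add_comm]
  · intro x hx
    obtain ⟨k, hk⟩ := hE ⟨x, hx⟩
    exact ⟨k, by simpa using congrArg Subtype.val hk⟩
  · intro x hx
    exact (Subgroup.mem_normalizer_iff.mp ha x).mp hx
  · intro x hx
    rw [har]; simp
  · intro x hx hx2
    by_cases hx1 : x = 1
    · rw [hx1]; simp
    by_contra hne
    have hy : a * x * a⁻¹ ∈ E := (Subgroup.mem_normalizer_iff.mp ha x).mp hx
    have hy2 : (a * x * a⁻¹) ^ 2 = 1 := by rw [conj_pow, hx2]; simp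
    have hy1 : a * x * a⁻¹ ≠ 1 := by
      intro h
      apply hx1
      have : x = a⁻¹ * (a * x * a⁻¹) * a := by group
      rw [this, h]; simp
    have _ : Fintype ↥E := Fintype.ofFinite _
    have hle := IsCyclic.card_pow_eq_one_le (α := ↥E) (n := 2) (by norm_num)
    have hsub : ({1, ⟨x, hx⟩, ⟨a * x * a⁻¹, hy⟩} : Finset ↥E) ⊆
        Finset.univ.filter (fun z : ↥E => z ^ 2 = 1) := by
      intro z hz
      simp only [Finset.mem_insert, Finset.mem_singleton] at hz
      simp only [Finset.mem_filter, Finset.mem_univ, true_and]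
      rcases hz with rfl | rfl | rfl
      · simp
      · exact Subtype.ext hx2
      · exact Subtype.ext hy2
    have hcard : ({1, ⟨x, hx⟩, ⟨a * x * a⁻¹, hy⟩} : Finset ↥E).card = 3 := by
      rw [Finset.card_insert_of_notMem, Finset.card_pair]
      · intro h
        exact hne (congrArg Subtype.val h).symm
      · simp only [Finset.mem_insert, Finset.mem_singleton]
        push Not
        exact ⟨fun h => hx1 (congrArg Subtype.val h).symm,
          fun h => hy1 (congrArg Subtype.val h).symm⟩
    have := Finset.card_le_card hsub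
    omega

/-- an odd order group normalizing all index 2 subgroups of a noncyclic 2-group centralizes it -/
theorem noncyclic_centralized {X : Type*} [Group X] [Finite X] (F A : Subgroup X)
    (hF : IsPGroup 2 F) (hA : (Nat.card A).Coprime 2) (hnc : ¬ IsCyclic ↥F)
    (hM : ∀ M : Subgroup X, M ≤ F → Nat.card M * 2 = Nat.card F →
      A ≤ Subgroup.normalizer (M : Set X)) :
    A ≤ Subgroup.centralizer (F : Set X) := by
  have hmax : ∀ K : Subgroup X, K ≤ F → K ≠ F → ∃ M : Subgroup X, M ≤ F ∧
      Nat.card M * 2 = Nat.card F ∧ K ≤ M ∧ (M.subgroupOf F).index = 2 := by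
    intro K hKF hne
    have hne' : K.subgroupOf F ≠ ⊤ := by
      intro h
      apply hne
      exact le_antisymm hKF (Subgroup.subgroupOf_eq_top.mp h)
    rcases eq_top_or_exists_le_coatom (K.subgroupOf F) with h | ⟨M', hM', hle⟩
    · exact absurd h hne'
    · obtain ⟨-, hidx⟩ := Cfsg.Agent.Lib.Lead.coatom_pgroup hF M' hM'
      refine ⟨M'.map F.subtype, Subgroup.map_subtype_le _, ?_, ?_, ?_⟩
      · rw [Subgroup.card_map_of_injective F.subtype_injective, ← hidx, mul_comm]
        exact M'.index_mul_card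
      · intro x hx
        exact ⟨⟨x, hKF hx⟩, hle (show _ ∈ K.subgroupOf F from hx), rfl⟩
      · have e : (M'.map F.subtype).subgroupOf F = M' :=
          Subgroup.comap_map_eq_self_of_injective F.subtype_injective M'
        rw [e]; exact hidx
  have hAF : A ≤ Subgroup.normalizer (F : Set X) := by
    intro a ha
    apply mem_normalizer_of_conj_mem
    intro f hf
    have hz : Subgroup.zpowers f ≠ F := by
      intro h
      apply hnc
      have : IsCyclic ↥(Subgroup.zpowers f) := inferInstance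
      exact h ▸ this
    obtain ⟨M, hMF, hMc, hfM, -⟩ := hmax _ (Subgroup.zpowers_le.mpr hf) hz
    have := (Subgroup.mem_normalizer_iff.mp (hM M hMF hMc ha)) f
    exact hMF (this.mp (hfM (Subgroup.mem_zpowers f)))
  have hcomm : ∀ M : Subgroup X, M ≤ F → (M.subgroupOf F).index = 2 →
      Nat.card M * 2 = Nat.card F → ⁅F, A⁆ ≤ M := by
    intro M hMF hidx hMc
    rw [Subgroup.commutator_le]
    intro f hf a ha
    have hN := Subgroup.mem_normalizer_iff.mp (hM M hMF hMc ha)
    have hNF := Subgroup.mem_normalizer_iff.mp (hAF ha)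
    have hg : a * f⁻¹ * a⁻¹ ∈ F := (hNF f⁻¹).mp (F.inv_mem hf)
    have key := Subgroup.mul_mem_iff_of_index_two hidx (a := ⟨f, hf⟩) (b := ⟨a * f⁻¹ * a⁻¹, hg⟩)
    have e : ⁅f, a⁆ = f * (a * f⁻¹ * a⁻¹) := by rw [commutatorElement_def]; group
    rw [e]
    have h2 : (⟨f, hf⟩ : ↥F) * ⟨a * f⁻¹ * a⁻¹, hg⟩ ∈ M.subgroupOf F := key.mpr (by
      rw [Subgroup.mem_subgroupOf, Subgroup.mem_subgroupOf]
      show f ∈ M ↔ a * f⁻¹ * a⁻¹ ∈ M
      rw [← hN f⁻¹, inv_mem_iff])
    exact h2
  have _ : Group.IsNilpotent F := hF.isNilpotent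
  have hsolv : Group.IsSolvable A ∨ Group.IsSolvable F := Or.inr inferInstance
  have hcop : (Nat.card A).Coprime (Nat.card F) := by
    obtain ⟨k, hk⟩ := hF.exists_card_eq
    rw [hk]; exact hA.pow_right k
  by_contra hcon
  have hC : F ⊓ Subgroup.centralizer (A : Set X) ≠ F := by
    intro h
    apply hcon
    intro a ha
    rw [Subgroup.mem_centralizer_iff]
    intro f hf
    have h1 : f ∈ F ⊓ Subgroup.centralizer (A : Set X) := by rw [h]; exact hf
    exact ((Subgroup.mem_centralizer_iff.mp h1.2) a ha).symm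
  obtain ⟨M, hMF, hMc, hCM, hidx⟩ := hmax _ inf_le_left hC
  have hFM : F ≤ M := by
    intro f hf
    obtain ⟨d, hd, c, hc, rfl⟩ :=
      Cfsg.Agent.Lib.Lead.exists_commutator_mul_centralizer A F hAF hcop hsolv hf
    exact M.mul_mem (hcomm M hMF hidx hMc hd) (hCM hc)
  have h1 := Subgroup.card_le_of_le hFM
  have h2 : 0 < Nat.card M := Nat.card_pos
  omega

/-- if all subgroups of order `2^k` of `P` are `A`-invariant (`2^k < |P|`), they are centralized -/
theorem centralizes_order {X : Type*} [Group X] [Finite X] (P A : Subgroup X)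
    (hP : IsPGroup 2 P) (hA : Odd (Nat.card A)) (k : ℕ) (hk : 2 ^ k < Nat.card P)
    (hinv : ∀ E : Subgroup X, E ≤ P → Nat.card E = 2 ^ k → A ≤ Subgroup.normalizer (E : Set X)) :
    ∀ E : Subgroup X, E ≤ P → Nat.card E = 2 ^ k → A ≤ Subgroup.centralizer (E : Set X) := by
  intro E hEP hEc
  have hA2 : (Nat.card A).Coprime 2 := (Nat.coprime_two_right.mpr hA)
  obtain ⟨m, hm⟩ := IsPGroup.iff_card.mp hP
  have hkm : k < m := by
    rw [hm] at hk
    exact (Nat.pow_lt_pow_iff_right (by norm_num)).mp hk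
  have hE' : Nat.card (E.subgroupOf P) = 2 ^ k := by
    rw [← hEc]; exact Nat.card_congr (Subgroup.subgroupOfEquivOfLe hEP).toEquiv
  obtain ⟨K, hKc, hEK⟩ := Sylow.exists_subgroup_card_pow_succ (G := ↥P) (p := 2) (n := k)
    (by rw [hm]; exact pow_dvd_pow 2 hkm) hE'
  have hFc : Nat.card (K.map P.subtype) = 2 ^ (k + 1) := by
    rw [Subgroup.card_map_of_injective P.subtype_injective, hKc]
  have hEF : E ≤ K.map P.subtype := by
    intro x hx
    exact ⟨⟨x, hEP hx⟩, hEK (show _ ∈ E.subgroupOf P from hx), rfl⟩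
  have hFP : K.map P.subtype ≤ P := Subgroup.map_subtype_le _
  by_cases hcyc : IsCyclic ↥(K.map P.subtype)
  · have hEcyc : IsCyclic ↥E := by
      have h1 : IsCyclic ↥(E.subgroupOf (K.map P.subtype)) := inferInstance
      exact isCyclic_of_surjective (Subgroup.subgroupOfEquivOfLe hEF).toMonoidHom
        (Subgroup.subgroupOfEquivOfLe hEF).surjective
    intro a ha
    rw [Subgroup.mem_centralizer_iff]
    intro x hx
    have har : a ^ Nat.card A = 1 := by
      have := pow_card_eq_one' (G := A) (x := ⟨a, ha⟩)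
      exact congrArg Subtype.val this
    have := cyclic_centralized E (hP.to_le hEP) hEcyc a (hinv E hEP hEc ha) _ hA har x hx
    calc x * a = x * a := rfl
      _ = (a * x * a⁻¹) * a := by rw [this]
      _ = a * x := by group
  · have h := noncyclic_centralized (K.map P.subtype) A (hP.to_le hFP) hA2 hcyc (by
      intro M hMF hMc
      apply hinv M (hMF.trans hFP)
      rw [hFc, pow_succ] at hMc
      exact Nat.eq_of_mul_eq_mul_right (by norm_num) hMc)
    exact h.trans (Subgroup.centralizer_le hEF)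

/-- Let P be a 2-subgroup and A a subgroup of odd order of a finite group, with A normalizing P. Let D ≤ P with 1 < |D| < |P|. If every subgroup of P of order |D|, and also every subgroup of P of order 4 in case |D| = 2, is normalized by A, then A centralizes P. -/
theorem result {X : Type*} [Group X] [Finite X] (P A D : Subgroup X) (hP : IsPGroup 2 P) (hA : Odd (Nat.card A))
    (hAP : A ≤ Subgroup.normalizer (P : Set X)) (hDP : D ≤ P) (hD1 : 1 < Nat.card D) (hD2 : Nat.card D < Nat.card P)
    (hinv : ∀ E : Subgroup X, E ≤ P → (Nat.card E = Nat.card D ∨ (Nat.card D = 2 ∧ Nat.card E = 4)) → A ≤ Subgroup.normalizer (E : Set X)) :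
    A ≤ Subgroup.centralizer (P : Set X) := by
  have _ : Fact (Nat.Prime 2) := ⟨Nat.prime_two⟩
  have hA2 : (Nat.card A).Coprime 2 := (Nat.coprime_two_right.mpr hA)
  obtain ⟨m, hm⟩ := IsPGroup.iff_card.mp hP
  obtain ⟨k, hk⟩ := IsPGroup.iff_card.mp (hP.to_le hDP)
  have hk1 : 1 ≤ k := by
    rcases Nat.eq_zero_or_pos k with h | h
    · rw [hk, h, pow_zero] at hD1; omega
    · exact h
  have hkm : k < m := by
    rw [hk, hm] at hD2
    exact (Nat.pow_lt_pow_iff_right (by norm_num)).mp hD2
  apply centralizes_of_centralizes_omega (p := 2) A P hA2 hP hAP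
  intro x hx hxΩ a ha
  have hx4 : x ^ 4 = 1 := by
    rcases hxΩ with h | ⟨-, h⟩
    · have : x ^ 4 = (x ^ 2) ^ 2 := by rw [← pow_mul]
      rw [this, h, one_pow]
    · exact h
  have hord : orderOf x ∣ 2 ^ 2 := orderOf_dvd_of_pow_eq_one hx4
  obtain ⟨i, hi, hxi⟩ := (Nat.dvd_prime_pow Nat.prime_two).mp hord
  have har : a ^ Nat.card A = 1 := by
    have := pow_card_eq_one' (G := A) (x := ⟨a, ha⟩)
    exact congrArg Subtype.val this
  by_cases hk2 : 2 ≤ k
  · -- x lies in a subgroup of order 2^k
    have hz : Nat.card (Subgroup.zpowers (⟨x, hx⟩ : ↥P)) = 2 ^ i := by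
      rw [Nat.card_zpowers, Subgroup.orderOf_mk, hxi]
    obtain ⟨K, hKc, hzK⟩ := Sylow.exists_subgroup_card_pow_prime_le 2 (G := ↥P) (n := i) (m := k)
      (by rw [hm]; exact pow_dvd_pow 2 hkm.le) _ hz (by omega)
    have hEc : Nat.card (K.map P.subtype) = 2 ^ k := by
      rw [Subgroup.card_map_of_injective P.subtype_injective, hKc]
    have hxE : x ∈ K.map P.subtype := ⟨⟨x, hx⟩, hzK (Subgroup.mem_zpowers _), rfl⟩
    have h := centralizes_order P A hP hA k (by rw [hm]; exact Nat.pow_lt_pow_right (by norm_num) hkm)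
      (fun E hE hEc' => hinv E hE (Or.inl (by rw [hEc', hk])))
      (K.map P.subtype) (Subgroup.map_subtype_le _) hEc ha
    have := (Subgroup.mem_centralizer_iff.mp h) x hxE
    rw [← this, mul_inv_cancel_right]
  · have hk1' : k = 1 := by omega
    subst hk1'
    have hzP : Subgroup.zpowers x ≤ P := Subgroup.zpowers_le.mpr hx
    have hzc : Nat.card (Subgroup.zpowers x) = 2 ^ i := by rw [Nat.card_zpowers, hxi]
    have hEinv : a ∈ Subgroup.normalizer ((Subgroup.zpowers x : Subgroup X) : Set X) := by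
      have hi3 : i = 0 ∨ i = 1 ∨ i = 2 := by omega
      rcases hi3 with rfl | rfl | rfl
      · have h1 : x = 1 := by
          rw [pow_zero] at hxi
          exact orderOf_eq_one_iff.mp hxi
        rw [h1, Subgroup.zpowers_one_eq_bot]
        apply mem_normalizer_of_conj_mem
        intro d hd
        rw [Subgroup.mem_bot] at hd ⊢
        rw [hd]; group
      · exact hinv _ hzP (Or.inl (by rw [hzc, hk])) ha
      · exact hinv _ hzP (Or.inr ⟨by rw [hk]; norm_num, by rw [hzc]; norm_num⟩) ha
    exact cyclic_centralized (Subgroup.zpowers x) (hP.to_le hzP) inferInstance a hEinv _ hA har x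
      (Subgroup.mem_zpowers x)

end Cfsg.Agent.S3803
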