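import Cfsg.Statements.S3815
import Mathlib

set_option autoImplicit false
open Cfsg

namespace Cfsg.Agent.S3815

/-- Let G be a finite group, p a prime and d ∈ G an element of order prime to p. If dg has order prime to p for every element g ∈ G of order prime to p, then d ∈ O_{p'}(G). -/
theorem result {G : Type*} [Group G] [Finite G] {p : ℕ} [Fact p.Prime]
    (d : G) (hd : (orderOf d).Coprime p)
    (h : ∀ g : G, (orderOf g).Coprime p → (orderOf (d * g)).Coprime p) :
    d ∈ Cfsg.pPrimeCore p G := by
  classical
  let M : Submonoid G :=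
    { carrier := {d | (orderOf d).Coprime p ∧ ∀ g : G, (orderOf g).Coprime p → (orderOf (d * g)).Coprime p}
      one_mem' := by
        refine ⟨by simp, ?_⟩
        intro g hg
        simpa using hg
      mul_mem' := by
        rintro a b ⟨ha, ha'⟩ ⟨hb, hb'⟩
        refine ⟨ha' b hb, ?_⟩
        intro g hg
        rw [mul_assoc]
        exact ha' _ (hb' g hg) }
  let N : Subgroup G :=
    { M with
      inv_mem' := by
        intro a ha
        have : a⁻¹ = a ^ (orderOf a - 1) := by
          rw [eq_comm, ← mul_eq_one_iff_eq_inv', ← pow_succ']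
          have hpos := orderOf_pos a
          have : orderOf a - 1 + 1 = orderOf a := by omega
          rw [this, pow_orderOf_eq_one]
        show a⁻¹ ∈ M
        rw [this]
        exact M.pow_mem ha _ }
  have hNmem : ∀ a : G, a ∈ N ↔ ((orderOf a).Coprime p ∧ ∀ g : G, (orderOf g).Coprime p → (orderOf (a * g)).Coprime p) := by
    intro a; rfl
  have hconj : ∀ (x a : G), orderOf (x * a * x⁻¹) = orderOf a := by
    intro x a
    have := orderOf_injective (MulAut.conj x).toMonoidHom (MulAut.conj x).injective a
    simpa [MulAut.conj_apply] using this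
  have hnormal : N.Normal := by
    constructor
    intro a ha x
    rw [hNmem] at ha ⊢
    obtain ⟨ha1, ha2⟩ := ha
    refine ⟨by rw [hconj]; exact ha1, ?_⟩
    intro g hg
    have e : x * a * x⁻¹ * g = x * (a * (x⁻¹ * g * x⁻¹⁻¹)) * x⁻¹ := by
      simp [mul_assoc]
    rw [e, hconj]
    apply ha2
    rw [hconj]
    exact hg
  have hcard : (Nat.card N).Coprime p := by
    have hp : p.Prime := Fact.out
    rw [Nat.coprime_comm, hp.coprime_iff_not_dvd]
    intro hdvd
    obtain ⟨x, hx⟩ := exists_prime_orderOf_dvd_card' p hdvd
    have hx2 : orderOf (x : G) = p := by rw [Subgroup.orderOf_coe]; exact hx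
    have hxN := (hNmem x).mp x.2
    have := hxN.1
    rw [hx2] at this
    rw [Nat.coprime_self] at this
    exact hp.one_lt.ne' this
  have hle : N ≤ Cfsg.pPrimeCore p G := by
    unfold Cfsg.pPrimeCore
    exact le_sSup ⟨hnormal, hcard⟩
  exact hle ((hNmem d).mpr ⟨hd, h⟩)

end Cfsg.Agent.S3815
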