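import Cfsg.Statements.S3821
import Cfsg.Agent.Lib.Helper6.Conj

set_option autoImplicit false
open Cfsg

namespace Cfsg.Agent.S3821

open Cfsg.Agent.Lib.Helper6

theorem map_cj_subtype {G : Type*} [Group G] (A : Subgroup G) (K : Subgroup A) (a : A) :
    (K.map (MulAut.conj a).toMonoidHom).map A.subtype
      = (K.map A.subtype).map (MulAut.conj (a : G)).toMonoidHom := by
  rw [Subgroup.map_map, Subgroup.map_map]
  congr 1

theorem pronormal_sub_iff {G : Type*} [Group G] (A H : Subgroup G) (hHA : H ≤ A) :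
    Cfsg.IsPronormal (H.subgroupOf A) ↔
      ∀ a ∈ A, ∃ x ∈ H ⊔ H.map (MulAut.conj a).toMonoidHom,
        H.map (MulAut.conj a).toMonoidHom = H.map (MulAut.conj x).toMonoidHom := by
  have hK : (H.subgroupOf A).map A.subtype = H := Subgroup.map_subgroupOf_eq_of_le hHA
  constructor
  · intro h a ha
    obtain ⟨x, hx, hxe⟩ := h ⟨a, ha⟩
    refine ⟨(x : G), ?_, ?_⟩
    · have := Subgroup.mem_map_of_mem A.subtype hx
      rw [Subgroup.map_sup, map_cj_subtype, hK] at this
      exact this
    · have := congrArg (Subgroup.map A.subtype) hxe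
      rw [map_cj_subtype, map_cj_subtype, hK] at this
      exact this
  · intro h a
    obtain ⟨x, hx, hxe⟩ := h a a.2
    have hle : H ⊔ H.map (MulAut.conj (a : G)).toMonoidHom ≤ A :=
      sup_le hHA (cj_le_of_mem a.2 hHA)
    refine ⟨⟨x, hle hx⟩, ?_, ?_⟩
    · have hx' : x ∈ ((H.subgroupOf A) ⊔ (H.subgroupOf A).map (MulAut.conj a).toMonoidHom).map A.subtype := by
        rw [Subgroup.map_sup, map_cj_subtype, hK]
        exact hx
      obtain ⟨y, hy, hyx⟩ := hx'
      have : y = ⟨x, hle hx⟩ := Subtype.ext hyx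
      rw [← this]
      exact hy
    · apply Subgroup.map_injective A.subtype_injective
      rw [map_cj_subtype, map_cj_subtype, hK]
      exact hxe

/-- Let A be a normal subgroup of the finite group G and H a subgroup of A. Then H is pronormal in G (H and gHg⁻¹ conjugate inside ⟨H, gHg⁻¹⟩ for every g ∈ G) if and only if H is pronormal in A and G = A · N_G(H). -/
theorem result {G : Type*} [Group G] [Finite G] (A H : Subgroup G) [A.Normal] (hHA : H ≤ A) :
    Cfsg.IsPronormal H ↔ (Cfsg.IsPronormal (H.subgroupOf A) ∧ A ⊔ Subgroup.normalizer (H : Set G) = ⊤) := by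
  rw [pronormal_sub_iff A H hHA]
  have hAg : ∀ g : G, H.map (MulAut.conj g).toMonoidHom ≤ A := by
    intro g x hx
    rw [mem_cj] at hx
    have h1 := hHA hx
    have h2 := (inferInstance : A.Normal).conj_mem _ h1 g
    simpa [mul_assoc] using h2
  constructor
  · intro h
    refine ⟨fun a _ => h a, ?_⟩
    rw [eq_top_iff]
    intro g _
    obtain ⟨x, hx, hxe⟩ := h g
    have hxA : x ∈ A := (sup_le hHA (hAg g)) hx
    have hn : x⁻¹ * g ∈ Subgroup.normalizer (H : Set G) := by
      rw [mem_normalizer_iff_cj, cj_mul, hxe, cj_inv_cj]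
    have : g = x * (x⁻¹ * g) := by simp
    rw [this]
    exact Subgroup.mul_mem _ (Subgroup.mem_sup_left hxA) (Subgroup.mem_sup_right hn)
  · rintro ⟨h1, h2⟩ g
    have hg : g ∈ A ⊔ Subgroup.normalizer (H : Set G) := by rw [h2]; trivial
    have hg' : g ∈ ((A ⊔ Subgroup.normalizer (H : Set G) : Subgroup G) : Set G) := hg
    rw [Subgroup.normal_mul] at hg'
    obtain ⟨a, ha, n, hn, rfl⟩ := hg'
    have hn' : H.map (MulAut.conj n).toMonoidHom = H := mem_normalizer_iff_cj.mp hn
    obtain ⟨x, hx, hxe⟩ := h1 a ha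
    refine ⟨x, ?_, ?_⟩
    · rw [cj_mul, hn']; exact hx
    · rw [cj_mul, hn']; exact hxe

end Cfsg.Agent.S3821
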