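import Cfsg.Statements.S3825
import Mathlib
import Cfsg.Agent.Lib.Helper1.Abel

set_option autoImplicit false
open Cfsg

namespace Cfsg.Agent.S3825


open Cfsg.Agent.Lib
open scoped commutatorElement

/-- Let U be a subgroup of a finite group H and w an involution of H normalizing U and commuting with exactly two elements of U, the identity and y. If V is a non-cyclic elementary abelian 2-subgroup of U containing y which is normal in U and invariant under w, then V is a Sylow 2-subgroup of U, V has order 4, and U/V is abelian. -/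
theorem result {H : Type*} [Group H] [Finite H] (U : Subgroup H) (w : H) (hw : orderOf w = 2)
    (hwU : w ∈ Subgroup.normalizer (U : Set H)) (y : H) (hy : y ≠ 1) (hyU : y ∈ U)
    (hfix : ∀ u ∈ U, w * u * w⁻¹ = u ↔ (u = 1 ∨ u = y))
    (V : Subgroup H) (hVU : V ≤ U) (hVn : (V.subgroupOf U).Normal) (hVw : ∀ v ∈ V, w * v * w⁻¹ ∈ V)
    (hVe : Cfsg.IsElementaryAbelian 2 V) (hVc : ¬ IsCyclic ↥V) (hyV : y ∈ V) :
    ¬ 2 ∣ V.relIndex U ∧ Nat.card ↥V = 4 ∧ ⁅U, U⁆ ≤ V := by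
  classical
  haveI : Fact (Nat.Prime 2) := ⟨Nat.prime_two⟩
  have hw2 : w * w = 1 := by rw [← pow_two, ← hw]; exact pow_orderOf_eq_one w
  have hwi : w⁻¹ = w := inv_eq_of_mul_eq_one_left hw2
  obtain ⟨hVcomm, hVexp⟩ := hVe
  have hVc' : ∀ a ∈ V, ∀ b ∈ V, a * b = b * a := Helper1.comm_of_isMulCommutative hVcomm
  have hVsq : ∀ a ∈ V, a * a = 1 := fun a ha => by rw [← pow_two]; exact hVexp a ha
  have hVinv : ∀ a ∈ V, a⁻¹ = a := fun a ha => inv_eq_of_mul_eq_one_left (hVsq a ha)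
  have hσσ : ∀ u : H, w * (w * u * w⁻¹) * w⁻¹ = u := by
    intro u
    rw [hwi]
    calc w * (w * u * w) * w = (w * w) * u * (w * w) := by group
      _ = u := by rw [hw2]; group
  have hy2 : y * y = 1 := hVsq y hyV
  have hφfix : ∀ v ∈ V, v * (w * v * w⁻¹) = 1 ∨ v * (w * v * w⁻¹) = y := by
    intro v hv
    have hσv := hVw v hv
    apply (hfix _ (hVU (V.mul_mem hv hσv))).mp
    calc w * (v * (w * v * w⁻¹)) * w⁻¹ = (w * v * w⁻¹) * (w * (w * v * w⁻¹) * w⁻¹) := by group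
      _ = (w * v * w⁻¹) * v := by rw [hσσ]
      _ = v * (w * v * w⁻¹) := hVc' _ hσv _ hv
  have hφker : ∀ v ∈ V, v * (w * v * w⁻¹) = 1 → v = 1 ∨ v = y := by
    intro v hv h1
    apply (hfix v (hVU hv)).mp
    have h2 : w * v * w⁻¹ = v⁻¹ := eq_inv_of_mul_eq_one_right h1
    rw [h2, hVinv v hv]
  have hφmul : ∀ v ∈ V, ∀ v' ∈ V, (v * v') * (w * (v * v') * w⁻¹) =
      (v * (w * v * w⁻¹)) * (v' * (w * v' * w⁻¹)) := by
    intro v hv v' hv'
    calc (v * v') * (w * (v * v') * w⁻¹) = v * (v' * (w * v * w⁻¹)) * (w * v' * w⁻¹) := by group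
      _ = v * ((w * v * w⁻¹) * v') * (w * v' * w⁻¹) := by rw [hVc' v' hv' _ (hVw v hv)]
      _ = (v * (w * v * w⁻¹)) * (v' * (w * v' * w⁻¹)) := by group
  -- an element of V outside {1, y}
  obtain ⟨v₁, hv₁V, hv₁1, hv₁y⟩ : ∃ v₁ ∈ V, v₁ ≠ 1 ∧ v₁ ≠ y := by
    by_contra hcon
    push_neg at hcon
    apply hVc
    have hle : V ≤ Subgroup.zpowers y := by
      intro v hv
      by_cases h1 : v = 1
      · rw [h1]; exact Subgroup.one_mem _
      · rw [hcon v hv h1]; exact Subgroup.mem_zpowers y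
    have heq : V = Subgroup.zpowers y := le_antisymm hle (Subgroup.zpowers_le.mpr hyV)
    rw [heq]
    infer_instance
  have hφv₁ : v₁ * (w * v₁ * w⁻¹) = y := by
    rcases hφfix v₁ hv₁V with h1 | h1
    · rcases hφker v₁ hv₁V h1 with h2 | h2
      · exact absurd h2 hv₁1
      · exact absurd h2 hv₁y
    · exact h1
  have hσv₁ : w * v₁ * w⁻¹ = v₁ * y := by
    have h1 : w * v₁ * w⁻¹ = v₁⁻¹ * y := by rw [← hφv₁]; group
    rw [h1, hVinv v₁ hv₁V]
  -- card V = 4
  have hcard4 : Nat.card ↥V = 4 := by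
    have hsub : (V : Set H) ⊆ (({1, y, v₁, v₁ * y} : Finset H) : Set H) := by
      intro v hv
      have hv' : v ∈ V := hv
      simp only [Finset.coe_insert, Finset.coe_singleton, Set.mem_insert_iff, Set.mem_singleton_iff]
      rcases hφfix v hv' with h1 | h1
      · rcases hφker v hv' h1 with h2 | h2
        · left; exact h2
        · right; left; exact h2
      · have h2 := hφmul v hv' v₁ hv₁V
        rw [h1, hφv₁, hy2] at h2
        rcases hφker _ (V.mul_mem hv' hv₁V) h2 with h3 | h3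
        · right; right; left
          have h4 : v = v₁⁻¹ := eq_inv_of_mul_eq_one_left h3
          rw [h4, hVinv v₁ hv₁V]
        · right; right; right
          have h4 : v = y * v₁⁻¹ := by rw [← h3]; group
          rw [h4, hVinv v₁ hv₁V]
          exact hVc' y hyV v₁ hv₁V
    have hle : Nat.card ↥V ≤ 4 := by
      have h1 := Set.ncard_le_ncard hsub (Finset.finite_toSet _)
      rw [Set.ncard_coe_finset] at h1
      have h2 : (V : Set H).ncard = Nat.card ↥V := (Nat.card_coe_set_eq (V : Set H)).symm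
      rw [h2] at h1
      exact h1.trans Finset.card_le_four
    have hpos : 0 < Nat.card ↥V := Nat.card_pos
    by_contra hne
    apply hVc
    have hlt : Nat.card ↥V = 1 ∨ Nat.card ↥V = 2 ∨ Nat.card ↥V = 3 := by omega
    rcases hlt with h1 | h1 | h1
    · haveI : Subsingleton ↥V := (Nat.card_eq_one_iff_unique.mp h1).1
      infer_instance
    · exact isCyclic_of_prime_card h1
    · haveI : Fact (Nat.Prime 3) := ⟨Nat.prime_three⟩
      exact isCyclic_of_prime_card h1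
  -- fixed cosets are trivial
  have key2 : ∀ u ∈ U, u⁻¹ * (w * u * w⁻¹) ∈ V → u ∈ V := by
    intro u hu hv0
    obtain ⟨v₀, hv₀⟩ : ∃ v₀, v₀ = u⁻¹ * (w * u * w⁻¹) := ⟨_, rfl⟩
    rw [← hv₀] at hv0
    have hσu : w * u * w⁻¹ = u * v₀ := by rw [hv₀]; group
    have h1 : v₀ * (w * v₀ * w⁻¹) = 1 := by
      have h2 : u = (u * v₀) * (w * v₀ * w⁻¹) := by
        calc u = w * (w * u * w⁻¹) * w⁻¹ := (hσσ u).symm
          _ = w * (u * v₀) * w⁻¹ := by rw [hσu]
          _ = (w * u * w⁻¹) * (w * v₀ * w⁻¹) := by group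
          _ = (u * v₀) * (w * v₀ * w⁻¹) := by rw [hσu]
      have h3 : u * 1 = u * (v₀ * (w * v₀ * w⁻¹)) := by rw [mul_one, ← mul_assoc]; exact h2
      exact (mul_left_cancel h3).symm
    rcases hφker v₀ hv0 h1 with h2 | h2
    · rw [h2, mul_one] at hσu
      rcases (hfix u hu).mp hσu with h3 | h3
      · rw [h3]; exact V.one_mem
      · rw [h3]; exact hyV
    · rw [h2] at hσu
      have h3 : w * (u * v₁) * w⁻¹ = u * v₁ := by
        calc w * (u * v₁) * w⁻¹ = (w * u * w⁻¹) * (w * v₁ * w⁻¹) := by group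
          _ = (u * y) * (v₁ * y) := by rw [hσu, hσv₁]
          _ = u * (y * v₁) * y := by group
          _ = u * (v₁ * y) * y := by rw [hVc' y hyV v₁ hv₁V]
          _ = u * v₁ * (y * y) := by group
          _ = u * v₁ := by rw [hy2, mul_one]
      have h4 : u * v₁ ∈ V := by
        rcases (hfix _ (U.mul_mem hu (hVU hv₁V))).mp h3 with h5 | h5
        · rw [h5]; exact V.one_mem
        · rw [h5]; exact hyV
      have h5 : u = (u * v₁) * v₁⁻¹ := by group
      rw [h5]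
      exact V.mul_mem h4 (V.inv_mem hv₁V)
  -- the quotient
  haveI := hVn
  obtain ⟨σU, hσU⟩ : ∃ σU : ↥U →* ↥U, ∀ u : ↥U, (σU u : H) = w * (u : H) * w⁻¹ := by
    refine ⟨MonoidHom.mk' (fun u => ⟨w * (u : H) * w⁻¹,
      (Subgroup.mem_normalizer_iff.mp hwU u).mp u.2⟩) ?_, fun u => rfl⟩
    intro a b
    apply Subtype.ext
    show w * ((a : H) * (b : H)) * w⁻¹ = (w * (a : H) * w⁻¹) * (w * (b : H) * w⁻¹)
    group
  have hN : V.subgroupOf U ≤ (V.subgroupOf U).comap σU := by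
    intro u hu
    rw [Subgroup.mem_comap, Subgroup.mem_subgroupOf, hσU]
    exact hVw _ (Subgroup.mem_subgroupOf.mp hu)
  obtain ⟨σb, hσb⟩ : ∃ σb : (↥U ⧸ V.subgroupOf U) →* (↥U ⧸ V.subgroupOf U),
      ∀ u : ↥U, σb (QuotientGroup.mk u) = QuotientGroup.mk (σU u) :=
    ⟨QuotientGroup.map _ _ σU hN, fun u => QuotientGroup.map_mk _ _ _ _ _⟩
  have hfixQ : ∀ q : ↥U ⧸ V.subgroupOf U, σb q = q → q = 1 := by
    intro q h
    obtain ⟨u, rfl⟩ := QuotientGroup.mk_surjective q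
    rw [hσb, QuotientGroup.eq] at h
    rw [QuotientGroup.eq_one_iff, Subgroup.mem_subgroupOf]
    apply key2 u u.2
    have h1 := Subgroup.inv_mem _ h
    have e : (((σU u)⁻¹ * u)⁻¹ : ↥U) = u⁻¹ * σU u := by group
    rw [e, Subgroup.mem_subgroupOf] at h1
    simpa [hσU] using h1
  have hσb2 : ∀ q : ↥U ⧸ V.subgroupOf U, σb (σb q) = q := by
    intro q
    obtain ⟨u, rfl⟩ := QuotientGroup.mk_surjective q
    rw [hσb, hσb]
    congr 1
    apply Subtype.ext
    rw [hσU, hσU]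
    exact hσσ _
  have finj : Function.Injective (fun q : ↥U ⧸ V.subgroupOf U => q⁻¹ * σb q) := by
    intro q r hqr
    have hqr' : q⁻¹ * σb q = r⁻¹ * σb r := hqr
    have h1 : σb (r * q⁻¹) = r * q⁻¹ := by
      rw [map_mul, map_inv]
      calc σb r * (σb q)⁻¹ = r * (r⁻¹ * σb r) * (q⁻¹ * σb q)⁻¹ * q⁻¹ := by group
        _ = r * (r⁻¹ * σb r) * (r⁻¹ * σb r)⁻¹ * q⁻¹ := by rw [hqr']
        _ = r * q⁻¹ := by group
    have h2 := hfixQ _ h1
    have h3 : r = q := by
      calc r = (r * q⁻¹) * q := by group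
        _ = q := by rw [h2, one_mul]
    exact h3.symm
  have fsurj : Function.Surjective (fun q : ↥U ⧸ V.subgroupOf U => q⁻¹ * σb q) :=
    Finite.injective_iff_surjective.mp finj
  have hinvQ : ∀ q : ↥U ⧸ V.subgroupOf U, σb q = q⁻¹ := by
    intro q
    obtain ⟨r, hr⟩ := fsurj q
    have hr' : r⁻¹ * σb r = q := hr
    rw [← hr', map_mul, map_inv, hσb2]
    group
  have hcommQ : ∀ a b : ↥U ⧸ V.subgroupOf U, a * b = b * a := by
    intro a b
    have h1 := hinvQ (a * b)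
    rw [map_mul, hinvQ a, hinvQ b] at h1
    have h3 : (a⁻¹ * b⁻¹)⁻¹ = ((a * b)⁻¹)⁻¹ := congrArg (fun z => z⁻¹) h1
    simpa using h3.symm
  refine ⟨?_, hcard4, ?_⟩
  · intro hdvd
    have hidx : V.relIndex U = Nat.card (↥U ⧸ V.subgroupOf U) := Subgroup.index_eq_card _
    rw [hidx] at hdvd
    obtain ⟨q, hq⟩ := exists_prime_orderOf_dvd_card' 2 hdvd
    have hq2 : q * q = 1 := by rw [← pow_two, ← hq]; exact pow_orderOf_eq_one q
    have hqi : q⁻¹ = q := inv_eq_of_mul_eq_one_left hq2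
    have h1 := hfixQ q (by rw [hinvQ, hqi])
    rw [h1, orderOf_one] at hq
    omega
  · rw [Subgroup.commutator_le]
    intro a ha b hb
    have h1 : ((⟨a, ha⟩ * ⟨b, hb⟩ * ⟨a, ha⟩⁻¹ * ⟨b, hb⟩⁻¹ : ↥U) : ↥U ⧸ V.subgroupOf U) = 1 := by
      rw [QuotientGroup.mk_mul, QuotientGroup.mk_mul, QuotientGroup.mk_mul, QuotientGroup.mk_inv,
        QuotientGroup.mk_inv, hcommQ (QuotientGroup.mk ⟨a, ha⟩) (QuotientGroup.mk ⟨b, hb⟩)]
      group
    rw [QuotientGroup.eq_one_iff, Subgroup.mem_subgroupOf] at h1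
    rw [commutatorElement_def]
    exact h1

end Cfsg.Agent.S3825
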