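import Cfsg.Statements.S3836
import Mathlib
import Cfsg.Agent.Lib.Helper4.Basic

set_option autoImplicit false
open Cfsg

namespace Cfsg.Agent.S3836

/-- Let G be a finite group that is p-stable in the normalizer form: for every p-subgroup Q and every x ∈ N_G(Q) with [Q, x, x] = 1, the image of x in N_G(Q)/C_G(Q) lies in O_p(N_G(Q)/C_G(Q)). Then every subgroup of G is p-stable in the same sense. -/
theorem result {G : Type*} [Group G] [Finite G] {p : ℕ} [Fact p.Prime] (hst : Cfsg.IsNormalizerPStable p G) (H : Subgroup G) : Cfsg.IsNormalizerPStable p ↥H := by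
  classical
  intro P hP g hg hquad
  -- images in G
  have hinj : Function.Injective H.subtype := H.subtype_injective
  have hP' : IsPGroup p (P.map H.subtype) := by
    have e : P ≃* P.map H.subtype := P.equivMapOfInjective H.subtype hinj
    exact hP.of_equiv e
  have hnorm : ∀ x : H, x ∈ Subgroup.normalizer (P : Set H) →
      (x : G) ∈ Subgroup.normalizer ((P.map H.subtype : Subgroup G) : Set G) := by
    intro x hx
    have := Subgroup.le_normalizer_map (H := P) H.subtype (Subgroup.mem_map_of_mem _ hx)
    simpa using this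
  have hg' := hnorm g hg
  have hquad' : ⁅⁅P.map H.subtype, Subgroup.zpowers (g : G)⁆, Subgroup.zpowers (g : G)⁆ = ⊥ := by
    have hz : Subgroup.zpowers (g : G) = (Subgroup.zpowers g).map H.subtype := by
      rw [MonoidHom.map_zpowers]; rfl
    rw [hz, ← Subgroup.map_commutator, ← Subgroup.map_commutator, hquad, Subgroup.map_bot]
  have key := hst (P.map H.subtype) hP' (g : G) hg' hquad'
  -- the map N_H(P) → N_G(P') / C
  let NG := Subgroup.normalizer ((P.map H.subtype : Subgroup G) : Set G)
  let CG := (Subgroup.centralizer ((P.map H.subtype : Subgroup G) : Set G)).subgroupOf NG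
  let NH := Subgroup.normalizer (P : Set H)
  let CH := (Subgroup.centralizer (P : Set H)).subgroupOf NH
  let φ0 : NH →* NG :=
    { toFun := fun x => ⟨(x : H), hnorm x.1 x.2⟩
      map_one' := rfl
      map_mul' := fun _ _ => rfl }
  let φ : NH →* NG ⧸ CG := (QuotientGroup.mk' CG).comp φ0
  have hker : φ.ker = CH := by
    ext x
    rw [MonoidHom.mem_ker]
    show (QuotientGroup.mk (φ0 x) : NG ⧸ CG) = 1 ↔ _
    rw [QuotientGroup.eq_one_iff]
    show ((x : H) : G) ∈ Subgroup.centralizer ((P.map H.subtype : Subgroup G) : Set G) ↔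
      (x : H) ∈ Subgroup.centralizer (P : Set H)
    rw [Subgroup.mem_centralizer_iff, Subgroup.mem_centralizer_iff]
    constructor
    · intro h a ha
      have := h (a : G) (Subgroup.mem_map_of_mem _ ha)
      exact Subtype.ext (by simpa using this)
    · rintro h _ ⟨a, ha, rfl⟩
      have := h a ha
      have h2 := congrArg (Subtype.val : H → G) this
      simpa using h2
  let ψ : NH ⧸ CH →* NG ⧸ CG := QuotientGroup.lift CH φ (by rw [hker])
  have hψinj : Function.Injective ψ := by
    rw [injective_iff_map_eq_one]
    intro q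
    induction q using QuotientGroup.induction_on with
    | H x =>
      intro h
      have h1 : φ x = 1 := h
      have h2 : x ∈ φ.ker := h1
      rw [hker] at h2
      exact (QuotientGroup.eq_one_iff x).mpr h2
  have hN : ((Cfsg.pCore p (NG ⧸ CG)).comap ψ).Normal := by
    haveI := Cfsg.Agent.Lib.Helper4.pCore_normal p (NG ⧸ CG)
    infer_instance
  have hPg : IsPGroup p ((Cfsg.pCore p (NG ⧸ CG)).comap ψ) :=
    (Cfsg.Agent.Lib.Helper4.pCore_isPGroup p (NG ⧸ CG)).comap_of_injective ψ hψinj
  have hle := Cfsg.Agent.Lib.Helper4.le_pCore hN hPg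
  apply hle
  show ψ _ ∈ Cfsg.pCore p (NG ⧸ CG)
  exact key

end Cfsg.Agent.S3836
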