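import Cfsg.Statements.S3838
import Cfsg.Agent.Lib.Helper2.Tate
import Cfsg.Agent.Lib.Helper6.FrobNC
import Cfsg.Agent.Lib.Helper6.CycSylow

set_option autoImplicit false
open Cfsg

namespace Cfsg.Agent.S3838

open Cfsg.Agent.Lib in
open scoped commutatorElement in
theorem result {G : Type*} [Group G] [Finite G] {p : ℕ} [Fact p.Prime] (P : Sylow p G) (hN : Cfsg.HasNormalPComplement p ↥(Subgroup.normalizer ((P : Subgroup G) : Set G))) (Q : Subgroup G) (h1 : (commutator ↥(P : Subgroup G)).map (P : Subgroup G).subtype ≤ Q) (h2 : Q ≤ (frattini ↥(P : Subgroup G)).map (P : Subgroup G).subtype) : Cfsg.HasNormalPComplement p ↥(Subgroup.normalizer (Q : Set G)) := by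
  classical
  have hp : p.Prime := Fact.out
  have hQP : Q ≤ (P : Subgroup G) := h2.trans (Subgroup.map_subtype_le _)
  have hcommG : ∀ a ∈ (P : Subgroup G), ∀ b ∈ (P : Subgroup G), a * b * a⁻¹ * b⁻¹ ∈ Q := by
    intro a ha b hb
    apply h1
    refine ⟨⁅(⟨a, ha⟩ : ↥(P : Subgroup G)), ⟨b, hb⟩⁆, ?_, ?_⟩
    · rw [SetLike.mem_coe, commutator_def]
      exact Subgroup.commutator_mem_commutator (Subgroup.mem_top _) (Subgroup.mem_top _)
    · simp [commutatorElement_def]
  have hPN : (P : Subgroup G) ≤ (Subgroup.normalizer (Q : Set G)) := by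
    intro y hy
    apply Lead.mem_normalizer_of_conj_le
    intro q hq
    have h3 := hcommG y hy q (hQP hq)
    have e : y * q * y⁻¹ = (y * q * y⁻¹ * q⁻¹) * q := by group
    rw [e]; exact Q.mul_mem h3 hq
  have hdecG : ∀ m ∈ Subgroup.normalizer ((P : Subgroup G) : Set G), ∃ u ∈ (P : Subgroup G),
      ∃ c ∈ Subgroup.centralizer ((P : Subgroup G) : Set G), m = u * c := by
    intro m hm
    obtain ⟨P₀, K₀, hK₀n, hc⟩ := hN
    have := hK₀n
    have hF := Helper6.frobCond_of_complement P₀ K₀ hc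
    obtain ⟨a, b, hab, ha, hb, ⟨k, hak⟩, hbcop⟩ := Helper6.exists_p_decomp' p hp m
    have hle : Subgroup.zpowers m ≤ Subgroup.normalizer ((P : Subgroup G) : Set G) :=
      Subgroup.zpowers_le.mpr hm
    have haP := Helper6.mem_sylow_of_mem_normalizer P hak (hle ha)
    refine ⟨a, haP, b, ?_, hab.symm⟩
    have hbM := hle hb
    have hPn : ((P : Subgroup G).subgroupOf (Subgroup.normalizer ((P : Subgroup G) : Set G))).Normal :=
      Subgroup.normal_in_normalizer
    have htop := Subgroup.normalizer_eq_top_iff.mpr hPn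
    have h3 := hF ((P : Subgroup G).subgroupOf (Subgroup.normalizer ((P : Subgroup G) : Set G)))
      (P.isPGroup'.comap_subtype) ⟨b, hbM⟩ (by rw [htop]; exact Subgroup.mem_top _)
      (by rw [Subgroup.orderOf_mk]; exact hbcop)
    rw [Subgroup.mem_centralizer_iff] at h3 ⊢
    intro y hy
    have h4 := h3 ⟨y, Subgroup.le_normalizer hy⟩ hy
    exact congrArg Subtype.val h4
  have hQn : (Q.subgroupOf (Subgroup.normalizer (Q : Set G))).Normal := Subgroup.normal_in_normalizer
  obtain ⟨PX, hPX⟩ : ∃ PX : Sylow p ↥(Subgroup.normalizer (Q : Set G)), (PX : Subgroup ↥(Subgroup.normalizer (Q : Set G))) = (P : Subgroup G).subgroupOf (Subgroup.normalizer (Q : Set G)) :=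
    ⟨P.subtype hPN, Sylow.coe_subtype _ hPN⟩
  have hPXmem : ∀ y : ↥(Subgroup.normalizer (Q : Set G)), y ∈ (PX : Subgroup ↥(Subgroup.normalizer (Q : Set G))) ↔ (y : G) ∈ (P : Subgroup G) := by
    intro y; rw [hPX]; exact Subgroup.mem_subgroupOf
  have hQPX : Q.subgroupOf (Subgroup.normalizer (Q : Set G)) ≤ (PX : Subgroup ↥(Subgroup.normalizer (Q : Set G))) := by
    intro y hy
    rw [hPXmem]; exact hQP (Subgroup.mem_subgroupOf.mp hy)
  have hcomm' : ∀ a ∈ (PX : Subgroup ↥(Subgroup.normalizer (Q : Set G))), ∀ b ∈ (PX : Subgroup ↥(Subgroup.normalizer (Q : Set G))), a * b * a⁻¹ * b⁻¹ ∈ Q.subgroupOf (Subgroup.normalizer (Q : Set G)) := by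
    intro a ha b hb
    rw [hPXmem] at ha hb
    rw [Subgroup.mem_subgroupOf]
    have h3 := hcommG a ha b hb
    simpa using h3
  have hnorm' : ∀ x ∈ Subgroup.normalizer ((PX : Subgroup ↥(Subgroup.normalizer (Q : Set G))) : Set ↥(Subgroup.normalizer (Q : Set G))), ∃ u ∈ (PX : Subgroup ↥(Subgroup.normalizer (Q : Set G))), ∃ c ∈ Subgroup.centralizer ((PX : Subgroup ↥(Subgroup.normalizer (Q : Set G))) : Set ↥(Subgroup.normalizer (Q : Set G))), x = u * c := by
    intro x hx
    have hxN : (x : G) ∈ Subgroup.normalizer ((P : Subgroup G) : Set G) := by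
      apply Lead.mem_normalizer_of_conj_le
      intro y hy
      have h3 := (Subgroup.mem_normalizer_iff.mp hx ⟨y, hPN hy⟩).mp ((hPXmem _).mpr hy)
      rw [hPXmem] at h3
      simpa using h3
    obtain ⟨u, hu, c, hc, hxe⟩ := hdecG x hxN
    have hcN : c ∈ (Subgroup.normalizer (Q : Set G)) := by
      have e : c = u⁻¹ * (x : G) := by rw [hxe]; group
      rw [e]; exact Subgroup.mul_mem _ (inv_mem (hPN hu)) x.2
    refine ⟨⟨u, hPN hu⟩, (hPXmem _).mpr hu, ⟨c, hcN⟩, ?_, Subtype.ext hxe⟩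
    rw [Subgroup.mem_centralizer_iff]
    intro y hy
    rw [SetLike.mem_coe, hPXmem] at hy
    apply Subtype.ext
    exact Subgroup.mem_centralizer_iff.mp hc _ hy
  obtain ⟨K, hKn, hQK, hcard, hpow⟩ := Helper2.Tate.exists_normal_of_abelian_quot PX (Q.subgroupOf (Subgroup.normalizer (Q : Set G)))
    hQPX hcomm' hnorm'
  have := hKn
  refine Helper2.Tate.tate PX (Q.subgroupOf (Subgroup.normalizer (Q : Set G))) K hQPX hQK hcard hpow ?_
  intro P₁ hP₁ hcov
  have key : ((P₁.map (Subgroup.normalizer (Q : Set G)).subtype).subgroupOf (P : Subgroup G)) = ⊤ := by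
    apply frattini_nongenerating
    rw [eq_top_iff]
    intro y _
    obtain ⟨n, hn, hny⟩ := hcov ⟨(y : G), hPN y.2⟩ ((hPXmem _).mpr y.2)
    have hnQ : (n : G) ∈ Q := Subgroup.mem_subgroupOf.mp hn
    obtain ⟨f, hf, hfe⟩ := h2 hnQ
    have hfe' : (f : G) = (n : G) := hfe
    have e : y = f * (f⁻¹ * y) := by group
    rw [e]
    refine Subgroup.mul_mem _
      ((le_sup_right : frattini ↥(P : Subgroup G) ≤ _ ⊔ frattini ↥(P : Subgroup G)) hf)
      ((le_sup_left : (P₁.map (Subgroup.normalizer (Q : Set G)).subtype).subgroupOf (P : Subgroup G) ≤ _) ?_)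
    rw [Subgroup.mem_subgroupOf]
    refine ⟨n⁻¹ * ⟨(y : G), hPN y.2⟩, hny, ?_⟩
    simp [hfe']
  intro y hy
  rw [hPXmem] at hy
  have h5 : (⟨(y : G), hy⟩ : ↥(P : Subgroup G)) ∈ (P₁.map (Subgroup.normalizer (Q : Set G)).subtype).subgroupOf (P : Subgroup G) := by
    rw [key]; trivial
  rw [Subgroup.mem_subgroupOf] at h5
  obtain ⟨z, hz, hze⟩ := h5
  have h6 : z = y := Subtype.ext hze
  rw [← h6]; exact hz

end Cfsg.Agent.S3838
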