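import Cfsg.Statements.S3862
import Mathlib
import Cfsg.Agent.Lib.Helper6.FrobNC
import Cfsg.Agent.Lib.Helper6.OmegaCent

set_option autoImplicit false
open Cfsg

namespace Cfsg.Agent.S3862


open Cfsg.Agent.Lib.Helper6

/-- If every 2-element of the finite group G that is conjugate to its inverse lies in the centre of G, then G has a normal 2-complement. -/
theorem result {G : Type*} [Group G] [Finite G] (h : ∀ x : G, (∃ j : ℕ, orderOf x = 2 ^ j) → IsConj x x⁻¹ → x ∈ Subgroup.center G) : Cfsg.HasNormalPComplement 2 G := by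
  apply frobenius_npc
  intro Q hQ g hg hcop
  have hA : (Nat.card (Subgroup.zpowers g)).Coprime 2 := by rw [Nat.card_zpowers]; exact hcop
  have hAP : Subgroup.zpowers g ≤ Subgroup.normalizer (Q : Set G) := Subgroup.zpowers_le.mpr hg
  have hkey := centralizes_of_centralizes_omega (Subgroup.zpowers g) Q hA hQ hAP ?_
  · exact hkey (Subgroup.mem_zpowers g)
  · intro x hx hx2 a ha
    have hx4 : x ^ 4 = 1 := by
      rcases hx2 with h1 | ⟨_, h1⟩
      · have : x ^ 4 = (x ^ 2) ^ 2 := by rw [← pow_mul]
        rw [this, h1, one_pow]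
      · exact h1
    have h2elt : ∀ t ∈ Q, ∃ j : ℕ, orderOf t = 2 ^ j := by
      intro t ht
      obtain ⟨j, hj⟩ := (IsPGroup.iff_orderOf.mp hQ) ⟨t, ht⟩
      rw [Subgroup.orderOf_mk] at hj
      exact ⟨j, hj⟩
    -- elements of `Q` squaring to `1` are central
    have hinv : ∀ t ∈ Q, t ^ 2 = 1 → t ∈ Subgroup.center G := by
      intro t ht ht2
      apply h t (h2elt t ht)
      have e : t⁻¹ = t := by
        have : t * t = 1 := by rw [← pow_two]; exact ht2
        exact inv_eq_of_mul_eq_one_left this
      rw [e]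
    have haN : a ∈ Subgroup.normalizer (Q : Set G) := hAP ha
    obtain ⟨y, hy⟩ : ∃ y : G, y = a * x * a⁻¹ := ⟨_, rfl⟩
    have hyQ : y ∈ Q := by rw [hy]; exact (Subgroup.mem_normalizer_iff.mp haN x).mp hx
    obtain ⟨z, hz⟩ : ∃ z : G, z = x ^ 2 := ⟨_, rfl⟩
    have hzQ : z ∈ Q := by rw [hz]; exact pow_mem hx 2
    have hz2 : z ^ 2 = 1 := by rw [hz, ← pow_mul]; exact hx4
    have hzc : ∀ t : G, t * z = z * t := fun t => Subgroup.mem_center_iff.mp (hinv z hzQ hz2) t
    have hy2 : y ^ 2 = z := by
      rw [hy, conj_pow, ← hz]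
      rw [hzc a]; group
    have hxx : x * x = z := by rw [hz, pow_two]
    have hyy : y * y = z := by rw [← hy2, pow_two]
    have hzz : z * z = 1 := by rw [← pow_two]; exact hz2
    have hxinv : x⁻¹ = x * z := by
      apply inv_eq_of_mul_eq_one_right
      calc x * (x * z) = (x * x) * z := by group
        _ = 1 := by rw [hxx, hzz]
    have hyinv : y⁻¹ = y * z := by
      apply inv_eq_of_mul_eq_one_right
      calc y * (y * z) = (y * y) * z := by group
        _ = 1 := by rw [hyy, hzz]
    -- `w = x y` is real, hence central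
    have hwreal : x * (x * y) * x⁻¹ = (x * y)⁻¹ := by
      have e1 : (x * y)⁻¹ = y * x := by
        rw [mul_inv_rev, hxinv, hyinv]
        calc y * z * (x * z) = y * (z * x) * z := by group
          _ = y * (x * z) * z := by rw [hzc x]
          _ = y * x * (z * z) := by group
          _ = y * x := by rw [hzz, mul_one]
      rw [e1, hxinv]
      calc x * (x * y) * (x * z) = (x * x) * y * x * z := by group
        _ = z * y * x * z := by rw [hxx]
        _ = y * z * x * z := by rw [hzc y]
        _ = y * (z * x) * z := by group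
        _ = y * (x * z) * z := by rw [hzc x]
        _ = y * x * (z * z) := by group
        _ = y * x := by rw [hzz, mul_one]
    have hwc : x * y ∈ Subgroup.center G := by
      apply h (x * y) (h2elt _ (mul_mem hx hyQ))
      exact isConj_iff.mpr ⟨x, hwreal⟩
    have hxy : x * y = y * x := by
      have h1 := Subgroup.mem_center_iff.mp hwc x
      -- x * (x * y) = (x * y) * x
      have h2 : x * (x * y) = x * (y * x) := by rw [h1]; group
      exact mul_left_cancel h2
    -- `c = y x⁻¹` is central of order dividing 2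
    obtain ⟨c, hc⟩ : ∃ c : G, c = y * x⁻¹ := ⟨_, rfl⟩
    have hcQ : c ∈ Q := by rw [hc]; exact mul_mem hyQ (inv_mem hx)
    have hc2 : c ^ 2 = 1 := by
      rw [hc, pow_two, hxinv]
      calc y * (x * z) * (y * (x * z)) = y * ((x * z) * y) * (x * z) := by group
        _ = y * (x * (z * y)) * (x * z) := by group
        _ = y * (x * (y * z)) * (x * z) := by rw [hzc y]
        _ = y * ((x * y) * z) * (x * z) := by group
        _ = y * ((y * x) * z) * (x * z) := by rw [hxy]
        _ = (y * y) * (x * (z * x)) * z := by group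
        _ = (y * y) * (x * (x * z)) * z := by rw [hzc x]
        _ = (y * y) * (x * x) * (z * z) := by group
        _ = 1 := by rw [hyy, hxx, hzz, mul_one]
    have hcc : ∀ t : G, t * c = c * t := fun t => Subgroup.mem_center_iff.mp (hinv c hcQ hc2) t
    have hycx : a * x * a⁻¹ = c * x := by rw [← hy, hc]; group
    have hcc1 : c * c = 1 := by rw [← pow_two]; exact hc2
    have ha2 : a ^ 2 * x = x * a ^ 2 := by
      have e : a ^ 2 * x * (a ^ 2)⁻¹ = x := by
        calc a ^ 2 * x * (a ^ 2)⁻¹ = a * (a * x * a⁻¹) * a⁻¹ := by rw [pow_two]; group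
          _ = a * (c * x) * a⁻¹ := by rw [hycx]
          _ = (a * c) * x * a⁻¹ := by group
          _ = (c * a) * x * a⁻¹ := by rw [hcc a]
          _ = c * (a * x * a⁻¹) := by group
          _ = c * (c * x) := by rw [hycx]
          _ = (c * c) * x := by group
          _ = x := by rw [hcc1, one_mul]
      calc a ^ 2 * x = (a ^ 2 * x * (a ^ 2)⁻¹) * a ^ 2 := (inv_mul_cancel_right _ _).symm
        _ = x * a ^ 2 := by rw [e]
    have hao : (2 : ℕ).Coprime (orderOf a) := by
      have h1 : orderOf a ∣ orderOf g := orderOf_dvd_of_mem_zpowers ha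
      exact (Nat.Coprime.coprime_dvd_left h1 hcop).symm
    obtain ⟨m, hm⟩ := exists_pow_eq_self_of_coprime hao
    have hcomm : Commute (a ^ 2) x := ha2
    have hcomm2 : Commute a x := by
      have := hcomm.pow_left m
      rwa [hm] at this
    rw [hcomm2.eq, mul_inv_cancel_right]

end Cfsg.Agent.S3862
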