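import Cfsg.Statements.S3863
import Cfsg.Agent.Lib.Helper6.RealElt

set_option autoImplicit false
open Cfsg

namespace Cfsg.Agent.S3863

/-- Let x be an element of the finite group G that is conjugate to its inverse. Then some 2-element conjugates x to its inverse; if the conjugacy class of x has odd size then x ^ 2 = 1; and x lies in, and is conjugate to its inverse inside, every normal subgroup of odd index. -/
theorem result {G : Type*} [Group G] [Finite G] (x : G) (hx : IsConj x x⁻¹) : (∃ t : G, (∃ j : ℕ, orderOf t = 2 ^ j) ∧ t * x * t⁻¹ = x⁻¹) ∧ (Odd (Subgroup.centralizer ({x} : Set G)).index → x ^ 2 = 1) ∧ ∀ (N : Subgroup G) [N.Normal], Odd N.index → ∃ hxN : x ∈ N, IsConj (⟨x, hxN⟩ : N) (⟨x, hxN⟩ : N)⁻¹ := by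
  refine ⟨Cfsg.Agent.Lib.Helper6.exists_two_elt_inverting hx,
    Cfsg.Agent.Lib.Helper6.sq_eq_one_of_real_of_odd_index hx, ?_⟩
  intro N _ hN
  obtain ⟨t, htN, hxN, ht⟩ := Cfsg.Agent.Lib.Helper6.real_in_odd_index_normal hx N hN
  refine ⟨hxN, isConj_iff.mpr ⟨⟨t, htN⟩, ?_⟩⟩
  apply Subtype.ext
  simpa using ht

end Cfsg.Agent.S3863
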