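import Cfsg.Statements.S3866
import Cfsg.Agent.Lib.Helper6.Comm

set_option autoImplicit false
open Cfsg

namespace Cfsg.Agent.S3866

/-- Let A be a commutative normal subgroup of the finite group G with G generated by A and an element x. Then a ↦ x a x⁻¹ a⁻¹ is a surjective homomorphism from A onto the commutator subgroup of G whose kernel is the centralizer of x in A; in particular the commutator subgroup has order equal to the index in A of that centralizer. -/
theorem result {G : Type*} [Group G] [Finite G] (A : Subgroup G) [A.Normal] (hA : IsMulCommutative A) (x : G) (hgen : A ⊔ Subgroup.zpowers x = ⊤) : (∀ a ∈ A, x * a * x⁻¹ * a⁻¹ ∈ commutator G) ∧ (∀ c ∈ commutator G, ∃ a ∈ A, x * a * x⁻¹ * a⁻¹ = c) ∧ (∀ a ∈ A, ∀ b ∈ A, x * (a * b) * x⁻¹ * (a * b)⁻¹ = (x * a * x⁻¹ * a⁻¹) * (x * b * x⁻¹ * b⁻¹)) ∧ Nat.card (commutator G) * Nat.card ↥(A ⊓ Subgroup.centralizer ({x} : Set G)) = Nat.card A := by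
  have hAn : A.Normal := inferInstance
  have hcomm : ∀ a ∈ A, ∀ b ∈ A, a * b = b * a := by
    intro a ha b hb
    exact congrArg Subtype.val (isMulCommutative_iff.mp hA ⟨a, ha⟩ ⟨b, hb⟩)
  have hconj : ∀ a ∈ A, x * a * x⁻¹ ∈ A := fun a ha => hAn.conj_mem a ha x
  have hcA : ∀ a ∈ A, x * a * x⁻¹ * a⁻¹ ∈ A := fun a ha => A.mul_mem (hconj a ha) (A.inv_mem ha)
  have h1 : ∀ a ∈ A, x * a * x⁻¹ * a⁻¹ ∈ commutator G := by
    intro a _
    rw [commutator_eq_closure]
    exact Subgroup.subset_closure ⟨x, a, rfl⟩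
  have h3 : ∀ a ∈ A, ∀ b ∈ A, x * (a * b) * x⁻¹ * (a * b)⁻¹
      = (x * a * x⁻¹ * a⁻¹) * (x * b * x⁻¹ * b⁻¹) := by
    intro a ha b hb
    calc x * (a * b) * x⁻¹ * (a * b)⁻¹ = (x * a * x⁻¹) * ((x * b * x⁻¹ * b⁻¹) * a⁻¹) := by group
      _ = (x * a * x⁻¹) * (a⁻¹ * (x * b * x⁻¹ * b⁻¹)) := by
          rw [hcomm _ (hcA b hb) _ (A.inv_mem ha)]
      _ = (x * a * x⁻¹ * a⁻¹) * (x * b * x⁻¹ * b⁻¹) := by group
  let φ : A →* A := MonoidHom.mk' (fun a => ⟨x * a * x⁻¹ * a⁻¹, hcA a a.2⟩) (by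
    intro a b
    apply Subtype.ext
    exact h3 a a.2 b b.2)
  have hDmem : ∀ d : G, d ∈ φ.range.map A.subtype ↔ ∃ a ∈ A, x * a * x⁻¹ * a⁻¹ = d := by
    intro d
    constructor
    · rintro ⟨_, ⟨a, rfl⟩, rfl⟩
      exact ⟨a, a.2, rfl⟩
    · rintro ⟨a, ha, rfl⟩
      exact ⟨φ ⟨a, ha⟩, ⟨⟨a, ha⟩, rfl⟩, rfl⟩
  have hDA : φ.range.map A.subtype ≤ A := by
    rintro _ ⟨u, _, rfl⟩
    exact u.2
  have hS : Subgroup.closure ((A : Set G) ∪ {x}) = ⊤ := by
    rw [Subgroup.closure_union, Subgroup.closure_eq, ← Subgroup.zpowers_eq_closure, hgen]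
  have hDn : (φ.range.map A.subtype).Normal := by
    apply Cfsg.Agent.Lib.Helper6.normal_of_gens_conj_mem _ _ hS
    rintro s (hs | hs) d hd
    · have hdA := hDA hd
      have : s * d * s⁻¹ = d := by
        rw [hcomm s hs d hdA]; group
      rw [this]; exact hd
    · rw [Set.mem_singleton_iff] at hs
      subst hs
      rw [hDmem] at hd ⊢
      obtain ⟨a, ha, rfl⟩ := hd
      exact ⟨s * a * s⁻¹, hconj a ha, by group⟩
  have hle : commutator G ≤ φ.range.map A.subtype := by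
    apply Cfsg.Agent.Lib.Helper6.commutator_le_of_gens _ _ hS
    rintro s (hs | hs) t (ht | ht)
    · have : s * t * s⁻¹ * t⁻¹ = 1 := by
        rw [hcomm s hs t ht]; group
      rw [this]; exact Subgroup.one_mem _
    · rw [Set.mem_singleton_iff] at ht
      subst ht
      have h4 : t * s * t⁻¹ * s⁻¹ ∈ φ.range.map A.subtype := (hDmem _).mpr ⟨s, hs, rfl⟩
      have h5 : s * t * s⁻¹ * t⁻¹ = (t * s * t⁻¹ * s⁻¹)⁻¹ := by group
      rw [h5]; exact Subgroup.inv_mem _ h4
    · rw [Set.mem_singleton_iff] at hs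
      subst hs
      exact (hDmem _).mpr ⟨t, ht, rfl⟩
    · rw [Set.mem_singleton_iff] at hs ht
      rw [hs, ht]
      have : x * x * x⁻¹ * x⁻¹ = 1 := by group
      rw [this]; exact Subgroup.one_mem _
  have heq : commutator G = φ.range.map A.subtype := by
    apply le_antisymm hle
    intro d hd
    obtain ⟨a, ha, rfl⟩ := (hDmem d).mp hd
    exact h1 a ha
  refine ⟨h1, ?_, h3, ?_⟩
  · intro c hc
    exact (hDmem c).mp (hle hc)
  · have hker : φ.ker.map A.subtype = A ⊓ Subgroup.centralizer ({x} : Set G) := by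
      ext g
      constructor
      · rintro ⟨a, hak', rfl⟩
        have hak : a ∈ φ.ker := hak'
        refine ⟨a.2, ?_⟩
        show (a : G) ∈ Subgroup.centralizer ({x} : Set G)
        rw [Subgroup.mem_centralizer_iff]
        intro h hh
        rw [Set.mem_singleton_iff] at hh
        subst hh
        rw [MonoidHom.mem_ker] at hak
        have h6 : h * (a : G) * h⁻¹ * (a : G)⁻¹ = 1 := congrArg Subtype.val hak
        rw [mul_inv_eq_one, mul_inv_eq_iff_eq_mul] at h6
        exact h6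
      · rintro ⟨hgA, hgC'⟩
        have hgC : g ∈ Subgroup.centralizer ({x} : Set G) := hgC'
        refine ⟨⟨g, hgA⟩, ?_, rfl⟩
        show (⟨g, hgA⟩ : A) ∈ φ.ker
        rw [MonoidHom.mem_ker]
        apply Subtype.ext
        rw [Subgroup.mem_centralizer_iff] at hgC
        have h6 := hgC x rfl
        show x * g * x⁻¹ * g⁻¹ = 1
        rw [h6]; group
    rw [heq, ← hker, Subgroup.card_map_of_injective A.subtype_injective,
      Subgroup.card_map_of_injective A.subtype_injective, ← Subgroup.index_ker, mul_comm]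
    exact Subgroup.card_mul_index φ.ker

end Cfsg.Agent.S3866
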