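import Cfsg.Statements.S3879
import Mathlib

set_option autoImplicit false
open Cfsg

namespace Cfsg.Agent.S3879

open scoped commutatorElement

theorem nt_lte {p : ℕ} [hp : Fact p.Prime] (hp2 : p ≠ 2) (α m i : ℕ) (hm : 1 ≤ m)
    (hpm : α = 0 ∨ p ∣ m) : p ^ α ∣ (m + 1) ^ (p ^ i) - 1 ↔ p ^ α ∣ m * p ^ i := by
  rcases hpm with h0 | hpm
  · subst h0; simp
  have hpp : p.Prime := hp.out
  have hodd : Odd p := hpp.odd_of_ne_two hp2
  have hx : ¬ p ∣ m + 1 := by
    intro h
    have h1 : p ∣ 1 := (Nat.dvd_add_right hpm).1 h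
    exact hpp.one_lt.ne' (Nat.dvd_one.1 h1)
  have hpi : p ^ i ≠ 0 := pow_ne_zero i hpp.ne_zero
  have hm0 : m ≠ 0 := by omega
  have hlte := padicValNat.pow_sub_pow hodd (show 1 < m + 1 by omega)
    (by rw [Nat.add_sub_cancel]; exact hpm) hx hpi
  rw [one_pow, Nat.add_sub_cancel, padicValNat.prime_pow] at hlte
  have hne1 : (m + 1) ^ (p ^ i) - 1 ≠ 0 := by
    have h1 : 1 < (m + 1) ^ (p ^ i) := Nat.one_lt_pow hpi (by omega)
    omega
  have hne2 : m * p ^ i ≠ 0 := Nat.mul_ne_zero hm0 hpi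
  rw [padicValNat_dvd_iff_le hne1, padicValNat_dvd_iff_le hne2, hlte,
    padicValNat.mul hm0 hpi, padicValNat.prime_pow]

/-- Let p be an odd prime and G a finite metacyclic p-group (G has a cyclic normal subgroup with cyclic quotient). Then the index of the center of G is the square of the order of the derived subgroup: |G : Z(G)| = |G'|². -/
theorem result {G : Type*} [Group G] [Finite G] {p : ℕ} [Fact p.Prime] (hp : p ≠ 2) (hG : IsPGroup p G) (hmc : Cfsg.IsMetacyclic G) : (Subgroup.center G).index = Nat.card ↥(commutator G) ^ 2 := by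
  classical
  have hpp : p.Prime := Fact.out
  obtain ⟨N, hNn, hNc, hQc⟩ := hmc
  haveI := hNn
  haveI := hNc
  haveI := hQc
  obtain ⟨a', ha'⟩ := IsCyclic.exists_generator (α := ↥N)
  obtain ⟨a, haa⟩ : ∃ a : G, a = (a' : G) := ⟨_, rfl⟩
  have haN : a ∈ N := by rw [haa]; exact a'.2
  have hF1 : ∀ x ∈ N, ∃ i : ℕ, x = a ^ i := by
    intro x hx
    have h1 := ha' ⟨x, hx⟩
    have h2 := (isOfFinOrder_of_finite a').mem_powers_iff_mem_zpowers.2 h1
    obtain ⟨i, hi⟩ := (Submonoid.mem_powers_iff _ _).1 h2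
    refine ⟨i, ?_⟩
    have h3 := congrArg Subtype.val hi
    rw [haa]
    simpa using h3.symm
  have hNcomm : ∀ x ∈ N, ∀ y ∈ N, x * y = y * x := by
    intro x hx y hy
    obtain ⟨i, rfl⟩ := hF1 x hx
    obtain ⟨j, rfl⟩ := hF1 y hy
    rw [← pow_add, ← pow_add, add_comm]
  obtain ⟨n, hn⟩ : ∃ n, n = orderOf a := ⟨_, rfl⟩
  have hn1 : 1 ≤ n := by rw [hn]; exact orderOf_pos a
  have han : a ^ n = 1 := by rw [hn]; exact pow_orderOf_eq_one a
  obtain ⟨β, hβ⟩ := IsCyclic.exists_generator (α := G ⧸ N)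
  obtain ⟨b, rfl⟩ := QuotientGroup.mk_surjective β
  have hdecomp : ∀ g : G, ∃ j : ℕ, ∃ x : G, x ∈ N ∧ g = b ^ j * x := by
    intro g
    have hg := hβ (QuotientGroup.mk g)
    have hg' := (isOfFinOrder_of_finite (QuotientGroup.mk b : G ⧸ N)).mem_powers_iff_mem_zpowers.2 hg
    obtain ⟨j, hj⟩ := (Submonoid.mem_powers_iff _ _).1 hg'
    refine ⟨j, (b ^ j)⁻¹ * g, ?_, by group⟩
    apply QuotientGroup.eq.1
    rw [QuotientGroup.mk_pow]; exact hj
  obtain ⟨r0, hr0⟩ := hF1 (b * a * b⁻¹) (hNn.conj_mem a haN b)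
  obtain ⟨m, hmdef⟩ : ∃ m, m = r0 + n + (n - 1) := ⟨_, rfl⟩
  have hm1 : 1 ≤ m := by omega
  have hba : b * a * b⁻¹ = a ^ (m + 1) := by
    have e : m + 1 = r0 + n + n := by omega
    rw [e, pow_add, pow_add, han, mul_one, mul_one]; exact hr0
  have hF5 : ∀ x ∈ N, b * x * b⁻¹ = x ^ (m + 1) := by
    intro x hx
    obtain ⟨i, rfl⟩ := hF1 x hx
    rw [← conj_pow, hba, ← pow_mul, ← pow_mul, mul_comm (m + 1) i]
  have hF5' : ∀ x ∈ N, b * x = x ^ m * (x * b) := by
    intro x hx
    have h := hF5 x hx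
    calc b * x = b * x * b⁻¹ * b := by group
      _ = x ^ (m + 1) * b := by rw [h]
      _ = x ^ m * (x * b) := by rw [pow_succ, mul_assoc]
  obtain ⟨D, hD⟩ : ∃ D : Subgroup G, D = Subgroup.zpowers (a ^ m) := ⟨_, rfl⟩
  have hxmD : ∀ x ∈ N, x ^ m ∈ D := by
    intro x hx
    obtain ⟨i, rfl⟩ := hF1 x hx
    rw [hD, ← pow_mul, mul_comm i m, pow_mul]
    exact Subgroup.pow_mem _ (Subgroup.mem_zpowers _) i
  have hDn : D.Normal := by
    constructor
    intro d hd g
    rw [hD] at hd ⊢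
    obtain ⟨z, rfl⟩ := Subgroup.mem_zpowers_iff.1 hd
    obtain ⟨i, hi⟩ := hF1 (g * a * g⁻¹) (hNn.conj_mem a haN g)
    have e : g * (a ^ m) ^ z * g⁻¹ = ((a ^ m) ^ i) ^ z := by
      rw [← conj_zpow, ← conj_pow, hi, ← pow_mul, ← pow_mul, mul_comm i m]
    rw [e]
    exact Subgroup.zpow_mem _ (Subgroup.pow_mem _ (Subgroup.mem_zpowers _) i) z
  haveI := hDn
  have hcomm : commutator G = D := by
    apply le_antisymm
    · show ⁅(⊤ : Subgroup G), ⊤⁆ ≤ D
      rw [Subgroup.commutator_le]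
      intro g _ h _
      apply (QuotientGroup.eq_one_iff (N := D) _).1
      obtain ⟨i, x, hx, rfl⟩ := hdecomp g
      obtain ⟨j, y, hy, rfl⟩ := hdecomp h
      have c1 : Commute (QuotientGroup.mk x : G ⧸ D) (QuotientGroup.mk y) := by
        show (QuotientGroup.mk x : G ⧸ D) * QuotientGroup.mk y
          = QuotientGroup.mk y * QuotientGroup.mk x
        rw [← QuotientGroup.mk_mul, ← QuotientGroup.mk_mul, hNcomm x hx y hy]
      have c2 : ∀ z ∈ N, Commute (QuotientGroup.mk b : G ⧸ D) (QuotientGroup.mk z) := by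
        intro z hz
        show (QuotientGroup.mk b : G ⧸ D) * QuotientGroup.mk z
          = QuotientGroup.mk z * QuotientGroup.mk b
        rw [← QuotientGroup.mk_mul, ← QuotientGroup.mk_mul, hF5' z hz, QuotientGroup.mk_mul,
          (QuotientGroup.eq_one_iff (N := D) _).2 (hxmD z hz), one_mul]
      have hA : Commute ((QuotientGroup.mk b : G ⧸ D) ^ i)
          ((QuotientGroup.mk b : G ⧸ D) ^ j * QuotientGroup.mk y) :=
        (Commute.pow_pow_self _ i j).mul_right ((c2 y hy).pow_left i)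
      have hB : Commute (QuotientGroup.mk x : G ⧸ D)
          ((QuotientGroup.mk b : G ⧸ D) ^ j * QuotientGroup.mk y) :=
        ((c2 x hx).symm.pow_right j).mul_right c1
      have hAB := hA.mul_left hB
      have e : (QuotientGroup.mk ⁅b ^ i * x, b ^ j * y⁆ : G ⧸ D)
          = ⁅(QuotientGroup.mk b : G ⧸ D) ^ i * QuotientGroup.mk x,
              (QuotientGroup.mk b : G ⧸ D) ^ j * QuotientGroup.mk y⁆ := by
        rw [commutatorElement_def, commutatorElement_def]
        simp only [QuotientGroup.mk_mul, QuotientGroup.mk_inv, QuotientGroup.mk_pow]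
      rw [e]
      exact commutatorElement_eq_one_iff_commute.2 hAB
    · rw [hD, Subgroup.zpowers_le]
      have e : a ^ m = ⁅b, a⁆ := by
        rw [commutatorElement_def, hba, pow_succ]; group
      rw [e]
      exact Subgroup.commutator_mem_commutator (Subgroup.mem_top b) (Subgroup.mem_top a)
  obtain ⟨φ, hφ⟩ : ∃ φ : G →* MulAut ↥N, φ = MulAut.conjNormal := ⟨_, rfl⟩
  have hφapp : ∀ (g : G) (x : ↥N), ((φ g x : ↥N) : G) = g * x * g⁻¹ := by
    intro g x
    rw [hφ]; exact MulAut.conjNormal_apply g x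
  have hφ1 : ∀ g : G, φ g = 1 ↔ ∀ x ∈ N, g * x = x * g := by
    intro g
    constructor
    · intro h x hx
      have h1 := hφapp g ⟨x, hx⟩
      rw [h] at h1
      have h2 : x = g * x * g⁻¹ := h1
      calc g * x = g * x * g⁻¹ * g := by group
        _ = x * g := by rw [← h2]
    · intro h
      apply MulEquiv.ext
      intro x
      apply Subtype.ext
      rw [hφapp, h x.1 x.2]
      simp
  have hφN : ∀ x ∈ N, φ x = 1 := by
    intro x hx
    rw [hφ1]
    intro y hy
    exact hNcomm x hx y hy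
  obtain ⟨K, hK⟩ : ∃ K : Subgroup G, K = φ.ker := ⟨_, rfl⟩
  have hKmem : ∀ g, g ∈ K ↔ ∀ x ∈ N, g * x = x * g := by
    intro g
    rw [hK, MonoidHom.mem_ker]; exact hφ1 g
  have hrange : φ.range = Subgroup.zpowers (φ b) := by
    apply le_antisymm
    · rintro _ ⟨g, rfl⟩
      obtain ⟨j, x, hx, rfl⟩ := hdecomp g
      rw [map_mul, map_pow, hφN x hx, mul_one]
      exact Subgroup.pow_mem _ (Subgroup.mem_zpowers _) j
    · rw [Subgroup.zpowers_le]
      exact ⟨b, rfl⟩
  have hKidx : K.index = orderOf (φ b) := by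
    rw [hK, Subgroup.index_ker, hrange, Nat.card_zpowers]
  have hcen : ∀ g : G, g ∈ Subgroup.center G ↔ (g * b = b * g ∧ ∀ x ∈ N, g * x = x * g) := by
    intro g
    rw [Subgroup.mem_center_iff]
    constructor
    · intro h
      exact ⟨(h b).symm, fun x _ => (h x).symm⟩
    · rintro ⟨hb, hx⟩ h
      obtain ⟨j, x, hxN, rfl⟩ := hdecomp h
      have c1 : Commute g (b ^ j) := (show Commute g b from hb).pow_right j
      have c2 : Commute g x := hx x hxN
      exact (c1.mul_right c2).eq.symm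
  have hZK : Subgroup.center G ≤ K := by
    intro g hg
    rw [hKmem]
    exact ((hcen g).1 hg).2
  have hNK : N ≤ K := by
    intro x hx
    rw [hKmem]
    intro y hy
    exact hNcomm x hx y hy
  have hKsup : K = Subgroup.center G ⊔ N := by
    apply le_antisymm
    · intro g hg
      obtain ⟨j, x, hx, rfl⟩ := hdecomp g
      have hbj : b ^ j ∈ K := by
        have h1 : b ^ j = (b ^ j * x) * x⁻¹ := by group
        rw [h1]
        exact K.mul_mem hg (K.inv_mem (hNK hx))
      have hbjZ : b ^ j ∈ Subgroup.center G := by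
        rw [hcen]
        refine ⟨?_, (hKmem _).1 hbj⟩
        rw [← pow_succ, ← pow_succ']
      exact Subgroup.mul_mem_sup hbjZ hx
    · exact sup_le hZK hNK
  have hidx1 : (Subgroup.center G).index = (Subgroup.center G).relIndex N * orderOf (φ b) := by
    rw [← Subgroup.relIndex_mul_index hZK, hKidx, hKsup, Subgroup.relIndex_sup_left]
  have hrel : (Subgroup.center G).relIndex N = orderOf (a ^ m) := by
    have hcommN : ∀ x y : ↥N, x * y = y * x := by
      intro x y
      exact Subtype.ext (hNcomm x.1 x.2 y.1 y.2)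
    obtain ⟨δ, hδ⟩ : ∃ δ : ↥N →* ↥N, ∀ x : ↥N, δ x = x ^ m :=
      ⟨MonoidHom.mk' (fun x : ↥N => x ^ m)
        (fun x y => (show Commute x y from hcommN x y).mul_pow m), fun x => rfl⟩
    have hker : δ.ker = (Subgroup.center G).subgroupOf N := by
      ext x
      rw [MonoidHom.mem_ker, hδ, Subgroup.mem_subgroupOf, hcen]
      constructor
      · intro h
        have h1 : (x : G) ^ m = 1 := by
          have h0 := congrArg Subtype.val h
          simpa using h0
        refine ⟨?_, fun y hy => hNcomm x.1 x.2 y hy⟩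
        have h2 := hF5' x.1 x.2
        rw [h1, one_mul] at h2
        exact h2.symm
      · rintro ⟨h, _⟩
        apply Subtype.ext
        have h2 := hF5' x.1 x.2
        rw [← h] at h2
        have h3 : (x : G) ^ m = 1 := by
          calc (x : G) ^ m = (x : G) ^ m * ((x : G) * b) * ((x : G) * b)⁻¹ := by group
            _ = ((x : G) * b) * ((x : G) * b)⁻¹ := by rw [← h2]
            _ = 1 := mul_inv_cancel _
        simpa using h3
    have hrangeδ : δ.range = Subgroup.zpowers (a' ^ m) := by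
      apply le_antisymm
      · rintro _ ⟨x, rfl⟩
        obtain ⟨z, rfl⟩ := Subgroup.mem_zpowers_iff.1 (ha' x)
        have e : (a' ^ z) ^ m = (a' ^ m) ^ z := by
          rw [← zpow_natCast (a' ^ z) m, ← zpow_natCast a' m, ← zpow_mul, ← zpow_mul,
            mul_comm z (m : ℤ)]
        rw [hδ, e]
        exact Subgroup.zpow_mem _ (Subgroup.mem_zpowers _) z
      · rw [Subgroup.zpowers_le]
        exact ⟨a', hδ a'⟩
    have h1 : ((Subgroup.center G).subgroupOf N).index = Nat.card δ.range := by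
      rw [← hker]; exact Subgroup.index_ker δ
    show ((Subgroup.center G).subgroupOf N).index = orderOf (a ^ m)
    rw [h1, hrangeδ, Nat.card_zpowers, ← Subgroup.orderOf_coe, Subgroup.coe_pow, haa]
  have hconjpow : ∀ j : ℕ, b ^ j * a * (b ^ j)⁻¹ = a ^ ((m + 1) ^ j) := by
    intro j
    induction j with
    | zero => simp
    | succ j ih =>
      have e : b ^ (j + 1) * a * (b ^ (j + 1))⁻¹ = b * (b ^ j * a * (b ^ j)⁻¹) * b⁻¹ := by
        rw [pow_succ']; group
      rw [e, ih, hF5 _ (N.pow_mem haN _), ← pow_mul, ← pow_succ]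
  have hα1 : ∀ j : ℕ, (φ b) ^ j = 1 ↔ n ∣ (m + 1) ^ j - 1 := by
    intro j
    have hpos : 1 ≤ (m + 1) ^ j := Nat.one_le_pow _ _ (by omega)
    rw [← map_pow, hφ1]
    constructor
    · intro h
      have h1 := h a haN
      have h2 : a ^ ((m + 1) ^ j) = a ^ 1 := by
        rw [← hconjpow j, pow_one, h1]; group
      rw [pow_eq_pow_iff_modEq, ← hn] at h2
      exact (Nat.modEq_iff_dvd' hpos).1 h2.symm
    · intro h x hx
      obtain ⟨i, rfl⟩ := hF1 x hx
      have h2 : a ^ ((m + 1) ^ j) = a ^ 1 := by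
        rw [pow_eq_pow_iff_modEq, ← hn]
        exact ((Nat.modEq_iff_dvd' hpos).2 h).symm
      rw [pow_one] at h2
      have h3 : b ^ j * a = a * b ^ j := by
        calc b ^ j * a = b ^ j * a * (b ^ j)⁻¹ * b ^ j := by group
          _ = a * b ^ j := by rw [hconjpow j, h2]
      exact ((show Commute (b ^ j) a from h3).pow_right i).eq
  have hα2 : ∀ j : ℕ, (a ^ m) ^ j = 1 ↔ n ∣ m * j := by
    intro j
    rw [← pow_mul, hn, orderOf_dvd_iff_pow_eq_one]
  obtain ⟨kb, hkb⟩ := (IsPGroup.iff_orderOf.1 hG) b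
  obtain ⟨α, hα⟩ := (IsPGroup.iff_orderOf.1 hG) a
  have hnp : n = p ^ α := by rw [hn]; exact hα
  obtain ⟨s, -, hs⟩ : ∃ s ≤ kb, orderOf (φ b) = p ^ s := by
    apply (Nat.dvd_prime_pow hpp).1
    rw [← hkb]; exact orderOf_map_dvd φ b
  obtain ⟨t, -, ht⟩ : ∃ t ≤ α, orderOf (a ^ m) = p ^ t := by
    apply (Nat.dvd_prime_pow hpp).1
    rw [← hα]; exact orderOf_pow_dvd m
  have hpm : α = 0 ∨ p ∣ m := by
    rcases Nat.eq_zero_or_pos α with h0 | hpos
    · left; exact h0
    · right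
      have h1 : (φ b) ^ (p ^ s) = 1 := by rw [← hs]; exact pow_orderOf_eq_one _
      have h2 := (hα1 (p ^ s)).1 h1
      have h3 : p ∣ (m + 1) ^ (p ^ s) - 1 := by
        refine dvd_trans ?_ h2
        rw [hnp]; exact dvd_pow_self p (by omega)
      have h4 : (((m + 1) ^ (p ^ s) - 1 : ℕ) : ZMod p) = 0 := (ZMod.natCast_eq_zero_iff _ _).2 h3
      rw [Nat.cast_sub (Nat.one_le_pow _ _ (by omega)), Nat.cast_pow, ZMod.pow_card_pow] at h4
      have h5 : ((m : ℕ) : ZMod p) = 0 := by
        push_cast at h4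
        simpa using h4
      exact (ZMod.natCast_eq_zero_iff _ _).1 h5
  have hord : orderOf (φ b) = orderOf (a ^ m) := by
    apply Nat.dvd_antisymm
    · rw [ht, orderOf_dvd_iff_pow_eq_one, hα1, hnp, nt_lte hp α m t hm1 hpm, ← hnp, ← hα2, ← ht]
      exact pow_orderOf_eq_one _
    · rw [hs, orderOf_dvd_iff_pow_eq_one, hα2, hnp, ← nt_lte hp α m s hm1 hpm, ← hnp, ← hα1, ← hs]
      exact pow_orderOf_eq_one _
  rw [hidx1, hrel, hord, hcomm, hD, Nat.card_zpowers, pow_two]

end Cfsg.Agent.S3879
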