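import Cfsg.Statements.S3909
import Cfsg.Agent.Lib.Helper6.PSub

set_option autoImplicit false
open Cfsg

namespace Cfsg.Agent.S3909

theorem part1 {G : Type*} [Group G] [Finite G] (hB : ∀ A B : Subgroup G, IsMulCommutative ↥A → IsMulCommutative ↥B → Nat.card ↥A = Nat.card ↥B → ∃ g : G, B = A.map (MulAut.conj g).toMonoidHom) (M : Subgroup G) [M.Normal] :
    ∀ a : G, (∃ m ∈ M, orderOf m = orderOf a) → a ∈ M := by
  have hMn : M.Normal := inferInstance
  rintro a ⟨m, hm, hma⟩
  obtain ⟨g, hg⟩ := hB (Subgroup.zpowers m) (Subgroup.zpowers a) inferInstance inferInstance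
    (by rw [Nat.card_zpowers, Nat.card_zpowers, hma])
  have ha : a ∈ (Subgroup.zpowers m).map (MulAut.conj g).toMonoidHom := by
    rw [← hg]; exact Subgroup.mem_zpowers a
  obtain ⟨x, hx, rfl⟩ := ha
  have hxM : x ∈ M := (Subgroup.zpowers_le.mpr hm) hx
  simpa [MulAut.conj_apply] using hMn.conj_mem x hxM g

open Cfsg.Agent.Lib.Helper6 in
/-- Let G be a finite group in which any two abelian subgroups of the same order are conjugate. Let M be a normal subgroup of G. If M contains an element of the same order as a ∈ G, then a ∈ M; and if M is elementary abelian of order p^t with p prime and t ≥ 2, then M is the unique Sylow p-subgroup of G. -/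
theorem result {G : Type*} [Group G] [Finite G] (hB : ∀ A B : Subgroup G, IsMulCommutative ↥A → IsMulCommutative ↥B → Nat.card ↥A = Nat.card ↥B → ∃ g : G, B = A.map (MulAut.conj g).toMonoidHom) (M : Subgroup G) [M.Normal] :
    (∀ a : G, (∃ m ∈ M, orderOf m = orderOf a) → a ∈ M) ∧
    ∀ (p t : ℕ) [Fact p.Prime], 2 ≤ t → Nat.card ↥M = p ^ t → Cfsg.IsElementaryAbelian p M → ∀ P : Sylow p G, (P : Subgroup G) = M := by
  have h1 := part1 hB M
  refine ⟨h1, ?_⟩
  intro p t _ ht hcard hM P
  have hp := Fact.out (p := p.Prime)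
  obtain ⟨hMc, hMe⟩ := hM
  have hMp : IsPGroup p ↥M := IsPGroup.of_card hcard
  have hMP : M ≤ (P : Subgroup G) :=
    le_sylow_of_normalizes P M hMp (by rw [Subgroup.normalizer_eq_top]; exact le_top)
  apply le_antisymm _ hMP
  intro x hxP
  by_contra hxM
  obtain ⟨j, hj⟩ := orderOf_mem_sylow P hxP
  -- an element of order p in M
  have hMnt : ∃ m ∈ M, orderOf m = p := by
    have hne : M ≠ ⊥ := by
      intro hbot
      rw [hbot, Subgroup.card_bot] at hcard
      have : 1 < p ^ t := Nat.one_lt_pow (by omega) hp.one_lt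
      omega
    obtain ⟨⟨m, hm⟩, hm1⟩ := (Subgroup.ne_bot_iff_exists_ne_one).mp hne
    refine ⟨m, hm, ?_⟩
    have h2 : orderOf m ∣ p := orderOf_dvd_of_pow_eq_one (hMe m hm)
    rcases (Nat.dvd_prime hp).mp h2 with h3 | h3
    · exfalso
      apply hm1
      apply Subtype.ext
      exact orderOf_eq_one_iff.mp h3
    · exact h3
  have hj2 : 2 ≤ j := by
    by_contra hlt
    push Not at hlt
    interval_cases j
    · rw [pow_zero, orderOf_eq_one_iff] at hj
      exact hxM (hj ▸ M.one_mem)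
    · rw [pow_one] at hj
      obtain ⟨m, hm, hmp⟩ := hMnt
      exact hxM (h1 x ⟨m, hm, by rw [hmp, hj]⟩)
  -- cyclic subgroup of order p^2
  have hpj : p ^ (j - 2) ≠ 0 := pow_ne_zero _ hp.ne_zero
  have hx' : orderOf (x ^ (p ^ (j - 2))) = p ^ 2 := by
    rw [orderOf_pow_of_dvd hpj (by rw [hj]; exact pow_dvd_pow p (by omega)), hj,
      Nat.pow_div (by omega) hp.pos]
    congr 1
    omega
  -- subgroup of order p^2 in M
  obtain ⟨K, hK⟩ := Sylow.exists_subgroup_card_pow_prime (G := ↥M) p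
    (show p ^ 2 ∣ Nat.card ↥M by rw [hcard]; exact pow_dvd_pow p ht)
  have hEcard : Nat.card ↥(K.map M.subtype) = p ^ 2 := by
    rw [Subgroup.card_map_of_injective (Subgroup.subtype_injective M), hK]
  have hEM : K.map M.subtype ≤ M := by
    rintro _ ⟨k, -, rfl⟩
    exact k.2
  have hMcomm : ∀ a ∈ M, ∀ b ∈ M, a * b = b * a := by
    intro a ha b hb
    have := isMulCommutative_iff.mp hMc ⟨a, ha⟩ ⟨b, hb⟩
    exact congrArg Subtype.val this
  have hEc : IsMulCommutative ↥(K.map M.subtype) :=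
    ⟨⟨fun a b => Subtype.ext (hMcomm a (hEM a.2) b (hEM b.2))⟩⟩
  obtain ⟨g, hg⟩ := hB (K.map M.subtype) (Subgroup.zpowers (x ^ (p ^ (j - 2)))) hEc inferInstance
    (by rw [hEcard, Nat.card_zpowers, hx'])
  have hmem : x ^ (p ^ (j - 2)) ∈ (K.map M.subtype).map (MulAut.conj g).toMonoidHom := by
    rw [← hg]; exact Subgroup.mem_zpowers _
  obtain ⟨e, he, hex⟩ := hmem
  have hep : e ^ p = 1 := hMe e (hEM he)
  have hxp : (x ^ (p ^ (j - 2))) ^ p = 1 := by
    rw [← hex, ← map_pow, hep, map_one]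
  have hdvd : p ^ 2 ∣ p := by
    rw [← hx']; exact orderOf_dvd_of_pow_eq_one hxp
  have := Nat.le_of_dvd hp.pos hdvd
  have h2 := hp.two_le
  nlinarith

end Cfsg.Agent.S3909
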