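import Cfsg.Statements.S3910
import Cfsg.Agent.S3909
import Cfsg.Agent.Lib.Helper6.NilpComm

set_option autoImplicit false
open Cfsg

namespace Cfsg.Agent.S3910

open Cfsg.Agent.Lib.Helper6 in
/-- A finite nilpotent group in which any two abelian subgroups of the same order are conjugate is cyclic. -/
theorem result {G : Type*} [Group G] [Finite G] (hB : ∀ A B : Subgroup G, IsMulCommutative ↥A → IsMulCommutative ↥B → Nat.card ↥A = Nat.card ↥B → ∃ g : G, B = A.map (MulAut.conj g).toMonoidHom) (hnil : Group.IsNilpotent G) : IsCyclic G := by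
  classical
  obtain ⟨x, hx⟩ := Finite.exists_max (fun g : G => orderOf g)
  have hn0 : orderOf x ≠ 0 := (orderOf_pos x).ne'
  have hdvd : ∀ a : G, orderOf a ∣ orderOf x := by
    intro a
    have ha0 : orderOf a ≠ 0 := (orderOf_pos a).ne'
    rw [← Nat.factorization_prime_le_iff_dvd ha0 hn0]
    intro p hp
    by_contra hlt
    push Not at hlt
    have : Fact p.Prime := ⟨hp⟩
    have hu : orderOf (a ^ (orderOf a / p ^ (orderOf a).factorization p))
        = p ^ (orderOf a).factorization p := by
      have h1 : p ^ (orderOf a).factorization p * (orderOf a / p ^ (orderOf a).factorization p)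
          = orderOf a := Nat.ordProj_mul_ordCompl_eq_self (orderOf a) p
      have h2 : orderOf a / p ^ (orderOf a).factorization p ≠ 0 := by
        intro h0; rw [h0, mul_zero] at h1; exact ha0 h1.symm
      rw [orderOf_pow_of_dvd h2 (Dvd.intro_left _ h1)]
      exact Nat.div_eq_of_eq_mul_left (Nat.pos_of_ne_zero h2) h1.symm
    have h1 : p ^ (orderOf x).factorization p * (orderOf x / p ^ (orderOf x).factorization p)
        = orderOf x := Nat.ordProj_mul_ordCompl_eq_self (orderOf x) p
    have hv : orderOf (x ^ (p ^ (orderOf x).factorization p))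
        = orderOf x / p ^ (orderOf x).factorization p := by
      rw [orderOf_pow_of_dvd (pow_ne_zero _ hp.ne_zero) (Dvd.intro _ h1)]
    have hcop : (orderOf (x ^ (p ^ (orderOf x).factorization p))).Coprime p := by
      rw [hv]; exact (Nat.coprime_ordCompl hp hn0).symm
    have hcomm := commute_of_pelt_of_coprime hnil hu hcop
    have hord : orderOf (a ^ (orderOf a / p ^ (orderOf a).factorization p)
        * x ^ (p ^ (orderOf x).factorization p))
        = p ^ (orderOf a).factorization p * (orderOf x / p ^ (orderOf x).factorization p) := by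
      rw [hcomm.orderOf_mul_eq_mul_orderOf_of_coprime
        (by rw [hu]; exact Nat.Coprime.pow_left _ hcop.symm), hu, hv]
    have hmax := hx (a ^ (orderOf a / p ^ (orderOf a).factorization p)
        * x ^ (p ^ (orderOf x).factorization p))
    have hmax' : p ^ (orderOf a).factorization p * (orderOf x / p ^ (orderOf x).factorization p)
        ≤ orderOf x := by rw [← hord]; exact hmax
    have h3 : p ^ (orderOf x).factorization p < p ^ (orderOf a).factorization p :=
      Nat.pow_lt_pow_right hp.one_lt hlt
    have h4 : 0 < orderOf x / p ^ (orderOf x).factorization p := by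
      rcases Nat.eq_zero_or_pos (orderOf x / p ^ (orderOf x).factorization p) with h | h
      · rw [h, mul_zero] at h1; exact absurd h1.symm hn0
      · exact h
    nlinarith
  by_contra hnc
  have hne : Subgroup.zpowers x ≠ ⊤ := by
    intro htop
    exact hnc (isCyclic_iff_exists_zpowers_eq_top.mpr ⟨x, htop⟩)
  obtain ⟨M, hM, hxM⟩ := (eq_top_or_exists_le_coatom (Subgroup.zpowers x)).resolve_left hne
  have hcoat : ∀ H : Subgroup G, IsCoatom H → H.Normal :=
    ((Group.isNilpotent_of_finite_tfae (G := G)).out 0 2).mp hnil
  have hMn : M.Normal := hcoat M hM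
  apply hM.1
  rw [eq_top_iff]
  intro a _
  apply Cfsg.Agent.S3909.part1 hB M a
  refine ⟨x ^ (orderOf x / orderOf a), hxM (Subgroup.pow_mem _ (Subgroup.mem_zpowers x) _), ?_⟩
  obtain ⟨c, hc⟩ := hdvd a
  have ha0 : 0 < orderOf a := orderOf_pos a
  have hc0 : c ≠ 0 := by intro h; rw [h, mul_zero] at hc; exact hn0 hc
  have e : orderOf x / orderOf a = c := by rw [hc]; exact Nat.mul_div_cancel_left c ha0
  rw [e, orderOf_pow_of_dvd hc0 (Dvd.intro_left _ hc.symm), hc]
  exact Nat.mul_div_cancel _ (Nat.pos_of_ne_zero hc0)

end Cfsg.Agent.S3910
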