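import Cfsg.Statements.S3917
import Mathlib

set_option autoImplicit false
open Cfsg

namespace Cfsg.Agent.S3917

/-- Say that a group has self-centralizing non-cyclic subgroups when every non-cyclic subgroup H satisfies C_G(H) ≤ H. A finite abelian group with self-centralizing non-cyclic subgroups is cyclic or elementary abelian of order p² for a prime p. -/
theorem result {G : Type*} [CommGroup G] [Finite G] (hX : (∀ H : Subgroup G, ¬ IsCyclic ↥H → Subgroup.centralizer (H : Set G) ≤ H)) :
    IsCyclic G ∨ ∃ p : ℕ, p.Prime ∧ Nat.card G = p ^ 2 ∧ Monoid.exponent G = p := by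
  by_contra hcon
  push Not at hcon
  obtain ⟨hnc, hnp⟩ := hcon
  have hXtop : ∀ H : Subgroup G, ¬ IsCyclic ↥H → H = ⊤ := by
    intro H hH
    rw [eq_top_iff]
    intro g _
    apply hX H hH
    rw [Subgroup.mem_centralizer_iff]
    intro h _
    exact mul_comm h g
  let T : ℕ → Subgroup G := fun n => (powMonoidHom n : G →* G).ker
  have hT : ∀ (n : ℕ) (g : G), g ∈ T n ↔ g ^ n = 1 := by
    intro n g
    simp [T, MonoidHom.mem_ker]
  have hncyc : ∀ (H : Subgroup G) (p : ℕ), 0 < p → (∀ h ∈ H, h ^ p = 1) → p < Nat.card H →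
      ¬ IsCyclic ↥H := by
    intro H p hp0 hp hlt hc
    have h1 : Monoid.exponent ↥H = Nat.card ↥H := IsCyclic.exponent_eq_card
    have h2 : Monoid.exponent ↥H ∣ p :=
      Monoid.exponent_dvd_of_forall_pow_eq_one (fun h => Subtype.ext (by simpa using hp h.1 h.2))
    have h3 := Nat.le_of_dvd hp0 h2
    omega
  have hex : ∃ n, 0 < n ∧ n < Nat.card (T n) := by
    refine ⟨Monoid.exponent G, Monoid.exponent_pos.mpr (Monoid.ExponentExists.of_finite), ?_⟩
    have h1 : T (Monoid.exponent G) = ⊤ := by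
      rw [eq_top_iff]; intro g _; rw [hT]; exact Monoid.pow_exponent_eq_one g
    rw [h1, Subgroup.card_top]
    have h2 : Monoid.exponent G ∣ Nat.card G := Group.exponent_dvd_nat_card
    have h3 : Monoid.exponent G ≠ Nat.card G := fun h => hnc (IsCyclic.iff_exponent_eq_card.mpr h)
    exact lt_of_le_of_ne (Nat.le_of_dvd Nat.card_pos h2) h3
  classical
  obtain ⟨hn0, hnlt⟩ := Nat.find_spec hex
  have hmin : ∀ m, m < Nat.find hex → ¬ (0 < m ∧ m < Nat.card (T m)) :=
    fun m hm => Nat.find_min hex hm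
  generalize Nat.find hex = n at hn0 hnlt hmin
  have hn1 : n ≠ 1 := by
    intro h1
    rw [h1] at hnlt
    have : T 1 = ⊥ := by
      rw [eq_bot_iff]; intro g hg; rw [hT, pow_one] at hg; exact Subgroup.mem_bot.mpr hg
    rw [this, Subgroup.card_bot] at hnlt
    omega
  have hp : (n.minFac).Prime := Nat.minFac_prime hn1
  obtain ⟨m, hm⟩ := Nat.minFac_dvd n
  generalize n.minFac = p at hp hm
  have hm0 : 0 < m := by
    rcases Nat.eq_zero_or_pos m with h | h
    · rw [h, mul_zero] at hm; omega
    · exact h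
  have hmn : m < n := by rw [hm]; nlinarith [hp.two_le]
  have hTm : Nat.card (T m) ≤ m := by
    have := hmin m hmn
    push Not at this
    exact this hm0
  let f : ↥(T n) →* G := (powMonoidHom m : G →* G).comp (T n).subtype
  have hrange : f.range ≤ T p := by
    rintro _ ⟨x, rfl⟩
    rw [hT]
    show ((x : G) ^ m) ^ p = 1
    rw [← pow_mul, mul_comm, ← hm]
    exact (hT n x).mp x.2
  have hker : Nat.card f.ker ≤ Nat.card (T m) := by
    apply Nat.card_le_card_of_injective
      (fun x : ↥f.ker => (⟨((x : ↥(T n)) : G), (hT m _).mpr x.2⟩ : ↥(T m)))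
    intro x y hxy
    have hxy' : (⟨((x : ↥(T n)) : G), (hT m _).mpr x.2⟩ : ↥(T m))
        = (⟨((y : ↥(T n)) : G), (hT m _).mpr y.2⟩ : ↥(T m)) := hxy
    have h3 : ((x : ↥(T n)) : G) = ((y : ↥(T n)) : G) := congrArg (fun z : ↥(T m) => (z : G)) hxy'
    exact Subtype.ext (Subtype.ext h3)
  have hcard : Nat.card (T n) = Nat.card f.ker * Nat.card f.range := by
    rw [← Subgroup.index_ker, Subgroup.card_mul_index]
  have hTp : p < Nat.card (T p) := by
    have h1 : Nat.card f.range ≤ Nat.card (T p) := Subgroup.card_le_of_le hrange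
    have h2 : p * m < m * Nat.card (T p) := by
      calc p * m = n := hm.symm
        _ < Nat.card (T n) := hnlt
        _ = Nat.card f.ker * Nat.card f.range := hcard
        _ ≤ m * Nat.card (T p) := Nat.mul_le_mul (hker.trans hTm) h1
    nlinarith
  have hTtop : T p = ⊤ :=
    hXtop (T p) (hncyc (T p) p hp.pos (fun h hh => (hT p h).mp hh) hTp)
  have hpow : ∀ g : G, g ^ p = 1 := fun g => (hT p g).mp (hTtop ▸ Subgroup.mem_top g)
  have hexp : Monoid.exponent G = p := by
    have h1 : Monoid.exponent G ∣ p := Monoid.exponent_dvd_of_forall_pow_eq_one hpow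
    rcases (Nat.dvd_prime hp).mp h1 with h | h
    · exfalso
      have hsub : Subsingleton G := Monoid.exp_eq_one_iff.mp h
      exact hnc isCyclic_of_subsingleton
    · exact h
  have hpG : IsPGroup p G := fun g => ⟨1, by rw [pow_one]; exact hpow g⟩
  have : Fact p.Prime := ⟨hp⟩
  obtain ⟨k, hk⟩ := IsPGroup.iff_card.mp hpG
  have hGp : p < Nat.card G := by rw [hTtop, Subgroup.card_top] at hTp; exact hTp
  have hk2 : 2 ≤ k := by
    by_contra h
    push Not at h
    interval_cases k
    · rw [pow_zero] at hk; have := hp.two_le; omega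
    · rw [pow_one] at hk; omega
  obtain ⟨K, hK⟩ := Sylow.exists_subgroup_card_pow_prime p
    (show p ^ 2 ∣ Nat.card G by rw [hk]; exact pow_dvd_pow p hk2)
  have hKtop : K = ⊤ :=
    hXtop K (hncyc K p hp.pos (fun h _ => hpow h) (by rw [hK]; nlinarith [hp.two_le]))
  apply hnp p hp _ hexp
  rw [← hK, hKtop, Subgroup.card_top]

end Cfsg.Agent.S3917
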