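import Cfsg.Statements.S3918
import Mathlib
import Cfsg.Agent.Lib.Lead.NormalEA

set_option autoImplicit false
open Cfsg

namespace Cfsg.Agent.S3918


open Cfsg.Agent.Lib.Lead

/-- Say that a group has self-centralizing non-cyclic subgroups when every non-cyclic subgroup H satisfies C_G(H) ≤ H. For an odd prime p, a finite non-abelian p-group has self-centralizing non-cyclic subgroups if and only if it has order p³. -/
theorem result {G : Type*} [Group G] [Finite G] {p : ℕ} [Fact p.Prime] (hp : p ≠ 2) (hG : IsPGroup p G) (hna : ¬ IsMulCommutative G) :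
    (∀ H : Subgroup G, ¬ IsCyclic ↥H → Subgroup.centralizer (H : Set G) ≤ H) ↔ Nat.card G = p ^ 3 := by
  classical
  have hpp : p.Prime := Fact.out
  have hncomm : ¬ ∀ a b : G, a * b = b * a := fun h => hna ⟨⟨h⟩⟩
  constructor
  · intro hyp
    have hnc : ¬ IsCyclic G := by
      intro hc
      haveI := hc
      apply hncomm
      intro a b
      obtain ⟨g, hg⟩ := IsCyclic.exists_generator (α := G)
      obtain ⟨i, rfl⟩ := Subgroup.mem_zpowers_iff.mp (hg a)
      obtain ⟨j, rfl⟩ := Subgroup.mem_zpowers_iff.mp (hg b)
      rw [← zpow_add, ← zpow_add, add_comm]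
    obtain ⟨A, hAn, hAea, hAcard⟩ := exists_normal_elemAb_sq p hp (Nat.card G) G rfl hG hnc
    have hAnc : ¬ IsCyclic ↥A := by
      intro hc
      haveI := hc
      obtain ⟨g, hg⟩ := IsCyclic.exists_generator (α := ↥A)
      have h1 : orderOf g = Nat.card ↥A := orderOf_eq_card_of_forall_mem_zpowers hg
      have h2 : g ^ p = 1 := by
        apply Subtype.ext
        rw [Subgroup.coe_pow]
        exact hAea.2 g.1 g.2
      have h3 : orderOf g ∣ p := orderOf_dvd_of_pow_eq_one h2
      rw [h1, hAcard] at h3
      have h4 := Nat.le_of_dvd hpp.pos h3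
      nlinarith [hpp.two_le]
    have hCA : Subgroup.centralizer (A : Set G) ≤ A := hyp A hAnc
    have hAcomm : ∀ a ∈ A, ∀ b ∈ A, a * b = b * a := by
      intro a ha b hb
      have h := hAea.1.is_comm.comm (⟨a, ha⟩ : ↥A) ⟨b, hb⟩
      exact congrArg Subtype.val h
    have hex : ∃ e ∈ A, e ∉ Subgroup.center G := by
      by_contra hcon
      push_neg at hcon
      apply hncomm
      have hall : ∀ g : G, g ∈ A := by
        intro g
        apply hCA
        rw [Subgroup.mem_centralizer_iff]
        intro a ha
        exact ((Subgroup.mem_center_iff.mp (hcon a ha)) g).symm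
      intro a b
      exact hAcomm a (hall a) b (hall b)
    obtain ⟨e, heA, heZ⟩ := hex
    haveI := hAn
    have hA0 : A ≠ ⊥ := by
      intro h
      rw [h, Subgroup.mem_bot] at heA
      rw [heA] at heZ
      exact heZ (Subgroup.one_mem _)
    obtain ⟨z, hzA, hzZ, hzo⟩ := exists_central_order_p hG A hA0
    have hz1 : z ≠ 1 := by
      intro h
      rw [h, orderOf_one] at hzo
      exact hpp.one_lt.ne hzo
    letI act : MulAction G ↥A := MulAction.compHom ↥A (MulAut.conjNormal (H := A))
    have hsmul : ∀ (x : G) (l : ↥A), ((x • l : ↥A) : G) = x * (l : G) * x⁻¹ := by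
      intro x l
      rfl
    obtain ⟨ea, hea⟩ : ∃ ea : ↥A, ea = ⟨e, heA⟩ := ⟨_, rfl⟩
    have hea' : (ea : G) = e := by rw [hea]
    obtain ⟨n, hn⟩ := hG.index (MulAction.stabilizer G ea)
    have hidx := MulAction.index_stabilizer G ea
    have horb : (MulAction.orbit G ea).ncard < Nat.card ↥A := by
      apply Set.ncard_lt_card
      intro huniv
      have h1 : (1 : ↥A) ∈ MulAction.orbit G ea := by rw [huniv]; exact Set.mem_univ _
      obtain ⟨g, hg⟩ := MulAction.mem_orbit_iff.mp h1
      have h2 := congrArg Subtype.val hg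
      rw [hsmul, hea'] at h2
      have h3 : g * e * g⁻¹ = 1 := h2
      rw [conj_eq_one_iff] at h3
      rw [h3] at heZ
      exact heZ (Subgroup.one_mem _)
    rw [← hidx, hn, hAcard] at horb
    have hn1 : n < 2 := (Nat.pow_lt_pow_iff_right hpp.one_lt).mp horb
    have hSC : MulAction.stabilizer G ea ≤ Subgroup.centralizer (A : Set G) := by
      intro x hx
      rw [MulAction.mem_stabilizer_iff] at hx
      have h2 := congrArg Subtype.val hx
      rw [hsmul, hea'] at h2
      have hxe : e * x = x * e := by
        calc e * x = x * e * x⁻¹ * x := by rw [h2]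
          _ = x * e := by group
      obtain ⟨K, hK⟩ : ∃ K : Subgroup G, K = A ⊓ Subgroup.centralizer {x} := ⟨_, rfl⟩
      have hKA : K ≤ A := by rw [hK]; exact inf_le_left
      have heK : e ∈ K := by
        rw [hK]
        exact Subgroup.mem_inf.mpr ⟨heA, Subgroup.mem_centralizer_singleton_iff.mpr hxe⟩
      have hzK : z ∈ K := by
        rw [hK]
        exact Subgroup.mem_inf.mpr ⟨hzA, Subgroup.mem_centralizer_singleton_iff.mpr
          ((Subgroup.mem_center_iff.mp hzZ x).symm)⟩
      have hdvd : Nat.card ↥K ∣ p ^ 2 := by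
        rw [← hAcard]; exact Subgroup.card_dvd_of_le hKA
      obtain ⟨j, hj, hjc⟩ := (Nat.dvd_prime_pow hpp).mp hdvd
      have hKeq : K = A := by
        obtain rfl | rfl | rfl : j = 0 ∨ j = 1 ∨ j = 2 := by omega
        · exfalso
          rw [pow_zero] at hjc
          have hb := Subgroup.eq_bot_of_card_eq K hjc
          rw [hb, Subgroup.mem_bot] at hzK
          exact hz1 hzK
        · exfalso
          rw [pow_one] at hjc
          have hz1' : (⟨z, hzK⟩ : ↥K) ≠ 1 := by
            intro h
            exact hz1 (congrArg Subtype.val h)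
          have hmem := mem_zpowers_of_prime_card hjc hz1' (g' := (⟨e, heK⟩ : ↥K))
          obtain ⟨k, hk⟩ := Subgroup.mem_zpowers_iff.mp hmem
          have hk' : z ^ k = e := by
            have := congrArg Subtype.val hk
            simpa using this
          apply heZ
          rw [← hk']
          exact Subgroup.zpow_mem _ hzZ k
        · exact Subgroup.eq_of_le_of_card_ge hKA (le_of_eq (by rw [hjc, hAcard]))
      rw [Subgroup.mem_centralizer_iff]
      intro a ha
      have haK : a ∈ K := by rw [hKeq]; exact ha
      rw [hK] at haK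
      exact Subgroup.mem_centralizer_singleton_iff.mp (Subgroup.mem_inf.mp haK).2
    have hSle : Nat.card ↥(MulAction.stabilizer G ea) ≤ p ^ 2 := by
      rw [← hAcard]
      exact Subgroup.card_le_of_le (hSC.trans hCA)
    have hmul := Subgroup.card_mul_index (MulAction.stabilizer G ea)
    rw [hn] at hmul
    have hle3 : Nat.card G ≤ p ^ 3 := by
      rw [← hmul]
      calc Nat.card ↥(MulAction.stabilizer G ea) * p ^ n ≤ p ^ 2 * p ^ 1 :=
            Nat.mul_le_mul hSle (Nat.pow_le_pow_right hpp.pos (by omega))
        _ = p ^ 3 := by ring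
    obtain ⟨k, hk⟩ := IsPGroup.iff_card.mp hG
    have hk2 : 2 ≤ k := by
      have h1 : p ^ 2 ∣ p ^ k := by
        rw [← hk, ← hAcard]; exact Subgroup.card_subgroup_dvd_card A
      exact (Nat.pow_dvd_pow_iff_le_right hpp.one_lt).mp h1
    have hk3 : k ≤ 3 := by
      rw [hk] at hle3
      exact (Nat.pow_le_pow_iff_right hpp.one_lt).mp hle3
    have hkne : k ≠ 2 := by
      intro h
      rw [h] at hk
      exact hncomm (IsPGroup.commutative_of_card_eq_prime_sq hk)
    have hk3' : k = 3 := by omega
    rw [hk, hk3']
  · intro hcard H hH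
    by_contra hcon
    obtain ⟨x, hxC, hxH⟩ := SetLike.not_le_iff_exists.mp hcon
    have hdvd : Nat.card ↥H ∣ p ^ 3 := by
      rw [← hcard]; exact Subgroup.card_subgroup_dvd_card H
    obtain ⟨j, hj, hjc⟩ := (Nat.dvd_prime_pow hpp).mp hdvd
    obtain rfl | rfl | rfl | rfl : j = 0 ∨ j = 1 ∨ j = 2 ∨ j = 3 := by omega
    · rw [pow_zero] at hjc
      apply hH
      haveI : Subsingleton ↥H := (Nat.card_eq_one_iff_unique.mp hjc).1
      exact isCyclic_of_subsingleton
    · rw [pow_one] at hjc
      exact hH (isCyclic_of_prime_card (p := p) hjc)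
    · have hHab : ∀ a ∈ H, ∀ b ∈ H, a * b = b * a := by
        intro a ha b hb
        have h := IsPGroup.commutative_of_card_eq_prime_sq hjc (⟨a, ha⟩ : ↥H) ⟨b, hb⟩
        exact congrArg Subtype.val h
      rw [Subgroup.mem_centralizer_iff] at hxC
      have hsup : H ⊔ Subgroup.zpowers x = ⊤ := by
        have hdvd2 : Nat.card ↥(H ⊔ Subgroup.zpowers x) ∣ p ^ 3 := by
          rw [← hcard]; exact Subgroup.card_subgroup_dvd_card _
        obtain ⟨i, hi, hic⟩ := (Nat.dvd_prime_pow hpp).mp hdvd2
        have hi2 : 2 ≤ i := by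
          have h1 : p ^ 2 ∣ p ^ i := by
            rw [← hjc, ← hic]; exact Subgroup.card_dvd_of_le le_sup_left
          exact (Nat.pow_dvd_pow_iff_le_right hpp.one_lt).mp h1
        have hine : i ≠ 2 := by
          intro h
          rw [h] at hic
          have h1 : H = H ⊔ Subgroup.zpowers x :=
            Subgroup.eq_of_le_of_card_ge le_sup_left (le_of_eq (by rw [hic, hjc]))
          apply hxH
          rw [h1]
          exact Subgroup.mem_sup_right (Subgroup.mem_zpowers x)
        have hi3 : i = 3 := by omega
        apply Subgroup.eq_top_of_card_eq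
        rw [hic, hi3, hcard]
      have key : ∀ W : Subgroup G, H ≤ W → x ∈ W → ∀ g : G, g ∈ W := by
        intro W hHW hxW g
        have h1 : H ⊔ Subgroup.zpowers x ≤ W := sup_le hHW (Subgroup.zpowers_le.mpr hxW)
        rw [hsup] at h1
        exact h1 (Subgroup.mem_top g)
      have h1 : ∀ g : G, g ∈ Subgroup.centralizer (H : Set G) ⊓ Subgroup.centralizer {x} := by
        apply key
        · intro h hh
          refine Subgroup.mem_inf.mpr ⟨?_, ?_⟩
          · rw [Subgroup.mem_centralizer_iff]
            intro k hk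
            exact hHab k hk h hh
          · exact Subgroup.mem_centralizer_singleton_iff.mpr (hxC h hh)
        · refine Subgroup.mem_inf.mpr ⟨?_, ?_⟩
          · rw [Subgroup.mem_centralizer_iff]; exact hxC
          · exact Subgroup.mem_centralizer_singleton_iff.mpr rfl
      apply hncomm
      intro a b
      have h2 : ∀ g : G, g ∈ Subgroup.centralizer ({b} : Set G) := by
        apply key
        · intro h hh
          have hb := (Subgroup.mem_inf.mp (h1 b)).1
          rw [Subgroup.mem_centralizer_iff] at hb
          exact Subgroup.mem_centralizer_singleton_iff.mpr (hb h hh)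
        · have hb := (Subgroup.mem_inf.mp (h1 b)).2
          exact Subgroup.mem_centralizer_singleton_iff.mpr
            (Subgroup.mem_centralizer_singleton_iff.mp hb).symm
      exact Subgroup.mem_centralizer_singleton_iff.mp (h2 a)
    · have hT : H = ⊤ := Subgroup.eq_top_of_card_eq H (by rw [hjc, hcard])
      apply hxH
      rw [hT]
      exact Subgroup.mem_top x

end Cfsg.Agent.S3918
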