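import Mathlib
import Cfsg.Statements.S3919
import Cfsg.Agent.Lib.Helper7.MaxClass2
import Cfsg.Agent.Lib.Helper5.UniqueP

set_option autoImplicit false
open Cfsg

namespace Cfsg.Agent.S3919

open scoped commutatorElement
universe u

/-- Suzuki: a 2-group with an element whose centralizer has order at most 4 has maximal class. -/
theorem suzuki : ∀ (n : ℕ) (X : Type u) [Group X] [Finite X], Nat.card X = 2 ^ n →
    ∀ u : X, Nat.card (Subgroup.centralizer ({u} : Set X)) ≤ 4 →
      n ≤ Group.nilpotencyClass X + 1 := by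
  intro n
  induction n with
  | zero => intro X _ _ _ _ _; omega
  | succ n ih =>
    intro X _ _ hX u hu
    haveI : Fact (Nat.Prime 2) := ⟨Nat.prime_two⟩
    have hXp : IsPGroup 2 X := IsPGroup.of_card hX
    haveI : Group.IsNilpotent X := hXp.isNilpotent
    haveI : Nontrivial X := by
      rw [← Finite.one_lt_card_iff_nontrivial, hX]
      exact Nat.one_lt_pow (by omega) (by norm_num)
    have hcl := Group.nilpotencyClass_eq_quotient_center_plus_one (G := X)
    by_cases hn : n ≤ 1
    · omega
    obtain ⟨k, hk⟩ := (hXp.to_subgroup (Subgroup.center X)).exists_card_eq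
    obtain ⟨j, hj⟩ := (hXp.to_subgroup (Subgroup.centralizer ({u} : Set X))).exists_card_eq
    have hle : Subgroup.center X ≤ Subgroup.centralizer ({u} : Set X) :=
      Subgroup.center_le_centralizer _
    have hj2 : j ≤ 2 := by
      by_contra hcon
      have : 2 ^ 3 ≤ 2 ^ j := Nat.pow_le_pow_right (by norm_num) (by omega)
      rw [hj] at hu; omega
    have hk1 : 1 ≤ k := by
      by_contra hcon
      have hk0 : k = 0 := by omega
      rw [hk0, pow_zero] at hk
      haveI := hXp.center_nontrivial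
      have := Finite.one_lt_card (α := Subgroup.center X)
      omega
    have hkj : k < j := by
      by_contra hcon
      have hge : Nat.card (Subgroup.centralizer ({u} : Set X)) ≤ Nat.card (Subgroup.center X) := by
        rw [hk, hj]; exact Nat.pow_le_pow_right (by norm_num) (by omega)
      have heq := Subgroup.eq_of_le_of_card_ge hle hge
      have hu1 : u ∈ Subgroup.center X := by
        rw [heq, Subgroup.mem_centralizer_iff]
        intro y hy
        rw [Set.mem_singleton_iff] at hy
        rw [hy]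
      have htop : Subgroup.centralizer ({u} : Set X) = ⊤ := by
        rw [eq_top_iff]; intro x _
        rw [Subgroup.mem_centralizer_iff]
        intro y hy
        rw [Set.mem_singleton_iff] at hy
        rw [hy]
        exact (Subgroup.mem_center_iff.mp hu1 x).symm
      rw [htop, Subgroup.card_top, hX] at hu
      have : 2 ^ 3 ≤ 2 ^ (n + 1) := Nat.pow_le_pow_right (by norm_num) (by omega)
      omega
    have hk1' : k = 1 := by omega
    have hZ : Nat.card (Subgroup.center X) = 2 := by rw [hk, hk1']; norm_num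
    have hQ : Nat.card (X ⧸ Subgroup.center X) = 2 ^ n := by
      have h1 := Subgroup.card_eq_card_quotient_mul_card_subgroup (Subgroup.center X)
      rw [hX, hZ, pow_succ] at h1
      omega
    obtain ⟨Cb, hCb⟩ : ∃ Cb : Subgroup (X ⧸ Subgroup.center X),
        Cb = Subgroup.centralizer ({(QuotientGroup.mk u : X ⧸ Subgroup.center X)} : Set _) :=
      ⟨_, rfl⟩
    obtain ⟨K, hK⟩ : ∃ K : Subgroup X, K = Cb.comap (QuotientGroup.mk' (Subgroup.center X)) :=
      ⟨_, rfl⟩
    have hKmem : ∀ g ∈ K, g * u * g⁻¹ * u⁻¹ ∈ Subgroup.center X := by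
      intro g hg
      rw [hK, Subgroup.mem_comap, hCb, Subgroup.mem_centralizer_iff] at hg
      have h2 := hg _ (Set.mem_singleton _)
      rw [QuotientGroup.mk'_apply] at h2
      apply (QuotientGroup.eq_one_iff _).mp
      rw [QuotientGroup.mk_mul, QuotientGroup.mk_mul, QuotientGroup.mk_mul, QuotientGroup.mk_inv,
        QuotientGroup.mk_inv, ← h2]
      group
    let φ : K →* Subgroup.center X := MonoidHom.mk'
      (fun g => ⟨g.1 * u * g.1⁻¹ * u⁻¹, hKmem g.1 g.2⟩) (by
        intro g h
        apply Subtype.ext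
        have hc := Subgroup.mem_center_iff.mp (hKmem h.1 h.2)
        show (g.1 * h.1) * u * (g.1 * h.1)⁻¹ * u⁻¹
          = (g.1 * u * g.1⁻¹ * u⁻¹) * (h.1 * u * h.1⁻¹ * u⁻¹)
        calc (g.1 * h.1) * u * (g.1 * h.1)⁻¹ * u⁻¹
            = g.1 * (h.1 * u * h.1⁻¹ * u⁻¹) * u * g.1⁻¹ * u⁻¹ := by group
          _ = (h.1 * u * h.1⁻¹ * u⁻¹) * g.1 * u * g.1⁻¹ * u⁻¹ := by rw [hc g.1]
          _ = (h.1 * u * h.1⁻¹ * u⁻¹) * (g.1 * u * g.1⁻¹ * u⁻¹) := by group
          _ = (g.1 * u * g.1⁻¹ * u⁻¹) * (h.1 * u * h.1⁻¹ * u⁻¹) := (hc _).symm)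
    have hmemker : ∀ x : φ.ker, x.1.1 ∈ Subgroup.centralizer ({u} : Set X) := by
      intro x
      have h1 : φ x.1 = 1 := x.2
      have h2 : x.1.1 * u * x.1.1⁻¹ * u⁻¹ = 1 := congrArg Subtype.val h1
      rw [Subgroup.mem_centralizer_iff]
      intro y hy
      rw [Set.mem_singleton_iff] at hy
      rw [hy]
      calc u * x.1.1 = (x.1.1 * u * x.1.1⁻¹ * u⁻¹)⁻¹ * (x.1.1 * u) := by group
        _ = x.1.1 * u := by rw [h2, inv_one, one_mul]
    have hker_le : Nat.card φ.ker ≤ Nat.card (Subgroup.centralizer ({u} : Set X)) := by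
      apply Nat.card_le_card_of_injective
        (fun x : φ.ker => (⟨x.1.1, hmemker x⟩ : Subgroup.centralizer ({u} : Set X)))
      intro x y hxy
      have := congrArg Subtype.val hxy
      exact Subtype.ext (Subtype.ext this)
    have hKcard : Nat.card K ≤ 8 := by
      have h1 := Subgroup.card_mul_index φ.ker
      rw [Subgroup.index_ker] at h1
      have h2 : Nat.card φ.range ≤ 2 := by
        rw [← hZ]; exact Subgroup.card_le_card_group _
      calc Nat.card K = Nat.card φ.ker * Nat.card φ.range := h1.symm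
        _ ≤ 4 * 2 := Nat.mul_le_mul (hker_le.trans hu) h2
    have hidx : K.index = Cb.index := by
      rw [hK]; exact Cb.index_comap_of_surjective (QuotientGroup.mk'_surjective _)
    have h3 := Subgroup.card_mul_index K
    have h4 := Subgroup.card_mul_index Cb
    have hpos : 0 < Cb.index := Nat.pos_of_ne_zero Subgroup.index_ne_zero_of_finite
    have h5 : Nat.card K * Cb.index = 2 * (Nat.card Cb * Cb.index) := by
      rw [h4, hQ, ← hidx, h3, hX, pow_succ]; ring
    have h6 : Nat.card K = 2 * Nat.card Cb :=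
      Nat.eq_of_mul_eq_mul_right hpos (by rw [h5]; ring)
    have hCb4 : Nat.card Cb ≤ 4 := by omega
    have := ih (X ⧸ Subgroup.center X) hQ (QuotientGroup.mk u) (by rw [← hCb]; exact hCb4)
    omega

/-- lower central series of the generalized quaternion group -/
theorem quat_lcs (k : ℕ) :
    (⊤ : Subgroup (QuaternionGroup (2 ^ k))).lowerCentralSeries k ≠ ⊥ := by
  have key : ∀ i : ℕ, (QuaternionGroup.a ((2 ^ i : ℕ) : ZMod (2 * 2 ^ k)))
      ∈ (⊤ : Subgroup (QuaternionGroup (2 ^ k))).lowerCentralSeries i := by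
    intro i
    induction i with
    | zero => exact Subgroup.mem_top _
    | succ i ih =>
      rw [Subgroup.lowerCentralSeries_succ]
      have h1 : ⁅QuaternionGroup.a ((2 ^ i : ℕ) : ZMod (2 * 2 ^ k)),
          (QuaternionGroup.xa 0 : QuaternionGroup (2 ^ k))⁆
          ∈ ⁅(⊤ : Subgroup (QuaternionGroup (2 ^ k))).lowerCentralSeries i, (⊤ : Subgroup _)⁆ :=
        Subgroup.commutator_mem_commutator ih (Subgroup.mem_top _)
      have hinv1 : (QuaternionGroup.a ((2 ^ i : ℕ) : ZMod (2 * 2 ^ k)))⁻¹
          = QuaternionGroup.a (-((2 ^ i : ℕ) : ZMod (2 * 2 ^ k))) := by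
        apply inv_eq_of_mul_eq_one_right
        rw [QuaternionGroup.a_mul_a, add_neg_cancel]; rfl
      have hinv2 : (QuaternionGroup.xa 0 : QuaternionGroup (2 ^ k))⁻¹
          = QuaternionGroup.xa (((2 ^ k : ℕ) : ZMod (2 * 2 ^ k))) := by
        apply inv_eq_of_mul_eq_one_right
        rw [QuaternionGroup.xa_mul_xa]
        have : ((2 ^ k : ℕ) : ZMod (2 * 2 ^ k)) + ((2 ^ k : ℕ) : ZMod (2 * 2 ^ k)) - 0 = 0 := by
          rw [sub_zero, ← Nat.cast_add, ← two_mul]
          exact ZMod.natCast_self _
        rw [this]; rfl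
      have h2 : ⁅QuaternionGroup.a ((2 ^ i : ℕ) : ZMod (2 * 2 ^ k)),
          (QuaternionGroup.xa 0 : QuaternionGroup (2 ^ k))⁆
          = QuaternionGroup.a ((2 ^ (i + 1) : ℕ) : ZMod (2 * 2 ^ k)) := by
        rw [commutatorElement_def, hinv1, hinv2, QuaternionGroup.a_mul_xa, QuaternionGroup.xa_mul_a,
          QuaternionGroup.xa_mul_xa]
        congr 1
        have : ((2 ^ k : ℕ) : ZMod (2 * 2 ^ k)) + ((2 ^ k : ℕ) : ZMod (2 * 2 ^ k)) = 0 := by
          rw [← Nat.cast_add, ← two_mul]
          exact ZMod.natCast_self _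
        push_cast
        push_cast at this
        linear_combination this
      rw [← h2]; exact h1
  intro hbot
  have h := key k
  rw [hbot, Subgroup.mem_bot] at h
  have h1 : ((2 ^ k : ℕ) : ZMod (2 * 2 ^ k)) = 0 := by
    have h2 : QuaternionGroup.a ((2 ^ k : ℕ) : ZMod (2 * 2 ^ k))
        = (QuaternionGroup.a 0 : QuaternionGroup (2 ^ k)) := h
    exact QuaternionGroup.a.inj h2
  rw [ZMod.natCast_eq_zero_iff] at h1
  have h2 := Nat.le_of_dvd (by positivity) h1
  have : 0 < 2 ^ k := by positivity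
  omega

/-- the four-group generated by two commuting involutions -/
def fourSub {G : Type*} [Group G] (s z : G) (hs : s * s = 1) (hz : z * z = 1)
    (hzs : z * s = s * z) : Subgroup G where
  carrier := {x | x = 1 ∨ x = s ∨ x = z ∨ x = s * z}
  one_mem' := Or.inl rfl
  mul_mem' := by
    intro a b ha hb
    have hs' : ∀ x : G, s * (s * x) = x := fun x => by rw [← mul_assoc, hs, one_mul]
    have hz' : ∀ x : G, z * (z * x) = x := fun x => by rw [← mul_assoc, hz, one_mul]
    have hzs' : ∀ x : G, z * (s * x) = s * (z * x) := fun x => by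
      rw [← mul_assoc, hzs, mul_assoc]
    have ha' : a = 1 ∨ a = s ∨ a = z ∨ a = s * z := ha
    have hb' : b = 1 ∨ b = s ∨ b = z ∨ b = s * z := hb
    show a * b = 1 ∨ a * b = s ∨ a * b = z ∨ a * b = s * z
    rcases ha' with h | h | h | h <;> rcases hb' with h' | h' | h' | h' <;> rw [h, h'] <;>
      simp only [mul_assoc, hs, hz, hzs, hs', hzs', one_mul, mul_one, true_or, or_true]
  inv_mem' := by
    intro a ha
    have hsi : s⁻¹ = s := inv_eq_of_mul_eq_one_right hs
    have hzi : z⁻¹ = z := inv_eq_of_mul_eq_one_right hz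
    have ha' : a = 1 ∨ a = s ∨ a = z ∨ a = s * z := ha
    show a⁻¹ = 1 ∨ a⁻¹ = s ∨ a⁻¹ = z ∨ a⁻¹ = s * z
    rcases ha' with h | h | h | h
    · left; rw [h, inv_one]
    · right; left; rw [h, hsi]
    · right; right; left; rw [h, hzi]
    · right; right; right; rw [h, mul_inv_rev, hsi, hzi, hzs]

theorem fourSub_card {G : Type*} [Group G] [Finite G] (s z : G) (hs : s * s = 1) (hz : z * z = 1)
    (hzs : z * s = s * z) : Nat.card (fourSub s z hs hz hzs) ≤ 4 := by
  classical
  have hsub : ((fourSub s z hs hz hzs : Subgroup G) : Set G)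
      ⊆ (({1, s, z, s * z} : Finset G) : Set G) := by
    intro x hx
    have hx' : x = 1 ∨ x = s ∨ x = z ∨ x = s * z := hx
    simp only [Finset.coe_insert, Finset.coe_singleton, Set.mem_insert_iff,
      Set.mem_singleton_iff]
    exact hx'
  have h1 := Set.ncard_le_ncard hsub (Finset.finite_toSet _)
  rw [Set.ncard_coe_finset] at h1
  have h2 : Nat.card (fourSub s z hs hz hzs)
      = ((fourSub s z hs hz hzs : Subgroup G) : Set G).ncard := rfl
  rw [h2]
  exact h1.trans Finset.card_le_four

theorem fourSub_not_cyclic {G : Type*} [Group G] [Finite G] (s z : G) (hs : s * s = 1)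
    (hz : z * z = 1) (hzs : z * s = s * z) (hs1 : s ≠ 1) (hz1 : z ≠ 1) (hsz : s ≠ z) :
    ¬ IsCyclic (fourSub s z hs hz hzs) := by
  classical
  intro hcyc
  haveI := Fintype.ofFinite (fourSub s z hs hz hzs)
  have h1 := IsCyclic.card_pow_eq_one_le (α := fourSub s z hs hz hzs) (n := 2) (by norm_num)
  obtain ⟨es, hes⟩ : ∃ es : fourSub s z hs hz hzs, (es : G) = s :=
    ⟨⟨s, Or.inr (Or.inl rfl)⟩, rfl⟩
  obtain ⟨ez, hez⟩ : ∃ ez : fourSub s z hs hz hzs, (ez : G) = z :=
    ⟨⟨z, Or.inr (Or.inr (Or.inl rfl))⟩, rfl⟩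
  have hsq : ∀ x ∈ ({1, es, ez} : Finset (fourSub s z hs hz hzs)), x ^ 2 = 1 := by
    intro x hx
    simp only [Finset.mem_insert, Finset.mem_singleton] at hx
    rcases hx with h | h | h
    · rw [h]; exact one_pow 2
    · rw [h]; apply Subtype.ext
      show (es : G) ^ 2 = 1
      rw [hes, pow_two, hs]
    · rw [h]; apply Subtype.ext
      show (ez : G) ^ 2 = 1
      rw [hez, pow_two, hz]
  have h3 : ({1, es, ez} : Finset (fourSub s z hs hz hzs)).card = 3 := by
    rw [Finset.card_eq_three]
    refine ⟨1, es, ez, ?_, ?_, ?_, rfl⟩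
    · intro h; apply hs1; rw [← hes, ← h]; rfl
    · intro h; apply hz1; rw [← hez, ← h]; rfl
    · intro h
      have h5 := congrArg Subtype.val h
      rw [hes, hez] at h5
      exact hsz h5
  have h4 : 3 ≤ 2 := by
    rw [← h3]
    exact le_trans (Finset.card_le_card (fun x hx =>
      Finset.mem_filter.mpr ⟨Finset.mem_univ _, hsq x hx⟩)) h1
  omega

theorem comm_of_cyclic {G : Type*} [Group G] (hcyc : IsCyclic G) (a b : G) : a * b = b * a := by
  obtain ⟨g, hg⟩ := hcyc.exists_generator
  obtain ⟨i, rfl⟩ := Subgroup.mem_zpowers_iff.mp (hg a)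
  obtain ⟨j, rfl⟩ := Subgroup.mem_zpowers_iff.mp (hg b)
  exact ((Commute.refl g).zpow_zpow i j).eq

theorem bwd {G : Type u} [Group G] [Finite G] (n : ℕ)
    (hn : 3 ≤ n) (hG : Nat.card G = 2 ^ n) (hc : Group.nilpotencyClass G = n - 1)
    (H : Subgroup G) (hH : ¬ IsCyclic H) : Subgroup.centralizer (H : Set G) ≤ H := by
  obtain ⟨m, c, g, w, hm, hordc, hgc, hidx, hw, hw1, hw2, hcen, hwcen, hcg, hg2, hall⟩ :=
    Cfsg.Agent.Lib.Helper7.MC2.max_class_structure n hn hG hc
  have hmpos : 0 < m := by rw [hm]; positivity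
  have L1 : ∀ x ∈ Subgroup.zpowers c, x ^ 2 = 1 → x = 1 ∨ x = w := by
    intro x hx hx2
    obtain ⟨j, rfl⟩ := Subgroup.mem_zpowers_iff.mp hx
    have h1 : c ^ (j * 2) = 1 := by
      rw [zpow_mul]
      have : (c ^ j) ^ (2 : ℤ) = (c ^ j) ^ (2 : ℕ) := by norm_cast
      rw [this]; exact hx2
    have h2 : ((orderOf c : ℕ) : ℤ) ∣ j * 2 := orderOf_dvd_iff_zpow_eq_one.mpr h1
    rw [hordc] at h2
    push_cast at h2
    have h3 : (m : ℤ) ∣ j := (mul_dvd_mul_iff_right (by norm_num : (2 : ℤ) ≠ 0)).mp h2
    obtain ⟨i, rfl⟩ := h3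
    have h4 : c ^ ((m : ℤ) * i) = w ^ i := by rw [zpow_mul, zpow_natCast, ← hw]
    rw [h4]
    exact Cfsg.Agent.Lib.Helper7.MC2.mem_zpowers_two w (w ^ i) hw2
      (Subgroup.zpow_mem_zpowers w i)
  have L2 : ∀ x ∈ Subgroup.zpowers c, x * g = g * x → x = 1 ∨ x = w := by
    intro x hx hxg
    apply hcen
    rw [Subgroup.mem_center_iff]
    intro y
    obtain ⟨j, rfl⟩ := Subgroup.mem_zpowers_iff.mp hx
    have hcc : ∀ t : ℤ, c ^ t * c ^ j = c ^ j * c ^ t := fun t =>
      ((Commute.refl c).zpow_zpow t j).eq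
    rcases hall y with ⟨t, rfl⟩ | ⟨t, rfl⟩
    · exact hcc t
    · rw [mul_assoc, hcc t, ← mul_assoc, ← hxg, mul_assoc]
  haveI hCn : (Subgroup.zpowers c).Normal := Subgroup.normal_of_index_eq_two hidx
  have hex : ∃ u ∈ H, u ∉ Subgroup.zpowers c := by
    by_contra hcon
    push Not at hcon
    apply hH
    have hle : H ≤ Subgroup.zpowers c := fun x hx => hcon x hx
    haveI : IsCyclic (H.subgroupOf (Subgroup.zpowers c)) := inferInstance
    exact (Subgroup.subgroupOfEquivOfLe hle).isCyclic.mp inferInstance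
  obtain ⟨u, huH, huc⟩ := hex
  have hwH : w ∈ H := by
    have hd : ∃ d ∈ H, d ∈ Subgroup.zpowers c ∧ d ≠ 1 := by
      by_contra hcon
      push Not at hcon
      apply hH
      have hle : H ≤ Subgroup.zpowers u := by
        intro x hx
        by_cases hxc : x ∈ Subgroup.zpowers c
        · rw [hcon x hx hxc]; exact Subgroup.one_mem _
        · have h1 : x * u⁻¹ ∈ Subgroup.zpowers c := by
            rw [Subgroup.mul_mem_iff_of_index_two hidx, Subgroup.inv_mem_iff]
            exact ⟨fun h => absurd h hxc, fun h => absurd h huc⟩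
          have h2 := hcon (x * u⁻¹) (H.mul_mem hx (H.inv_mem huH)) h1
          have h3 : x = u := by rw [mul_inv_eq_one] at h2; exact h2
          rw [h3]; exact Subgroup.mem_zpowers u
      haveI : IsCyclic (H.subgroupOf (Subgroup.zpowers u)) := inferInstance
      exact (Subgroup.subgroupOfEquivOfLe hle).isCyclic.mp inferInstance
    obtain ⟨d, hdH, hdc, hd1⟩ := hd
    have hdvd : orderOf d ∣ 2 ^ n := by rw [← hG]; exact orderOf_dvd_natCard d
    obtain ⟨e, -, he⟩ := (Nat.dvd_prime_pow Nat.prime_two).mp hdvd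
    have he1 : e ≠ 0 := by
      rintro rfl
      rw [pow_zero, orderOf_eq_one_iff] at he
      exact hd1 he
    have hd' : d ^ (2 ^ (e - 1)) ∈ Subgroup.zpowers c := Subgroup.pow_mem _ hdc _
    have hd'2 : (d ^ (2 ^ (e - 1))) ^ 2 = 1 := by
      rw [← pow_mul, ← pow_succ, show e - 1 + 1 = e by omega, ← he]
      exact pow_orderOf_eq_one d
    have hd'1 : d ^ (2 ^ (e - 1)) ≠ 1 := by
      apply pow_ne_one_of_lt_orderOf (by positivity)
      rw [he]; exact Nat.pow_lt_pow_right (by norm_num) (by omega)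
    rcases L1 _ hd' hd'2 with h | h
    · exact absurd h hd'1
    · rw [← h]; exact H.pow_mem hdH _
  intro k hk
  rw [Subgroup.mem_centralizer_iff] at hk
  have hku : u * k = k * u := hk u huH
  obtain ⟨t, hut⟩ : ∃ t : ℤ, u = g * c ^ t := by
    rcases hall u with ⟨t, ht⟩ | ⟨t, ht⟩
    · exact absurd (ht ▸ Subgroup.zpow_mem_zpowers c t) huc
    · exact ⟨t, ht⟩
  have L3 : ∀ x ∈ Subgroup.zpowers c, x * u = u * x → x = 1 ∨ x = w := by
    intro x hx hxu
    apply L2 x hx
    obtain ⟨j, rfl⟩ := Subgroup.mem_zpowers_iff.mp hx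
    have hcc : c ^ j * c ^ t = c ^ t * c ^ j := ((Commute.refl c).zpow_zpow j t).eq
    rw [hut] at hxu
    have : c ^ j * g * c ^ t = g * c ^ j * c ^ t := by
      rw [mul_assoc, hxu, mul_assoc, mul_assoc, hcc]
    exact mul_right_cancel this
  rcases hall k with ⟨j, hkj⟩ | ⟨j, hkj⟩
  · have hkc : k ∈ Subgroup.zpowers c := hkj ▸ Subgroup.zpow_mem_zpowers c j
    rcases L3 k hkc hku.symm with h | h
    · rw [h]; exact H.one_mem
    · rw [h]; exact hwH
  · have hkc : k * u⁻¹ ∈ Subgroup.zpowers c := by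
      rw [hkj, hut]
      have : g * c ^ j * (g * c ^ t)⁻¹ = g * (c ^ j * (c ^ t)⁻¹) * g⁻¹ := by group
      rw [this]
      exact hCn.conj_mem _ (Subgroup.mul_mem _ (Subgroup.zpow_mem_zpowers c j)
        (Subgroup.inv_mem _ (Subgroup.zpow_mem_zpowers c t))) g
    have hcomm : k * u⁻¹ * u = u * (k * u⁻¹) := by
      rw [inv_mul_cancel_right, ← mul_assoc, hku, mul_inv_cancel_right]
    rcases L3 _ hkc hcomm with h | h
    · have : k = u := by rw [mul_inv_eq_one] at h; exact h
      rw [this]; exact huH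
    · have : k = w * u := by rw [mul_inv_eq_iff_eq_mul] at h; exact h
      rw [this]; exact H.mul_mem hwH huH

/-- Say that a group has self-centralizing non-cyclic subgroups when every non-cyclic subgroup H satisfies C_G(H) ≤ H. A finite non-abelian 2-group G of order 2^n has self-centralizing non-cyclic subgroups if and only if G has nilpotency class n − 1 (that is, G is dihedral, semidihedral or generalized quaternion). -/
theorem result {G : Type*} [Group G] [Finite G] (hna : ¬ IsMulCommutative G) (n : ℕ) (hG : Nat.card G = 2 ^ n) :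
    (∀ H : Subgroup G, ¬ IsCyclic ↥H → Subgroup.centralizer (H : Set G) ≤ H) ↔ (⊤ : Subgroup G).lowerCentralSeries (n - 2) ≠ ⊥ := by
  haveI : Fact (Nat.Prime 2) := ⟨Nat.prime_two⟩
  have hnc : ¬ ∀ a b : G, a * b = b * a := fun h => hna ⟨⟨fun a b => h a b⟩⟩
  have hGp : IsPGroup 2 G := IsPGroup.of_card hG
  haveI : Group.IsNilpotent G := hGp.isNilpotent
  have hn3 : 3 ≤ n := by
    by_contra hcon
    apply hnc
    have hn2 : n ≤ 2 := by omega
    interval_cases n
    · intro a b
      haveI : Subsingleton G := (Nat.card_eq_one_iff_unique.mp (by simpa using hG)).1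
      exact Subsingleton.elim _ _
    · have h2 : Nat.card G = 2 := by simpa using hG
      exact comm_of_cyclic (isCyclic_of_prime_card h2)
    · exact IsPGroup.commutative_of_card_eq_prime_sq (p := 2) hG
  haveI : Nontrivial G := by
    rw [← Finite.one_lt_card_iff_nontrivial, hG]
    exact Nat.one_lt_pow (by omega) (by norm_num)
  have hclub : Group.nilpotencyClass G + 1 ≤ n := by
    rcases Cfsg.Agent.S0113.class_bound 2 n G hG with h | h
    · exact h
    · omega
  constructor
  · intro hstar
    obtain ⟨zc, hzc⟩ : ∃ zc : Subgroup.center G, orderOf zc = 2 := by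
      haveI := hGp.center_nontrivial
      obtain ⟨k, hk⟩ := (hGp.to_subgroup (Subgroup.center G)).exists_card_eq
      have hk1 : k ≠ 0 := by
        rintro rfl
        rw [pow_zero] at hk
        have := Finite.one_lt_card (α := Subgroup.center G)
        omega
      apply exists_prime_orderOf_dvd_card' (G := Subgroup.center G) 2
      rw [hk]; exact dvd_pow_self 2 hk1
    obtain ⟨z, hzdef⟩ : ∃ z : G, z = (zc : G) := ⟨_, rfl⟩
    have hzcen : z ∈ Subgroup.center G := hzdef ▸ zc.2
    have hzord : orderOf z = 2 := by rw [hzdef, Subgroup.orderOf_coe, hzc]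
    have hz1 : z ≠ 1 := by intro h; rw [h, orderOf_one] at hzord; omega
    have hz2 : z * z = 1 := by rw [← pow_two, ← hzord]; exact pow_orderOf_eq_one z
    by_cases hex : ∃ s : G, s ≠ 1 ∧ s * s = 1 ∧ s ≠ z
    · obtain ⟨s, hs1, hs2, hsz⟩ := hex
      have hzs : z * s = s * z := (Subgroup.mem_center_iff.mp hzcen s).symm
      have hVnc := fourSub_not_cyclic s z hs2 hz2 hzs hs1 hz1 hsz
      have hle : Subgroup.centralizer ({s} : Set G) ≤ fourSub s z hs2 hz2 hzs := by
        intro k hk
        apply hstar _ hVnc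
        rw [Subgroup.mem_centralizer_iff] at hk ⊢
        have hks : s * k = k * s := hk s (Set.mem_singleton _)
        have hkz : z * k = k * z := (Subgroup.mem_center_iff.mp hzcen k).symm
        intro v hv
        have hv' : v = 1 ∨ v = s ∨ v = z ∨ v = s * z := hv
        rcases hv' with h | h | h | h
        · rw [h, one_mul, mul_one]
        · rw [h]; exact hks
        · rw [h]; exact hkz
        · rw [h, mul_assoc, hkz, ← mul_assoc, hks, mul_assoc]
      have hcard : Nat.card (Subgroup.centralizer ({s} : Set G)) ≤ 4 :=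
        (Subgroup.card_le_of_le hle).trans (fourSub_card s z hs2 hz2 hzs)
      have hcl := suzuki n G hG s hcard
      intro hbot
      rw [Subgroup.lowerCentralSeries_eq_bot_iff_nilpotencyClass_le] at hbot
      omega
    · push Not at hex
      have huniq : ∀ H K : Subgroup G, Nat.card H = 2 → Nat.card K = 2 → H = K := by
        have key : ∀ H : Subgroup G, Nat.card H = 2 → H = Subgroup.zpowers z := by
          intro H hH
          haveI : Nontrivial H := by
            rw [← Finite.one_lt_card_iff_nontrivial, hH]; norm_num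
          obtain ⟨x, hx⟩ := exists_ne (1 : H)
          have hx1 : (x : G) ≠ 1 := fun h => hx (Subtype.ext h)
          have hx2 : (x : G) * (x : G) = 1 := by
            have h1 : x ^ 2 = 1 := by rw [← hH]; exact pow_card_eq_one'
            have h2 := congrArg Subtype.val h1
            rw [← pow_two]; exact_mod_cast h2
          have hxz : (x : G) = z := hex _ hx1 hx2
          symm
          apply Subgroup.eq_of_le_of_card_ge
          · rw [Subgroup.zpowers_le, ← hxz]; exact x.2
          · rw [hH, Nat.card_zpowers, hzord]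
        intro H K hH hK
        rw [key H hH, key K hK]
      rcases Cfsg.Agent.Lib.Helper5.cyclic_or_quaternion_of_unique_subgroup 2 hGp huniq with
        hcyc | ⟨-, k, ⟨e⟩⟩
      · exact absurd (comm_of_cyclic hcyc) hnc
      · have hcardQ : Nat.card G = 4 * 2 ^ k := by
          rw [Nat.card_congr e.toEquiv, Nat.card_eq_fintype_card, QuaternionGroup.card]
        have hnk : n = k + 2 := by
          have : 2 ^ n = 2 ^ (k + 2) := by rw [← hG, hcardQ]; ring
          exact Nat.pow_right_injective (le_refl 2) this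
        have hnk' : n - 2 = k := by omega
        rw [hnk']
        intro hbot
        apply quat_lcs k
        have h1 := Subgroup.map_lowerCentralSeries (S := (⊤ : Subgroup G)) e.toMonoidHom k
        rw [hbot, Subgroup.map_bot, Subgroup.map_top_of_surjective _ e.surjective] at h1
        exact h1.symm
  · intro hlcs H hH
    have hc : Group.nilpotencyClass G = n - 1 := by
      have h1 : ¬ Group.nilpotencyClass G ≤ n - 2 := fun h =>
        hlcs (Subgroup.lowerCentralSeries_eq_bot_iff_nilpotencyClass_le.mpr h)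
      omega
    exact bwd n hn3 hG hc H hH


end Cfsg.Agent.S3919
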