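import Cfsg.Statements.S3920
import Mathlib

set_option autoImplicit false
open Cfsg

namespace Cfsg.Agent.S3920

theorem two_tors (n M : ℕ) (hn : n = 2 * M) (hM : 0 < M) (d : ZMod n) (h : d + d = 0) :
    d = 0 ∨ d = (M : ZMod n) := by
  haveI : NeZero n := ⟨by omega⟩
  have h1 : ((d.val + d.val : ℕ) : ZMod n) = 0 := by
    push_cast; rw [ZMod.natCast_zmod_val]; exact h
  have h2 := (ZMod.natCast_eq_zero_iff _ _).mp h1
  have h3 : d.val < n := ZMod.val_lt d
  obtain ⟨q, hq⟩ := h2
  have hq' : d.val = M * q := by
    have hq'' : d.val + d.val = 2 * M * q := by rw [hq, hn]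
    have e : 2 * M * q = 2 * (M * q) := by ring
    omega
  have hq2 : q < 2 := by
    by_contra hc
    push Not at hc
    have : M * 2 ≤ M * q := Nat.mul_le_mul_left M hc
    omega
  interval_cases q
  · left
    rw [mul_zero] at hq'
    exact (ZMod.val_eq_zero d).mp hq'
  · right
    rw [mul_one] at hq'
    rw [← hq', ZMod.natCast_zmod_val]

theorem exists_sr_r (n : ℕ) [NeZero n] (H : Subgroup (DihedralGroup n)) (hH : ¬ IsCyclic H) :
    ∃ i c : ZMod n, c ≠ 0 ∧ DihedralGroup.sr i ∈ H ∧ DihedralGroup.r c ∈ H := by
  obtain ⟨i, hi⟩ : ∃ i : ZMod n, DihedralGroup.sr i ∈ H := by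
    by_contra hno
    push Not at hno
    apply hH
    have hle : H ≤ Subgroup.zpowers (DihedralGroup.r (1 : ZMod n)) := by
      intro g hg
      cases g with
      | sr i => exact absurd hg (hno i)
      | r i =>
        rw [Subgroup.mem_zpowers_iff]
        refine ⟨(i.val : ℤ), ?_⟩
        rw [zpow_natCast, DihedralGroup.r_one_pow, ZMod.natCast_zmod_val]
    exact Subgroup.isCyclic_of_le hle
  obtain ⟨c, hc0, hc⟩ : ∃ c : ZMod n, c ≠ 0 ∧ DihedralGroup.r c ∈ H := by
    by_contra hno
    push Not at hno
    apply hH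
    have hle : H ≤ Subgroup.zpowers (DihedralGroup.sr i) := by
      intro g hg
      cases g with
      | r c =>
        by_cases hc0 : c = 0
        · rw [hc0, DihedralGroup.r_zero]; exact Subgroup.one_mem _
        · exact absurd hg (hno c hc0)
      | sr j =>
        have h1 := H.mul_mem hi hg
        rw [DihedralGroup.sr_mul_sr] at h1
        by_cases hc0 : j - i = 0
        · have : j = i := sub_eq_zero.mp hc0
          rw [this]; exact Subgroup.mem_zpowers _
        · exact absurd h1 (hno _ hc0)
    exact Subgroup.isCyclic_of_le hle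
  exact ⟨i, c, hc0, hi, hc⟩

/-- Say that a group has self-centralizing non-cyclic subgroups when every non-cyclic subgroup H satisfies C_G(H) ≤ H. For n ≥ 3, the dihedral group of order 2n has self-centralizing non-cyclic subgroups if and only if n is odd or a power of 2. -/
theorem result (n : ℕ) (hn : 3 ≤ n) : (∀ H : Subgroup (DihedralGroup n), ¬ IsCyclic ↥H → Subgroup.centralizer (H : Set (DihedralGroup n)) ≤ H) ↔ (Odd n ∨ ∃ k : ℕ, n = 2 ^ k) := by
  haveI : NeZero n := ⟨by omega⟩
  constructor
  · intro hall
    by_contra hcon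
    push Not at hcon
    obtain ⟨hodd, hpow⟩ := hcon
    obtain ⟨a, m, hm, hnm⟩ := Nat.exists_eq_two_pow_mul_odd (show n ≠ 0 by omega)
    have ha : a ≠ 0 := by
      rintro rfl
      apply hodd; rw [hnm, pow_zero, one_mul]; exact hm
    have hm1 : m ≠ 1 := by
      rintro rfl
      exact hpow a (by rw [hnm, mul_one])
    have hm3 : 3 ≤ m := by
      obtain ⟨t, ht⟩ := hm
      omega
    obtain ⟨b, rfl⟩ : ∃ b, a = b + 1 := ⟨a - 1, by omega⟩
    have hnM : n = 2 * (2 ^ b * m) := by rw [hnm, pow_succ]; ring
    have hd : 2 ^ (b + 1) ∣ n := ⟨m, hnm⟩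
    let c : ZMod n →+* ZMod (2 ^ (b + 1)) := ZMod.castHom hd (ZMod (2 ^ (b + 1)))
    let ψ : DihedralGroup n →* DihedralGroup (2 ^ (b + 1)) :=
      { toFun := fun g => match g with
          | DihedralGroup.r i => DihedralGroup.r (c i)
          | DihedralGroup.sr i => DihedralGroup.sr (c i)
        map_one' := by
          show DihedralGroup.r (c 0) = 1
          rw [map_zero]; rfl
        map_mul' := by
          intro x y
          cases x with
          | r i =>
            cases y with
            | r j =>
              show DihedralGroup.r (c (i + j)) = DihedralGroup.r (c i) * DihedralGroup.r (c j)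
              rw [map_add]; rfl
            | sr j =>
              show DihedralGroup.sr (c (j - i)) = DihedralGroup.r (c i) * DihedralGroup.sr (c j)
              rw [map_sub]; rfl
          | sr i =>
            cases y with
            | r j =>
              show DihedralGroup.sr (c (i + j)) = DihedralGroup.sr (c i) * DihedralGroup.r (c j)
              rw [map_add]; rfl
            | sr j =>
              show DihedralGroup.r (c (j - i)) = DihedralGroup.sr (c i) * DihedralGroup.sr (c j)
              rw [map_sub]; rfl }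
    let H : Subgroup (DihedralGroup n) :=
      (Subgroup.zpowers (DihedralGroup.sr (0 : ZMod (2 ^ (b + 1))))).comap ψ
    have hz2 : ∀ x ∈ Subgroup.zpowers (DihedralGroup.sr (0 : ZMod (2 ^ (b + 1)))),
        x = 1 ∨ x = DihedralGroup.sr 0 := by
      intro x hx
      obtain ⟨k, rfl⟩ := Subgroup.mem_zpowers_iff.mp hx
      have hsq : (DihedralGroup.sr (0 : ZMod (2 ^ (b + 1)))) ^ (2 : ℤ) = 1 := by
        rw [zpow_two, DihedralGroup.sr_mul_self]
      rcases Int.even_or_odd' k with ⟨t, rfl | rfl⟩
      · left; rw [zpow_mul, hsq, one_zpow]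
      · right; rw [zpow_add_one, zpow_mul, hsq, one_zpow, one_mul]
    have hsr0 : DihedralGroup.sr (0 : ZMod n) ∈ H := by
      have h1 : ψ (DihedralGroup.sr 0) = DihedralGroup.sr 0 := by
        show DihedralGroup.sr (c 0) = DihedralGroup.sr 0
        rw [map_zero]
      change ψ (DihedralGroup.sr (0 : ZMod n)) ∈
        Subgroup.zpowers (DihedralGroup.sr (0 : ZMod (2 ^ (b + 1))))
      rw [h1]; exact Subgroup.mem_zpowers _
    have hrd : DihedralGroup.r (((2 ^ (b + 1) : ℕ)) : ZMod n) ∈ H := by
      have h1 : ψ (DihedralGroup.r (((2 ^ (b + 1) : ℕ)) : ZMod n)) = 1 := by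
        show DihedralGroup.r (c _) = 1
        rw [map_natCast, ZMod.natCast_self]; rfl
      change ψ (DihedralGroup.r (((2 ^ (b + 1) : ℕ)) : ZMod n)) ∈
        Subgroup.zpowers (DihedralGroup.sr (0 : ZMod (2 ^ (b + 1))))
      rw [h1]; exact Subgroup.one_mem _
    have hnc : ¬ IsCyclic H := by
      intro hcyc
      haveI := hcyc
      have h1 : DihedralGroup.sr (0 : ZMod n) * DihedralGroup.r (((2 ^ (b + 1) : ℕ)) : ZMod n) =
          DihedralGroup.r (((2 ^ (b + 1) : ℕ)) : ZMod n) * DihedralGroup.sr (0 : ZMod n) :=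
        congrArg Subtype.val (mul_comm' (⟨_, hsr0⟩ : H) ⟨_, hrd⟩)
      rw [DihedralGroup.sr_mul_r, DihedralGroup.r_mul_sr] at h1
      have h2 := DihedralGroup.sr.inj h1
      have h3 : (((2 ^ (b + 1) : ℕ)) : ZMod n) + ((2 ^ (b + 1) : ℕ) : ZMod n) = 0 := by
        linear_combination h2
      have h3' : ((2 ^ (b + 1) + 2 ^ (b + 1) : ℕ) : ZMod n) = 0 := by
        rw [Nat.cast_add]; exact h3
      have h4 := (ZMod.natCast_eq_zero_iff _ _).mp h3'
      rw [hnm] at h4
      have h5 : 2 ^ (b + 1) * m ∣ 2 ^ (b + 1) * 2 := by rw [mul_two]; exact h4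
      have h6 : m ∣ 2 := (Nat.mul_dvd_mul_iff_left (by positivity)).mp h5
      have h7 := Nat.le_of_dvd (by norm_num) h6
      omega
    have hzc : DihedralGroup.r (((2 ^ b * m : ℕ)) : ZMod n) ∈
        Subgroup.centralizer (H : Set (DihedralGroup n)) := by
      rw [Subgroup.mem_centralizer_iff]
      intro g _
      have hMM : (((2 ^ b * m : ℕ)) : ZMod n) + ((2 ^ b * m : ℕ) : ZMod n) = 0 := by
        have : ((2 * (2 ^ b * m) : ℕ) : ZMod n) = 0 := by rw [← hnM]; exact ZMod.natCast_self n
        rw [← this]; push_cast; ring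
      cases g with
      | r j => rw [DihedralGroup.r_mul_r, DihedralGroup.r_mul_r, add_comm]
      | sr j =>
        rw [DihedralGroup.sr_mul_r, DihedralGroup.r_mul_sr]
        congr 1
        linear_combination hMM
    have h8 := hall H hnc hzc
    have h9 : ψ (DihedralGroup.r (((2 ^ b * m : ℕ)) : ZMod n)) ∈
        Subgroup.zpowers (DihedralGroup.sr (0 : ZMod (2 ^ (b + 1)))) := h8
    have h10 : ψ (DihedralGroup.r (((2 ^ b * m : ℕ)) : ZMod n)) =
        DihedralGroup.r (((2 ^ b * m : ℕ)) : ZMod (2 ^ (b + 1))) := by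
      show DihedralGroup.r (c _) = _
      rw [map_natCast]
    rw [h10] at h9
    rcases hz2 _ h9 with h | h
    · rw [DihedralGroup.one_def] at h
      have h11 := DihedralGroup.r.inj h
      have h12 := (ZMod.natCast_eq_zero_iff _ _).mp h11
      rw [pow_succ] at h12
      have h13 : 2 ∣ m := (Nat.mul_dvd_mul_iff_left (by positivity)).mp h12
      obtain ⟨t, ht⟩ := hm
      omega
    · cases h
  · intro hcase H hH g hg
    obtain ⟨i, c, hc0, hi, hc⟩ := exists_sr_r n H hH
    rw [Subgroup.mem_centralizer_iff] at hg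
    have hgi := hg _ hi
    have hgc := hg _ hc
    rcases hcase with hodd | ⟨k, hk⟩
    · obtain ⟨m, hm⟩ := hodd
      have h0 : (2 * (m : ZMod n) + 1) = 0 := by
        have : ((2 * m + 1 : ℕ) : ZMod n) = 0 := by rw [← hm]; exact ZMod.natCast_self n
        push_cast at this; exact this
      have hkill : ∀ x : ZMod n, x + x = 0 → x = 0 := by
        intro x hx
        linear_combination x * h0 - (m : ZMod n) * hx
      cases g with
      | r j =>
        rw [DihedralGroup.sr_mul_r, DihedralGroup.r_mul_sr] at hgi
        have h1 := DihedralGroup.sr.inj hgi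
        have h2 : j = 0 := hkill j (by linear_combination h1)
        rw [h2, DihedralGroup.r_zero]; exact H.one_mem
      | sr j =>
        rw [DihedralGroup.r_mul_sr, DihedralGroup.sr_mul_r] at hgc
        have h1 := DihedralGroup.sr.inj hgc
        exact absurd (hkill c (by linear_combination -h1)) hc0
    · obtain ⟨l, rfl⟩ : ∃ l, k = l + 1 := ⟨k - 1, by
        rcases k with _ | k
        · rw [pow_zero] at hk; omega
        · omega⟩
      have hnM : n = 2 * 2 ^ l := by rw [hk, pow_succ]; ring
      have hMpos : 0 < 2 ^ l := by positivity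
      have htors := two_tors n (2 ^ l) hnM hMpos
      have hrM : DihedralGroup.r (((2 ^ l : ℕ)) : ZMod n) ∈ H := by
        have hord : orderOf (DihedralGroup.r c) ∣ 2 ^ (l + 2) := by
          have h1 := orderOf_dvd_natCard (DihedralGroup.r c)
          have h2 : 2 * n = 2 ^ (l + 2) := by rw [hk]; ring
          rw [DihedralGroup.nat_card, h2] at h1
          exact h1
        obtain ⟨b, hb, hbo⟩ := (Nat.dvd_prime_pow Nat.prime_two).mp hord
        have hb0 : b ≠ 0 := by
          rintro rfl
          rw [pow_zero, orderOf_eq_one_iff] at hbo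
          rw [DihedralGroup.one_def] at hbo
          exact hc0 (DihedralGroup.r.inj hbo)
        obtain ⟨b', rfl⟩ : ∃ b', b = b' + 1 := ⟨b - 1, by omega⟩
        have hy : (DihedralGroup.r c) ^ (2 ^ b') ∈ H := H.pow_mem hc _
        rw [DihedralGroup.r_pow] at hy
        have hy1 : DihedralGroup.r (c * ((2 ^ b' : ℕ) : ZMod n)) ≠ 1 := by
          rw [← DihedralGroup.r_pow]
          apply pow_ne_one_of_lt_orderOf (by positivity)
          rw [hbo]; exact Nat.pow_lt_pow_right (by norm_num) (by omega)
        have hy2 : (c * ((2 ^ b' : ℕ) : ZMod n)) + (c * ((2 ^ b' : ℕ) : ZMod n)) = 0 := by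
          have h1 : (DihedralGroup.r c) ^ (2 ^ (b' + 1)) = 1 := by
            rw [← hbo]; exact pow_orderOf_eq_one _
          rw [DihedralGroup.r_pow, DihedralGroup.one_def] at h1
          have h2 := DihedralGroup.r.inj h1
          push_cast at h2 ⊢
          linear_combination h2
        rcases htors _ hy2 with h | h
        · rw [h, DihedralGroup.r_zero] at hy1; exact absurd rfl hy1
        · rw [h] at hy; exact hy
      cases g with
      | r j =>
        rw [DihedralGroup.sr_mul_r, DihedralGroup.r_mul_sr] at hgi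
        have h1 := DihedralGroup.sr.inj hgi
        rcases htors j (by linear_combination h1) with h | h
        · rw [h, DihedralGroup.r_zero]; exact H.one_mem
        · rw [h]; exact hrM
      | sr j =>
        rw [DihedralGroup.sr_mul_sr, DihedralGroup.sr_mul_sr] at hgi
        have h2 := DihedralGroup.r.inj hgi
        rcases htors (j - i) (by linear_combination h2) with h | h
        · have : j = i := sub_eq_zero.mp h
          rw [this]; exact hi
        · have h3 := H.mul_mem hi hrM
          rw [DihedralGroup.sr_mul_r] at h3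
          have : j = i + ((2 ^ l : ℕ) : ZMod n) := by linear_combination h
          rw [this]; exact h3

end Cfsg.Agent.S3920
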