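import Cfsg.Statements.S3937
import Cfsg.Agent.Lib.Helper6.Zipper

set_option autoImplicit false
open Pointwise

namespace Cfsg.Agent.S3937

open Cfsg.Agent.Lib Cfsg.Agent.Lib.Lead Cfsg.Agent.Lib.Helper6

universe u

theorem fold_succ {G : Type*} [Group G] (g x : G) (n : ℕ) :
    (List.replicate (n + 1) g).foldl (fun a b => a * b * a⁻¹ * b⁻¹) x =
      (List.replicate n g).foldl (fun a b => a * b * a⁻¹ * b⁻¹) (x * g * x⁻¹ * g⁻¹) := by
  simp [List.replicate_succ]

theorem fold_coe {G : Type*} [Group G] (U : Subgroup G) (g : U) : ∀ (n : ℕ) (x : U),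
    (((List.replicate n g).foldl (fun a b => a * b * a⁻¹ * b⁻¹) x : U) : G) =
      (List.replicate n (g : G)).foldl (fun a b => a * b * a⁻¹ * b⁻¹) (x : G) := by
  intro n
  induction n with
  | zero => intro x; simp
  | succ n ih =>
    intro x
    rw [fold_succ, fold_succ, ih]
    simp

theorem engel_mem_fitting : ∀ (n : ℕ) (G : Type u) [Group G] [Finite G], Nat.card G = n →
    ∀ g : G, (∀ x : G, ∃ m : ℕ,
      (List.replicate m g).foldl (fun a b => a * b * a⁻¹ * b⁻¹) x = 1) →
    g ∈ Cfsg.fittingSubgroup G := by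
  intro n
  induction n using Nat.strong_induction_on with
  | _ n ih =>
  intro G _ _ hn g hE
  by_contra hg
  have hsub : ∀ U : Subgroup G, U ≠ ⊤ → g ∈ U → g ∈ FitIn U := by
    intro U hU hgU
    have hlt : Nat.card U < n := by
      have h1 := card_lt_of_lt (lt_top_iff_ne_top.mpr hU)
      rw [Subgroup.card_top] at h1
      omega
    have h1 := ih _ hlt ↥U rfl ⟨g, hgU⟩ (by
      intro x
      obtain ⟨m, hm⟩ := hE (x : G)
      refine ⟨m, ?_⟩
      apply Subtype.ext
      rw [fold_coe]
      exact hm)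
    exact Subgroup.mem_map.mpr ⟨⟨g, hgU⟩, h1, rfl⟩
  have hHtop : Subgroup.zpowers g ≠ ⊤ := by
    intro h
    apply hg
    haveI : IsCyclic G := ⟨⟨g, fun y => by
      have h1 : y ∈ (⊤ : Subgroup G) := trivial
      rw [← h] at h1
      exact h1⟩⟩
    haveI : Group.IsNilpotent G := by
      letI : CommGroup G := IsCyclic.commGroup
      infer_instance
    have hnil : Group.IsNilpotent ↥(⊤ : Subgroup G) :=
      Group.nilpotent_of_mulEquiv Subgroup.topEquiv.symm
    have hle : (⊤ : Subgroup G) ≤ Cfsg.fittingSubgroup G := le_sSup ⟨inferInstance, hnil⟩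
    exact hle trivial
  have hstar : ∀ U : Subgroup G, U ≠ ⊤ → Subgroup.zpowers g ≤ U →
      Subgroup.zpowers g ≤ FitIn U := by
    intro U hU hHU
    rw [Subgroup.zpowers_le]
    exact hsub U hU (hHU (Subgroup.mem_zpowers g))
  have hnot : ¬ Subgroup.zpowers g ≤ Cfsg.fittingSubgroup G :=
    fun h => hg (h (Subgroup.mem_zpowers g))
  have huniq := zipper _ (Subgroup.zpowers g) rfl hHtop hstar hnot
  obtain ⟨M, hM, hHM⟩ := (eq_top_or_exists_le_coatom (Subgroup.zpowers g)).resolve_left hHtop
  have hgM : g ∈ M := hHM (Subgroup.mem_zpowers g)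
  have hMn : Subgroup.normalizer (M : Set G) = M := by
    by_contra hne
    have htop : Subgroup.normalizer (M : Set G) = ⊤ :=
      hM.2 _ (lt_of_le_of_ne Subgroup.le_normalizer (Ne.symm hne))
    apply hg
    have hFn : (FitIn M).Normal := by
      constructor
      intro y hy x
      have h1 := conj_fitIn_le x M
      have h2 : MulAut.conj x • M = M :=
        conj_smul_eq_of_mem_normalizer (by rw [htop]; trivial)
      rw [h2] at h1
      exact h1 (conj_mem_conj_smul hy)
    have hle : FitIn M ≤ Cfsg.fittingSubgroup G := le_sSup ⟨hFn, fitIn_isNilpotent M⟩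
    exact hle (hsub M hM.1 hgM)
  have hclaim : ∀ y : G, y ∉ M → y * g * y⁻¹ * g⁻¹ ∉ M := by
    intro y hy hmem
    apply hy
    have h1 : y * g * y⁻¹ ∈ M := by
      have := M.mul_mem hmem hgM
      simpa using this
    have h2 : Subgroup.zpowers g ≤ MulAut.conj y⁻¹ • M := by
      rw [Subgroup.zpowers_le, mem_conj_smul, inv_inv]
      exact h1
    have h3 : IsCoatom (MulAut.conj y⁻¹ • M) := Helper1.isCoatom_conj_smul y⁻¹ hM
    have h4 := huniq _ M h3 hM h2 hHM
    have h5 : y⁻¹ ∈ Subgroup.normalizer (M : Set G) := mem_normalizer_of_conj_smul_eq h4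
    rw [hMn] at h5
    have := M.inv_mem h5
    simpa using this
  obtain ⟨x, hxM⟩ : ∃ x, x ∉ M := by
    by_contra h
    push Not at h
    exact hM.1 (eq_top_iff.mpr (fun y _ => h y))
  have hall : ∀ (m : ℕ) (y : G), y ∉ M →
      (List.replicate m g).foldl (fun a b => a * b * a⁻¹ * b⁻¹) y ∉ M := by
    intro m
    induction m with
    | zero => intro y hy; simpa using hy
    | succ m ihm =>
      intro y hy
      rw [fold_succ]
      exact ihm _ (hclaim y hy)
  obtain ⟨m, hm⟩ := hE x
  exact hall m x hxM (hm ▸ M.one_mem)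

open scoped commutatorElement in
theorem fitting_engel {G : Type*} [Group G] [Finite G] (g : G)
    (hg : g ∈ Cfsg.fittingSubgroup G) (x : G) :
    ∃ n : ℕ, (List.replicate n g).foldl (fun a b => a * b * a⁻¹ * b⁻¹) x = 1 := by
  haveI : (Cfsg.fittingSubgroup G).Normal := fitting_normal G
  have hnil : Group.IsNilpotent ↥(Cfsg.fittingSubgroup G) := fitting_isNilpotent
  obtain ⟨c, hc⟩ := (Subgroup.isNilpotent_iff_lowerCentralSeries _).mp hnil
  have hseq : ∀ (j i : ℕ) (y : G), y ∈ (Cfsg.fittingSubgroup G).lowerCentralSeries i →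
      (List.replicate j g).foldl (fun a b => a * b * a⁻¹ * b⁻¹) y ∈
        (Cfsg.fittingSubgroup G).lowerCentralSeries (i + j) := by
    intro j
    induction j with
    | zero => intro i y hy; simpa using hy
    | succ j ih =>
      intro i y hy
      rw [fold_succ]
      have h1 : y * g * y⁻¹ * g⁻¹ ∈ (Cfsg.fittingSubgroup G).lowerCentralSeries (i + 1) := by
        rw [Subgroup.lowerCentralSeries_succ]
        have : y * g * y⁻¹ * g⁻¹ = ⁅y, g⁆ := by rw [commutatorElement_def]
        rw [this]
        exact Subgroup.commutator_mem_commutator hy hg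
      have h2 := ih (i + 1) _ h1
      have e : i + 1 + j = i + (j + 1) := by ring
      rwa [e] at h2
  have hy1 : x * g * x⁻¹ * g⁻¹ ∈ (Cfsg.fittingSubgroup G).lowerCentralSeries 0 := by
    rw [Subgroup.lowerCentralSeries_zero]
    exact Subgroup.mul_mem _ (Subgroup.Normal.conj_mem inferInstance g hg x)
      (Subgroup.inv_mem _ hg)
  have h3 := hseq c 0 _ hy1
  rw [zero_add, hc, Subgroup.mem_bot] at h3
  exact ⟨c + 1, by rw [fold_succ]; exact h3⟩

/-- Baer's characterization of the Fitting subgroup: in a finite group G, an element g lies in the Fitting subgroup if and only if g is a left Engel element, that is, for every x there is n with [x, g, g, …, g] = 1 (n entries g, [a, b] = aba⁻¹b⁻¹). -/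
theorem result {G : Type*} [Group G] [Finite G] (g : G) :
    g ∈ Cfsg.fittingSubgroup G ↔ ∀ x : G, ∃ n : ℕ, (List.replicate n g).foldl (fun a b => a * b * a⁻¹ * b⁻¹) x = 1 := by
  constructor
  · intro hg x
    exact fitting_engel g hg x
  · intro h
    exact engel_mem_fitting _ G rfl g h

end Cfsg.Agent.S3937
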