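import Cfsg.Statements.S3939
import Cfsg.Agent.Lib.Helper6.HyperC
import Cfsg.Agent.Lib.Helper6.CFus
import Cfsg.Agent.Lib.Lead.BaerSuzuki
import Cfsg.Agent.Lib.Lead.Nilpotent
import Cfsg.Agent.Lib.Lead.Invol2

set_option autoImplicit false
open Cfsg

namespace Cfsg.Agent.S3939

universe u

theorem nilp_of_le {G : Type*} [Group G] {H K : Subgroup G} (h : H ≤ K)
    (hK : Group.IsNilpotent ↥K) : Group.IsNilpotent ↥H :=
  haveI := hK
  Group.nilpotent_of_mulEquiv (Subgroup.subgroupOfEquivOfLe h)

/-- centre-free case -/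
theorem trivial_of_center_bot {G : Type*} [Group G] [Finite G] (hZ : Subgroup.center G = ⊥) (g : G)
    (hg : ∀ x : G, Group.IsNilpotent ↥(Subgroup.closure ({x, g} : Set G))) : g = 1 := by
  by_contra hg1
  have ho1 : orderOf g ≠ 1 := fun h => hg1 (orderOf_eq_one_iff.mp h)
  obtain ⟨p, hp⟩ : ∃ p, p = (orderOf g).minFac := ⟨_, rfl⟩
  have hpp : p.Prime := by rw [hp]; exact Nat.minFac_prime ho1
  haveI : Fact p.Prime := ⟨hpp⟩
  have hpd : p ∣ orderOf g := by rw [hp]; exact Nat.minFac_dvd _
  obtain ⟨g1, hg1def⟩ : ∃ g1, g1 = g ^ (orderOf g / p) := ⟨_, rfl⟩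
  have hg1o : orderOf g1 = p := by
    rw [hg1def]; exact orderOf_pow_orderOf_div (orderOf_pos g).ne' hpd
  have hg1ne : g1 ≠ 1 := by
    intro h; rw [h, orderOf_one] at hg1o; exact hpp.one_lt.ne hg1o
  have hnil : ∀ x : G, Group.IsNilpotent ↥(Subgroup.closure ({x, g1} : Set G)) := by
    intro x
    refine nilp_of_le ?_ (hg x)
    rw [Subgroup.closure_le]
    intro y hy
    rcases hy with rfl | rfl
    · exact Subgroup.subset_closure (by simp)
    · rw [hg1def]; exact Subgroup.pow_mem _ (Subgroup.subset_closure (by simp)) _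
  -- commute with p'-elements
  have hcomm : ∀ y : G, (orderOf y).Coprime p → g1 * y = y * g1 := by
    intro y hy
    have h := Cfsg.Agent.Lib.Helper6.commute_of_pelt_of_coprime (hnil y) (p := p)
      (u := (⟨g1, Subgroup.subset_closure (by simp)⟩ : ↥(Subgroup.closure ({y, g1} : Set G))))
      (v := ⟨y, Subgroup.subset_closure (by simp)⟩) (i := 1)
      (by rw [Subgroup.orderOf_mk, pow_one]; exact hg1o) (by rw [Subgroup.orderOf_mk]; exact hy)
    exact congrArg Subtype.val h.eq
  obtain ⟨C, hCdef⟩ : ∃ C : Subgroup G, C = Subgroup.closure {y : G | (orderOf y).Coprime p} := ⟨_, rfl⟩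
  haveI hCn : C.Normal := by
    rw [hCdef]
    apply Cfsg.Agent.Lib.Lead.closure_normal_of_conj_invariant
    intro k hk x
    show (orderOf (x * k * x⁻¹)).Coprime p
    rw [Cfsg.Agent.Lib.Lead.orderOf_conj_eq]; exact hk
  have hCp : IsPGroup p (G ⧸ C) := by
    intro xbar
    obtain ⟨x, rfl⟩ := QuotientGroup.mk_surjective xbar
    obtain ⟨k, m, hm, hkm⟩ := Nat.exists_eq_pow_mul_and_not_dvd (orderOf_pos x).ne' p hpp.ne_one
    refine ⟨k, ?_⟩
    rw [← QuotientGroup.mk_pow, QuotientGroup.eq_one_iff, hCdef]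
    apply Subgroup.subset_closure
    show (orderOf (x ^ p ^ k)).Coprime p
    have hd : orderOf (x ^ p ^ k) ∣ m := by
      apply orderOf_dvd_of_pow_eq_one
      rw [← pow_mul, ← hkm, pow_orderOf_eq_one]
    have hmc : m.Coprime p := ((Nat.Prime.coprime_iff_not_dvd hpp).mpr hm).symm
    exact Nat.Coprime.coprime_dvd_left hd hmc
  have hg1D : g1 ∈ Subgroup.centralizer (C : Set G) := by
    rw [Subgroup.mem_centralizer_iff]
    have hle : C ≤ Subgroup.centralizer ({g1} : Set G) := by
      rw [hCdef, Subgroup.closure_le]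
      intro y hy
      rw [SetLike.mem_coe, Subgroup.mem_centralizer_iff]
      intro h hh
      rw [Set.mem_singleton_iff] at hh
      rw [hh]; exact hcomm y hy
    intro h hh
    have := hle hh
    rw [Subgroup.mem_centralizer_iff] at this
    exact (this g1 rfl).symm
  have hpg : IsPGroup p (Subgroup.zpowers g1) :=
    IsPGroup.of_card (n := 1) (by rw [Nat.card_zpowers, hg1o, pow_one])
  obtain ⟨P, hP⟩ := hpg.exists_le_sylow
  have hg1P : g1 ∈ (P : Subgroup G) := hP (Subgroup.mem_zpowers g1)
  haveI : Group.IsNilpotent ↥(P : Subgroup G) := P.isPGroup'.isNilpotent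
  have hN' : (Subgroup.centralizer (C : Set G)).subgroupOf (P : Subgroup G) ≠ ⊥ := by
    intro h
    have : (⟨g1, hg1P⟩ : ↥(P : Subgroup G)) ∈ (Subgroup.centralizer (C : Set G)).subgroupOf (P : Subgroup G) := by
      rw [Subgroup.mem_subgroupOf]; exact hg1D
    rw [h, Subgroup.mem_bot] at this
    exact hg1ne (congrArg Subtype.val this)
  have hne := Cfsg.Agent.Lib.Lead.normal_inf_center_ne_bot _ hN'
  rw [Ne, Subgroup.eq_bot_iff_forall] at hne
  push_neg at hne
  obtain ⟨d, hd, hd1⟩ := hne
  have hdC : ∀ h ∈ (C : Set G), h * (d : G) = (d : G) * h := by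
    have : d ∈ (Subgroup.centralizer (C : Set G)).subgroupOf (P : Subgroup G) := hd.1
    rw [Subgroup.mem_subgroupOf, Subgroup.mem_centralizer_iff] at this
    exact this
  have hdP : ∀ s : ↥(P : Subgroup G), s * d = d * s := by
    have : d ∈ Subgroup.center ↥(P : Subgroup G) := hd.2
    rw [Subgroup.mem_center_iff] at this
    exact this
  have hdZ : (d : G) ∈ Subgroup.center G := by
    rw [Subgroup.mem_center_iff]
    intro x
    obtain ⟨c, hc, s, hs, rfl⟩ := Cfsg.Agent.Lib.Helper6.exists_mul_of_pindex C hCp (P : Subgroup G)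
      P.isPGroup' P.not_dvd_index x
    have h1 := hdC c hc
    have h2 : s * (d : G) = (d : G) * s := congrArg Subtype.val (hdP ⟨s, hs⟩)
    rw [mul_assoc, h2, ← mul_assoc, h1, mul_assoc]
  rw [hZ, Subgroup.mem_bot] at hdZ
  exact hd1 (Subtype.ext hdZ)

theorem aux : ∀ (n : ℕ) (G : Type u) [Group G] [Finite G], Nat.card G = n → ∀ g : G,
    (∀ x : G, Group.IsNilpotent ↥(Subgroup.closure ({x, g} : Set G))) →
    g ∈ ⨆ n : ℕ, Subgroup.upperCentralSeries G n := by
  intro n
  induction n using Nat.strong_induction_on with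
  | _ n ih =>
    intro G _ _ hn g hg
    have hdir : Directed (· ≤ ·) (Subgroup.upperCentralSeries G) :=
      (Subgroup.upperCentralSeries_mono _).directed_le
    by_cases hZ : Subgroup.center G = ⊥
    · rw [trivial_of_center_bot hZ g hg]; exact Subgroup.one_mem _
    · have hlt : Nat.card (G ⧸ Subgroup.center G) < n := by
        have h1 := Subgroup.card_eq_card_quotient_mul_card_subgroup (Subgroup.center G)
        have h2 : 1 < Nat.card (Subgroup.center G) := (Subgroup.one_lt_card_iff_ne_bot _).mpr hZ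
        have h3 : 0 < Nat.card (G ⧸ Subgroup.center G) := Nat.card_pos
        rw [← hn, h1]
        nlinarith
      have hq : ∀ xb : G ⧸ Subgroup.center G, Group.IsNilpotent
          ↥(Subgroup.closure ({xb, (QuotientGroup.mk' (Subgroup.center G) g)} : Set (G ⧸ Subgroup.center G))) := by
        intro xb
        obtain ⟨x, rfl⟩ := QuotientGroup.mk_surjective xb
        have e : Subgroup.closure ({(x : G ⧸ Subgroup.center G), (QuotientGroup.mk' (Subgroup.center G) g)} : Set (G ⧸ Subgroup.center G))
            = (Subgroup.closure ({x, g} : Set G)).map (QuotientGroup.mk' (Subgroup.center G)) := by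
          rw [MonoidHom.map_closure, Set.image_pair]; rfl
        rw [e]
        haveI := hg x
        exact Group.nilpotent_of_surjective
          ((QuotientGroup.mk' (Subgroup.center G)).subgroupMap (Subgroup.closure ({x, g} : Set G)))
          (MonoidHom.subgroupMap_surjective _ _)
      have h := ih _ hlt (G ⧸ Subgroup.center G) rfl (QuotientGroup.mk' (Subgroup.center G) g) hq
      rw [Subgroup.mem_iSup_of_directed (Subgroup.upperCentralSeries_mono _).directed_le] at h
      obtain ⟨k, hk⟩ := h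
      rw [Subgroup.mem_iSup_of_directed hdir]
      refine ⟨k + 1, ?_⟩
      rw [← Subgroup.comap_upperCentralSeries_quotient_center]
      exact hk

theorem result {G : Type*} [Group G] [Finite G] (g : G) :
    (∀ x : G, Group.IsNilpotent ↥(Subgroup.closure ({x, g} : Set G))) ↔ g ∈ ⨆ n : ℕ, Subgroup.upperCentralSeries G n := by
  constructor
  · intro h
    exact aux _ G rfl g h
  · intro h x
    rw [Subgroup.mem_iSup_of_directed (Subgroup.upperCentralSeries_mono _).directed_le] at h
    obtain ⟨n, hn⟩ := h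
    obtain ⟨K, hK, hxK, hZK⟩ := Cfsg.Agent.Lib.Helper6.isNilpotent_zpowers_upperCentralSeries n x
    refine nilp_of_le ?_ hK
    rw [Subgroup.closure_le]
    intro y hy
    rcases hy with rfl | rfl
    · exact hxK
    · exact hZK hn

end Cfsg.Agent.S3939
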