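import Cfsg.Statements.S3949
import Mathlib

set_option autoImplicit false
open Cfsg

namespace Cfsg.Agent.S3949

/-- Let G be a finite group and α an automorphism of G of order 2 such that the elements g·α(g)⁻¹ generate G. Let j be a positive integer such that 2^j divides the order of no element inverted by α. Then the set of values of the j-th iterate of the map c ↦ c·α(c)⁻¹ is exactly the set of elements of odd order inverted by α. -/
theorem result {G : Type*} [Group G] [Finite G] (α : MulAut G) (hα : orderOf α = 2) (hG : Subgroup.closure (Set.range (fun c : G => c * (α c)⁻¹)) = ⊤)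
    (j : ℕ) (hj : ∀ g : G, α g = g⁻¹ → ¬ 2 ^ j ∣ orderOf g) :
    Set.range ((fun c : G => c * (α c)⁻¹)^[j]) = {g : G | Odd (orderOf g) ∧ α g = g⁻¹} := by
  have hαα : ∀ c : G, α (α c) = c := by
    intro c
    have h1 : α ^ 2 = 1 := by rw [← hα]; exact pow_orderOf_eq_one α
    have h2 : (α ^ 2) c = c := by rw [h1]; rfl
    rw [pow_two] at h2
    exact h2
  have L1 : ∀ c : G, α (c * (α c)⁻¹) = (c * (α c)⁻¹)⁻¹ := by
    intro c
    rw [map_mul, map_inv, hαα]
    simp
  have Lpow : ∀ (g : G) (k : ℕ), α g = g⁻¹ → α (g ^ k) = (g ^ k)⁻¹ := by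
    intro g k hg
    rw [map_pow, hg, inv_pow]
  have L3 : ∀ (i : ℕ) (g : G), α g = g⁻¹ → (fun c : G => c * (α c)⁻¹)^[i] g = g ^ (2 ^ i) := by
    intro i
    induction i with
    | zero => intro g _; simp
    | succ i ih =>
      intro g hg
      rw [Function.iterate_succ_apply]
      have e : g * (α g)⁻¹ = g ^ 2 := by rw [hg, inv_inv, pow_two]
      rw [e, ih _ (Lpow g 2 hg), ← pow_mul, pow_succ, mul_comm]
  have hj0 : j ≠ 0 := by
    rintro rfl
    exact hj 1 (by simp) (by simp)
  obtain ⟨j', rfl⟩ := Nat.exists_eq_succ_of_ne_zero hj0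
  ext x
  simp only [Set.mem_range, Set.mem_ofPred_eq]
  constructor
  · rintro ⟨c, rfl⟩
    rw [Function.iterate_succ_apply, L3 j' _ (L1 c)]
    set u := c * (α c)⁻¹ with hu
    refine ⟨?_, Lpow u _ (L1 c)⟩
    have hN : 0 < orderOf u := orderOf_pos u
    have hnd := hj u (L1 c)
    rw [orderOf_pow]
    set N := orderOf u with hNdef
    obtain ⟨a, ha, hga⟩ := (Nat.dvd_prime_pow Nat.prime_two).mp (Nat.gcd_dvd_right N (2 ^ j'))
    rw [hga]
    rw [← Nat.not_even_iff_odd]
    intro heven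
    have h2 : 2 ∣ N / 2 ^ a := even_iff_two_dvd.mp heven
    have hdN : 2 ^ a ∣ N := by rw [← hga]; exact Nat.gcd_dvd_left _ _
    have h3 : 2 ^ (a + 1) ∣ N := by
      obtain ⟨q, hq⟩ := h2
      have : N = 2 ^ a * (N / 2 ^ a) := (Nat.mul_div_cancel' hdN).symm
      rw [this, hq, pow_succ, ← mul_assoc]
      exact Dvd.intro _ rfl
    rcases Nat.lt_or_ge a j' with hlt | hge
    · have h4 : 2 ^ (a + 1) ∣ 2 ^ j' := pow_dvd_pow 2 hlt
      have h5 : 2 ^ (a + 1) ∣ Nat.gcd N (2 ^ j') := Nat.dvd_gcd h3 h4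
      rw [hga] at h5
      have h6 := Nat.le_of_dvd (by positivity) h5
      have h7 : 2 ^ a < 2 ^ (a + 1) := Nat.pow_lt_pow_right (by norm_num) (by omega)
      omega
    · have : a = j' := le_antisymm ha hge
      rw [this] at h3
      exact hnd h3
  · rintro ⟨hodd, hinv⟩
    have hcop : (2 ^ (j' + 1)).Coprime (orderOf x) :=
      Nat.Coprime.pow_left _ (Nat.coprime_two_left.mpr hodd)
    obtain ⟨m, hm⟩ := exists_pow_eq_self_of_coprime hcop
    refine ⟨x ^ m, ?_⟩
    rw [L3 _ _ (Lpow x m hinv), ← pow_mul, mul_comm, pow_mul]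
    exact hm

end Cfsg.Agent.S3949
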