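import Cfsg.Statements.S3969
import Cfsg.Agent.Lib.Helper6.AbelSylow
import Cfsg.Agent.Lib.Lead.Transfer

set_option autoImplicit false

namespace Cfsg.Agent.S3969

open Cfsg.Agent.Lib

/-- Let `P` be an abelian Sylow `p`-subgroup of the finite group `G`, generated by `d` elements (`d` its minimal number of generators). If the order of `G` is coprime to `(p - 1)(p ^ 2 - 1) ⋯ (p ^ d - 1)`, then `G` has a normal `p`-complement. (The classical statement needs only the largest number of cyclic factors of `P` of equal order in place of `d`; the form here follows from it.) -/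
theorem result {G : Type*} [Group G] [Finite G] (p : ℕ) [Fact p.Prime] (P : Sylow p G) (hab : IsMulCommutative (P : Subgroup G)) (hcop : Nat.Coprime (Nat.card G) (∏ i ∈ Finset.Icc 1 (Group.rank (P : Subgroup G)), (p ^ i - 1))) : Cfsg.HasNormalPComplement p G := by
  have hab' : ∀ x ∈ (P : Subgroup G), ∀ y ∈ (P : Subgroup G), x * y = y * x := by
    intro x hx y hy
    have h1 := hab.is_comm.comm (⟨x, hx⟩ : ↥(P : Subgroup G)) ⟨y, hy⟩
    exact congrArg Subtype.val h1
  apply Lead.hasNormalPComplement_of_normalizer_le_centralizer P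
  apply Helper6.normalizer_le_centralizer_of_abelian P hab'
  intro q hq hqp hqG i hi1 hi2 hdvd
  have h1 : q ∣ ∏ i ∈ Finset.Icc 1 (Group.rank (P : Subgroup G)), (p ^ i - 1) :=
    hdvd.trans (Finset.dvd_prod_of_mem _ (Finset.mem_Icc.mpr ⟨hi1, hi2⟩))
  have h2 : q ∣ 1 := by
    have h3 := Nat.dvd_gcd hqG h1
    rwa [Nat.Coprime.gcd_eq_one hcop] at h3
  exact hq.one_lt.ne' (Nat.dvd_one.mp h2)

end Cfsg.Agent.S3969
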