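import Cfsg.Statements.S3970
import Cfsg.Agent.Lib.Helper6.AbelSylow
import Cfsg.Agent.Lib.Lead.Transfer

set_option autoImplicit false

namespace Cfsg.Agent.S3970

open Cfsg.Agent.Lib

universe u

/-- a group of prime order has rank at most one -/
theorem rank_le_one_of_card_prime {A : Type*} [Group A] [Finite A] {p : ℕ} (hp : p.Prime)
    (hA : Nat.card A = p) : Group.rank A ≤ 1 := by
  classical
  haveI : Fact p.Prime := ⟨hp⟩
  haveI : Nontrivial A := by
    rw [← Finite.one_lt_card_iff_nontrivial, hA]; exact hp.one_lt
  obtain ⟨g, hg⟩ := exists_ne (1 : A)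
  have h1 : Subgroup.zpowers g = ⊤ := by
    have h2 : Nat.card (Subgroup.zpowers g) ∣ p := hA ▸ Subgroup.card_subgroup_dvd_card _
    rcases (Nat.dvd_prime hp).mp h2 with h3 | h3
    · exfalso
      rw [Subgroup.card_eq_one, Subgroup.zpowers_eq_bot] at h3
      exact hg h3
    · exact (Subgroup.card_eq_iff_eq_top _).mp (h3.trans hA.symm)
  have h4 : Subgroup.closure ((({g} : Finset A) : Set A)) = ⊤ := by
    rw [Finset.coe_singleton, ← Subgroup.zpowers_eq_closure, h1]
  have h5 := Group.rank_le h4
  simpa using h5

theorem aux : ∀ (n : ℕ) (G : Type u) [Group G] [Finite G], Nat.card G = n →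
    (∀ p : ℕ, p.Prime → p ∣ Nat.card G → (∃ q : ℕ, q.Prime ∧ q ∣ Nat.card G ∧ p < q) →
      ∀ P : Sylow p G, IsMulCommutative (P : Subgroup G) ∧ Group.rank (P : Subgroup G) ≤ 2) →
    ¬ 12 ∣ Nat.card G → Group.IsSolvable G := by
  intro n
  induction n using Nat.strong_induction_on with
  | _ n ih =>
  intro G _ _ hn h h12
  classical
  by_cases h1 : Nat.card G = 1
  · haveI : Subsingleton G := (Nat.card_eq_one_iff_unique.mp h1).1
    infer_instance
  set p := (Nat.card G).minFac with hpdef
  have hp : p.Prime := Nat.minFac_prime h1
  haveI : Fact p.Prime := ⟨hp⟩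
  have hpG : p ∣ Nat.card G := Nat.minFac_dvd _
  by_cases hbig : ∃ q : ℕ, q.Prime ∧ q ∣ Nat.card G ∧ p < q
  · -- Burnside
    let P : Sylow p G := default
    obtain ⟨hab, hrank⟩ := h p hp hpG hbig P
    have hab' : ∀ x ∈ (P : Subgroup G), ∀ y ∈ (P : Subgroup G), x * y = y * x := by
      intro x hx y hy
      have h1 := hab.is_comm.comm (⟨x, hx⟩ : ↥(P : Subgroup G)) ⟨y, hy⟩
      exact congrArg Subtype.val h1
    have hPcard : Nat.card (P : Subgroup G) = p ^ (Nat.card G).factorization p :=
      Sylow.card_eq_multiplicity P
    have hNC : Subgroup.normalizer ((P : Subgroup G) : Set G) ≤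
        Subgroup.centralizer ((P : Subgroup G) : Set G) := by
      apply Helper6.normalizer_le_centralizer_of_abelian P hab'
      intro q hq hqp hqG i hi1 hi2 hdvd
      have hpq : p < q := by
        have h2 : p ≤ q := Nat.minFac_le_of_dvd hq.two_le hqG
        omega
      have hi : i = 1 ∨ i = 2 := by omega
      have hp1 : ¬ q ∣ p - 1 := by
        intro h3
        have h4 := Nat.le_of_dvd (by have := hp.two_le; omega) h3
        omega
      rcases hi with rfl | rfl
      · rw [pow_one] at hdvd
        exact hp1 hdvd
      · have h3' : ∀ m : ℕ, 1 ≤ m → m ^ 2 - 1 = (m - 1) * (m + 1) := by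
          intro m hm
          obtain ⟨k, rfl⟩ : ∃ k, m = k + 1 := ⟨m - 1, by omega⟩
          simp only [Nat.add_sub_cancel]
          have : (k + 1) ^ 2 = k * (k + 1 + 1) + 1 := by ring
          omega
        have h3 : p ^ 2 - 1 = (p - 1) * (p + 1) := h3' p hp.pos
        rw [h3] at hdvd
        rcases (Nat.Prime.dvd_mul hq).mp hdvd with h4 | h4
        · exact hp1 h4
        · have h5 := Nat.le_of_dvd (by omega) h4
          have hq3 : q = p + 1 := by omega
          have hp2 : p = 2 := by
            rcases hp.eq_two_or_odd with h6 | h6
            · exact h6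
            · exfalso
              rcases hq.eq_two_or_odd with h7 | h7
              · have := hp.two_le; omega
              · omega
          have hq3' : q = 3 := by omega
          -- rank P = 2, so |P| ≥ 4
          have h4G : 4 ∣ Nat.card G := by
            by_contra h4
            have hf : (Nat.card G).factorization 2 = 1 := by
              have hf1 : 1 ≤ (Nat.card G).factorization 2 := by
                rw [← hp2]
                exact (hp.dvd_iff_one_le_factorization Nat.card_pos.ne').mp hpG
              have hf2 : (Nat.card G).factorization 2 < 2 := by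
                by_contra hge
                push Not at hge
                apply h4
                have h6 : 2 ^ 2 ∣ Nat.card G :=
                  (Nat.Prime.pow_dvd_iff_le_factorization Nat.prime_two Nat.card_pos.ne').mpr hge
                simpa using h6
              omega
            have h6 : Nat.card (P : Subgroup G) = p := by
              rw [hPcard, hp2, hf, pow_one]
            have h7 := rank_le_one_of_card_prime hp h6
            omega
          have h3G : 3 ∣ Nat.card G := hq3' ▸ hqG
          exact h12 (Nat.Coprime.mul_dvd_of_dvd_of_dvd (by norm_num) h4G h3G)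
    set K : Subgroup G := (MonoidHom.transferSylow P hNC).ker with hK
    have hcomp : Subgroup.IsComplement' K (P : Subgroup G) :=
      MonoidHom.ker_transferSylow_isComplement' P hNC
    haveI hKn : K.Normal := MonoidHom.normal_ker _
    have hcard : Nat.card K * Nat.card (P : Subgroup G) = Nat.card G := hcomp.card_mul_card
    have hP1 : 1 < Nat.card (P : Subgroup G) := by
      rw [hPcard]
      apply Nat.one_lt_pow _ hp.one_lt
      exact ((hp.dvd_iff_one_le_factorization Nat.card_pos.ne').mp hpG |> Nat.pos_iff_ne_zero.mp)
    have hKpos : 0 < Nat.card K := Nat.card_pos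
    have hKlt : Nat.card K < n := by
      rw [← hn, ← hcard]; nlinarith
    have hKdvd : Nat.card K ∣ Nat.card G := Subgroup.card_subgroup_dvd_card K
    have hKcop : (Nat.card K).Coprime p := by
      have h2 : Nat.card K = Nat.card G / p ^ (Nat.card G).factorization p := by
        have h3 : 0 < p ^ (Nat.card G).factorization p := pow_pos hp.pos _
        exact (Nat.div_eq_of_eq_mul_left h3 (by rw [← hPcard]; exact hcard.symm)).symm
      rw [h2]
      exact (Nat.coprime_ordCompl hp Nat.card_pos.ne').symm
    haveI : Group.IsSolvable K := by
      apply ih _ hKlt K rfl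
      · intro r hr hrK hqK R
        obtain ⟨q, hq, hqK', hrq⟩ := hqK
        haveI : Fact r.Prime := ⟨hr⟩
        have hrp : r ≠ p := by
          intro hrp
          rw [hrp] at hrK
          exact hp.one_lt.ne' (Nat.dvd_one.mp (by
            have := Nat.dvd_gcd hrK (dvd_refl p)
            rwa [Nat.Coprime.gcd_eq_one hKcop] at this))
        have hfac : (Nat.card G).factorization r = (Nat.card K).factorization r := by
          rw [← hcard, Nat.factorization_mul hKpos.ne' (by omega), hPcard]
          simp only [Finsupp.coe_add, Pi.add_apply]
          rw [Nat.factorization_pow]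
          simp only [Finsupp.coe_smul, Pi.smul_apply, smul_eq_mul]
          rw [Nat.factorization_eq_zero_of_not_dvd (n := p) (p := r)]
          · simp
          · intro h3
            exact hrp ((Nat.prime_dvd_prime_iff_eq hr hp).mp h3)
        have hRcard : Nat.card ((R : Subgroup K).map K.subtype) =
            r ^ (Nat.card G).factorization r := by
          rw [Subgroup.card_map_of_injective K.subtype_injective, hfac]
          exact Sylow.card_eq_multiplicity R
        let S : Sylow r G := Sylow.ofCard ((R : Subgroup K).map K.subtype) hRcard
        have hS : (S : Subgroup G) = (R : Subgroup K).map K.subtype := rfl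
        obtain ⟨hSab, hSrank⟩ := h r hr (hrK.trans hKdvd) ⟨q, hq, hqK'.trans hKdvd, hrq⟩ S
        let e : ↥(R : Subgroup K) ≃* ↥(S : Subgroup G) :=
          (R : Subgroup K).equivMapOfInjective K.subtype K.subtype_injective
        refine ⟨⟨⟨fun a b => ?_⟩⟩, ?_⟩
        · apply e.injective
          rw [map_mul, map_mul]
          exact hSab.is_comm.comm _ _
        · rw [Group.rank_congr e]
          exact hSrank
      · intro h3
        exact h12 (h3.trans hKdvd)
    haveI : Group.IsSolvable (G ⧸ K) := by
      have h2 : IsPGroup p (G ⧸ K) := by
        apply IsPGroup.of_card (n := (Nat.card G).factorization p)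
        rw [← Subgroup.index_eq_card, ← hPcard]
        exact hcomp.symm.index_eq_card
      haveI := h2.isNilpotent
      infer_instance
    exact Group.isSolvable_of_ker_le_range K.subtype (QuotientGroup.mk' K) (by
      rw [QuotientGroup.ker_mk', Subgroup.range_subtype])
  · -- `G` is a `p`-group
    have h2 : IsPGroup p G := by
      apply IsPGroup.of_card (n := (Nat.card G).primeFactorsList.length)
      apply Nat.eq_prime_pow_of_unique_prime_dvd Nat.card_pos.ne'
      intro q hq hqG
      by_contra hne
      apply hbig
      refine ⟨q, hq, hqG, ?_⟩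
      have h3 : p ≤ q := Nat.minFac_le_of_dvd hq.two_le hqG
      omega
    haveI := h2.isNilpotent
    infer_instance

/-- Let `G` be a finite group such that for every prime `p` dividing its order, other than the largest such prime, the Sylow `p`-subgroups are abelian and generated by at most two elements, and suppose `12` does not divide the order of `G`. Then `G` is solvable. In particular a group of cube-free order not divisible by `12` is solvable. -/
theorem result {G : Type*} [Group G] [Finite G] (h : ∀ p : ℕ, p.Prime → p ∣ Nat.card G → (∃ q : ℕ, q.Prime ∧ q ∣ Nat.card G ∧ p < q) → ∀ P : Sylow p G, IsMulCommutative (P : Subgroup G) ∧ Group.rank (P : Subgroup G) ≤ 2) (h12 : ¬ 12 ∣ Nat.card G) : Group.IsSolvable G := by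
  exact aux _ G rfl h h12

end Cfsg.Agent.S3970
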