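import Cfsg.Statements.S3971
import Cfsg.Agent.Lib.Helper6.FrobNC
import Cfsg.Agent.Lib.Helper6.AbelSylow
import Cfsg.Agent.Lib.Lead.Basic

set_option autoImplicit false

namespace Cfsg.Agent.S3971

open Cfsg.Agent.Lib

variable {G : Type*} [Group G]

/-- parity property of a subgroup of index two -/
theorem parity [Finite G] {H Q : Subgroup G} (hHQ : H ≤ Q) (hcard : Nat.card Q = 2 * Nat.card H)
    {y z : G} (hy : y ∈ Q) (hz : z ∈ Q) : y * z ∈ H ↔ (y ∈ H ↔ z ∈ H) := by
  have hidx : (H.subgroupOf Q).index = 2 := by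
    have h1 := Lead.relIndex_mul_card_of_le hHQ
    rw [hcard] at h1
    have h2 : 0 < Nat.card H := Nat.card_pos
    exact Nat.eq_of_mul_eq_mul_right h2 h1
  have h3 := Subgroup.mul_mem_iff_of_index_two hidx (a := (⟨y, hy⟩ : Q)) (b := ⟨z, hz⟩)
  simpa [Subgroup.mem_subgroupOf] using h3

theorem pow_mem_iff_even [Finite G] {H Q : Subgroup G} (hHQ : H ≤ Q)
    (hcard : Nat.card Q = 2 * Nat.card H) {d : G} (hd : d ∈ Q) (hdH : d ∉ H) (i : ℕ) :
    d ^ i ∈ H ↔ Even i := by
  induction i with
  | zero => simp [H.one_mem]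
  | succ i ih =>
    rw [pow_succ, parity hHQ hcard (Q.pow_mem hd i) hd, ih, Nat.even_add_one]
    simp [hdH]

theorem eq_of_index_two [Finite G] {H₁ H₂ Q : Subgroup G} (h₁ : H₁ ≤ Q) (h₂ : H₂ ≤ Q)
    (hc₁ : Nat.card Q = 2 * Nat.card H₁) (hc₂ : Nat.card Q = 2 * Nat.card H₂) {d t : G}
    (hd : d ∈ Q) (ht : t ∈ Q) (hgen : ∀ y ∈ Q, ∃ i : ℕ, y = d ^ i ∨ y = t * d ^ i)
    (hd₁ : d ∉ H₁) (hd₂ : d ∉ H₂) (ht12 : t ∈ H₁ ↔ t ∈ H₂) : H₁ = H₂ := by
  ext y
  by_cases hy : y ∈ Q
  · obtain ⟨i, rfl | rfl⟩ := hgen y hy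
    · rw [pow_mem_iff_even h₁ hc₁ hd hd₁, pow_mem_iff_even h₂ hc₂ hd hd₂]
    · rw [parity h₁ hc₁ ht (Q.pow_mem hd i), parity h₂ hc₂ ht (Q.pow_mem hd i),
        pow_mem_iff_even h₁ hc₁ hd hd₁, pow_mem_iff_even h₂ hc₂ hd hd₂, ht12]
  · exact ⟨fun h => absurd (h₁ h) hy, fun h => absurd (h₂ h) hy⟩

/-- a `2`-group with a cyclic subgroup of index at most two has no automorphisms of prime power
order `r ^ j`, `r ≥ 5` (here: induced by conjugation) -/
theorem aut_trivial [Finite G] (Q : Subgroup G) (hQ : IsPGroup 2 Q) (d : G) (hdQ : d ∈ Q)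
    (hcard : Nat.card Q ≤ 2 * orderOf d) (b : G) (hb : b ∈ Subgroup.normalizer (Q : Set G))
    (r j : ℕ) (hr : r.Prime) (hr5 : 5 ≤ r) (hbo : orderOf b = r ^ j) :
    b ∈ Subgroup.centralizer (Q : Set G) := by
  classical
  haveI : Fact (Nat.Prime 2) := ⟨Nat.prime_two⟩
  have hDQ : Subgroup.zpowers d ≤ Q := Subgroup.zpowers_le.mpr hdQ
  have hDcard : Nat.card (Subgroup.zpowers d) = orderOf d := Nat.card_zpowers d
  obtain ⟨n, hn⟩ : ∃ n, orderOf d = 2 ^ n := by
    obtain ⟨k, hk⟩ := (IsPGroup.iff_orderOf.mp hQ) ⟨d, hdQ⟩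
    exact ⟨k, by rw [← hk, Subgroup.orderOf_mk]⟩
  have hbodd : (orderOf b).Coprime 2 := by
    rw [hbo]
    apply Nat.Coprime.pow_left
    rw [Nat.coprime_primes hr Nat.prime_two]
    omega
  have hbQ : ∀ (i : ℕ) (y : G), y ∈ Q → b ^ i * y * (b ^ i)⁻¹ ∈ Q := by
    intro i y hy
    exact (Subgroup.mem_normalizer_iff.mp (Subgroup.pow_mem _ hb i) y).mp hy
  have hstep2 : b ∈ Subgroup.normalizer ((Subgroup.zpowers d : Subgroup G) : Set G) →
      b * d * b⁻¹ = d := by
    intro hbD
    have h1 : b * d * b⁻¹ ∈ Subgroup.zpowers d :=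
      (Subgroup.mem_normalizer_iff.mp hbD d).mp (Subgroup.mem_zpowers d)
    obtain ⟨k, hk⟩ := mem_powers_iff_mem_zpowers.mpr h1
    have hk' : d ^ k = b * d * b⁻¹ := hk
    rcases Nat.eq_zero_or_pos n with hn0 | hnpos
    · have hd1 : d = 1 := by rw [← orderOf_eq_one_iff, hn, hn0, pow_zero]
      rw [hd1]; group
    · have hkodd : k ≡ 1 [MOD 2] := by
        have h2 : orderOf (d ^ k) = orderOf d := by rw [hk', Helper6.orderOf_conj_eq]
        rw [orderOf_pow, hn] at h2
        have h3 : Nat.gcd (2 ^ n) k = 1 := by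
          have hpos : 0 < 2 ^ n := by positivity
          have h5 : 2 ^ n / Nat.gcd (2 ^ n) k * Nat.gcd (2 ^ n) k = 2 ^ n :=
            Nat.div_mul_cancel (Nat.gcd_dvd_left _ _)
          rw [h2] at h5
          exact Nat.eq_of_mul_eq_mul_left hpos (h5.trans (mul_one _).symm)
        have h4 : ¬ 2 ∣ k := by
          intro h
          have h6 : 2 ∣ Nat.gcd (2 ^ n) k := Nat.dvd_gcd (dvd_pow_self 2 hnpos.ne') h
          rw [h3] at h6
          omega
        rw [Nat.ModEq]
        omega
      exact Helper6.cyc_aut_trivial 2 n (orderOf b) k Nat.prime_two d b hn (pow_orderOf_eq_one b)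
        hbodd hkodd hk'.symm
  by_cases hQD : Q ≤ Subgroup.zpowers d
  · have hQeq : Q = Subgroup.zpowers d := le_antisymm hQD hDQ
    have hbD : b ∈ Subgroup.normalizer ((Subgroup.zpowers d : Subgroup G) : Set G) := hQeq ▸ hb
    have h1 := hstep2 hbD
    have hc0 : b * d = d * b := by
      have h2 := congrArg (fun z => z * b) h1
      simpa [mul_assoc] using h2
    have hc : Commute b d := hc0
    rw [Subgroup.mem_centralizer_iff]
    intro y hy
    obtain ⟨i, rfl⟩ := mem_powers_iff_mem_zpowers.mpr (hQD hy)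
    exact ((hc.pow_right i).eq).symm
  · obtain ⟨t, htQ, htD⟩ := SetLike.not_le_iff_exists.mp hQD
    have hcard2 : Nat.card Q = 2 * Nat.card (Subgroup.zpowers d) := by
      obtain ⟨c, hc⟩ := Subgroup.card_dvd_of_le hDQ
      have hD0 : 0 < Nat.card (Subgroup.zpowers d) := Nat.card_pos
      have hQ0 : 0 < Nat.card Q := Nat.card_pos
      have hc2 : c ≤ 2 := by
        rw [hc, ← hDcard] at hcard
        by_contra hgt
        push Not at hgt
        nlinarith
      have hc1 : c ≠ 1 := by
        rintro rfl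
        apply hQD
        rw [Subgroup.eq_of_le_of_card_ge hDQ (by rw [hc, mul_one])]
      have hc0 : c ≠ 0 := by
        rintro rfl
        rw [mul_zero] at hc
        omega
      have hc3 : c = 2 := by omega
      rw [hc, hc3, mul_comm]
    have hgen : ∀ y ∈ Q, ∃ i : ℕ, y = d ^ i ∨ y = t * d ^ i := by
      intro y hy
      by_cases hyD : y ∈ Subgroup.zpowers d
      · obtain ⟨i, hi⟩ := mem_powers_iff_mem_zpowers.mpr hyD
        exact ⟨i, Or.inl hi.symm⟩
      · have h1 : t⁻¹ * y ∈ Subgroup.zpowers d := by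
          rw [parity hDQ hcard2 (Q.inv_mem htQ) hy, inv_mem_iff]
          exact ⟨fun h => absurd h htD, fun h => absurd h hyD⟩
        obtain ⟨i, hi⟩ := mem_powers_iff_mem_zpowers.mpr h1
        have hi' : d ^ i = t⁻¹ * y := hi
        exact ⟨i, Or.inr (by rw [hi']; group)⟩
    have hbD : b ∈ Subgroup.normalizer ((Subgroup.zpowers d : Subgroup G) : Set G) := by
      by_contra hbN
      have hdist : ∀ i j : ℕ, i < j → j < 4 →
          (Subgroup.zpowers d).map (MulAut.conj (b ^ i)).toMonoidHom ≠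
            (Subgroup.zpowers d).map (MulAut.conj (b ^ j)).toMonoidHom := by
        intro i j' hij hj4 heq
        have h1 : b ^ j' = b ^ i * b ^ (j' - i) := by rw [← pow_add]; congr 1; omega
        rw [h1, Helper6.cj_mul] at heq
        have h2 := congrArg (fun X => X.map (MulAut.conj (b ^ i)⁻¹).toMonoidHom) heq
        simp only [Helper6.cj_inv_cj] at h2
        have h3 : b ^ (j' - i) ∈ Subgroup.normalizer ((Subgroup.zpowers d : Subgroup G) : Set G) :=
          Helper6.mem_normalizer_iff_cj.mpr h2.symm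
        have h4 : b ^ (r ^ j) ∈ Subgroup.normalizer ((Subgroup.zpowers d : Subgroup G) : Set G) := by
          rw [← hbo, pow_orderOf_eq_one]; exact Subgroup.one_mem _
        have hcop : (j' - i).Coprime (r ^ j) := by
          apply Nat.Coprime.pow_right
          apply Nat.Coprime.symm
          rw [Nat.Prime.coprime_iff_not_dvd hr]
          intro hdvd
          have := Nat.le_of_dvd (by omega) hdvd
          omega
        exact hbN (Helper6.mem_of_pow_mem_of_coprime hcop h3 h4)
      have hDi : ∀ i : ℕ, (Subgroup.zpowers d).map (MulAut.conj (b ^ i)).toMonoidHom ≤ Q := by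
        intro i
        rintro _ ⟨y, hy, rfl⟩
        exact hbQ i y (hDQ hy)
      have hDicard : ∀ i : ℕ, Nat.card Q =
          2 * Nat.card ((Subgroup.zpowers d).map (MulAut.conj (b ^ i)).toMonoidHom) := by
        intro i
        rw [Subgroup.card_map_of_injective (MulAut.conj (b ^ i)).injective]; exact hcard2
      have hdDi : ∀ i : ℕ, 0 < i → i < 4 →
          d ∉ (Subgroup.zpowers d).map (MulAut.conj (b ^ i)).toMonoidHom := by
        intro i hi0 hi4 hmem
        apply hdist 0 i hi0 hi4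
        rw [pow_zero, Helper6.cj_one]
        apply Subgroup.eq_of_le_of_card_ge (Subgroup.zpowers_le.mpr hmem)
        rw [Subgroup.card_map_of_injective (MulAut.conj (b ^ i)).injective]
      have key : ∀ i j' : ℕ, 0 < i → i < j' → j' < 4 →
          ¬ (t ∈ (Subgroup.zpowers d).map (MulAut.conj (b ^ i)).toMonoidHom ↔
            t ∈ (Subgroup.zpowers d).map (MulAut.conj (b ^ j')).toMonoidHom) := by
        intro i j' hi hij hj h
        exact hdist i j' hij hj (eq_of_index_two (hDi i) (hDi j') (hDicard i) (hDicard j') hdQ htQ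
          hgen (hdDi i hi (by omega)) (hdDi j' (by omega) hj) h)
      have k12 := key 1 2 (by norm_num) (by norm_num) (by norm_num)
      have k13 := key 1 3 (by norm_num) (by norm_num) (by norm_num)
      have k23 := key 2 3 (by norm_num) (by norm_num) (by norm_num)
      tauto
    have hbd := hstep2 hbD
    have hc0 : b * d = d * b := by
      have h2 := congrArg (fun z => z * b) hbd
      simpa [mul_assoc] using h2
    have hc : Commute b d := hc0
    have hbt : b * t * b⁻¹ = t := by
      have h1 : b * t * b⁻¹ ∈ Q := by simpa using hbQ 1 t htQ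
      have h2 : b * t * b⁻¹ ∉ Subgroup.zpowers d := by
        intro h
        exact htD ((Subgroup.mem_normalizer_iff.mp hbD t).mpr h)
      obtain ⟨i, hi | hi⟩ := hgen _ h1
      · exact absurd (hi ▸ Subgroup.pow_mem _ (Subgroup.mem_zpowers d) i) h2
      · have hpow : ∀ k : ℕ, b ^ k * t * (b ^ k)⁻¹ = t * d ^ (i * k) := by
          intro k
          induction k with
          | zero => simp
          | succ k ih =>
            have hcd : b * d ^ (i * k) * b⁻¹ = d ^ (i * k) := by
              rw [(hc.pow_right (i * k)).eq, mul_inv_cancel_right]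
            calc b ^ (k + 1) * t * (b ^ (k + 1))⁻¹ = b * (b ^ k * t * (b ^ k)⁻¹) * b⁻¹ := by
                  rw [pow_succ']; group
              _ = b * (t * d ^ (i * k)) * b⁻¹ := by rw [ih]
              _ = (b * t * b⁻¹) * (b * d ^ (i * k) * b⁻¹) := by group
              _ = t * d ^ i * d ^ (i * k) := by rw [hi, hcd]
              _ = t * d ^ (i * (k + 1)) := by rw [mul_assoc, ← pow_add]; congr 2; ring
        have h3 := hpow (orderOf b)
        rw [pow_orderOf_eq_one] at h3
        have h4 : d ^ (i * orderOf b) = 1 := by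
          have h5 : (1 : G) * t * (1 : G)⁻¹ = t := by group
          rw [h5] at h3
          exact mul_eq_left.mp h3.symm
        have h5 : orderOf d ∣ i * orderOf b := orderOf_dvd_of_pow_eq_one h4
        rw [hn] at h5
        have h6 : 2 ^ n ∣ i := (Nat.Coprime.pow_left n hbodd.symm).dvd_of_dvd_mul_right h5
        have h7 : d ^ i = 1 := by rw [← hn] at h6; exact orderOf_dvd_iff_pow_eq_one.mp h6
        rw [hi, h7, mul_one]
    have hct0 : b * t = t * b := by
      have h2 := congrArg (fun z => z * b) hbt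
      simpa [mul_assoc] using h2
    have hct : Commute b t := hct0
    rw [Subgroup.mem_centralizer_iff]
    intro y hy
    obtain ⟨i, rfl | rfl⟩ := hgen y hy
    · exact ((hc.pow_right i).eq).symm
    · exact ((hct.mul_right (hc.pow_right i)).eq).symm

/-- Let `G` be a finite group of order `2 ^ a * n` with `n` odd and not divisible by `3`, and suppose `G` has an element of order `2 ^ (a - 1)` (so a Sylow `2`-subgroup has a cyclic subgroup of index at most `2`). Then `G` has a normal subgroup of order `n`. -/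
theorem result {G : Type*} [Group G] [Finite G] (a n : ℕ) (hG : Nat.card G = 2 ^ a * n) (hn : Odd n) (h3 : ¬ 3 ∣ n) (hx : ∃ x : G, orderOf x = 2 ^ (a - 1)) : ∃ N : Subgroup G, N.Normal ∧ Nat.card N = n := by
  classical
  haveI : Fact (Nat.Prime 2) := ⟨Nat.prime_two⟩
  obtain ⟨x, hx⟩ := hx
  have hn0 : n ≠ 0 := by
    rintro rfl
    exact (Nat.not_odd_iff_even.mpr (by decide : Even 0)) hn
  have h2n : ¬ 2 ∣ n := by
    rw [← even_iff_two_dvd]; exact Nat.not_even_iff_odd.mpr hn
  have hScard : ∀ S : Sylow 2 G, Nat.card (S : Subgroup G) = 2 ^ a := by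
    intro S
    rw [Sylow.card_eq_multiplicity, hG, Nat.factorization_mul (pow_ne_zero a two_ne_zero) hn0,
      Finsupp.add_apply, Nat.factorization_eq_zero_of_not_dvd h2n, add_zero,
      Nat.Prime.factorization_pow Nat.prime_two, Finsupp.single_eq_same]
  have hF : Helper6.FrobCond 2 G := by
    intro Q hQ g hg hcop
    apply Helper6.centralize_of_prime_power (p := 2) Q _ (orderOf g) g hg rfl hcop
    rintro b hb r hr hr2 ⟨j, hj⟩
    by_cases hj0 : j = 0
    · subst hj0
      rw [pow_zero, orderOf_eq_one_iff] at hj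
      rw [hj]; exact Subgroup.one_mem _
    have hrG : r ∣ Nat.card G :=
      (hj ▸ dvd_pow_self r hj0 : r ∣ orderOf b).trans (orderOf_dvd_natCard b)
    have hrn : r ∣ n := by
      rw [hG] at hrG
      exact (Nat.Coprime.pow_right a ((Nat.coprime_primes hr Nat.prime_two).mpr hr2)).dvd_of_dvd_mul_left hrG
    have hr3 : r ≠ 3 := by
      rintro rfl
      exact h3 hrn
    have hr5 : 5 ≤ r := by
      have h2le := hr.two_le
      by_contra hlt
      push Not at hlt
      have h4 : r = 4 := by omega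
      rw [h4] at hr
      exact absurd hr (by decide)
    obtain ⟨S, hQS⟩ := hQ.exists_le_sylow
    have hxp : IsPGroup 2 (Subgroup.zpowers x) :=
      IsPGroup.of_card (n := a - 1) (by rw [Nat.card_zpowers, hx])
    obtain ⟨S₀, hxS₀⟩ := hxp.exists_le_sylow
    obtain ⟨c, hc⟩ := MulAction.exists_smul_eq G S₀ S
    have hx'S : c * x * c⁻¹ ∈ (S : Subgroup G) := by
      rw [← hc, Helper6.sylow_smul_mem_iff]
      have h5 : c⁻¹ * (c * x * c⁻¹) * c = x := by group
      rw [h5]; exact hxS₀ (Subgroup.mem_zpowers x)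
    have hx'o : orderOf (c * x * c⁻¹) = 2 ^ (a - 1) := by rw [Helper6.orderOf_conj_eq, hx]
    have hCS : Subgroup.zpowers (c * x * c⁻¹) ≤ (S : Subgroup G) := Subgroup.zpowers_le.mpr hx'S
    have hCcard : Nat.card (Subgroup.zpowers (c * x * c⁻¹)) = 2 ^ (a - 1) := by
      rw [Nat.card_zpowers, hx'o]
    have hrel : (Subgroup.zpowers (c * x * c⁻¹) ⊓ Q).relIndex Q ≤ 2 := by
      rw [Subgroup.inf_relIndex_right]
      have h1 := Lead.relIndex_mul_card_of_le hCS
      rw [hCcard, hScard] at h1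
      have h3' : 2 ^ a ≤ 2 * 2 ^ (a - 1) := by
        rcases Nat.eq_zero_or_pos a with h | h
        · subst h; norm_num
        · obtain ⟨a', rfl⟩ : ∃ a', a = a' + 1 := ⟨a - 1, by omega⟩
          rw [Nat.add_sub_cancel, pow_succ, mul_comm]
      have h2 : (Subgroup.zpowers (c * x * c⁻¹)).relIndex (S : Subgroup G) ≤ 2 := by
        have h4 : 0 < 2 ^ (a - 1) := by positivity
        exact Nat.le_of_mul_le_mul_right (h1 ▸ h3') h4
      have h0 : (Subgroup.zpowers (c * x * c⁻¹)).relIndex (S : Subgroup G) ≠ 0 := by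
        intro h
        rw [h, zero_mul] at h1
        exact (pow_pos two_pos a).ne' h1.symm
      exact (Subgroup.relIndex_le_of_le_right hQS h0).trans h2
    haveI : IsCyclic ↥(Subgroup.zpowers (c * x * c⁻¹) ⊓ Q) :=
      isCyclic_of_injective (Subgroup.inclusion (inf_le_left :
        Subgroup.zpowers (c * x * c⁻¹) ⊓ Q ≤ Subgroup.zpowers (c * x * c⁻¹)))
        (Subgroup.inclusion_injective _)
    obtain ⟨d, hd⟩ := (Subgroup.isCyclic_iff_exists_zpowers_eq_top _).mp this
    have hdQ : d ∈ Q := by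
      have h5 : d ∈ Subgroup.zpowers (c * x * c⁻¹) ⊓ Q := hd ▸ Subgroup.mem_zpowers d
      exact h5.2
    have hcardQ : Nat.card Q ≤ 2 * orderOf d := by
      have h1 := Lead.relIndex_mul_card_of_le
        (inf_le_right : Subgroup.zpowers (c * x * c⁻¹) ⊓ Q ≤ Q)
      have h5 : Nat.card ↥(Subgroup.zpowers (c * x * c⁻¹) ⊓ Q) = orderOf d := by
        rw [← hd, Nat.card_zpowers]
      rw [h5] at h1
      rw [← h1]
      exact Nat.mul_le_mul_right _ hrel
    exact aut_trivial Q hQ d hdQ hcardQ b hb r j hr hr5 hj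
  obtain ⟨P, N, hN, hc⟩ := Helper6.frobenius_npc hF
  refine ⟨N, hN, ?_⟩
  have h1 := hc.card_mul_card
  rw [hScard P, hG, mul_comm] at h1
  exact Nat.eq_of_mul_eq_mul_left (pow_pos two_pos a) h1

end Cfsg.Agent.S3971
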