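import Cfsg.Statements.S3982
import Mathlib
import Cfsg.Agent.Lib.Lead.CoprimeSylow
import Cfsg.Agent.Lib.Lead.Hall
set_option autoImplicit false
open Cfsg

namespace Cfsg.Agent.S3982


theorem inverts {G : Type*} [Group G] [Finite G] (p : ℕ) [Fact p.Prime]
    (hC : ∀ g : G, g ≠ 1 → (∃ k : ℕ, orderOf g = p ^ k) →
      Odd (Nat.card ↥(Subgroup.centralizer ({g} : Set G))))
    (t : G) (ht : orderOf t = 2) (R : Subgroup G) (hR : IsPGroup p ↥R)
    (htR : t ∈ Subgroup.normalizer (R : Set G)) : ∀ y ∈ R, t * y * t⁻¹ = y⁻¹ := by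
  have htt : t * t = 1 := by rw [← pow_two, ← ht, pow_orderOf_eq_one]
  have htinv : t⁻¹ = t := inv_eq_of_mul_eq_one_left htt
  have hconj : ∀ x ∈ R, t * x * t⁻¹ ∈ R := fun x hx => (Subgroup.mem_normalizer_iff.mp htR x).mp hx
  have hfix : ∀ w ∈ R, w * t = t * w → w = 1 := by
    intro w hw hwt
    by_contra hw1
    have hord : ∃ k : ℕ, orderOf w = p ^ k := by
      obtain ⟨k, hk⟩ := (IsPGroup.iff_orderOf.mp hR) ⟨w, hw⟩
      exact ⟨k, by rw [← hk, Subgroup.orderOf_mk]⟩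
    have hodd := hC w hw1 hord
    have htC : t ∈ Subgroup.centralizer ({w} : Set G) := by
      rw [Subgroup.mem_centralizer_iff]
      intro h hh
      rw [Set.mem_singleton_iff] at hh
      rw [hh]; exact hwt
    have h2 : 2 ∣ Nat.card ↥(Subgroup.centralizer ({w} : Set G)) := by
      rw [← ht]; exact Subgroup.orderOf_dvd_natCard _ htC
    exact (Nat.not_even_iff_odd.mpr hodd) (even_iff_two_dvd.mpr h2)
  let f : ↥R → ↥R := fun x => ⟨(x : G)⁻¹ * (t * x * t⁻¹), R.mul_mem (R.inv_mem x.2) (hconj x x.2)⟩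
  have hinj : Function.Injective f := by
    intro x₁ x₂ h
    have h' : (x₁ : G)⁻¹ * (t * x₁ * t⁻¹) = (x₂ : G)⁻¹ * (t * x₂ * t⁻¹) := congrArg Subtype.val h
    have hw : (x₂ : G) * (x₁ : G)⁻¹ = 1 := by
      apply hfix _ (R.mul_mem x₂.2 (R.inv_mem x₁.2))
      have e1 : (x₂ : G) * (x₁ : G)⁻¹ * t =
          (x₂ : G) * ((x₁ : G)⁻¹ * (t * x₁ * t⁻¹)) * t * (x₁ : G)⁻¹ := by group
      rw [e1, h']; group
    apply Subtype.ext
    exact (mul_inv_eq_one.mp hw).symm
  have hsurj : Function.Surjective f := Finite.surjective_of_injective hinj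
  intro y hy
  obtain ⟨x, hx⟩ := hsurj ⟨y, hy⟩
  have hx' : (x : G)⁻¹ * (t * x * t⁻¹) = y := congrArg Subtype.val hx
  rw [← hx', htinv]
  have e1 : t * ((x : G)⁻¹ * (t * x * t)) * t = t * (x : G)⁻¹ * t * x * (t * t) := by group
  have e2 : ((x : G)⁻¹ * (t * x * t))⁻¹ = t⁻¹ * (x : G)⁻¹ * t⁻¹ * x := by group
  rw [e1, e2, htt, htinv, mul_one]

theorem norm_cent {G : Type*} [Group G] (t z : G) (h : t * z * t⁻¹ = z⁻¹) :
    t ∈ Subgroup.normalizer (Subgroup.centralizer ({z} : Set G) : Set G) := by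
  have h' : t⁻¹ * z * t = z⁻¹ := by
    have h0 : z = t⁻¹ * z⁻¹ * t := by rw [← h]; group
    calc t⁻¹ * z * t = (t⁻¹ * z⁻¹ * t)⁻¹ := by group
      _ = z⁻¹ := by rw [← h0]
  have hcomm : ∀ g : G, z * g = g * z → z⁻¹ * g = g * z⁻¹ := by
    intro g hg
    calc z⁻¹ * g = z⁻¹ * (g * z) * z⁻¹ := by group
      _ = z⁻¹ * (z * g) * z⁻¹ := by rw [hg]
      _ = g * z⁻¹ := by group
  rw [Subgroup.mem_normalizer_iff]
  intro g
  simp only [Subgroup.mem_centralizer_iff, Set.mem_singleton_iff, forall_eq]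
  constructor
  · intro hg
    have e1 : z * (t * g * t⁻¹) = t * ((t⁻¹ * z * t) * g) * t⁻¹ := by group
    have e2 : t * g * t⁻¹ * z = t * (g * (t⁻¹ * z * t)) * t⁻¹ := by group
    rw [e1, e2, h', hcomm g hg]
  · intro hg
    have e1 : z * g = t⁻¹ * ((t * z * t⁻¹) * (t * g * t⁻¹)) * t := by group
    have e2 : g * z = t⁻¹ * ((t * g * t⁻¹) * (t * z * t⁻¹)) * t := by group
    rw [e1, e2, h, hcomm _ hg]

theorem inv_sylow {G : Type*} [Group G] [Finite G] (p : ℕ) [Fact p.Prime]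
    (hC : ∀ g : G, g ≠ 1 → (∃ k : ℕ, orderOf g = p ^ k) →
      Odd (Nat.card ↥(Subgroup.centralizer ({g} : Set G))))
    (t : G) (ht : orderOf t = 2) (z : G) (hz1 : z ≠ 1) (hzp : ∃ k : ℕ, orderOf z = p ^ k)
    (hinv : t * z * t⁻¹ = z⁻¹) (U : Subgroup G) (hU : IsPGroup p U)
    (hUz : U ≤ Subgroup.centralizer ({z} : Set G))
    (htU : t ∈ Subgroup.normalizer (U : Set G)) :
    ∃ R₀ : Sylow p ↥(Subgroup.centralizer ({z} : Set G)),
      U ≤ (R₀ : Subgroup _).map (Subgroup.centralizer ({z} : Set G)).subtype ∧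
      t ∈ Subgroup.normalizer (((R₀ : Subgroup _).map
        (Subgroup.centralizer ({z} : Set G)).subtype : Subgroup G) : Set G) := by
  have hodd := hC z hz1 hzp
  have hA : Subgroup.zpowers t ≤
      Subgroup.normalizer (Subgroup.centralizer ({z} : Set G) : Set G) := by
    rw [Subgroup.zpowers_le]; exact norm_cent t z hinv
  have hcard : Nat.card (Subgroup.zpowers t) = 2 := by rw [Nat.card_zpowers, ht]
  have hcop : (Nat.card (Subgroup.zpowers t)).Coprime
      (Nat.card ↥(Subgroup.centralizer ({z} : Set G))) := by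
    rw [hcard]; exact (Nat.coprime_two_left).mpr hodd
  obtain ⟨R₀, hR1, hR2⟩ := Cfsg.Agent.Lib.Lead.invariant_pgroup_le_invariant_sylow
    (Subgroup.zpowers t) _ hA hcop (Or.inl inferInstance) p U hUz hU
    (by rw [Subgroup.zpowers_le]; exact htU)
  exact ⟨R₀, hR1, hR2 (Subgroup.mem_zpowers t)⟩
theorem result {G : Type*} [Group G] [Finite G] (p : ℕ) [Fact p.Prime] (hp2 : p ≠ 2) (hpG : p ∣ Nat.card G) (h2G : 2 ∣ Nat.card G) (hC : ∀ g : G, g ≠ 1 → (∃ k : ℕ, orderOf g = p ^ k) → Odd (Nat.card ↥(Subgroup.centralizer ({g} : Set G)))) (Q : Subgroup G) (hQ : IsPGroup p ↥Q) (hQ1 : Q ≠ ⊥) (hev : Even (Nat.card ↥(Subgroup.normalizer (Q : Set G)))) (P : Sylow p G) : Even (Nat.card ↥(Subgroup.normalizer ((P : Subgroup G) : Set G))) := by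

  classical
  have hp : p.Prime := Fact.out
  haveI : Fact (Nat.Prime 2) := ⟨Nat.prime_two⟩
  obtain ⟨t', ht'⟩ := exists_prime_orderOf_dvd_card'
    (G := ↥(Subgroup.normalizer (Q : Set G))) 2 (even_iff_two_dvd.mp hev)
  obtain ⟨t, htN, ht⟩ : ∃ t : G, t ∈ Subgroup.normalizer (Q : Set G) ∧ orderOf t = 2 :=
    ⟨t', t'.2, by rw [← ht', Subgroup.orderOf_coe]⟩
  obtain ⟨x', hx'⟩ := (Subgroup.ne_bot_iff_exists_ne_one).mp hQ1
  obtain ⟨x, hxQ, hx1⟩ : ∃ x : G, x ∈ Q ∧ x ≠ 1 :=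
    ⟨x', x'.2, fun h => hx' (Subtype.ext h)⟩
  have hpel : ∀ (R : Subgroup G), IsPGroup p R → ∀ w ∈ R, ∃ k : ℕ, orderOf w = p ^ k := by
    intro R hR w hw
    obtain ⟨k, hk⟩ := (IsPGroup.iff_orderOf.mp hR) ⟨w, hw⟩
    exact ⟨k, by rw [← hk, Subgroup.orderOf_mk]⟩
  have hcentmem : ∀ a b : G, a * b = b * a → b ∈ Subgroup.centralizer ({a} : Set G) := by
    intro a b hab
    rw [Subgroup.mem_centralizer_iff]; intro h hh; rw [Set.mem_singleton_iff] at hh; rw [hh]
    exact hab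
  have hxinv : t * x * t⁻¹ = x⁻¹ := inverts p hC t ht Q hQ htN x hxQ
  have hUQ : Subgroup.zpowers x ≤ Q := Subgroup.zpowers_le.mpr hxQ
  have hUp : IsPGroup p (Subgroup.zpowers x) := hQ.to_le hUQ
  have hUc : Subgroup.zpowers x ≤ Subgroup.centralizer ({x} : Set G) := by
    rw [Subgroup.zpowers_le]; exact hcentmem x x rfl
  have htU : t ∈ Subgroup.normalizer (Subgroup.zpowers x : Set G) := by
    rw [Subgroup.mem_normalizer_iff]
    intro g
    constructor
    · intro hg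
      have := inverts p hC t ht Q hQ htN g (hUQ hg)
      rw [this]; exact inv_mem hg
    · intro hg
      have hgQ' : t * g * t⁻¹ ∈ Q := hUQ hg
      have hgQ : g ∈ Q := (Subgroup.mem_normalizer_iff.mp htN g).mpr hgQ'
      have := inverts p hC t ht Q hQ htN g hgQ
      rw [this] at hg; exact inv_mem_iff.mp hg
  obtain ⟨R₀, hR1, hR2⟩ := inv_sylow p hC t ht x hx1 (hpel Q hQ x hxQ) hxinv _ hUp hUc htU
  obtain ⟨R, hR⟩ : ∃ R : Subgroup G, R =
    (R₀ : Subgroup _).map (Subgroup.centralizer ({x} : Set G)).subtype := ⟨_, rfl⟩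
  rw [← hR] at hR1 hR2
  have hRp : IsPGroup p R := by rw [hR]; exact R₀.isPGroup'.map _
  have hxR : x ∈ R := hR1 (Subgroup.mem_zpowers x)
  obtain ⟨P', hP'⟩ := hRp.exists_le_sylow
  have hP'bot : (P' : Subgroup G) ≠ ⊥ := P'.ne_bot_of_dvd_card hpG
  haveI : Nontrivial ↥(P' : Subgroup G) := (Subgroup.nontrivial_iff_ne_bot _).mpr hP'bot
  haveI := P'.isPGroup'.center_nontrivial
  obtain ⟨z', hz'⟩ := exists_ne (1 : ↥(Subgroup.center ↥(P' : Subgroup G)))
  obtain ⟨z, hz⟩ : ∃ z : G, z = ((z' : ↥(P' : Subgroup G)) : G) := ⟨_, rfl⟩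
  have hzP : z ∈ (P' : Subgroup G) := by rw [hz]; exact (z' : ↥(P' : Subgroup G)).2
  have hz1 : z ≠ 1 := by
    intro h; apply hz'
    apply Subtype.ext; apply Subtype.ext
    rw [← hz, h]; rfl
  have hzc : ∀ w ∈ (P' : Subgroup G), w * z = z * w := by
    intro w hw
    have h1 := Subgroup.mem_center_iff.mp z'.2 ⟨w, hw⟩
    have h2 := congrArg Subtype.val h1
    rw [hz]; exact h2
  have hzA : z ∈ Subgroup.centralizer ({x} : Set G) := hcentmem x z (hzc x (hP' hxR))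
  have hzR : z ∈ R := by
    have hmax := R₀.is_maximal' (Q := ((P' : Subgroup G) ⊓
      Subgroup.centralizer ({x} : Set G)).subgroupOf (Subgroup.centralizer ({x} : Set G)))
      ((P'.isPGroup'.to_le inf_le_left).comap_subtype) (by
        intro w hw
        rw [Subgroup.mem_subgroupOf]
        refine ⟨hP' ?_, w.2⟩
        rw [hR]; exact ⟨w, hw, rfl⟩)
    have h1 : (⟨z, hzA⟩ : ↥(Subgroup.centralizer ({x} : Set G))) ∈
        ((P' : Subgroup G) ⊓ Subgroup.centralizer ({x} : Set G)).subgroupOf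
          (Subgroup.centralizer ({x} : Set G)) := by
      rw [Subgroup.mem_subgroupOf]; exact ⟨hzP, hzA⟩
    rw [hmax] at h1
    rw [hR]
    exact ⟨⟨z, hzA⟩, h1, rfl⟩
  have hzinv : t * z * t⁻¹ = z⁻¹ := inverts p hC t ht R hRp hR2 z hzR
  obtain ⟨S₀, -, hS2⟩ := inv_sylow p hC t ht z hz1 (hpel P' P'.isPGroup' z hzP) hzinv ⊥
    IsPGroup.of_bot bot_le (by
      rw [Subgroup.mem_normalizer_iff]; intro g; simp [Subgroup.mem_bot])
  obtain ⟨S, hS⟩ : ∃ S : Subgroup G, S =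
    (S₀ : Subgroup _).map (Subgroup.centralizer ({z} : Set G)).subtype := ⟨_, rfl⟩
  rw [← hS] at hS2
  have hSp : IsPGroup p S := by rw [hS]; exact S₀.isPGroup'.map _
  obtain ⟨S₁, hS₁⟩ := hSp.exists_le_sylow
  have hPB : (P' : Subgroup G) ≤ Subgroup.centralizer ({z} : Set G) := by
    intro w hw
    exact hcentmem z w (hzc w hw).symm
  have hcardS : Nat.card (P' : Subgroup G) ≤ Nat.card S := by
    obtain ⟨T, hT⟩ := (P'.isPGroup'.comap_subtype
      (K := Subgroup.centralizer ({z} : Set G))).exists_le_sylow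
    have h1 : Nat.card ((P' : Subgroup G).subgroupOf (Subgroup.centralizer ({z} : Set G))) =
        Nat.card (P' : Subgroup G) := Cfsg.Agent.Lib.Lead.card_subgroupOf_of_le hPB
    have h2 := Subgroup.card_le_of_le hT
    have h3 : Nat.card ↥(T : Subgroup ↥(Subgroup.centralizer ({z} : Set G))) =
        Nat.card ↥(S₀ : Subgroup ↥(Subgroup.centralizer ({z} : Set G))) := by
      rw [Sylow.card_eq_multiplicity, Sylow.card_eq_multiplicity]
    have h4 : Nat.card S = Nat.card ↥(S₀ : Subgroup ↥(Subgroup.centralizer ({z} : Set G))) := by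
      rw [hS]; exact Subgroup.card_map_of_injective (Subgroup.subtype_injective _)
    have h5 : Nat.card ((P' : Subgroup G).subgroupOf (Subgroup.centralizer ({z} : Set G))) ≤
        Nat.card ↥(T : Subgroup ↥(Subgroup.centralizer ({z} : Set G))) := h2
    omega
  have hSS : S = (S₁ : Subgroup G) := by
    apply Subgroup.eq_of_le_of_card_ge hS₁
    have : Nat.card (S₁ : Subgroup G) = Nat.card (P' : Subgroup G) := by
      rw [Sylow.card_eq_multiplicity, Sylow.card_eq_multiplicity]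
    omega
  rw [hSS] at hS2
  have h2S : 2 ∣ Nat.card ↥(Subgroup.normalizer ((S₁ : Subgroup G) : Set G)) := by
    rw [← ht]; exact Subgroup.orderOf_dvd_natCard _ hS2
  have hi1 : Nat.card (Sylow p G) = (Subgroup.normalizer ((S₁ : Subgroup G) : Set G)).index :=
    Sylow.card_eq_index_normalizer S₁
  have hi2 : Nat.card (Sylow p G) = (Subgroup.normalizer ((P : Subgroup G) : Set G)).index :=
    Sylow.card_eq_index_normalizer P
  have hc1 := Subgroup.card_mul_index (Subgroup.normalizer ((S₁ : Subgroup G) : Set G))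
  have hc2 := Subgroup.card_mul_index (Subgroup.normalizer ((P : Subgroup G) : Set G))
  rw [← hi1] at hc1
  rw [← hi2] at hc2
  have hpos : 0 < Nat.card (Sylow p G) := Nat.card_pos
  have heq : Nat.card ↥(Subgroup.normalizer ((P : Subgroup G) : Set G)) =
      Nat.card ↥(Subgroup.normalizer ((S₁ : Subgroup G) : Set G)) := by
    apply Nat.eq_of_mul_eq_mul_right hpos
    rw [hc1, hc2]
  rw [heq]; exact even_iff_two_dvd.mpr h2S

end Cfsg.Agent.S3982
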