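import Cfsg.Statements.S3983
import Cfsg.Agent.Lib.Helper6.PSub

set_option autoImplicit false
open Cfsg

namespace Cfsg.Agent.S3983

open scoped Pointwise in
/-- Let P be a Sylow p-subgroup of the finite group G that meets each conjugate g P g⁻¹ with g outside N_G(P) trivially, and let U be a subgroup of G of order divisible by p. Then a Sylow p-subgroup Q of U has the same property inside U: Q meets each conjugate u Q u⁻¹ with u ∈ U outside N_U(Q) trivially. -/
theorem result {G : Type*} [Group G] [Finite G] (p : ℕ) [Fact p.Prime] (P : Sylow p G) (hTI : ∀ g : G, g ∉ Subgroup.normalizer ((P : Subgroup G) : Set G) → (P : Subgroup G) ⊓ (MulAut.conj g • (P : Subgroup G)) = ⊥) (U : Subgroup G) (hU : p ∣ Nat.card ↥U) (Q : Sylow p ↥U) : ∀ u : ↥U, u ∉ Subgroup.normalizer ((Q : Subgroup ↥U) : Set ↥U) → (Q : Subgroup ↥U) ⊓ (MulAut.conj u • (Q : Subgroup ↥U)) = ⊥ := by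
  have hTI' : ∀ g x : G, x ∈ (P : Subgroup G) → g⁻¹ * x * g ∈ (P : Subgroup G) → x ≠ 1 →
      g ∈ Subgroup.normalizer ((P : Subgroup G) : Set G) := by
    intro g x hx hgx hx1
    by_contra hg
    have h1 := hTI g hg
    have h2 : x ∈ (P : Subgroup G) ⊓ (MulAut.conj g • (P : Subgroup G)) :=
      ⟨hx, (Cfsg.Agent.Lib.Helper6.mem_conj_smul_iff g x _).mpr hgx⟩
    rw [h1, Subgroup.mem_bot] at h2
    exact hx1 h2
  obtain ⟨P'', hP''⟩ := (Q.isPGroup'.map U.subtype).exists_le_sylow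
  obtain ⟨h, hh⟩ := MulAction.exists_smul_eq G P P''
  have hmem : ∀ x : G, x ∈ (P'' : Subgroup G) ↔ h⁻¹ * x * h ∈ (P : Subgroup G) := by
    intro x
    rw [← hh]
    exact Cfsg.Agent.Lib.Helper6.sylow_smul_mem_iff h P x
  have hQeq : (P'' : Subgroup G).subgroupOf U = (Q : Subgroup ↥U) := by
    apply Q.is_maximal' (P''.isPGroup'.comap_subtype)
    intro w hw
    show (w : G) ∈ (P'' : Subgroup G)
    exact hP'' (Subgroup.mem_map_of_mem U.subtype hw)
  have hQmem : ∀ w : ↥U, w ∈ (Q : Subgroup ↥U) ↔ (w : G) ∈ (P'' : Subgroup G) := by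
    intro w
    rw [← hQeq, Subgroup.mem_subgroupOf]
  intro u hu
  rw [Subgroup.eq_bot_iff_forall]
  intro v hv
  by_contra hv1
  apply hu
  have hvQ : v ∈ (Q : Subgroup ↥U) := hv.1
  have hvQ' : u⁻¹ * v * u ∈ (Q : Subgroup ↥U) :=
    (Cfsg.Agent.Lib.Helper6.mem_conj_smul_iff u v _).mp hv.2
  rw [hQmem] at hvQ hvQ'
  rw [hmem] at hvQ hvQ'
  have hg : h⁻¹ * (u : G) * h ∈ Subgroup.normalizer ((P : Subgroup G) : Set G) := by
    apply hTI' (h⁻¹ * (u : G) * h) (h⁻¹ * (v : G) * h) hvQ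
    · have e : (h⁻¹ * (u : G) * h)⁻¹ * (h⁻¹ * (v : G) * h) * (h⁻¹ * (u : G) * h)
          = h⁻¹ * ((u⁻¹ * v * u : ↥U) : G) * h := by
        simp only [Subgroup.coe_mul, Subgroup.coe_inv]
        group
      rw [e]
      exact hvQ'
    · intro h1
      apply hv1
      apply Subtype.ext
      have e : (v : G) = h * (h⁻¹ * (v : G) * h) * h⁻¹ := by group
      rw [e, h1]
      simp
  rw [Subgroup.mem_normalizer_iff] at hg ⊢
  intro w
  rw [hQmem, hQmem, hmem, hmem]
  have h2 := hg (h⁻¹ * (w : G) * h)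
  have e : h⁻¹ * (u : G) * h * (h⁻¹ * (w : G) * h) * (h⁻¹ * (u : G) * h)⁻¹
      = h⁻¹ * ((u * w * u⁻¹ : ↥U) : G) * h := by
    simp only [Subgroup.coe_mul, Subgroup.coe_inv]
    group
  rw [e] at h2
  exact h2

end Cfsg.Agent.S3983
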