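import Cfsg.Statements.S3984
import Cfsg.Agent.Lib.Helper6.Sylow2

set_option autoImplicit false
open Cfsg

namespace Cfsg.Agent.S3984

open scoped Pointwise in
/-- Let P be a Sylow p-subgroup of the finite group G that meets each conjugate g P g⁻¹ with g outside N_G(P) trivially, and let N be a normal subgroup of G of order prime to p. Then every Sylow p-subgroup Q of G ⧸ N meets each conjugate x Q x⁻¹ with x outside its normalizer trivially. -/
theorem result {G : Type*} [Group G] [Finite G] (p : ℕ) [Fact p.Prime] (P : Sylow p G) (hTI : ∀ g : G, g ∉ Subgroup.normalizer ((P : Subgroup G) : Set G) → (P : Subgroup G) ⊓ (MulAut.conj g • (P : Subgroup G)) = ⊥) (N : Subgroup G) [N.Normal] (hN : (Nat.card ↥N).Coprime p) (Q : Sylow p (G ⧸ N)) : ∀ x : G ⧸ N, x ∉ Subgroup.normalizer ((Q : Subgroup (G ⧸ N)) : Set (G ⧸ N)) → (Q : Subgroup (G ⧸ N)) ⊓ (MulAut.conj x • (Q : Subgroup (G ⧸ N))) = ⊥ := by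
  obtain ⟨P₁, hP₁⟩ := Sylow.mapSurjective_surjective (QuotientGroup.mk'_surjective N) p Q
  have hQ : (Q : Subgroup (G ⧸ N)) = (P₁ : Subgroup G).map (QuotientGroup.mk' N) := by
    rw [← hP₁]
    rfl
  have hTI₁ := Cfsg.Agent.Lib.Helper6.sylow_TI_elementwise P hTI P₁
  intro xbar hxbar
  rw [Subgroup.eq_bot_iff_forall]
  intro vbar hvbar
  by_contra hv1
  apply hxbar
  obtain ⟨x, rfl⟩ := QuotientGroup.mk'_surjective N xbar
  have hvQ : vbar ∈ (Q : Subgroup (G ⧸ N)) := hvbar.1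
  have hvQ' : ((QuotientGroup.mk' N) x)⁻¹ * vbar * (QuotientGroup.mk' N) x ∈ (Q : Subgroup (G ⧸ N)) :=
    (Cfsg.Agent.Lib.Helper6.mem_conj_smul_iff _ vbar _).mp hvbar.2
  rw [hQ] at hvQ hvQ'
  obtain ⟨v, hvP, rfl⟩ := hvQ
  obtain ⟨w, hwP, hw⟩ := hvQ'
  have hv1' : v ≠ 1 := by
    rintro rfl
    exact hv1 (map_one _)
  -- x⁻¹ v x = w n
  have hn : w⁻¹ * (x⁻¹ * v * x) ∈ N := by
    rw [← QuotientGroup.eq]
    have : ((QuotientGroup.mk' N) x)⁻¹ * (QuotientGroup.mk' N) v * (QuotientGroup.mk' N) x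
        = (QuotientGroup.mk' N) (x⁻¹ * v * x) := by
      rw [map_mul, map_mul, map_inv]
    rw [this] at hw
    exact hw
  -- v ∈ N ⊔ (x • P₁)
  have hvsup : v ∈ N ⊔ ((x • P₁ : Sylow p G) : Subgroup G) := by
    have e : v = (x * w * x⁻¹) * (x * (w⁻¹ * (x⁻¹ * v * x)) * x⁻¹) := by group
    rw [e]
    apply Subgroup.mul_mem
    · apply Subgroup.mem_sup_right
      rw [Cfsg.Agent.Lib.Helper6.sylow_smul_mem_iff]
      have e2 : x⁻¹ * (x * w * x⁻¹) * x = w := by group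
      rw [e2]
      exact hwP
    · apply Subgroup.mem_sup_left
      exact (inferInstance : N.Normal).conj_mem _ hn x
  obtain ⟨k, hk⟩ := Cfsg.Agent.Lib.Helper6.orderOf_mem_sylow P₁ hvP
  obtain ⟨m, hm, hmv⟩ :=
    Cfsg.Agent.Lib.Helper6.exists_conj_mem_sylow_of_mem_sup (x • P₁) N v hvsup k hk
  rw [Cfsg.Agent.Lib.Helper6.sylow_smul_mem_iff] at hmv
  have hg : m * x ∈ Subgroup.normalizer ((P₁ : Subgroup G) : Set G) := by
    apply hTI₁ (m * x) v hvP _ hv1'
    have e : (m * x)⁻¹ * v * (m * x) = x⁻¹ * (m⁻¹ * v * m) * x := by group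
    rw [e]
    exact hmv
  have h2 : (QuotientGroup.mk' N) (m * x) ∈ Subgroup.normalizer
      (((P₁ : Subgroup G).map (QuotientGroup.mk' N) : Subgroup (G ⧸ N)) : Set (G ⧸ N)) :=
    Subgroup.le_normalizer_map _ (Subgroup.mem_map_of_mem _ hg)
  have h3 : (QuotientGroup.mk' N) (m * x) = (QuotientGroup.mk' N) x := by
    have hm1 : (QuotientGroup.mk' N) m = 1 := (QuotientGroup.eq_one_iff m).mpr hm
    rw [map_mul, hm1, one_mul]
  rw [h3] at h2
  rw [hQ]
  exact h2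

end Cfsg.Agent.S3984
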