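import Cfsg.Statements.S3985
import Mathlib
import Cfsg.Agent.Lib.Lead.Basic
import Cfsg.Agent.Lib.Helper1.Conj2
import Cfsg.Agent.Lib.Helper6.RealElt

set_option autoImplicit false
open scoped Pointwise
open Cfsg

namespace Cfsg.Agent.S3985


open Cfsg.Agent.Lib
open scoped Pointwise

/-- Let P be a cyclic Sylow p-subgroup of the finite group G. Then P meets each conjugate g P g⁻¹ with g outside N_G(P) trivially if and only if P is weakly self-centralizing: C_G(x) = C_G(P) for every non-identity x ∈ P. -/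
theorem result {G : Type*} [Group G] [Finite G] (p : ℕ) [Fact p.Prime] (P : Sylow p G) (hcyc : IsCyclic ↥(P : Subgroup G)) : (∀ g : G, g ∉ Subgroup.normalizer ((P : Subgroup G) : Set G) → (P : Subgroup G) ⊓ (MulAut.conj g • (P : Subgroup G)) = ⊥) ↔ ∀ x : G, x ∈ (P : Subgroup G) → x ≠ 1 → Subgroup.centralizer ({x} : Set G) = Subgroup.centralizer ((P : Subgroup G) : Set G) := by
  classical
  have hp : p.Prime := Fact.out
  obtain ⟨a', ha'⟩ := hcyc.exists_generator
  obtain ⟨a, ha⟩ : ∃ a : G, a = (a' : G) := ⟨_, rfl⟩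
  have haP : a ∈ (P : Subgroup G) := by rw [ha]; exact a'.2
  have hgen : ∀ y ∈ (P : Subgroup G), ∃ k : ℤ, a ^ k = y := by
    intro y hy
    obtain ⟨k, hk⟩ := Subgroup.mem_zpowers_iff.mp (ha' ⟨y, hy⟩)
    refine ⟨k, ?_⟩
    have := congrArg Subtype.val hk
    rw [ha]; simpa using this
  have hPc : ∀ y ∈ (P : Subgroup G), ∀ z ∈ (P : Subgroup G), y * z = z * y := by
    intro y hy z hz
    obtain ⟨i, rfl⟩ := hgen y hy
    obtain ⟨j, rfl⟩ := hgen z hz
    exact ((Commute.refl a).zpow_zpow i j).eq
  have hPC : (P : Subgroup G) ≤ Subgroup.centralizer ((P : Subgroup G) : Set G) := by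
    intro y hy
    rw [Subgroup.mem_centralizer_iff]
    intro z hz
    exact hPc z hz y hy
  constructor
  · intro hTI x hxP hx1
    apply le_antisymm
    · intro c hc
      have hcx : c * x = x * c := Subgroup.mem_centralizer_singleton_iff.mp hc
      have hcN : c ∈ Subgroup.normalizer ((P : Subgroup G) : Set G) := by
        by_contra hcn
        have h1 := hTI c hcn
        have h2 : x ∈ (P : Subgroup G) ⊓ (MulAut.conj c • (P : Subgroup G)) := by
          refine ⟨hxP, ?_⟩
          show x ∈ MulAut.conj c • (P : Subgroup G)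
          rw [Lead.mem_conj_smul]
          have e : c⁻¹ * x * c = x := by
            calc c⁻¹ * x * c = c⁻¹ * (x * c) := by group
              _ = c⁻¹ * (c * x) := by rw [hcx]
              _ = x := by group
          rw [e]; exact hxP
        rw [h1, Subgroup.mem_bot] at h2
        exact hx1 h2
      obtain ⟨n, hn⟩ := IsPGroup.iff_card.mp P.isPGroup'
      have hoa : orderOf a = p ^ n := by
        rw [ha, Subgroup.orderOf_coe, orderOf_eq_card_of_forall_mem_zpowers ha', hn]
      have hcaP : c * a * c⁻¹ ∈ (P : Subgroup G) := (Subgroup.mem_normalizer_iff.mp hcN a).mp haP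
      obtain ⟨u, hu⟩ := hgen _ hcaP
      obtain ⟨k, hk⟩ := hgen x hxP
      have h1 : a ^ (u * k - k) = 1 := by
        have e1 : c * x * c⁻¹ = x := by rw [hcx]; group
        rw [← hk, ← conj_zpow, ← hu, ← zpow_mul] at e1
        rw [zpow_sub, e1, mul_inv_cancel]
      have h2 : ((p ^ n : ℕ) : ℤ) ∣ u * k - k := by
        rw [← hoa]; exact orderOf_dvd_iff_zpow_eq_one.mpr h1
      have h3 : ¬ ((p ^ n : ℕ) : ℤ) ∣ k := by
        intro hdvd
        apply hx1
        rw [← hk]
        rw [← hoa] at hdvd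
        exact orderOf_dvd_iff_zpow_eq_one.mp hdvd
      have hn0 : n ≠ 0 := by
        rintro rfl
        apply h3
        simp
      have h4 : (p : ℤ) ∣ u - 1 := by
        by_contra hnd
        have hpz : Prime (p : ℤ) := Nat.prime_iff_prime_int.mp hp
        have hcop : IsCoprime (p : ℤ) (u - 1) := hpz.coprime_iff_not_dvd.mpr hnd
        have hcop' : IsCoprime ((p : ℤ) ^ n) (u - 1) := hcop.pow_left
        apply h3
        have h5 : ((p : ℤ) ^ n) ∣ k * (u - 1) := by
          have e : u * k - k = k * (u - 1) := by ring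
          rw [← e]; exact_mod_cast h2
        have h6 := hcop'.dvd_of_dvd_mul_right h5
        exact_mod_cast h6
      obtain ⟨n', rfl⟩ : ∃ n', n = n' + 1 := ⟨n - 1, by omega⟩
      have h5 : ((p : ℤ) ^ (n' + 1)) ∣ u ^ p ^ n' - 1 ^ p ^ n' := dvd_sub_pow_of_dvd_sub h4 n'
      rw [one_pow] at h5
      have hconj : ∀ m : ℕ, c ^ m * a * (c ^ m)⁻¹ = a ^ (u ^ m) := by
        intro m
        induction m with
        | zero => simp
        | succ m ih =>
          calc c ^ (m + 1) * a * (c ^ (m + 1))⁻¹ = c * (c ^ m * a * (c ^ m)⁻¹) * c⁻¹ := by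
                rw [pow_succ']; group
            _ = c * a ^ (u ^ m) * c⁻¹ := by rw [ih]
            _ = (c * a * c⁻¹) ^ (u ^ m) := conj_zpow.symm
            _ = (a ^ u) ^ (u ^ m) := by rw [hu]
            _ = a ^ (u ^ (m + 1)) := by rw [← zpow_mul, pow_succ']
      have h6 : a ^ (u ^ p ^ n') = a := by
        have h7 : a ^ (u ^ p ^ n' - 1) = 1 := by
          apply orderOf_dvd_iff_zpow_eq_one.mp
          rw [hoa]; exact_mod_cast h5
        calc a ^ (u ^ p ^ n') = a ^ ((u ^ p ^ n' - 1) + 1) := by rw [sub_add_cancel]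
          _ = a := by rw [zpow_add, h7, one_mul, zpow_one]
      have hcM : c ^ (p ^ n') ∈ Subgroup.centralizer ((P : Subgroup G) : Set G) := by
        rw [Subgroup.mem_centralizer_iff]
        intro y hy
        obtain ⟨i, rfl⟩ := hgen y hy
        have h8 : c ^ (p ^ n') * a = a * c ^ (p ^ n') := by
          have h9 := hconj (p ^ n')
          rw [h6] at h9
          calc c ^ (p ^ n') * a = (c ^ (p ^ n') * a * (c ^ (p ^ n'))⁻¹) * c ^ (p ^ n') := by group
            _ = a * c ^ (p ^ n') := by rw [h9]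
        exact ((show Commute a (c ^ (p ^ n')) from h8.symm).zpow_left i).eq
      have hco : orderOf c ≠ 0 := (orderOf_pos c).ne'
      obtain ⟨e, r, hr, her⟩ := Nat.exists_eq_pow_mul_and_not_dvd hco p hp.ne_one
      have hcr : c ^ r ∈ (P : Subgroup G) := by
        have hZ : IsPGroup p (Subgroup.zpowers (c ^ r)) := by
          have hd : orderOf (c ^ r) ∣ p ^ e := by
            apply orderOf_dvd_of_pow_eq_one
            rw [← pow_mul, mul_comm, ← her]; exact pow_orderOf_eq_one c
          obtain ⟨i, -, hi⟩ := (Nat.dvd_prime_pow hp).mp hd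
          exact IsPGroup.of_card (n := i) (by rw [Nat.card_zpowers, hi])
        have hnorm : Subgroup.zpowers (c ^ r) ≤ Subgroup.normalizer ((P : Subgroup G) : Set G) :=
          Subgroup.zpowers_le.mpr (Subgroup.pow_mem _ hcN r)
        have hPg := IsPGroup.to_sup_of_normal_right' hZ P.isPGroup' hnorm
        have hmax := P.is_maximal' hPg le_sup_right
        have hmem : c ^ r ∈ Subgroup.zpowers (c ^ r) ⊔ (P : Subgroup G) :=
          (le_sup_left : Subgroup.zpowers (c ^ r) ≤ _) (Subgroup.mem_zpowers _)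
        rw [hmax] at hmem
        exact hmem
      have hcop : Nat.Coprime (p ^ n') r :=
        Nat.Coprime.pow_left _ ((Nat.Prime.coprime_iff_not_dvd hp).mpr hr)
      exact Helper6.mem_of_pow_mem_of_coprime hcop hcM (hPC hcr)
    · exact Subgroup.centralizer_le (Set.singleton_subset_iff.mpr hxP)
  · intro hC g hg
    by_contra hne
    obtain ⟨x, hx, hx1⟩ : ∃ x ∈ (P : Subgroup G) ⊓ (MulAut.conj g • (P : Subgroup G)), x ≠ 1 := by
      by_contra hcon
      push_neg at hcon
      exact hne ((Subgroup.eq_bot_iff_forall _).mpr hcon)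
    have hxP := hx.1
    have hx2 : x ∈ MulAut.conj g • (P : Subgroup G) := hx.2
    have hyP : g⁻¹ * x * g ∈ (P : Subgroup G) := Lead.mem_conj_smul.mp hx2
    have hCx := hC x hxP hx1
    have hQle : ∀ z ∈ MulAut.conj g • (P : Subgroup G),
        z ∈ Subgroup.centralizer ((P : Subgroup G) : Set G) := by
      intro z hz
      have hw : g⁻¹ * z * g ∈ (P : Subgroup G) := Lead.mem_conj_smul.mp hz
      have h1 := hPc _ hw _ hyP
      rw [← hCx, Subgroup.mem_centralizer_singleton_iff]
      calc z * x = g * ((g⁻¹ * z * g) * (g⁻¹ * x * g)) * g⁻¹ := by group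
        _ = g * ((g⁻¹ * x * g) * (g⁻¹ * z * g)) * g⁻¹ := by rw [h1]
        _ = x * z := by group
    have hQ : IsPGroup p (MulAut.conj g • (P : Subgroup G) : Subgroup G) := by
      rintro ⟨z, hz⟩
      have hw : g⁻¹ * z * g ∈ (P : Subgroup G) := Lead.mem_conj_smul.mp hz
      obtain ⟨k, hk⟩ := P.isPGroup' ⟨_, hw⟩
      refine ⟨k, ?_⟩
      apply Subtype.ext
      have hk' : (g⁻¹ * z * g) ^ p ^ k = 1 := by
        have := congrArg Subtype.val hk
        simpa using this
      show z ^ p ^ k = 1
      have e : z = g * (g⁻¹ * z * g) * g⁻¹ := by group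
      rw [e, conj_pow, hk']; group
    have hnorm : (MulAut.conj g • (P : Subgroup G) : Subgroup G) ≤
        Subgroup.normalizer ((P : Subgroup G) : Set G) := by
      intro z hz
      exact Subgroup.centralizer_le_normalizer _ (hQle z hz)
    have hPg := IsPGroup.to_sup_of_normal_right' hQ P.isPGroup' hnorm
    have hmax := P.is_maximal' hPg le_sup_right
    apply hg
    apply Helper1.mem_normalizer_of_conj_le
    intro v hv
    have hmem : g * v * g⁻¹ ∈ (MulAut.conj g • (P : Subgroup G) : Subgroup G) ⊔ (P : Subgroup G) :=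
      (le_sup_left : (MulAut.conj g • (P : Subgroup G) : Subgroup G) ≤ _) (Lead.conj_mem_conj_smul hv)
    rw [hmax] at hmem
    exact hmem

end Cfsg.Agent.S3985
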