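import Cfsg.Statements.S3986
import Cfsg.Agent.Lib.Helper6.Primary

set_option autoImplicit false
open Cfsg

namespace Cfsg.Agent.S3986

/-- Let p be a prime and G a finite group. Then some Sylow p-subgroup of G is a direct factor of G (it is normal and has a normal complement) if and only if every element of p-power order commutes with every element whose order is a power of a prime other than p. -/
theorem result {G : Type*} [Group G] [Finite G] (p : ℕ) [Fact p.Prime] : (∃ (P : Sylow p G) (K : Subgroup G), (P : Subgroup G).Normal ∧ K.Normal ∧ (P : Subgroup G) ⊓ K = ⊥ ∧ (P : Subgroup G) ⊔ K = ⊤) ↔ ∀ x y : G, (∃ a : ℕ, orderOf x = p ^ a) → (∃ q b : ℕ, q.Prime ∧ q ≠ p ∧ orderOf y = q ^ b) → x * y = y * x := by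
  have hp : p.Prime := Fact.out
  constructor
  · rintro ⟨P, K, hPn, hKn, hinf, hsup⟩ x y ⟨a, ha⟩ ⟨q, b, hq, hqp, hb⟩
    have hxP : x ∈ (P : Subgroup G) := by
      have hpg : IsPGroup p (Subgroup.zpowers x) :=
        IsPGroup.of_card (n := a) (by rw [Nat.card_zpowers, ha])
      obtain ⟨P', hP'⟩ := hpg.exists_le_sylow
      obtain ⟨c, hc⟩ := MulAction.exists_smul_eq G P P'
      rw [Sylow.smul_eq_of_normal] at hc
      rw [hc]
      exact hP' (Subgroup.mem_zpowers x)
    have hcompl : Subgroup.IsComplement' (P : Subgroup G) K := by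
      apply Subgroup.isComplement'_of_disjoint_and_mul_eq_univ (disjoint_iff.mpr hinf)
      rw [← Subgroup.normal_mul, hsup]
      rfl
    have hidx : K.index = Nat.card (P : Subgroup G) := hcompl.index_eq_card
    have hyK : y ∈ K := by
      obtain ⟨n, hn⟩ := IsPGroup.iff_card.mp P.isPGroup'
      apply Cfsg.Agent.Lib.Helper6.mem_of_pow_mem_of_coprime (a := q ^ b) (b := K.index)
      · rw [hidx, hn]
        exact Nat.Coprime.pow _ _ ((Nat.coprime_primes hq hp).mpr hqp)
      · rw [← hb, pow_orderOf_eq_one]; exact K.one_mem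
      · exact Subgroup.pow_index_mem K y
    exact (Subgroup.commute_of_normal_of_disjoint _ _ hPn hKn (disjoint_iff.mpr hinf) x y hxP hyK).eq
  · intro h
    obtain ⟨P⟩ : Nonempty (Sylow p G) := inferInstance
    have hC : ∀ y : G, (orderOf y).Coprime p →
        y ∈ Subgroup.centralizer ((P : Subgroup G) : Set G) := by
      apply Cfsg.Agent.Lib.Helper6.mem_of_forall_prime_pow
      intro y hy
      rw [Subgroup.mem_centralizer_iff]
      intro x hx
      obtain ⟨a, ha⟩ := (IsPGroup.iff_orderOf.mp P.isPGroup') ⟨x, hx⟩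
      rw [Subgroup.orderOf_mk] at ha
      exact h x y ⟨a, ha⟩ hy
    have hCidx : ∃ k, (Subgroup.centralizer ((P : Subgroup G) : Set G)).index = p ^ k := by
      refine ⟨_, Nat.eq_prime_pow_of_unique_prime_dvd Subgroup.index_ne_zero_of_finite ?_⟩
      intro q hq hqd
      by_contra hqp
      have hqf : Fact q.Prime := ⟨hq⟩
      obtain ⟨Q⟩ : Nonempty (Sylow q G) := inferInstance
      have hQC : (Q : Subgroup G) ≤ Subgroup.centralizer ((P : Subgroup G) : Set G) := by
        intro y hy
        apply hC
        obtain ⟨b, hb⟩ := (IsPGroup.iff_orderOf.mp Q.isPGroup') ⟨y, hy⟩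
        rw [Subgroup.orderOf_mk] at hb
        rw [hb]
        exact Nat.Coprime.pow_left _ ((Nat.coprime_primes hq hp).mpr hqp)
      exact Q.not_dvd_index (hqd.trans (Subgroup.index_dvd_of_le hQC))
    have hPn : (P : Subgroup G).Normal := by
      obtain ⟨k, hk⟩ := hCidx
      have h1 : (Subgroup.normalizer ((P : Subgroup G) : Set G)).index ∣ p ^ k := by
        rw [← hk]
        exact Subgroup.index_dvd_of_le (Subgroup.centralizer_le_normalizer _)
      obtain ⟨j, hj, hj'⟩ := (Nat.dvd_prime_pow hp).mp h1
      have h2 : Nat.card (Sylow p G) ≡ 1 [MOD p] := card_sylow_modEq_one p G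
      rw [P.card_eq_index_normalizer] at h2
      have h2' : (Subgroup.normalizer ((P : Subgroup G) : Set G)).index ≡ 1 [MOD p] := h2
      rw [hj'] at h2'
      have hj0 : j = 0 := by
        by_contra hj0
        have h3 : p ^ j % p = 0 := Nat.mod_eq_zero_of_dvd (dvd_pow_self p hj0)
        have h4 : p ^ j % p = 1 % p := h2'
        rw [h3, Nat.mod_eq_of_lt hp.one_lt] at h4
        omega
      rw [hj0, pow_zero] at hj'
      have h5 : Subgroup.normalizer ((P : Subgroup G) : Set G) = ⊤ := Subgroup.index_eq_one.mp hj'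
      exact Subgroup.normalizer_eq_top_iff.mp h5
    obtain ⟨K, hK⟩ := Subgroup.exists_right_complement'_of_coprime (N := (P : Subgroup G))
      P.card_coprime_index
    have hKC : K ≤ Subgroup.centralizer ((P : Subgroup G) : Set G) := by
      intro k hk
      apply hC
      have h1 : orderOf k ∣ Nat.card K := by
        have := orderOf_dvd_natCard (⟨k, hk⟩ : K)
        rwa [Subgroup.orderOf_mk] at this
      have h2 : (P : Subgroup G).index = Nat.card K := hK.symm.index_eq_card
      have h3 : (Nat.card K).Coprime p := by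
        rw [← h2, Nat.coprime_comm, hp.coprime_iff_not_dvd]
        exact P.not_dvd_index
      exact Nat.Coprime.coprime_dvd_left h1 h3
    have hKn : K.Normal := by
      constructor
      intro k hk g
      have hg : g ∈ (((P : Subgroup G) ⊔ K : Subgroup G) : Set G) := by
        rw [hK.sup_eq_top]; trivial
      rw [Subgroup.normal_mul] at hg
      obtain ⟨x, hx, k', hk', rfl⟩ := hg
      have h1 : k' * k * k'⁻¹ ∈ K := K.mul_mem (K.mul_mem hk' hk) (K.inv_mem hk')
      have h2 := hKC h1
      rw [Subgroup.mem_centralizer_iff] at h2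
      have h3 := h2 x hx
      have e : x * k' * k * (x * k')⁻¹ = x * (k' * k * k'⁻¹) * x⁻¹ := by group
      rw [e, h3]
      simpa using h1
    exact ⟨P, K, hPn, hKn, hK.disjoint.eq_bot, hK.sup_eq_top⟩

end Cfsg.Agent.S3986
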