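import Cfsg.Statements.S3987
import Mathlib
import Cfsg.Agent.Lib.Lead.Coprime

set_option autoImplicit false
open Cfsg

namespace Cfsg.Agent.S3987


theorem top_of_sylow {G : Type*} [Group G] [Finite G] (M : Subgroup G)
    (h : ∀ (q : ℕ) [Fact q.Prime], ∃ Q : Sylow q G, (Q : Subgroup G) ≤ M) : M = ⊤ := by
  by_contra hne
  have h1 : M.index ≠ 1 := fun h1 => hne (Subgroup.index_eq_one.mp h1)
  obtain ⟨q, hq, hqd⟩ := Nat.exists_prime_and_dvd h1
  haveI : Fact q.Prime := ⟨hq⟩
  obtain ⟨Q, hQ⟩ := h q
  exact Q.not_dvd_index (hqd.trans (Subgroup.index_dvd_of_le hQ))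

theorem sylow_elt {G : Type*} [Group G] {q : ℕ} [Fact q.Prime] (Q : Sylow q G) {y : G}
    (hy : y ∈ (Q : Subgroup G)) : ∃ b : ℕ, orderOf y = q ^ b := by
  obtain ⟨k, hk⟩ := Q.isPGroup' ⟨y, hy⟩
  have h1 : y ^ q ^ k = 1 := by
    have := congrArg Subtype.val hk
    simpa using this
  obtain ⟨b, -, hb⟩ := (Nat.dvd_prime_pow (Fact.out : q.Prime)).mp (orderOf_dvd_of_pow_eq_one h1)
  exact ⟨b, hb⟩

theorem inf_cent_le {G : Type*} [Group G] (x y : G) :
    Subgroup.centralizer ({x} : Set G) ⊓ Subgroup.centralizer ({y} : Set G) ≤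
      Subgroup.centralizer ({x * y} : Set G) := by
  intro g hg
  obtain ⟨h1, h2⟩ := Subgroup.mem_inf.mp hg
  rw [Subgroup.mem_centralizer_singleton_iff] at h1 h2 ⊢
  rw [← mul_assoc, h1, mul_assoc, h2, mul_assoc]

theorem comm_of_index {G : Type*} [Group G] [Finite G] (x y : G)
    (h : (Subgroup.centralizer ({x * y} : Set G)).index =
      (Subgroup.centralizer ({x} : Set G)).index * (Subgroup.centralizer ({y} : Set G)).index) :
    x * y = y * x := by
  have hle := inf_cent_le x y
  have hidx : (Subgroup.centralizer ({x} : Set G) ⊓ Subgroup.centralizer ({y} : Set G)).index =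
      (Subgroup.centralizer ({x * y} : Set G)).index := by
    apply le_antisymm
    · rw [h]
      exact Subgroup.index_inf_le (H := Subgroup.centralizer ({x} : Set G))
        (K := Subgroup.centralizer ({y} : Set G))
    · exact Nat.le_of_dvd (Nat.pos_of_ne_zero Subgroup.index_ne_zero_of_finite)
        (Subgroup.index_dvd_of_le hle)
  have heq : Subgroup.centralizer ({x} : Set G) ⊓ Subgroup.centralizer ({y} : Set G) =
      Subgroup.centralizer ({x * y} : Set G) := by
    apply Subgroup.eq_of_le_of_card_ge hle
    have c1 := Subgroup.card_mul_index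
      (Subgroup.centralizer ({x} : Set G) ⊓ Subgroup.centralizer ({y} : Set G))
    have c2 := Subgroup.card_mul_index (Subgroup.centralizer ({x * y} : Set G))
    rw [hidx] at c1
    have hpos : 0 < (Subgroup.centralizer ({x * y} : Set G)).index :=
      Nat.pos_of_ne_zero Subgroup.index_ne_zero_of_finite
    exact (Nat.eq_of_mul_eq_mul_right hpos (c1.trans c2.symm)).ge
  have hxy : x * y ∈ Subgroup.centralizer ({x * y} : Set G) :=
    Subgroup.mem_centralizer_singleton_iff.mpr rfl
  rw [← heq] at hxy
  have h1 := Subgroup.mem_centralizer_singleton_iff.mp (Subgroup.mem_inf.mp hxy).1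
  have h2 : x * (y * x) = x * (x * y) := by
    rw [← mul_assoc]; exact h1
  exact (mul_left_cancel h2).symm

theorem cent_le_of_pow {G : Type*} [Group G] (x y : G) (hc : x * y = y * x) (n : ℕ)
    (hy : y ^ n = 1) (hx : n.Coprime (orderOf x)) :
    Subgroup.centralizer ({x * y} : Set G) ≤ Subgroup.centralizer ({x} : Set G) := by
  intro g hg
  rw [Subgroup.mem_centralizer_singleton_iff] at hg ⊢
  have hpow : (x * y) ^ n = x ^ n := by
    rw [(show Commute x y from hc).mul_pow, hy, mul_one]
  have hcn : Commute g (x ^ n) := by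
    rw [← hpow]
    exact (show Commute g (x * y) from hg).pow_right n
  obtain ⟨m, hm⟩ := exists_pow_eq_self_of_coprime hx
  have h3 := hcn.pow_right m
  rw [hm] at h3
  exact h3

theorem le_normalizer_of_normal {G : Type*} [Group G] {N : Subgroup G} (hN : N.Normal)
    (H : Subgroup G) : H ≤ Subgroup.normalizer (N : Set G) := by
  intro x _
  rw [Subgroup.mem_normalizer_iff]
  intro y
  constructor
  · intro hy
    exact hN.conj_mem y hy x
  · intro hy
    have := hN.conj_mem _ hy x⁻¹
    simpa [mul_assoc] using this

/-- Let p be a prime and G a finite group. Then some Sylow p-subgroup of G is a direct factor of G (normal with a normal complement) if and only if for every element x of p-power order and every element y whose order is a power of a prime other than p, the conjugacy class of x y has as many elements as the product of the sizes of the classes of x and of y. -/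
theorem result {G : Type*} [Group G] [Finite G] (p : ℕ) [Fact p.Prime] : (∃ (P : Sylow p G) (K : Subgroup G), (P : Subgroup G).Normal ∧ K.Normal ∧ (P : Subgroup G) ⊓ K = ⊥ ∧ (P : Subgroup G) ⊔ K = ⊤) ↔ ∀ x y : G, (∃ a : ℕ, orderOf x = p ^ a) → (∃ q b : ℕ, q.Prime ∧ q ≠ p ∧ orderOf y = q ^ b) → (Subgroup.centralizer ({x * y} : Set G)).index = (Subgroup.centralizer ({x} : Set G)).index * (Subgroup.centralizer ({y} : Set G)).index := by
  classical
  have hp : p.Prime := Fact.out
  constructor
  · rintro ⟨P, K, hPn, hKn, hdisj, hsup⟩ x y ⟨a, ha⟩ ⟨q, b, hq, hqp, hb⟩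
    have hxP : x ∈ (P : Subgroup G) := by
      have hz : IsPGroup p (Subgroup.zpowers x) :=
        IsPGroup.of_card ((Nat.card_zpowers x).trans ha)
      obtain ⟨Q, hQ⟩ := hz.exists_le_sylow
      haveI := Sylow.unique_of_normal P hPn
      have hQP : Q = P := Subsingleton.elim Q P
      rw [← hQP]
      exact hQ (Subgroup.mem_zpowers x)
    have hcard : Nat.card G = Nat.card (P : Subgroup G) * Nat.card K := by
      have h1 := Cfsg.Agent.Lib.Lead.card_sup_of_le_normalizer (N := (P : Subgroup G)) (H := K)
        (le_normalizer_of_normal hPn K) hdisj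
      rw [hsup, Subgroup.card_top] at h1
      exact h1
    have hKidx : K.index = Nat.card (P : Subgroup G) := by
      have h2 := Subgroup.card_mul_index K
      rw [hcard] at h2
      exact Nat.eq_of_mul_eq_mul_left Nat.card_pos (h2.trans (mul_comm _ _))
    obtain ⟨k, hk⟩ := IsPGroup.iff_card.mp P.isPGroup'
    have hyK : y ∈ K := by
      haveI := hKn
      have h1 : y ^ K.index ∈ K := K.pow_index_mem y
      have hcop : (K.index).Coprime (orderOf y) := by
        rw [hKidx, hk, hb]
        exact Nat.Coprime.pow _ _ ((Nat.coprime_primes hp hq).mpr (Ne.symm hqp))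
      obtain ⟨m, hm⟩ := exists_pow_eq_self_of_coprime hcop
      rw [← hm]
      exact K.pow_mem h1 m
    have hc : x * y = y * x :=
      Subgroup.commute_of_normal_of_disjoint _ _ hPn hKn (disjoint_iff.mpr hdisj) x y hxP hyK
    have hKx : K ≤ Subgroup.centralizer ({x} : Set G) := by
      intro g hg
      rw [Subgroup.mem_centralizer_singleton_iff]
      exact (Subgroup.commute_of_normal_of_disjoint _ _ hPn hKn (disjoint_iff.mpr hdisj)
        x g hxP hg).symm
    have hPy : (P : Subgroup G) ≤ Subgroup.centralizer ({y} : Set G) := by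
      intro g hg
      rw [Subgroup.mem_centralizer_singleton_iff]
      exact Subgroup.commute_of_normal_of_disjoint _ _ hPn hKn (disjoint_iff.mpr hdisj)
        g y hg hyK
    have d1 : (Subgroup.centralizer ({x} : Set G)).index ∣ Nat.card (P : Subgroup G) := by
      rw [← hKidx]; exact Subgroup.index_dvd_of_le hKx
    have d2 : (Subgroup.centralizer ({y} : Set G)).index ∣ (P : Subgroup G).index :=
      Subgroup.index_dvd_of_le hPy
    have hcop : ((Subgroup.centralizer ({x} : Set G)).index).Coprime
        (Subgroup.centralizer ({y} : Set G)).index :=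
      (P.card_coprime_index.coprime_dvd_left d1).coprime_dvd_right d2
    have i1 : Subgroup.centralizer ({x * y} : Set G) ≤ Subgroup.centralizer ({x} : Set G) := by
      apply cent_le_of_pow x y hc (orderOf y) (pow_orderOf_eq_one y)
      rw [ha, hb]
      exact Nat.Coprime.pow _ _ ((Nat.coprime_primes hq hp).mpr hqp)
    have i2 : Subgroup.centralizer ({x * y} : Set G) ≤ Subgroup.centralizer ({y} : Set G) := by
      rw [hc]
      apply cent_le_of_pow y x hc.symm (orderOf x) (pow_orderOf_eq_one x)
      rw [ha, hb]
      exact Nat.Coprime.pow _ _ ((Nat.coprime_primes hp hq).mpr (Ne.symm hqp))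
    have i3 := inf_cent_le x y
    apply le_antisymm
    · calc (Subgroup.centralizer ({x * y} : Set G)).index
          ≤ (Subgroup.centralizer ({x} : Set G) ⊓ Subgroup.centralizer ({y} : Set G)).index :=
            Nat.le_of_dvd (Nat.pos_of_ne_zero Subgroup.index_ne_zero_of_finite)
              (Subgroup.index_dvd_of_le i3)
        _ ≤ _ := Subgroup.index_inf_le (H := Subgroup.centralizer ({x} : Set G))
              (K := Subgroup.centralizer ({y} : Set G))
    · exact Nat.le_of_dvd (Nat.pos_of_ne_zero Subgroup.index_ne_zero_of_finite)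
        (Nat.Coprime.mul_dvd_of_dvd_of_dvd hcop (Subgroup.index_dvd_of_le i1)
          (Subgroup.index_dvd_of_le i2))
  · intro hyp
    have comm : ∀ x y : G, (∃ a : ℕ, orderOf x = p ^ a) →
        (∃ q b : ℕ, q.Prime ∧ q ≠ p ∧ orderOf y = q ^ b) → x * y = y * x :=
      fun x y hx hy => comm_of_index x y (hyp x y hx hy)
    obtain ⟨P⟩ : Nonempty (Sylow p G) := inferInstance
    have hPcent : ∀ (q : ℕ) [Fact q.Prime], q ≠ p → ∀ Q : Sylow q G,
        (Q : Subgroup G) ≤ Subgroup.centralizer ((P : Subgroup G) : Set G) := by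
      intro q _ hqp Q y hy
      rw [Subgroup.mem_centralizer_iff]
      intro x hx
      obtain ⟨b, hb⟩ := sylow_elt Q hy
      exact comm x y (sylow_elt P hx) ⟨q, b, Fact.out, hqp, hb⟩
    have hnt : Subgroup.normalizer ((P : Subgroup G) : Set G) = ⊤ := by
      apply top_of_sylow
      intro q _
      by_cases hqp : q = p
      · subst hqp
        exact ⟨P, Subgroup.le_normalizer⟩
      · obtain ⟨Q⟩ : Nonempty (Sylow q G) := inferInstance
        exact ⟨Q, (hPcent q hqp Q).trans (Subgroup.centralizer_le_normalizer _)⟩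
    have hPn : (P : Subgroup G).Normal := by
      constructor
      intro n hn g
      have hg : g ∈ Subgroup.normalizer ((P : Subgroup G) : Set G) := by
        rw [hnt]; exact Subgroup.mem_top g
      exact ((Subgroup.mem_normalizer_iff.mp hg) n).mp hn
    haveI := hPn
    obtain ⟨H, hH⟩ := Subgroup.exists_right_complement'_of_coprime P.card_coprime_index
    have hsup : (P : Subgroup G) ⊔ H = ⊤ := hH.sup_eq_top
    have hdisj : (P : Subgroup G) ⊓ H = ⊥ := hH.disjoint.eq_bot
    have hcardH : Nat.card (P : Subgroup G) * Nat.card H = Nat.card G := hH.card_mul_card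
    have hHcop : (Nat.card H).Coprime p := by
      have h1 : Nat.card H = (P : Subgroup G).index :=
        Nat.eq_of_mul_eq_mul_left Nat.card_pos (hcardH.trans (Subgroup.card_mul_index _).symm)
      rw [h1]
      exact ((Nat.Prime.coprime_iff_not_dvd hp).mpr P.not_dvd_index).symm
    have hHc : H ≤ Subgroup.centralizer ((P : Subgroup G) : Set G) := by
      rw [← Subgroup.subgroupOf_eq_top]
      apply top_of_sylow
      intro q _
      obtain ⟨Q⟩ : Nonempty (Sylow q H) := inferInstance
      refine ⟨Q, ?_⟩
      intro y hy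
      rw [Subgroup.mem_subgroupOf, Subgroup.mem_centralizer_iff]
      intro x hx
      obtain ⟨b, hb⟩ := sylow_elt Q hy
      have hb' : orderOf (y : G) = q ^ b := by
        rw [Subgroup.orderOf_coe]; exact hb
      by_cases hqp : q = p
      · have hdvd : orderOf y ∣ Nat.card H := orderOf_dvd_natCard y
        rw [hb, hqp] at hdvd
        have h1 : p ^ b = 1 := Nat.Coprime.eq_one_of_dvd ((hHcop.pow_right b).symm) hdvd
        have hy1 : (y : G) = 1 := by
          apply orderOf_eq_one_iff.mp
          rw [hb', hqp, h1]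
        rw [hy1, mul_one, one_mul]
      · exact comm x y (sylow_elt P hx) ⟨q, b, Fact.out, hqp, hb'⟩
    have hHn : H.Normal := by
      have hle : (P : Subgroup G) ⊔ H ≤ Subgroup.normalizer (H : Set G) := by
        apply sup_le
        · exact (Subgroup.le_centralizer_iff.mp hHc).trans (Subgroup.centralizer_le_normalizer _)
        · exact Subgroup.le_normalizer
      constructor
      intro n hn g
      have hg : g ∈ Subgroup.normalizer (H : Set G) := hle (by rw [hsup]; exact Subgroup.mem_top g)
      exact ((Subgroup.mem_normalizer_iff.mp hg) n).mp hn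
    exact ⟨P, H, hPn, hHn, hdisj, hsup⟩

end Cfsg.Agent.S3987
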