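import Cfsg.Statements.S4013
import Mathlib

set_option autoImplicit false
open Cfsg

namespace Cfsg.Agent.S4013

/-- Let G be a finite p-group (p prime) and N < M normal subgroups of G such that for some g ∈ M ∖ N the conjugacy class of g is exactly M ∖ N. Then p = 2 and N has index 2 in M. -/
theorem result {G : Type*} [Group G] [Finite G] (p : ℕ) [Fact p.Prime] (hG : IsPGroup p G) (N M : Subgroup G) [N.Normal] [M.Normal] (hNM : N < M) (g : G) (hgM : g ∈ M) (hgN : g ∉ N) (hcl : {h : G | IsConj g h} = (M : Set G) \ (N : Set G)) : p = 2 ∧ N.relIndex M = 2 := by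
  classical
  have hp : p.Prime := Fact.out
  have horb : MulAction.orbit (ConjAct G) g = (M : Set G) \ (N : Set G) := by
    rw [← hcl]
    ext h
    rw [ConjAct.mem_orbit_conjAct]
    exact isConj_comm
  have hdvd : ((M : Set G) \ (N : Set G)).ncard ∣ Nat.card G := by
    rw [← horb, ← MulAction.index_stabilizer]
    exact Subgroup.index_dvd_card (MulAction.stabilizer (ConjAct G) g)
  have hdiff : ((M : Set G) \ (N : Set G)).ncard = Nat.card M - Nat.card N := by
    rw [Set.ncard_sdiff (by exact_mod_cast hNM.le) (Set.toFinite _)]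
    rfl
  have hMN : Nat.card M = Nat.card N * N.relIndex M := by
    have h1 := Subgroup.card_mul_index (N.subgroupOf M)
    have h2 : Nat.card (N.subgroupOf M) = Nat.card N :=
      Nat.card_congr (Subgroup.subgroupOfEquivOfLe hNM.le).toEquiv
    rw [h2] at h1
    exact h1.symm
  obtain ⟨n, hn⟩ := hG.exists_card_eq
  set m := N.relIndex M with hm
  have hm1 : m ≠ 1 := by
    rw [Ne, Subgroup.relIndex_eq_one]
    exact not_le_of_gt hNM
  have hmdvd : m ∣ p ^ n := by
    have h1 : m ∣ Nat.card M := Subgroup.relIndex_dvd_card N M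
    have h2 : Nat.card M ∣ Nat.card G := Subgroup.card_subgroup_dvd_card M
    rw [hn] at h2
    exact h1.trans h2
  obtain ⟨j, hj, hmj⟩ := (Nat.dvd_prime_pow hp).mp hmdvd
  have hjpos : j ≠ 0 := by
    rintro rfl
    simp at hmj
    exact hm1 hmj
  have hmpos : 1 ≤ m := by
    rw [hmj]
    exact Nat.one_le_pow _ _ hp.pos
  have h3 : Nat.card N * (m - 1) ∣ p ^ n := by
    rw [← hn]
    have : Nat.card M - Nat.card N = Nat.card N * (m - 1) := by
      rw [hMN, Nat.mul_sub, mul_one]
    rw [← this, ← hdiff]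
    exact hdvd
  have h4 : (m - 1) ∣ p ^ n := (Dvd.intro_left _ rfl).trans h3
  obtain ⟨i, hi, hmi⟩ := (Nat.dvd_prime_pow hp).mp h4
  have hi0 : i = 0 := by
    by_contra hi0
    have hpm : p ∣ m := by
      rw [hmj]
      exact dvd_pow_self p hjpos
    have hpm1 : p ∣ m - 1 := by
      rw [hmi]
      exact dvd_pow_self p hi0
    have h5 : p ∣ 1 := by
      have h6 := Nat.dvd_sub hpm hpm1
      rwa [Nat.sub_sub_self hmpos] at h6
    exact hp.one_lt.ne' (Nat.dvd_one.mp h5)
  subst hi0
  have hm2 : m = 2 := by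
    simp at hmi
    omega
  refine ⟨?_, hm2⟩
  have h7 : p ∣ 2 := by
    rw [← hm2, hmj]
    exact dvd_pow_self p hjpos
  exact (Nat.prime_dvd_prime_iff_eq hp Nat.prime_two).mp h7

end Cfsg.Agent.S4013
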