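import Cfsg.Statements.S4028
import Cfsg.Agent.Lib.Helper6.Comm
import Cfsg.Agent.Lib.Helper6.CycSylow

set_option autoImplicit false
open Cfsg

namespace Cfsg.Agent.S4028

open Cfsg.Agent.Lib.Helper6

/-- normalizing a cyclic subgroup: enough to conjugate the generator into it -/
theorem mem_normalizer_zpowers {G : Type*} [Group G] [Finite G] {n x : G}
    (h : n * x * n⁻¹ ∈ Subgroup.zpowers x) :
    n ∈ Subgroup.normalizer ((Subgroup.zpowers x : Subgroup G) : Set G) := by
  apply mem_normalizer_of_conj_mem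
  intro d hd
  obtain ⟨z, rfl⟩ := Subgroup.mem_zpowers_iff.mp hd
  rw [← conj_zpow]
  exact (Subgroup.zpowers x).zpow_mem h z

/-- Let G be a finite group with Sylow 2-subgroup P. Then N_G(⟨x⟩) = C_G(x) holds for every 2-element x of G if and only if N_P(⟨y⟩) = C_P(y) holds for every y ∈ P (computed inside P). -/
theorem result {G : Type*} [Group G] [Finite G] (P : Sylow 2 G) :
    (∀ x : G, (∀ r : ℕ, r.Prime → r ∣ orderOf x → r = 2) →
      Subgroup.normalizer ((Subgroup.zpowers x : Subgroup G) : Set G) ≤ Subgroup.centralizer {x}) ↔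
    (∀ y : ↥(P : Subgroup G), Subgroup.normalizer ((Subgroup.zpowers y : Subgroup ↥(P : Subgroup G)) : Set ↥(P : Subgroup G)) ≤
        Subgroup.centralizer {y}) := by
  have h2 : Nat.Prime 2 := Nat.prime_two
  have hfact : Fact (Nat.Prime 2) := ⟨h2⟩
  constructor
  · intro h y n hn
    rw [Subgroup.mem_centralizer_singleton_iff]
    obtain ⟨k, hk⟩ := orderOf_mem_sylow P y.2
    have h2' : ∀ r : ℕ, r.Prime → r ∣ orderOf (y : G) → r = 2 := by
      intro r hr hrd
      rw [hk] at hrd
      exact (Nat.prime_dvd_prime_iff_eq hr Nat.prime_two).mp (hr.dvd_of_dvd_pow hrd)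
    have hnN : (n : G) ∈ Subgroup.normalizer ((Subgroup.zpowers (y : G) : Subgroup G) : Set G) := by
      apply mem_normalizer_zpowers
      have h3 : n * y * n⁻¹ ∈ Subgroup.zpowers y :=
        (Subgroup.mem_normalizer_iff.mp hn y).mp (Subgroup.mem_zpowers y)
      obtain ⟨z, hz⟩ := Subgroup.mem_zpowers_iff.mp h3
      refine Subgroup.mem_zpowers_iff.mpr ⟨z, ?_⟩
      have := congrArg Subtype.val hz
      simpa using this
    have h4 := h (y : G) h2' hnN
    rw [Subgroup.mem_centralizer_singleton_iff] at h4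
    exact Subtype.ext h4
  · intro h x hx n hn
    rw [Subgroup.mem_centralizer_singleton_iff]
    have hxk : orderOf x = 2 ^ (orderOf x).primeFactorsList.length :=
      Nat.eq_prime_pow_of_unique_prime_dvd (orderOf_pos x).ne' (fun {d} hd hdd => hx d hd hdd)
    generalize (orderOf x).primeFactorsList.length = k at hxk
    obtain ⟨a, b, hab, ha, hb, ⟨e, hae⟩, hbcop⟩ := exists_p_decomp' 2 h2 n
    have hle : Subgroup.zpowers n ≤
        Subgroup.normalizer ((Subgroup.zpowers x : Subgroup G) : Set G) :=
      Subgroup.zpowers_le.mpr hn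
    have haN := hle ha
    have hbN := hle hb
    have hbx : b * x * b⁻¹ = x := by
      by_cases hx1 : x = 1
      · rw [hx1]; group
      have hmem : b * x * b⁻¹ ∈ Subgroup.zpowers x :=
        (Subgroup.mem_normalizer_iff.mp hbN x).mp (Subgroup.mem_zpowers x)
      have hfin : IsOfFinOrder x := isOfFinOrder_of_finite x
      obtain ⟨j, hj⟩ := (Submonoid.mem_powers_iff _ _).mp
        ((hfin.mem_powers_iff_mem_zpowers).mpr hmem)
      have hk0 : k ≠ 0 := by
        rintro rfl
        rw [pow_zero, orderOf_eq_one_iff] at hxk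
        exact hx1 hxk
      have hord : orderOf (x ^ j) = orderOf x := by rw [hj, orderOf_conj_eq]
      rw [orderOf_pow, hxk] at hord
      have hg : Nat.gcd (2 ^ k) j = 1 := by
        rcases (Nat.div_eq_self.mp hord) with h0 | h1
        · exact absurd h0 (pow_ne_zero k two_ne_zero)
        · exact h1
      have hjodd : j ≡ 1 [MOD 2] := by
        have hnd : ¬ 2 ∣ j := by
          intro hd
          have : 2 ∣ Nat.gcd (2 ^ k) j := Nat.dvd_gcd (dvd_pow_self 2 hk0) hd
          rw [hg] at this
          exact absurd this (by norm_num)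
        rw [Nat.ModEq]; omega
      exact cyc_aut_trivial 2 k (orderOf b) j h2 x b hxk (pow_orderOf_eq_one b) hbcop hjodd hj.symm
    have hax : a * x = x * a := by
      have hpa : IsPGroup 2 (Subgroup.zpowers a) :=
        IsPGroup.of_card (n := e) (by rw [Nat.card_zpowers, hae])
      have hpx : IsPGroup 2 (Subgroup.zpowers x) :=
        IsPGroup.of_card (n := k) (by rw [Nat.card_zpowers, hxk])
      have hsup : IsPGroup 2 (Subgroup.zpowers a ⊔ Subgroup.zpowers x : Subgroup G) :=
        IsPGroup.to_sup_of_normal_right' hpa hpx (Subgroup.zpowers_le.mpr haN)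
      obtain ⟨Q, hQ⟩ := hsup.exists_le_sylow
      obtain ⟨g, hg⟩ := MulAction.exists_smul_eq G Q P
      have hconj : ∀ z : G, z ∈ (Q : Subgroup G) → g * z * g⁻¹ ∈ (P : Subgroup G) := by
        intro z hz
        rw [← hg, sylow_smul_mem_iff]
        have : g⁻¹ * (g * z * g⁻¹) * g = z := by group
        rw [this]; exact hz
      have haQ : a ∈ (Q : Subgroup G) :=
        hQ ((le_sup_left : Subgroup.zpowers a ≤ Subgroup.zpowers a ⊔ Subgroup.zpowers x)
          (Subgroup.mem_zpowers a))
      have hxQ : x ∈ (Q : Subgroup G) :=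
        hQ ((le_sup_right : Subgroup.zpowers x ≤ Subgroup.zpowers a ⊔ Subgroup.zpowers x)
          (Subgroup.mem_zpowers x))
      have hmem : a * x * a⁻¹ ∈ Subgroup.zpowers x :=
        (Subgroup.mem_normalizer_iff.mp haN x).mp (Subgroup.mem_zpowers x)
      obtain ⟨z, hz⟩ := Subgroup.mem_zpowers_iff.mp hmem
      have hn' : (⟨g * a * g⁻¹, hconj a haQ⟩ : (P : Subgroup G)) ∈ Subgroup.normalizer
          ((Subgroup.zpowers (⟨g * x * g⁻¹, hconj x hxQ⟩ : (P : Subgroup G)) :
            Subgroup (P : Subgroup G)) : Set (P : Subgroup G)) := by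
        apply mem_normalizer_zpowers
        refine Subgroup.mem_zpowers_iff.mpr ⟨z, ?_⟩
        apply Subtype.ext
        show (g * x * g⁻¹) ^ z = (g * a * g⁻¹) * (g * x * g⁻¹) * (g * a * g⁻¹)⁻¹
        rw [conj_zpow, hz]; group
      have hcen := h _ hn'
      rw [Subgroup.mem_centralizer_singleton_iff] at hcen
      have hG : (g * a * g⁻¹) * (g * x * g⁻¹) = (g * x * g⁻¹) * (g * a * g⁻¹) :=
        congrArg Subtype.val hcen
      have := congrArg (fun w => g⁻¹ * w * g) hG
      simpa [mul_assoc] using this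
    have hbx' : b * x = x * b := by
      have := congrArg (fun z => z * b) hbx
      simpa [mul_assoc] using this
    rw [← hab]
    calc a * b * x = a * (x * b) := by rw [mul_assoc, hbx']
      _ = x * (a * b) := by rw [← mul_assoc, hax, mul_assoc]

end Cfsg.Agent.S4028
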