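import Cfsg.Statements.S4032
import Cfsg.Agent.S3800
import Cfsg.Agent.Lib.Helper6.Lift2
import Cfsg.Agent.Lib.Helper6.Primary
import Cfsg.Agent.Lib.Helper6.Comm

set_option autoImplicit false
open Cfsg

namespace Cfsg.Agent.S4032

open Cfsg.Agent.Lib.Helper6 in
/-- Let π be a set of primes and G a finite group in which N_G(⟨x⟩) = C_G(x) for every π-element x. If N is a normal subgroup of G whose order is divisible by no prime of π, then G/N has the same property: N_{G/N}(⟨y⟩) = C_{G/N}(y) for every π-element y of G/N. -/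
theorem result {G : Type*} [Group G] [Finite G] (π : Set ℕ)
    (hirr : ∀ x : G, (∀ r : ℕ, r.Prime → r ∣ orderOf x → r ∈ π) →
      Subgroup.normalizer ((Subgroup.zpowers x : Subgroup G) : Set G) ≤ Subgroup.centralizer {x})
    (N : Subgroup G) [N.Normal] (hN : ∀ r : ℕ, r.Prime → r ∣ Nat.card N → r ∉ π) :
    ∀ y : G ⧸ N, (∀ r : ℕ, r.Prime → r ∣ orderOf y → r ∈ π) →
      Subgroup.normalizer ((Subgroup.zpowers y : Subgroup (G ⧸ N)) : Set (G ⧸ N)) ≤ Subgroup.centralizer {y} := by
  intro y hy hbar hhbar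
  rw [Subgroup.mem_centralizer_iff]
  intro y' hy'
  rw [Set.mem_singleton_iff] at hy'
  subst hy'
  have key : ∀ z : G ⧸ N, z ∈ Subgroup.zpowers y' → (∃ q b : ℕ, q.Prime ∧ orderOf z = q ^ b) →
      z * hbar = hbar * z := by
    intro z hz ⟨q, b, hq, hzb⟩
    by_cases hz1 : z = 1
    · rw [hz1]; simp
    have hb : b ≠ 0 := by
      intro hb
      rw [hb, pow_zero, orderOf_eq_one_iff] at hzb
      exact hz1 hzb
    have hqz : q ∣ orderOf z := by rw [hzb]; exact dvd_pow_self q hb
    have hqπ : q ∈ π := hy q hq (hqz.trans (orderOf_dvd_of_mem_zpowers hz))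
    have hNq : (Nat.card N).Coprime q := by
      have h1 : ¬ q ∣ Nat.card N := fun h => hN q hq h hqπ
      exact ((Nat.Prime.coprime_iff_not_dvd hq).mpr h1).symm
    have : Fact q.Prime := ⟨hq⟩
    obtain ⟨x, a, hxa, hxz⟩ := exists_pelt_lift N z b hzb
    have hP : IsPGroup q (Subgroup.zpowers x) :=
      IsPGroup.of_card (n := a) (by rw [Nat.card_zpowers, hxa])
    have h3800 := (Cfsg.Agent.S3800.result N hNq (Subgroup.zpowers x) hP).1
    have hnz : hbar ∈ Subgroup.normalizer ((Subgroup.zpowers z : Subgroup (G ⧸ N)) : Set (G ⧸ N)) := by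
      apply mem_normalizer_of_conj_mem
      intro d hd
      obtain ⟨k, rfl⟩ := Subgroup.mem_zpowers_iff.mp hd
      obtain ⟨j, rfl⟩ := Subgroup.mem_zpowers_iff.mp hz
      obtain ⟨i, hi⟩ := Subgroup.mem_zpowers_iff.mp
        ((Subgroup.mem_normalizer_iff.mp hhbar y').mp (Subgroup.mem_zpowers y'))
      have e : hbar * (y' ^ j) ^ k * hbar⁻¹ = ((y' ^ j) ^ (i * k)) := by
        rw [← zpow_mul, ← conj_zpow, ← hi, ← zpow_mul, ← zpow_mul]
        congr 1
        ring
      rw [e]
      exact Subgroup.zpow_mem_zpowers _ _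
    have hzmap : Subgroup.zpowers z = (Subgroup.zpowers x).map (QuotientGroup.mk' N) := by
      rw [MonoidHom.map_zpowers, hxz]
    rw [hzmap, h3800] at hnz
    obtain ⟨h, hh, hhh⟩ := hnz
    have hxπ : ∀ r : ℕ, r.Prime → r ∣ orderOf x → r ∈ π := by
      intro r hr hrx
      rw [hxa] at hrx
      have := (Nat.prime_dvd_prime_iff_eq hr hq).mp (hr.dvd_of_dvd_pow hrx)
      rw [this]; exact hqπ
    have hc := hirr x hxπ hh
    have hc2 := Subgroup.mem_centralizer_iff.mp hc x (Set.mem_singleton x)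
    rw [← hxz, ← hhh, ← map_mul, ← map_mul, hc2]
  have h2 := mem_of_forall_prime_pow
    ((Subgroup.centralizer {hbar}).subgroupOf (Subgroup.zpowers y')) 1
    (fun z hz => by
      obtain ⟨q, b, hq, -, hzb⟩ := hz
      rw [Subgroup.mem_subgroupOf, Subgroup.mem_centralizer_iff]
      intro h hh
      rw [Set.mem_singleton_iff] at hh
      subst hh
      have := key (z : G ⧸ N) z.2 ⟨q, b, hq, by rw [← hzb, Subgroup.orderOf_coe]⟩
      exact this.symm)
    ⟨y', Subgroup.mem_zpowers y'⟩ (Nat.coprime_one_right _)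
  rw [Subgroup.mem_subgroupOf, Subgroup.mem_centralizer_iff] at h2
  exact (h2 hbar (Set.mem_singleton _)).symm

end Cfsg.Agent.S4032
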