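import Cfsg.Statements.S4036
import Mathlib

set_option autoImplicit false
open Cfsg

namespace Cfsg.Agent.S4036

/-- Let P be a finite abelian p-group and K a group of automorphisms of P (a subgroup of Aut P) whose order is divisible by p. If all non-identity elements of K have the same fixed-point subgroup on P, then K has no non-trivial normal subgroup of order prime to p. -/
theorem result {P : Type*} [CommGroup P] [Finite P] {p : ℕ}
    [Fact p.Prime] (hP : IsPGroup p P) (K : Subgroup (MulAut P)) (hK : p ∣ Nat.card K)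
    (hfix : ∀ x y : MulAut P, x ∈ K → y ∈ K → x ≠ 1 → y ≠ 1 → ∀ v : P, x v = v ↔ y v = v) :
    ∀ N : Subgroup ↥K, N.Normal → ¬ p ∣ Nat.card N → N = ⊥ := by
  intro N hNn hNp
  classical
  have hp := Fact.out (p := p.Prime)
  have : Fintype ↥N := Fintype.ofFinite _
  let ν : P →* P := ∏ m : ↥N, (((m : ↥K) : MulAut P)).toMonoidHom
  have hν : ∀ v, ν v = ∏ m : ↥N, ((m : ↥K) : MulAut P) v := by
    intro v
    simp only [ν, MonoidHom.finsetProd_apply]
    rfl
  have hνK : ∀ k : ↥K, ∀ v, ν ((k : MulAut P) v) = (k : MulAut P) (ν v) := by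
    intro k v
    rw [hν, hν, map_prod]
    let e : ↥N ≃ ↥N :=
      { toFun := fun m => ⟨k⁻¹ * m * k⁻¹⁻¹, hNn.conj_mem _ m.2 k⁻¹⟩
        invFun := fun m => ⟨k * m * k⁻¹, hNn.conj_mem _ m.2 k⟩
        left_inv := fun m => by apply Subtype.ext; simp only []; group
        right_inv := fun m => by apply Subtype.ext; simp only []; group }
    apply Fintype.prod_equiv e
    intro m
    show ((m : ↥K) : MulAut P) ((k : MulAut P) v)
      = (k : MulAut P) ((((k⁻¹ * m * k⁻¹⁻¹ : ↥K)) : MulAut P) v)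
    simp [MulAut.mul_apply]
  have hVinv : ∀ k : ↥K, ∀ w ∈ ν.ker, (k : MulAut P) w ∈ ν.ker := by
    intro k w hw
    rw [MonoidHom.mem_ker] at hw ⊢
    rw [hνK, hw, map_one]
  let _ : MulAction ↥K ↥ν.ker :=
    { smul := fun k w => ⟨(k : MulAut P) w, hVinv k w w.2⟩
      one_smul := fun w => Subtype.ext (by
        show ((1 : ↥K) : MulAut P) w = w
        simp)
      mul_smul := fun a b w => Subtype.ext (by
        show ((a * b : ↥K) : MulAut P) w = (a : MulAut P) ((b : MulAut P) w)
        simp [MulAut.mul_apply]) }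
  obtain ⟨x, hx⟩ := exists_prime_orderOf_dvd_card' p hK
  have hx1 : x ≠ 1 := by
    intro h
    rw [h, orderOf_one] at hx
    exact hp.one_lt.ne hx
  have hxP : IsPGroup p ↥(Subgroup.zpowers x) :=
    IsPGroup.of_card (n := 1) (by rw [Nat.card_zpowers, hx, pow_one])
  have hVbot : ν.ker = ⊥ := by
    by_contra hVne
    have hVp : IsPGroup p ↥ν.ker := hP.to_subgroup _
    obtain ⟨j, hj⟩ := IsPGroup.iff_card.mp hVp
    have hj0 : j ≠ 0 := by
      intro h0
      rw [h0, pow_zero] at hj
      exact hVne ((Subgroup.card_eq_one).mp hj)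
    have hdvd : p ∣ Nat.card ↥ν.ker := by rw [hj]; exact dvd_pow_self p hj0
    have h1fix : (1 : ↥ν.ker) ∈ MulAction.fixedPoints ↥(Subgroup.zpowers x) ↥ν.ker := by
      intro g
      apply Subtype.ext
      show (((g : ↥K)) : MulAut P) (1 : P) = 1
      exact map_one _
    obtain ⟨b, hbfix, hb1⟩ := hxP.exists_fixed_point_of_prime_dvd_card_of_fixed_point ↥ν.ker hdvd h1fix
    have hxb : (x : MulAut P) (b : P) = b := by
      have := hbfix ⟨x, Subgroup.mem_zpowers x⟩
      exact congrArg Subtype.val this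
    have hmb : ∀ m : ↥N, ((m : ↥K) : MulAut P) (b : P) = b := by
      intro m
      by_cases hm1 : ((m : ↥K) : MulAut P) = 1
      · rw [hm1]; rfl
      · exact (hfix (x : MulAut P) ((m : ↥K) : MulAut P) x.2 (m : ↥K).2
          (by intro h; apply hx1; exact Subtype.ext h) hm1 b).mp hxb
    have hνb : ν (b : P) = (b : P) ^ Nat.card ↥N := by
      rw [hν, Finset.prod_congr rfl (fun m _ => hmb m), Finset.prod_const, Finset.card_univ,
        Nat.card_eq_fintype_card]
    have hb' : (b : P) ^ Nat.card ↥N = 1 := by rw [← hνb]; exact b.2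
    obtain ⟨j', hj'⟩ := hP (b : P)
    have hord : orderOf (b : P) ∣ Nat.gcd (Nat.card ↥N) (p ^ j') :=
      Nat.dvd_gcd (orderOf_dvd_of_pow_eq_one hb') (orderOf_dvd_of_pow_eq_one hj')
    have hcop : Nat.gcd (Nat.card ↥N) (p ^ j') = 1 := by
      apply Nat.Coprime.pow_right
      exact ((Nat.Prime.coprime_iff_not_dvd hp).mpr hNp).symm
    rw [hcop] at hord
    have := orderOf_eq_one_iff.mp (Nat.dvd_one.mp hord)
    exact hb1 (Subtype.ext this).symm
  rw [eq_bot_iff]
  intro m hm
  rw [Subgroup.mem_bot]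
  apply Subtype.ext
  show (m : MulAut P) = 1
  ext v
  have h1 : ν ((m : MulAut P) v) = ν v := by
    rw [hν, hν]
    apply Fintype.prod_equiv (Equiv.mulRight (⟨m, hm⟩ : ↥N))
    intro m'
    show ((m' : ↥K) : MulAut P) ((m : MulAut P) v)
      = (((m' * ⟨m, hm⟩ : ↥N) : ↥K) : MulAut P) v
    simp [MulAut.mul_apply]
  have h2 : ν ((m : MulAut P) v * v⁻¹) = 1 := by rw [map_mul, map_inv, h1, mul_inv_cancel]
  have h3 : (m : MulAut P) v * v⁻¹ ∈ ν.ker := h2
  rw [hVbot, Subgroup.mem_bot] at h3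
  show (m : MulAut P) v = (1 : MulAut P) v
  rw [MulAut.one_apply]
  exact mul_inv_eq_one.mp h3

end Cfsg.Agent.S4036
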