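import Cfsg.Statements.S4056
import Cfsg.Agent.Lib.Helper4.Frattini

set_option autoImplicit false
open Cfsg

namespace Cfsg.Agent.S4056

theorem sq_rel {P : Type*} [Group P] (a b c : P) (hc : ∀ z : P, c * z = z * c)
    (h : a * b = c * b * a) : (a * a) * b = (c * c) * b * (a * a) := by
  calc (a * a) * b = a * (a * b) := by rw [mul_assoc]
    _ = a * (c * b * a) := by rw [h]
    _ = (a * c) * b * a := by simp only [mul_assoc]
    _ = (c * a) * b * a := by rw [hc a]
    _ = c * (a * b) * a := by simp only [mul_assoc]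
    _ = c * (c * b * a) * a := by rw [h]
    _ = (c * c) * b * (a * a) := by simp only [mul_assoc]

theorem comm_sq {P : Type*} [Group P] (x y c : P) (hc : ∀ z : P, c * z = z * c)
    (R1 : x * y = c * y * x) (hx4 : ∀ z : P, (z * z) * (z * z) = 1) :
    c * c = 1 ∧ (x * x) * y = y * (x * x) := by
  have S1 := sq_rel x y c hc R1
  have hc2 : ∀ z : P, (c * c) * z = z * (c * c) := by
    intro z
    rw [mul_assoc, hc z, ← mul_assoc, hc z, mul_assoc]
  have S2 := sq_rel (x * x) y (c * c) hc2 S1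
  have hc4 : (c * c) * (c * c) = 1 := by
    rw [hx4 x, one_mul, mul_one] at S2
    have h1 : 1 * y = ((c * c) * (c * c)) * y := by rw [one_mul]; exact S2
    exact (mul_right_cancel h1).symm
  have hci : ∀ z : P, c⁻¹ * z = z * c⁻¹ := by
    intro z
    rw [eq_mul_inv_iff_mul_eq, mul_assoc, ← hc z, inv_mul_cancel_left]
  have R2 : y * x = c⁻¹ * x * y := by
    rw [mul_assoc, R1, mul_assoc, inv_mul_cancel_left]
  have S3 := sq_rel y x c⁻¹ hci R2
  have R3 : x * (y * y) = (c * c) * (y * y) * x := by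
    calc x * (y * y) = (c * c) * ((c⁻¹ * c⁻¹) * x * (y * y)) := by group
      _ = (c * c) * ((y * y) * x) := by rw [← S3]
      _ = (c * c) * (y * y) * x := by simp only [mul_assoc]
  have S4 := sq_rel x (y * y) (c * c) hc2 R3
  rw [hc4, one_mul] at S4
  have h10 : (x * y) * (x * y) = c⁻¹ * (x * x) * (y * y) := by
    calc (x * y) * (x * y) = x * (y * x) * y := by simp only [mul_assoc]
      _ = x * (c⁻¹ * x * y) * y := by rw [R2]
      _ = (x * c⁻¹) * x * y * y := by simp only [mul_assoc]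
      _ = (c⁻¹ * x) * x * y * y := by rw [hci x]
      _ = c⁻¹ * (x * x) * (y * y) := by simp only [mul_assoc]
  have h11 : ((x * y) * (x * y)) * ((x * y) * (x * y)) = c⁻¹ * c⁻¹ := by
    calc ((x * y) * (x * y)) * ((x * y) * (x * y))
        = (c⁻¹ * (x * x) * (y * y)) * (c⁻¹ * (x * x) * (y * y)) := by rw [h10]
      _ = c⁻¹ * (x * x) * ((y * y) * c⁻¹) * (x * x) * (y * y) := by simp only [mul_assoc]
      _ = c⁻¹ * (x * x) * (c⁻¹ * (y * y)) * (x * x) * (y * y) := by rw [hci (y * y)]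
      _ = c⁻¹ * ((x * x) * c⁻¹) * ((y * y) * (x * x)) * (y * y) := by simp only [mul_assoc]
      _ = c⁻¹ * (c⁻¹ * (x * x)) * ((x * x) * (y * y)) * (y * y) := by rw [hci (x * x), S4]
      _ = c⁻¹ * c⁻¹ * ((x * x) * (x * x)) * ((y * y) * (y * y)) := by simp only [mul_assoc]
      _ = c⁻¹ * c⁻¹ := by rw [hx4 x, hx4 y, mul_one, mul_one]
  have h12 : c * c = 1 := by
    have h13 : c⁻¹ * c⁻¹ = 1 := by rw [← h11]; exact hx4 _
    have h14 : (c * c)⁻¹ = 1 := by rw [mul_inv_rev]; exact h13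
    exact inv_eq_one.mp h14
  refine ⟨h12, ?_⟩
  rw [S1, h12, one_mul]

open scoped commutatorElement in
/-- In a finite 2-group of nilpotency class at most 2 and exponent dividing 4, the Frattini subgroup lies in the centre and is elementary abelian. -/
theorem result {P : Type*} [Group P] [Finite P] (hP : IsPGroup 2 P)
    (hcl : Group.nilpotencyClass P ≤ 2) (hexp : Monoid.exponent P ∣ 4) :
    frattini P ≤ Subgroup.center P ∧ Cfsg.IsElementaryAbelian 2 (frattini P) := by
  have : Fact (Nat.Prime 2) := ⟨Nat.prime_two⟩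
  have : Group.IsNilpotent P := hP.isNilpotent
  have hlcs : Subgroup.lowerCentralSeries (⊤ : Subgroup P) 2 = ⊥ :=
    Subgroup.lowerCentralSeries_eq_bot_iff_nilpotencyClass_le.mpr hcl
  have hcc : ∀ x y z : P, ⁅x, y⁆ * z = z * ⁅x, y⁆ := by
    intro x y z
    have h1 : ⁅⁅x, y⁆, z⁆ ∈ Subgroup.lowerCentralSeries (⊤ : Subgroup P) 2 := by
      show ⁅⁅x, y⁆, z⁆ ∈ ⁅⁅(⊤ : Subgroup P), ⊤⁆, ⊤⁆
      exact Subgroup.commutator_mem_commutator
        (Subgroup.commutator_mem_commutator (Subgroup.mem_top _) (Subgroup.mem_top _))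
        (Subgroup.mem_top _)
    rw [hlcs, Subgroup.mem_bot] at h1
    generalize ⁅x, y⁆ = c at h1
    rw [commutatorElement_def] at h1
    calc c * z = (c * z * c⁻¹ * z⁻¹) * z * c := by group
      _ = z * c := by rw [h1, one_mul]
  have hx4 : ∀ x : P, (x * x) * (x * x) = 1 := fun x => by
    obtain ⟨c, hc⟩ := hexp
    have h4 : x ^ 4 = 1 := by rw [hc, pow_mul, Monoid.pow_exponent_eq_one, one_pow]
    rw [← pow_two, ← pow_two, ← pow_mul]
    exact h4
  have key : ∀ x y : P, ⁅x, y⁆ * ⁅x, y⁆ = 1 ∧ (x * x) * y = y * (x * x) := by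
    intro x y
    apply comm_sq x y ⁅x, y⁆ (hcc x y) _ hx4
    rw [commutatorElement_def]; group
  let K : Subgroup P :=
    { carrier := {z | z ∈ Subgroup.center P ∧ z ^ 2 = 1}
      one_mem' := ⟨Subgroup.one_mem _, one_pow 2⟩
      mul_mem' := by
        rintro a b ⟨ha, ha2⟩ ⟨hb, hb2⟩
        refine ⟨Subgroup.mul_mem _ ha hb, ?_⟩
        have hcomm : Commute a b := (Subgroup.mem_center_iff.mp ha b).symm
        rw [hcomm.mul_pow, ha2, hb2, one_mul]
      inv_mem' := by
        rintro a ⟨ha, ha2⟩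
        exact ⟨Subgroup.inv_mem _ ha, by rw [inv_pow, ha2, inv_one]⟩ }
  have hFK : frattini P ≤ K := by
    apply Cfsg.Agent.Lib.Helper4.frattini_le_of_comm_pow (p := 2) K
    · intro x y
      refine ⟨?_, by rw [pow_two]; exact (key x y).1⟩
      rw [Subgroup.mem_center_iff]
      intro z
      exact (hcc x y z).symm
    · intro x
      refine ⟨?_, by rw [pow_two, pow_two]; exact hx4 x⟩
      rw [Subgroup.mem_center_iff]
      intro z
      rw [pow_two]
      exact ((key x z).2).symm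
  refine ⟨fun z hz => (hFK hz).1, ?_, fun a ha => (hFK ha).2⟩
  refine ⟨⟨fun a b => Subtype.ext ?_⟩⟩
  have ha := (hFK a.2).1
  rw [Subgroup.mem_center_iff] at ha
  exact (ha b.1).symm

end Cfsg.Agent.S4056
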