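import Mathlib
import Cfsg.Statements.S4058
import Cfsg.Agent.Lib.Helper7.FS
import Cfsg.Agent.Lib.Helper7.LinTwist
import Cfsg.Agent.Lib.Helper6.LinChar4
import Cfsg.Agent.Lib.Helper6.LinChar3
import Cfsg.Agent.Lib.Lead.PFrat
import Cfsg.Agent.Lib.Lead.LinTransfer
import Cfsg.Agent.Lib.Lead.Char14
import Cfsg.Agent.Lib.Lead.Char13
import Cfsg.Agent.S0893

set_option autoImplicit false
open Cfsg

namespace Cfsg.Agent.S4058

open scoped ComplexConjugate
open Cfsg.Agent.Lib Cfsg.Agent.Lib.Lead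
open scoped commutatorElement

section tw

variable {G : Type*} [Group G]

/-- the linear character of `G` attached to a hom on the Frattini quotient -/
noncomputable def lamT (l : (G ⧸ frattini G) →* ℂˣ) : G →* ℂˣ :=
  l.comp (QuotientGroup.mk' (frattini G))

theorem lamT_apply (l : (G ⧸ frattini G) →* ℂˣ) (g : G) :
    lamT l g = l (QuotientGroup.mk g) := rfl

theorem lamT_irr (l : (G ⧸ frattini G) →* ℂˣ) :
    Cfsg.IsIrrCharacter G (fun g => ((lamT l g : ℂˣ) : ℂ)) :=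
  Cfsg.Agent.S0893.irr_of_char_one _ (isCharacter_of_hom (lamT l)) (by simp)

/-- the action of the dual of the Frattini quotient on the irreducible characters -/
noncomputable def twAct [Finite G] :
    MulAction ((G ⧸ frattini G) →* ℂˣ) (Cfsg.IrrCharacter G) where
  smul l χ := ⟨(fun g => ((lamT l g : ℂˣ) : ℂ)) * χ.1,
    Cfsg.Agent.Lib.Helper7.LT.irr_linear_twist ⟨_, lamT_irr l⟩ χ (by simp)⟩
  one_smul χ := by
    apply Subtype.ext
    funext g
    show ((lamT 1 g : ℂˣ) : ℂ) * χ.1 g = χ.1 g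
    rw [lamT_apply, MonoidHom.one_apply, Units.val_one, one_mul]
  mul_smul l₁ l₂ χ := by
    apply Subtype.ext
    funext g
    show ((lamT (l₁ * l₂) g : ℂˣ) : ℂ) * χ.1 g
      = ((lamT l₁ g : ℂˣ) : ℂ) * (((lamT l₂ g : ℂˣ) : ℂ) * χ.1 g)
    rw [lamT_apply, lamT_apply, lamT_apply, MonoidHom.mul_apply, Units.val_mul, mul_assoc]

/-- the stabilizer of an irreducible character under twisting has order at most `χ(1)²` -/
theorem stab_le [Fintype G] (χ : Cfsg.IrrCharacter G) (d : ℕ) (hd : χ.1 1 = d)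
    (S : Finset ((G ⧸ frattini G) →* ℂˣ))
    (hS : ∀ l ∈ S, (fun g => ((lamT l g : ℂˣ) : ℂ)) * χ.1 = χ.1) : S.card ≤ d ^ 2 := by
  classical
  haveI : Fintype (Cfsg.IrrCharacter G) := Fintype.ofFinite _
  have hψ : Cfsg.IsCharacter G (χ.1 * fun g => (starRingEnd ℂ) (χ.1 g)) :=
    isCharacter_mul (isCharacter_of_irr χ.2) (isCharacter_of_irr (isIrrCharacter_conj χ.2))
  obtain ⟨m, hm⟩ := isCharacter_decomp hψ
  choose dg hdg0 hdg using (fun φ : Cfsg.IrrCharacter G => irr_one_eq_nat φ)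
  have hψ1 : d ^ 2 = ∑ φ : Cfsg.IrrCharacter G, m φ * dg φ := by
    have h1 := congrFun hm 1
    rw [Pi.mul_apply, hd, Complex.conj_natCast, Finset.sum_apply] at h1
    have h2 : ∀ φ : Cfsg.IrrCharacter G, ((m φ : ℂ) • φ.1) 1 = ((m φ * dg φ : ℕ) : ℂ) := by
      intro φ
      rw [Pi.smul_apply, smul_eq_mul, hdg φ]
      push_cast
      rfl
    rw [Finset.sum_congr rfl (fun φ _ => h2 φ)] at h1
    have h3 : ((d ^ 2 : ℕ) : ℂ) = ((∑ φ : Cfsg.IrrCharacter G, m φ * dg φ : ℕ) : ℂ) := by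
      push_cast
      rw [sq]
      exact_mod_cast h1
    exact_mod_cast h3
  let j : ((G ⧸ frattini G) →* ℂˣ) → Cfsg.IrrCharacter G :=
    fun l => ⟨fun g => ((lamT l g : ℂˣ) : ℂ), lamT_irr l⟩
  have hj : Function.Injective j := by
    intro l l' h
    have h1 := congrArg Subtype.val h
    apply MonoidHom.ext
    intro v
    obtain ⟨g, rfl⟩ := QuotientGroup.mk_surjective v
    have h2 := congrFun h1 g
    exact Units.ext h2
  have hmult : ∀ l ∈ S, m (j l) * dg (j l) = 1 := by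
    intro l hl
    have hm1 : m (j l) = 1 := by
      have h1 := classInner_nat_comb (fun φ : Cfsg.IrrCharacter G => (m φ : ℂ)) (j l)
      rw [← hm] at h1
      have h2 : Cfsg.classInner (χ.1 * fun g => (starRingEnd ℂ) (χ.1 g)) (j l).1 = 1 := by
        rw [← irr_inner_self χ]
        unfold Cfsg.classInner
        congr 1
        apply Finset.sum_congr rfl
        intro g _
        have h3 := congrFun (hS l hl) g
        rw [Pi.mul_apply] at h3
        rw [Pi.mul_apply]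
        show χ.1 g * (starRingEnd ℂ) (χ.1 g) * (starRingEnd ℂ) ((lamT l g : ℂˣ) : ℂ) = _
        have h4 : (starRingEnd ℂ) (χ.1 g) * (starRingEnd ℂ) ((lamT l g : ℂˣ) : ℂ)
            = (starRingEnd ℂ) (χ.1 g) := by
          rw [← map_mul, mul_comm, h3]
        rw [mul_assoc, h4]
      rw [h2] at h1
      exact_mod_cast h1.symm
    have hd1 : dg (j l) = 1 := by
      have h1 := hdg (j l)
      have h2 : (j l).1 1 = 1 := by
        show ((lamT l 1 : ℂˣ) : ℂ) = 1
        rw [map_one, Units.val_one]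
      rw [h2] at h1
      exact_mod_cast h1.symm
    rw [hm1, hd1]
  calc S.card = ∑ l ∈ S, 1 := by simp
    _ = ∑ l ∈ S, m (j l) * dg (j l) := Finset.sum_congr rfl (fun l hl => (hmult l hl).symm)
    _ = ∑ φ ∈ S.image j, m φ * dg φ := by
        rw [Finset.sum_image (fun a _ b _ h => hj h)]
    _ ≤ ∑ φ : Cfsg.IrrCharacter G, m φ * dg φ :=
        Finset.sum_le_sum_of_subset (Finset.subset_univ _)
    _ = d ^ 2 := hψ1.symm

end tw

/-- Let G be a finite 2-group with #(G/Φ(G)) ≥ 2^(2k+1). Then the number of elements x of G with x² = 1 is divisible by 2^(k+1). -/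
theorem result {G : Type*} [Group G] [Finite G] (hG : IsPGroup 2 G) (k : ℕ)
    (hgen : 2 ^ (2 * k + 1) ≤ Nat.card (G ⧸ frattini G)) :
    2 ^ (k + 1) ∣ Nat.card {x : G // x ^ 2 = 1} := by
    classical
  haveI : Fintype G := Fintype.ofFinite G
  haveI : Fact (Nat.Prime 2) := ⟨Nat.prime_two⟩
  haveI : Fintype (Cfsg.IrrCharacter G) := Fintype.ofFinite _
  obtain ⟨hcomm, hsq⟩ := commutator_le_frattini_and_pow_mem hG
  have hVcomm : ∀ a b : G ⧸ frattini G, a * b = b * a := by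
    intro a b
    obtain ⟨a, rfl⟩ := QuotientGroup.mk_surjective a
    obtain ⟨b, rfl⟩ := QuotientGroup.mk_surjective b
    rw [← QuotientGroup.mk_mul, ← QuotientGroup.mk_mul, QuotientGroup.eq]
    apply hcomm
    have h1 : (a * b)⁻¹ * (b * a) = ⁅b⁻¹, a⁻¹⁆ := by rw [commutatorElement_def]; group
    rw [h1, commutator_def]
    exact Subgroup.commutator_mem_commutator (Subgroup.mem_top _) (Subgroup.mem_top _)
  haveI hfinΛ : Finite ((G ⧸ frattini G) →* ℂˣ) := Cfsg.Agent.Lib.Helper6.finite_hom hVcomm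
  haveI : Fintype ((G ⧸ frattini G) →* ℂˣ) := Fintype.ofFinite _
  have hcardΛ : Nat.card ((G ⧸ frattini G) →* ℂˣ) = Nat.card (G ⧸ frattini G) :=
    Cfsg.Agent.Lib.Helper6.card_hom hVcomm
  obtain ⟨n, hn⟩ := IsPGroup.iff_card.mp hG
  obtain ⟨d, -, hdV⟩ : ∃ d, d ≤ n ∧ Nat.card (G ⧸ frattini G) = 2 ^ d := by
    have h1 := Subgroup.card_quotient_dvd_card (frattini G)
    rw [hn] at h1
    exact (Nat.dvd_prime_pow Nat.prime_two).mp h1
  have hdk : 2 * k + 1 ≤ d := by
    rw [hdV] at hgen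
    exact (Nat.pow_le_pow_iff_right (by norm_num)).mp hgen
  letI : MulAction ((G ⧸ frattini G) →* ℂˣ) (Cfsg.IrrCharacter G) := twAct
  have hsm : ∀ (l : (G ⧸ frattini G) →* ℂˣ) (χ : Cfsg.IrrCharacter G) (g : G),
      (l • χ).1 g = ((lamT l g : ℂˣ) : ℂ) * χ.1 g := fun _ _ _ => rfl
  have hνZ : ∀ χ : Cfsg.IrrCharacter G, ∃ z : ℤ,
      (Nat.card G : ℂ)⁻¹ * ∑ s : G, (χ : G → ℂ) (s * s) = (z : ℂ) := by
    intro χ
    obtain ⟨h1, h2⟩ := Cfsg.Agent.Lib.Helper7.FS.fs_cases χ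
    by_cases hreal : ∀ g : G, ((χ : G → ℂ) g).im = 0
    · rcases h1 hreal with h | h
      · exact ⟨1, by rw [h]; norm_num⟩
      · exact ⟨-1, by rw [h]; norm_num⟩
    · exact ⟨0, by rw [h2 hreal]; norm_num⟩
  choose νz hνz using hνZ
  choose dg hdg0 hdg using (fun χ : Cfsg.IrrCharacter G => irr_one_eq_nat χ)
  have hdg_inv : ∀ (l : (G ⧸ frattini G) →* ℂˣ) (χ : Cfsg.IrrCharacter G), dg (l • χ) = dg χ := by
    intro l χ
    have h1 : ((dg (l • χ) : ℕ) : ℂ) = (dg χ : ℂ) := by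
      rw [← hdg, ← hdg, hsm, map_one, Units.val_one, one_mul]
    exact_mod_cast h1
  have hν_inv : ∀ (l : (G ⧸ frattini G) →* ℂˣ) (χ : Cfsg.IrrCharacter G), νz (l • χ) = νz χ := by
    intro l χ
    have h1 : ((νz (l • χ) : ℤ) : ℂ) = (νz χ : ℂ) := by
      rw [← hνz, ← hνz]
      congr 1
      apply Finset.sum_congr rfl
      intro s _
      rw [hsm, lamT_apply]
      have h2 : (QuotientGroup.mk (s * s) : G ⧸ frattini G) = 1 := by
        rw [QuotientGroup.eq_one_iff, ← sq]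
        exact hsq s
      rw [h2, map_one, Units.val_one, one_mul]
    exact_mod_cast h1
  have hcount : ((Nat.card {x : G // x ^ 2 = 1} : ℕ) : ℤ)
      = ∑ χ : Cfsg.IrrCharacter G, (dg χ : ℤ) * νz χ := by
    have h1 := Cfsg.Agent.Lib.Helper7.FS.sum_fs (G := G)
    have h2 : Nat.card {x : G // x ^ 2 = 1} = Nat.card {g : G // g * g = 1} :=
      Nat.card_congr (Equiv.subtypeEquivRight (fun x => by rw [sq]))
    rw [h2]
    have h3 : ((Nat.card {g : G // g * g = 1} : ℕ) : ℂ)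
        = ((∑ χ : Cfsg.IrrCharacter G, (dg χ : ℤ) * νz χ : ℤ) : ℂ) := by
      rw [← h1]
      push_cast
      apply Finset.sum_congr rfl
      intro χ _
      rw [hνz χ, hdg χ]
    exact_mod_cast h3
  have hkey : ∀ χ : Cfsg.IrrCharacter G,
      2 ^ (k + 1) ∣ (MulAction.orbit ((G ⧸ frattini G) →* ℂˣ) χ).ncard * dg χ := by
    intro χ
    obtain ⟨e, he1, he2, -⟩ := irr_deg_dvd_card χ
    have hde : dg χ = e := by
      have h1 := hdg χ
      rw [he1] at h1
      exact_mod_cast h1.symm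
    obtain ⟨a, -, ha⟩ : ∃ a, a ≤ n ∧ dg χ = 2 ^ a := by
      rw [hde]
      rw [hn] at he2
      exact (Nat.dvd_prime_pow Nat.prime_two).mp he2
    have hos := Subgroup.card_mul_index (MulAction.stabilizer ((G ⧸ frattini G) →* ℂˣ) χ)
    rw [MulAction.index_stabilizer, hcardΛ, hdV] at hos
    obtain ⟨s, -, hs⟩ : ∃ s, s ≤ d ∧
        Nat.card (MulAction.stabilizer ((G ⧸ frattini G) →* ℂˣ) χ) = 2 ^ s :=
      (Nat.dvd_prime_pow Nat.prime_two).mp (Dvd.intro _ hos)
    obtain ⟨o, -, ho⟩ : ∃ o, o ≤ d ∧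
        (MulAction.orbit ((G ⧸ frattini G) →* ℂˣ) χ).ncard = 2 ^ o :=
      (Nat.dvd_prime_pow Nat.prime_two).mp (Dvd.intro_left _ hos)
    have hso : s + o = d := by
      rw [hs, ho, ← pow_add] at hos
      exact Nat.pow_right_injective (le_refl 2) hos
    have hbound : 2 ^ s ≤ (2 ^ a) ^ 2 := by
      rw [← hs, ← ha]
      have hS := stab_le χ (dg χ) (hdg χ)
        (Finset.univ.filter (fun l : (G ⧸ frattini G) →* ℂˣ =>
          l ∈ MulAction.stabilizer ((G ⧸ frattini G) →* ℂˣ) χ)) (by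
          intro l hl
          rw [Finset.mem_filter, MulAction.mem_stabilizer_iff] at hl
          exact congrArg Subtype.val hl.2)
      have hc : Nat.card (MulAction.stabilizer ((G ⧸ frattini G) →* ℂˣ) χ)
          = (Finset.univ.filter (fun l : (G ⧸ frattini G) →* ℂˣ =>
          l ∈ MulAction.stabilizer ((G ⧸ frattini G) →* ℂˣ) χ)).card := by
        rw [Nat.card_eq_fintype_card]
        exact Fintype.card_of_subtype _ (fun l => by simp)
      rw [hc]
      exact hS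
    have hs2 : s ≤ 2 * a := by
      rw [← pow_mul] at hbound
      have := (Nat.pow_le_pow_iff_right (by norm_num : 1 < 2)).mp hbound
      omega
    rw [ho, ha, ← pow_add]
    exact pow_dvd_pow 2 (by omega)
  haveI : Fintype (Quotient (MulAction.orbitRel ((G ⧸ frattini G) →* ℂˣ) (Cfsg.IrrCharacter G))) :=
    Fintype.ofFinite _
  have hmain : ((2 ^ (k + 1) : ℕ) : ℤ) ∣ ((Nat.card {x : G // x ^ 2 = 1} : ℕ) : ℤ) := by
    rw [hcount, ← Finset.sum_fiberwise Finset.univ
      (Quotient.mk (MulAction.orbitRel ((G ⧸ frattini G) →* ℂˣ) (Cfsg.IrrCharacter G)))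
      (fun χ => (dg χ : ℤ) * νz χ)]
    apply Finset.dvd_sum
    intro ω _
    obtain ⟨χ₀, rfl⟩ := Quotient.exists_rep ω
    have hmem : ∀ χ : Cfsg.IrrCharacter G,
        Quotient.mk (MulAction.orbitRel ((G ⧸ frattini G) →* ℂˣ) (Cfsg.IrrCharacter G)) χ
          = Quotient.mk _ χ₀ ↔ χ ∈ MulAction.orbit ((G ⧸ frattini G) →* ℂˣ) χ₀ := by
      intro χ
      rw [Quotient.eq]
      exact MulAction.orbitRel_apply
    have h1 : ∀ χ ∈ Finset.univ.filter (fun χ : Cfsg.IrrCharacter G =>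
        Quotient.mk (MulAction.orbitRel ((G ⧸ frattini G) →* ℂˣ) (Cfsg.IrrCharacter G)) χ
          = Quotient.mk _ χ₀), (dg χ : ℤ) * νz χ = (dg χ₀ : ℤ) * νz χ₀ := by
      intro χ hχ
      rw [Finset.mem_filter, hmem] at hχ
      obtain ⟨l, rfl⟩ := hχ.2
      show ((dg (l • χ₀) : ℕ) : ℤ) * νz (l • χ₀) = _
      rw [hdg_inv, hν_inv]
    rw [Finset.sum_congr rfl h1, Finset.sum_const, nsmul_eq_mul]
    have h3 : (Finset.univ.filter (fun χ : Cfsg.IrrCharacter G =>
        Quotient.mk (MulAction.orbitRel ((G ⧸ frattini G) →* ℂˣ) (Cfsg.IrrCharacter G)) χ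
          = Quotient.mk _ χ₀)).card
        = (MulAction.orbit ((G ⧸ frattini G) →* ℂˣ) χ₀).ncard := by
      rw [← Set.ncard_coe_finset]
      congr 1
      ext χ
      rw [Finset.mem_coe, Finset.mem_filter, hmem]
      simp
    rw [h3, ← mul_assoc]
    apply Dvd.dvd.mul_right
    exact_mod_cast (hkey χ₀)
  exact Int.natCast_dvd_natCast.mp hmain


end Cfsg.Agent.S4058
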