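import Cfsg.Statements.S4065
import Mathlib

set_option autoImplicit false
open Cfsg

namespace Cfsg.Agent.S4065

theorem mat_eq {F : Type*} [Field F] (A B : Matrix (Fin 2) (Fin 2) F) (α β : F)
    (e00 : A 0 0 = α + β * B 0 0) (e01 : A 0 1 = β * B 0 1) (e10 : A 1 0 = β * B 1 0)
    (e11 : A 1 1 = α + β * B 1 1) : A = α • (1 : Matrix (Fin 2) (Fin 2) F) + β • B := by
  ext i j
  fin_cases i <;> fin_cases j <;> simp [e00, e01, e10, e11]

theorem commutant {F : Type*} [Field F] (A B : Matrix (Fin 2) (Fin 2) F)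
    (hB : ¬ (B 0 1 = 0 ∧ B 1 0 = 0 ∧ B 0 0 = B 1 1)) (hAB : A * B = B * A) :
    ∃ α β : F, A = α • (1 : Matrix (Fin 2) (Fin 2) F) + β • B := by
  have h00 := congrFun (congrFun hAB 0) 0
  have h01 := congrFun (congrFun hAB 0) 1
  have h10 := congrFun (congrFun hAB 1) 0
  simp only [Matrix.mul_apply, Fin.sum_univ_two] at h00 h01 h10
  by_cases hq : B 0 1 = 0
  · by_cases hr : B 1 0 = 0
    · have hps : B 0 0 - B 1 1 ≠ 0 := sub_ne_zero.2 (fun h => hB ⟨hq, hr, h⟩)
      obtain ⟨β, hβ⟩ : ∃ β : F, β * (B 0 0 - B 1 1) = A 0 0 - A 1 1 :=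
        ⟨(A 0 0 - A 1 1) / (B 0 0 - B 1 1), div_mul_cancel₀ _ hps⟩
      have hb0 : A 0 1 = 0 := by
        have h : A 0 1 * (B 0 0 - B 1 1) = 0 := by
          linear_combination (-1 : F) * h01 + (A 0 0 - A 1 1) * hq
        exact (mul_eq_zero.1 h).resolve_right hps
      have hc0 : A 1 0 = 0 := by
        have h : A 1 0 * (B 0 0 - B 1 1) = 0 := by
          linear_combination h10 + (A 0 0 - A 1 1) * hr
        exact (mul_eq_zero.1 h).resolve_right hps
      exact ⟨A 0 0 - β * B 0 0, β, mat_eq A B _ _ (by ring) (by rw [hb0, hq, mul_zero])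
        (by rw [hc0, hr, mul_zero]) (by linear_combination hβ)⟩
    · obtain ⟨β, hβ⟩ : ∃ β : F, β * B 1 0 = A 1 0 := ⟨A 1 0 / B 1 0, div_mul_cancel₀ _ hr⟩
      refine ⟨A 0 0 - β * B 0 0, β, mat_eq A B _ _ (by ring) ?_ hβ.symm ?_⟩
      · apply mul_right_cancel₀ hr
        linear_combination h00 - B 0 1 * hβ
      · apply mul_right_cancel₀ hr
        linear_combination h10 + (B 0 0 - B 1 1) * hβ
  · obtain ⟨β, hβ⟩ : ∃ β : F, β * B 0 1 = A 0 1 := ⟨A 0 1 / B 0 1, div_mul_cancel₀ _ hq⟩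
    refine ⟨A 0 0 - β * B 0 0, β, mat_eq A B _ _ (by ring) hβ.symm ?_ ?_⟩
    · apply mul_right_cancel₀ hq
      linear_combination (-1 : F) * h00 - B 1 0 * hβ
    · apply mul_right_cancel₀ hq
      linear_combination (-1 : F) * h01 + (B 0 0 - B 1 1) * hβ

theorem comm_trans_mat {F : Type*} [Field F] (A B C : Matrix (Fin 2) (Fin 2) F)
    (hB : ¬ (B 0 1 = 0 ∧ B 1 0 = 0 ∧ B 0 0 = B 1 1)) (hAB : A * B = B * A)
    (hBC : B * C = C * B) : A * C = C * A := by
  obtain ⟨α, β, hA⟩ := commutant A B hB hAB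
  rw [hA]
  simp [add_mul, mul_add, hBC]

theorem sq_one_char_two {F : Type*} [Field F] [CharP F 2] (r : F) (hr : r ^ 2 = 1) : r = 1 := by
  have h1 : (r - 1) * (r - 1) = 0 := by
    linear_combination hr + (1 - r) * (CharTwo.two_eq_zero : (2 : F) = 0)
  exact sub_eq_zero.1 (mul_self_eq_zero.1 h1)

theorem sl_comm_trans {F : Type*} [Field F] [CharP F 2]
    (A B C : Matrix.SpecialLinearGroup (Fin 2) F)
    (hB : B ≠ 1) (hAB : A * B = B * A) (hBC : B * C = C * B) : A * C = C * A := by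
  apply Subtype.ext
  rw [Matrix.SpecialLinearGroup.coe_mul, Matrix.SpecialLinearGroup.coe_mul]
  apply comm_trans_mat A.1 B.1 C.1
  · rintro ⟨h01, h10, h00⟩
    apply hB
    have hdet : B.1.det = 1 := B.2
    rw [Matrix.det_fin_two] at hdet
    have hl : (B.1 1 1) ^ 2 = 1 := by
      linear_combination hdet + (B.1 1 0) * h01 - (B.1 1 1) * h00
    have h11 : B.1 1 1 = 1 := sq_one_char_two _ hl
    have h00' : B.1 0 0 = 1 := by rw [h00, h11]
    apply Subtype.ext
    rw [Matrix.SpecialLinearGroup.coe_one]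
    ext i j
    fin_cases i <;> fin_cases j <;> simp [h01, h10, h00', h11]
  · have h := congrArg Subtype.val hAB
    rw [Matrix.SpecialLinearGroup.coe_mul, Matrix.SpecialLinearGroup.coe_mul] at h
    exact h
  · have h := congrArg Subtype.val hBC
    rw [Matrix.SpecialLinearGroup.coe_mul, Matrix.SpecialLinearGroup.coe_mul] at h
    exact h

theorem center_trivial {F : Type*} [Field F] [CharP F 2]
    (Z : Matrix.SpecialLinearGroup (Fin 2) F)
    (hZ : Z ∈ Subgroup.center (Matrix.SpecialLinearGroup (Fin 2) F)) : Z = 1 := by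
  rw [Matrix.SpecialLinearGroup.mem_center_iff] at hZ
  obtain ⟨r, hr, hZ⟩ := hZ
  rw [Fintype.card_fin] at hr
  have hr1 : r = 1 := sq_one_char_two r hr
  rw [hr1] at hZ
  apply Subtype.ext
  rw [← hZ]
  simp

theorem psl_comm_lift {F : Type*} [Field F] [CharP F 2]
    (X Y : Matrix.SpecialLinearGroup (Fin 2) F)
    (h : (QuotientGroup.mk X : Matrix.ProjectiveSpecialLinearGroup (Fin 2) F) * QuotientGroup.mk Y
      = QuotientGroup.mk Y * QuotientGroup.mk X) : X * Y = Y * X := by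
  have h1 : (QuotientGroup.mk (X * Y) : Matrix.ProjectiveSpecialLinearGroup (Fin 2) F)
      = QuotientGroup.mk (Y * X) := h
  rw [QuotientGroup.eq] at h1
  exact inv_mul_eq_one.1 (center_trivial _ h1)

theorem psl_comm_trans {F : Type*} [Field F] [CharP F 2]
    (a b c : Matrix.ProjectiveSpecialLinearGroup (Fin 2) F)
    (hb : b ≠ 1) (hab : a * b = b * a) (hbc : b * c = c * b) : a * c = c * a := by
  obtain ⟨A, rfl⟩ := QuotientGroup.mk_surjective a
  obtain ⟨B, rfl⟩ := QuotientGroup.mk_surjective b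
  obtain ⟨C, rfl⟩ := QuotientGroup.mk_surjective c
  have hB : B ≠ 1 := by
    rintro rfl
    exact hb rfl
  have h1 := psl_comm_lift A B hab
  have h2 := psl_comm_lift B C hbc
  have h3 := sl_comm_trans A B C hB h1 h2
  show (QuotientGroup.mk (A * C) : Matrix.ProjectiveSpecialLinearGroup (Fin 2) F)
    = QuotientGroup.mk (C * A)
  rw [h3]

/-- Let F be a finite field with 2ⁿ elements, n ≥ 2. In PSL₂(F) the centralizer of every element meets each of its conjugates by elements outside its normalizer trivially. -/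
theorem result (n : ℕ) (hn : 2 ≤ n)
    (x : Matrix.ProjectiveSpecialLinearGroup (Fin 2) (GaloisField 2 n)) :
    Cfsg.IsTISubset (Subgroup.centralizer ({x} : Set (Matrix.ProjectiveSpecialLinearGroup (Fin 2) (GaloisField 2 n))) :
      Set (Matrix.ProjectiveSpecialLinearGroup (Fin 2) (GaloisField 2 n))) := by
  haveI : Fact (Nat.Prime 2) := ⟨Nat.prime_two⟩
  intro g hg y hy hgy
  by_contra hy1
  apply hg
  rw [Subgroup.mem_normalizer_iff]
  have hmem : ∀ h, h ∈ Subgroup.centralizer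
      ({x} : Set (Matrix.ProjectiveSpecialLinearGroup (Fin 2) (GaloisField 2 n))) ↔
      x * h = h * x := by
    intro h
    rw [Subgroup.mem_centralizer_iff]
    constructor
    · intro hh; exact hh x rfl
    · intro hh b hb
      rw [Set.mem_singleton_iff] at hb
      rw [hb]; exact hh
  have hy' : x * y = y * x := (hmem y).1 hy
  have hgy' : x * (g * y * g⁻¹) = (g * y * g⁻¹) * x := (hmem _).1 hgy
  have hgy1 : g * y * g⁻¹ ≠ 1 := by
    intro h1
    apply hy1
    have e1 : y = g⁻¹ * (g * y * g⁻¹) * g := by group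
    rw [e1, h1]; group
  intro h
  rw [hmem, hmem]
  by_cases hx : x = 1
  · rw [hx]; simp
  constructor
  · intro hh
    have h1 : h * y = y * h := psl_comm_trans h x y hx hh.symm hy'
    have h2 : (g * h * g⁻¹) * (g * y * g⁻¹) = (g * y * g⁻¹) * (g * h * g⁻¹) := by
      calc (g * h * g⁻¹) * (g * y * g⁻¹) = g * (h * y) * g⁻¹ := by group
        _ = g * (y * h) * g⁻¹ := by rw [h1]
        _ = (g * y * g⁻¹) * (g * h * g⁻¹) := by group
    exact (psl_comm_trans (g * h * g⁻¹) (g * y * g⁻¹) x hgy1 h2 hgy'.symm).symm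
  · intro hh
    have h2 : (g * h * g⁻¹) * (g * y * g⁻¹) = (g * y * g⁻¹) * (g * h * g⁻¹) :=
      psl_comm_trans (g * h * g⁻¹) x (g * y * g⁻¹) hx hh.symm hgy'
    have h1 : h * y = y * h := by
      calc h * y = g⁻¹ * ((g * h * g⁻¹) * (g * y * g⁻¹)) * g := by group
        _ = g⁻¹ * ((g * y * g⁻¹) * (g * h * g⁻¹)) * g := by rw [h2]
        _ = y * h := by group
    exact (psl_comm_trans h y x hy1 h1 hy'.symm).symm

end Cfsg.Agent.S4065
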