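import Cfsg.Statements.S4066
import Cfsg.Agent.Lib.Helper6.PSub

set_option autoImplicit false
open Cfsg

namespace Cfsg.Agent.S4066

open scoped Pointwise in
/-- Let G be a finite group in which the centralizer of every element meets each of its conjugates by elements outside its normalizer trivially. Then any two distinct Sylow p-subgroups of G, for any prime p, intersect trivially. -/
theorem result {G : Type*} [Group G] [Finite G] (hTI : ∀ x : G, Cfsg.IsTISubset (Subgroup.centralizer ({x} : Set G) : Set G))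
    {p : ℕ} [Fact p.Prime] (P Q : Sylow p G) (hPQ : P ≠ Q) : (P : Subgroup G) ⊓ (Q : Subgroup G) = ⊥ := by
  by_contra hne
  rw [Subgroup.eq_bot_iff_forall] at hne
  push Not at hne
  obtain ⟨y, hy, hy1⟩ := hne
  have hyP : y ∈ (P : Subgroup G) := hy.1
  have hyQ : y ∈ (Q : Subgroup G) := hy.2
  have hntP : Nontrivial (P : Subgroup G) :=
    ⟨⟨⟨y, hyP⟩, 1, fun h => hy1 (congrArg Subtype.val h)⟩⟩
  have hcen := IsPGroup.center_nontrivial P.isPGroup'
  obtain ⟨⟨z', hz'c⟩, hz'1⟩ := exists_ne (1 : Subgroup.center (P : Subgroup G))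
  have hz1 : (z' : G) ≠ 1 := fun h => hz'1 (Subtype.ext (Subtype.ext h))
  have hPK : (P : Subgroup G) ≤ Subgroup.centralizer ({(z' : G)} : Set G) := by
    intro w hw
    rw [Subgroup.mem_centralizer_iff]
    intro h hh
    rw [Set.mem_singleton_iff] at hh
    rw [hh]
    rw [Subgroup.mem_center_iff] at hz'c
    have := hz'c ⟨w, hw⟩
    exact (congrArg Subtype.val this).symm
  obtain ⟨g, hg⟩ := MulAction.exists_smul_eq G P Q
  have hQmem : ∀ q : G, q ∈ (Q : Subgroup G) → g⁻¹ * q * g ∈ (P : Subgroup G) := by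
    intro q hq
    rw [← hg, Sylow.smul_def, Sylow.pointwise_smul_def] at hq
    have hq' : q ∈ MulAut.conj g • (P : Subgroup G) := hq
    rw [Subgroup.mem_pointwise_smul_iff_inv_smul_mem] at hq'
    simpa [MulAut.smul_def] using hq'
  have hgN : g ∈ Subgroup.normalizer
      ((Subgroup.centralizer ({(z' : G)} : Set G) : Subgroup G) : Set G) := by
    by_contra hgN
    have h1 := hTI (z' : G) g hgN (g⁻¹ * y * g) (hPK (hQmem y hyQ))
      (by
        have e : g * (g⁻¹ * y * g) * g⁻¹ = y := by group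
        rw [e]; exact hPK hyP)
    apply hy1
    have e : y = g * (g⁻¹ * y * g) * g⁻¹ := by group
    rw [e, h1]; group
  have hQK : (Q : Subgroup G) ≤ Subgroup.centralizer ({(z' : G)} : Set G) := by
    intro q hq
    have h1 := hPK (hQmem q hq)
    have h2 := (Subgroup.mem_normalizer_iff.mp hgN (g⁻¹ * q * g)).mp h1
    have e : g * (g⁻¹ * q * g) * g⁻¹ = q := by group
    rw [e] at h2
    exact h2
  have star : ∀ w ∈ Subgroup.centralizer ({(z' : G)} : Set G),
      ∀ k ∈ Subgroup.centralizer ({(z' : G)} : Set G),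
        (k * w * k⁻¹) * w = w * (k * w * k⁻¹) := by
    intro w hw k hk
    have hzw : (z' : G) ∈ Subgroup.centralizer ({w} : Set G) := by
      rw [Subgroup.mem_centralizer_iff]
      intro h hh
      rw [Set.mem_singleton_iff] at hh
      rw [hh]
      rw [Subgroup.mem_centralizer_iff] at hw
      exact (hw _ rfl).symm
    have hkN : k ∈ Subgroup.normalizer
        ((Subgroup.centralizer ({w} : Set G) : Subgroup G) : Set G) := by
      by_contra hkN
      have hkz : k * (z' : G) * k⁻¹ = z' := by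
        rw [Subgroup.mem_centralizer_iff] at hk
        have := hk _ rfl
        rw [← this]; group
      exact hz1 (hTI w k hkN _ hzw (by rw [hkz]; exact hzw))
    have hww : w ∈ Subgroup.centralizer ({w} : Set G) := by
      rw [Subgroup.mem_centralizer_iff]
      intro h hh
      rw [Set.mem_singleton_iff] at hh
      rw [hh]
    have h3 := (Subgroup.mem_normalizer_iff.mp hkN w).mp hww
    rw [Subgroup.mem_centralizer_iff] at h3
    exact (h3 w rfl).symm
  have hPQle : (P : Subgroup G) ≤ (Q : Subgroup G) := by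
    intro x hx
    have hxK : x ∈ Subgroup.centralizer ({(z' : G)} : Set G) := hPK hx
    have hcomm : ∀ a ∈ {v : G | ∃ k ∈ Subgroup.centralizer ({(z' : G)} : Set G), v = k * x * k⁻¹},
        ∀ b ∈ {v : G | ∃ k ∈ Subgroup.centralizer ({(z' : G)} : Set G), v = k * x * k⁻¹},
          a * b = b * a := by
      rintro _ ⟨k, hk, rfl⟩ _ ⟨k', hk', rfl⟩
      have hw : k * x * k⁻¹ ∈ Subgroup.centralizer ({(z' : G)} : Set G) :=
        Subgroup.mul_mem _ (Subgroup.mul_mem _ hk hxK) (Subgroup.inv_mem _ hk)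
      have h4 := star (k * x * k⁻¹) hw (k' * k⁻¹) (Subgroup.mul_mem _ hk' (Subgroup.inv_mem _ hk))
      have e : k' * k⁻¹ * (k * x * k⁻¹) * (k' * k⁻¹)⁻¹ = k' * x * k'⁻¹ := by group
      rw [e] at h4
      exact h4.symm
    have hpS : ∀ a ∈ {v : G | ∃ k ∈ Subgroup.centralizer ({(z' : G)} : Set G), v = k * x * k⁻¹},
        ∃ n : ℕ, a ^ (p ^ n) = 1 := by
      rintro _ ⟨k, hk, rfl⟩
      obtain ⟨n, hn⟩ := (P.isPGroup') ⟨x, hx⟩
      refine ⟨n, ?_⟩
      have hx' : x ^ p ^ n = 1 := by simpa using congrArg Subtype.val hn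
      rw [conj_pow, hx']; group
    have hNp := Cfsg.Agent.Lib.Helper6.isPGroup_closure_of_comm (p := p) _ hcomm hpS
    have hNQ := Cfsg.Agent.Lib.Helper6.le_sylow_of_normalizes Q _ hNp
      (hQK.trans (Cfsg.Agent.Lib.Helper6.conjClosure_normalized _ x))
    apply hNQ
    apply Subgroup.subset_closure
    exact ⟨1, Subgroup.one_mem _, by simp⟩
  exact hPQ (Sylow.ext (P.is_maximal' Q.isPGroup' hPQle).symm)

end Cfsg.Agent.S4066
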