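import Cfsg.Statements.S4074
import Mathlib

set_option autoImplicit false
open Cfsg

namespace Cfsg.Agent.S4074

/-- For n > 2, every non-abelian subgroup of the dihedral group of order 2n is self-normalizing if and only if n = 4 or n is odd. -/
theorem result (n : ℕ) (hn : 2 < n) :
    (∀ H : Subgroup (DihedralGroup n), ¬ IsMulCommutative H → Subgroup.normalizer (H : Set (DihedralGroup n)) = H) ↔
    (n = 4 ∨ Odd n) := by
  classical
  constructor
  · intro hall
    by_contra hcon
    push Not at hcon
    obtain ⟨hn4, hodd⟩ := hcon
    have heven : Even n := Nat.not_odd_iff_even.mp hodd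
    have h2 : 2 ∣ n := heven.two_dvd
    have hn6 : 6 ≤ n := by
      obtain ⟨k, hk⟩ := h2
      omega
    let c : ZMod n →+* ZMod 2 := ZMod.castHom h2 (ZMod 2)
    let φ : DihedralGroup n →* Multiplicative (ZMod 2) :=
      { toFun := fun g => match g with
          | DihedralGroup.r i => Multiplicative.ofAdd (c i)
          | DihedralGroup.sr i => Multiplicative.ofAdd (c i)
        map_one' := by
          show Multiplicative.ofAdd (c 0) = 1
          rw [map_zero]; rfl
        map_mul' := by
          intro a b
          cases a with
          | r i =>
            cases b with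
            | r j =>
              show Multiplicative.ofAdd (c (i + j)) =
                Multiplicative.ofAdd (c i) * Multiplicative.ofAdd (c j)
              rw [map_add]; rfl
            | sr j =>
              show Multiplicative.ofAdd (c (j - i)) =
                Multiplicative.ofAdd (c i) * Multiplicative.ofAdd (c j)
              rw [map_sub, CharTwo.sub_eq_add, add_comm]; rfl
          | sr i =>
            cases b with
            | r j =>
              show Multiplicative.ofAdd (c (i + j)) =
                Multiplicative.ofAdd (c i) * Multiplicative.ofAdd (c j)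
              rw [map_add]; rfl
            | sr j =>
              show Multiplicative.ofAdd (c (j - i)) =
                Multiplicative.ofAdd (c i) * Multiplicative.ofAdd (c j)
              rw [map_sub, CharTwo.sub_eq_add, add_comm]; rfl }
    have hr1 : DihedralGroup.r (1 : ZMod n) ∉ φ.ker := by
      intro h
      have h' : Multiplicative.ofAdd (c 1) = Multiplicative.ofAdd (0 : ZMod 2) := h
      rw [map_one] at h'
      have h'' : (1 : ZMod 2) = 0 := Multiplicative.ofAdd.injective h'
      exact absurd h'' (by decide)
    have hker2 : DihedralGroup.r (2 : ZMod n) ∈ φ.ker := by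
      show Multiplicative.ofAdd (c 2) = Multiplicative.ofAdd (0 : ZMod 2)
      have : c 2 = 0 := by rw [map_ofNat]; decide
      rw [this]
    have hker0 : DihedralGroup.sr (0 : ZMod n) ∈ φ.ker := by
      show Multiplicative.ofAdd (c 0) = Multiplicative.ofAdd (0 : ZMod 2)
      rw [map_zero]
    have hnc : ¬ IsMulCommutative φ.ker := by
      intro hc
      haveI := hc
      have h1 : DihedralGroup.r (2 : ZMod n) * DihedralGroup.sr (0 : ZMod n) =
          DihedralGroup.sr (0 : ZMod n) * DihedralGroup.r (2 : ZMod n) :=
        congrArg Subtype.val (mul_comm' (⟨_, hker2⟩ : φ.ker) ⟨_, hker0⟩)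
      rw [DihedralGroup.r_mul_sr, DihedralGroup.sr_mul_r] at h1
      have h2' : (0 : ZMod n) - 2 = 0 + 2 := DihedralGroup.sr.inj h1
      have h4 : ((4 : ℕ) : ZMod n) = 0 := by
        push_cast
        linear_combination -h2'
      have h5 := (ZMod.natCast_eq_zero_iff 4 n).mp h4
      have h6 := Nat.le_of_dvd (by norm_num) h5
      omega
    have h3 := hall φ.ker hnc
    rw [Subgroup.normalizer_eq_top] at h3
    exact hr1 (h3 ▸ Subgroup.mem_top _)
  · rintro (rfl | hodd)
    · intro H hH
      by_cases hT : H = ⊤
      · rw [hT]; exact le_antisymm le_top Subgroup.le_normalizer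
      · exfalso
        apply hH
        have hcard : Nat.card (DihedralGroup 4) = 8 := by rw [DihedralGroup.nat_card]
        have h8 : Nat.card H ∣ 8 := hcard ▸ Subgroup.card_subgroup_dvd_card H
        have hne : Nat.card H ≠ 8 := by
          intro h
          exact hT ((Subgroup.card_eq_iff_eq_top H).mp (h.trans hcard.symm))
        have hle : Nat.card H ≤ 8 := Nat.le_of_dvd (by norm_num) h8
        have hcomm : ∀ a b : H, a * b = b * a := by
          obtain ⟨c, hc⟩ : ∃ c, c = Nat.card H := ⟨_, rfl⟩
          rw [← hc] at h8 hne hle
          have hc3 : c = 1 ∨ c = 2 ∨ c = 4 := by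
            interval_cases c <;> first | omega | (exfalso; revert h8; decide)
          rcases hc3 with h | h | h
          · rw [h] at hc
            haveI : Subsingleton H := (Nat.card_eq_one_iff_unique.mp hc.symm).1
            intro a b; rw [Subsingleton.elim a b]
          · rw [h] at hc
            have hsq : ∀ a : H, a * a = 1 := fun a => by
              have := pow_card_eq_one' (x := a)
              rw [← hc, pow_two] at this; exact this
            intro a b
            have h1 := hsq a
            have h2 := hsq b
            have h3 := hsq (a * b)
            calc a * b = a * (a * b * (a * b)) * b := by rw [h3, mul_one]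
              _ = (a * a) * b * a * (b * b) := by group
              _ = b * a := by rw [h1, h2]; group
          · rw [h] at hc
            haveI : Fact (Nat.Prime 2) := ⟨Nat.prime_two⟩
            exact IsPGroup.commutative_of_card_eq_prime_sq (p := 2) hc.symm
        exact ⟨⟨hcomm⟩⟩
    · intro H hH
      apply le_antisymm _ Subgroup.le_normalizer
      intro g hg
      obtain ⟨m, hm⟩ := hodd
      have h0 : (2 * (m : ZMod n) + 1) = 0 := by
        have : ((2 * m + 1 : ℕ) : ZMod n) = 0 := by rw [← hm]; exact ZMod.natCast_self n
        push_cast at this; exact this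
      obtain ⟨i, hi⟩ : ∃ i : ZMod n, DihedralGroup.sr i ∈ H := by
        by_contra hno
        push Not at hno
        apply hH
        refine ⟨⟨fun a b => Subtype.ext ?_⟩⟩
        obtain ⟨a, ha⟩ := a
        obtain ⟨b, hb⟩ := b
        cases a with
        | sr i => exact absurd ha (hno i)
        | r i =>
          cases b with
          | sr j => exact absurd hb (hno j)
          | r j =>
            show DihedralGroup.r i * DihedralGroup.r j = DihedralGroup.r j * DihedralGroup.r i
            rw [DihedralGroup.r_mul_r, DihedralGroup.r_mul_r, add_comm]
      have hpow : ∀ c : ZMod n, DihedralGroup.r c ∈ H →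
          ∀ k : ℕ, DihedralGroup.r ((k : ZMod n) * c) ∈ H := by
        intro c hc k
        induction k with
        | zero =>
          rw [Nat.cast_zero, zero_mul, DihedralGroup.r_zero]; exact H.one_mem
        | succ k ih =>
          have := H.mul_mem ih hc
          rw [DihedralGroup.r_mul_r] at this
          rw [Nat.cast_succ, add_mul, one_mul]; exact this
      have hg' := Subgroup.mem_normalizer_iff.mp hg
      cases g with
      | r j =>
        have h1 : DihedralGroup.r j * DihedralGroup.sr i * (DihedralGroup.r j)⁻¹ ∈ H :=
          (hg' _).mp hi
        rw [DihedralGroup.inv_r, DihedralGroup.r_mul_sr, DihedralGroup.sr_mul_r] at h1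
        have h2 := H.mul_mem hi h1
        rw [DihedralGroup.sr_mul_sr] at h2
        have h3 := hpow _ h2 m
        have h4 : (m : ZMod n) * (i - j + -j - i) = j := by linear_combination (-j) * h0
        rw [h4] at h3; exact h3
      | sr j =>
        have h1 : DihedralGroup.sr j * DihedralGroup.sr i * (DihedralGroup.sr j)⁻¹ ∈ H :=
          (hg' _).mp hi
        rw [DihedralGroup.inv_sr, DihedralGroup.sr_mul_sr, DihedralGroup.r_mul_sr] at h1
        have h2 := H.mul_mem hi h1
        rw [DihedralGroup.sr_mul_sr] at h2
        have h3 := hpow _ h2 m
        have h4 : (m : ZMod n) * (j - (i - j) - i) = i - j := by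
          linear_combination (j - i) * h0
        rw [h4] at h3
        have h5 := H.inv_mem h3
        rw [DihedralGroup.inv_r] at h5
        have h6 := H.mul_mem hi h5
        rw [DihedralGroup.sr_mul_r] at h6
        have h7 : i + -(i - j) = j := by ring
        rw [h7] at h6; exact h6

end Cfsg.Agent.S4074
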