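import Cfsg.Statements.S4075

set_option autoImplicit false
open Cfsg

namespace Cfsg.Agent.S4075

theorem result {G : Type*} [Group G] [Finite G]
    [Group.IsNilpotent G] :
    (∀ H : Subgroup G, ¬ IsMulCommutative H → Subgroup.normalizer (H : Set G) = H) ↔
    (IsMulCommutative G ∨ (IsPrimePow (Nat.card G) ∧ ¬ IsMulCommutative G ∧ ∀ H : Subgroup G, H ≠ ⊤ → IsMulCommutative H)) := by
  constructor
  · intro hself
    by_cases hG : IsMulCommutative G
    · left; exact hG
    · right
      have hprop : ∀ H : Subgroup G, H ≠ ⊤ → IsMulCommutative H := by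
        intro H hH
        by_contra hnc
        have h1 := hself H hnc
        have h2 := Group.normalizerCondition_of_isNilpotent (G := G) H (lt_top_iff_ne_top.mpr hH)
        rw [h1] at h2
        exact lt_irrefl _ h2
      refine ⟨?_, hG, hprop⟩
      obtain ⟨e⟩ := ((Group.isNilpotent_of_finite_tfae (G := G)).out 0 4).mp (inferInstance : Group.IsNilpotent G)
      by_contra hpp
      apply hG
      have hsyl : ∀ (p : (Nat.card G).primeFactors) (P : Sylow p G),
          IsMulCommutative (P : Subgroup G) := by
        intro p P
        apply hprop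
        intro htop
        apply hpp
        haveI : Fact (p : ℕ).Prime := ⟨Nat.prime_of_mem_primeFactors p.2⟩
        obtain ⟨k, hk⟩ := IsPGroup.iff_card.mp P.isPGroup'
        rw [htop, Subgroup.card_top] at hk
        have hk0 : 0 < k := by
          rcases Nat.eq_zero_or_pos k with h | h
          · exfalso; rw [h, pow_zero] at hk
            have hsub : Subsingleton G := (Nat.card_eq_one_iff_unique.mp hk).1
            exact hG ⟨⟨fun a b => by rw [Subsingleton.elim a b]⟩⟩
          · exact h
        exact ⟨p, k, (Nat.prime_of_mem_primeFactors p.2).prime, hk0, hk.symm⟩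
      refine ⟨⟨fun a b => ?_⟩⟩
      have h1 : e.symm a * e.symm b = e.symm b * e.symm a := by
        funext p P
        exact (hsyl p P).is_comm.comm _ _
      have h2 := congrArg e h1
      simpa using h2
  · rintro (hG | ⟨hpp, hG, hprop⟩) H hH
    · exact absurd ⟨⟨fun a b => Subtype.ext (hG.is_comm.comm (a : G) (b : G))⟩⟩ hH
    · have hH' : H = ⊤ := by
        by_contra h; exact hH (hprop H h)
      rw [hH']
      exact Subgroup.normalizer_eq_top_iff.mpr inferInstance

end Cfsg.Agent.S4075
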