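import Cfsg.Statements.S4084
import Mathlib

set_option autoImplicit false
open Cfsg

namespace Cfsg.Agent.S4084

theorem mem_dc {K : Type*} [Group K] (x y : K) :
    y ∈ Subgroup.centralizer (Subgroup.centralizer ({x} : Set K) : Set K) ↔
      ∀ z : K, Commute x z → Commute z y := by
  rw [Subgroup.mem_centralizer_iff]
  constructor
  · intro h z hz
    apply h
    rw [SetLike.mem_coe, Subgroup.mem_centralizer_iff]
    intro w hw
    rw [Set.mem_singleton_iff] at hw
    subst hw
    exact hz
  · intro h z hz
    apply h
    rw [SetLike.mem_coe, Subgroup.mem_centralizer_iff] at hz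
    exact hz x rfl

theorem exists_of_dvd {K : Type*} [Group K] [Finite K] {p q : ℕ} (hp : p.Prime) (hq : q.Prime)
    (hpq : p ≠ q) (x : K)
    (hdvd : p * q ∣ Nat.card (Subgroup.centralizer (Subgroup.centralizer ({x} : Set K) : Set K))) :
    ∃ h : K, orderOf h = p * q := by
  have hp' : Fact p.Prime := ⟨hp⟩
  have hq' : Fact q.Prime := ⟨hq⟩
  obtain ⟨a, ha⟩ := exists_prime_orderOf_dvd_card' p ((Dvd.intro _ rfl).trans hdvd)
  obtain ⟨b, hb⟩ := exists_prime_orderOf_dvd_card' q ((Dvd.intro_left _ rfl).trans hdvd)
  have ha' : orderOf (a : K) = p := by rw [Subgroup.orderOf_coe]; exact ha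
  have hb' : orderOf (b : K) = q := by rw [Subgroup.orderOf_coe]; exact hb
  have hcomm : Commute (a : K) (b : K) := by
    have h1 := (mem_dc x (b : K)).mp b.2
    have h2 := (mem_dc x (a : K)).mp a.2
    apply h1
    have h3 := h2 x (Commute.refl x)
    exact h3
  refine ⟨(a : K) * b, ?_⟩
  rw [hcomm.orderOf_mul_eq_mul_orderOf_of_coprime, ha', hb']
  rw [ha', hb']
  exact (Nat.coprime_primes hp hq).mpr hpq

theorem one_dir {G H : Type*} [Group G] [Finite G] [Group H] [Finite H] (e : G ≃ H)
    (he : ∀ x y : G, Commute x y ↔ Commute (e x) (e y))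
    {p q : ℕ} (hp : p.Prime) (hq : q.Prime) (hpq : p ≠ q) :
    (∃ g : G, orderOf g = p * q) → (∃ h : H, orderOf h = p * q) := by
  rintro ⟨g, hg⟩
  apply exists_of_dvd hp hq hpq (e g)
  have hcard : Nat.card (Subgroup.centralizer (Subgroup.centralizer ({g} : Set G) : Set G))
      = Nat.card (Subgroup.centralizer (Subgroup.centralizer ({e g} : Set H) : Set H)) := by
    apply Nat.card_congr
    refine e.subtypeEquiv ?_
    intro y
    rw [mem_dc, mem_dc]
    constructor
    · intro h w hw
      have hw' : Commute (e g) (e (e.symm w)) := by simpa using hw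
      have h1 := h (e.symm w) ((he _ _).mpr hw')
      have h2 := (he _ _).mp h1
      simpa using h2
    · intro h z hz
      exact (he _ _).mpr (h (e z) ((he _ _).mp hz))
  rw [← hcard, ← hg]
  have hmem : g ∈ Subgroup.centralizer (Subgroup.centralizer ({g} : Set G) : Set G) := by
    rw [mem_dc]
    intro z hz
    exact hz.symm
  have := orderOf_dvd_natCard (⟨g, hmem⟩ : Subgroup.centralizer (Subgroup.centralizer ({g} : Set G) : Set G))
  rwa [Subgroup.orderOf_mk] at this

/-- Let G and H be finite groups whose commuting graphs are isomorphic: there is a bijection e : G → H with x, y commuting exactly when e(x), e(y) commute. Then G and H have the same prime graph: for distinct primes p, q, G has an element of order pq if and only if H does (and #G = #H, so the prime divisors agree). -/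
theorem result {G H : Type*} [Group G] [Finite G] [Group H] [Finite H] (e : G ≃ H)
    (he : ∀ x y : G, Commute x y ↔ Commute (e x) (e y))
    {p q : ℕ} (hp : p.Prime) (hq : q.Prime) (hpq : p ≠ q) :
    (∃ g : G, orderOf g = p * q) ↔ (∃ h : H, orderOf h = p * q) := by
  refine ⟨one_dir e he hp hq hpq, one_dir e.symm ?_ hp hq hpq⟩
  intro x y
  rw [he]
  simp

end Cfsg.Agent.S4084
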