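import Cfsg.Statements.S4086
import Mathlib

set_option autoImplicit false
open Cfsg

namespace Cfsg.Agent.S4086

theorem cyc_mem {C : Type*} [Group C] [Finite C] [IsCyclic C] (x y : C)
    (h : orderOf x ∣ orderOf y) : x ∈ Subgroup.zpowers y := by
  classical
  have : Fintype C := Fintype.ofFinite C
  have hn : 0 < orderOf y := orderOf_pos y
  have hS := IsCyclic.card_pow_eq_one_le (α := C) hn
  have hT : ((Subgroup.zpowers y : Set C)).toFinset.card = orderOf y := by
    rw [Set.toFinset_card, ← Nat.card_eq_fintype_card]
    exact Nat.card_zpowers y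
  have hsub : ((Subgroup.zpowers y : Set C)).toFinset ⊆
      Finset.filter (fun a : C => a ^ orderOf y = 1) Finset.univ := by
    intro z hz
    rw [Set.mem_toFinset] at hz
    obtain ⟨i, rfl⟩ := hz
    simp only [Finset.mem_filter, Finset.mem_univ, true_and]
    rw [← zpow_natCast, ← zpow_mul, mul_comm, zpow_mul, zpow_natCast, pow_orderOf_eq_one, one_zpow]
  have heq := Finset.eq_of_subset_of_card_le hsub (by rw [hT]; exact hS)
  have hx : x ∈ Finset.filter (fun a : C => a ^ orderOf y = 1) Finset.univ := by
    simp only [Finset.mem_filter, Finset.mem_univ, true_and]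
    obtain ⟨d, hd⟩ := h
    rw [hd, pow_mul, pow_orderOf_eq_one, one_pow]
  rw [← heq, Set.mem_toFinset] at hx
  exact hx

/-- For a finite group G the following are equivalent: every non-identity element has prime-power order; whenever two elements generate a cyclic subgroup, one of them is a power of the other (the enhanced power graph of G coincides with its power graph). -/
theorem result {G : Type*} [Group G] [Finite G] :
    (∀ g : G, g ≠ 1 → IsPrimePow (orderOf g)) ↔
    (∀ x y : G, IsCyclic ↥(Subgroup.closure ({x, y} : Set G)) → (x ∈ Subgroup.zpowers y ∨ y ∈ Subgroup.zpowers x)) := by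
  constructor
  · intro h x y hC
    obtain ⟨c, hc⟩ := hC.exists_generator
    have hxC : x ∈ Subgroup.closure ({x, y} : Set G) := Subgroup.subset_closure (by simp)
    have hyC : y ∈ Subgroup.closure ({x, y} : Set G) := Subgroup.subset_closure (by simp)
    have key : orderOf (⟨x, hxC⟩ : Subgroup.closure ({x, y} : Set G)) ∣ orderOf (⟨y, hyC⟩ : Subgroup.closure ({x, y} : Set G))
        ∨ orderOf (⟨y, hyC⟩ : Subgroup.closure ({x, y} : Set G)) ∣ orderOf (⟨x, hxC⟩ : Subgroup.closure ({x, y} : Set G)) := by
      by_cases hc1 : (c : G) = 1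
      · left
        have hx1 : (⟨x, hxC⟩ : Subgroup.closure ({x, y} : Set G)) = 1 := by
          have hc1' : c = 1 := Subtype.ext hc1
          obtain ⟨i, hi⟩ := hc ⟨x, hxC⟩
          have hi' : (⟨x, hxC⟩ : Subgroup.closure ({x, y} : Set G)) = c ^ i := hi.symm
          rw [hi', hc1', one_zpow]
        rw [hx1, orderOf_one]
        exact one_dvd _
      · have hpp := h (c : G) hc1
        rw [Subgroup.orderOf_coe, isPrimePow_nat_iff] at hpp
        obtain ⟨p, k, hp, hk, hpk⟩ := hpp
        have hcard : orderOf c = Nat.card (Subgroup.closure ({x, y} : Set G)) :=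
          orderOf_eq_card_of_forall_mem_zpowers hc
        have hxd : orderOf (⟨x, hxC⟩ : Subgroup.closure ({x, y} : Set G)) ∣ p ^ k := by
          rw [hpk, hcard]; exact orderOf_dvd_natCard _
        have hyd : orderOf (⟨y, hyC⟩ : Subgroup.closure ({x, y} : Set G)) ∣ p ^ k := by
          rw [hpk, hcard]; exact orderOf_dvd_natCard _
        obtain ⟨a, ha, hxa⟩ := (Nat.dvd_prime_pow hp).mp hxd
        obtain ⟨b, hb, hyb⟩ := (Nat.dvd_prime_pow hp).mp hyd
        rw [hxa, hyb]
        rcases Nat.le_total a b with hab | hab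
        · left; exact pow_dvd_pow p hab
        · right; exact pow_dvd_pow p hab
    rcases key with hk | hk
    · left
      have := cyc_mem _ _ hk
      obtain ⟨i, hi⟩ := this
      refine ⟨i, ?_⟩
      have := congrArg Subtype.val hi
      simpa using this
    · right
      have := cyc_mem _ _ hk
      obtain ⟨i, hi⟩ := this
      refine ⟨i, ?_⟩
      have := congrArg Subtype.val hi
      simpa using this
  · intro h g hg
    by_contra hnpp
    have hn0 : orderOf g ≠ 0 := (orderOf_pos g).ne'
    have hn1 : orderOf g ≠ 1 := by rw [Ne, orderOf_eq_one_iff]; exact hg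
    set n := orderOf g with hn
    set p := n.minFac with hpdef
    have hp : p.Prime := Nat.minFac_prime hn1
    have hpn : p ∣ n := Nat.minFac_dvd n
    set a := p ^ n.factorization p with ha
    set b := n / p ^ n.factorization p with hb
    have hab : a * b = n := Nat.ordProj_mul_ordCompl_eq_self n p
    have hcop : Nat.Coprime a b := Nat.Coprime.pow_left _ (Nat.coprime_ordCompl hp hn0)
    have hv : n.factorization p ≠ 0 := by
      intro h0
      have := (hp.dvd_iff_one_le_factorization hn0).mp hpn
      omega
    have ha1 : a ≠ 1 := by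
      intro h1
      have : 1 < p ^ n.factorization p := Nat.one_lt_pow hv hp.one_lt
      omega
    have hb1 : b ≠ 1 := by
      intro h1
      apply hnpp
      rw [isPrimePow_nat_iff]
      have hab' : a = n := by rw [← hab, h1, mul_one]
      exact ⟨p, n.factorization p, hp, Nat.pos_of_ne_zero hv, hab'⟩
    have ha0 : a ≠ 0 := by
      intro h0; rw [h0, zero_mul] at hab; exact hn0 hab.symm
    have hb0 : b ≠ 0 := by
      intro h0; rw [h0, mul_zero] at hab; exact hn0 hab.symm
    have hox : orderOf (g ^ a) = b := by
      rw [orderOf_pow_of_dvd ha0 (Dvd.intro _ hab), ← hn, ← hab]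
      exact Nat.mul_div_cancel_left _ (Nat.pos_of_ne_zero ha0)
    have hoy : orderOf (g ^ b) = a := by
      rw [orderOf_pow_of_dvd hb0 (Dvd.intro_left _ hab), ← hn, ← hab]
      exact Nat.mul_div_cancel _ (Nat.pos_of_ne_zero hb0)
    have hle : Subgroup.closure ({g ^ a, g ^ b} : Set G) ≤ Subgroup.zpowers g := by
      rw [Subgroup.closure_le]
      rintro z (rfl | rfl)
      · exact Subgroup.pow_mem _ (Subgroup.mem_zpowers g) _
      · exact Subgroup.pow_mem _ (Subgroup.mem_zpowers g) _
    have hcyc : IsCyclic ↥(Subgroup.closure ({g ^ a, g ^ b} : Set G)) := Subgroup.isCyclic_of_le hle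
    rcases h (g ^ a) (g ^ b) hcyc with h1 | h1
    · have h2 := orderOf_dvd_of_mem_zpowers h1
      rw [hox, hoy] at h2
      have h3 : b ∣ Nat.gcd a b := Nat.dvd_gcd h2 (dvd_refl b)
      rw [hcop] at h3
      exact hb1 (Nat.dvd_one.mp h3)
    · have h2 := orderOf_dvd_of_mem_zpowers h1
      rw [hox, hoy] at h2
      have h3 : a ∣ Nat.gcd a b := Nat.dvd_gcd (dvd_refl a) h2
      rw [hcop] at h3
      exact ha1 (Nat.dvd_one.mp h3)

end Cfsg.Agent.S4086
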