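import Cfsg.Statements.S4092
import Cfsg.Agent.Lib.Helper6.NormGrow
import Cfsg.Agent.Lib.Helper6.CycSylow

set_option autoImplicit false
open Cfsg

namespace Cfsg.Agent.S4092

open Cfsg.Agent.Lib.Helper6

/-- Let G be a finite group, p a prime and P a Sylow p-subgroup of G that is not normal in G. Then G has at least p·#P elements of p-power order (the identity included). -/
theorem result {G : Type*} [Group G] [Finite G] (p : ℕ) [Fact p.Prime]
    (P : Sylow p G) (hP : ¬ (P : Subgroup G).Normal) :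
    p * Nat.card (P : Subgroup G) ≤ Nat.card {g : G // ∃ k : ℕ, orderOf g = p ^ k} := by
  classical
  have hp : p.Prime := Fact.out
  have : Fintype G := Fintype.ofFinite G
  have hex : ∃ Q : Sylow p G, Q ≠ P := by
    by_contra hcon
    push Not at hcon
    apply hP
    constructor
    intro n hn g
    have h1 : g • P = P := hcon (g • P)
    have h2 : g * n * g⁻¹ ∈ ((g • P : Sylow p G) : Subgroup G) := by
      rw [sylow_smul_mem_iff]
      have : g⁻¹ * (g * n * g⁻¹) * g = n := by group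
      rw [this]; exact hn
    rwa [h1] at h2
  obtain ⟨Q₀, hQ₀⟩ := hex
  have hnonempty : Nonempty {q : Sylow p G × Sylow p G // q.1 ≠ q.2} := ⟨⟨(Q₀, P), hQ₀⟩⟩
  obtain ⟨⟨⟨P₁, P₂⟩, hne⟩, hmax⟩ := Finite.exists_max
    (fun q : {q : Sylow p G × Sylow p G // q.1 ≠ q.2} =>
      Nat.card ((q.1.1 : Subgroup G) ⊓ (q.1.2 : Subgroup G) : Subgroup G))
  have hne' : P₁ ≠ P₂ := hne
  have hmax' : ∀ S T : Sylow p G, S ≠ T →
      Nat.card ((S : Subgroup G) ⊓ (T : Subgroup G) : Subgroup G)
        ≤ Nat.card ((P₁ : Subgroup G) ⊓ (P₂ : Subgroup G) : Subgroup G) :=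
    fun S T h => hmax ⟨(S, T), h⟩
  have hcardS : ∀ S : Sylow p G, Nat.card (S : Subgroup G) = Nat.card (P : Subgroup G) :=
    fun S => by rw [S.card_eq_multiplicity, P.card_eq_multiplicity]
  have hDlt : (P₁ : Subgroup G) ⊓ (P₂ : Subgroup G) < (P₁ : Subgroup G) := by
    refine lt_of_le_of_ne inf_le_left ?_
    intro h
    apply hne'
    have hle : (P₁ : Subgroup G) ≤ (P₂ : Subgroup G) := by rw [← h]; exact inf_le_right
    have := Subgroup.eq_of_le_of_card_ge hle (by rw [hcardS P₁, hcardS P₂])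
    exact Sylow.ext this
  obtain ⟨x, hxP₁, hxN, hxD⟩ := exists_mem_normalizer_not_mem P₁.isPGroup' hDlt
  obtain ⟨m, hxm⟩ := orderOf_mem_sylow P₁ hxP₁
  have hDle : ∀ i : ℕ, (P₁ : Subgroup G) ⊓ (P₂ : Subgroup G)
      ≤ ((x ^ i • P₂ : Sylow p G) : Subgroup G) := by
    intro i d hd
    rw [sylow_smul_mem_iff]
    have hxi : (x ^ i)⁻¹ ∈ Subgroup.normalizer
        (((P₁ : Subgroup G) ⊓ (P₂ : Subgroup G) : Subgroup G) : Set G) :=
      inv_mem (pow_mem hxN i)
    have h1 := (Subgroup.mem_normalizer_iff.mp hxi d).mp hd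
    rw [inv_inv] at h1
    exact h1.2
  have hneP₁ : ∀ i : ℕ, (x ^ i • P₂ : Sylow p G) ≠ P₁ := by
    intro i h
    apply hne'
    have h1 : (x ^ i)⁻¹ • (x ^ i • P₂ : Sylow p G) = P₂ := inv_smul_smul _ _
    rw [h] at h1
    have h2 : (x ^ i)⁻¹ • P₁ = P₁ :=
      Sylow.smul_eq_iff_mem_normalizer.mpr
        (Subgroup.le_normalizer (inv_mem (pow_mem hxP₁ i)))
    rw [← h1, h2]
  have hinj : ∀ i j : ℕ, i < j → j < p → (x ^ i • P₂ : Sylow p G) ≠ x ^ j • P₂ := by
    intro i j hij hjp h
    apply hxD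
    have h1 : (x ^ i)⁻¹ • (x ^ j • P₂ : Sylow p G) = P₂ := by rw [← h, inv_smul_smul]
    rw [smul_smul] at h1
    have h2 : (x ^ i)⁻¹ * x ^ j = x ^ (j - i) := by
      have : x ^ j = x ^ i * x ^ (j - i) := by
        rw [← pow_add]; congr 1; omega
      rw [this, inv_mul_cancel_left]
    rw [h2] at h1
    have h3 : x ^ (j - i) ∈ Subgroup.normalizer ((P₂ : Subgroup G) : Set G) :=
      Sylow.smul_eq_iff_mem_normalizer.mp h1
    have h4 : x ^ (j - i) ∈ (P₂ : Subgroup G) := by
      obtain ⟨e, he⟩ := orderOf_mem_sylow P₁ ((P₁ : Subgroup G).pow_mem hxP₁ (j - i))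
      exact mem_sylow_of_mem_normalizer P₂ he h3
    have h5 : x ^ (j - i) ∈ (P₁ : Subgroup G) ⊓ (P₂ : Subgroup G) :=
      ⟨(P₁ : Subgroup G).pow_mem hxP₁ _, h4⟩
    have hcop : (j - i).Coprime (orderOf x) := by
      rw [hxm]
      apply Nat.Coprime.pow_right
      apply Nat.Coprime.symm
      rw [Nat.Prime.coprime_iff_not_dvd hp]
      intro hd
      have := Nat.le_of_dvd (by omega) hd
      omega
    exact mem_of_pow_mem_of_coprime hcop h5 (by rw [pow_orderOf_eq_one]; exact Subgroup.one_mem _)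
  have hint : ∀ S T : Sylow p G, S ≠ T →
      (P₁ : Subgroup G) ⊓ (P₂ : Subgroup G) ≤ (S : Subgroup G) →
      (P₁ : Subgroup G) ⊓ (P₂ : Subgroup G) ≤ (T : Subgroup G) →
      ∀ y : G, y ∈ (S : Subgroup G) → y ∈ (T : Subgroup G) →
        y ∈ (P₁ : Subgroup G) ⊓ (P₂ : Subgroup G) := by
    intro S T hST hS hT y hyS hyT
    have : (P₁ : Subgroup G) ⊓ (P₂ : Subgroup G) = (S : Subgroup G) ⊓ (T : Subgroup G) :=
      Subgroup.eq_of_le_of_card_ge (le_inf hS hT) (hmax' S T hST)
    rw [this]; exact ⟨hyS, hyT⟩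
  generalize hDdef : (P₁ : Subgroup G) ⊓ (P₂ : Subgroup G) = D at *
  -- finsets
  have hcardfin : ∀ K : Subgroup G, (Finset.univ.filter (fun g : G => g ∈ K)).card = Nat.card K := by
    intro K
    rw [Nat.card_eq_fintype_card]
    exact (Fintype.card_of_subtype _ (fun g => by simp)).symm
  have hX : Nat.card {g : G // ∃ k : ℕ, orderOf g = p ^ k}
      = (Finset.univ.filter (fun g : G => ∃ k : ℕ, orderOf g = p ^ k)).card := by
    rw [Nat.card_eq_fintype_card]
    exact Fintype.card_of_subtype _ (fun g => by simp)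
  have hsd : ∀ S : Sylow p G, D ≤ (S : Subgroup G) →
      (Finset.univ.filter (fun g : G => g ∈ (S : Subgroup G)) \
        Finset.univ.filter (fun g : G => g ∈ D)).card
        = Nat.card (P : Subgroup G) - Nat.card D := by
    intro S hS
    rw [Finset.card_sdiff_of_subset, hcardfin, hcardfin, hcardS]
    intro g hg
    simp only [Finset.mem_filter, Finset.mem_univ, true_and] at hg ⊢
    exact hS hg
  have hW : ((Finset.range p).biUnion (fun i =>
      Finset.univ.filter (fun g : G => g ∈ ((x ^ i • P₂ : Sylow p G) : Subgroup G)) \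
        Finset.univ.filter (fun g : G => g ∈ D))).card
      = p * (Nat.card (P : Subgroup G) - Nat.card D) := by
    rw [Finset.card_biUnion]
    · rw [Finset.sum_congr rfl (fun i _ => hsd (x ^ i • P₂) (hDle i)), Finset.sum_const,
        Finset.card_range, smul_eq_mul]
    · intro i hi j hj hij
      show Disjoint _ _
      rw [Finset.disjoint_left]
      intro y hy1 hy2
      simp only [Finset.mem_sdiff, Finset.mem_filter, Finset.mem_univ, true_and] at hy1 hy2
      apply hy1.2
      rw [Finset.mem_coe, Finset.mem_range] at hi hj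
      rcases Nat.lt_or_gt_of_ne hij with h | h
      · exact hint _ _ (hinj i j h hj) (hDle i) (hDle j) y hy1.1 hy2.1
      · exact hint _ _ (hinj j i h hi).symm (hDle i) (hDle j) y hy1.1 hy2.1
  have hdisj1 : Disjoint
      (Finset.univ.filter (fun g : G => g ∈ (P₁ : Subgroup G)) \
        Finset.univ.filter (fun g : G => g ∈ D))
      ((Finset.range p).biUnion (fun i =>
        Finset.univ.filter (fun g : G => g ∈ ((x ^ i • P₂ : Sylow p G) : Subgroup G)) \
          Finset.univ.filter (fun g : G => g ∈ D))) := by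
    rw [Finset.disjoint_left]
    intro y hy1 hy2
    simp only [Finset.mem_sdiff, Finset.mem_filter, Finset.mem_univ, true_and,
      Finset.mem_biUnion] at hy1 hy2
    obtain ⟨i, -, hy2, -⟩ := hy2
    apply hy1.2
    have hD1 : D ≤ (P₁ : Subgroup G) := hDdef ▸ inf_le_left
    exact hint _ _ (hneP₁ i).symm hD1 (hDle i) y hy1.1 hy2
  have hdisj2 : Disjoint
      ((Finset.univ.filter (fun g : G => g ∈ (P₁ : Subgroup G)) \
        Finset.univ.filter (fun g : G => g ∈ D)) ∪
      ((Finset.range p).biUnion (fun i =>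
        Finset.univ.filter (fun g : G => g ∈ ((x ^ i • P₂ : Sylow p G) : Subgroup G)) \
          Finset.univ.filter (fun g : G => g ∈ D))))
      (Finset.univ.filter (fun g : G => g ∈ D)) := by
    rw [Finset.disjoint_left]
    intro y hy1 hy2
    simp only [Finset.mem_union, Finset.mem_sdiff, Finset.mem_filter, Finset.mem_univ, true_and,
      Finset.mem_biUnion] at hy1 hy2
    rcases hy1 with h | ⟨i, -, -, h⟩
    · exact h.2 hy2
    · exact h hy2
  have hsub : ((Finset.univ.filter (fun g : G => g ∈ (P₁ : Subgroup G)) \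
        Finset.univ.filter (fun g : G => g ∈ D)) ∪
      ((Finset.range p).biUnion (fun i =>
        Finset.univ.filter (fun g : G => g ∈ ((x ^ i • P₂ : Sylow p G) : Subgroup G)) \
          Finset.univ.filter (fun g : G => g ∈ D)))) ∪
      (Finset.univ.filter (fun g : G => g ∈ D))
      ⊆ Finset.univ.filter (fun g : G => ∃ k : ℕ, orderOf g = p ^ k) := by
    intro y hy
    simp only [Finset.mem_union, Finset.mem_sdiff, Finset.mem_filter, Finset.mem_univ, true_and,
      Finset.mem_biUnion] at hy ⊢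
    rcases hy with (h | ⟨i, -, h, -⟩) | h
    · exact orderOf_mem_sylow P₁ h.1
    · exact orderOf_mem_sylow _ h
    · have hD1 : D ≤ (P₁ : Subgroup G) := hDdef ▸ inf_le_left
      exact orderOf_mem_sylow P₁ (hD1 h)
  have hcard := Finset.card_le_card hsub
  rw [Finset.card_union_of_disjoint hdisj2, Finset.card_union_of_disjoint hdisj1, hW,
    hsd P₁ (hDdef ▸ inf_le_left), hcardfin, ← hX] at hcard
  -- |P| ≥ p |D|
  have hpd : p * Nat.card D ≤ Nat.card (P : Subgroup G) := by
    have hlt : Nat.card D < Nat.card (P₁ : Subgroup G) := card_lt_card_of_lt hDlt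
    have hdvd : Nat.card D ∣ Nat.card (P₁ : Subgroup G) := Subgroup.card_dvd_of_le hDlt.le
    obtain ⟨b, hb⟩ := IsPGroup.iff_card.mp P₁.isPGroup'
    rw [hb] at hdvd hlt
    obtain ⟨a, hab, ha⟩ := (Nat.dvd_prime_pow hp).mp hdvd
    rw [ha] at hlt ⊢
    have hab' : a < b := by
      by_contra hcon
      push Not at hcon
      have : a = b := le_antisymm hab hcon
      rw [this] at hlt
      exact lt_irrefl _ hlt
    rw [← hcardS P₁, hb, ← pow_succ']
    exact Nat.pow_le_pow_right hp.pos hab'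
  have hDpos : 0 < Nat.card D := Nat.card_pos
  have hDP : Nat.card D ≤ Nat.card (P : Subgroup G) := by nlinarith [hp.two_le]
  obtain ⟨e, he⟩ := Nat.exists_eq_add_of_le hDP
  rw [he] at hcard hpd ⊢
  rw [Nat.add_sub_cancel_left] at hcard
  nlinarith

end Cfsg.Agent.S4092
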