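import Cfsg.Statements.S4093
import Cfsg.Agent.Lib.Helper6.SubOrbit
import Cfsg.Agent.Lib.Helper6.PSub
import Cfsg.Agent.Lib.Helper6.RealElt

set_option autoImplicit false
open Cfsg

namespace Cfsg.Agent.S4093

open Cfsg.Agent.Lib.Helper6

/-- Let G be a finite group with a normal subgroup N complementing a Sylow p-subgroup P (a normal p-complement). Then the number of elements of G of p-power order equals the sum over x ∈ P of the index of C_N(x) in N. -/
theorem result {G : Type*} [Group G] [Finite G] (p : ℕ) [Fact p.Prime]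
    (P : Sylow p G) (N : Subgroup G) [N.Normal] (hNP : N.IsComplement' (P : Subgroup G)) :
    Nat.card {g : G // ∃ k : ℕ, orderOf g = p ^ k} =
      ∑ᶠ x : (P : Subgroup G), Nat.card N / Nat.card ↥(N ⊓ Subgroup.centralizer ({(x : G)} : Set G)) := by
  classical
  have hNn : N.Normal := inferInstance
  have hdisj : ∀ z : G, z ∈ N → z ∈ (P : Subgroup G) → z = 1 := by
    intro z hz1 hz2
    exact Subgroup.disjoint_def.mp hNP.disjoint hz1 hz2
  have hdec : ∀ g : G, ∃ n ∈ N, ∃ x ∈ (P : Subgroup G), g = n * x := by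
    intro g
    have hg : g ∈ N ⊔ (P : Subgroup G) := by rw [hNP.sup_eq_top]; exact Subgroup.mem_top g
    rw [← SetLike.mem_coe, Subgroup.normal_mul] at hg
    obtain ⟨n, hn, x, hx, rfl⟩ := Set.mem_mul.mp hg
    exact ⟨n, hn, x, hx, rfl⟩
  let F : (Σ x : (P : Subgroup G), {y : G // ∃ n ∈ N, y = n * (x : G) * n⁻¹}) →
      {g : G // ∃ k : ℕ, orderOf g = p ^ k} := fun xy =>
    ⟨(xy.2 : G), by
      obtain ⟨n, hn, hy⟩ := xy.2.2
      obtain ⟨k, hk⟩ := orderOf_mem_sylow P xy.1.2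
      exact ⟨k, by rw [hy, orderOf_conj_eq, hk]⟩⟩
  have hinj : Function.Injective F := by
    rintro ⟨x, y, n, hn, hy⟩ ⟨x', y', n', hn', hy'⟩ h
    have hyy : y = y' := congrArg Subtype.val h
    have hxx : (x : G) = (x' : G) := by
      have h1 : (x : G) = (n⁻¹ * n') * (x' : G) * (n⁻¹ * n')⁻¹ := by
        have : n * (x : G) * n⁻¹ = n' * (x' : G) * n'⁻¹ := by rw [← hy, ← hy', hyy]
        calc (x : G) = n⁻¹ * (n * (x : G) * n⁻¹) * n := by group
          _ = n⁻¹ * (n' * (x' : G) * n'⁻¹) * n := by rw [this]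
          _ = _ := by group
      have h2 : (x : G) * (x' : G)⁻¹ ∈ N := by
        rw [h1]
        have : n⁻¹ * n' * (x' : G) * (n⁻¹ * n')⁻¹ * (x' : G)⁻¹
            = (n⁻¹ * n') * ((x' : G) * (n⁻¹ * n')⁻¹ * (x' : G)⁻¹) := by group
        rw [this]
        exact N.mul_mem (N.mul_mem (N.inv_mem hn) hn')
          (hNn.conj_mem _ (N.inv_mem (N.mul_mem (N.inv_mem hn) hn')) _)
      have h3 := hdisj _ h2 ((P : Subgroup G).mul_mem x.2 ((P : Subgroup G).inv_mem x'.2))
      exact mul_inv_eq_one.mp h3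
    exact Sigma.subtype_ext (Subtype.ext hxx) hyy
  have hsurj : Function.Surjective F := by
    rintro ⟨y, k, hk⟩
    have hpg : IsPGroup p (Subgroup.zpowers y) :=
      IsPGroup.of_card (n := k) (by rw [Nat.card_zpowers, hk])
    obtain ⟨Q, hQ⟩ := hpg.exists_le_sylow
    obtain ⟨g, hg⟩ := MulAction.exists_smul_eq G Q P
    have hx₁ : g * y * g⁻¹ ∈ (P : Subgroup G) := by
      rw [← hg, sylow_smul_mem_iff]
      have : g⁻¹ * (g * y * g⁻¹) * g = y := by group
      rw [this]; exact hQ (Subgroup.mem_zpowers y)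
    obtain ⟨n, hn, x₀, hx₀, hgn⟩ := hdec g⁻¹
    refine ⟨⟨⟨x₀ * (g * y * g⁻¹) * x₀⁻¹,
      (P : Subgroup G).mul_mem ((P : Subgroup G).mul_mem hx₀ hx₁) ((P : Subgroup G).inv_mem hx₀)⟩,
      ⟨y, n, hn, ?_⟩⟩, rfl⟩
    show y = n * (x₀ * (g * y * g⁻¹) * x₀⁻¹) * n⁻¹
    have : n * (x₀ * (g * y * g⁻¹) * x₀⁻¹) * n⁻¹ = (n * x₀) * (g * y * g⁻¹) * (n * x₀)⁻¹ := by
      group
    rw [this, ← hgn]; group
  have : Fintype (P : Subgroup G) := Fintype.ofFinite _
  rw [← Nat.card_congr (Equiv.ofBijective F ⟨hinj, hsurj⟩), Nat.card_sigma,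
    finsum_eq_sum_of_fintype]
  apply Finset.sum_congr rfl
  intro x _
  have h1 := ncard_conj_orbit_mul N (x : G)
  have hpos : 0 < Nat.card (N ⊓ Subgroup.centralizer ({(x : G)} : Set G) : Subgroup G) :=
    Nat.card_pos
  have h2 : Nat.card {y : G // ∃ n ∈ N, y = n * (x : G) * n⁻¹}
      = Set.ncard {y : G | ∃ n ∈ N, y = n * (x : G) * n⁻¹} :=
    Nat.card_coe_set_eq {y : G | ∃ n ∈ N, y = n * (x : G) * n⁻¹}
  rw [h2]
  exact (Nat.div_eq_of_eq_mul_left hpos h1.symm).symm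

end Cfsg.Agent.S4093
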