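import Cfsg.Statements.S4106
import Cfsg.Agent.Lib.Helper6.RealElt
import Cfsg.Agent.Lib.Helper6.PSub

set_option autoImplicit false
open Cfsg

namespace Cfsg.Agent.S4106

open Cfsg.Agent.Lib.Helper6

universe u

open Classical in
/-- the largest divisor of `N` all of whose prime factors lie in `π` -/
noncomputable def piPart (π : Set ℕ) (N : ℕ) : ℕ :=
  (N.divisors.filter (fun d => ∀ q : ℕ, q.Prime → q ∣ d → q ∈ π)).sup id

theorem le_piPart (π : Set ℕ) {N d : ℕ} (hN : N ≠ 0) (hd : d ∣ N)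
    (hπ : ∀ q : ℕ, q.Prime → q ∣ d → q ∈ π) : d ≤ piPart π N := by
  classical
  unfold piPart
  have : d ∈ N.divisors.filter (fun d => ∀ q : ℕ, q.Prime → q ∣ d → q ∈ π) := by
    rw [Finset.mem_filter, Nat.mem_divisors]
    exact ⟨⟨hd, hN⟩, hπ⟩
  exact Finset.le_sup (f := id) this

theorem piPart_spec (π : Set ℕ) {N : ℕ} (hN : N ≠ 0) :
    piPart π N ∣ N ∧ ∀ q : ℕ, q.Prime → q ∣ piPart π N → q ∈ π := by
  classical
  unfold piPart
  have hne : (N.divisors.filter (fun d => ∀ q : ℕ, q.Prime → q ∣ d → q ∈ π)).Nonempty := by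
    refine ⟨1, ?_⟩
    rw [Finset.mem_filter, Nat.mem_divisors]
    refine ⟨⟨one_dvd _, hN⟩, ?_⟩
    intro q hq hq1
    exact absurd (Nat.dvd_one.mp hq1) hq.one_lt.ne'
  obtain ⟨d, hd, hsup⟩ := Finset.exists_mem_eq_sup _ hne id
  rw [hsup]
  rw [Finset.mem_filter, Nat.mem_divisors] at hd
  exact ⟨hd.1.1, hd.2⟩

/-- the type of classes of π-elements -/
abbrev PiCl (π : Set ℕ) (G : Type u) [Group G] : Type u :=
  {C : ConjClasses G // ∀ q : ℕ, q.Prime →
    (∃ g : G, ConjClasses.mk g = C ∧ q ∣ orderOf g) → q ∈ π}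

theorem orderOf_eq_of_mk_eq {G : Type u} [Group G] {g x : G}
    (h : ConjClasses.mk g = ConjClasses.mk x) : orderOf g = orderOf x := by
  obtain ⟨c, hc⟩ := isConj_iff.mp (ConjClasses.mk_eq_mk_iff_isConj.mp h)
  rw [← hc, orderOf_conj_eq]

theorem exists_p_decomp {G : Type u} [Group G] [Finite G] (p : ℕ) (hp : p.Prime) (x : G) :
    ∃ a b : G, a * b = x ∧ (∃ k : ℕ, orderOf a = p ^ k) ∧ ¬ p ∣ orderOf b ∧
      orderOf b ∣ orderOf x ∧ Commute a b := by
  have hn0 : orderOf x ≠ 0 := (orderOf_pos x).ne'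
  have hnt : p ^ (orderOf x).factorization p * (orderOf x / p ^ (orderOf x).factorization p)
      = orderOf x := Nat.ordProj_mul_ordCompl_eq_self (orderOf x) p
  have hcop0 : p.Coprime (orderOf x / p ^ (orderOf x).factorization p) :=
    Nat.coprime_ordCompl hp hn0
  generalize (orderOf x).factorization p = k at hnt hcop0
  generalize orderOf x / p ^ k = t at hnt hcop0
  have hcop : (p ^ k).Coprime t := hcop0.pow_left k
  have hb := Nat.gcd_eq_gcd_ab (p ^ k) t
  rw [hcop] at hb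
  have hsum : (t : ℤ) * Nat.gcdB (p ^ k) t + ((p ^ k : ℕ) : ℤ) * Nat.gcdA (p ^ k) t = 1 := by
    rw [add_comm]; exact_mod_cast hb.symm
  have ha1 : (x ^ ((t : ℤ) * Nat.gcdB (p ^ k) t)) ^ (p ^ k) = 1 := by
    rw [← zpow_natCast, ← zpow_mul]
    have : (t : ℤ) * Nat.gcdB (p ^ k) t * ((p ^ k : ℕ) : ℤ)
        = ((orderOf x : ℕ) : ℤ) * Nat.gcdB (p ^ k) t := by
      rw [← hnt]; push_cast; ring
    rw [this, zpow_mul, zpow_natCast, pow_orderOf_eq_one, one_zpow]
  have hb1 : (x ^ (((p ^ k : ℕ) : ℤ) * Nat.gcdA (p ^ k) t)) ^ t = 1 := by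
    rw [← zpow_natCast, ← zpow_mul]
    have : ((p ^ k : ℕ) : ℤ) * Nat.gcdA (p ^ k) t * (t : ℤ)
        = ((orderOf x : ℕ) : ℤ) * Nat.gcdA (p ^ k) t := by
      rw [← hnt]; push_cast; ring
    rw [this, zpow_mul, zpow_natCast, pow_orderOf_eq_one, one_zpow]
  refine ⟨x ^ ((t : ℤ) * Nat.gcdB (p ^ k) t), x ^ (((p ^ k : ℕ) : ℤ) * Nat.gcdA (p ^ k) t),
    ?_, ?_, ?_, ?_, ?_⟩
  · rw [← zpow_add, hsum, zpow_one]
  · exact ((Nat.dvd_prime_pow hp).mp (orderOf_dvd_of_pow_eq_one ha1)).imp (fun j hj => hj.2)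
  · intro hpd
    have : p ∣ t := hpd.trans (orderOf_dvd_of_pow_eq_one hb1)
    exact (Nat.Prime.coprime_iff_not_dvd hp).mp hcop0 this
  · exact (orderOf_dvd_of_pow_eq_one hb1).trans (hnt ▸ Dvd.intro_left _ rfl)
  · exact Commute.zpow_zpow (Commute.refl x) _ _

theorem base (G : Type u) [Group G] [Finite G] (π : Set ℕ)
    (h : ∀ q : ℕ, q.Prime → q ∣ Nat.card G → q ∉ π) :
    Nat.card (PiCl π G) ≤ piPart π (Nat.card G) := by
  have h1 : 1 ≤ piPart π (Nat.card G) := le_piPart π Nat.card_pos.ne' (one_dvd _)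
    (fun q hq hq1 => absurd (Nat.dvd_one.mp hq1) hq.one_lt.ne')
  have hsub : Subsingleton (PiCl π G) := by
    constructor
    have hall : ∀ C : PiCl π G, C.1 = ConjClasses.mk 1 := by
      rintro ⟨C, hC⟩
      obtain ⟨x, rfl⟩ := ConjClasses.mk_surjective C
      have hx : orderOf x = 1 := by
        by_contra hne
        obtain ⟨q, hq, hqx⟩ := Nat.exists_prime_and_dvd hne
        exact h q hq (hqx.trans (orderOf_dvd_natCard x)) (hC q hq ⟨x, rfl, hqx⟩)
      have hx1 : x = 1 := orderOf_eq_one_iff.mp hx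
      subst hx1
      rfl
    intro a b
    exact Subtype.ext ((hall a).trans (hall b).symm)
  exact (Finite.card_le_one_iff_subsingleton.mpr hsub).trans h1

theorem step (G : Type u) [Group G] [Finite G] (π : Set ℕ) (p : ℕ) (hp : p.Prime) (hpπ : p ∈ π)
    (ih : ∀ u : G, Nat.card (PiCl (π \ {p}) (Subgroup.centralizer ({u} : Set G)))
      ≤ piPart (π \ {p}) (Nat.card G)) :
    Nat.card (PiCl π G) ≤ piPart π (Nat.card G) := by
  classical
  have : Fact p.Prime := ⟨hp⟩
  obtain ⟨P⟩ : Nonempty (Sylow p G) := inferInstance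
  have hsurj : ∀ C : PiCl π G, ∃ (u : P)
      (C' : PiCl (π \ {p}) (Subgroup.centralizer ({(u : G)} : Set G))),
      ∀ w : Subgroup.centralizer ({(u : G)} : Set G), ConjClasses.mk w = C'.1 →
        ConjClasses.mk ((u : G) * (w : G)) = C.1 := by
    rintro ⟨C₀, hC⟩
    obtain ⟨x, rfl⟩ := ConjClasses.mk_surjective C₀
    obtain ⟨a, b, hab, ⟨k, hak⟩, hpb, hbx, hcomm⟩ := exists_p_decomp p hp x
    have hpg : IsPGroup p (Subgroup.zpowers a) :=
      IsPGroup.of_card (n := k) (by rw [Nat.card_zpowers, hak])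
    obtain ⟨Q, hQ⟩ := hpg.exists_le_sylow
    obtain ⟨g, hg⟩ := MulAction.exists_smul_eq G Q P
    have hu : g * a * g⁻¹ ∈ (P : Subgroup G) := by
      rw [← hg, sylow_smul_mem_iff]
      have : g⁻¹ * (g * a * g⁻¹) * g = a := by group
      rw [this]; exact hQ (Subgroup.mem_zpowers a)
    have hv : g * b * g⁻¹ ∈ Subgroup.centralizer ({g * a * g⁻¹} : Set G) := by
      rw [Subgroup.mem_centralizer_singleton_iff]
      have := hcomm.eq
      calc g * b * g⁻¹ * (g * a * g⁻¹) = g * (b * a) * g⁻¹ := by group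
        _ = g * (a * b) * g⁻¹ := by rw [this]
        _ = _ := by group
    refine ⟨⟨g * a * g⁻¹, hu⟩, ⟨ConjClasses.mk ⟨g * b * g⁻¹, hv⟩, ?_⟩, ?_⟩
    · intro q hq ⟨g', hg', hqg'⟩
      have h1 := orderOf_eq_of_mk_eq hg'
      have h2 : orderOf (⟨g * b * g⁻¹, hv⟩ : Subgroup.centralizer ({g * a * g⁻¹} : Set G))
          = orderOf b := by
        rw [Subgroup.orderOf_mk, orderOf_conj_eq]
      rw [h1, h2] at hqg'
      refine ⟨hC q hq ⟨x, rfl, hqg'.trans hbx⟩, ?_⟩
      intro hqp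
      rw [Set.mem_singleton_iff] at hqp
      rw [hqp] at hqg'
      exact hpb hqg'
    · intro w hw
      obtain ⟨c, hc⟩ := isConj_iff.mp (ConjClasses.mk_eq_mk_iff_isConj.mp hw)
      have hc' : (c : G) * (w : G) * (c : G)⁻¹ = g * b * g⁻¹ := by
        have := congrArg Subtype.val hc
        simpa using this
      have hcu : (c : G) * (g * a * g⁻¹) = (g * a * g⁻¹) * (c : G) :=
        Subgroup.mem_centralizer_singleton_iff.mp c.2
      apply ConjClasses.mk_eq_mk_iff_isConj.mpr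
      rw [isConj_iff]
      refine ⟨g⁻¹ * (c : G), ?_⟩
      calc g⁻¹ * (c : G) * (g * a * g⁻¹ * (w : G)) * (g⁻¹ * (c : G))⁻¹
          = g⁻¹ * ((c : G) * (g * a * g⁻¹)) * (c : G)⁻¹ * ((c : G) * (w : G) * (c : G)⁻¹) * g := by
            group
        _ = g⁻¹ * ((g * a * g⁻¹) * (c : G)) * (c : G)⁻¹ * (g * b * g⁻¹) * g := by rw [hcu, hc']
        _ = a * b := by group
        _ = x := hab
  choose fu fC hf using hsurj
  let Φ : (Σ u : P, PiCl (π \ {p}) (Subgroup.centralizer ({(u : G)} : Set G))) → ConjClasses G :=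
    fun uc => ConjClasses.mk ((uc.1 : G) *
      ((Classical.choose (ConjClasses.mk_surjective uc.2.1) :
        Subgroup.centralizer ({(uc.1 : G)} : Set G)) : G))
  have hΦ : ∀ C : PiCl π G, Φ ⟨fu C, fC C⟩ = C.1 := fun C =>
    hf C _ (Classical.choose_spec (ConjClasses.mk_surjective (fC C).1))
  have hinj : Function.Injective (fun C : PiCl π G =>
      (⟨fu C, fC C⟩ : Σ u : P, PiCl (π \ {p}) (Subgroup.centralizer ({(u : G)} : Set G)))) := by
    intro C D hCD
    apply Subtype.ext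
    rw [← hΦ C, ← hΦ D]
    exact congrArg Φ hCD
  have : Fintype P := Fintype.ofFinite P
  have h1 := Nat.card_le_card_of_injective _ hinj
  rw [Nat.card_sigma] at h1
  have h2 : ∑ u : P, Nat.card (PiCl (π \ {p}) (Subgroup.centralizer ({(u : G)} : Set G)))
      ≤ ∑ _u : P, piPart (π \ {p}) (Nat.card G) :=
    Finset.sum_le_sum (fun u _ => ih (u : G))
  rw [Finset.sum_const, Finset.card_univ, smul_eq_mul, ← Nat.card_eq_fintype_card] at h2
  refine (h1.trans h2).trans ?_
  have hG0 : Nat.card G ≠ 0 := Nat.card_pos.ne'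
  obtain ⟨hd1, hd2⟩ := piPart_spec (π \ {p}) hG0
  obtain ⟨k, hk⟩ := IsPGroup.iff_card.mp P.isPGroup'
  have hnd : ¬ p ∣ piPart (π \ {p}) (Nat.card G) := fun h => (hd2 p hp h).2 rfl
  have hcop : (Nat.card P).Coprime (piPart (π \ {p}) (Nat.card G)) := by
    rw [hk]
    exact ((Nat.Prime.coprime_iff_not_dvd hp).mpr hnd).pow_left k
  apply le_piPart π hG0
  · exact Nat.Coprime.mul_dvd_of_dvd_of_dvd hcop (Subgroup.card_subgroup_dvd_card _) hd1
  · intro q hq hqd
    rcases (Nat.Prime.dvd_mul hq).mp hqd with h | h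
    · rw [hk] at h
      have := (Nat.prime_dvd_prime_iff_eq hq hp).mp (hq.dvd_of_dvd_pow h)
      rw [this]; exact hpπ
    · exact (hd2 q hq h).1

theorem key (n : ℕ) : ∀ (G : Type u) [Group G] [Finite G] (π : Set ℕ),
    (∀ s : Finset ℕ, (∀ q ∈ s, q.Prime ∧ q ∣ Nat.card G ∧ q ∈ π) → s.card ≤ n) →
    Nat.card (PiCl π G) ≤ piPart π (Nat.card G) := by
  induction n with
  | zero =>
    intro G _ _ π hn
    apply base
    intro q hq hqG hqπ
    have := hn {q} (by simpa using ⟨hq, hqG, hqπ⟩)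
    simp at this
  | succ n ih =>
    intro G _ _ π hn
    by_cases hex : ∃ p : ℕ, p.Prime ∧ p ∣ Nat.card G ∧ p ∈ π
    · obtain ⟨p, hp, hpG, hpπ⟩ := hex
      apply step G π p hp hpπ
      intro u
      have hmono : piPart (π \ {p}) (Nat.card (Subgroup.centralizer ({u} : Set G)))
          ≤ piPart (π \ {p}) (Nat.card G) := by
        obtain ⟨hd1, hd2⟩ := piPart_spec (π \ {p})
          (N := Nat.card (Subgroup.centralizer ({u} : Set G))) Nat.card_pos.ne'
        exact le_piPart _ Nat.card_pos.ne' (hd1.trans (Subgroup.card_subgroup_dvd_card _)) hd2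
      refine (ih _ (π \ {p}) ?_).trans hmono
      intro s hs
      classical
      have hps : p ∉ s := fun h => (hs p h).2.2.2 rfl
      have := hn (insert p s) (by
        intro q hq
        rcases Finset.mem_insert.mp hq with rfl | hq
        · exact ⟨hp, hpG, hpπ⟩
        · exact ⟨(hs q hq).1, (hs q hq).2.1.trans (Subgroup.card_subgroup_dvd_card _),
            (hs q hq).2.2.1⟩)
      rw [Finset.card_insert_of_notMem hps] at this
      omega
    · apply base
      intro q hq hqG hqπ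
      exact hex ⟨q, hq, hqG, hqπ⟩

/-- Let G be a finite group, π a set of primes and m the π-part of the order of G. Then the number of conjugacy classes of G consisting of π-elements (elements whose order is divisible only by primes in π) is at most m. -/
theorem result {G : Type*} [Group G] [Finite G]
    (π : Set ℕ) (hπ : ∀ q ∈ π, q.Prime)
    (m : ℕ) (hm : m ∣ Nat.card G) (hmπ : ∀ q : ℕ, q.Prime → q ∣ m → q ∈ π)
    (hm' : ∀ q ∈ π, ¬ q ∣ Nat.card G / m) :
    Nat.card {C : ConjClasses G // ∀ q : ℕ, q.Prime → (∃ g : G, ConjClasses.mk g = C ∧ q ∣ orderOf g) → q ∈ π} ≤ m := by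
  have _h0 := hπ
  have _h1 := hmπ
  have hG0 : Nat.card G ≠ 0 := Nat.card_pos.ne'
  have h1 := key ((Nat.card G).primeFactors.card) G π (by
    intro s hs
    apply Finset.card_le_card
    intro q hq
    rw [Nat.mem_primeFactors]
    exact ⟨(hs q hq).1, (hs q hq).2.1, hG0⟩)
  refine h1.trans ?_
  obtain ⟨hd1, hd2⟩ := piPart_spec π hG0
  have hm0 : 0 < m := Nat.pos_of_ne_zero (fun h => hG0 (by rw [h] at hm; exact zero_dvd_iff.mp hm))
  apply Nat.le_of_dvd hm0
  have hcop : (piPart π (Nat.card G)).Coprime (Nat.card G / m) := by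
    by_contra hne
    obtain ⟨q, hqp, hq1, hq2⟩ := Nat.Prime.not_coprime_iff_dvd.mp hne
    exact hm' q (hd2 q hqp hq1) hq2
  apply hcop.dvd_of_dvd_mul_right
  rw [Nat.mul_div_cancel' hm]
  exact hd1

end Cfsg.Agent.S4106
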