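import Cfsg.Statements.S4107
import Cfsg.Agent.Lib.Helper6.EqOrd

set_option autoImplicit false
open Cfsg

namespace Cfsg.Agent.S4107

open Cfsg.Agent.Lib.Helper6

/-- Let G be a finite group and N a proper non-trivial normal subgroup such that for every x outside N all elements of the coset xN have the same order as x. Then N ≤ F(G) or F(G) ≤ N, where F(G) is the Fitting subgroup; and if N is properly contained in F(G) then F(G) has prime-power order. -/
theorem result {G : Type*} [Group G] [Finite G] (N : Subgroup G) [N.Normal] (hN1 : N ≠ ⊥) (hN2 : N ≠ ⊤)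
    (heq : ∀ x : G, x ∉ N → ∀ n ∈ N, orderOf (x * n) = orderOf x) :
    (N ≤ Cfsg.fittingSubgroup G ∨ Cfsg.fittingSubgroup G ≤ N) ∧
    (N < Cfsg.fittingSubgroup G → IsPrimePow (Nat.card (Cfsg.fittingSubgroup G))) := by
  have _h := hN2
  have hNn : N.Normal := inferInstance
  by_cases hF : Cfsg.fittingSubgroup G ≤ N
  · exact ⟨Or.inr hF, fun hlt => absurd (lt_of_lt_of_le hlt hF) (lt_irrefl _)⟩
  · have hex : ∃ q : Nat.Primes, ¬ Cfsg.pCore (q : ℕ) G ≤ N := by
      by_contra hcon
      push Not at hcon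
      apply hF
      rw [Cfsg.Agent.Lib.Lead.fitting_eq_iSup_pCore]
      exact iSup_le hcon
    obtain ⟨q, hq⟩ := hex
    obtain ⟨y, hyK, hyN⟩ := SetLike.not_le_iff_exists.mp hq
    have hfq : Fact (q : ℕ).Prime := ⟨q.2⟩
    have hNq := eqOrd_isPGroup_of_pCore_not_le N heq q.2 hyK hyN
    have hNp : IsPGroup (q : ℕ) N := by
      intro g
      obtain ⟨b, hb⟩ := hNq (g : G) g.2
      refine ⟨b, ?_⟩
      apply Subtype.ext
      show (g : G) ^ ((q : ℕ) ^ b) = 1
      rw [← hb, pow_orderOf_eq_one]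
    have hNle : N ≤ Cfsg.pCore (q : ℕ) G := le_sSup ⟨hNn, hNp⟩
    have hqF : Cfsg.pCore (q : ℕ) G ≤ Cfsg.fittingSubgroup G := by
      rw [Cfsg.Agent.Lib.Lead.fitting_eq_iSup_pCore]
      exact le_iSup (fun p : Nat.Primes => Cfsg.pCore (p : ℕ) G) q
    refine ⟨Or.inl (hNle.trans hqF), fun _ => ?_⟩
    have hFq : Cfsg.fittingSubgroup G = Cfsg.pCore (q : ℕ) G := by
      apply le_antisymm _ hqF
      rw [Cfsg.Agent.Lib.Lead.fitting_eq_iSup_pCore]
      apply iSup_le
      intro r
      by_cases hrq : r = q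
      · rw [hrq]
      · have hrq' : (r : ℕ) ≠ (q : ℕ) := fun h => hrq (Subtype.ext h)
        have hfr : Fact (r : ℕ).Prime := ⟨r.2⟩
        have hrN : Cfsg.pCore (r : ℕ) G ≤ N := by
          by_contra hr
          obtain ⟨z, hzK, hzN⟩ := SetLike.not_le_iff_exists.mp hr
          have hNr := eqOrd_isPGroup_of_pCore_not_le N heq r.2 hzK hzN
          apply hN1
          rw [Subgroup.eq_bot_iff_forall]
          intro n hn
          obtain ⟨b, hb⟩ := hNq n hn
          obtain ⟨b', hb'⟩ := hNr n hn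
          exact eq_one_of_orderOf_two_primes q.2 r.2 (Ne.symm hrq') hb hb'
        have hbot : Cfsg.pCore (r : ℕ) G = ⊥ := by
          rw [Subgroup.eq_bot_iff_forall]
          intro n hn
          obtain ⟨b, hb⟩ := hNq n (hrN hn)
          obtain ⟨b', hb'⟩ := (IsPGroup.iff_orderOf.mp
            (Cfsg.Agent.Lib.Lead.pCore_isPGroup' (G := G) (r : ℕ))) ⟨n, hn⟩
          rw [Subgroup.orderOf_mk] at hb'
          exact eq_one_of_orderOf_two_primes q.2 r.2 (Ne.symm hrq') hb hb'
        rw [hbot]; exact bot_le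
    rw [hFq]
    obtain ⟨e, he⟩ := IsPGroup.iff_card.mp (Cfsg.Agent.Lib.Lead.pCore_isPGroup' (G := G) (q : ℕ))
    rw [he]
    have he0 : e ≠ 0 := by
      rintro rfl
      rw [pow_zero] at he
      apply hN1
      have hbot : Cfsg.pCore (q : ℕ) G = ⊥ := Subgroup.card_eq_one.mp he
      rw [hbot] at hNle
      exact le_bot_iff.mp hNle
    exact (Nat.Prime.isPrimePow q.2).pow he0

end Cfsg.Agent.S4107
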