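import Cfsg.Statements.S4108
import Cfsg.Agent.Lib.Helper6.EqOrd
import Cfsg.Agent.Lib.Helper6.PSub

set_option autoImplicit false
open Cfsg

namespace Cfsg.Agent.S4108

open Cfsg.Agent.Lib.Helper6

/-- Let G be a finite group, p a prime and N a proper non-trivial normal p-subgroup such that for every x outside N all elements of the coset xN have the same order as x. Then every non-trivial subgroup H of G of order prime to p acts fixed-point-freely on N: NH is a Frobenius group with complement H and kernel N. -/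
theorem result {G : Type*} [Group G] [Finite G] (N : Subgroup G) [N.Normal] (hN1 : N ≠ ⊥) (hN2 : N ≠ ⊤)
    (heq : ∀ x : G, x ∉ N → ∀ n ∈ N, orderOf (x * n) = orderOf x)
    (p : ℕ) [Fact p.Prime] (hNp : IsPGroup p N) :
    ∀ H : Subgroup G, H ≠ ⊥ → (Nat.card H).Coprime p →
      Cfsg.IsFrobeniusComplement (H.subgroupOf (N ⊔ H)) ∧ Cfsg.frobeniusKernel (H.subgroupOf (N ⊔ H)) = (N.subgroupOf (N ⊔ H) : Set ↥(N ⊔ H)) := by
  have _h := hN2
  have hp : p.Prime := Fact.out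
  have hNn : N.Normal := inferInstance
  intro H hH1 hHcop
  have hNord : ∀ n ∈ N, ∃ b : ℕ, orderOf n = p ^ b := by
    intro n hn
    obtain ⟨b, hb⟩ := (IsPGroup.iff_orderOf.mp hNp) ⟨n, hn⟩
    exact ⟨b, by rw [← hb, Subgroup.orderOf_mk]⟩
  have hHord : ∀ h ∈ H, (orderOf h).Coprime p := by
    intro h hh
    have : orderOf h ∣ Nat.card H := by
      have := orderOf_dvd_natCard (⟨h, hh⟩ : H)
      rwa [Subgroup.orderOf_mk] at this
    exact Nat.Coprime.coprime_dvd_left this hHcop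
  -- (F0)
  have hF0 : ∀ z : G, z ∈ H → z ∈ N → z = 1 := by
    intro z hzH hzN
    obtain ⟨b, hb⟩ := hNord z hzN
    have hc := hHord z hzH
    rw [hb] at hc
    rcases Nat.eq_zero_or_pos b with rfl | hpos
    · rwa [pow_zero, orderOf_eq_one_iff] at hb
    · exfalso
      have : p ∣ Nat.gcd (p ^ b) p := Nat.dvd_gcd (dvd_pow_self p hpos.ne') dvd_rfl
      rw [hc] at this
      exact hp.one_lt.ne' (Nat.dvd_one.mp this)
  -- (F1)
  have hF1 : ∀ h ∈ H, h ≠ 1 → ∀ n ∈ N, n * h = h * n → n = 1 := by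
    intro h hh hh1 n hn hcomm
    obtain ⟨q, hq, hqd⟩ := Nat.exists_prime_and_dvd
      (show orderOf h ≠ 1 from fun e => hh1 (orderOf_eq_one_iff.mp e))
    have hyo : orderOf (h ^ (orderOf h / q)) = q :=
      orderOf_pow_orderOf_div (orderOf_pos h).ne' hqd
    have hyH : h ^ (orderOf h / q) ∈ H := H.pow_mem hh _
    have hy1 : h ^ (orderOf h / q) ≠ 1 := by
      intro e
      rw [← orderOf_eq_one_iff, hyo] at e
      exact hq.one_lt.ne' e
    have hyN : h ^ (orderOf h / q) ∉ N := fun e => hy1 (hF0 _ hyH e)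
    have hqp : q ≠ p := by
      rintro rfl
      have hc := hHord h hh
      have : q ∣ Nat.gcd (orderOf h) q := Nat.dvd_gcd hqd dvd_rfl
      rw [hc] at this
      exact hq.one_lt.ne' (Nat.dvd_one.mp this)
    have hcomm' : n * h ^ (orderOf h / q) = h ^ (orderOf h / q) * n :=
      (Commute.pow_right (show Commute n h from hcomm) _).eq
    obtain ⟨b, hb⟩ := eqOrd_centralizer N heq hq hyN (a := 1) (by rw [hyo, pow_one]) hn hcomm'
    obtain ⟨b', hb'⟩ := hNord n hn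
    exact eq_one_of_orderOf_two_primes hq hp hqp hb hb'
  -- (F2)
  have hF2 : ∀ n₀ ∈ N, n₀ ≠ 1 → ∀ x ∈ H, n₀⁻¹ * x * n₀ ∈ H → x = 1 := by
    intro n₀ hn₀ hn₀1 x hx hk
    by_contra hx1
    apply hn₀1
    have h1 : x * (n₀⁻¹ * x * n₀)⁻¹ ∈ N := by
      have : x * (n₀⁻¹ * x * n₀)⁻¹ = (x * n₀⁻¹ * x⁻¹) * n₀ := by group
      rw [this]
      exact N.mul_mem (hNn.conj_mem _ (N.inv_mem hn₀) x) hn₀
    have h2 : x * (n₀⁻¹ * x * n₀)⁻¹ ∈ H := H.mul_mem hx (H.inv_mem hk)
    have h3 := hF0 _ h2 h1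
    have h4 : x = n₀⁻¹ * x * n₀ := mul_inv_eq_one.mp h3
    have h5 : n₀ * x = x * n₀ := by
      calc n₀ * x = n₀ * (n₀⁻¹ * x * n₀) := by rw [← h4]
        _ = x * n₀ := by group
    exact hF1 x hx hx1 n₀ hn₀ h5
  -- (F3)
  have hF3 : ∀ x ∈ N ⊔ H, x ∉ N → ∃ m ∈ N, m⁻¹ * x * m ∈ H := by
    intro x hx hxN
    rw [← SetLike.mem_coe, Subgroup.normal_mul] at hx
    obtain ⟨n, hn, h, hh, rfl⟩ := Set.mem_mul.mp hx
    have hh1 : h ≠ 1 := by
      rintro rfl
      apply hxN; simpa using hn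
    let φ : N → N := fun m => ⟨(m : G) * h * (m : G)⁻¹ * h⁻¹, by
      have : (m : G) * h * (m : G)⁻¹ * h⁻¹ = (m : G) * (h * (m : G)⁻¹ * h⁻¹) := by group
      rw [this]
      exact N.mul_mem m.2 (hNn.conj_mem _ (N.inv_mem m.2) h)⟩
    have hinj : Function.Injective φ := by
      intro m m' hmm
      have h1 : (m : G) * h * (m : G)⁻¹ * h⁻¹ = (m' : G) * h * (m' : G)⁻¹ * h⁻¹ :=
        congrArg Subtype.val hmm
      have h2 : (m : G) * h * (m : G)⁻¹ = (m' : G) * h * (m' : G)⁻¹ := mul_right_cancel h1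
      have h3 : ((m' : G)⁻¹ * (m : G)) * h = h * ((m' : G)⁻¹ * (m : G)) := by
        calc ((m' : G)⁻¹ * (m : G)) * h = (m' : G)⁻¹ * ((m : G) * h * (m : G)⁻¹) * (m : G) := by
              group
          _ = (m' : G)⁻¹ * ((m' : G) * h * (m' : G)⁻¹) * (m : G) := by rw [h2]
          _ = _ := by group
      have h4 := hF1 h hh hh1 _ (N.mul_mem (N.inv_mem m'.2) m.2) h3
      exact Subtype.ext (inv_mul_eq_one.mp h4).symm
    obtain ⟨m, hm⟩ := Finite.surjective_of_injective hinj ⟨n, hn⟩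
    have hm' : (m : G) * h * (m : G)⁻¹ * h⁻¹ = n := congrArg Subtype.val hm
    refine ⟨(m : G), m.2, ?_⟩
    have : (m : G)⁻¹ * (n * h) * (m : G) = h := by
      rw [← hm']; group
    rw [this]; exact hh
  have hmemH : ∀ x : (N ⊔ H : Subgroup G), x ∈ H.subgroupOf (N ⊔ H) ↔ (x : G) ∈ H :=
    fun x => Subgroup.mem_subgroupOf
  have hmemN : ∀ x : (N ⊔ H : Subgroup G), x ∈ N.subgroupOf (N ⊔ H) ↔ (x : G) ∈ N :=
    fun x => Subgroup.mem_subgroupOf
  refine ⟨⟨?_, ?_, ?_⟩, ?_⟩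
  · intro hbot
    apply hH1
    rw [Subgroup.eq_bot_iff_forall]
    intro h hh
    have : (⟨h, (le_sup_right : H ≤ N ⊔ H) hh⟩ : (N ⊔ H : Subgroup G)) ∈ H.subgroupOf (N ⊔ H) :=
      (hmemH _).mpr hh
    rw [hbot, Subgroup.mem_bot] at this
    exact congrArg Subtype.val this
  · intro htop
    apply hN1
    rw [Subgroup.eq_bot_iff_forall]
    intro n hn
    have : (⟨n, (le_sup_left : N ≤ N ⊔ H) hn⟩ : (N ⊔ H : Subgroup G)) ∈ H.subgroupOf (N ⊔ H) := by
      rw [htop]; exact Subgroup.mem_top _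
    exact hF0 n ((hmemH _).mp this) hn
  · intro g hg
    rw [Subgroup.eq_bot_iff_forall]
    rintro x ⟨hx1, hx2⟩
    have hx1' : (x : G) ∈ H := (hmemH x).mp hx1
    have hx2' : (g : G)⁻¹ * (x : G) * (g : G) ∈ H :=
      (hmemH _).mp ((mem_conj_smul_iff g x _).mp hx2)
    have hgL := g.2
    rw [← SetLike.mem_coe, Subgroup.normal_mul] at hgL
    obtain ⟨n₀, hn₀, h₀, hh₀, hg0⟩ := Set.mem_mul.mp hgL
    have hn₀1 : n₀ ≠ 1 := by
      rintro rfl
      apply hg
      rw [hmemH, ← hg0]; simpa using hh₀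
    have hk : n₀⁻¹ * (x : G) * n₀ ∈ H := by
      rw [← hg0] at hx2'
      have : n₀⁻¹ * (x : G) * n₀ = h₀ * ((n₀ * h₀)⁻¹ * (x : G) * (n₀ * h₀)) * h₀⁻¹ := by group
      rw [this]
      exact H.mul_mem (H.mul_mem hh₀ hx2') (H.inv_mem hh₀)
    exact Subtype.ext (hF2 n₀ hn₀ hn₀1 (x : G) hx1' hk)
  · ext x
    constructor
    · rintro (rfl | hx)
      · exact Subgroup.one_mem _
      · by_contra hxN
        have hxN' : (x : G) ∉ N := fun h => hxN ((hmemN x).mpr h)
        obtain ⟨m, hm, hmx⟩ := hF3 (x : G) x.2 hxN'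
        apply hx ⟨m, (le_sup_left : N ≤ N ⊔ H) hm⟩
        rw [mem_conj_smul_iff, hmemH]
        exact hmx
    · intro hx
      have hx' : (x : G) ∈ N := (hmemN x).mp hx
      by_cases hx1 : x = 1
      · exact Or.inl hx1
      · right
        intro g hg
        apply hx1
        have h1 : (g : G)⁻¹ * (x : G) * (g : G) ∈ H :=
          (hmemH _).mp ((mem_conj_smul_iff g x _).mp hg)
        have h2 : (g : G)⁻¹ * (x : G) * (g : G) ∈ N := by
          have := hNn.conj_mem _ hx' (g : G)⁻¹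
          simpa using this
        have h3 := hF0 _ h1 h2
        apply Subtype.ext
        have := congrArg (fun z => (g : G) * z * (g : G)⁻¹) h3
        simpa [mul_assoc] using this

end Cfsg.Agent.S4108
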