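import Cfsg.Statements.S4112
import Cfsg.Agent.Lib.Lead.Nilpotent

set_option autoImplicit false
open Cfsg

namespace Cfsg.Agent.S4112

universe u

theorem sylow_le_of_index_coprime {G : Type*} [Group G] [Finite G] (N : Subgroup G) [N.Normal]
    {p : ℕ} [Fact p.Prime] (hp : ¬ p ∣ N.index) (P : Sylow p G) : (P : Subgroup G) ≤ N := by
  intro x hx
  obtain ⟨k, hk⟩ := (IsPGroup.iff_orderOf.mp P.2) ⟨x, hx⟩
  rw [Subgroup.orderOf_mk] at hk
  have h1 : (QuotientGroup.mk' N x) ^ p ^ k = 1 := by
    rw [← map_pow, ← hk, pow_orderOf_eq_one, map_one]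
  have h2 : orderOf (QuotientGroup.mk' N x) ∣ p ^ k := orderOf_dvd_of_pow_eq_one h1
  have h3 : orderOf (QuotientGroup.mk' N x) ∣ N.index := by
    rw [Subgroup.index_eq_card]; exact orderOf_dvd_natCard _
  have hc : Nat.Coprime (p ^ k) N.index :=
    Nat.Coprime.pow_left k ((Nat.Prime.coprime_iff_not_dvd Fact.out).mpr hp)
  have h4 : orderOf (QuotientGroup.mk' N x) = 1 := Nat.eq_one_of_dvd_coprimes hc h2 h3
  exact (QuotientGroup.eq_one_iff x).mp (orderOf_eq_one_iff.mp h4)

theorem exists_supp : ∀ (n : ℕ) (G : Type u) [Group G] [Finite G], Nat.card G = n →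
    ∀ N M : Subgroup G, N.Normal → M.Normal → M ≤ N → N.index.Coprime (Nat.card M) →
    ∃ H : Subgroup G, H ⊔ N = ⊤ ∧ H ⊓ M = ⊥ := by
  intro n
  induction n using Nat.strong_induction_on with
  | _ n ih =>
    intro G _ _ hcard N M hNn hMn hMN hcop
    by_cases hM : M = ⊥
    · exact ⟨⊤, top_sup_eq _, by rw [hM, inf_bot_eq]⟩
    · have hM1 : Nat.card M ≠ 1 := fun h => hM (Subgroup.card_eq_one.mp h)
      obtain ⟨p, hp, hpM⟩ := Nat.exists_prime_and_dvd hM1
      haveI := Fact.mk hp
      have hpN : ¬ p ∣ N.index := fun h =>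
        hp.one_lt.ne' (Nat.eq_one_of_dvd_coprimes hcop h hpM)
      obtain ⟨P⟩ : Nonempty (Sylow p G) := inferInstance
      have hPN : (P : Subgroup G) ≤ N := sylow_le_of_index_coprime N hpN P
      have hfrat : Subgroup.normalizer ((P : Subgroup G) : Set G) ⊔ N = ⊤ :=
        Sylow.normalizer_sup_eq_top' P hPN
      obtain ⟨G1, hG1⟩ : ∃ G1 : Subgroup G, G1 = Subgroup.normalizer ((P : Subgroup G) : Set G) :=
        ⟨_, rfl⟩
      rw [← hG1] at hfrat
      have hPG1 : (P : Subgroup G) ≤ G1 := hG1 ▸ Subgroup.le_normalizer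
      haveI hP1n : ((P : Subgroup G).subgroupOf G1).Normal := by
        rw [hG1]; exact Subgroup.normal_in_normalizer
      have hpG : p ∣ Nat.card G := hpM.trans (Subgroup.card_subgroup_dvd_card M)
      have hP2 : 2 ≤ Nat.card (P : Subgroup G) := by
        have hne : (P : Subgroup G) ≠ ⊥ := P.ne_bot_of_dvd_card hpG
        have h1 : Nat.card (P : Subgroup G) ≠ 1 := fun h => hne (Subgroup.card_eq_one.mp h)
        have h0 : 0 < Nat.card (P : Subgroup G) := Nat.card_pos
        omega
      have hcardP1 : Nat.card ((P : Subgroup G).subgroupOf G1) = Nat.card (P : Subgroup G) :=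
        Nat.card_congr (Subgroup.subgroupOfEquivOfLe hPG1).toEquiv
      have hcop1 : (Nat.card ((P : Subgroup G).subgroupOf G1)).Coprime
          ((P : Subgroup G).subgroupOf G1).index := by
        rw [hcardP1]
        obtain ⟨k, hk⟩ := IsPGroup.iff_card.mp P.2
        rw [hk]
        apply Nat.Coprime.pow_left
        rw [Nat.Prime.coprime_iff_not_dvd hp]
        intro hd
        apply P.not_dvd_index
        have h1 : (P : Subgroup G).relIndex G1 * G1.index = (P : Subgroup G).index :=
          Subgroup.relIndex_mul_index hPG1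
        rw [← h1]
        exact Dvd.dvd.mul_right hd _
      obtain ⟨H0, hH0⟩ := Subgroup.exists_left_complement'_of_coprime hcop1
      obtain ⟨H0', hH0'⟩ : ∃ H0' : Subgroup G, H0' = H0.map G1.subtype := ⟨_, rfl⟩
      have hcardH0 : Nat.card H0' < n := by
        rw [hH0', Subgroup.card_map_of_injective G1.subtype_injective, ← hcard]
        have h1 := hH0.card_mul_card
        rw [hcardP1] at h1
        have h2 : Nat.card G1 ≤ Nat.card G := Subgroup.card_le_card_group G1
        have h3 : 0 < Nat.card H0 := Nat.card_pos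
        nlinarith
      have hsup0 : H0' ⊔ (P : Subgroup G) = G1 := by
        have h1 := hH0.sup_eq_top
        have h2 := congrArg (Subgroup.map G1.subtype) h1
        rw [Subgroup.map_sup, Subgroup.subgroupOf_map_subtype, ← hH0',
          inf_eq_left.mpr hPG1] at h2
        rw [h2, ← MonoidHom.range_eq_map, Subgroup.range_subtype]
      have hsup1 : H0' ⊔ N = ⊤ := by
        rw [eq_top_iff, ← hfrat, ← hsup0]
        exact sup_le (sup_le le_sup_left (hPN.trans le_sup_right)) le_sup_right
      haveI : (N.subgroupOf H0').Normal := Subgroup.normal_subgroupOf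
      haveI : (M.subgroupOf H0').Normal := Subgroup.normal_subgroupOf
      have hidx : (N.subgroupOf H0').index = N.index := by
        have h1 : (N.subgroupOf H0').index = N.relIndex H0' := rfl
        rw [h1, ← Subgroup.relIndex_sup_right, hsup1, Subgroup.relIndex_top_right]
      have hcardM : Nat.card (M.subgroupOf H0') ∣ Nat.card M := by
        have h1 : Nat.card (M.subgroupOf H0') = Nat.card (M ⊓ H0' : Subgroup G) := by
          rw [← Subgroup.subgroupOf_map_subtype,
            Subgroup.card_map_of_injective H0'.subtype_injective]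
        rw [h1]
        exact Subgroup.card_dvd_of_le inf_le_left
      obtain ⟨H1, hH1a, hH1b⟩ := ih (Nat.card H0') hcardH0 H0' rfl (N.subgroupOf H0')
        (M.subgroupOf H0') inferInstance inferInstance
        (fun x hx => hMN hx)
        (by rw [hidx]; exact Nat.Coprime.coprime_dvd_right hcardM hcop)
      refine ⟨H1.map H0'.subtype, ?_, ?_⟩
      · rw [eq_top_iff, ← hsup1]
        refine sup_le ?_ le_sup_right
        intro y hy
        have h1 : (⟨y, hy⟩ : H0') ∈ H1 ⊔ N.subgroupOf H0' := by rw [hH1a]; exact Subgroup.mem_top _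
        have h2 : y ∈ (H1 ⊔ N.subgroupOf H0').map H0'.subtype := ⟨⟨y, hy⟩, h1, rfl⟩
        rw [Subgroup.map_sup, Subgroup.subgroupOf_map_subtype] at h2
        have hle : Subgroup.map H0'.subtype H1 ⊔ N ⊓ H0' ≤ Subgroup.map H0'.subtype H1 ⊔ N :=
          sup_le_sup_left inf_le_left _
        exact hle h2
      · rw [eq_bot_iff]
        rintro y ⟨⟨h, hh, rfl⟩, hyM⟩
        rw [Subgroup.mem_bot]
        have h1 : h ∈ H1 ⊓ M.subgroupOf H0' := ⟨hh, hyM⟩
        rw [hH1b, Subgroup.mem_bot] at h1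
        rw [h1]; rfl

theorem result {G : Type*} [Group G] [Finite G] (N M : Subgroup G) [N.Normal] [M.Normal] (hMN : M ≤ N) (hM1 : M ≠ ⊥) (hN2 : N ≠ ⊤)
    (hcam : ∀ g : G, g ∉ N → ∀ m ∈ M, ∃ x : G, x * g * x⁻¹ = g * m) :
    ((∀ x ∈ M, x ≠ 1 → Subgroup.centralizer ({x} : Set G) ≤ N) ↔ N.index.Coprime (Nat.card M)) ∧
    ((∀ x ∈ M, x ≠ 1 → Subgroup.centralizer ({x} : Set G) ≤ N) → ∃ H : Subgroup G, H ⊔ N = ⊤ ∧ H ⊓ M = ⊥) := by
  have h12 : (∀ x ∈ M, x ≠ 1 → Subgroup.centralizer ({x} : Set G) ≤ N) →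
      N.index.Coprime (Nat.card M) := by
    intro h1
    by_contra hnc
    obtain ⟨p, hp, hpd⟩ := Nat.Prime.not_coprime_iff_dvd.mp hnc
    haveI := Fact.mk hp
    obtain ⟨⟨y, hyM⟩, hyo⟩ := exists_prime_orderOf_dvd_card' (G := M) p hpd.2
    rw [Subgroup.orderOf_mk] at hyo
    have hyp : IsPGroup p (Subgroup.zpowers y) :=
      IsPGroup.of_card (n := 1) (by rw [Nat.card_zpowers, hyo, pow_one])
    obtain ⟨P, hP⟩ := hyp.exists_le_sylow
    have hyP : y ∈ (P : Subgroup G) := hP (Subgroup.mem_zpowers y)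
    -- the normal subgroup `M ⊓ P` of `P`
    haveI : Group.IsNilpotent ↥(P : Subgroup G) := P.isPGroup'.isNilpotent
    haveI : (M.subgroupOf (P : Subgroup G)).Normal := Subgroup.normal_subgroupOf
    have hne : M.subgroupOf (P : Subgroup G) ≠ ⊥ := by
      intro h
      have h2 : (⟨y, hyP⟩ : (P : Subgroup G)) ∈ M.subgroupOf (P : Subgroup G) := hyM
      rw [h, Subgroup.mem_bot] at h2
      have h3 : y = 1 := congrArg Subtype.val h2
      rw [h3, orderOf_one] at hyo
      exact hp.one_lt.ne hyo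
    have hcen := Cfsg.Agent.Lib.Lead.normal_inf_center_ne_bot (M.subgroupOf (P : Subgroup G)) hne
    obtain ⟨⟨⟨x, hxP⟩, hx⟩, hx1⟩ := (Subgroup.ne_bot_iff_exists_ne_one).mp hcen
    have hxM : x ∈ M := hx.1
    have hxc := hx.2
    have hx1' : x ≠ 1 := fun h => hx1 (Subtype.ext (Subtype.ext h))
    have hPle : (P : Subgroup G) ≤ N := by
      intro g hg
      apply h1 x hxM hx1'
      rw [Subgroup.mem_centralizer_iff]
      intro z hz
      rw [Set.mem_singleton_iff.mp hz]
      have := (Subgroup.mem_center_iff.mp hxc) ⟨g, hg⟩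
      exact (congrArg Subtype.val this).symm
    apply P.not_dvd_index
    exact hpd.1.trans (Subgroup.index_dvd_of_le hPle)
  have h21 : N.index.Coprime (Nat.card M) →
      (∀ x ∈ M, x ≠ 1 → Subgroup.centralizer ({x} : Set G) ≤ N) := by
    intro hcop x hxM hx1 g hg
    by_contra hgN
    have hmk1 : (QuotientGroup.mk' N g) ≠ 1 := fun h => hgN ((QuotientGroup.eq_one_iff g).mp h)
    have ho1 : orderOf (QuotientGroup.mk' N g) ≠ 1 := fun h => hmk1 (orderOf_eq_one_iff.mp h)
    obtain ⟨q, hq, hqo⟩ := Nat.exists_prime_and_dvd ho1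
    have hqN : q ∣ N.index := by
      rw [Subgroup.index_eq_card]; exact hqo.trans (orderOf_dvd_natCard _)
    have hog : orderOf g ≠ 0 := (orderOf_pos g).ne'
    obtain ⟨m, hm⟩ : ∃ m, m = orderOf g / q ^ (orderOf g).factorization q := ⟨_, rfl⟩
    have hmdvd : m ∣ orderOf g := hm ▸ Nat.div_dvd_of_dvd (Nat.ordProj_dvd _ _)
    have hm0 : m ≠ 0 := fun h => hog (by rw [h] at hmdvd; exact Nat.eq_zero_of_zero_dvd hmdvd)
    have hqm : Nat.Coprime q m := hm ▸ Nat.coprime_ordCompl hq hog
    obtain ⟨y, hy⟩ : ∃ y, y = g ^ m := ⟨_, rfl⟩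
    have hyo : orderOf y = q ^ (orderOf g).factorization q := by
      rw [hy, orderOf_pow_of_dvd hm0 hmdvd, hm]
      exact Nat.div_div_self (Nat.ordProj_dvd _ _) hog
    have hyN : y ∉ N := by
      intro h
      have h1 : (QuotientGroup.mk' N g) ^ m = 1 := by
        rw [← map_pow, ← hy]; exact (QuotientGroup.eq_one_iff y).mpr h
      have h2 : orderOf (QuotientGroup.mk' N g) ∣ m := orderOf_dvd_of_pow_eq_one h1
      exact hq.one_lt.ne' (Nat.Coprime.eq_one_of_dvd hqm (hqo.trans h2))
    have hgx : Commute g x := by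
      have := (Subgroup.mem_centralizer_iff.mp hg) x (Set.mem_singleton x)
      exact this.symm
    have hyx : Commute y x := hy ▸ hgx.pow_left m
    have hox : (orderOf x).Coprime q := by
      have h1 : orderOf x ∣ Nat.card M := by
        have := orderOf_dvd_natCard (⟨x, hxM⟩ : M)
        rwa [Subgroup.orderOf_mk] at this
      have h2 : Nat.Coprime q (Nat.card M) := Nat.Coprime.coprime_dvd_left hqN hcop
      exact (Nat.Coprime.coprime_dvd_right h1 h2).symm
    have h3 := hyx.orderOf_mul_eq_mul_orderOf_of_coprime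
      (by rw [hyo]; exact Nat.Coprime.pow_left _ hox.symm)
    obtain ⟨t, ht⟩ := hcam y hyN x hxM
    have h4 : orderOf (y * x) = orderOf y := by
      rw [← ht]
      have := (MulAut.conj t).orderOf_eq y
      rw [MulAut.conj_apply] at this
      exact this
    rw [h4] at h3
    have h5 : orderOf x = 1 := by
      have h0 : 0 < orderOf y := orderOf_pos _
      have h6 : orderOf y * 1 = orderOf y * orderOf x := by rw [mul_one]; exact h3
      exact (Nat.eq_of_mul_eq_mul_left h0 h6).symm
    exact hx1 (orderOf_eq_one_iff.mp h5)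
  refine ⟨⟨h12, h21⟩, fun h1 => ?_⟩
  exact exists_supp _ G rfl N M inferInstance inferInstance hMN (h12 h1)

end Cfsg.Agent.S4112
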