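import Cfsg.Statements.S4117
import Mathlib
import Cfsg.Agent.Lib.Lead.Coprime

set_option autoImplicit false
open Cfsg

namespace Cfsg.Agent.S4117


open scoped commutatorElement

theorem cyc_mem_zpowers {Q : Type*} [Group Q] [Finite Q] [IsCyclic Q] {p : ℕ} (hp : 0 < p)
    (x y : Q) (hx : orderOf x = p) (hy : y ^ p = 1) : y ∈ Subgroup.zpowers x := by
  classical
  haveI := Fintype.ofFinite Q
  have h := IsCyclic.card_pow_eq_one_le (α := Q) hp
  rw [← Set.ncard_coe_finset] at h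
  have ht : Set.ncard {a : Q | a ^ p = 1} ≤ p := by
    convert h using 2
    ext a; simp
  have hsub : (Subgroup.zpowers x : Set Q) ⊆ {a : Q | a ^ p = 1} := by
    intro z hz
    obtain ⟨i, rfl⟩ := Subgroup.mem_zpowers_iff.1 hz
    show (x ^ i) ^ p = 1
    rw [← zpow_natCast, ← zpow_mul, mul_comm, zpow_mul, zpow_natCast, ← hx, pow_orderOf_eq_one, one_zpow]
  have hs : (Subgroup.zpowers x : Set Q).ncard = p := by
    rw [← Nat.card_coe_set_eq]
    show Nat.card ↥(Subgroup.zpowers x) = p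
    rw [Nat.card_zpowers, hx]
  have heq := Set.eq_of_subset_of_ncard_le hsub (by rw [hs]; exact ht) (Set.toFinite _)
  have hy' : y ∈ {a : Q | a ^ p = 1} := hy
  rw [← heq] at hy'
  exact hy'

/-- Let A be a finite group acting on the finite group G by automorphisms with the orders of A and G coprime, and suppose every Sylow subgroup of G is cyclic. Then the fixed-point subgroup C_G(A) is a Hall subgroup of G (its order is coprime to its index), the subgroup [G, A] generated by the elements g⁻¹·a(g) is cyclic and normal with [G, A] ∩ C_G(A) = 1 and [G, A]·C_G(A) = G. -/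
theorem result {G A : Type*} [Group G] [Finite G] [Group A] [Finite A]
    [MulDistribMulAction A G] (hcop : (Nat.card A).Coprime (Nat.card G))
    (hcyc : ∀ (p : ℕ) [Fact p.Prime] (P : Sylow p G), IsCyclic (P : Subgroup G)) :
    (Nat.card (MulAction.fixedPoints A G : Set G)).Coprime (Nat.card G / Nat.card (MulAction.fixedPoints A G : Set G)) ∧
    IsCyclic (Subgroup.closure {y : G | ∃ (a : A) (g : G), y = g⁻¹ * a • g}) ∧
    (Subgroup.closure {y : G | ∃ (a : A) (g : G), y = g⁻¹ * a • g}).Normal ∧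
    (Subgroup.closure {y : G | ∃ (a : A) (g : G), y = g⁻¹ * a • g} : Set G) ∩ MulAction.fixedPoints A G = {1} ∧
    Subgroup.closure {y : G | ∃ (a : A) (g : G), y = g⁻¹ * a • g} ⊔ Subgroup.closure (MulAction.fixedPoints A G) = ⊤ := by
  haveI hZ : IsZGroup G := ⟨fun p hp P => by haveI := Fact.mk hp; exact hcyc p P⟩
  obtain ⟨K, hKdef⟩ : ∃ K : Subgroup G, K = Subgroup.closure {y : G | ∃ (a : A) (g : G), y = g⁻¹ * a • g} := ⟨_, rfl⟩
  rw [← hKdef]
  have hgen : ∀ (a : A) (g : G), g⁻¹ * a • g ∈ K := fun a g => hKdef ▸ Subgroup.subset_closure ⟨a, g, rfl⟩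
  -- K normal
  have hKn : K.Normal := by
    constructor
    intro n hn h
    have hle : K ≤ Subgroup.comap (MulAut.conj h).toMonoidHom K := by
      refine hKdef.le.trans ((Subgroup.closure_le _).2 ?_)
      rintro _ ⟨a, g, rfl⟩
      show (MulAut.conj h).toMonoidHom (g⁻¹ * a • g) ∈ K
      rw [MulEquiv.coe_toMonoidHom, MulAut.conj_apply]
      have e : h * (g⁻¹ * a • g) * h⁻¹ = ((g * h⁻¹)⁻¹ * a • (g * h⁻¹)) * ((h⁻¹)⁻¹ * a • h⁻¹)⁻¹ := by
        simp only [smul_mul', smul_inv']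
        group
      rw [e]
      exact K.mul_mem (hgen a _) (K.inv_mem (hgen a _))
    have := hle hn
    rwa [Subgroup.mem_comap, MulEquiv.coe_toMonoidHom, MulAut.conj_apply] at this
  -- K is A-invariant
  have hKA : ∀ (a' : A), ∀ n ∈ K, a' • n ∈ K := by
    intro a' n hn
    have hle : K ≤ Subgroup.comap (MulDistribMulAction.toMonoidHom G a') K := by
      refine hKdef.le.trans ((Subgroup.closure_le _).2 ?_)
      rintro _ ⟨a, g, rfl⟩
      show (MulDistribMulAction.toMonoidHom G a') (g⁻¹ * a • g) ∈ K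
      rw [MulDistribMulAction.toMonoidHom_apply]
      have e : a' • (g⁻¹ * a • g) = (a' • g)⁻¹ * (a' * a * a'⁻¹) • (a' • g) := by
        simp only [smul_mul', smul_inv', mul_smul, inv_smul_smul]
      rw [e]
      exact hgen _ _
    have := hle hn
    rwa [Subgroup.mem_comap, MulDistribMulAction.toMonoidHom_apply] at this
  -- the commutator subgroup
  haveI hDc : IsCyclic ↥(commutator G) := IsZGroup.isCyclic_commutator G
  have hDn : (commutator G).Normal := inferInstance
  have hDA : ∀ (a : A), ∀ d ∈ commutator G, a • d ∈ commutator G := by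
    intro a d hd
    have hle : commutator G ≤ Subgroup.comap (MulDistribMulAction.toMonoidHom G a) (commutator G) := by
      rw [commutator_def]
      refine Subgroup.commutator_le.2 (fun g₁ _ g₂ _ => ?_)
      rw [Subgroup.mem_comap, map_commutatorElement]
      exact Subgroup.commutator_mem_commutator (Subgroup.mem_top _) (Subgroup.mem_top _)
    have := hle hd
    rwa [Subgroup.mem_comap, MulDistribMulAction.toMonoidHom_apply] at this
  obtain ⟨⟨δ, hδD⟩, hδ⟩ := IsCyclic.exists_generator (α := ↥(commutator G))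
  have hDgen : ∀ d ∈ commutator G, ∃ j : ℤ, δ ^ j = d := by
    intro d hd
    obtain ⟨j, hj⟩ := Subgroup.mem_zpowers_iff.1 (hδ ⟨d, hd⟩)
    refine ⟨j, ?_⟩
    have := congrArg Subtype.val hj
    rwa [Subgroup.coe_zpow] at this
  have hpow : ∀ h : G, ∃ i : ℤ, ∀ d ∈ commutator G, h * d * h⁻¹ = d ^ i := by
    intro h
    obtain ⟨i, hi⟩ := hDgen (h * δ * h⁻¹) (hDn.conj_mem δ hδD h)
    refine ⟨i, fun d hd => ?_⟩
    obtain ⟨j, rfl⟩ := hDgen d hd
    rw [← conj_zpow, ← hi, ← zpow_mul, ← zpow_mul, mul_comm]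
  have hApow : ∀ a : A, ∃ i : ℤ, ∀ d ∈ commutator G, a • d = d ^ i := by
    intro a
    obtain ⟨i, hi⟩ := hDgen (a • δ) (hDA a δ hδD)
    refine ⟨i, fun d hd => ?_⟩
    obtain ⟨j, rfl⟩ := hDgen d hd
    rw [smul_zpow', ← hi, ← zpow_mul, ← zpow_mul, mul_comm]
  have hcent : ∀ (a : A) (g : G), ∀ d ∈ commutator G, (g⁻¹ * a • g) * d = d * (g⁻¹ * a • g) := by
    intro a g d hd
    obtain ⟨m, hm⟩ := hApow a
    obtain ⟨k, hk⟩ := hApow a⁻¹
    obtain ⟨i, hi⟩ := hpow g
    have h1 : (a • g) * d * (a • g)⁻¹ = a • (g * (a⁻¹ • d) * g⁻¹) := by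
      simp only [smul_mul', smul_inv', smul_inv_smul]
    have h2 : d = (d ^ k) ^ m := by
      have := hm (d ^ k) ((commutator G).zpow_mem hd k)
      rw [← hk d hd, smul_inv_smul, hk d hd] at this
      exact this
    have h3 : (a • g) * d * (a • g)⁻¹ = g * d * g⁻¹ := by
      rw [h1, hk d hd, hi (d ^ k) ((commutator G).zpow_mem hd k),
        hm _ ((commutator G).zpow_mem ((commutator G).zpow_mem hd k) i), hi d hd]
      rw [← zpow_mul, mul_comm i m, zpow_mul, ← h2]
    calc (g⁻¹ * a • g) * d = g⁻¹ * ((a • g) * d * (a • g)⁻¹) * (a • g) := by group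
      _ = g⁻¹ * (g * d * g⁻¹) * (a • g) := by rw [h3]
      _ = d * (g⁻¹ * a • g) := by group
  have hKcent : K ≤ Subgroup.centralizer (commutator G : Set G) := by
    refine hKdef.le.trans ((Subgroup.closure_le _).2 ?_)
    rintro _ ⟨a, g, rfl⟩
    exact Subgroup.mem_centralizer_iff.2 (fun d hd => (hcent a g d (SetLike.mem_coe.1 hd)).symm)
  haveI hKnil : Group.IsNilpotent ↥K := by
    refine Subgroup.isNilpotent_of_ker_le_center (Abelianization.of : ↥K →* Abelianization ↥K) ?_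
    rw [Abelianization.ker_of, commutator_def]
    refine Subgroup.commutator_le.2 (fun k₁ _ k₂ _ => ?_)
    rw [Subgroup.mem_center_iff]
    intro z
    apply Subtype.ext
    have hd : ((⁅k₁, k₂⁆ : ↥K) : G) ∈ commutator G := by
      show ⁅(k₁ : G), (k₂ : G)⁆ ∈ commutator G
      exact Subgroup.commutator_mem_commutator (Subgroup.mem_top _) (Subgroup.mem_top _)
    have := Subgroup.mem_centralizer_iff.1 (hKcent z.2) _ hd
    show (z : G) * ((⁅k₁, k₂⁆ : ↥K) : G) = ((⁅k₁, k₂⁆ : ↥K) : G) * (z : G)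
    exact this.symm
  haveI hKcyc : IsCyclic ↥K := inferInstance
  have hKcomm : ∀ u v : ↥K, u * v = v * u := fun u v => (IsCyclic.commGroup (α := ↥K)).mul_comm u v
  have hcopK : (Nat.card ↥K).Coprime (Nat.card A) :=
    Nat.Coprime.coprime_dvd_left (Subgroup.card_subgroup_dvd_card K) hcop.symm
  have hinj : ∀ u v : ↥K, u ^ (Nat.card A) = v ^ (Nat.card A) → u = v := fun u v h =>
    (powCoprime hcopK).injective h
  classical
  haveI : Fintype A := Fintype.ofFinite A
  letI cg : CommGroup ↥K := { (inferInstance : Group ↥K) with mul_comm := hKcomm }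
  obtain ⟨ψ, hψ⟩ : ∃ ψ : A → ↥K →* ↥K, ∀ a k, ((ψ a k : ↥K) : G) = a • (k : G) :=
    ⟨fun a => ((MulDistribMulAction.toMonoidHom G a).comp K.subtype).codRestrict K (fun k => hKA a k k.2),
      fun a k => rfl⟩
  have hsplit : ∀ g : G, ∃ c ∈ K, g * c ∈ MulAction.fixedPoints A G := by
    intro g
    obtain ⟨κ, hκ⟩ : ∃ κ : A → ↥K, ∀ b, ((κ b : ↥K) : G) = g⁻¹ * b • g :=
      ⟨fun b => ⟨g⁻¹ * b • g, hgen b g⟩, fun b => rfl⟩
    have hcoc : ∀ a b, κ (a * b) = κ a * ψ a (κ b) := by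
      intro a b
      apply Subtype.ext
      rw [Subgroup.coe_mul, hψ, hκ, hκ, hκ]
      simp only [mul_smul, smul_mul', smul_inv']
      group
    obtain ⟨c', hc'⟩ : ∃ c' : ↥K, c' ^ (Nat.card A) = ∏ b : A, κ b :=
      ⟨(powCoprime hcopK).symm (∏ b : A, κ b), (powCoprime hcopK).apply_symm_apply _⟩
    have hkey : ∀ a : A, κ a * ψ a c' = c' := by
      intro a
      apply hinj
      have h1 : ∏ b : A, κ b = ∏ b : A, κ (a * b) := (Equiv.prod_comp (Equiv.mulLeft a) κ).symm
      have h2 : ∏ b : A, κ (a * b) = κ a ^ (Nat.card A) * ψ a (∏ b : A, κ b) := by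
        simp only [hcoc]
        rw [Finset.prod_mul_distrib, Finset.prod_const, Finset.card_univ, ← Nat.card_eq_fintype_card, map_prod]
      rw [mul_pow, ← map_pow, hc', ← h2, ← h1]
    refine ⟨c', c'.2, ?_⟩
    rw [MulAction.mem_fixedPoints]
    intro a
    have h := congrArg Subtype.val (hkey a)
    rw [Subgroup.coe_mul, hψ, hκ] at h
    rw [smul_mul']
    calc a • g * a • (c' : G) = g * (g⁻¹ * a • g * a • (c' : G)) := by group
      _ = g * (c' : G) := by rw [h]
  obtain ⟨ν, hν⟩ : ∃ ν : ↥K →* ↥K, ∀ k, ν k = ∏ a : A, ψ a k :=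
    ⟨∏ a : A, ψ a, fun k => MonoidHom.finsetProd_apply _ _ _⟩
  have hψψ : ∀ a b k, ψ b (ψ a k) = ψ (b * a) k := by
    intro a b k
    apply Subtype.ext
    rw [hψ, hψ, hψ, mul_smul]
  have hνψ : ∀ a k, ν (ψ a k) = ν k := by
    intro a k
    rw [hν, hν]
    simp only [hψψ]
    exact Equiv.prod_comp (Equiv.mulRight a) (fun b => ψ b k)
  have hker : K ≤ (ν.ker).map K.subtype := by
    refine hKdef.le.trans ((Subgroup.closure_le _).2 ?_)
    rintro _ ⟨a, g, rfl⟩
    obtain ⟨c, hc, hfix⟩ := hsplit g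
    refine Subgroup.mem_map.2 ⟨⟨c, hc⟩ * (ψ a ⟨c, hc⟩)⁻¹, ?_, ?_⟩
    · rw [MonoidHom.mem_ker, map_mul, map_inv, hνψ, mul_inv_cancel]
    · simp only [Subgroup.coe_subtype, Subgroup.coe_mul, Subgroup.coe_inv, hψ]
      have h1 : a • (g * c) = g * c := hfix a
      rw [smul_mul'] at h1
      have h2 : a • g = g * c * (a • c)⁻¹ := by rw [← h1]; group
      rw [h2]; group
  have h4 : (K : Set G) ∩ MulAction.fixedPoints A G = {1} := by
    ext y
    constructor
    · rintro ⟨hyK, hyF⟩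
      obtain ⟨k, hk, rfl⟩ := Subgroup.mem_map.1 (hker (SetLike.mem_coe.1 hyK))
      have hk1 : ν k = 1 := MonoidHom.mem_ker.1 hk
      have hfix : ∀ a, ψ a k = k := fun a => Subtype.ext ((hψ a k).trans (hyF a))
      have hk2 : k ^ (Nat.card A) = 1 := by
        rw [← hk1, hν]
        simp only [hfix]
        rw [Finset.prod_const, Finset.card_univ, ← Nat.card_eq_fintype_card]
      have hk3 : k = 1 := hinj k 1 (by rw [hk2, one_pow])
      rw [hk3]; simp
    · intro hy
      rw [Set.mem_singleton_iff] at hy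
      subst hy
      exact ⟨K.one_mem, fun a => smul_one a⟩
  have h5 : K ⊔ Subgroup.closure (MulAction.fixedPoints A G) = ⊤ := by
    refine eq_top_iff.2 (fun g _ => ?_)
    obtain ⟨c, hc, hfix⟩ := hsplit g
    have h := Subgroup.mul_mem _
      (Subgroup.mem_sup_right (Subgroup.subset_closure hfix) :
        g * c ∈ K ⊔ Subgroup.closure (MulAction.fixedPoints A G))
      (Subgroup.mem_sup_left (K.inv_mem hc) : c⁻¹ ∈ K ⊔ Subgroup.closure (MulAction.fixedPoints A G))
    rwa [mul_inv_cancel_right] at h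
  have h1 : (Nat.card (MulAction.fixedPoints A G : Set G)).Coprime
      (Nat.card G / Nat.card (MulAction.fixedPoints A G : Set G)) := by
    obtain ⟨Cs, hCs⟩ : ∃ Cs : Subgroup G, (Cs : Set G) = MulAction.fixedPoints A G :=
      ⟨{ carrier := MulAction.fixedPoints A G
         mul_mem' := fun {x y} hx hy a => by rw [smul_mul', hx a, hy a]
         one_mem' := fun a => smul_one a
         inv_mem' := fun {x} hx a => by rw [smul_inv', hx a] }, rfl⟩
    have hmemCs : ∀ x, x ∈ Cs ↔ ∀ a : A, a • x = x := by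
      intro x
      rw [← SetLike.mem_coe, hCs]
      rfl
    have hcardF : Nat.card (MulAction.fixedPoints A G : Set G) = Nat.card ↥Cs := by
      rw [← hCs]
      rfl
    have hKCs : K ⊓ Cs = ⊥ := by
      rw [eq_bot_iff]
      intro y hy
      have hy' := Subgroup.mem_inf.1 hy
      have : y ∈ (K : Set G) ∩ MulAction.fixedPoints A G := ⟨hy'.1, (hmemCs y).1 hy'.2⟩
      rw [h4] at this
      exact Subgroup.mem_bot.2 this
    have hsup : K ⊔ Cs = ⊤ := by
      have : Subgroup.closure (MulAction.fixedPoints A G) = Cs := by rw [← hCs, Subgroup.closure_eq]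
      rw [← this]; exact h5
    have hcardG : Nat.card G = Nat.card ↥K * Nat.card ↥Cs := by
      have := Cfsg.Agent.Lib.Lead.card_sup_of_le_normalizer (N := K) (H := Cs)
        (by rw [Subgroup.normalizer_eq_top]; exact le_top) hKCs
      rw [hsup, Subgroup.card_top] at this
      exact this
    rw [hcardF, hcardG, Nat.mul_div_cancel _ Nat.card_pos]
    refine Nat.coprime_of_dvd (fun p hp hpC hpK => ?_)
    haveI := Fact.mk hp
    obtain ⟨x', hx'⟩ := exists_prime_orderOf_dvd_card' p hpC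
    obtain ⟨y', hy'⟩ := exists_prime_orderOf_dvd_card' p hpK
    obtain ⟨x, hxC, hx⟩ : ∃ x : G, x ∈ Cs ∧ orderOf x = p :=
      ⟨x', x'.2, (Subgroup.orderOf_coe x').trans hx'⟩
    obtain ⟨y, hyK, hy⟩ : ∃ y : G, y ∈ K ∧ orderOf y = p :=
      ⟨y', y'.2, (Subgroup.orderOf_coe y').trans hy'⟩
    have hyp : y ^ p = 1 := by rw [← hy]; exact pow_orderOf_eq_one y
    obtain ⟨T, hT⟩ : ∃ T : Subgroup G, ∀ z, z ∈ T ↔ z ∈ K ∧ z ^ p = 1 :=
      ⟨{ carrier := {z | z ∈ K ∧ z ^ p = 1}
         mul_mem' := fun {u v} hu hv => ⟨K.mul_mem hu.1 hv.1, by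
           have hc : Commute u v := congrArg Subtype.val (hKcomm ⟨u, hu.1⟩ ⟨v, hv.1⟩)
           rw [hc.mul_pow, hu.2, hv.2, one_mul]⟩
         one_mem' := ⟨K.one_mem, one_pow p⟩
         inv_mem' := fun {u} hu => ⟨K.inv_mem hu.1, by rw [inv_pow, hu.2, inv_one]⟩ }, fun z => Iff.rfl⟩
    haveI hTn : T.Normal := by
      constructor
      intro n hn g
      rw [hT] at hn ⊢
      exact ⟨hKn.conj_mem n hn.1 g, by rw [conj_pow, hn.2, mul_one, mul_inv_cancel]⟩
    have hTp : IsPGroup p ↥T := by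
      intro t
      refine ⟨1, Subtype.ext ?_⟩
      rw [pow_one, Subgroup.coe_pow, Subgroup.coe_one]
      exact ((hT _).1 t.2).2
    have hZp : IsPGroup p ↥(Subgroup.zpowers x) :=
      IsPGroup.of_card (n := 1) (by rw [Nat.card_zpowers, hx, pow_one])
    obtain ⟨Q, hQdef⟩ : ∃ Q : Subgroup G, Q = Subgroup.zpowers x ⊔ T := ⟨_, rfl⟩
    have hQp : IsPGroup p ↥Q := by rw [hQdef]; exact IsPGroup.to_sup_of_normal_right hZp hTp
    haveI hQc : IsCyclic ↥Q := IsPGroup.isCyclic_of_isZGroup hQp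
    have hxQ : x ∈ Q := by rw [hQdef]; exact Subgroup.mem_sup_left (Subgroup.mem_zpowers x)
    have hyQ : y ∈ Q := by rw [hQdef]; exact Subgroup.mem_sup_right ((hT y).2 ⟨hyK, hyp⟩)
    have hmain : (⟨y, hyQ⟩ : ↥Q) ∈ Subgroup.zpowers (⟨x, hxQ⟩ : ↥Q) :=
      cyc_mem_zpowers hp.pos _ _ ((Subgroup.orderOf_coe (⟨x, hxQ⟩ : ↥Q)).symm.trans hx)
        (Subtype.ext (by rw [Subgroup.coe_pow, Subgroup.coe_one]; exact hyp))
    obtain ⟨i, hi⟩ := Subgroup.mem_zpowers_iff.1 hmain
    have hi' : x ^ i = y := by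
      have := congrArg Subtype.val hi
      rwa [Subgroup.coe_zpow] at this
    have hyCs : y ∈ Cs := by rw [← hi']; exact Cs.zpow_mem hxC i
    have hy1 : y = 1 := by
      have : y ∈ (K : Set G) ∩ MulAction.fixedPoints A G := ⟨hyK, (hmemCs y).1 hyCs⟩
      rw [h4] at this
      exact this
    rw [hy1, orderOf_one] at hy
    exact hp.one_lt.ne hy
  exact ⟨h1, hKcyc, hKn, h4, h5⟩

end Cfsg.Agent.S4117
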