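import Cfsg.Statements.S4126
import Mathlib
import Cfsg.Agent.Lib.Helper6.FrobNC
import Cfsg.Agent.Lib.Helper6.OmegaCent
import Cfsg.Agent.Lib.Helper6.NormGrow
import Cfsg.Agent.Lib.Helper1.SylowSystem

set_option autoImplicit false
open Cfsg

namespace Cfsg.Agent.S4126


open Cfsg.Agent.Lib.Helper6
open scoped commutatorElement

/-- elements of order dividing `p` (or `4` when `p = 2`) -/
theorem small_cases {G : Type*} [Group G] {p : ℕ} [Fact p.Prime] (x : G)
    (hx : x ^ p = 1 ∨ (p = 2 ∧ x ^ 4 = 1)) :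
    x = 1 ∨ orderOf x = p ∨ (p = 2 ∧ orderOf x = 4) := by
  have hp : p.Prime := Fact.out
  rcases hx with h | ⟨h2, h4⟩
  · rcases (Nat.dvd_prime hp).mp (orderOf_dvd_of_pow_eq_one h) with h1 | h1
    · exact Or.inl (orderOf_eq_one_iff.mp h1)
    · exact Or.inr (Or.inl h1)
  · have h1 : orderOf x ∣ 2 ^ 2 := orderOf_dvd_of_pow_eq_one (by norm_num; exact h4)
    obtain ⟨m, hm, hm2⟩ := (Nat.dvd_prime_pow Nat.prime_two).mp h1
    interval_cases m
    · exact Or.inl (orderOf_eq_one_iff.mp (by simpa using hm2))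
    · exact Or.inr (Or.inl (by rw [hm2, h2]; norm_num))
    · exact Or.inr (Or.inr ⟨h2, by rw [hm2]; norm_num⟩)

/-- the key claim: elements of order `p` (or `4`) with `p`-power class size commute with all
`p'`-elements -/
theorem key {G : Type*} [Group G] [Finite G] (p : ℕ) [Fact p.Prime]
    (h : ∀ x : G, (orderOf x = p ∨ (p = 2 ∧ orderOf x = 4)) →
      ∃ a : ℕ, (Subgroup.centralizer ({x} : Set G)).index = p ^ a) :
    ∀ (k : ℕ) (x : G), (orderOf x = p ∨ (p = 2 ∧ orderOf x = 4)) →
      Nat.card (Subgroup.normalClosure ({x} : Set G)) = k →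
      ∀ g : G, (orderOf g).Coprime p → g * x * g⁻¹ = x := by
  have hp : p.Prime := Fact.out
  intro k
  induction k using Nat.strong_induction_on with
  | _ k ih =>
  intro x hx hk g hg
  obtain ⟨a, ha⟩ := h x hx
  have hxo : ∃ j : ℕ, orderOf x = p ^ j := by
    rcases hx with h1 | ⟨h2, h4⟩
    · exact ⟨1, by rw [h1, pow_one]⟩
    · exact ⟨2, by rw [h4, h2]; norm_num⟩
  obtain ⟨j, hj⟩ := hxo
  have hx1 : x ≠ 1 := by
    intro h1
    rw [h1, orderOf_one] at hx
    rcases hx with h1 | ⟨_, h4⟩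
    · exact hp.one_lt.ne' h1.symm
    · omega
  have hzp : IsPGroup p (Subgroup.zpowers x) := by
    apply IsPGroup.of_card (n := j)
    rw [Nat.card_zpowers, hj]
  obtain ⟨P, hP⟩ := hzp.exists_le_sylow
  have hxP : x ∈ (P : Subgroup G) := hP (Subgroup.mem_zpowers x)
  have hcopidx : (P : Subgroup G).index.Coprime (Subgroup.centralizer ({x} : Set G)).index := by
    rw [ha]
    exact Nat.Coprime.pow_right a ((Nat.Prime.coprime_iff_not_dvd hp).mpr P.not_dvd_index).symm
  have hconj : ∀ c : G, ∃ u ∈ (P : Subgroup G), c * x * c⁻¹ = u * x * u⁻¹ := by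
    intro c
    obtain ⟨u, hu, b, hb, hub⟩ := Cfsg.Agent.Lib.Helper1.exists_mul_of_coprime_index
      (P : Subgroup G) (Subgroup.centralizer ({x} : Set G)) hcopidx c
    refine ⟨u, hu, ?_⟩
    have hbx : b * x = x * b := Subgroup.mem_centralizer_singleton_iff.mp hb
    rw [hub]
    calc u * b * x * (u * b)⁻¹ = u * (b * x) * b⁻¹ * u⁻¹ := by group
      _ = u * (x * b) * b⁻¹ * u⁻¹ := by rw [hbx]
      _ = u * x * u⁻¹ := by group
  obtain ⟨M, hM⟩ : ∃ M : Subgroup G, M = Subgroup.normalClosure ({x} : Set G) := ⟨_, rfl⟩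
  rw [← hM] at hk
  haveI hMn : M.Normal := by rw [hM]; exact Subgroup.normalClosure_normal
  have hxM : x ∈ M := by rw [hM]; exact Subgroup.subset_normalClosure (Set.mem_singleton x)
  have hMP : M ≤ (P : Subgroup G) := by
    rw [hM]
    show Subgroup.closure (Group.conjugatesOfSet ({x} : Set G)) ≤ (P : Subgroup G)
    rw [Subgroup.closure_le]
    intro m hm
    obtain ⟨x', hx', hc⟩ := Group.mem_conjugatesOfSet_iff.mp hm
    rw [Set.mem_singleton_iff] at hx'
    subst hx'
    obtain ⟨c, rfl⟩ := isConj_iff.mp hc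
    obtain ⟨u, hu, hcu⟩ := hconj c
    rw [SetLike.mem_coe, hcu]
    exact mul_mem (mul_mem hu hxP) (inv_mem hu)
  have hMp : IsPGroup p M := P.isPGroup'.to_le hMP
  have hM1 : M ≠ ⊥ := by
    intro hb
    rw [hb, Subgroup.mem_bot] at hxM
    exact hx1 hxM
  have hPM : (P : Subgroup G) ≤ Subgroup.normalizer (M : Set G) := by
    rw [Subgroup.normalizer_eq_top_iff.mpr hMn]; exact le_top
  have hlt : ⁅M, (P : Subgroup G)⁆ < M :=
    Cfsg.Agent.Lib.Lead.commutator_lt_of_pgroups hMp P.isPGroup' hPM hM1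
  have hPnorm : (P : Subgroup G) ≤ Subgroup.normalizer ((⁅M, (P : Subgroup G)⁆ : Subgroup G) : Set G) :=
    Cfsg.Agent.Lib.Lead.le_normalizer_commutator_right M (P : Subgroup G)
  have hcj : ∀ m ∈ M, ∀ t ∈ ⁅M, (P : Subgroup G)⁆, m * t * m⁻¹ ∈ ⁅M, (P : Subgroup G)⁆ := by
    intro m hm t ht
    exact (Subgroup.mem_normalizer_iff.mp (hPnorm (hMP hm)) t).mp ht
  have hN1le : ⁅M, (⊤ : Subgroup G)⁆ ≤ ⁅M, (P : Subgroup G)⁆ := by
    rw [Subgroup.commutator_le]
    intro m hm c _
    have hm' : m ∈ Subgroup.closure (Group.conjugatesOfSet ({x} : Set G)) := by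
      rw [hM] at hm; exact hm
    induction hm' using Subgroup.closure_induction with
    | mem y hy =>
      obtain ⟨x', hx', hc⟩ := Group.mem_conjugatesOfSet_iff.mp hy
      rw [Set.mem_singleton_iff] at hx'
      subst hx'
      obtain ⟨d, rfl⟩ := isConj_iff.mp hc
      obtain ⟨u, hu, hdu⟩ := hconj d
      obtain ⟨u', hu', hdu'⟩ := hconj (c * d)
      have e : ⁅d * x' * d⁻¹, c⁆ = ⁅x', u⁆⁻¹ * ⁅x', u'⁆ := by
        have e1 : ⁅d * x' * d⁻¹, c⁆ = (d * x' * d⁻¹) * (c * d * x' * (c * d)⁻¹)⁻¹ := by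
          rw [commutatorElement_def]; group
        rw [e1, hdu, hdu', commutatorElement_def, commutatorElement_def]; group
      rw [e]
      exact mul_mem (inv_mem (Subgroup.commutator_mem_commutator hxM hu))
        (Subgroup.commutator_mem_commutator hxM hu')
    | one =>
      have e : ⁅(1 : G), c⁆ = 1 := by rw [commutatorElement_def]; group
      rw [e]; exact one_mem _
    | mul y z hy hz ihy ihz =>
      have hyM : y ∈ M := by rw [hM]; exact hy
      have hzM : z ∈ M := by rw [hM]; exact hz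
      have e : ⁅y * z, c⁆ = y * ⁅z, c⁆ * y⁻¹ * ⁅y, c⁆ := by
        rw [commutatorElement_def, commutatorElement_def, commutatorElement_def]; group
      rw [e]
      exact mul_mem (hcj y hyM _ (ihz hzM)) (ihy hyM)
    | inv y hy ihy =>
      have hyM : y ∈ M := by rw [hM]; exact hy
      have e : ⁅y⁻¹, c⁆ = y⁻¹ * ⁅y, c⁆⁻¹ * y⁻¹⁻¹ := by
        rw [commutatorElement_def, commutatorElement_def]; group
      rw [e]
      exact hcj y⁻¹ (inv_mem hyM) _ (inv_mem (ihy hyM))
  obtain ⟨N₁, hN₁⟩ : ∃ N₁ : Subgroup G, N₁ = ⁅M, (⊤ : Subgroup G)⁆ := ⟨_, rfl⟩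
  haveI hN₁n : N₁.Normal := by rw [hN₁]; exact Subgroup.commutator_normal M ⊤
  have hN₁lt : N₁ < M := by rw [hN₁]; exact lt_of_le_of_lt hN1le hlt
  have hN₁card : Nat.card N₁ < k := by
    rw [← hk]
    exact Cfsg.Agent.Lib.Helper6.card_lt_card_of_lt hN₁lt
  have hN₁p : IsPGroup p N₁ := hMp.to_le hN₁lt.le
  -- `A = ⟨g⟩`
  have hA : (Nat.card (Subgroup.zpowers g)).Coprime p := by rw [Nat.card_zpowers]; exact hg
  have hAN₁ : Subgroup.zpowers g ≤ Subgroup.normalizer (N₁ : Set G) := by
    rw [Subgroup.normalizer_eq_top_iff.mpr hN₁n]; exact le_top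
  have hAM : Subgroup.zpowers g ≤ Subgroup.normalizer (M : Set G) := by
    rw [Subgroup.normalizer_eq_top_iff.mpr hMn]; exact le_top
  have hcent := centralizes_of_centralizes_omega (Subgroup.zpowers g) N₁ hA hN₁p hAN₁ (by
    intro y hy hy2 b hb
    rcases small_cases y hy2 with h1 | h1
    · rw [h1]; group
    · have hle : Subgroup.normalClosure ({y} : Set G) ≤ N₁ :=
        Subgroup.normalClosure_le_normal (by
          intro z hz
          rw [Set.mem_singleton_iff] at hz
          rw [hz]; exact hy)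
      have hcard : Nat.card (Subgroup.normalClosure ({y} : Set G)) < k :=
        lt_of_le_of_lt (Subgroup.card_le_of_le hle) hN₁card
      have hbo : (orderOf b).Coprime p :=
        Nat.Coprime.coprime_dvd_left (orderOf_dvd_of_mem_zpowers hb) hg
      exact ih _ hcard y h1 rfl b hbo)
  have h1 : ⁅N₁, Subgroup.zpowers g⁆ = ⊥ := by
    rw [Subgroup.commutator_comm]
    exact Subgroup.commutator_eq_bot_iff_le_centralizer.mpr hcent
  have h2 : ⁅M, Subgroup.zpowers g⁆ ≤ N₁ := by
    rw [hN₁]; exact Subgroup.commutator_mono le_rfl le_top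
  have h3 : ⁅⁅M, Subgroup.zpowers g⁆, Subgroup.zpowers g⁆ = ⊥ := by
    rw [eq_bot_iff, ← h1]
    exact Subgroup.commutator_mono h2 le_rfl
  haveI : Group.IsNilpotent M := hMp.isNilpotent
  have hcop : (Nat.card (Subgroup.zpowers g)).Coprime (Nat.card M) := by
    obtain ⟨e, he⟩ := hMp.exists_card_eq
    rw [he]; exact hA.pow_right e
  have hcc := Cfsg.Agent.Lib.Lead.commutator_commutator_eq_of_coprime (Subgroup.zpowers g) M hAM hcop
    (Or.inr inferInstance)
  rw [h3] at hcc
  have h4 : M ≤ Subgroup.centralizer ((Subgroup.zpowers g : Subgroup G) : Set G) :=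
    Subgroup.commutator_eq_bot_iff_le_centralizer.mp hcc.symm
  have h5 := (Subgroup.mem_centralizer_iff.mp (h4 hxM)) g (Subgroup.mem_zpowers g)
  rw [h5, mul_inv_cancel_right]

/-- Let G be a finite group and p a prime. Suppose every element of order p, and when p = 2 also every element of order 4, has a conjugacy class of p-power size. Then G has a normal p-complement. -/
theorem result {G : Type*} [Group G] [Finite G] (p : ℕ) [Fact p.Prime]
    (h : ∀ x : G, (orderOf x = p ∨ (p = 2 ∧ orderOf x = 4)) → ∃ a : ℕ, (Subgroup.centralizer ({x} : Set G)).index = p ^ a) :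
    Cfsg.HasNormalPComplement p G := by
  apply frobenius_npc
  intro Q hQ g hg hcop
  have hA : (Nat.card (Subgroup.zpowers g)).Coprime p := by rw [Nat.card_zpowers]; exact hcop
  have hAP : Subgroup.zpowers g ≤ Subgroup.normalizer (Q : Set G) := Subgroup.zpowers_le.mpr hg
  have hkey := centralizes_of_centralizes_omega (Subgroup.zpowers g) Q hA hQ hAP ?_
  · exact hkey (Subgroup.mem_zpowers g)
  · intro x hx hx2 a ha
    rcases small_cases x hx2 with h1 | h1
    · rw [h1]; group
    · have hao : (orderOf a).Coprime p :=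
        Nat.Coprime.coprime_dvd_left (orderOf_dvd_of_mem_zpowers ha) hcop
      exact key p h _ x h1 rfl a hao

end Cfsg.Agent.S4126
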