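import Cfsg.Statements.S4127
import Mathlib
import Cfsg.Agent.Lib.Helper6.FrobNC
import Cfsg.Agent.Lib.Helper6.PClass
import Cfsg.Agent.Lib.Helper6.RealElt
import Cfsg.Agent.Lib.Lead.PQ
import Cfsg.Agent.Lib.Helper1.SylowSystem

set_option autoImplicit false
open Cfsg

namespace Cfsg.Agent.S4127


open Cfsg.Agent.Lib.Helper6
open scoped commutatorElement

/-- a normal `p'`-subgroup of the right order is a complement of every Sylow `p`-subgroup -/
theorem isComplement'_of_card {G : Type*} [Group G] [Finite G] {p : ℕ} [Fact p.Prime]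
    (P : Sylow p G) (H : Subgroup G) (hcop : (Nat.card H).Coprime p) (e : ℕ)
    (hcG : Nat.card G = Nat.card H * p ^ e) : H.IsComplement' (P : Subgroup G) := by
  have hp : p.Prime := Fact.out
  have hPcard : Nat.card (P : Subgroup G) = p ^ e := by
    obtain ⟨a, ha⟩ := P.isPGroup'.exists_card_eq
    have h1 : p ^ a ∣ Nat.card H * p ^ e := by
      rw [← hcG, ← ha]; exact Subgroup.card_subgroup_dvd_card _
    have h2 : p ^ a ∣ p ^ e :=
      (Nat.Coprime.pow_left a hcop.symm).dvd_of_dvd_mul_left h1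
    have h3 : p ^ e ∣ Nat.card (P : Subgroup G) * (P : Subgroup G).index := by
      rw [Subgroup.card_mul_index, hcG]; exact Dvd.intro_left _ rfl
    have h4 : p ^ e ∣ p ^ a := by
      rw [ha] at h3
      exact (Nat.Coprime.pow_left e
        ((Nat.Prime.coprime_iff_not_dvd hp).mpr P.not_dvd_index)).dvd_of_dvd_mul_right h3
    rw [ha]
    exact Nat.dvd_antisymm h2 h4
  apply Subgroup.isComplement'_of_coprime
  · rw [hPcard, hcG]
  · rw [hPcard]
    exact Nat.Coprime.pow_right _ hcop

/-- commuting elements of coprime orders: the centralizer of the product -/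
theorem centralizes_of_centralizes_mul {G : Type*} [Group G] [Finite G] (x y g : G)
    (hxy : x * y = y * x) (hcop : (orderOf x).Coprime (orderOf y))
    (hg : g * (x * y) = (x * y) * g) : g * x = x * g ∧ g * y = y * g := by
  obtain ⟨m, hm1, hm2⟩ := Nat.chineseRemainder hcop 1 0
  have hxm : x ^ m = x := by
    have := (pow_eq_pow_iff_modEq (x := x) (n := m) (m := 1)).mpr hm1
    rw [pow_one] at this
    exact this
  have hym : y ^ m = 1 := by
    obtain ⟨c, rfl⟩ := (Nat.modEq_zero_iff_dvd).mp hm2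
    rw [pow_mul, pow_orderOf_eq_one, one_pow]
  have hc : Commute x y := hxy
  have hpow : (x * y) ^ m = x := by rw [hc.mul_pow, hxm, hym, mul_one]
  have hgc : Commute g (x * y) := hg
  have h1 : g * x = x * g := by
    have h2 : Commute g ((x * y) ^ m) := hgc.pow_right m
    rw [hpow] at h2
    exact h2.eq
  refine ⟨h1, ?_⟩
  have e : y = x⁻¹ * (x * y) := by group
  calc g * y = g * (x⁻¹ * (x * y)) := by rw [← e]
    _ = x⁻¹ * (g * x) * x⁻¹ * (x * y) := by rw [h1]; group
    _ = x⁻¹ * (g * (x * y)) := by group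
    _ = x⁻¹ * ((x * y) * g) := by rw [hg]
    _ = y * g := by group

/-- Let G be a finite group, p a prime and p^a the largest power of p dividing the size of any conjugacy class of G. If some element of p-power order has a conjugacy class of size exactly p^a, then G has a normal p-complement. -/
theorem result {G : Type*} [Group G] [Finite G] (p : ℕ) [Fact p.Prime]
    (a : ℕ) (hmax : ∀ y : G, ¬ p ^ (a + 1) ∣ (Subgroup.centralizer ({y} : Set G)).index)
    (hx : ∃ x : G, (∃ k : ℕ, orderOf x = p ^ k) ∧ (Subgroup.centralizer ({x} : Set G)).index = p ^ a) :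
    Cfsg.HasNormalPComplement p G := by
  have hp : p.Prime := Fact.out
  obtain ⟨x, ⟨k, hk⟩, hidx⟩ := hx
  obtain ⟨C, hC⟩ : ∃ C : Subgroup G, C = Subgroup.centralizer ({x} : Set G) := ⟨_, rfl⟩
  rw [← hC] at hidx
  have hmemC : ∀ s : G, s ∈ C ↔ s * x = x * s := by
    intro s; rw [hC, Subgroup.mem_centralizer_singleton_iff]
  -- step 1: class sizes of `p'`-elements of `C`
  have hreg : PRegIdx p ↥C := by
    intro y hy hdvd
    have hyx : x * (y : G) = (y : G) * x := ((hmemC _).mp y.2).symm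
    have hcop : (orderOf x).Coprime (orderOf (y : G)) := by
      rw [hk, Subgroup.orderOf_coe]
      exact Nat.Coprime.pow_left k hy.symm
    have hle : Subgroup.centralizer ({x * (y : G)} : Set G) ≤
        (Subgroup.centralizer ({y} : Set ↥C)).map C.subtype := by
      intro g hg
      have hg' : g * (x * (y : G)) = (x * (y : G)) * g := Subgroup.mem_centralizer_singleton_iff.mp hg
      obtain ⟨h1, h2⟩ := centralizes_of_centralizes_mul x (y : G) g hyx hcop hg'
      refine ⟨⟨g, (hmemC g).mpr h1⟩, ?_, rfl⟩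
      exact Subgroup.mem_centralizer_singleton_iff.mpr (Subtype.ext h2)
    have h1 := Subgroup.index_dvd_of_le hle
    rw [Subgroup.index_map_subtype, hidx] at h1
    apply hmax (x * (y : G))
    refine dvd_trans ?_ h1
    rw [pow_succ, mul_comm]
    exact Nat.mul_dvd_mul_right hdvd _
  have hcommC : ∀ w y : ↥C, (∃ k : ℕ, orderOf w = p ^ k) → (orderOf y).Coprime p → w * y = y * w :=
    fun w y hw hy => commute_of_pRegIdx hreg w y hw hy
  -- step 2: normal `p`-complement of `C`
  have hnpcC : Cfsg.HasNormalPComplement p ↥C := by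
    apply frobenius_npc
    intro Q hQ g _ hcop
    rw [Subgroup.mem_centralizer_iff]
    intro q hq
    obtain ⟨j, hj⟩ := (IsPGroup.iff_orderOf.mp hQ) ⟨q, hq⟩
    rw [Subgroup.orderOf_mk] at hj
    exact hcommC q g ⟨j, hj⟩ hcop
  obtain ⟨PC, K, hKn, hKc⟩ := hnpcC
  have hKcard : Nat.card K = (PC : Subgroup ↥C).index := hKc.index_eq_card.symm
  have hKcop : (Nat.card K).Coprime p := by
    rw [hKcard]
    exact ((Nat.Prime.coprime_iff_not_dvd hp).mpr PC.not_dvd_index).symm
  have hKidx : K.index = Nat.card (PC : Subgroup ↥C) := hKc.symm.index_eq_card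
  have hmemK : ∀ y : ↥C, (orderOf y).Coprime p → y ∈ K := by
    intro y hy
    rw [← QuotientGroup.eq_one_iff]
    have h1 : (QuotientGroup.mk y : ↥C ⧸ K) ^ orderOf y = 1 := by
      rw [← QuotientGroup.mk_pow, pow_orderOf_eq_one]; rfl
    have h2 : (QuotientGroup.mk y : ↥C ⧸ K) ^ Nat.card (↥C ⧸ K) = 1 := pow_card_eq_one'
    have h3 : (orderOf y).Coprime (Nat.card (↥C ⧸ K)) := by
      rw [← Subgroup.index_eq_card, hKidx, Sylow.card_eq_multiplicity]
      exact Nat.Coprime.pow_right _ hy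
    have h4 := pow_gcd_eq_one.mpr ⟨h1, h2⟩
    rwa [Nat.Coprime.gcd_eq_one h3, pow_one] at h4
  have hordK : ∀ y : ↥C, y ∈ K → (orderOf y).Coprime p := by
    intro y hy
    have h1 : orderOf (⟨y, hy⟩ : K) ∣ Nat.card K := orderOf_dvd_natCard _
    rw [Subgroup.orderOf_mk] at h1
    exact Nat.Coprime.coprime_dvd_left h1 hKcop
  -- step 3: the normal closure of `x` is a `p`-group
  have hzp : IsPGroup p (Subgroup.zpowers x) := by
    apply IsPGroup.of_card (n := k)
    rw [Nat.card_zpowers, hk]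
  obtain ⟨P, hP⟩ := hzp.exists_le_sylow
  have hxP : x ∈ (P : Subgroup G) := hP (Subgroup.mem_zpowers x)
  have hcopidx : (P : Subgroup G).index.Coprime C.index := by
    rw [hidx]
    exact Nat.Coprime.pow_right a ((Nat.Prime.coprime_iff_not_dvd hp).mpr P.not_dvd_index).symm
  have hconj : ∀ c : G, ∃ u ∈ (P : Subgroup G), c * x * c⁻¹ = u * x * u⁻¹ := by
    intro c
    obtain ⟨u, hu, b, hb, hub⟩ := Cfsg.Agent.Lib.Helper1.exists_mul_of_coprime_index
      (P : Subgroup G) C hcopidx c
    refine ⟨u, hu, ?_⟩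
    have hbx : b * x = x * b := (hmemC b).mp hb
    rw [hub]
    calc u * b * x * (u * b)⁻¹ = u * (b * x) * b⁻¹ * u⁻¹ := by group
      _ = u * (x * b) * b⁻¹ * u⁻¹ := by rw [hbx]
      _ = u * x * u⁻¹ := by group
  obtain ⟨M, hM⟩ : ∃ M : Subgroup G, M = Subgroup.normalClosure ({x} : Set G) := ⟨_, rfl⟩
  haveI hMn : M.Normal := by rw [hM]; exact Subgroup.normalClosure_normal
  have hxM : x ∈ M := by rw [hM]; exact Subgroup.subset_normalClosure (Set.mem_singleton x)
  have hMP : M ≤ (P : Subgroup G) := by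
    rw [hM]
    show Subgroup.closure (Group.conjugatesOfSet ({x} : Set G)) ≤ (P : Subgroup G)
    rw [Subgroup.closure_le]
    intro m hm
    obtain ⟨x', hx', hc⟩ := Group.mem_conjugatesOfSet_iff.mp hm
    rw [Set.mem_singleton_iff] at hx'
    subst hx'
    obtain ⟨c, rfl⟩ := isConj_iff.mp hc
    obtain ⟨u, hu, hcu⟩ := hconj c
    rw [SetLike.mem_coe, hcu]
    exact mul_mem (mul_mem hu hxP) (inv_mem hu)
  have hMp : IsPGroup p M := P.isPGroup'.to_le hMP
  have hnormM : ∀ T : Subgroup G, T ≤ Subgroup.normalizer (M : Set G) := by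
    intro T
    rw [Subgroup.normalizer_eq_top_iff.mpr hMn]; exact le_top
  -- step 4: `H` centralizes `M`
  obtain ⟨H, hH⟩ : ∃ H : Subgroup G, H = K.map C.subtype := ⟨_, rfl⟩
  have hHcard : Nat.card H = Nat.card K := by
    rw [hH]; exact Subgroup.card_map_of_injective C.subtype_injective
  have hHcop : (Nat.card H).Coprime p := by rw [hHcard]; exact hKcop
  have hHx : ∀ h ∈ H, h * x = x * h := by
    intro h hh
    rw [hH] at hh
    obtain ⟨k', -, rfl⟩ := hh
    exact (hmemC _).mp k'.2
  have hPQ : Subgroup.zpowers x ≤ Subgroup.centralizer (H : Set G) := by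
    rw [Subgroup.zpowers_le, Subgroup.mem_centralizer_iff]
    exact hHx
  have hcond : M ⊓ Subgroup.centralizer ((Subgroup.zpowers x : Subgroup G) : Set G) ≤
      Subgroup.centralizer (H : Set G) := by
    intro m hm
    obtain ⟨hmM, hmc⟩ := Subgroup.mem_inf.mp hm
    have hmx : m * x = x * m :=
      ((Subgroup.mem_centralizer_iff.mp hmc) x (Subgroup.mem_zpowers x)).symm
    have hmC : m ∈ C := (hmemC m).mpr hmx
    obtain ⟨j, hj⟩ := (IsPGroup.iff_orderOf.mp hMp) ⟨m, hmM⟩
    rw [Subgroup.orderOf_mk] at hj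
    rw [Subgroup.mem_centralizer_iff]
    intro h hh
    rw [hH] at hh
    obtain ⟨k', hk', rfl⟩ := hh
    have h1 := hcommC ⟨m, hmC⟩ k' ⟨j, by rw [Subgroup.orderOf_mk]; exact hj⟩ (hordK k' hk')
    exact (congrArg Subtype.val h1).symm
  have hbot := Cfsg.Agent.Lib.Lead.thompson_pq p (Subgroup.zpowers x) H hzp hHcop hPQ _ M rfl hMp
    (hnormM _) (hnormM _) hcond
  have hMH : M ≤ Subgroup.centralizer (H : Set G) :=
    Subgroup.commutator_eq_bot_iff_le_centralizer.mp hbot
  -- step 5: `H` is normal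
  have hHn : H.Normal := by
    constructor
    intro h hh g
    have hgx : g⁻¹ * x * g ∈ M := by
      have := hMn.conj_mem x hxM g⁻¹
      rwa [inv_inv] at this
    have h1 : h * (g⁻¹ * x * g) = (g⁻¹ * x * g) * h :=
      (Subgroup.mem_centralizer_iff.mp (hMH hgx)) h hh
    have h2 : (g * h * g⁻¹) * x = x * (g * h * g⁻¹) := by
      calc (g * h * g⁻¹) * x = g * (h * (g⁻¹ * x * g)) * g⁻¹ := by group
        _ = g * ((g⁻¹ * x * g) * h) * g⁻¹ := by rw [h1]
        _ = x * (g * h * g⁻¹) := by group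
    have hC' : g * h * g⁻¹ ∈ C := (hmemC _).mpr h2
    rw [hH] at hh ⊢
    obtain ⟨k', hk', rfl⟩ := hh
    refine ⟨⟨g * (k' : G) * g⁻¹, hC'⟩, hmemK _ ?_, rfl⟩
    rw [← Subgroup.orderOf_coe]
    show (orderOf (g * (k' : G) * g⁻¹)).Coprime p
    rw [orderOf_conj_eq, Subgroup.orderOf_coe]
    exact hordK k' hk'
  -- step 6: cardinalities
  obtain ⟨j, hj⟩ := PC.isPGroup'.exists_card_eq
  have hcG : Nat.card G = Nat.card H * p ^ (j + a) := by
    rw [← Subgroup.card_mul_index C, hidx, ← hKc.card_mul_card, hj, hHcard, pow_add, mul_assoc]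
  exact ⟨P, H, hHn, isComplement'_of_card P H hHcop (j + a) hcG⟩

end Cfsg.Agent.S4127
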