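import Cfsg.Statements.S4142
import Cfsg.Agent.Lib.Helper6.RealElt

set_option autoImplicit false
open Cfsg

namespace Cfsg.Agent.S4142

theorem mem_orbit_iff {H : Type*} [Group H] (a y : H) :
    y ∈ MulAction.orbit (ConjAct H) a ↔ ∃ x : H, x * a * x⁻¹ = y := by
  rw [ConjAct.mem_orbit_conjAct, isConj_comm, isConj_iff]

open Cfsg.Agent.Lib.Helper6 in
/-- Let G be a finite group and N a normal subgroup. Then the conjugacy class of every element g outside N is a union of cosets of N (gn is conjugate to g for all n ∈ N) if and only if for every g outside N the centralizer of g in G has the same order as the centralizer of gN in G/N. -/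
theorem result {G : Type*} [Group G] [Finite G] (N : Subgroup G) [N.Normal] :
    (∀ g : G, g ∉ N → ∀ n ∈ N, ∃ x : G, x * g * x⁻¹ = g * n) ↔
      ∀ g : G, g ∉ N → Nat.card (Subgroup.centralizer ({g} : Set G)) =
        Nat.card (Subgroup.centralizer ({(QuotientGroup.mk g : G ⧸ N)} : Set (G ⧸ N))) := by
  have hNn : N.Normal := inferInstance
  apply forall_congr'
  intro g
  apply imp_congr_right
  intro _
  have hsub : MulAction.orbit (ConjAct G) g ⊆ (QuotientGroup.mk : G → G ⧸ N) ⁻¹'
      (MulAction.orbit (ConjAct (G ⧸ N)) (QuotientGroup.mk g : G ⧸ N)) := by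
    intro y hy
    obtain ⟨x, rfl⟩ := (mem_orbit_iff g y).mp hy
    exact (mem_orbit_iff _ _).mpr ⟨QuotientGroup.mk x, rfl⟩
  have hpre : ((QuotientGroup.mk : G → G ⧸ N) ⁻¹'
      (MulAction.orbit (ConjAct (G ⧸ N)) (QuotientGroup.mk g : G ⧸ N))).ncard
      = Nat.card N * (MulAction.orbit (ConjAct (G ⧸ N)) (QuotientGroup.mk g : G ⧸ N)).ncard := by
    rw [← Nat.card_coe_set_eq, ← Nat.card_coe_set_eq]
    exact QuotientGroup.card_preimage_mk N _
  have hc : Nat.card (Subgroup.centralizer ({g} : Set G))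
      * (MulAction.orbit (ConjAct G) g).ncard = Nat.card G := by
    rw [← index_centralizer_eq_ncard_orbit]; exact Subgroup.card_mul_index _
  have hcb : Nat.card (Subgroup.centralizer ({(QuotientGroup.mk g : G ⧸ N)} : Set (G ⧸ N)))
      * (MulAction.orbit (ConjAct (G ⧸ N)) (QuotientGroup.mk g : G ⧸ N)).ncard
      = Nat.card (G ⧸ N) := by
    rw [← index_centralizer_eq_ncard_orbit]; exact Subgroup.card_mul_index _
  have hG : Nat.card G = Nat.card (G ⧸ N) * Nat.card N :=
    Subgroup.card_eq_card_quotient_mul_card_subgroup N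
  have hfin : ((QuotientGroup.mk : G → G ⧸ N) ⁻¹'
      (MulAction.orbit (ConjAct (G ⧸ N)) (QuotientGroup.mk g : G ⧸ N))).Finite := Set.toFinite _
  have hNpos : 0 < Nat.card N := Nat.card_pos
  have hObpos : 0 < (MulAction.orbit (ConjAct (G ⧸ N)) (QuotientGroup.mk g : G ⧸ N)).ncard := by
    rw [Set.ncard_pos]; exact MulAction.nonempty_orbit _
  have hcpos : 0 < Nat.card (Subgroup.centralizer ({g} : Set G)) := Nat.card_pos
  constructor
  · intro h
    have hOeq : MulAction.orbit (ConjAct G) g = (QuotientGroup.mk : G → G ⧸ N) ⁻¹'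
        (MulAction.orbit (ConjAct (G ⧸ N)) (QuotientGroup.mk g : G ⧸ N)) := by
      apply Set.Subset.antisymm hsub
      intro y hy
      obtain ⟨xb, hxb⟩ := (mem_orbit_iff _ _).mp hy
      obtain ⟨x, rfl⟩ := QuotientGroup.mk_surjective xb
      have h1 : (x * g * x⁻¹)⁻¹ * y ∈ N := by
        rw [← QuotientGroup.eq]; exact hxb
      have h2 : x⁻¹ * ((x * g * x⁻¹)⁻¹ * y) * x⁻¹⁻¹ ∈ N := hNn.conj_mem _ h1 x⁻¹
      obtain ⟨z, hz⟩ := h _ h2
      refine (mem_orbit_iff g y).mpr ⟨x * z, ?_⟩
      have e : x * z * g * (x * z)⁻¹ = x * (z * g * z⁻¹) * x⁻¹ := by group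
      rw [e, hz]
      group
    have ho : (MulAction.orbit (ConjAct G) g).ncard = Nat.card N *
        (MulAction.orbit (ConjAct (G ⧸ N)) (QuotientGroup.mk g : G ⧸ N)).ncard := by
      rw [← hpre, ← hOeq]
    have h3 : Nat.card (Subgroup.centralizer ({g} : Set G)) * (Nat.card N *
          (MulAction.orbit (ConjAct (G ⧸ N)) (QuotientGroup.mk g : G ⧸ N)).ncard)
        = Nat.card (Subgroup.centralizer ({(QuotientGroup.mk g : G ⧸ N)} : Set (G ⧸ N)))
          * (Nat.card N *
            (MulAction.orbit (ConjAct (G ⧸ N)) (QuotientGroup.mk g : G ⧸ N)).ncard) := by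
      calc Nat.card (Subgroup.centralizer ({g} : Set G)) * (Nat.card N *
            (MulAction.orbit (ConjAct (G ⧸ N)) (QuotientGroup.mk g : G ⧸ N)).ncard)
          = Nat.card (Subgroup.centralizer ({g} : Set G))
            * (MulAction.orbit (ConjAct G) g).ncard := by rw [ho]
        _ = Nat.card (G ⧸ N) * Nat.card N := by rw [hc, hG]
        _ = _ := by rw [← hcb]; ring
    exact Nat.eq_of_mul_eq_mul_right (Nat.mul_pos hNpos hObpos) h3
  · intro h n hn
    have ho : (MulAction.orbit (ConjAct G) g).ncard = Nat.card N *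
        (MulAction.orbit (ConjAct (G ⧸ N)) (QuotientGroup.mk g : G ⧸ N)).ncard := by
      have h3 : Nat.card (Subgroup.centralizer ({g} : Set G))
          * (MulAction.orbit (ConjAct G) g).ncard
          = Nat.card (Subgroup.centralizer ({g} : Set G)) * (Nat.card N *
            (MulAction.orbit (ConjAct (G ⧸ N)) (QuotientGroup.mk g : G ⧸ N)).ncard) := by
        rw [hc, hG, ← hcb, h]; ring
      exact Nat.eq_of_mul_eq_mul_left hcpos h3
    have hOeq : MulAction.orbit (ConjAct G) g = (QuotientGroup.mk : G → G ⧸ N) ⁻¹'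
        (MulAction.orbit (ConjAct (G ⧸ N)) (QuotientGroup.mk g : G ⧸ N)) :=
      Set.eq_of_subset_of_ncard_le hsub (by rw [hpre, ho]) hfin
    have h4 : g * n ∈ MulAction.orbit (ConjAct G) g := by
      rw [hOeq]
      show (QuotientGroup.mk (g * n) : G ⧸ N)
        ∈ MulAction.orbit (ConjAct (G ⧸ N)) (QuotientGroup.mk g : G ⧸ N)
      have h5 : (QuotientGroup.mk (g * n) : G ⧸ N) = QuotientGroup.mk g := by
        rw [QuotientGroup.eq]; simpa using hn
      rw [h5]; exact MulAction.mem_orbit_self _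
    exact (mem_orbit_iff g (g * n)).mp h4

end Cfsg.Agent.S4142
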