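import Cfsg.Statements.S4143
import Cfsg.Agent.S0112

set_option autoImplicit false
open Cfsg

namespace Cfsg.Agent.S4143

universe u

theorem comm_hom {X : Type*} [Group X] (Z M : Subgroup X) (hZc : ∀ z ∈ Z, ∀ g : X, g * z = z * g)
    (a : X) (hM : ∀ g ∈ M, g * a * g⁻¹ * a⁻¹ ∈ Z) :
    ∃ φ : M →* Z, ∀ g : M, ((φ g : Z) : X) = (g : X) * a * (g : X)⁻¹ * a⁻¹ := by
  refine ⟨MonoidHom.mk' (fun g => ⟨(g : X) * a * (g : X)⁻¹ * a⁻¹, hM g g.2⟩) ?_, fun g => rfl⟩
  intro g h
  apply Subtype.ext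
  show ((g : X) * (h : X)) * a * ((g : X) * (h : X))⁻¹ * a⁻¹ =
    ((g : X) * a * (g : X)⁻¹ * a⁻¹) * ((h : X) * a * (h : X)⁻¹ * a⁻¹)
  have hz := hZc _ (hM h h.2) (g : X)
  calc ((g : X) * (h : X)) * a * ((g : X) * (h : X))⁻¹ * a⁻¹
      = ((g : X) * ((h : X) * a * (h : X)⁻¹ * a⁻¹)) * a * (g : X)⁻¹ * a⁻¹ := by group
    _ = (((h : X) * a * (h : X)⁻¹ * a⁻¹) * (g : X)) * a * (g : X)⁻¹ * a⁻¹ := by rw [hz]
    _ = ((h : X) * a * (h : X)⁻¹ * a⁻¹) * ((g : X) * a * (g : X)⁻¹ * a⁻¹) := by group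
    _ = ((g : X) * a * (g : X)⁻¹ * a⁻¹) * ((h : X) * a * (h : X)⁻¹ * a⁻¹) :=
        (hZc _ (hM h h.2) _).symm

theorem comm_of_card_le {p : ℕ} [Fact p.Prime] {H : Type*} [Group H] [Finite H] (k : ℕ)
    (hk : k ≤ 2) (hH : Nat.card H = p ^ k) (a b : H) : a * b = b * a := by
  have hp : p.Prime := Fact.out
  interval_cases k
  · rw [pow_zero] at hH
    haveI : Subsingleton H := (Nat.card_eq_one_iff_unique.mp hH).1
    exact Subsingleton.elim _ _
  · rw [pow_one] at hH
    haveI := isCyclic_of_prime_card hH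
    exact mul_comm' a b
  · exact IsPGroup.commutative_of_card_eq_prime_sq hH a b

theorem result {X : Type*} [Group X] [Finite X] {p : ℕ} [Fact p.Prime] (n : ℕ) (hX : Nat.card X = p ^ n)
    (B : Subgroup X) (hB : Nat.card B = p ^ 3) (hBna : ¬ IsMulCommutative B) (hC : Subgroup.centralizer (B : Set X) ≤ B) :
    Group.nilpotencyClass X = n - 1 := by
  have hp : p.Prime := Fact.out
  have hXp : IsPGroup p X := IsPGroup.of_card hX
  haveI : Group.IsNilpotent X := hXp.isNilpotent
  -- non-commuting elements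
  obtain ⟨b1, b2, hb12⟩ : ∃ b1 b2 : B, b1 * b2 ≠ b2 * b1 := by
    by_contra hcon
    push_neg at hcon
    exact hBna ⟨⟨hcon⟩⟩
  have hb12' : (b1 : X) * (b2 : X) ≠ (b2 : X) * (b1 : X) := fun h => hb12 (Subtype.ext h)
  have hn3 : 3 ≤ n := by
    have h1 : Nat.card B ∣ Nat.card X := Subgroup.card_subgroup_dvd_card B
    rw [hB, hX] at h1
    exact (Nat.pow_dvd_pow_iff_le_right hp.one_lt).mp h1
  haveI : Nontrivial X := by
    rw [← Finite.one_lt_card_iff_nontrivial, hX]
    exact Nat.one_lt_pow (by omega) hp.one_lt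
  -- closure {b1, b2} = B
  have hcl : Subgroup.closure ({(b1 : X), (b2 : X)} : Set X) = B := by
    have hle : Subgroup.closure ({(b1 : X), (b2 : X)} : Set X) ≤ B := by
      rw [Subgroup.closure_le]
      intro x hx
      rcases hx with rfl | rfl
      · exact b1.2
      · exact b2.2
    apply Subgroup.eq_of_le_of_card_ge hle
    obtain ⟨k, hk, hkeq⟩ := (Nat.dvd_prime_pow hp).mp (hB ▸ Subgroup.card_dvd_of_le hle)
    by_contra hlt
    have hk2 : k ≤ 2 := by
      by_contra h3
      have : k = 3 := by omega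
      rw [hkeq, this, hB] at hlt
      exact hlt le_rfl
    have hc := comm_of_card_le k hk2 hkeq
      (⟨(b1 : X), Subgroup.subset_closure (by simp)⟩ : Subgroup.closure ({(b1 : X), (b2 : X)} : Set X))
      ⟨(b2 : X), Subgroup.subset_closure (by simp)⟩
    exact hb12' (congrArg Subtype.val hc)
  obtain ⟨C, hCdef⟩ : ∃ C : Subgroup X, C = Subgroup.centralizer (B : Set X) := ⟨_, rfl⟩
  have hCB : C ≤ B := hCdef ▸ hC
  have hCcomm : ∀ c ∈ C, ∀ b ∈ B, b * c = c * b := by
    intro c hc b hb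
    rw [hCdef] at hc
    exact Subgroup.mem_centralizer_iff.mp hc b hb
  -- |C| ≤ p
  have hcardC : Nat.card C ∣ p := by
    obtain ⟨k, hk, hkeq⟩ := (Nat.dvd_prime_pow hp).mp (hB ▸ Subgroup.card_dvd_of_le hCB)
    have hk3 : k ≠ 3 := by
      intro h
      have hCeq : C = B := Subgroup.eq_of_le_of_card_ge hCB (by rw [hkeq, h, hB])
      exact hb12' ((hCcomm b2 (hCeq ▸ b2.2) b1 b1.2))
    have hk2 : k ≠ 2 := by
      intro h
      -- B / C cyclic of order p with C central in B
      haveI hCn : (C.subgroupOf B).Normal := by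
        constructor
        intro c hc b
        have h1 : ((b * c * b⁻¹ : B) : X) = (c : X) := by
          have := hCcomm (c : X) hc (b : X) b.2
          show (b : X) * (c : X) * (b : X)⁻¹ = (c : X)
          rw [this]; group
        show ((b * c * b⁻¹ : B) : X) ∈ C
        rw [h1]; exact hc
      have hcq : Nat.card (↥B ⧸ C.subgroupOf B) = p := by
        have h1 := Subgroup.card_eq_card_quotient_mul_card_subgroup (C.subgroupOf B)
        have h2 : Nat.card (C.subgroupOf B) = Nat.card C :=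
          Nat.card_congr (Subgroup.subgroupOfEquivOfLe hCB).toEquiv
        rw [hB, h2, hkeq, h] at h1
        have h3 : p * p ^ 2 = Nat.card (↥B ⧸ C.subgroupOf B) * p ^ 2 := by rw [← h1]; ring
        exact (Nat.eq_of_mul_eq_mul_right (pow_pos hp.pos 2) h3).symm
      haveI := isCyclic_of_prime_card hcq
      have hcomm := commutative_of_cyclic_center_quotient (QuotientGroup.mk' (C.subgroupOf B)) (by
        rw [QuotientGroup.ker_mk']
        intro c hc
        rw [Subgroup.mem_center_iff]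
        intro b
        apply Subtype.ext
        exact hCcomm (c : X) hc (b : X) b.2)
      exact hb12 (hcomm b1 b2)
    have hk1 : k ≤ 1 := by omega
    rw [hkeq]
    calc p ^ k ∣ p ^ 1 := pow_dvd_pow p hk1
      _ = p := pow_one p
  obtain ⟨Z, hZdef⟩ : ∃ Z : Subgroup X, Z = Subgroup.center X := ⟨_, rfl⟩
  haveI hZn : Z.Normal := by rw [hZdef]; infer_instance
  have hZC : Z ≤ C := by rw [hZdef, hCdef]; exact Subgroup.center_le_centralizer _
  have hZc : ∀ z ∈ Z, ∀ g : X, g * z = z * g := by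
    intro z hz g
    rw [hZdef] at hz
    exact Subgroup.mem_center_iff.mp hz g
  have hcardZ : Nat.card Z = p := by
    have h1 : Nat.card Z ∣ p := (Subgroup.card_dvd_of_le hZC).trans hcardC
    rcases (Nat.dvd_prime hp).mp h1 with h | h
    · exfalso
      have h2 := Subgroup.card_eq_one.mp h
      have hnt := hXp.center_nontrivial
      rw [hZdef] at h2
      exact (Subgroup.nontrivial_iff_ne_bot _).mp hnt h2
    · exact h
  have hZeqC : Z = C := by
    apply Subgroup.eq_of_le_of_card_ge hZC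
    rw [hcardZ]
    exact Nat.le_of_dvd hp.pos hcardC
  obtain ⟨m, rfl⟩ : ∃ m, n = m + 1 := ⟨n - 1, by omega⟩
  have hcardQ : Nat.card (X ⧸ Z) = p ^ m := by
    have h1 := Subgroup.card_eq_card_quotient_mul_card_subgroup Z
    rw [hX, hcardZ, pow_succ] at h1
    exact (Nat.eq_of_mul_eq_mul_right hp.pos h1).symm
  obtain ⟨Bb, hBbdef⟩ : ∃ Bb : Subgroup (X ⧸ Z), Bb = B.map (QuotientGroup.mk' Z) := ⟨_, rfl⟩
  have hcardBb : Nat.card Bb = p ^ 2 := by
    have h1 : Bb.index = B.index := by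
      have h2 : Bb.comap (QuotientGroup.mk' Z) = B := by
        rw [hBbdef, Subgroup.comap_map_eq, QuotientGroup.ker_mk']
        exact sup_eq_left.mpr (hZC.trans hCB)
      rw [← h2]
      exact (Subgroup.index_comap_of_surjective _ (QuotientGroup.mk'_surjective Z)).symm
    have h3 := Subgroup.card_mul_index B
    have h4 := Subgroup.card_mul_index Bb
    rw [hX, hB] at h3
    rw [hcardQ, h1] at h4
    have h5 : B.index ≠ 0 := Subgroup.index_ne_zero_of_finite
    have h6 : (p * Nat.card Bb) * B.index = p ^ 3 * B.index := by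
      rw [h3, mul_assoc, h4, pow_succ]; ring
    have h7 := Nat.eq_of_mul_eq_mul_right (Nat.pos_of_ne_zero h5) h6
    have h8 : p * Nat.card Bb = p * p ^ 2 := by rw [h7]; ring
    exact Nat.eq_of_mul_eq_mul_left hp.pos h8
  have hBbcomm : ∀ x ∈ Bb, ∀ y ∈ Bb, x * y = y * x := by
    intro x hx y hy
    have := IsPGroup.commutative_of_card_eq_prime_sq hcardBb ⟨x, hx⟩ ⟨y, hy⟩
    exact congrArg Subtype.val this
  obtain ⟨M, hMdef⟩ : ∃ M : Subgroup X,
      M = (Subgroup.centralizer (Bb : Set (X ⧸ Z))).comap (QuotientGroup.mk' Z) := ⟨_, rfl⟩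
  have hBM : B ≤ M := by
    intro b hb
    rw [hMdef, Subgroup.mem_comap, Subgroup.mem_centralizer_iff]
    intro y hy
    exact hBbcomm y hy _ (hBbdef ▸ ⟨b, hb, rfl⟩)
  have hMz : ∀ b ∈ B, ∀ g ∈ M, g * b * g⁻¹ * b⁻¹ ∈ Z := by
    intro b hb g hg
    rw [hMdef, Subgroup.mem_comap, Subgroup.mem_centralizer_iff] at hg
    have h1 := hg (QuotientGroup.mk' Z b) (hBbdef ▸ ⟨b, hb, rfl⟩)
    rw [← QuotientGroup.eq_one_iff (N := Z)]
    have h2 : ((g * b * g⁻¹ * b⁻¹ : X) : X ⧸ Z) =
        QuotientGroup.mk' Z g * QuotientGroup.mk' Z b * (QuotientGroup.mk' Z g)⁻¹ *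
          (QuotientGroup.mk' Z b)⁻¹ := rfl
    rw [h2, ← h1]; group
  obtain ⟨φ1, hφ1⟩ := comm_hom Z M hZc (b1 : X) (hMz _ b1.2)
  obtain ⟨φ2, hφ2⟩ := comm_hom Z M hZc (b2 : X) (hMz _ b2.2)
  have hcardM : Nat.card M ≤ p ^ 3 := by
    have h1 := Subgroup.card_eq_card_quotient_mul_card_subgroup (φ1.prod φ2).ker
    have h2 : Nat.card (↥M ⧸ (φ1.prod φ2).ker) = Nat.card (φ1.prod φ2).range :=
      Nat.card_congr (QuotientGroup.quotientKerEquivRange (φ1.prod φ2)).toEquiv
    have hrange : Nat.card (φ1.prod φ2).range ≤ p * p := by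
      have h3 : Nat.card (↥Z × ↥Z) = p * p := by rw [Nat.card_prod, hcardZ]
      rw [← h3]
      exact Subgroup.card_le_card_group _
    have hcardC' : Nat.card C = p := hZeqC ▸ hcardZ
    have hker : Nat.card (φ1.prod φ2).ker ≤ p := by
      rw [← hcardC']
      have hmem : ∀ g : (φ1.prod φ2).ker, ((g : M) : X) ∈ C := by
        intro g
        have h3 : (φ1.prod φ2) (g : M) = 1 := g.2
        rw [MonoidHom.prod_apply, Prod.mk_eq_one] at h3
        have e1 : ((g : M) : X) * (b1 : X) * ((g : M) : X)⁻¹ * (b1 : X)⁻¹ = 1 := by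
          rw [← hφ1, h3.1]; rfl
        have e2 : ((g : M) : X) * (b2 : X) * ((g : M) : X)⁻¹ * (b2 : X)⁻¹ = 1 := by
          rw [← hφ2, h3.2]; rfl
        have c1 : (b1 : X) * ((g : M) : X) = ((g : M) : X) * (b1 : X) := by
          calc (b1 : X) * ((g : M) : X)
              = (((g : M) : X) * (b1 : X) * ((g : M) : X)⁻¹ * (b1 : X)⁻¹)⁻¹ * (((g : M) : X) * (b1 : X)) := by
                group
            _ = ((g : M) : X) * (b1 : X) := by rw [e1, inv_one, one_mul]
        have c2 : (b2 : X) * ((g : M) : X) = ((g : M) : X) * (b2 : X) := by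
          calc (b2 : X) * ((g : M) : X)
              = (((g : M) : X) * (b2 : X) * ((g : M) : X)⁻¹ * (b2 : X)⁻¹)⁻¹ * (((g : M) : X) * (b2 : X)) := by
                group
            _ = ((g : M) : X) * (b2 : X) := by rw [e2, inv_one, one_mul]
        have hle : B ≤ Subgroup.centralizer ({((g : M) : X)} : Set X) := by
          rw [← hcl, Subgroup.closure_le]
          intro x hx
          rw [SetLike.mem_coe, Subgroup.mem_centralizer_iff]
          intro y hy
          rw [Set.mem_singleton_iff.mp hy]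
          rcases hx with rfl | rfl
          · exact c1.symm
          · exact c2.symm
        rw [hCdef, Subgroup.mem_centralizer_iff]
        intro b hb
        exact (Subgroup.mem_centralizer_iff.mp (hle hb) _ (Set.mem_singleton _)).symm
      apply Nat.card_le_card_of_injective (fun g : (φ1.prod φ2).ker => (⟨((g : M) : X), hmem g⟩ : C))
      intro g h hgh
      have hgh' : (⟨((g : M) : X), hmem g⟩ : C) = ⟨((h : M) : X), hmem h⟩ := hgh
      have h3 : ((g : M) : X) = ((h : M) : X) := Subtype.mk.inj hgh'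
      exact Subtype.ext (Subtype.ext h3)
    rw [h1, h2]
    calc Nat.card (φ1.prod φ2).range * Nat.card (φ1.prod φ2).ker ≤ (p * p) * p :=
          Nat.mul_le_mul hrange hker
      _ = p ^ 3 := by ring
  have hMB : B = M := Subgroup.eq_of_le_of_card_ge hBM (by rw [hB]; exact hcardM)
  have hCN : Subgroup.centralizer (Bb : Set (X ⧸ Z)) = Bb := by
    apply le_antisymm
    · intro x hx
      obtain ⟨g, rfl⟩ := QuotientGroup.mk'_surjective Z x
      have hg : g ∈ M := by rw [hMdef]; exact hx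
      rw [← hMB] at hg
      rw [hBbdef]; exact ⟨g, hg, rfl⟩
    · intro x hx
      rw [Subgroup.mem_centralizer_iff]
      intro y hy
      exact hBbcomm y hy x hx
  have key := Cfsg.Agent.S0112.aux p m (X ⧸ Z) hcardQ Bb hcardBb hCN
  rw [Group.nilpotencyClass_eq_quotient_center_plus_one]
  subst hZdef
  rw [key]
  omega

end Cfsg.Agent.S4143
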