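import Cfsg.Statements.S4145
import Cfsg.Agent.Lib.Helper6.CycSylow
import Cfsg.Agent.Lib.Lead.Transfer

set_option autoImplicit false
open Cfsg

namespace Cfsg.Agent.S4145

open Cfsg.Agent.Lib.Helper6

/-- Let G be a finite group with a cyclic Sylow p-subgroup and H a normal subgroup such that p divides both the order of H and the index of H. Then H has a normal p-complement and G is p-solvable. -/
theorem result {G : Type*} [Group G] [Finite G] (p : ℕ) [Fact p.Prime]
    (P : Sylow p G) (hP : IsCyclic (P : Subgroup G)) (H : Subgroup G) [H.Normal] (h1 : p ∣ Nat.card H) (h2 : p ∣ H.index) :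
    Cfsg.HasNormalPComplement p H ∧ Cfsg.IsPSolvable p G := by
  have hp : p.Prime := Fact.out
  have hHn : H.Normal := inferInstance
  obtain ⟨u₀, hu₀⟩ := hP.exists_generator
  have hgen : ∀ x ∈ (P : Subgroup G), x ∈ Subgroup.zpowers (u₀ : G) := by
    intro x hx
    obtain ⟨z, hz⟩ := Subgroup.mem_zpowers_iff.mp (hu₀ ⟨x, hx⟩)
    refine Subgroup.mem_zpowers_iff.mpr ⟨z, ?_⟩
    have := congrArg Subtype.val hz
    simpa using this
  have huP : (u₀ : G) ∈ (P : Subgroup G) := u₀.2
  generalize (u₀ : G) = u at hgen huP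
  obtain ⟨n, hun⟩ := orderOf_mem_sylow P huP
  have hgenN : ∀ x ∈ (P : Subgroup G), ∃ j : ℕ, u ^ j = x := by
    intro x hx
    have hfin : IsOfFinOrder u := isOfFinOrder_of_finite u
    exact (Submonoid.mem_powers_iff _ _).mp ((hfin.mem_powers_iff_mem_zpowers).mpr (hgen x hx))
  have hab : ∀ x ∈ (P : Subgroup G), ∀ y ∈ (P : Subgroup G), x * y = y * x := by
    intro x hx y hy
    obtain ⟨i, rfl⟩ := hgenN x hx
    obtain ⟨j, rfl⟩ := hgenN y hy
    rw [← pow_add, ← pow_add, add_comm]
  have hcentP : ∀ b : G, b * u * b⁻¹ = u → ∀ x ∈ (P : Subgroup G), b * x * b⁻¹ = x := by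
    intro b hb x hx
    obtain ⟨i, rfl⟩ := hgenN x hx
    rw [← conj_pow, hb]
  have hPH : ¬ (P : Subgroup G) ≤ H := by
    intro hle
    exact P.not_dvd_index (h2.trans (Subgroup.index_dvd_of_le hle))
  have huH : u ∉ H := by
    intro huH
    apply hPH
    intro x hx
    obtain ⟨i, rfl⟩ := hgenN x hx
    exact H.pow_mem huH i
  obtain ⟨w, hwP, hwH, hw1⟩ : ∃ w : G, w ∈ (P : Subgroup G) ∧ w ∈ H ∧ w ≠ 1 := by
    obtain ⟨x, hx⟩ := exists_prime_orderOf_dvd_card' p h1
    have hx' : orderOf (x : G) = p ^ 1 := by rw [Subgroup.orderOf_coe, hx, pow_one]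
    have hpg : IsPGroup p (Subgroup.zpowers (x : G)) :=
      IsPGroup.of_card (n := 1) (by rw [Nat.card_zpowers, hx'])
    obtain ⟨Q', hQ'⟩ := hpg.exists_le_sylow
    obtain ⟨g, hg⟩ := MulAction.exists_smul_eq G Q' P
    refine ⟨g * (x : G) * g⁻¹, ?_, hHn.conj_mem _ x.2 g, ?_⟩
    · rw [← hg, sylow_smul_mem_iff]
      have : g⁻¹ * (g * (x : G) * g⁻¹) * g = (x : G) := by group
      rw [this]; exact hQ' (Subgroup.mem_zpowers _)
    · intro h
      have hx1 : (x : G) = 1 := by
        have := congrArg (fun z => g⁻¹ * z * g) h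
        simpa [mul_assoc] using this
      rw [hx1, orderOf_one, pow_one] at hx'
      exact hp.one_lt.ne' hx'.symm
  have hn0 : n ≠ 0 := by
    rintro rfl
    rw [pow_zero, orderOf_eq_one_iff] at hun
    obtain ⟨i, hi⟩ := hgenN w hwP
    apply hw1; rw [← hi, hun, one_pow]
  have hstarL : ∀ b ∈ (P : Subgroup G) ⊔ H, b ∈ Subgroup.normalizer ((P : Subgroup G) : Set G) →
      (orderOf b).Coprime p → ∀ x ∈ (P : Subgroup G), b * x * b⁻¹ = x := by
    intro b hbL hbN hbcop
    apply hcentP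
    have hbuP : b * u * b⁻¹ ∈ (P : Subgroup G) := (Subgroup.mem_normalizer_iff.mp hbN u).mp huP
    obtain ⟨j, hj⟩ := hgenN _ hbuP
    rw [← SetLike.mem_coe, Subgroup.mul_normal] at hbL
    obtain ⟨x, hx, h, hh, rfl⟩ := Set.mem_mul.mp hbL
    have hQ : u ^ j * u⁻¹ ∈ H := by
      rw [hj]
      have hxu : x * u = u * x := hab x hx u huP
      have hinv : x⁻¹ * u⁻¹ = u⁻¹ * x⁻¹ := by rw [← mul_inv_rev, ← mul_inv_rev, hxu]
      have : x * h * u * (x * h)⁻¹ * u⁻¹ = x * (h * (u * h⁻¹ * u⁻¹)) * x⁻¹ := by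
        calc x * h * u * (x * h)⁻¹ * u⁻¹ = x * h * u * h⁻¹ * (x⁻¹ * u⁻¹) := by group
          _ = x * h * u * h⁻¹ * (u⁻¹ * x⁻¹) := by rw [hinv]
          _ = _ := by group
      rw [this]
      exact hHn.conj_mem _ (H.mul_mem hh (hHn.conj_mem _ (H.inv_mem hh) u)) x
    have hjmod := cyc_modEq_of_comm_mem p n j hp u hun hn0 H hQ huH
    exact cyc_aut_trivial p n (orderOf (x * h)) j hp u (x * h) hun (pow_orderOf_eq_one _) hbcop
      hjmod hj.symm
  obtain ⟨K, hKL, hKnorm, hKcop, hKall, hKdec, -⟩ :=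
    burnside_sub P hab ((P : Subgroup G) ⊔ H) le_sup_left hstarL
  have hKord : ∀ k ∈ K, (orderOf k).Coprime p := by
    intro k hk
    have : orderOf k ∣ Nat.card K := by
      have := orderOf_dvd_natCard (⟨k, hk⟩ : K)
      rwa [Subgroup.orderOf_mk] at this
    exact Nat.Coprime.coprime_dvd_left this hKcop
  have hLH : ∀ x ∈ (P : Subgroup G) ⊔ H, (orderOf x).Coprime p → x ∈ H := by
    intro x hx hxcop
    have hpow : (⟨x, hx⟩ : ((P : Subgroup G) ⊔ H : Subgroup G)) ^
        (H.subgroupOf ((P : Subgroup G) ⊔ H)).index ∈ H.subgroupOf ((P : Subgroup G) ⊔ H) :=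
      Subgroup.pow_index_mem _ _
    have hpow' : x ^ (H.relIndex ((P : Subgroup G) ⊔ H)) ∈ H := by
      have := Subgroup.mem_subgroupOf.mp hpow
      simpa [Subgroup.relIndex] using this
    have hrel : H.relIndex ((P : Subgroup G) ⊔ H) ∣ Nat.card (P : Subgroup G) := by
      rw [Subgroup.relIndex_sup_right]; exact Subgroup.relIndex_dvd_card _ _
    obtain ⟨m, hm⟩ := IsPGroup.iff_card.mp P.isPGroup'
    rw [hm] at hrel
    obtain ⟨e, -, he⟩ := (Nat.dvd_prime_pow hp).mp hrel
    have hcop : (H.relIndex ((P : Subgroup G) ⊔ H)).Coprime (orderOf x) := by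
      rw [he]; exact Nat.Coprime.pow_left e hxcop.symm
    exact mem_of_pow_mem_of_coprime hcop hpow' (by rw [pow_orderOf_eq_one]; exact H.one_mem)
  have hKH : K ≤ H := fun k hk => hLH k (hKL hk) (hKord k hk)
  have hKG : ∀ g : G, ∀ k ∈ K, g * k * g⁻¹ ∈ K := by
    intro g k hk
    apply hKall _ (le_sup_right (a := (P : Subgroup G)) (hHn.conj_mem _ (hKH hk) g))
    rw [orderOf_conj_eq]; exact hKord k hk
  have hKp : ∀ x ∈ K, (∃ e : ℕ, orderOf x = p ^ e) → x = 1 := by
    rintro x hx ⟨e, he⟩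
    have h := hKord x hx
    rw [he] at h
    rcases Nat.eq_zero_or_pos e with rfl | hpos
    · rwa [pow_zero, orderOf_eq_one_iff] at he
    · exfalso
      have : p ∣ Nat.gcd (p ^ e) p := Nat.dvd_gcd (dvd_pow_self p hpos.ne') dvd_rfl
      rw [h] at this
      exact hp.one_lt.ne' (Nat.dvd_one.mp this)
  refine ⟨?_, ?_⟩
  · obtain ⟨S⟩ : Nonempty (Sylow p H) := inferInstance
    apply Cfsg.Agent.Lib.Lead.hasNormalPComplement_of_normalizer_le_centralizer S
    apply normalizer_le_centralizer_of_star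
    · intro x hx y hy
      have hpg : IsPGroup p ((S : Subgroup H).map H.subtype) := S.isPGroup'.map H.subtype
      obtain ⟨Q', hQ'⟩ := hpg.exists_le_sylow
      obtain ⟨g, hg⟩ := MulAction.exists_smul_eq G Q' P
      have hmem : ∀ z : H, z ∈ (S : Subgroup H) → g * (z : G) * g⁻¹ ∈ (P : Subgroup G) := by
        intro z hz
        rw [← hg, sylow_smul_mem_iff]
        have : g⁻¹ * (g * (z : G) * g⁻¹) * g = (z : G) := by group
        rw [this]; exact hQ' ⟨z, hz, rfl⟩
      have hcomm := hab _ (hmem x hx) _ (hmem y hy)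
      apply Subtype.ext
      have h3 : g * ((x : G) * (y : G)) * g⁻¹ = g * ((y : G) * (x : G)) * g⁻¹ := by
        calc g * ((x : G) * (y : G)) * g⁻¹ = (g * (x : G) * g⁻¹) * (g * (y : G) * g⁻¹) := by group
          _ = (g * (y : G) * g⁻¹) * (g * (x : G) * g⁻¹) := hcomm
          _ = _ := by group
      have := congrArg (fun z => g⁻¹ * z * g) h3
      simpa [mul_assoc] using this
    · intro b hbN hbcop x hx
      have hbK : (b : G) ∈ K :=
        hKall _ (le_sup_right (a := (P : Subgroup G)) b.2) (by rwa [Subgroup.orderOf_coe])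
      have hc1 : (b : G) * (x : G) * (b : G)⁻¹ * (x : G)⁻¹ ∈ K := by
        have : (b : G) * (x : G) * (b : G)⁻¹ * (x : G)⁻¹
            = (b : G) * ((x : G) * (b : G)⁻¹ * (x : G)⁻¹) := by group
        rw [this]
        exact K.mul_mem hbK (hKG _ _ (K.inv_mem hbK))
      have hc2 : b * x * b⁻¹ * x⁻¹ ∈ (S : Subgroup H) :=
        (S : Subgroup H).mul_mem ((Subgroup.mem_normalizer_iff.mp hbN x).mp hx)
          ((S : Subgroup H).inv_mem hx)
      obtain ⟨e, he⟩ := orderOf_mem_sylow S hc2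
      have he' : orderOf ((b : G) * (x : G) * (b : G)⁻¹ * (x : G)⁻¹) = p ^ e := by
        rw [← he, ← Subgroup.orderOf_coe]
        rfl
      have h5 := hKp _ hc1 ⟨e, he'⟩
      apply Subtype.ext
      have h4 : (b : G) * (x : G) * (b : G)⁻¹ = (x : G) := by
        have := congrArg (fun z => z * (x : G)) h5
        simpa [mul_assoc] using this
      exact h4
  · let C : Subgroup G :=
      { carrier := {n | ∀ h ∈ H, n * h * n⁻¹ * h⁻¹ ∈ K}
        mul_mem' := by
          intro a b ha hb h hh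
          have : a * b * h * (a * b)⁻¹ * h⁻¹
              = a * (b * h * b⁻¹ * h⁻¹) * a⁻¹ * (a * h * a⁻¹ * h⁻¹) := by group
          rw [this]
          exact K.mul_mem (hKG a _ (hb h hh)) (ha h hh)
        one_mem' := by
          intro h hh
          simp
        inv_mem' := by
          intro a ha h hh
          have : a⁻¹ * h * a⁻¹⁻¹ * h⁻¹ = a⁻¹ * (a * h * a⁻¹ * h⁻¹)⁻¹ * a⁻¹⁻¹ := by group
          rw [this]
          exact hKG a⁻¹ _ (K.inv_mem (ha h hh)) }
    have hCmem : ∀ n : G, n ∈ C ↔ ∀ h ∈ H, n * h * n⁻¹ * h⁻¹ ∈ K := fun n => Iff.rfl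
    have hCn : C.Normal := by
      constructor
      intro n hn g
      rw [hCmem] at hn ⊢
      intro h hh
      have : g * n * g⁻¹ * h * (g * n * g⁻¹)⁻¹ * h⁻¹
          = g * (n * (g⁻¹ * h * g) * n⁻¹ * (g⁻¹ * h * g)⁻¹) * g⁻¹ := by group
      rw [this]
      apply hKG
      apply hn
      have := hHn.conj_mem h hh g⁻¹
      simpa using this
    have hPC : (P : Subgroup G) ≤ C := by
      intro x hx
      rw [hCmem]
      intro h hh
      obtain ⟨x', hx', k, hk, rfl⟩ := hKdec h (le_sup_right (a := (P : Subgroup G)) hh)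
      have hxx' : x * x' = x' * x := hab x hx x' hx'
      have : x * (x' * k) * x⁻¹ * (x' * k)⁻¹ = x' * (x * k * x⁻¹ * k⁻¹) * x'⁻¹ := by
        calc x * (x' * k) * x⁻¹ * (x' * k)⁻¹ = (x * x') * k * x⁻¹ * k⁻¹ * x'⁻¹ := by group
          _ = (x' * x) * k * x⁻¹ * k⁻¹ * x'⁻¹ := by rw [hxx']
          _ = _ := by group
      rw [this]
      apply hKG
      exact K.mul_mem (hKG x k hk) (K.inv_mem hk)
    have hstarC : ∀ b ∈ C, b ∈ Subgroup.normalizer ((P : Subgroup G) : Set G) →
        (orderOf b).Coprime p → ∀ x ∈ (P : Subgroup G), b * x * b⁻¹ = x := by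
      intro b hbC hbN hbcop
      apply hcentP
      have hbuP : b * u * b⁻¹ ∈ (P : Subgroup G) :=
        (Subgroup.mem_normalizer_iff.mp hbN u).mp huP
      obtain ⟨j, hj⟩ := hgenN _ hbuP
      obtain ⟨s, hs⟩ := hgenN w hwP
      have hfix : b * w * b⁻¹ = w := by
        have hc1 : b * w * b⁻¹ * w⁻¹ ∈ K := (hCmem b).mp hbC w hwH
        have hc2 : b * w * b⁻¹ * w⁻¹ ∈ (P : Subgroup G) :=
          (P : Subgroup G).mul_mem ((Subgroup.mem_normalizer_iff.mp hbN w).mp hwP)
            ((P : Subgroup G).inv_mem hwP)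
        have h5 := hKp _ hc1 (orderOf_mem_sylow P hc2)
        have h4 := congrArg (fun z => z * w) h5
        simpa [mul_assoc] using h4
      rw [← hs] at hfix hw1
      have hjmod := cyc_modEq_of_fix p n j s hp u b hun hj.symm hw1 hfix
      exact cyc_aut_trivial p n (orderOf b) j hp u b hun (pow_orderOf_eq_one _) hbcop hjmod hj.symm
    obtain ⟨KC, hKCL, hKCnorm, hKCcop, hKCall, -, hKCrel⟩ := burnside_sub P hab C hPC hstarC
    have hKCn : KC.Normal := by
      constructor
      intro k hk g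
      apply hKCall _ (hCn.conj_mem _ (hKCL hk) g)
      rw [orderOf_conj_eq]
      have : orderOf k ∣ Nat.card KC := by
        have := orderOf_dvd_natCard (⟨k, hk⟩ : KC)
        rwa [Subgroup.orderOf_mk] at this
      exact Nat.Coprime.coprime_dvd_left this hKCcop
    refine ⟨3, ![⊥, KC, C, ⊤], rfl, rfl, ?_, ?_, ?_⟩
    · apply Fin.monotone_iff_le_succ.mpr
      intro i
      fin_cases i
      · exact bot_le
      · exact hKCL
      · exact le_top
    · intro i
      fin_cases i
      · exact Subgroup.normal_bot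
      · exact hKCn
      · exact hCn
      · exact Subgroup.normal_top
    · intro i
      fin_cases i
      · right
        show ((⊥ : Subgroup G).relIndex KC).Coprime p
        rw [Subgroup.relIndex_bot_left]; exact hKCcop
      · left
        obtain ⟨m, hm⟩ := IsPGroup.iff_card.mp P.isPGroup'
        exact ⟨m, by show KC.relIndex C = p ^ m; rw [hKCrel, hm]⟩
      · right
        show (C.relIndex ⊤).Coprime p
        rw [Subgroup.relIndex_top_right]
        have hd : C.index ∣ (P : Subgroup G).index := Subgroup.index_dvd_of_le hPC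
        exact Nat.Coprime.coprime_dvd_left hd
          ((Nat.Prime.coprime_iff_not_dvd hp).mpr P.not_dvd_index).symm

end Cfsg.Agent.S4145
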