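import Cfsg.Statements.S4154
import Mathlib

set_option autoImplicit false
open Cfsg

namespace Cfsg.Agent.S4154

/-- Let G be a finite group and α an automorphism of G such that every element of G is the product of an element fixed by α and an element of the form g⁻¹α(g). If N is a normal α-invariant subgroup, then the automorphism ᾱ induced on G/N has the same property, and every coset fixed by ᾱ contains an element fixed by α (so the fixed points of ᾱ are the images of the fixed points of α). -/
theorem result {G : Type*} [Group G] [Finite G] (α : MulAut G)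
    (hccp : ∀ x : G, ∃ c g : G, α c = c ∧ x = c * (g⁻¹ * α g))
    (N : Subgroup G) [N.Normal] (hN : ∀ n ∈ N, α n ∈ N) :
    (∀ x : G, ∃ c g : G, c⁻¹ * α c ∈ N ∧ x⁻¹ * (c * (g⁻¹ * α g)) ∈ N) ∧
    (∀ x : G, x⁻¹ * α x ∈ N → ∃ c : G, α c = c ∧ c⁻¹ * x ∈ N) := by
  have hNn : N.Normal := inferInstance
  constructor
  · intro x
    obtain ⟨c, g, hc, hx⟩ := hccp x
    refine ⟨c, g, ?_, ?_⟩
    · rw [hc, inv_mul_cancel]; exact N.one_mem
    · rw [← hx, inv_mul_cancel]; exact N.one_mem
  · -- the fixed subgroup and D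
    let C : Subgroup G :=
      { carrier := {c | α c = c}
        one_mem' := map_one α
        mul_mem' := by
          intro a b ha hb
          show α (a * b) = a * b
          rw [map_mul, ha, hb]
        inv_mem' := by
          intro a ha
          show α a⁻¹ = a⁻¹
          rw [map_inv, ha] }
    let D : Subgroup G :=
      { carrier := {x | x⁻¹ * α x ∈ N}
        one_mem' := by
          show (1 : G)⁻¹ * α 1 ∈ N
          simp
        mul_mem' := by
          intro a b ha hb
          show (a * b)⁻¹ * α (a * b) ∈ N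
          have e : (a * b)⁻¹ * α (a * b) = b⁻¹ * (a⁻¹ * α a) * b⁻¹⁻¹ * (b⁻¹ * α b) := by
            rw [map_mul]; group
          rw [e]
          exact N.mul_mem (hNn.conj_mem _ ha b⁻¹) hb
        inv_mem' := by
          intro a ha
          show a⁻¹⁻¹ * α a⁻¹ ∈ N
          have e : a⁻¹⁻¹ * α a⁻¹ = a * (a⁻¹ * α a)⁻¹ * a⁻¹ := by
            rw [map_inv]; group
          rw [e]
          exact hNn.conj_mem _ (N.inv_mem ha) a }
    have hCD : C ≤ D := by
      intro c hc
      have hc' : α c = c := hc
      show c⁻¹ * α c ∈ N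
      rw [hc', inv_mul_cancel]; exact N.one_mem
    have hND : N ≤ D := by
      intro n hn
      show n⁻¹ * α n ∈ N
      exact N.mul_mem (N.inv_mem hn) (hN n hn)
    -- the lifted map
    let φ : G ⧸ D → G ⧸ N := fun q => Quotient.liftOn' q (fun g => (QuotientGroup.mk' N) (g * (α g)⁻¹))
      (by
        intro g h hgh
        rw [QuotientGroup.leftRel_apply] at hgh
        have hd : (g⁻¹ * h)⁻¹ * α (g⁻¹ * h) ∈ N := hgh
        show (QuotientGroup.mk' N) (g * (α g)⁻¹) = (QuotientGroup.mk' N) (h * (α h)⁻¹)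
        rw [QuotientGroup.mk'_eq_mk']
        refine ⟨(α g) * ((g⁻¹ * h) * ((g⁻¹ * h)⁻¹ * α (g⁻¹ * h))⁻¹ * (g⁻¹ * h)⁻¹) * (α g)⁻¹,
          hNn.conj_mem _ (hNn.conj_mem _ (N.inv_mem hd) _) _, ?_⟩
        rw [map_mul, map_inv]
        group)
    have hsurj : Function.Surjective
        (fun pq : (C.map (QuotientGroup.mk' N)) × (G ⧸ D) => (pq.1 : G ⧸ N) * φ pq.2) := by
      intro q
      obtain ⟨x, rfl⟩ := QuotientGroup.mk'_surjective N q
      obtain ⟨c, g, hc, hx⟩ := hccp x
      refine ⟨(⟨(QuotientGroup.mk' N) c, Subgroup.mem_map_of_mem _ hc⟩, (QuotientGroup.mk g⁻¹ : G ⧸ D)), ?_⟩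
      show (QuotientGroup.mk' N) c * (QuotientGroup.mk' N) (g⁻¹ * (α g⁻¹)⁻¹) = (QuotientGroup.mk' N) x
      rw [← map_mul, hx, map_inv, inv_inv]
    have hcard1 : Nat.card (G ⧸ N) ≤ Nat.card (C.map (QuotientGroup.mk' N)) * D.index := by
      have := Nat.card_le_card_of_surjective _ hsurj
      rwa [Nat.card_prod] at this
    have hidx : (D.map (QuotientGroup.mk' N)).index = D.index :=
      Subgroup.index_map_eq D (QuotientGroup.mk'_surjective N) (by rw [QuotientGroup.ker_mk']; exact hND)
    have hcard2 : Nat.card (G ⧸ N)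
        = Nat.card (D.map (QuotientGroup.mk' N)) * D.index := by
      rw [← hidx]
      exact (Subgroup.card_mul_index _).symm
    have hDpos : 0 < D.index := Nat.pos_of_ne_zero Subgroup.index_ne_zero_of_finite
    have hle : Nat.card (D.map (QuotientGroup.mk' N)) ≤ Nat.card (C.map (QuotientGroup.mk' N)) := by
      rw [hcard2] at hcard1
      exact Nat.le_of_mul_le_mul_right hcard1 hDpos
    have heq : C.map (QuotientGroup.mk' N) = D.map (QuotientGroup.mk' N) :=
      Subgroup.eq_of_le_of_card_ge (Subgroup.map_mono hCD) hle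
    intro x hx
    have hxD : x ∈ D := hx
    have h1 : (QuotientGroup.mk' N) x ∈ D.map (QuotientGroup.mk' N) := Subgroup.mem_map_of_mem _ hxD
    rw [← heq] at h1
    obtain ⟨c, hc, hcx⟩ := h1
    refine ⟨c, hc, ?_⟩
    rw [QuotientGroup.mk'_eq_mk'] at hcx
    obtain ⟨z, hz, hzx⟩ := hcx
    rw [← hzx]
    simpa using hz

end Cfsg.Agent.S4154
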