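import Cfsg.Statements.S4155
import Cfsg.Agent.Lib.Lead.Fitting2
import Cfsg.Agent.Lib.Lead.FrobComplSylow
import Cfsg.Agent.Lib.Helper6.NilpComm
import Cfsg.Agent.Lib.Helper6.PSub

set_option autoImplicit false
open Cfsg

namespace Cfsg.Agent.S4155

universe u

open scoped Pointwise

theorem sylow_eq_top_of_isPGroup {A : Type*} [Group A] [Finite A] {p : ℕ} [Fact p.Prime]
    (hA : IsPGroup p A) (P : Sylow p A) : (P : Subgroup A) = ⊤ := by
  obtain ⟨k, hk⟩ := IsPGroup.iff_card.mp hA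
  apply (Subgroup.card_eq_iff_eq_top _).mp
  rw [Sylow.card_eq_multiplicity, hk, Nat.Prime.factorization_pow Fact.out]
  simp

theorem fit_le {G : Type*} [Group G] [Finite G] (N : Subgroup G) [N.Normal] (hN1 : N ≠ ⊥)
    (heq : ∀ x : G, x ∉ N → ∀ n ∈ N, orderOf (x * n) = orderOf x)
    (hnil : Group.IsNilpotent N) (hnpp : ¬ IsPrimePow (Nat.card N)) :
    Cfsg.fittingSubgroup G ≤ N := by
  intro x hxF
  by_contra hxN
  have hmk1 : (QuotientGroup.mk' N x) ≠ 1 := fun h => hxN ((QuotientGroup.eq_one_iff x).mp h)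
  have ho1 : orderOf (QuotientGroup.mk' N x) ≠ 1 := fun h => hmk1 (orderOf_eq_one_iff.mp h)
  obtain ⟨q, hq, hqo⟩ := Nat.exists_prime_and_dvd ho1
  haveI := Fact.mk hq
  have hox : orderOf x ≠ 0 := (orderOf_pos x).ne'
  obtain ⟨m, hm⟩ : ∃ m, m = orderOf x / q ^ (orderOf x).factorization q := ⟨_, rfl⟩
  have hmdvd : m ∣ orderOf x := hm ▸ Nat.div_dvd_of_dvd (Nat.ordProj_dvd _ _)
  have hm0 : m ≠ 0 := fun h => hox (by rw [h] at hmdvd; exact Nat.eq_zero_of_zero_dvd hmdvd)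
  have hqm : Nat.Coprime q m := hm ▸ Nat.coprime_ordCompl hq hox
  obtain ⟨y, hy⟩ : ∃ y, y = x ^ m := ⟨_, rfl⟩
  have hyo : orderOf y = q ^ (orderOf x).factorization q := by
    rw [hy, orderOf_pow_of_dvd hm0 hmdvd, hm]
    exact Nat.div_div_self (Nat.ordProj_dvd _ _) hox
  have hyF : y ∈ Cfsg.fittingSubgroup G := hy ▸ Subgroup.pow_mem _ hxF m
  have hyN : y ∉ N := by
    intro h
    have h1 : (QuotientGroup.mk' N x) ^ m = 1 := by
      rw [← map_pow, ← hy]; exact (QuotientGroup.eq_one_iff y).mpr h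
    have h2 : orderOf (QuotientGroup.mk' N x) ∣ m := orderOf_dvd_of_pow_eq_one h1
    exact hq.one_lt.ne' (Nat.Coprime.eq_one_of_dvd hqm (hqo.trans h2))
  have hr : ∃ r : ℕ, r.Prime ∧ r ∣ Nat.card N ∧ r ≠ q := by
    by_contra hcon
    push_neg at hcon
    have h1 := Nat.eq_prime_pow_of_unique_prime_dvd (n := Nat.card N) (p := q) Nat.card_pos.ne'
      (fun {d} hd hdn => hcon d hd hdn)
    apply hnpp
    rw [h1]
    refine hq.isPrimePow.pow ?_
    intro h0
    rw [h0, pow_zero] at h1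
    exact hN1 (Subgroup.card_eq_one.mp h1)
  obtain ⟨r, hr, hrN, hrq⟩ := hr
  haveI := Fact.mk hr
  obtain ⟨⟨k, hkN⟩, hko⟩ := exists_prime_orderOf_dvd_card' (G := N) r hrN
  rw [Subgroup.orderOf_mk] at hko
  have hNF : N ≤ Cfsg.fittingSubgroup G := le_sSup ⟨inferInstance, hnil⟩
  have hkF : k ∈ Cfsg.fittingSubgroup G := hNF hkN
  have hcomm := Cfsg.Agent.Lib.Helper6.commute_of_pelt_of_coprime
    (G := ↥(Cfsg.fittingSubgroup G)) Cfsg.Agent.Lib.Lead.fitting_isNilpotent (p := q)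
    (u := ⟨y, hyF⟩) (v := ⟨k, hkF⟩) (i := (orderOf x).factorization q)
    (by rw [Subgroup.orderOf_mk]; exact hyo)
    (by rw [Subgroup.orderOf_mk, hko]; exact (Nat.coprime_primes hr hq).mpr hrq)
  have hcomm' : Commute y k := congrArg Subtype.val hcomm.eq
  have h1 := hcomm'.orderOf_mul_eq_mul_orderOf_of_coprime
    (by rw [hyo, hko]; exact Nat.Coprime.pow_left _ ((Nat.coprime_primes hq hr).mpr hrq.symm))
  rw [heq y hyN k hkN, hko] at h1
  have h2 : orderOf y * 1 = orderOf y * r := by rw [mul_one]; exact h1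
  exact hr.one_lt.ne (Nat.eq_of_mul_eq_mul_left (orderOf_pos y) h2)

theorem syl_quot {G : Type u} [Group G] [Finite G] (N : Subgroup G) [N.Normal] (hN1 : N ≠ ⊥)
    (heq : ∀ x : G, x ∉ N → ∀ n ∈ N, orderOf (x * n) = orderOf x)
    (hnil : Group.IsNilpotent N) (hnpp : ¬ IsPrimePow (Nat.card N))
    (q : ℕ) [Fact q.Prime] (Q0 : Sylow q G) :
    IsCyclic ↥((Q0 : Subgroup G).map (QuotientGroup.mk' N)) ∨
      ∃ n : ℕ, Nonempty (↥((Q0 : Subgroup G).map (QuotientGroup.mk' N)) ≃* QuaternionGroup (2 ^ n)) := by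
  have hq : q.Prime := Fact.out
  obtain ⟨Sq⟩ : Nonempty (Sylow q N) := inferInstance
  have hsyl := ((Group.isNilpotent_of_finite_tfae (G := ↥N)).out 0 3).mp hnil
  have hSqn : (Sq : Subgroup N).Normal := hsyl q inferInstance Sq
  haveI hSqc : (Sq : Subgroup N).Characteristic := Sylow.characteristic_of_normal Sq hSqn
  obtain ⟨Nq, hNqdef⟩ : ∃ Nq : Subgroup G, Nq = (Sq : Subgroup N).map N.subtype := ⟨_, rfl⟩
  haveI hNqn : Nq.Normal := hNqdef ▸ ConjAct.normal_of_characteristic_of_normal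
  have hNqN : Nq ≤ N := by rw [hNqdef]; exact Subgroup.map_subtype_le _
  have hNqp : IsPGroup q Nq := by rw [hNqdef]; exact Sq.2.map _
  have hqel : ∀ x ∈ N, ∀ i : ℕ, orderOf x = q ^ i → x ∈ Nq := by
    intro x hx i hi
    have := Cfsg.Agent.Lib.Helper6.mem_sylow_of_normal_of_orderOf Sq hSqn ⟨x, hx⟩ i
      (by rw [Subgroup.orderOf_mk]; exact hi)
    rw [hNqdef]; exact ⟨⟨x, hx⟩, this, rfl⟩
  have hQ0p : ∀ x ∈ (Q0 : Subgroup G), ∃ i, orderOf x = q ^ i := by
    intro x hx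
    obtain ⟨i, hi⟩ := (IsPGroup.iff_orderOf.mp Q0.2) ⟨x, hx⟩
    exact ⟨i, by rw [← hi, Subgroup.orderOf_mk]⟩
  obtain ⟨K, hKdef⟩ : ∃ K : Subgroup (G ⧸ Nq), K = N.map (QuotientGroup.mk' Nq) := ⟨_, rfl⟩
  haveI hKn : K.Normal :=
    hKdef ▸ Subgroup.Normal.map inferInstance _ (QuotientGroup.mk'_surjective Nq)
  obtain ⟨H2, hH2def⟩ : ∃ H2 : Subgroup (G ⧸ Nq),
      H2 = (Q0 : Subgroup G).map (QuotientGroup.mk' Nq) := ⟨_, rfl⟩
  have hK1 : K ≠ ⊥ := by
    intro hK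
    have hle : N ≤ Nq := by
      intro x hx
      have : QuotientGroup.mk' Nq x ∈ K := hKdef ▸ ⟨x, hx, rfl⟩
      rw [hK, Subgroup.mem_bot] at this
      exact (QuotientGroup.eq_one_iff x).mp this
    have hNp : IsPGroup q N := by
      rintro ⟨x, hx⟩
      obtain ⟨i, hi⟩ := hNqp ⟨x, hle hx⟩
      have hi' : x ^ q ^ i = 1 := congrArg Subtype.val hi
      refine ⟨i, Subtype.ext ?_⟩
      show x ^ q ^ i = 1
      exact hi'
    obtain ⟨k, hk⟩ := IsPGroup.iff_card.mp hNp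
    apply hnpp
    rw [hk]
    refine hq.isPrimePow.pow ?_
    intro h0; rw [h0, pow_zero] at hk; exact hN1 (Subgroup.card_eq_one.mp hk)
  have hfpf : ∀ h ∈ H2, h ≠ 1 → K ⊓ Subgroup.centralizer {h} = ⊥ := by
    intro h hh hh1
    rw [hH2def] at hh
    obtain ⟨x, hxQ, rfl⟩ := hh
    have hxNq : x ∉ Nq := fun hx => hh1 ((QuotientGroup.eq_one_iff x).mpr hx)
    obtain ⟨i, hxi⟩ := hQ0p x hxQ
    have hxN : x ∉ N := fun hx => hxNq (hqel x hx i hxi)
    rw [eq_bot_iff]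
    rintro kb ⟨hkK, hkC⟩
    rw [Subgroup.mem_bot]
    have hkK' : kb ∈ N.map (QuotientGroup.mk' Nq) := hKdef ▸ hkK
    obtain ⟨k, hkN, rfl⟩ := hkK'
    have hcomm : QuotientGroup.mk' Nq x * QuotientGroup.mk' Nq k =
        QuotientGroup.mk' Nq k * QuotientGroup.mk' Nq x :=
      (Subgroup.mem_centralizer_iff.mp hkC) _ (Set.mem_singleton _)
    have key : ∀ k' ∈ N, (orderOf k').Coprime q →
        QuotientGroup.mk' Nq x * QuotientGroup.mk' Nq k' =
          QuotientGroup.mk' Nq k' * QuotientGroup.mk' Nq x → k' = 1 := by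
      intro k' hk'N hk'c hc
      obtain ⟨c, hcdef⟩ : ∃ c, c = (k' * x)⁻¹ * (x * k') := ⟨_, rfl⟩
      have hcN : c ∈ Nq := by
        rw [hcdef, ← QuotientGroup.eq]
        show QuotientGroup.mk' Nq (k' * x) = QuotientGroup.mk' Nq (x * k')
        rw [map_mul, map_mul, hc]
      have e1 : x⁻¹ * k'⁻¹ * x = c * k'⁻¹ := by rw [hcdef]; group
      obtain ⟨j, hj⟩ := hNqp ⟨c, hcN⟩
      have hcj : c ^ q ^ j = 1 := congrArg Subtype.val hj
      obtain ⟨j', -, hj'⟩ := (Nat.dvd_prime_pow hq).mp (orderOf_dvd_of_pow_eq_one hcj)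
      have hcommN := Cfsg.Agent.Lib.Helper6.commute_of_pelt_of_coprime (G := ↥N) hnil (p := q)
        (u := ⟨c, hNqN hcN⟩) (v := ⟨k'⁻¹, N.inv_mem hk'N⟩) (i := j')
        (by rw [Subgroup.orderOf_mk]; exact hj')
        (by rw [Subgroup.orderOf_mk, orderOf_inv]; exact hk'c)
      have hcomm' : Commute c k'⁻¹ := congrArg Subtype.val hcommN.eq
      have ho := hcomm'.orderOf_mul_eq_mul_orderOf_of_coprime
        (by rw [hj', orderOf_inv]; exact Nat.Coprime.pow_left _ hk'c.symm)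
      rw [← e1] at ho
      have ho2 : orderOf (x⁻¹ * k'⁻¹ * x) = orderOf k'⁻¹ := by
        have := (MulAut.conj x⁻¹).orderOf_eq k'⁻¹
        rw [MulAut.conj_apply, inv_inv] at this
        exact this
      rw [ho2] at ho
      have hc1 : orderOf c = 1 := by
        have h0 : 0 < orderOf k'⁻¹ := orderOf_pos _
        have h3 : 1 * orderOf k'⁻¹ = orderOf c * orderOf k'⁻¹ := by rw [one_mul]; exact ho
        exact (Nat.eq_of_mul_eq_mul_right h0 h3).symm
      have hc1' : c = 1 := orderOf_eq_one_iff.mp hc1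
      have hxk : Commute x k' := by
        rw [hc1'] at hcdef
        have h4 : k' * x = x * k' := by
          calc k' * x = (k' * x) * 1 := (mul_one _).symm
            _ = (k' * x) * ((k' * x)⁻¹ * (x * k')) := by rw [← hcdef]
            _ = x * k' := by group
        exact h4.symm
      have ho3 := hxk.orderOf_mul_eq_mul_orderOf_of_coprime
        (by rw [hxi]; exact Nat.Coprime.pow_left _ hk'c.symm)
      rw [heq x hxN k' hk'N] at ho3
      have h5 : orderOf k' = 1 := by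
        have h0 : 0 < orderOf x := orderOf_pos _
        have h6 : orderOf x * 1 = orderOf x * orderOf k' := by rw [mul_one]; exact ho3
        exact (Nat.eq_of_mul_eq_mul_left h0 h6).symm
      exact orderOf_eq_one_iff.mp h5
    have hok : orderOf k ≠ 0 := (orderOf_pos k).ne'
    obtain ⟨v, hv⟩ : ∃ v, v = (orderOf k).factorization q := ⟨_, rfl⟩
    have hdvd : q ^ v ∣ orderOf k := hv ▸ Nat.ordProj_dvd _ _
    have hk' := key (k ^ q ^ v) (N.pow_mem hkN _) (by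
        rw [orderOf_pow_of_dvd (pow_ne_zero _ hq.ne_zero) hdvd, hv]
        exact (Nat.coprime_ordCompl hq hok).symm) (by
        rw [map_pow]
        exact (Commute.pow_right (show Commute (QuotientGroup.mk' Nq x) (QuotientGroup.mk' Nq k)
          from hcomm) _).eq)
    have hkq : orderOf k ∣ q ^ v := orderOf_dvd_of_pow_eq_one hk'
    obtain ⟨v', -, hv'⟩ := (Nat.dvd_prime_pow hq).mp hkq
    exact (QuotientGroup.eq_one_iff k).mpr (hqel k hkN v' hv')
  obtain ⟨P⟩ : Nonempty (Sylow q H2) := inferInstance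
  have hres := Cfsg.Agent.Lib.Lead.frob_compl_sylow K H2 hK1 hfpf q P
  have hH2p : IsPGroup q H2 := by rw [hH2def]; exact Q0.2.map _
  have hPtop : (P : Subgroup H2) = ⊤ := sylow_eq_top_of_isPGroup hH2p P
  obtain ⟨e1⟩ : Nonempty (↥(P : Subgroup H2) ≃* ↥H2) :=
    ⟨(MulEquiv.subgroupCongr hPtop).trans Subgroup.topEquiv⟩
  obtain ⟨ψ, hψ⟩ : ∃ ψ : G ⧸ Nq →* G ⧸ N, ∀ x : G, ψ (QuotientGroup.mk' Nq x) = QuotientGroup.mk' N x :=
    ⟨QuotientGroup.map Nq N (MonoidHom.id G) (fun x hx => hNqN hx), fun x => rfl⟩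
  have hmap : H2.map ψ = (Q0 : Subgroup G).map (QuotientGroup.mk' N) := by
    rw [hH2def, Subgroup.map_map]
    congr 1
    exact MonoidHom.ext hψ
  have hinj : Function.Injective (ψ.subgroupMap H2) := by
    rw [injective_iff_map_eq_one]
    rintro ⟨h, hh⟩ hone
    have hone' : ψ h = 1 := congrArg Subtype.val hone
    have hh' : h ∈ (Q0 : Subgroup G).map (QuotientGroup.mk' Nq) := hH2def ▸ hh
    obtain ⟨x, hxQ, rfl⟩ := hh'
    rw [hψ] at hone'
    have hxN : x ∈ N := (QuotientGroup.eq_one_iff x).mp hone'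
    obtain ⟨i, hxi⟩ := hQ0p x hxQ
    apply Subtype.ext
    exact (QuotientGroup.eq_one_iff x).mpr (hqel x hxN i hxi)
  obtain ⟨e2⟩ : Nonempty (↥H2 ≃* ↥((Q0 : Subgroup G).map (QuotientGroup.mk' N))) :=
    ⟨(MulEquiv.ofBijective (ψ.subgroupMap H2)
      ⟨hinj, MonoidHom.subgroupMap_surjective ψ H2⟩).trans (MulEquiv.subgroupCongr hmap)⟩
  rcases hres with hc | ⟨n, ⟨e⟩⟩
  · left
    exact isCyclic_of_surjective (e1.trans e2) (e1.trans e2).surjective
  · right
    exact ⟨n, ⟨(e1.trans e2).symm.trans e⟩⟩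

theorem result {G : Type*} [Group G] [Finite G] (N : Subgroup G) [N.Normal] (hN1 : N ≠ ⊥) (hN2 : N ≠ ⊤)
    (heq : ∀ x : G, x ∉ N → ∀ n ∈ N, orderOf (x * n) = orderOf x)
    (hnil : Group.IsNilpotent N) (hnpp : ¬ IsPrimePow (Nat.card N)) :
    N = Cfsg.fittingSubgroup G ∧
    ∀ (q : ℕ) [Fact q.Prime] (Q : Sylow q (G ⧸ N)), IsCyclic (Q : Subgroup (G ⧸ N)) ∨ ∃ n : ℕ, Nonempty ((Q : Subgroup (G ⧸ N)) ≃* QuaternionGroup (2 ^ n)) := by
  constructor
  · apply le_antisymm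
    · exact le_sSup ⟨inferInstance, hnil⟩
    · exact fit_le N hN1 heq hnil hnpp
  · intro q _ Q
    obtain ⟨Q0⟩ : Nonempty (Sylow q G) := inferInstance
    obtain ⟨g, hg⟩ := MulAction.exists_smul_eq (G ⧸ N)
      (Q0.mapSurjective (QuotientGroup.mk'_surjective N)) Q
    have hsub : MulAut.conj g • ((Q0 : Subgroup G).map (QuotientGroup.mk' N)) =
        (Q : Subgroup (G ⧸ N)) := by
      rw [← hg, Sylow.coe_subgroup_smul, Sylow.coe_mapSurjective]
    obtain ⟨e⟩ : Nonempty (↥((Q0 : Subgroup G).map (QuotientGroup.mk' N)) ≃*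
        ↥(Q : Subgroup (G ⧸ N))) :=
      ⟨(Subgroup.equivSMul (MulAut.conj g) _).trans (MulEquiv.subgroupCongr hsub)⟩
    rcases syl_quot N hN1 heq hnil hnpp q Q0 with hc | ⟨n, ⟨e0⟩⟩
    · left; exact isCyclic_of_surjective e e.surjective
    · right; exact ⟨n, ⟨e.symm.trans e0⟩⟩

end Cfsg.Agent.S4155
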