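import Cfsg.Statements.S4156
import Mathlib

set_option autoImplicit false
open Cfsg

namespace Cfsg.Agent.S4156


theorem exists_rho (n : ℕ) (F : Type*) [Field F] :
    ∃ ρ : Equiv.Perm (Fin (n + 1)) →* Matrix (Fin n) (Fin n) F, ∀ (σ : Equiv.Perm (Fin (n + 1)))
      (i j : Fin n), ρ σ i j = (if σ (Fin.castSucc j) = Fin.castSucc i then (1 : F) else 0) -
        (if σ (Fin.last n) = Fin.castSucc i then (1 : F) else 0) := by
  refine ⟨{ toFun := fun σ => Matrix.of (fun i j =>
              (if σ (Fin.castSucc j) = Fin.castSucc i then (1 : F) else 0) -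
                (if σ (Fin.last n) = Fin.castSucc i then (1 : F) else 0))
            map_one' := ?_
            map_mul' := ?_ }, fun σ i j => rfl⟩
  · ext i j
    show (if (1 : Equiv.Perm (Fin (n + 1))) (Fin.castSucc j) = Fin.castSucc i then (1 : F) else 0) -
        (if (1 : Equiv.Perm (Fin (n + 1))) (Fin.last n) = Fin.castSucc i then (1 : F) else 0) =
        (1 : Matrix (Fin n) (Fin n) F) i j
    have h1 : ¬ (Fin.last n = Fin.castSucc i) := fun h => (Fin.castSucc_lt_last i).ne h.symm
    simp only [Equiv.Perm.coe_one, id_eq, h1, if_false, sub_zero, Matrix.one_apply,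
      Fin.castSucc_inj]
    by_cases h : i = j
    · simp [h]
    · have h' : ¬ j = i := fun h2 => h h2.symm
      simp [h, h']
  · intro σ τ
    ext i k
    rw [Matrix.mul_apply]
    have key : ∑ j : Fin n,
        ((if σ (Fin.castSucc j) = Fin.castSucc i then (1 : F) else 0) -
          (if σ (Fin.last n) = Fin.castSucc i then (1 : F) else 0)) *
        ((if τ (Fin.castSucc k) = Fin.castSucc j then (1 : F) else 0) -
          (if τ (Fin.last n) = Fin.castSucc j then (1 : F) else 0)) =
        ∑ x : Fin (n + 1),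
        ((if σ x = Fin.castSucc i then (1 : F) else 0) -
          (if σ (Fin.last n) = Fin.castSucc i then (1 : F) else 0)) *
        ((if τ (Fin.castSucc k) = x then (1 : F) else 0) -
          (if τ (Fin.last n) = x then (1 : F) else 0)) := by
      rw [Fin.sum_univ_castSucc]
      simp
    have s1 : ∀ y : Fin (n + 1), ∑ x : Fin (n + 1),
        (if σ x = Fin.castSucc i then (1 : F) else 0) * (if y = x then (1 : F) else 0) =
        (if σ y = Fin.castSucc i then (1 : F) else 0) := by
      intro y
      rw [Finset.sum_mul_boole]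
      simp
    have s2 : ∀ y : Fin (n + 1), ∑ x : Fin (n + 1), (if y = x then (1 : F) else 0) = 1 := by
      intro y
      simp
    show (if (σ * τ) (Fin.castSucc k) = Fin.castSucc i then (1 : F) else 0) -
        (if (σ * τ) (Fin.last n) = Fin.castSucc i then (1 : F) else 0) =
        ∑ j : Fin n,
        ((if σ (Fin.castSucc j) = Fin.castSucc i then (1 : F) else 0) -
          (if σ (Fin.last n) = Fin.castSucc i then (1 : F) else 0)) *
        ((if τ (Fin.castSucc k) = Fin.castSucc j then (1 : F) else 0) -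
          (if τ (Fin.last n) = Fin.castSucc j then (1 : F) else 0))
    rw [key]
    simp only [sub_mul, mul_sub, Finset.sum_sub_distrib, ← Finset.mul_sum, s1, s2,
      Equiv.Perm.coe_mul, Function.comp_apply]
    have harith : ∀ x y a : F, x - y = x - a * 1 - (y - a * 1) := by
      intro x y a
      ring
    exact harith _ _ _

theorem det_one (n : ℕ) (F : Type*) [Field F]
    (ρ : Equiv.Perm (Fin (n + 1)) →* Matrix (Fin n) (Fin n) F)
    (σ : Equiv.Perm (Fin (n + 1))) (hσ : σ ∈ alternatingGroup (Fin (n + 1))) :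
    (ρ σ).det = 1 := by
  classical
  let δ : Equiv.Perm (Fin (n + 1)) →* Fˣ := (Matrix.detMonoidHom.comp ρ).toHomUnits
  have hδ : ∀ τ, ((δ τ : Fˣ) : F) = (ρ τ).det := fun τ => rfl
  have hker : alternatingGroup (Fin (n + 1)) ≤ δ.ker := by
    rw [← Equiv.Perm.closure_three_cycles_eq_alternating, Subgroup.closure_le]
    intro c hc
    have hc3 : Equiv.Perm.IsThreeCycle c := hc
    show c ∈ δ.ker
    rw [MonoidHom.mem_ker]
    have h3 : (δ c) ^ 3 = 1 := by
      rw [← map_pow, ← hc3.orderOf, pow_orderOf_eq_one, map_one]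
    have hconj : IsConj c c⁻¹ := by
      rw [Equiv.Perm.isConj_iff_cycleType_eq, Equiv.Perm.cycleType_inv]
    obtain ⟨g, hg⟩ := isConj_iff.mp hconj
    have h2 : δ c⁻¹ = δ c := by
      rw [← hg, map_mul, map_mul, map_inv, mul_comm (δ g), mul_assoc, mul_inv_cancel, mul_one]
    rw [map_inv] at h2
    have h4 : (δ c) ^ 2 = 1 := by
      rw [sq]
      nth_rewrite 1 [← h2]
      exact inv_mul_cancel _
    calc δ c = (δ c) ^ 3 * ((δ c) ^ 2)⁻¹ := by group
      _ = 1 := by rw [h3, h4]; simp
  have h1 : δ σ = 1 := MonoidHom.mem_ker.mp (hker hσ)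
  rw [← hδ σ, h1]
  rfl
theorem result (n : ℕ) (hn : 5 ≤ n) (F : Type*) [Field F] [Finite F] :
    ∃ f : alternatingGroup (Fin (n + 1)) →* Matrix.ProjectiveSpecialLinearGroup (Fin n) F, Function.Injective f := by
  classical
  obtain ⟨ρ, hρ⟩ := exists_rho n F
  have hdet := det_one n F ρ
  let ψ : alternatingGroup (Fin (n + 1)) →* Matrix.SpecialLinearGroup (Fin n) F :=
    { toFun := fun σ => ⟨ρ σ.1, hdet σ.1 σ.2⟩
      map_one' := by
        apply Subtype.ext
        show ρ ((1 : alternatingGroup (Fin (n + 1))) : Equiv.Perm (Fin (n + 1))) = 1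
        rw [Subgroup.coe_one, map_one]
      map_mul' := fun a b => by
        apply Subtype.ext
        show ρ ((a * b : alternatingGroup (Fin (n + 1))) : Equiv.Perm (Fin (n + 1))) = ρ a.1 * ρ b.1
        rw [Subgroup.coe_mul, map_mul] }
  have hψ : ∀ (a : alternatingGroup (Fin (n + 1))) (i j : Fin n),
      (ψ a : Matrix (Fin n) (Fin n) F) i j = ρ a.1 i j := fun a i j => rfl
  refine ⟨(QuotientGroup.mk' (Subgroup.center (Matrix.SpecialLinearGroup (Fin n) F))).comp ψ, ?_⟩
  rw [injective_iff_map_eq_one]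
  intro a ha
  have h1 : ψ a ∈ Subgroup.center (Matrix.SpecialLinearGroup (Fin n) F) := by
    rw [← QuotientGroup.eq_one_iff]
    exact ha
  rw [Matrix.SpecialLinearGroup.mem_center_iff] at h1
  obtain ⟨r, -, hr⟩ := h1
  have hM : ∀ i j : Fin n, (if a.1 (Fin.castSucc j) = Fin.castSucc i then (1 : F) else 0) -
      (if a.1 (Fin.last n) = Fin.castSucc i then (1 : F) else 0) = if i = j then r else 0 := by
    intro i j
    rw [← hρ, ← hψ, ← hr]
    simp [Matrix.scalar_apply, Matrix.diagonal_apply]
  have hL : a.1 (Fin.last n) = Fin.last n := by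
    by_contra hne
    obtain ⟨i₀, hi₀⟩ := Fin.exists_castSucc_eq.mpr hne
    obtain ⟨j, hj⟩ : ∃ j : Fin n, j ≠ i₀ := by
      by_cases h0 : i₀ = ⟨0, by omega⟩
      · exact ⟨⟨1, by omega⟩, by rw [h0]; intro h; exact absurd (congrArg Fin.val h) (by simp)⟩
      · exact ⟨⟨0, by omega⟩, fun h => h0 h.symm⟩
    have h2 := hM i₀ j
    rw [if_pos hi₀.symm, if_neg (show ¬ (i₀ = j) from fun h => hj h.symm)] at h2
    by_cases h3 : a.1 (Fin.castSucc j) = Fin.castSucc i₀
    · have h4 : a.1 (Fin.castSucc j) = a.1 (Fin.last n) := by rw [h3, hi₀]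
      have h5 := a.1.injective h4
      exact (Fin.castSucc_lt_last j).ne h5
    · rw [if_neg h3] at h2
      have h6 : (1 : F) = 0 := by linear_combination -h2
      exact one_ne_zero h6
  have hfix : ∀ j : Fin n, a.1 (Fin.castSucc j) = Fin.castSucc j := by
    intro j
    have hne : a.1 (Fin.castSucc j) ≠ Fin.last n := by
      intro h
      have h4 : a.1 (Fin.castSucc j) = a.1 (Fin.last n) := by rw [h, hL]
      exact (Fin.castSucc_lt_last j).ne (a.1.injective h4)
    obtain ⟨i, hi⟩ := Fin.exists_castSucc_eq.mpr hne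
    by_cases hij : i = j
    · rw [← hi, hij]
    · exfalso
      have h2 := hM i j
      rw [if_pos hi.symm, if_neg hij, if_neg (by rw [hL]; exact fun h => (Fin.castSucc_lt_last i).ne h.symm)] at h2
      have h6 : (1 : F) = 0 := by linear_combination h2
      exact one_ne_zero h6
  apply Subtype.ext
  apply Equiv.ext
  intro x
  show a.1 x = x
  induction x using Fin.lastCases with
  | last => exact hL
  | cast j => exact hfix j

end Cfsg.Agent.S4156
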