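import Cfsg.Statements.S4177
import Mathlib

set_option autoImplicit false
open Cfsg

namespace Cfsg.Agent.S4177

/-- Let k be a field whose characteristic does not divide the order of the finite group H (for instance a field of characteristic zero), and ρ a k-linear representation of H on V. Let a be a vector whose H-orbit spans V. Then the space of H-fixed vectors has dimension at most 1, and every vector b whose H-orbit has size coprime to the size of the orbit of a is fixed by H. -/
theorem result {k V H : Type*} [Field k] [AddCommGroup V] [Module k V] [Group H] [Finite H]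
    (hchar : ¬ ringChar k ∣ Nat.card H) (ρ : Representation k H V) (a : V)
    (hspan : Submodule.span k {u : V | ∃ h : H, ρ h a = u} = ⊤) :
    Module.finrank k ρ.invariants ≤ 1 ∧
    ∀ b : V, (Nat.card {u : V | ∃ h : H, ρ h a = u}).Coprime (Nat.card {u : V | ∃ h : H, ρ h b = u}) → ∀ h : H, ρ h b = b := by
  classical
  have : Fintype H := Fintype.ofFinite H
  let _ : MulAction H V :=
    { smul := fun h v => ρ h v
      one_smul := fun v => by show ρ 1 v = v; rw [map_one]; rfl
      mul_smul := fun g h v => by show ρ (g * h) v = ρ g (ρ h v); rw [map_mul]; rfl }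
  have hHk : ((Nat.card H : ℕ) : k) ≠ 0 := by
    intro h0
    exact hchar ((ringChar.spec k _).mp h0)
  let T : V →ₗ[k] V := ∑ h : H, ρ h
  have hT : ∀ v, T v = ∑ h : H, ρ h v := by
    intro v; simp [T, LinearMap.sum_apply]
  have hTgen : ∀ h₀ : H, T (ρ h₀ a) = T a := by
    intro h₀
    rw [hT, hT]
    apply Fintype.sum_equiv (Equiv.mulRight h₀)
    intro h
    show ρ h (ρ h₀ a) = ρ (h * h₀) a
    rw [map_mul]; rfl
  have hTspan : ∀ v : V, T v ∈ Submodule.span k ({T a} : Set V) := by
    intro v
    have hv : v ∈ Submodule.span k {u : V | ∃ h : H, ρ h a = u} := by rw [hspan]; trivial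
    have hle : Submodule.span k {u : V | ∃ h : H, ρ h a = u}
        ≤ (Submodule.span k ({T a} : Set V)).comap T := by
      rw [Submodule.span_le]
      rintro u ⟨h₀, rfl⟩
      show T (ρ h₀ a) ∈ Submodule.span k ({T a} : Set V)
      rw [hTgen]
      exact Submodule.mem_span_singleton_self _
    exact hle hv
  have hinv : ∀ v ∈ ρ.invariants, v ∈ Submodule.span k ({T a} : Set V) := by
    intro v hv
    have h1 : T v = (Nat.card H : k) • v := by
      rw [hT, Finset.sum_congr rfl (fun h _ => (Representation.mem_invariants ρ v).mp hv h),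
        Finset.sum_const, Finset.card_univ, Nat.cast_smul_eq_nsmul, Nat.card_eq_fintype_card]
    have h2 := hTspan v
    rw [h1] at h2
    have := Submodule.smul_mem _ ((Nat.card H : k)⁻¹) h2
    rwa [smul_smul, inv_mul_cancel₀ hHk, one_smul] at this
  constructor
  · have hle : ρ.invariants ≤ Submodule.span k ({T a} : Set V) := hinv
    calc Module.finrank k ρ.invariants
        ≤ Module.finrank k (Submodule.span k ({T a} : Set V)) := Submodule.finrank_mono hle
      _ ≤ 1 := by
        have := finrank_span_le_card (R := k) ({T a} : Set V)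
        simpa using this
  · intro b hcop h₁
    have hOa : Nat.card {u : V | ∃ h : H, ρ h a = u} = (MulAction.stabilizer H a).index := by
      rw [MulAction.index_stabilizer, ← Nat.card_coe_set_eq]; rfl
    have hOb : Nat.card {u : V | ∃ h : H, ρ h b = u} = (MulAction.stabilizer H b).index := by
      rw [MulAction.index_stabilizer, ← Nat.card_coe_set_eq]; rfl
    rw [hOa, hOb] at hcop
    have hrel : (MulAction.stabilizer H a).index
        ≤ (MulAction.stabilizer H a).relIndex (MulAction.stabilizer H b) := by
      have h1 : (MulAction.stabilizer H a).relIndex (MulAction.stabilizer H b)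
          * (MulAction.stabilizer H b).index
          = (MulAction.stabilizer H a ⊓ MulAction.stabilizer H b).index := by
        rw [← Subgroup.inf_relIndex_right, Subgroup.relIndex_mul_index inf_le_right]
      have h2 : (MulAction.stabilizer H a).index
          ∣ (MulAction.stabilizer H a ⊓ MulAction.stabilizer H b).index :=
        Subgroup.index_dvd_of_le inf_le_left
      rw [← h1] at h2
      have h3 : (MulAction.stabilizer H a).index
          ∣ (MulAction.stabilizer H a).relIndex (MulAction.stabilizer H b) :=
        hcop.dvd_of_dvd_mul_right h2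
      refine Nat.le_of_dvd (Nat.pos_of_ne_zero ?_) h3
      show ((MulAction.stabilizer H a).subgroupOf (MulAction.stabilizer H b)).index ≠ 0
      exact Subgroup.index_ne_zero_of_finite
    have hstab : MulAction.stabilizer ↥(MulAction.stabilizer H b) a
        = (MulAction.stabilizer H a).subgroupOf (MulAction.stabilizer H b) := by
      ext x
      rw [MulAction.mem_stabilizer_iff, Subgroup.mem_subgroupOf, MulAction.mem_stabilizer_iff]
      rfl
    have hsubO : MulAction.orbit ↥(MulAction.stabilizer H b) a ⊆ MulAction.orbit H a := by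
      rintro _ ⟨β, rfl⟩
      exact ⟨(β : H), rfl⟩
    have hOeq : MulAction.orbit ↥(MulAction.stabilizer H b) a = MulAction.orbit H a := by
      apply Set.eq_of_subset_of_ncard_le hsubO _ (Set.finite_range (fun h : H => h • a))
      rw [← MulAction.index_stabilizer, ← MulAction.index_stabilizer, hstab]
      exact hrel
    have htrans : ∀ h : H, ∃ β : ↥(MulAction.stabilizer H b), ρ h a = ρ (β : H) a := by
      intro h
      have h1 : h • a ∈ MulAction.orbit ↥(MulAction.stabilizer H b) a := by
        rw [hOeq]; exact MulAction.mem_orbit a h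
      obtain ⟨β, hβ⟩ := h1
      exact ⟨β, hβ.symm⟩
    have : Fintype ↥(MulAction.stabilizer H b) := Fintype.ofFinite _
    let TB : V →ₗ[k] V := ∑ β : ↥(MulAction.stabilizer H b), ρ (β : H)
    have hTB : ∀ v, TB v = ∑ β : ↥(MulAction.stabilizer H b), ρ (β : H) v := by
      intro v; simp [TB, LinearMap.sum_apply]
    have hTBβ : ∀ (β₀ : ↥(MulAction.stabilizer H b)) (v : V), TB (ρ (β₀ : H) v) = TB v := by
      intro β₀ v
      rw [hTB, hTB]
      apply Fintype.sum_equiv (Equiv.mulRight β₀)
      intro β
      show ρ (β : H) (ρ (β₀ : H) v) = ρ ((β * β₀ : ↥(MulAction.stabilizer H b)) : H) v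
      rw [Subgroup.coe_mul, map_mul]; rfl
    have hTBgen : ∀ h : H, TB (ρ h a) = TB a := by
      intro h
      obtain ⟨β, hβ⟩ := htrans h
      rw [hβ, hTBβ]
    have hTBspan : ∀ v : V, TB v ∈ Submodule.span k ({TB a} : Set V) := by
      intro v
      have hv : v ∈ Submodule.span k {u : V | ∃ h : H, ρ h a = u} := by rw [hspan]; trivial
      have hle : Submodule.span k {u : V | ∃ h : H, ρ h a = u}
          ≤ (Submodule.span k ({TB a} : Set V)).comap TB := by
        rw [Submodule.span_le]
        rintro u ⟨h₀, rfl⟩
        show TB (ρ h₀ a) ∈ Submodule.span k ({TB a} : Set V)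
        rw [hTBgen]
        exact Submodule.mem_span_singleton_self _
      exact hle hv
    have hBk : ((Nat.card ↥(MulAction.stabilizer H b) : ℕ) : k) ≠ 0 := by
      intro h0
      apply hHk
      have := Subgroup.card_mul_index (MulAction.stabilizer H b)
      rw [← this, Nat.cast_mul, h0, zero_mul]
    have hTBb : TB b = (Nat.card ↥(MulAction.stabilizer H b) : k) • b := by
      rw [hTB, Finset.sum_congr rfl (fun β _ => β.2),
        Finset.sum_const, Finset.card_univ, Nat.cast_smul_eq_nsmul, Nat.card_eq_fintype_card]
    have hbspan : b ∈ Submodule.span k ({TB a} : Set V) := by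
      have h2 := hTBspan b
      rw [hTBb] at h2
      have := Submodule.smul_mem _ ((Nat.card ↥(MulAction.stabilizer H b) : k)⁻¹) h2
      rwa [smul_smul, inv_mul_cancel₀ hBk, one_smul] at this
    have hs_inv : ∀ h₀ : H, ρ h₀ (T a) = T a := by
      intro h₀
      rw [hT, map_sum]
      apply Fintype.sum_equiv (Equiv.mulLeft h₀)
      intro h
      show ρ h₀ (ρ h a) = ρ (h₀ * h) a
      rw [map_mul]; rfl
    have hTBs : TB (T a) = (Nat.card ↥(MulAction.stabilizer H b) : k) • T a := by
      rw [hTB, Finset.sum_congr rfl (fun (β : ↥(MulAction.stabilizer H b)) _ => hs_inv (β : H)), Finset.sum_const,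
        Finset.card_univ, Nat.cast_smul_eq_nsmul, Nat.card_eq_fintype_card]
    have hTBs' : TB (T a) = (Nat.card H : k) • TB a := by
      rw [hT, map_sum, Finset.sum_congr rfl (fun h _ => hTBgen h), Finset.sum_const,
        Finset.card_univ, Nat.cast_smul_eq_nsmul, Nat.card_eq_fintype_card]
    have hTBa_inv : ∀ h₀ : H, ρ h₀ (TB a) = TB a := by
      intro h₀
      have e : TB a = ((Nat.card H : k)⁻¹ * (Nat.card ↥(MulAction.stabilizer H b) : k)) • T a := by
        rw [mul_smul, ← hTBs, hTBs', smul_smul, inv_mul_cancel₀ hHk, one_smul]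
      rw [e, map_smul, hs_inv]
    obtain ⟨c, hc⟩ := Submodule.mem_span_singleton.mp hbspan
    rw [← hc, map_smul, hTBa_inv]

end Cfsg.Agent.S4177
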