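import Cfsg.Statements.S4178
import Mathlib

set_option autoImplicit false
open Cfsg

namespace Cfsg.Agent.S4178

/-- Let F be a finite field with q elements, V a non-zero finite-dimensional F-space of dimension d, H a group of invertible linear maps of V, and R the subgroup of H generated by the elements of H that fix some non-zero vector (have eigenvalue 1). Then the index of R in H is at most q^d − 1; and if H leaves invariant some proper non-zero subspace, the index is at most q^(d/2) − 1. -/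
theorem result {F V : Type*} [Field F] [Fintype F] [AddCommGroup V] [Module F V] [FiniteDimensional F V] [Nontrivial V]
    (H : Subgroup (V ≃ₗ[F] V)) :
    (Subgroup.closure {h : ↥H | ∃ v : V, v ≠ 0 ∧ (h : V ≃ₗ[F] V) v = v}).index ≤ Fintype.card F ^ Module.finrank F V - 1 ∧
    ((∃ W : Submodule F V, W ≠ ⊥ ∧ W ≠ ⊤ ∧ ∀ h ∈ H, ∀ w ∈ W, h w ∈ W) →
      ((Subgroup.closure {h : ↥H | ∃ v : V, v ≠ 0 ∧ (h : V ≃ₗ[F] V) v = v}).index : ℝ) ≤ Real.sqrt ((Fintype.card F : ℝ) ^ Module.finrank F V) - 1) := by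
  classical
  haveI : Finite V := Module.finite_of_finite F
  haveI : Finite (V ≃ₗ[F] V) :=
    Finite.of_injective (fun e : V ≃ₗ[F] V => (e : V → V)) DFunLike.coe_injective
  obtain ⟨R, hR⟩ : ∃ R : Subgroup ↥H,
      R = Subgroup.closure {h : ↥H | ∃ v : V, v ≠ 0 ∧ (h : V ≃ₗ[F] V) v = v} := ⟨_, rfl⟩
  rw [← hR]
  have hgen : ∀ h : ↥H, (∃ v : V, v ≠ 0 ∧ (h : V ≃ₗ[F] V) v = v) → h ∈ R := by
    intro h hh
    rw [hR]
    exact Subgroup.subset_closure hh
  have hq : Nat.card F = Fintype.card F := Nat.card_eq_fintype_card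
  have hmono : ∀ S : Subgroup ↥H, S ≤ R → R.index ≤ S.index := by
    intro S hS
    exact Nat.le_of_dvd (Nat.pos_of_ne_zero Subgroup.index_ne_zero_of_finite)
      (Subgroup.index_dvd_of_le hS)
  have hinv1 : ∀ (a : V ≃ₗ[F] V) (y : V), a⁻¹ (a y) = y :=
    fun a y => congrArg (fun g : V ≃ₗ[F] V => g y) (inv_mul_cancel a)
  have hinv2 : ∀ (a : V ≃ₗ[F] V) (y : V), a (a⁻¹ y) = y :=
    fun a y => congrArg (fun g : V ≃ₗ[F] V => g y) (mul_inv_cancel a)
  have L1 : ∀ U : Submodule F V, (∀ h ∈ H, ∀ u ∈ U, h u ∈ U) → ∀ v ∈ U, v ≠ 0 →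
      R.index + 1 ≤ Fintype.card F ^ Module.finrank F U := by
    intro U hU v hvU hv0
    have h1 : MulAction.stabilizer ↥H v ≤ R := by
      intro h hh
      apply hgen
      exact ⟨v, hv0, MulAction.mem_stabilizer_iff.1 hh⟩
    have h2 := hmono _ h1
    rw [MulAction.index_stabilizer] at h2
    have h3 : insert (0 : V) (MulAction.orbit ↥H v) ⊆ (U : Set V) := by
      intro x hx
      rcases hx with rfl | ⟨h, rfl⟩
      · exact U.zero_mem
      · exact hU h.1 h.2 v hvU
    have h0 : (0 : V) ∉ MulAction.orbit ↥H v := by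
      rintro ⟨h, hh⟩
      apply hv0
      have hh' : (h : V ≃ₗ[F] V) v = 0 := hh
      exact (LinearEquiv.map_eq_zero_iff _).1 hh'
    have h4 := Set.ncard_le_ncard h3 (Set.toFinite _)
    rw [Set.ncard_insert_of_notMem h0 (Set.toFinite _)] at h4
    have h6a : Nat.card ↥U = Nat.card F ^ Module.finrank F ↥U := Module.natCard_eq_pow_finrank
    have h6 : (U : Set V).ncard = Fintype.card F ^ Module.finrank F U := by
      rw [← hq, ← h6a]; rfl
    rw [← h6]
    omega
  have L2 : ∀ W : Submodule F V, (∀ h ∈ H, ∀ w ∈ W, h w ∈ W) → ∀ v : V, v ∉ W →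
      R.index + 1 ≤ Fintype.card F ^ Module.finrank F (V ⧸ W) := by
    intro W hW v hvW
    let S : Subgroup ↥H :=
      { carrier := {h | (h : V ≃ₗ[F] V) v - v ∈ W}
        one_mem' := by
          show (1 : V ≃ₗ[F] V) v - v ∈ W
          have e : (1 : V ≃ₗ[F] V) v - v = 0 := sub_self v
          rw [e]; exact W.zero_mem
        mul_mem' := by
          intro a b ha hb
          have ha' : (a : V ≃ₗ[F] V) v - v ∈ W := ha
          have hb' : (b : V ≃ₗ[F] V) v - v ∈ W := hb
          show (a : V ≃ₗ[F] V) ((b : V ≃ₗ[F] V) v) - v ∈ W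
          have e : (a : V ≃ₗ[F] V) ((b : V ≃ₗ[F] V) v) - v
              = (a : V ≃ₗ[F] V) ((b : V ≃ₗ[F] V) v - v) + ((a : V ≃ₗ[F] V) v - v) := by
            rw [map_sub]; abel
          rw [e]
          exact W.add_mem (hW a.1 a.2 _ hb') ha'
        inv_mem' := by
          intro a ha
          have ha' : (a : V ≃ₗ[F] V) v - v ∈ W := ha
          show (a : V ≃ₗ[F] V)⁻¹ v - v ∈ W
          have e : (a : V ≃ₗ[F] V)⁻¹ v - v
              = -((a : V ≃ₗ[F] V)⁻¹ ((a : V ≃ₗ[F] V) v - v)) := by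
            rw [map_sub, hinv1]; abel
          rw [e]
          exact W.neg_mem (hW _ (H.inv_mem a.2) _ ha') }
    have hSmem : ∀ h : ↥H, h ∈ S ↔ (h : V ≃ₗ[F] V) v - v ∈ W := fun h => Iff.rfl
    have hSR : S ≤ R := by
      intro h hh
      have hh' : (h : V ≃ₗ[F] V) v - v ∈ W := hh
      apply hgen
      obtain ⟨U, hUdef⟩ : ∃ U : Submodule F V, U = W ⊔ Submodule.span F {v} := ⟨_, rfl⟩
      have hWU : W ≤ U := by rw [hUdef]; exact le_sup_left
      have hvU : v ∈ U := by
        rw [hUdef]; exact Submodule.mem_sup_right (Submodule.mem_span_singleton_self v)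
      have hmap : ∀ u ∈ U, (h : V ≃ₗ[F] V) u - u ∈ W := by
        intro u hu
        rw [hUdef] at hu
        obtain ⟨w, hw, z, hz, rfl⟩ := Submodule.mem_sup.1 hu
        obtain ⟨c, rfl⟩ := Submodule.mem_span_singleton.1 hz
        have e : (h : V ≃ₗ[F] V) (w + c • v) - (w + c • v)
            = ((h : V ≃ₗ[F] V) w - w) + c • ((h : V ≃ₗ[F] V) v - v) := by
          rw [map_add, map_smul, smul_sub]; abel
        rw [e]
        exact W.add_mem (W.sub_mem (hW h.1 h.2 w hw) hw) (W.smul_mem c hh')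
      haveI : Fintype ↥U := Fintype.ofFinite _
      haveI : Fintype ↥W := Fintype.ofFinite _
      have hcard : Fintype.card ↥W < Fintype.card ↥U := by
        apply Fintype.card_lt_of_injective_of_notMem (fun w : ↥W => (⟨w.1, hWU w.2⟩ : ↥U))
          (b := ⟨v, hvU⟩)
        · intro a b hab
          exact Subtype.ext (congrArg (fun u : ↥U => (u : V)) hab)
        · rintro ⟨w, hw⟩
          apply hvW
          have h1 := congrArg (fun u : ↥U => (u : V)) hw
          have h2 : (w : V) = v := h1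
          rw [← h2]; exact w.2
      obtain ⟨u₁, u₂, hne, heq⟩ := Fintype.exists_ne_map_eq_of_card_lt
        (fun u : ↥U => (⟨(h : V ≃ₗ[F] V) u - u, hmap u.1 u.2⟩ : ↥W)) hcard
      have h1 : (h : V ≃ₗ[F] V) (u₁ : V) - u₁ = (h : V ≃ₗ[F] V) (u₂ : V) - u₂ :=
        congrArg (fun w : ↥W => (w : V)) heq
      refine ⟨(u₁ : V) - u₂, ?_, ?_⟩
      · intro h0
        exact hne (Subtype.ext (sub_eq_zero.1 h0))
      · rw [map_sub]
        exact sub_eq_sub_iff_sub_eq_sub.1 h1
    have hwd : ∀ a b : ↥H, a⁻¹ * b ∈ S ↔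
        (Submodule.Quotient.mk ((a : V ≃ₗ[F] V) v) : V ⧸ W)
          = Submodule.Quotient.mk ((b : V ≃ₗ[F] V) v) := by
      intro a b
      rw [Submodule.Quotient.eq, hSmem]
      have e0 : ((a⁻¹ * b : ↥H) : V ≃ₗ[F] V) v
          = (a : V ≃ₗ[F] V)⁻¹ ((b : V ≃ₗ[F] V) v) := rfl
      rw [e0]
      constructor
      · intro hx
        have h1 := hW a.1 a.2 _ hx
        rw [map_sub, hinv2] at h1
        have e : (a : V ≃ₗ[F] V) v - (b : V ≃ₗ[F] V) v
            = -((b : V ≃ₗ[F] V) v - (a : V ≃ₗ[F] V) v) := by abel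
        rw [e]; exact W.neg_mem h1
      · intro hx
        have h1 := hW _ (H.inv_mem a.2) _ hx
        rw [map_sub, hinv1] at h1
        have e : (a : V ≃ₗ[F] V)⁻¹ ((b : V ≃ₗ[F] V) v) - v
            = -(v - (a : V ≃ₗ[F] V)⁻¹ ((b : V ≃ₗ[F] V) v)) := by abel
        rw [e]; exact W.neg_mem h1
    have hφwd : ∀ a b : ↥H, (QuotientGroup.mk a : ↥H ⧸ S) = QuotientGroup.mk b ↔
        (Submodule.Quotient.mk ((a : V ≃ₗ[F] V) v) : V ⧸ W)
          = Submodule.Quotient.mk ((b : V ≃ₗ[F] V) v) := by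
      intro a b
      rw [QuotientGroup.eq]; exact hwd a b
    let φ : ↥H ⧸ S → V ⧸ W :=
      fun x => Submodule.Quotient.mk (((x.out : ↥H) : V ≃ₗ[F] V) v)
    have hφinj : Function.Injective φ := by
      intro x y hxy
      have h1 := (hφwd x.out y.out).2 hxy
      rw [QuotientGroup.out_eq', QuotientGroup.out_eq'] at h1
      exact h1
    have hφ0 : ∀ x, φ x ≠ 0 := by
      intro x h0
      have h1 : ((x.out : ↥H) : V ≃ₗ[F] V) v ∈ W := (Submodule.Quotient.mk_eq_zero W).1 h0
      apply hvW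
      have h2 := hW _ (H.inv_mem (x.out).2) _ h1
      rw [hinv1] at h2
      exact h2
    haveI : Finite (V ⧸ W) :=
      Finite.of_surjective (Submodule.Quotient.mk : V → V ⧸ W) (Submodule.Quotient.mk_surjective W)
    have hcard : Nat.card (Option (↥H ⧸ S)) ≤ Nat.card (V ⧸ W) := by
      apply Nat.card_le_card_of_injective (fun o : Option (↥H ⧸ S) => o.elim 0 φ)
      intro o1 o2 h
      cases o1 with
      | none =>
        cases o2 with
        | none => rfl
        | some y => exact absurd h.symm (hφ0 y)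
      | some x =>
        cases o2 with
        | none => exact absurd h (hφ0 x)
        | some y => exact congrArg some (hφinj h)
    rw [Finite.card_option] at hcard
    have h3 := hmono S hSR
    rw [Subgroup.index_eq_card S] at h3
    have h4 : Nat.card (V ⧸ W) = Fintype.card F ^ Module.finrank F (V ⧸ W) := by
      rw [← hq]; exact Module.natCard_eq_pow_finrank
    rw [← h4]
    omega
  refine ⟨?_, ?_⟩
  · obtain ⟨v, hv0⟩ := exists_ne (0 : V)
    have h1 := L1 ⊤ (fun _ _ _ _ => Submodule.mem_top) v Submodule.mem_top hv0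
    rw [finrank_top] at h1
    exact Nat.le_sub_one_of_lt h1
  · rintro ⟨W, hWbot, hWtop, hW⟩
    obtain ⟨v, hvW, hv0⟩ := Submodule.exists_mem_ne_zero_of_ne_bot hWbot
    obtain ⟨v', hv'⟩ : ∃ v' : V, v' ∉ W := by
      by_contra hcon
      push_neg at hcon
      exact hWtop ((Submodule.eq_top_iff').2 hcon)
    have b1 := L1 W hW v hvW hv0
    have b2 := L2 W hW v' hv'
    have hdim := Submodule.finrank_quotient_add_finrank W
    obtain ⟨e, he, hle⟩ : ∃ e : ℕ, 2 * e ≤ Module.finrank F V ∧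
        R.index + 1 ≤ Fintype.card F ^ e := by
      rcases le_total (Module.finrank F W) (Module.finrank F (V ⧸ W)) with h | h
      · exact ⟨_, by omega, b1⟩
      · exact ⟨_, by omega, b2⟩
    have hq1 : (1 : ℝ) ≤ (Fintype.card F : ℝ) := by
      have h0 : 1 ≤ Fintype.card F := Fintype.card_pos
      exact_mod_cast h0
    have h1 : ((R.index + 1 : ℕ) : ℝ) ≤ ((Fintype.card F ^ e : ℕ) : ℝ) := Nat.cast_le.2 hle
    push_cast at h1
    have h2 : ((Fintype.card F : ℝ) ^ e) ^ 2 ≤ (Fintype.card F : ℝ) ^ Module.finrank F V := by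
      rw [← pow_mul]
      exact pow_le_pow_right₀ hq1 (by omega)
    have h3 := Real.le_sqrt_of_sq_le h2
    linarith

end Cfsg.Agent.S4178
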