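import Cfsg.Statements.S4182
import Cfsg.Agent.Lib.Helper6.Conj
import Cfsg.Agent.Lib.Helper6.RealElt

set_option autoImplicit false

namespace Cfsg.Agent.S4182

open Cfsg.Agent.Lib

universe u

/-- proper subgroups generated by their `p`-elements -/
def PG {G : Type*} [Group G] (p : ℕ) (X : Subgroup G) : Prop :=
  X ≠ ⊤ ∧ Subgroup.closure {g : G | g ∈ X ∧ ∃ k : ℕ, orderOf g = p ^ k} = X

theorem pg_map {G : Type*} [Group G] (p : ℕ) (φ : G ≃* G) {X : Subgroup G} (h : PG p X) :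
    PG p (X.map φ.toMonoidHom) := by
  refine ⟨?_, ?_⟩
  · intro htop
    apply h.1
    have h1 : (X.map φ.toMonoidHom).comap φ.toMonoidHom = X :=
      Subgroup.comap_map_eq_self_of_injective φ.injective X
    rw [← h1, htop, Subgroup.comap_top]
  · have h1 : {g : G | g ∈ X.map φ.toMonoidHom ∧ ∃ k : ℕ, orderOf g = p ^ k} =
        φ.toMonoidHom '' {g : G | g ∈ X ∧ ∃ k : ℕ, orderOf g = p ^ k} := by
      ext y
      constructor
      · rintro ⟨⟨x, hx, rfl⟩, k, hk⟩
        refine ⟨x, ⟨hx, k, ?_⟩, rfl⟩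
        rw [← hk]; exact (MulEquiv.orderOf_eq φ x).symm
      · rintro ⟨x, ⟨hx, k, hk⟩, rfl⟩
        exact ⟨⟨x, hx, rfl⟩, k, by rw [← hk]; exact MulEquiv.orderOf_eq φ x⟩
    rw [h1, ← MonoidHom.map_closure, h.2]

/-- a finite `p`-group is not the union of at most `p` proper subgroups -/
theorem exists_not_mem_of_card_le {G : Type*} [Group G] [Finite G] (p : ℕ) [Fact p.Prime]
    (P : Subgroup G) (hP : IsPGroup p P) (𝔐 : Finset (Subgroup G)) (hcard : 𝔐.card ≤ p)
    (hM : ∀ M ∈ 𝔐, ¬ P ≤ M) : ∃ y ∈ P, ∀ M ∈ 𝔐, y ∉ M := by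
  classical
  by_contra hno
  push Not at hno
  have hp : p.Prime := Fact.out
  haveI : Fintype G := Fintype.ofFinite G
  obtain ⟨n, hn⟩ := IsPGroup.iff_card.mp hP
  have hcardfilter : ∀ H : Subgroup G, (Finset.univ.filter (fun x : G => x ∈ H)).card = Nat.card H := by
    intro H
    rw [Nat.card_eq_fintype_card, Fintype.card_subtype]
  have hMcard : ∀ M ∈ 𝔐, Nat.card ↥(M ⊓ P) * p ≤ Nat.card P := by
    intro M hMm
    have h1 : Nat.card ↥(M ⊓ P) ∣ Nat.card P := Subgroup.card_dvd_of_le inf_le_right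
    rw [hn] at h1 ⊢
    obtain ⟨j, hj, hj2⟩ := (Nat.dvd_prime_pow hp).mp h1
    have hjn : j ≠ n := by
      intro hjn
      apply hM M hMm
      have h2 : M ⊓ P = P := by
        apply Subgroup.eq_of_le_of_card_ge inf_le_right
        rw [hj2, hn, hjn]
      rw [← h2]; exact inf_le_left
    rw [hj2, ← pow_succ]
    exact Nat.pow_le_pow_right hp.pos (by omega)
  obtain ⟨M₁, hM₁, -⟩ := hno 1 P.one_mem
  have hcp : p ≤ Nat.card P := by
    have h1 := hMcard M₁ hM₁
    have h2 : 0 < Nat.card ↥(M₁ ⊓ P) := Nat.card_pos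
    nlinarith
  have hn0 : n ≠ 0 := by
    rintro rfl
    rw [hn, pow_zero] at hcp
    have := hp.two_le
    omega
  obtain ⟨t, rfl⟩ : ∃ t, n = t + 1 := ⟨n - 1, by omega⟩
  have hsub : (Finset.univ.filter (fun x : G => x ∈ P)).erase 1 ⊆
      𝔐.biUnion (fun M => (Finset.univ.filter (fun x : G => x ∈ M ⊓ P)).erase 1) := by
    intro y hy
    rw [Finset.mem_erase, Finset.mem_filter] at hy
    obtain ⟨M, hMm, hyM⟩ := hno y hy.2.2
    rw [Finset.mem_biUnion]
    exact ⟨M, hMm, Finset.mem_erase.mpr ⟨hy.1, Finset.mem_filter.mpr ⟨Finset.mem_univ _, hyM, hy.2.2⟩⟩⟩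
  have h1 := Finset.card_le_card hsub
  have h2 := (Finset.card_biUnion_le (s := 𝔐)
    (t := fun M => (Finset.univ.filter (fun x : G => x ∈ M ⊓ P)).erase 1))
  have h3 : ∑ M ∈ 𝔐, ((Finset.univ.filter (fun x : G => x ∈ M ⊓ P)).erase 1).card ≤
      𝔐.card • (p ^ t - 1) := by
    apply Finset.sum_le_card_nsmul
    intro M hMm
    rw [Finset.card_erase_of_mem (Finset.mem_filter.mpr ⟨Finset.mem_univ _, (M ⊓ P).one_mem⟩),
      hcardfilter]
    have h4 := hMcard M hMm
    rw [hn, pow_succ] at h4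
    have h5 := Nat.le_of_mul_le_mul_right h4 hp.pos
    omega
  rw [Finset.card_erase_of_mem (Finset.mem_filter.mpr ⟨Finset.mem_univ _, P.one_mem⟩),
    hcardfilter, hn] at h1
  rw [smul_eq_mul] at h3
  have h6 : 𝔐.card * (p ^ t - 1) ≤ p * (p ^ t - 1) := Nat.mul_le_mul_right _ hcard
  have h7 : p * (p ^ t - 1) = p ^ (t + 1) - p := by
    rw [Nat.mul_sub, mul_one, pow_succ, mul_comm]
  have h8 : p ≤ p ^ (t + 1) := by
    calc p = p ^ 1 := (pow_one p).symm
      _ ≤ p ^ (t + 1) := Nat.pow_le_pow_right hp.pos (by omega)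
  have := hp.two_le
  omega

theorem main (p : ℕ) [Fact p.Prime] : ∀ (n : ℕ) (G : Type u) [Group G] [Finite G],
    Nat.card G = n → Subgroup.closure {g : G | ∃ k : ℕ, orderOf g = p ^ k} = ⊤ →
    ∀ 𝓗 : Finset (Subgroup G), (∀ H ∈ 𝓗, H ≠ ⊤) →
      (∀ g : G, (∃ k : ℕ, orderOf g = p ^ k) → ∃ H ∈ 𝓗, g ∈ H) → p + 1 ≤ 𝓗.card := by
  intro n
  induction n using Nat.strong_induction_on with
  | _ n ih =>
  intro G _ _ hn hgen 𝓗 hproper hcov
  classical
  by_contra hlt
  push Not at hlt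
  have hp : p.Prime := Fact.out
  haveI : Fintype (Subgroup G) := Fintype.ofFinite _
  -- Claim A
  have hA : ∀ X : Subgroup G, PG p X → ∃ H ∈ 𝓗, X ≤ H := by
    intro X hX
    by_contra hno
    push Not at hno
    have hlt' : Nat.card X < n := by
      rw [← hn]
      exact lt_of_le_of_ne (Subgroup.card_le_card_group X)
        (fun h => hX.1 ((Subgroup.card_eq_iff_eq_top X).mp h))
    have hgenX : Subgroup.closure {g : X | ∃ k : ℕ, orderOf g = p ^ k} = ⊤ := by
      apply Subgroup.map_injective X.subtype_injective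
      rw [MonoidHom.map_closure, ← MonoidHom.range_eq_map, Subgroup.range_subtype]
      have h1 : (X.subtype '' {g : X | ∃ k : ℕ, orderOf g = p ^ k}) =
          {g : G | g ∈ X ∧ ∃ k : ℕ, orderOf g = p ^ k} := by
        ext y
        constructor
        · rintro ⟨x, ⟨k, hk⟩, rfl⟩
          exact ⟨x.2, k, by rw [← hk]; exact Subgroup.orderOf_coe x⟩
        · rintro ⟨hy, k, hk⟩
          exact ⟨⟨y, hy⟩, ⟨k, by rw [← hk]; exact (Subgroup.orderOf_coe ⟨y, hy⟩).symm⟩, rfl⟩
      rw [h1, hX.2]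
    have hpr : ∀ H' ∈ 𝓗.image (fun H => H.subgroupOf X), H' ≠ ⊤ := by
      intro H' hH'
      obtain ⟨H, hH, rfl⟩ := Finset.mem_image.mp hH'
      rw [Ne, Subgroup.subgroupOf_eq_top]
      exact hno H hH
    have hcv : ∀ g : X, (∃ k : ℕ, orderOf g = p ^ k) →
        ∃ H' ∈ 𝓗.image (fun H => H.subgroupOf X), g ∈ H' := by
      intro g hg
      obtain ⟨k, hk⟩ := hg
      have hg' : ∃ k : ℕ, orderOf (g : G) = p ^ k := ⟨k, by rw [← hk]; exact Subgroup.orderOf_coe g⟩
      obtain ⟨H, hH, hgH⟩ := hcov (g : G) hg'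
      exact ⟨H.subgroupOf X, Finset.mem_image_of_mem _ hH, Subgroup.mem_subgroupOf.mpr hgH⟩
    have h2 := ih _ hlt' X rfl hgenX (𝓗.image (fun H => H.subgroupOf X)) hpr hcv
    have h3 := Finset.card_image_le (s := 𝓗) (f := fun H => H.subgroupOf X)
    omega
  -- maximal elements
  have hfin : {X : Subgroup G | PG p X}.Finite := Set.toFinite _
  have hmaxex : ∀ X : Subgroup G, PG p X → ∃ M, X ≤ M ∧ Maximal (PG p) M := by
    intro X hX
    exact hfin.exists_le_maximal hX
  set 𝔐 : Finset (Subgroup G) := Finset.univ.filter (fun M => Maximal (PG p) M) with h𝔐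
  have hmem𝔐 : ∀ M, M ∈ 𝔐 ↔ Maximal (PG p) M := by
    intro M; simp [h𝔐]
  -- Claim C
  let f : Subgroup G → Subgroup G := fun M => if h : ∃ H ∈ 𝓗, M ≤ H then h.choose else ⊥
  have hf : ∀ M, Maximal (PG p) M → f M ∈ 𝓗 ∧ M ≤ f M := by
    intro M hM
    have h := hA M hM.1
    simp only [f, dif_pos h]
    exact h.choose_spec
  have hcard : 𝔐.card ≤ 𝓗.card := by
    apply Finset.card_le_card_of_injOn f
    · intro M hM
      exact Finset.mem_coe.mpr (hf M ((hmem𝔐 M).mp (Finset.mem_coe.mp hM))).1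
    · intro M hM M' hM' hfeq
      have hM1 := (hmem𝔐 M).mp (Finset.mem_coe.mp hM)
      have hM1' := (hmem𝔐 M').mp (Finset.mem_coe.mp hM')
      obtain ⟨hH, hMH⟩ := hf M hM1
      obtain ⟨-, hM'H⟩ := hf M' hM1'
      rw [← hfeq] at hM'H
      have hH0le : Subgroup.closure {g : G | g ∈ f M ∧ ∃ k : ℕ, orderOf g = p ^ k} ≤ f M := by
        rw [Subgroup.closure_le]; rintro g ⟨hg, -⟩; exact hg
      have hH0pg : PG p (Subgroup.closure {g : G | g ∈ f M ∧ ∃ k : ℕ, orderOf g = p ^ k}) := by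
        refine ⟨fun htop => hproper (f M) hH (top_le_iff.mp (htop ▸ hH0le)), ?_⟩
        apply le_antisymm
        · rw [Subgroup.closure_le]; rintro g ⟨hg, -⟩; exact hg
        · apply Subgroup.closure_mono
          rintro g ⟨hg, hk⟩
          exact ⟨Subgroup.subset_closure ⟨hg, hk⟩, hk⟩
      have key : ∀ M₀ : Subgroup G, Maximal (PG p) M₀ → M₀ ≤ f M →
          M₀ = Subgroup.closure {g : G | g ∈ f M ∧ ∃ k : ℕ, orderOf g = p ^ k} := by
        intro M₀ hM₀ hle
        have h1 : M₀ ≤ Subgroup.closure {g : G | g ∈ f M ∧ ∃ k : ℕ, orderOf g = p ^ k} := by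
          calc M₀ = Subgroup.closure {g : G | g ∈ M₀ ∧ ∃ k : ℕ, orderOf g = p ^ k} := hM₀.1.2.symm
            _ ≤ Subgroup.closure {g : G | g ∈ f M ∧ ∃ k : ℕ, orderOf g = p ^ k} :=
              Subgroup.closure_mono (fun g hg => ⟨hle hg.1, hg.2⟩)
        exact le_antisymm h1 (hM₀.2 hH0pg h1)
      rw [key M hM1 hMH, key M' hM1' hM'H]
  -- Claim D
  have hconj : ∀ (c : G) (M : Subgroup G), Maximal (PG p) M →
      Maximal (PG p) (M.map (MulAut.conj c).toMonoidHom) := by
    intro c M hM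
    refine ⟨pg_map p _ hM.1, ?_⟩
    intro Y hY hle
    have h1 : M ≤ Y.map (MulAut.conj c⁻¹).toMonoidHom := by
      have := Helper6.cj_mono c⁻¹ hle
      rwa [Helper6.cj_inv_cj] at this
    have h2 := hM.2 (pg_map p (MulAut.conj c⁻¹) hY) h1
    have := Helper6.cj_mono c h2
    rwa [Helper6.cj_cj_inv] at this
  -- Claim B
  have hB : ∀ g : G, (∃ k : ℕ, orderOf g = p ^ k) → ∃ M, Maximal (PG p) M ∧ g ∈ M := by
    intro g hg
    obtain ⟨H, hH, hgH⟩ := hcov g hg
    have hz : PG p (Subgroup.zpowers g) := by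
      refine ⟨fun htop => hproper H hH (top_le_iff.mp (htop ▸ Subgroup.zpowers_le.mpr hgH)), ?_⟩
      apply le_antisymm
      · rw [Subgroup.closure_le]; rintro x ⟨hx, -⟩; exact hx
      · rw [Subgroup.zpowers_le]; exact Subgroup.subset_closure ⟨Subgroup.mem_zpowers g, hg⟩
    obtain ⟨M, hle, hM⟩ := hmaxex _ hz
    exact ⟨M, hM, hle (Subgroup.mem_zpowers g)⟩
  -- `p`-elements normalize the maximal members
  have hnorm : ∀ g : G, (∃ k : ℕ, orderOf g = p ^ k) → ∀ M : Subgroup G, Maximal (PG p) M →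
      g ∈ Subgroup.normalizer (M : Set G) := by
    intro g hg M hM
    obtain ⟨k, hk⟩ := hg
    by_contra hgN
    have hdist : ∀ i j : ℕ, i < j → j < p → M.map (MulAut.conj (g ^ i)).toMonoidHom ≠
        M.map (MulAut.conj (g ^ j)).toMonoidHom := by
      intro i j hij hjp heq
      have h1 : g ^ j = g ^ i * g ^ (j - i) := by rw [← pow_add]; congr 1; omega
      rw [h1, Helper6.cj_mul] at heq
      have h2 := congrArg (fun X => X.map (MulAut.conj (g ^ i)⁻¹).toMonoidHom) heq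
      simp only [Helper6.cj_inv_cj] at h2
      have h3 : g ^ (j - i) ∈ Subgroup.normalizer (M : Set G) :=
        Helper6.mem_normalizer_iff_cj.mpr h2.symm
      have h4 : g ^ (p ^ k) ∈ Subgroup.normalizer (M : Set G) := by
        rw [← hk, pow_orderOf_eq_one]; exact Subgroup.one_mem _
      have hcop : (j - i).Coprime (p ^ k) := by
        apply Nat.Coprime.pow_right
        apply Nat.Coprime.symm
        rw [Nat.Prime.coprime_iff_not_dvd hp]
        intro hdvd
        have := Nat.le_of_dvd (by omega) hdvd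
        omega
      exact hgN (Helper6.mem_of_pow_mem_of_coprime hcop h3 h4)
    have hinj : Set.InjOn (fun i : ℕ => M.map (MulAut.conj (g ^ i)).toMonoidHom)
        (Finset.range p : Set ℕ) := by
      intro i hi j hj hij
      rw [Finset.mem_coe, Finset.mem_range] at hi hj
      by_contra hne
      rcases Nat.lt_or_gt_of_ne hne with h | h
      · exact hdist i j h hj hij
      · exact hdist j i h hi hij.symm
    have hsub : (Finset.range p).image (fun i : ℕ => M.map (MulAut.conj (g ^ i)).toMonoidHom) ⊆ 𝔐 := by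
      intro Y hY
      obtain ⟨i, -, rfl⟩ := Finset.mem_image.mp hY
      exact (hmem𝔐 _).mpr (hconj _ M hM)
    have hcardimg : ((Finset.range p).image
        (fun i : ℕ => M.map (MulAut.conj (g ^ i)).toMonoidHom)).card = p := by
      rw [Finset.card_image_of_injOn hinj, Finset.card_range]
    have heq := Finset.eq_of_subset_of_card_le hsub (by rw [hcardimg]; omega)
    obtain ⟨M₀, hM₀, hgM₀⟩ := hB g ⟨k, hk⟩
    have hM₀mem : M₀ ∈ 𝔐 := (hmem𝔐 _).mpr hM₀
    rw [← heq] at hM₀mem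
    obtain ⟨i, -, rfl⟩ := Finset.mem_image.mp hM₀mem
    rw [Helper6.mem_cj] at hgM₀
    have hgM : g ∈ M := by
      have h5 : (g ^ i)⁻¹ * g * g ^ i = g := by
        rw [mul_assoc, ((Commute.refl g).pow_right i).eq, inv_mul_cancel_left]
      rwa [h5] at hgM₀
    exact hgN (Subgroup.le_normalizer hgM)
  have hnormal : ∀ M : Subgroup G, Maximal (PG p) M → M.Normal := by
    intro M hM
    rw [← Subgroup.normalizer_eq_top_iff, ← top_le_iff, ← hgen, Subgroup.closure_le]
    intro g hg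
    exact hnorm g hg M hM
  -- a Sylow subgroup lies in some maximal member
  let P : Sylow p G := default
  have hPel : ∀ y ∈ (P : Subgroup G), ∃ k : ℕ, orderOf y = p ^ k := by
    intro y hy
    obtain ⟨k, hk⟩ := (IsPGroup.iff_orderOf.mp P.isPGroup') ⟨y, hy⟩
    exact ⟨k, by rw [← hk]; exact (Subgroup.orderOf_coe ⟨y, hy⟩)⟩
  have hex : ∃ M ∈ 𝔐, (P : Subgroup G) ≤ M := by
    by_contra hno
    push Not at hno
    obtain ⟨y, hy, hyM⟩ := exists_not_mem_of_card_le p (P : Subgroup G) P.isPGroup' 𝔐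
      (by omega) hno
    obtain ⟨M, hM, hyM'⟩ := hB y (hPel y hy)
    exact hyM M ((hmem𝔐 M).mpr hM) hyM'
  obtain ⟨M, hM𝔐, hPM⟩ := hex
  have hMmax := (hmem𝔐 M).mp hM𝔐
  haveI := hnormal M hMmax
  apply hMmax.1.1
  rw [← top_le_iff, ← hgen, Subgroup.closure_le]
  rintro g ⟨k, hk⟩
  have hidx : ¬ p ∣ M.index := fun h => P.not_dvd_index (h.trans (Subgroup.index_dvd_of_le hPM))
  have h1 : (QuotientGroup.mk g : G ⧸ M) ^ (p ^ k) = 1 := by
    rw [← QuotientGroup.mk_pow, ← hk, pow_orderOf_eq_one]; rfl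
  have h2 : (QuotientGroup.mk g : G ⧸ M) ^ Nat.card (G ⧸ M) = 1 := pow_card_eq_one'
  have h3 : (p ^ k).Coprime (Nat.card (G ⧸ M)) := by
    apply Nat.Coprime.pow_left
    rw [Nat.Prime.coprime_iff_not_dvd hp, ← Subgroup.index_eq_card]
    exact hidx
  have h4 := pow_gcd_eq_one.mpr ⟨h1, h2⟩
  rw [Nat.Coprime.gcd_eq_one h3, pow_one] at h4
  exact (QuotientGroup.eq_one_iff g).mp h4

/-- Let p be a prime and G a finite group generated by its p-elements. If a finite family of proper subgroups of G covers the set of p-elements of G (every element of p-power order lies in one of them), then the family has at least p + 1 members. -/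
theorem result {G : Type*} [Group G] [Finite G] (p : ℕ) [Fact p.Prime] (hgen : Subgroup.closure {g : G | ∃ k : ℕ, orderOf g = p ^ k} = ⊤)
    {ι : Type*} [Fintype ι] (K : ι → Subgroup G) (hK : ∀ i, K i ≠ ⊤)
    (hcov : ∀ g : G, (∃ k : ℕ, orderOf g = p ^ k) → ∃ i, g ∈ K i) :
    p + 1 ≤ Fintype.card ι := by
  classical
  have h1 := main p _ G rfl hgen (Finset.univ.image K) (by
    intro H hH
    obtain ⟨i, -, rfl⟩ := Finset.mem_image.mp hH
    exact hK i) (by
    intro g hg
    obtain ⟨i, hi⟩ := hcov g hg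
    exact ⟨K i, Finset.mem_image_of_mem _ (Finset.mem_univ i), hi⟩)
  have h2 := Finset.card_image_le (s := Finset.univ) (f := K)
  rw [Finset.card_univ] at h2
  omega

end Cfsg.Agent.S4182
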