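import Cfsg.Statements.S4186
import Mathlib

set_option autoImplicit false
open Cfsg

namespace Cfsg.Agent.S4186

/-- Let T and X be subgroups of a group with T a finite 2-group normalizing X but not centralizing it. Then some element of T inverts some non-identity element of X under conjugation. -/
theorem result {G : Type*} [Group G] (T X : Subgroup G) [Finite ↥T] (hT : IsPGroup 2 ↥T) (hTN : T ≤ Subgroup.normalizer (X : Set G)) (hTC : ¬ T ≤ Subgroup.centralizer (X : Set G)) : ∃ t ∈ T, ∃ x ∈ X, x ≠ 1 ∧ t * x * t⁻¹ = x⁻¹ := by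
  classical
  obtain ⟨t, htT, htC⟩ := SetLike.not_le_iff_exists.mp hTC
  have hex : ∃ k : ℕ, t ^ (2 ^ k) ∈ Subgroup.centralizer (X : Set G) := by
    obtain ⟨k, hk⟩ := hT ⟨t, htT⟩
    refine ⟨k, ?_⟩
    have : t ^ (2 ^ k) = 1 := by
      have := congrArg Subtype.val hk
      simpa using this
    rw [this]
    exact Subgroup.one_mem _
  set k₀ := Nat.find hex with hk₀
  have hspec : t ^ (2 ^ k₀) ∈ Subgroup.centralizer (X : Set G) := Nat.find_spec hex
  have hk0 : k₀ ≠ 0 := by
    intro h0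
    rw [h0] at hspec
    simp at hspec
    exact htC hspec
  obtain ⟨k', hk'⟩ := Nat.exists_eq_succ_of_ne_zero hk0
  have hmin : t ^ (2 ^ k') ∉ Subgroup.centralizer (X : Set G) := by
    apply Nat.find_min hex
    omega
  set s := t ^ (2 ^ k') with hs
  have hsT : s ∈ T := T.pow_mem htT _
  have hs2 : s * s ∈ Subgroup.centralizer (X : Set G) := by
    have : s * s = t ^ (2 ^ k₀) := by
      rw [hs, ← pow_add, hk', pow_succ, mul_two]
    rw [this]
    exact hspec
  have hsN := hTN hsT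
  rw [Subgroup.mem_centralizer_iff] at hmin
  push Not at hmin
  obtain ⟨y, hyX, hy⟩ := hmin
  have hyX' : y ∈ X := hyX
  rw [Subgroup.mem_centralizer_iff] at hs2
  have hs2y := hs2 y hyX
  refine ⟨s, hsT, y⁻¹ * (s * y * s⁻¹), ?_, ?_, ?_⟩
  · apply X.mul_mem (X.inv_mem hyX')
    exact (Subgroup.mem_normalizer_iff.mp hsN y).mp hyX'
  · intro h1
    apply hy
    have : s * y * s⁻¹ = y := by
      have := congrArg (fun z => y * z) h1
      simpa using this
    rw [mul_inv_eq_iff_eq_mul] at this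
    exact this.symm
  · calc s * (y⁻¹ * (s * y * s⁻¹)) * s⁻¹ = s * y⁻¹ * s⁻¹ * ((s * s) * y) * s⁻¹ * s⁻¹ := by group
      _ = s * y⁻¹ * s⁻¹ * (y * (s * s)) * s⁻¹ * s⁻¹ := by rw [hs2y]
      _ = (y⁻¹ * (s * y * s⁻¹))⁻¹ := by group

end Cfsg.Agent.S4186
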