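import Mathlib
import Cfsg.Statements.S4189
import Cfsg.Agent.Lib.Helper7.MaxClass2
import Cfsg.Agent.Lib.Helper7.Regular

set_option autoImplicit false
open Cfsg

namespace Cfsg.Agent.S4189


theorem fix_exists {P : Type*} [Finite P] (f : P → P) (q : ℕ) [hq : Fact q.Prime] (hq2 : q ≠ 2)
    (T : Set P) (hT : ∀ y ∈ T, f y ∈ T) (hfq : ∀ y ∈ T, f^[q] y = y) (k : ℕ)
    (hcard : Nat.card T = 2 ^ k) : ∃ y ∈ T, f y = y := by
  classical
  haveI : Fintype T := Fintype.ofFinite T
  obtain ⟨f', hf'⟩ : ∃ f' : Function.End T, ∀ y : T, ((f' y : T) : P) = f y.1 :=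
    ⟨fun y => ⟨f y.1, hT y.1 y.2⟩, fun y => rfl⟩
  have hiter : ∀ (j : ℕ) (y : T), (((f' ^ j) y : T) : P) = f^[j] y.1 := by
    intro j
    induction j with
    | zero => intro y; rfl
    | succ j ih =>
      intro y
      have h1 : (f' ^ (j + 1)) y = (f' ^ j) (f' y) := by rw [pow_succ]; rfl
      rw [h1, ih, hf', Function.iterate_succ_apply]
  have hf1 : f' ^ q ^ 1 = 1 := by
    rw [pow_one]
    funext y
    apply Subtype.ext
    rw [hiter]; exact hfq y.1 y.2
  have hmod := Equiv.Perm.card_fixedPoints_modEq (p := q) (n := 1) hf1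
  rw [Fintype.card_eq_nat_card, Fintype.card_eq_nat_card] at hmod
  by_contra hcon
  push Not at hcon
  have hempty : IsEmpty ↥(Function.fixedPoints f') := by
    refine ⟨fun ⟨y, hy⟩ => ?_⟩
    apply hcon y.1 y.2
    have h2 : f' y = y := hy
    rw [← hf', h2]
  rw [Nat.card_eq_zero.mpr (Or.inl hempty), hcard] at hmod
  have hdvd : q ∣ 2 ^ k := Nat.modEq_zero_iff_dvd.mp hmod
  exact hq2 ((Nat.prime_dvd_prime_iff_eq hq.out Nat.prime_two).mp (hq.out.dvd_of_dvd_pow hdvd))

theorem sq_central {X : Type*} [Group X] (c : X) (hidx : (Subgroup.zpowers c).index = 2)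
    (x : X) (hx : x ∉ Subgroup.zpowers c) : x ^ 2 ∈ Subgroup.center X := by
  have hx2 : x ^ 2 ∈ Subgroup.zpowers c := Subgroup.sq_mem_of_index_two hidx x
  obtain ⟨j, hj⟩ := Subgroup.mem_zpowers_iff.mp hx2
  rw [Subgroup.mem_center_iff]
  intro y
  by_cases hy : y ∈ Subgroup.zpowers c
  · obtain ⟨i, rfl⟩ := Subgroup.mem_zpowers_iff.mp hy
    rw [← hj]
    exact ((Commute.refl c).zpow_zpow i j).eq
  · have h1 : x⁻¹ * y ∈ Subgroup.zpowers c :=
      (Subgroup.mul_mem_iff_of_index_two hidx).mpr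
        (iff_of_false (fun h => hx (inv_inv x ▸ Subgroup.inv_mem _ h)) hy)
    obtain ⟨i, hi⟩ := Subgroup.mem_zpowers_iff.mp h1
    have hy' : y = x * c ^ i := by rw [hi]; group
    have hcomm : c ^ i * c ^ j = c ^ j * c ^ i := ((Commute.refl c).zpow_zpow i j).eq
    rw [hy']
    calc x * c ^ i * x ^ 2 = x * (c ^ i * c ^ j) := by rw [← hj, mul_assoc]
      _ = x * (c ^ j * c ^ i) := by rw [hcomm]
      _ = x * x ^ 2 * c ^ i := by rw [hj, mul_assoc]
      _ = x ^ 2 * (x * c ^ i) := by rw [pow_two]; group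

/-- Let P be a finite non-abelian 2-group whose commutator subgroup has index 4 and whose automorphism group is not a 2-group (some automorphism has order that is not a power of 2). Then P is isomorphic to the quaternion group of order 8. -/
theorem result {P : Type*} [Group P] [Finite P] (hP : IsPGroup 2 P) (hna : ¬ IsMulCommutative P) (h4 : (commutator P).index = 4) (haut : ¬ IsPGroup 2 (MulAut P)) : Nonempty (P ≃* QuaternionGroup 2) := by
  haveI : Fact (Nat.Prime 2) := ⟨Nat.prime_two⟩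
  have hnc : ¬ ∀ a b : P, a * b = b * a := fun h => hna ⟨⟨fun a b => h a b⟩⟩
  obtain ⟨n, hn⟩ := IsPGroup.iff_card.mp hP
  have hKF : Cfsg.Agent.S0115.KF P := by
    refine ⟨h4, ?_⟩
    intro x
    by_contra hx
    apply hnc
    have hQcard : Nat.card (P ⧸ commutator P) = 4 := by
      rw [← Subgroup.index_eq_card]; exact h4
    obtain ⟨q, hq⟩ : ∃ q : P ⧸ commutator P, q = (x : P ⧸ commutator P) := ⟨_, rfl⟩
    have hq2 : q ^ 2 ≠ 1 := by
      rw [hq, ← QuotientGroup.mk_pow]
      intro h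
      exact hx ((QuotientGroup.eq_one_iff _).mp h)
    have hdvd : orderOf q ∣ 2 ^ 2 := by
      have h1 := orderOf_dvd_natCard q
      rw [hQcard] at h1
      exact h1
    obtain ⟨j, hj, hjeq⟩ := (Nat.dvd_prime_pow Nat.prime_two).mp hdvd
    have hj2 : j = 2 := by
      by_contra hne
      have h01 : j = 0 ∨ j = 1 := by omega
      apply hq2
      apply orderOf_dvd_iff_pow_eq_one.mp
      rw [hjeq]
      rcases h01 with h | h <;> rw [h] <;> norm_num
    have htop : Subgroup.zpowers q = ⊤ := by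
      apply Subgroup.eq_top_of_card_eq
      rw [Nat.card_zpowers, hjeq, hj2, hQcard]; norm_num
    have hsup : Subgroup.zpowers x ⊔ ⁅(⊤ : Subgroup P), ⊤⁆ = ⊤ := by
      rw [eq_top_iff]
      intro y _
      have hy : (y : P ⧸ commutator P) ∈ Subgroup.zpowers q := by rw [htop]; trivial
      obtain ⟨i, hi⟩ := Subgroup.mem_zpowers_iff.mp hy
      rw [hq, ← QuotientGroup.mk_zpow] at hi
      have h1 : (x ^ i)⁻¹ * y ∈ commutator P := QuotientGroup.eq.mp hi
      rw [commutator_def] at h1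
      have h2 : y = x ^ i * ((x ^ i)⁻¹ * y) := by group
      rw [h2]
      exact Subgroup.mul_mem _
        (Subgroup.mem_sup_left (Subgroup.zpow_mem _ (Subgroup.mem_zpowers x) i))
        (Subgroup.mem_sup_right h1)
    have hle := Cfsg.Agent.Lib.Helper7.Reg.lemP hP ⊤ x (Subgroup.mem_top x) hsup
    intro a b
    obtain ⟨i, hi⟩ := Subgroup.mem_zpowers_iff.mp (hle (Subgroup.mem_top a))
    obtain ⟨j', hj'⟩ := Subgroup.mem_zpowers_iff.mp (hle (Subgroup.mem_top b))
    rw [← hi, ← hj']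
    exact ((Commute.refl x).zpow_zpow i j').eq
  have hcc : Nat.card (commutator P) * 4 = 2 ^ n := by
    have h1 := Subgroup.card_mul_index (commutator P)
    rw [hKF.1, hn] at h1; exact h1
  have hn2 : 2 ≤ n := by
    have h4a : 4 ∣ 2 ^ n := ⟨Nat.card (commutator P), by rw [← hcc]; ring⟩
    have h4' : 2 ^ 2 ∣ 2 ^ n := by norm_num; exact h4a
    exact (Nat.pow_dvd_pow_iff_le_right (by norm_num)).mp h4'
  have hn3 : 3 ≤ n := by
    by_contra hlt
    have hn2' : n = 2 := by omega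
    rw [hn2'] at hcc
    have hc1 : Nat.card (commutator P) = 1 := by
      have h44 : (2 : ℕ) ^ 2 = 4 := by norm_num
      omega
    exact hnc (Cfsg.Agent.S0115.comm_of_comm_bot (Subgroup.card_eq_one.mp hc1))
  have hcl := Cfsg.Agent.S0115.bwd n hn2 P hn hKF
  obtain ⟨m, c, g, w, hm, hordc, hgC, hCidx, hw, hw1, hw2, hZ, hwcent, hinv, hg2, hsurj⟩ :=
    Cfsg.Agent.Lib.Helper7.MC2.max_class_structure n hn3 hn hcl
  have hm2le : 2 ≤ m := by
    rw [hm]
    have h := Nat.pow_le_pow_right (show 0 < 2 by norm_num) (show 1 ≤ n - 2 by omega)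
    simpa using h
  have hcm2 : c ^ (m * 2) = 1 := by rw [← hordc]; exact pow_orderOf_eq_one c
  have hPm : Nat.card P = m * 2 * 2 := by
    rw [hn, hm, ← pow_succ, ← pow_succ]; congr 1; omega
  have hgg : g * g = g ^ 2 := (pow_two g).symm
  have hCcard : Nat.card (Subgroup.zpowers c) = m * 2 := by rw [Nat.card_zpowers, hordc]
  -- case B forces m ≠ 2
  have hBm : c * (g * c * g⁻¹) = w → m ≠ 2 := by
    intro hB h
    have hconj : g * c * g⁻¹ = c⁻¹ * w := by rw [← hB]; group
    have h1 : g * c * g⁻¹ = c := by rw [hconj, hw, h]; group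
    have hgc : g * c = c * g := by
      calc g * c = (g * c * g⁻¹) * g := by group
        _ = c * g := by rw [h1]
    have hcc' : c ∈ Subgroup.center P := by
      rw [Subgroup.mem_center_iff]
      intro x
      rcases hsurj x with ⟨t, rfl⟩ | ⟨t, rfl⟩
      · exact ((Commute.refl c).zpow_left t).eq
      · calc g * c ^ t * c = g * (c ^ t * c) := by rw [mul_assoc]
          _ = g * (c * c ^ t) := by rw [((Commute.refl c).zpow_left t).eq]
          _ = (g * c) * c ^ t := by rw [mul_assoc]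
          _ = c * (g * c ^ t) := by rw [hgc, mul_assoc]
    have hc2 : c ^ 2 = 1 := by
      rcases hZ c hcc' with h0 | h0
      · rw [h0, one_pow]
      · rw [h0]; exact hw2
    have h3 := orderOf_dvd_of_pow_eq_one hc2
    rw [hordc, h] at h3
    norm_num at h3
  by_cases hQ : m = 2 ∧ c * (g * c * g⁻¹) = 1 ∧ g ^ 2 = w
  · obtain ⟨hm2, hA, hgw⟩ := hQ
    have hconj : g * c * g⁻¹ = c⁻¹ := eq_inv_of_mul_eq_one_right hA
    rw [hm2] at hcm2 hPm hw
    exact Cfsg.Agent.Lib.Helper7.MC2.quaternion_iso 2 c g hcm2 (by rw [hgg, hgw, hw]) hconj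
      (by rw [hPm]) hsurj
  exfalso
  -- every automorphism preserves C
  have hαc : ∀ α : MulAut P, α c ∈ Subgroup.zpowers c := by
    intro α
    by_contra hα
    have hord : orderOf (α c) = m * 2 := by rw [MulEquiv.orderOf_eq, hordc]
    have hsq := sq_central c hCidx (α c) hα
    rcases hZ _ hsq with h1 | h1
    · have h2 := orderOf_dvd_of_pow_eq_one h1
      rw [hord] at h2
      have h3 := Nat.le_of_dvd (by norm_num) h2
      omega
    · have h4' : (α c) ^ 4 = 1 := by
        have e : (α c) ^ 4 = ((α c) ^ 2) ^ 2 := by rw [← pow_mul]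
        rw [e, h1, hw2]
      have h2 := orderOf_dvd_of_pow_eq_one h4'
      rw [hord] at h2
      have h3 := Nat.le_of_dvd (by norm_num) h2
      have hm2 : m = 2 := by omega
      rcases hinv with hA | hB
      · have hconj : g * c * g⁻¹ = c⁻¹ := eq_inv_of_mul_eq_one_right hA
        rcases hg2 with hg1 | hgw
        · rcases hsurj (α c) with ⟨t, ht⟩ | ⟨t, ht⟩
          · apply hα; rw [ht]; exact Subgroup.zpow_mem _ (Subgroup.mem_zpowers c) t
          · have e1 : (g * c ^ t) ^ 2 = (g * c ^ t * g⁻¹) * g ^ 2 * c ^ t := by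
              rw [pow_two, pow_two]; group
            have e2 : g * c ^ t * g⁻¹ = (c ^ t)⁻¹ := by
              rw [← conj_zpow, hconj, inv_zpow]
            rw [ht, e1, e2, hg1, mul_one, inv_mul_cancel] at h1
            exact hw1 h1.symm
        · exact hQ ⟨hm2, hA, hgw⟩
      · exact hBm hB hm2
  have hαC : ∀ α : MulAut P, ∀ y ∈ Subgroup.zpowers c, α y ∈ Subgroup.zpowers c := by
    intro α y hy
    obtain ⟨i, rfl⟩ := Subgroup.mem_zpowers_iff.mp hy
    rw [map_zpow]
    exact Subgroup.zpow_mem _ (hαc α) i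
  have hαC' : ∀ α : MulAut P, ∀ y, y ∉ Subgroup.zpowers c → α y ∉ Subgroup.zpowers c := by
    intro α y hy h
    apply hy
    have h1 := hαC α⁻¹ (α y) h
    rwa [MulAut.inv_apply_self] at h1
  have hαD : ∀ α : MulAut P, ∀ y ∈ Subgroup.zpowers (c ^ 2), α y ∈ Subgroup.zpowers (c ^ 2) := by
    intro α y hy
    obtain ⟨i, rfl⟩ := Subgroup.mem_zpowers_iff.mp hy
    rw [map_zpow, map_pow]
    apply Subgroup.zpow_mem
    obtain ⟨e, he⟩ := Subgroup.mem_zpowers_iff.mp (hαc α)
    rw [← he, ← zpow_natCast (c ^ e) 2, ← zpow_mul, mul_comm, zpow_mul, zpow_natCast]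
    exact Subgroup.zpow_mem _ (Subgroup.mem_zpowers _) e
  have hαD' : ∀ α : MulAut P, ∀ y, y ∉ Subgroup.zpowers (c ^ 2) →
      α y ∉ Subgroup.zpowers (c ^ 2) := by
    intro α y hy h
    apply hy
    have h1 := hαD α⁻¹ (α y) h
    rwa [MulAut.inv_apply_self] at h1
  -- an automorphism of odd prime order
  unfold IsPGroup at haut
  push Not at haut
  obtain ⟨β, hβ⟩ := haut
  have hβpos : orderOf β ≠ 0 := (orderOf_pos β).ne'
  obtain ⟨q, hqprime, hqdvd, hqodd⟩ : ∃ q, Nat.Prime q ∧ q ∣ orderOf β ∧ Odd q := by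
    rcases Nat.eq_two_pow_or_exists_odd_prime_and_dvd (orderOf β) with ⟨k, hk⟩ | h
    · exfalso
      apply hβ k
      rw [← hk]; exact pow_orderOf_eq_one β
    · exact h
  haveI : Fact q.Prime := ⟨hqprime⟩
  have hq2 : q ≠ 2 := by
    intro h; rw [h] at hqodd; exact absurd hqodd (by decide)
  obtain ⟨α, hαdef⟩ : ∃ α : MulAut P, α = β ^ (orderOf β / q) := ⟨_, rfl⟩
  have hαord : orderOf α = q := by rw [hαdef]; exact orderOf_pow_orderOf_div hβpos hqdvd
  have hαq : α ^ q = 1 := by rw [← hαord]; exact pow_orderOf_eq_one α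
  have hiter : ∀ (j : ℕ) (y : P), (α ^ j) y = (⇑α)^[j] y := by
    intro j
    induction j with
    | zero => intro y; rfl
    | succ j ih =>
      intro y
      rw [pow_succ, MulAut.mul_apply, ih, Function.iterate_succ_apply]
  have hfq : ∀ y : P, (⇑α)^[q] y = y := by
    intro y
    rw [← hiter, hαq, MulAut.one_apply]
  -- fixed generator
  have hDC : Subgroup.zpowers (c ^ 2) ≤ Subgroup.zpowers c :=
    Subgroup.zpowers_le.mpr (Subgroup.pow_mem _ (Subgroup.mem_zpowers c) 2)
  have hDcard : Nat.card (Subgroup.zpowers (c ^ 2)) = m := by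
    rw [Nat.card_zpowers, orderOf_pow' c (by norm_num), hordc,
      Nat.gcd_eq_right (Dvd.intro_left m rfl), Nat.mul_div_cancel _ (by norm_num)]
  have hT1card : Nat.card ↥((Subgroup.zpowers c : Set P) \ (Subgroup.zpowers (c ^ 2) : Set P))
      = 2 ^ (n - 2) := by
    rw [Nat.card_coe_set_eq, Set.ncard_sdiff (fun y hy => hDC hy)]
    have e1 : (Subgroup.zpowers c : Set P).ncard = m * 2 := by
      rw [← Nat.card_coe_set_eq]; exact hCcard
    have e2 : (Subgroup.zpowers (c ^ 2) : Set P).ncard = m := by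
      rw [← Nat.card_coe_set_eq]; exact hDcard
    rw [e1, e2, ← hm]; omega
  obtain ⟨y₀, hy₀T, hy₀fix⟩ := fix_exists (⇑α) q hq2
    ((Subgroup.zpowers c : Set P) \ (Subgroup.zpowers (c ^ 2) : Set P))
    (fun y hy => ⟨hαC α y hy.1, hαD' α y hy.2⟩) (fun y _ => hfq y) (n - 2) hT1card
  have hαc_fix : α c = c := by
    obtain ⟨i, hi⟩ := Subgroup.mem_zpowers_iff.mp hy₀T.1
    obtain ⟨e, he⟩ := Subgroup.mem_zpowers_iff.mp (hαc α)
    obtain ⟨k, hk | hk⟩ := Int.even_or_odd' i
    · exfalso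
      apply hy₀T.2
      show y₀ ∈ Subgroup.zpowers (c ^ 2)
      rw [← hi, hk, zpow_mul, zpow_ofNat]
      exact Subgroup.zpow_mem _ (Subgroup.mem_zpowers _) k
    · have h1 : c ^ ((e - 1) * i) = 1 := by
        have h2 : α (c ^ i) = c ^ i := by rw [hi]; exact hy₀fix
        rw [map_zpow, ← he, ← zpow_mul] at h2
        have h3 : c ^ ((e - 1) * i) = c ^ (e * i) * (c ^ i)⁻¹ := by
          rw [← zpow_neg, ← zpow_add]; congr 1; ring
        rw [h3, h2, mul_inv_cancel]
      have h4 : (orderOf c : ℤ) ∣ (e - 1) * i := orderOf_dvd_iff_zpow_eq_one.mpr h1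
      have hord' : (orderOf c : ℤ) = (2 : ℤ) ^ (n - 1) := by
        rw [hordc, hm]; push_cast; rw [← pow_succ]; congr 1; omega
      rw [hord'] at h4
      have hcop : IsCoprime ((2 : ℤ) ^ (n - 1)) i :=
        IsCoprime.pow_left ⟨-k, 1, by rw [hk]; ring⟩
      have h5 : (2 : ℤ) ^ (n - 1) ∣ e - 1 := hcop.dvd_of_dvd_mul_right h4
      rw [← hord'] at h5
      have h6 : c ^ (e - 1) = 1 := orderOf_dvd_iff_zpow_eq_one.mp h5
      have h7 : c ^ e = c ^ (e - 1) * c := by
        rw [← zpow_add_one]; congr 1; ring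
      rw [← he, h7, h6, one_mul]
  -- fixed element outside C
  have hT2card : Nat.card ↥((Subgroup.zpowers c : Set P)ᶜ) = 2 ^ (n - 1) := by
    rw [Nat.card_coe_set_eq, Set.ncard_compl]
    have e1 : (Subgroup.zpowers c : Set P).ncard = m * 2 := by
      rw [← Nat.card_coe_set_eq]; exact hCcard
    have e3 : 2 ^ (n - 1) = m * 2 := by rw [hm, ← pow_succ]; congr 1; omega
    rw [e1, hPm, e3]; omega
  obtain ⟨g₀, hg₀T, hg₀fix⟩ := fix_exists (⇑α) q hq2 ((Subgroup.zpowers c : Set P)ᶜ)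
    (fun y hy => hαC' α y hy) (fun y _ => hfq y) (n - 1) hT2card
  have hα1 : α = 1 := by
    ext x
    rw [MulAut.one_apply]
    have hCfix : ∀ y ∈ Subgroup.zpowers c, α y = y := by
      intro y hy
      obtain ⟨i, rfl⟩ := Subgroup.mem_zpowers_iff.mp hy
      rw [map_zpow, hαc_fix]
    by_cases hx : x ∈ Subgroup.zpowers c
    · exact hCfix x hx
    · have h1 : g₀⁻¹ * x ∈ Subgroup.zpowers c :=
        (Subgroup.mul_mem_iff_of_index_two hCidx).mpr
          (iff_of_false (fun h => hg₀T (inv_inv g₀ ▸ Subgroup.inv_mem _ h)) hx)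
      have h2 : x = g₀ * (g₀⁻¹ * x) := by group
      rw [h2, map_mul, hg₀fix, hCfix _ h1]
  rw [hα1, orderOf_one] at hαord
  exact hqprime.one_lt.ne hαord


end Cfsg.Agent.S4189
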