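import Cfsg.Statements.S4196
import Cfsg.Agent.Lib.Helper6.RealElt

set_option autoImplicit false
open Cfsg

namespace Cfsg.Agent.S4196

open scoped Pointwise in
/-- A finite group G has elementary abelian Sylow 2-subgroups (commutative with every element squaring to the identity) if and only if every 2-element of G has a Sylow 2-subgroup in its centralizer and is conjugate to its inverse. -/
theorem result {G : Type*} [Group G] [Finite G] (P : Sylow 2 G) :
    (IsMulCommutative (P : Subgroup G) ∧ ∀ x ∈ (P : Subgroup G), x ^ 2 = 1) ↔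
      ∀ x : G, (∃ k : ℕ, orderOf x = 2 ^ k) → (∃ Q : Sylow 2 G, (Q : Subgroup G) ≤ Subgroup.centralizer ({x} : Set G)) ∧ IsConj x x⁻¹ := by
  have hprime : Fact (Nat.Prime 2) := ⟨Nat.prime_two⟩
  constructor
  · rintro ⟨hcomm, hsq⟩ x ⟨k, hk⟩
    have hpg : IsPGroup 2 (Subgroup.zpowers x) := by
      apply IsPGroup.of_card (n := k)
      rw [Nat.card_zpowers, hk]
    obtain ⟨Q, hQ⟩ := hpg.exists_le_sylow
    obtain ⟨g, hg⟩ := MulAction.exists_smul_eq G P Q
    have hmem : ∀ q : G, q ∈ (Q : Subgroup G) → g⁻¹ * q * g ∈ (P : Subgroup G) := by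
      intro q hq
      rw [← hg, Sylow.smul_def, Sylow.pointwise_smul_def] at hq
      have hq' : q ∈ MulAut.conj g • (P : Subgroup G) := hq
      rw [Subgroup.mem_pointwise_smul_iff_inv_smul_mem] at hq'
      simpa [MulAut.smul_def] using hq'
    have hxQ : x ∈ (Q : Subgroup G) := hQ (Subgroup.mem_zpowers x)
    have hx2 : x ^ 2 = 1 := by
      have h1 := hsq _ (hmem x hxQ)
      have h2 : (g⁻¹ * x * g) ^ 2 = g⁻¹ * x ^ 2 * g := by
        rw [pow_two, pow_two]; group
      rw [h2] at h1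
      have h3 : x ^ 2 = g * (g⁻¹ * x ^ 2 * g) * g⁻¹ := by group
      rw [h3, h1]; group
    refine ⟨⟨Q, ?_⟩, ?_⟩
    · intro q hq
      rw [Subgroup.mem_centralizer_iff]
      intro h hh
      rw [Set.mem_singleton_iff] at hh
      subst hh
      have hc := isMulCommutative_iff.mp hcomm ⟨_, hmem h hxQ⟩ ⟨_, hmem q hq⟩
      have hc' : (g⁻¹ * h * g) * (g⁻¹ * q * g) = (g⁻¹ * q * g) * (g⁻¹ * h * g) :=
        congrArg Subtype.val hc
      have e1 : h * q = g * ((g⁻¹ * h * g) * (g⁻¹ * q * g)) * g⁻¹ := by group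
      have e2 : q * h = g * ((g⁻¹ * q * g) * (g⁻¹ * h * g)) * g⁻¹ := by group
      rw [e1, e2, hc']
    · have : x⁻¹ = x := by
        rw [inv_eq_iff_mul_eq_one, ← pow_two]; exact hx2
      rw [this]
  · intro h
    have hsq : ∀ x ∈ (P : Subgroup G), x ^ 2 = 1 := by
      intro x hx
      have hk : ∃ k : ℕ, orderOf x = 2 ^ k := by
        obtain ⟨k, hk⟩ := (IsPGroup.iff_orderOf.mp P.isPGroup') ⟨x, hx⟩
        exact ⟨k, by rw [← hk, Subgroup.orderOf_mk]⟩
      obtain ⟨⟨Q, hQ⟩, hreal⟩ := h x hk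
      have hodd : Odd (Subgroup.centralizer ({x} : Set G)).index := by
        rw [← Nat.not_even_iff_odd, even_iff_two_dvd]
        intro h2
        exact Q.not_dvd_index (h2.trans (Subgroup.index_dvd_of_le hQ))
      exact Cfsg.Agent.Lib.Helper6.sq_eq_one_of_real_of_odd_index hreal hodd
    refine ⟨isMulCommutative_iff.mpr ?_, hsq⟩
    intro a b
    apply Subtype.ext
    have ha := hsq a a.2
    have hb := hsq b b.2
    have hab := hsq (a * b) (Subgroup.mul_mem _ a.2 b.2)
    show (a : G) * b = b * a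
    have ha' : (a : G)⁻¹ = a := by
      rw [inv_eq_iff_mul_eq_one, ← pow_two]; exact ha
    have hb' : (b : G)⁻¹ = b := by
      rw [inv_eq_iff_mul_eq_one, ← pow_two]; exact hb
    have hab' : ((a : G) * b)⁻¹ = a * b := by
      rw [inv_eq_iff_mul_eq_one, ← pow_two]; exact hab
    calc (a : G) * b = ((a : G) * b)⁻¹ := hab'.symm
      _ = (b : G)⁻¹ * (a : G)⁻¹ := mul_inv_rev _ _
      _ = b * a := by rw [ha', hb']

end Cfsg.Agent.S4196
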