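import Mathlib
import Cfsg.Statements.S4216

set_option autoImplicit false
open Cfsg

namespace Cfsg.Agent.S4216

open scoped Pointwise commutatorElement

theorem fp_congr {H : Type*} [Group H] {Ω : Type*} [MulAction H Ω] [DecidableEq Ω] (p : ℕ)
    [Fact p.Prime] (hH : IsPGroup p H) (T : Finset Ω) (hT : ∀ h : H, ∀ ω ∈ T, h • ω ∈ T)
    (F : Finset Ω) (hF : ∀ ω, ω ∈ F ↔ (ω ∈ T ∧ ∀ h : H, h • ω = ω)) :
    F.card ≡ T.card [MOD p] := by
  classical
  letI : MulAction H ↥T :=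
    { smul := fun h ω => ⟨h • (ω : Ω), hT h ω ω.2⟩
      one_smul := fun ω => Subtype.ext (one_smul H (ω : Ω))
      mul_smul := fun a b ω => Subtype.ext (mul_smul a b (ω : Ω)) }
  have h1 := hH.card_modEq_card_fixedPoints (↥T)
  have h2 : Nat.card ↥T = T.card := Nat.card_eq_finsetCard T
  have h3 : Nat.card (MulAction.fixedPoints H ↥T) = F.card := by
    rw [← Nat.card_eq_finsetCard F]
    apply Nat.card_congr
    exact
      { toFun := fun ω => ⟨(ω.1 : Ω), (hF _).mpr ⟨ω.1.2, fun h => congrArg Subtype.val (ω.2 h)⟩⟩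
        invFun := fun ω => ⟨⟨(ω : Ω), ((hF _).mp ω.2).1⟩,
          fun h => Subtype.ext (((hF _).mp ω.2).2 h)⟩
        left_inv := fun ω => rfl
        right_inv := fun ω => rfl }
  rw [h2, h3] at h1
  exact h1.symm

theorem conj_pow_inv {G : Type*} [Group G] (k y : G) (n : ℕ) :
    (k⁻¹ * y * k) ^ n = k⁻¹ * y ^ n * k := by
  have := conj_pow (a := k⁻¹) (b := y) (i := n)
  rwa [inv_inv] at this

theorem orderOf_conj_inv {G : Type*} [Group G] (k y : G) :
    orderOf (k⁻¹ * y * k) = orderOf y := by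
  have := MulEquiv.orderOf_eq (MulAut.conj k⁻¹) y
  rwa [MulAut.conj_apply, inv_inv] at this

theorem mem_normalizer_of_conj_le {G : Type*} [Group G] [Finite G] (H : Subgroup G) (k : G)
    (h : ∀ u ∈ H, k⁻¹ * u * k ∈ H) : k ∈ Subgroup.normalizer (H : Set G) := by
  let f : H → H := fun u => ⟨k⁻¹ * u * k, h u u.2⟩
  have hinj : Function.Injective f := by
    intro a b hab
    have h1 : k⁻¹ * (a : G) * k = k⁻¹ * (b : G) * k := congrArg Subtype.val hab
    apply Subtype.ext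
    have h2 : (a : G) = k * (k⁻¹ * (a : G) * k) * k⁻¹ := by group
    rw [h2, h1]; group
  have hsurj : Function.Surjective f := Finite.injective_iff_surjective.mp hinj
  rw [Subgroup.mem_normalizer_iff]
  intro y
  constructor
  · intro hy
    obtain ⟨u, hu⟩ := hsurj ⟨y, hy⟩
    have h1 : k⁻¹ * (u : G) * k = y := congrArg Subtype.val hu
    have h2 : k * y * k⁻¹ = (u : G) := by rw [← h1]; group
    rw [h2]; exact u.2
  · intro hy
    have := h _ hy
    have e : k⁻¹ * (k * y * k⁻¹) * k = y := by group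
    rwa [e] at this

theorem grun_core {G : Type*} [Group G] [Finite G] {p : ℕ} [Fact p.Prime] (P : Sylow p G)
    {A : Type*} [CommGroup A] (θ : ↥(P : Subgroup G) →* A)
    (hD3 : ∀ (z c : G), c ∈ ⁅(P : Subgroup G), (P : Subgroup G)⁆ →
      ∀ h : z⁻¹ * c * z ∈ (P : Subgroup G), θ ⟨z⁻¹ * c * z, h⟩ = 1)
    (hD4 : ∀ (x k : G), x ∈ (P : Subgroup G) →
      k ∈ Subgroup.normalizer ((P : Subgroup G) : Set G) →
      ∀ h : x⁻¹ * k⁻¹ * x * k ∈ (P : Subgroup G), θ ⟨x⁻¹ * k⁻¹ * x * k, h⟩ = 1) :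
    ∀ (n : ℕ) (x : G) (hx : x ∈ (P : Subgroup G)), orderOf x = n → x ∈ commutator G →
      θ ⟨x, hx⟩ = 1 := by
  classical
  intro n
  induction n using Nat.strong_induction_on with
  | _ n ih =>
  intro x hxP hn hxG
  by_cases hx1 : x = 1
  · subst hx1; exact map_one θ
  have hp : p.Prime := Fact.out
  obtain ⟨e, he⟩ : ∃ e, orderOf x = p ^ e := by
    obtain ⟨k, hk⟩ := P.isPGroup' ⟨x, hxP⟩
    have h1 : x ^ p ^ k = 1 := congrArg Subtype.val hk
    obtain ⟨e, -, he⟩ := (Nat.dvd_prime_pow hp).mp (orderOf_dvd_of_pow_eq_one h1)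
    exact ⟨e, he⟩
  have he1 : 1 ≤ e := by
    rcases Nat.eq_zero_or_pos e with h0 | h0
    · rw [h0, pow_zero, orderOf_eq_one_iff] at he; exact absurd he hx1
    · exact h0
  have hpd : p ∣ orderOf x := by rw [he]; exact dvd_pow_self p (by omega)
  have hGn : (commutator G).Normal := inferInstance
  have hsmall : ∀ (k : G) (j : ℕ), 1 < j → j ∣ orderOf x →
      ∀ h : k⁻¹ * x ^ j * k ∈ (P : Subgroup G), θ ⟨k⁻¹ * x ^ j * k, h⟩ = 1 := by
    intro k j hj hjd h
    have hord : orderOf (k⁻¹ * x ^ j * k) < n := by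
      rw [orderOf_conj_inv, orderOf_pow' x (by omega), Nat.gcd_eq_right hjd, ← hn]
      exact Nat.div_lt_self (orderOf_pos x) hj
    have hmem : k⁻¹ * x ^ j * k ∈ commutator G := by
      have := hGn.conj_mem _ (pow_mem hxG j) k⁻¹
      rwa [inv_inv] at this
    exact ih _ hord _ h rfl hmem
  haveI : Fintype (G ⧸ (P : Subgroup G)) := Fintype.ofFinite _
  obtain ⟨τ, hτ⟩ : ∃ τ : G → A, τ = fun k =>
      if h : k⁻¹ * x * k ∈ (P : Subgroup G) then θ ⟨k⁻¹ * x * k, h⟩ else 1 := ⟨_, rfl⟩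
  have hτin : ∀ k (h : k⁻¹ * x * k ∈ (P : Subgroup G)), τ k = θ ⟨k⁻¹ * x * k, h⟩ := by
    intro k h; rw [hτ]; exact dif_pos h
  have hθconj : ∀ (a v : G) (ha : a ∈ (P : Subgroup G)) (hv : v ∈ (P : Subgroup G))
      (h : v⁻¹ * a * v ∈ (P : Subgroup G)), θ ⟨v⁻¹ * a * v, h⟩ = θ ⟨a, ha⟩ := by
    intro a v ha hv h
    have : (⟨v⁻¹ * a * v, h⟩ : ↥(P : Subgroup G)) =
        (⟨v, hv⟩ : ↥(P : Subgroup G))⁻¹ * ⟨a, ha⟩ * ⟨v, hv⟩ := rfl
    rw [this, map_mul, map_mul, map_inv, mul_comm, ← mul_assoc, mul_inv_cancel, one_mul]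
  have hT1 : ∀ (k u v : G), u ∈ (P : Subgroup G) → v ∈ (P : Subgroup G) →
      k⁻¹ * x * k ∈ (P : Subgroup G) → (u * k * v)⁻¹ * x * (u * k * v) ∈ (P : Subgroup G) →
      τ (u * k * v) = τ k := by
    intro k u v hu hv hk hukv
    rw [hτin _ hukv, hτin _ hk]
    have ha : k⁻¹ * (u⁻¹ * x * u) * k ∈ (P : Subgroup G) := by
      have h1 : k⁻¹ * (u⁻¹ * x * u) * k = v * ((u * k * v)⁻¹ * x * (u * k * v)) * v⁻¹ := by group
      rw [h1]; exact mul_mem (mul_mem hv hukv) (inv_mem hv)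
    have hv' : v⁻¹ * (k⁻¹ * (u⁻¹ * x * u) * k) * v ∈ (P : Subgroup G) :=
      mul_mem (mul_mem (inv_mem hv) ha) hv
    have e1 : (⟨(u * k * v)⁻¹ * x * (u * k * v), hukv⟩ : ↥(P : Subgroup G)) =
        ⟨v⁻¹ * (k⁻¹ * (u⁻¹ * x * u) * k) * v, hv'⟩ := Subtype.ext (by
          show (u * k * v)⁻¹ * x * (u * k * v) = v⁻¹ * (k⁻¹ * (u⁻¹ * x * u) * k) * v
          group)
    rw [e1, hθconj _ v ha hv]
    have hc : x⁻¹ * u⁻¹ * x * u ∈ ⁅(P : Subgroup G), (P : Subgroup G)⁆ := by
      have := Subgroup.commutator_mem_commutator (H₁ := (P : Subgroup G)) (H₂ := (P : Subgroup G))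
        (inv_mem hxP) (inv_mem hu)
      rw [commutatorElement_def, inv_inv, inv_inv] at this
      exact this
    have hcP : k⁻¹ * (x⁻¹ * u⁻¹ * x * u) * k ∈ (P : Subgroup G) := by
      have h1 : k⁻¹ * (x⁻¹ * u⁻¹ * x * u) * k =
          (k⁻¹ * x * k)⁻¹ * (k⁻¹ * (u⁻¹ * x * u) * k) := by group
      rw [h1]; exact mul_mem (inv_mem hk) ha
    have e2 : (⟨k⁻¹ * (u⁻¹ * x * u) * k, ha⟩ : ↥(P : Subgroup G)) =
        ⟨k⁻¹ * x * k, hk⟩ * ⟨k⁻¹ * (x⁻¹ * u⁻¹ * x * u) * k, hcP⟩ := Subtype.ext (by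
          show k⁻¹ * (u⁻¹ * x * u) * k = k⁻¹ * x * k * (k⁻¹ * (x⁻¹ * u⁻¹ * x * u) * k)
          group)
    rw [e2, map_mul, hD3 k _ hc hcP, mul_one]
  have hT2 : ∀ k, k⁻¹ * x * k ∈ (P : Subgroup G) → τ k ^ p = 1 := by
    intro k hk
    rw [hτin _ hk, ← map_pow]
    have hmem : k⁻¹ * x ^ p * k ∈ (P : Subgroup G) := by
      rw [← conj_pow_inv]; exact pow_mem hk p
    have e : (⟨k⁻¹ * x * k, hk⟩ : ↥(P : Subgroup G)) ^ p = ⟨k⁻¹ * x ^ p * k, hmem⟩ :=
      Subtype.ext (by
        show (k⁻¹ * x * k) ^ p = _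
        exact conj_pow_inv k x p)
    rw [e]
    exact hsmall k p hp.one_lt hpd hmem
  have hT3 : ∀ k, k ∈ Subgroup.normalizer ((P : Subgroup G) : Set G) →
      ∃ _ : k⁻¹ * x * k ∈ (P : Subgroup G), τ k = θ ⟨x, hxP⟩ := by
    intro k hk
    have hkP : k⁻¹ * x * k ∈ (P : Subgroup G) := by
      have := (Subgroup.mem_normalizer_iff.mp (inv_mem hk) x).mp hxP
      rwa [inv_inv] at this
    refine ⟨hkP, ?_⟩
    rw [hτin _ hkP]
    have hcP : x⁻¹ * k⁻¹ * x * k ∈ (P : Subgroup G) := by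
      have : x⁻¹ * k⁻¹ * x * k = x⁻¹ * (k⁻¹ * x * k) := by group
      rw [this]; exact mul_mem (inv_mem hxP) hkP
    have e : (⟨k⁻¹ * x * k, hkP⟩ : ↥(P : Subgroup G)) = ⟨x, hxP⟩ * ⟨x⁻¹ * k⁻¹ * x * k, hcP⟩ :=
      Subtype.ext (by
        show k⁻¹ * x * k = x * (x⁻¹ * k⁻¹ * x * k)
        group)
    rw [e, map_mul, hD4 x k hxP hk hcP, mul_one]
  have hfixg : ∀ g k : G, g • (k : G ⧸ (P : Subgroup G)) = (k : G ⧸ (P : Subgroup G)) ↔
      k⁻¹ * g * k ∈ (P : Subgroup G) := by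
    intro g k
    rw [MulAction.Quotient.smul_mk, QuotientGroup.eq, smul_eq_mul]
    constructor
    · intro h
      have := inv_mem h
      have e : ((g * k)⁻¹ * k)⁻¹ = k⁻¹ * g * k := by group
      rwa [e] at this
    · intro h
      have := inv_mem h
      have e : (k⁻¹ * g * k)⁻¹ = (g * k)⁻¹ * k := by group
      rwa [e] at this
  have hzp : ∀ ω : G ⧸ (P : Subgroup G), (∀ h : Subgroup.zpowers x, h • ω = ω) ↔ x • ω = ω := by
    intro ω
    constructor
    · intro h; exact h ⟨x, Subgroup.mem_zpowers x⟩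
    · intro h z
      obtain ⟨i, hi⟩ := Subgroup.mem_zpowers_iff.mp z.2
      show (z : G) • ω = ω
      rw [← hi]
      exact MulAction.mem_stabilizer_iff.mp (zpow_mem (MulAction.mem_stabilizer_iff.mpr h) i)
  -- the transfer
  haveI : Fintype (Quotient (MulAction.orbitRel (Subgroup.zpowers x) (G ⧸ (P : Subgroup G)))) :=
    Fintype.ofFinite _
  have hA := MonoidHom.transfer_eq_prod_quotient_orbitRel_zpowers_quot θ x
  have hV : MonoidHom.transfer θ x = 1 :=
    Abelianization.commutator_subset_ker (MonoidHom.transfer θ) hxG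
  rw [hV] at hA
  have hB : ∀ q : Quotient (MulAction.orbitRel (Subgroup.zpowers x) (G ⧸ (P : Subgroup G))),
      θ ⟨q.out.out⁻¹ * x ^ Function.minimalPeriod (x • ·) q.out * q.out.out,
        QuotientGroup.out_conj_pow_minimalPeriod_mem (P : Subgroup G) x q.out⟩
      = ∏ ω ∈ Finset.univ.filter (fun ω : G ⧸ (P : Subgroup G) =>
          (Quotient.mk'' ω : Quotient (MulAction.orbitRel (Subgroup.zpowers x)
            (G ⧸ (P : Subgroup G)))) = q), (if x • ω = ω then τ ω.out else 1) := by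
    intro q
    by_cases hq : x • q.out = q.out
    · have hper : Function.minimalPeriod (x • ·) q.out = 1 :=
        Function.minimalPeriod_eq_one_iff_isFixedPt.mpr hq
      have hfib : ∀ ω : G ⧸ (P : Subgroup G), (Quotient.mk'' ω : Quotient
          (MulAction.orbitRel (Subgroup.zpowers x) (G ⧸ (P : Subgroup G)))) = q → ω = q.out := by
        intro ω hω
        have h1 : (Quotient.mk'' ω : Quotient (MulAction.orbitRel (Subgroup.zpowers x)
            (G ⧸ (P : Subgroup G)))) = Quotient.mk'' q.out := by rw [hω, Quotient.out_eq']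
        obtain ⟨z, hz⟩ := Quotient.exact' h1
        rw [← hz]
        exact (hzp q.out).mpr hq z
      rw [Finset.prod_eq_single_of_mem q.out (by simp [Quotient.out_eq'])
        (fun ω hω hne => absurd (hfib ω (Finset.mem_filter.mp hω).2) hne)]
      rw [if_pos hq]
      have hk : q.out.out⁻¹ * x * q.out.out ∈ (P : Subgroup G) :=
        (hfixg x q.out.out).mp (by rw [QuotientGroup.out_eq']; exact hq)
      rw [hτin _ hk]
      apply congrArg θ
      apply Subtype.ext
      show q.out.out⁻¹ * x ^ Function.minimalPeriod (x • ·) q.out * q.out.out =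
        q.out.out⁻¹ * x * q.out.out
      rw [hper, pow_one]
    · have hper1 : Function.minimalPeriod (x • ·) q.out ≠ 1 :=
        fun h => hq (Function.minimalPeriod_eq_one_iff_isFixedPt.mp h)
      have hperd : Function.minimalPeriod (x • ·) q.out ∣ orderOf x := by
        apply Function.IsPeriodicPt.minimalPeriod_dvd
        show (x • ·)^[orderOf x] q.out = q.out
        rw [smul_iterate, pow_orderOf_eq_one]
        exact one_smul _ _
      have hperpos : 0 < Function.minimalPeriod (x • ·) q.out :=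
        Nat.pos_of_dvd_of_pos hperd (orderOf_pos x)
      rw [hsmall _ _ (by omega) hperd]
      symm
      apply Finset.prod_eq_one
      intro ω hω
      rw [if_neg]
      intro hωfix
      apply hq
      have h1 : (Quotient.mk'' q.out : Quotient (MulAction.orbitRel (Subgroup.zpowers x)
          (G ⧸ (P : Subgroup G)))) = Quotient.mk'' ω := by
        rw [(Finset.mem_filter.mp hω).2, Quotient.out_eq']
      obtain ⟨z, hz⟩ := Quotient.exact' h1
      obtain ⟨i, hi⟩ := Subgroup.mem_zpowers_iff.mp z.2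
      have hz' : (z : G) • ω = q.out := hz
      rw [← hz', ← hi, smul_smul, ((Commute.refl x).zpow_right i).eq, mul_smul, hωfix]
  have hC : ∏ ω : G ⧸ (P : Subgroup G), (if x • ω = ω then τ ω.out else 1) = 1 := by
    rw [← Finset.prod_fiberwise Finset.univ (fun ω : G ⧸ (P : Subgroup G) =>
      (Quotient.mk'' ω : Quotient (MulAction.orbitRel (Subgroup.zpowers x)
        (G ⧸ (P : Subgroup G)))))]
    exact (Finset.prod_congr rfl (fun q _ => (hB q).symm)).trans hA.symm
  obtain ⟨Fix, hFix⟩ : ∃ Fix : Finset (G ⧸ (P : Subgroup G)),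
      Fix = Finset.univ.filter (fun ω => x • ω = ω) := ⟨_, rfl⟩
  have hFixmem : ∀ ω, ω ∈ Fix ↔ x • ω = ω := by
    intro ω; rw [hFix]; simp
  have hC' : ∏ ω ∈ Fix, τ ω.out = 1 := by rw [hFix, Finset.prod_filter]; exact hC
  haveI : Fintype (Quotient (MulAction.orbitRel ↥(P : Subgroup G) (G ⧸ (P : Subgroup G)))) :=
    Fintype.ofFinite _
  obtain ⟨π, hπ⟩ : ∃ π : G ⧸ (P : Subgroup G) →
      Quotient (MulAction.orbitRel ↥(P : Subgroup G) (G ⧸ (P : Subgroup G))),
      π = Quotient.mk'' := ⟨_, rfl⟩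
  have hπeq : ∀ ω ω', π ω = π ω' → ∃ u : ↥(P : Subgroup G), u • ω' = ω := by
    intro ω ω' h
    rw [hπ] at h
    exact Quotient.exact' h
  have hπsmul : ∀ (u : ↥(P : Subgroup G)) ω, π (u • ω) = π ω := by
    intro u ω
    rw [hπ]
    exact Quotient.sound' ⟨u, rfl⟩
  have hxp : θ ⟨x, hxP⟩ ^ p = 1 := by
    have hmem : (1 : G)⁻¹ * x ^ p * 1 ∈ (P : Subgroup G) := by simpa using pow_mem hxP p
    have h := hsmall 1 p hp.one_lt hpd hmem
    rw [← map_pow]
    have e : (⟨x, hxP⟩ : ↥(P : Subgroup G)) ^ p = ⟨(1 : G)⁻¹ * x ^ p * 1, hmem⟩ :=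
      Subtype.ext (by show x ^ p = (1 : G)⁻¹ * x ^ p * 1; simp)
    rw [e]; exact h
  have hO : ∀ O, ∏ ω ∈ Fix.filter (fun ω => π ω = O), τ ω.out =
      θ ⟨x, hxP⟩ ^ (Fix.filter (fun ω => π ω = O)).card := by
    intro O
    by_cases hPfix : ∃ ω₀, π ω₀ = O ∧ ∀ u : ↥(P : Subgroup G), u • ω₀ = ω₀
    · obtain ⟨ω₀, hω₀O, hω₀⟩ := hPfix
      apply Finset.prod_eq_pow_card
      intro ω hω
      have hωO : π ω = O := (Finset.mem_filter.mp hω).2
      have hωeq : ω = ω₀ := by
        obtain ⟨u, hu⟩ := hπeq ω ω₀ (by rw [hωO, hω₀O])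
        rw [← hu]; exact hω₀ u
      rw [hωeq]
      have hN : ω₀.out ∈ Subgroup.normalizer ((P : Subgroup G) : Set G) := by
        apply mem_normalizer_of_conj_le
        intro u hu
        apply (hfixg u ω₀.out).mp
        rw [QuotientGroup.out_eq']
        exact hω₀ ⟨u, hu⟩
      obtain ⟨_, h⟩ := hT3 _ hN
      exact h
    · push Not at hPfix
      obtain ⟨S, hS⟩ : ∃ S : Finset (G ⧸ (P : Subgroup G)),
          S = Fix.filter (fun ω => π ω = O) := ⟨_, rfl⟩
      rw [← hS]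
      have hSmem : ∀ ω, ω ∈ S ↔ (x • ω = ω ∧ π ω = O) := by
        intro ω; rw [hS, Finset.mem_filter, hFixmem]
      have hcardS : p ∣ S.card := by
        obtain ⟨T, hT⟩ : ∃ T : Finset (G ⧸ (P : Subgroup G)),
            T = Finset.univ.filter (fun ω : G ⧸ (P : Subgroup G) => π ω = O) := ⟨_, rfl⟩
        have hTmem : ∀ ω, ω ∈ T ↔ π ω = O := by intro ω; rw [hT]; simp
        have hTinv : ∀ (u : ↥(P : Subgroup G)) (ω), ω ∈ T → u • ω ∈ T := by
          intro u ω hω
          rw [hTmem] at hω ⊢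
          rw [hπsmul]; exact hω
        have h1 := fp_congr p P.isPGroup' T hTinv ∅ (by
          intro ω
          constructor
          · intro h; exact absurd h (Finset.notMem_empty _)
          · rintro ⟨hωT, hfix⟩
            obtain ⟨u, hu⟩ := hPfix ω ((hTmem ω).mp hωT)
            exact absurd (hfix u) hu)
        have h2 := fp_congr p (P.isPGroup'.to_le (Subgroup.zpowers_le.mpr hxP)) T
          (fun h ω hω => hTinv ⟨(h : G), Subgroup.zpowers_le.mpr hxP h.2⟩ ω hω) S (by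
            intro ω
            rw [hSmem, hTmem, hzp ω]
            tauto)
        have h3 : S.card ≡ 0 [MOD p] := by
          have := h2.trans h1.symm
          rwa [Finset.card_empty] at this
        exact (Nat.modEq_zero_iff_dvd).mp h3
      rcases S.eq_empty_or_nonempty with hSe | ⟨ω₀, hω₀⟩
      · rw [hSe, Finset.prod_empty, Finset.card_empty, pow_zero]
      · have hω₀fix : x • ω₀ = ω₀ := ((hSmem ω₀).mp hω₀).1
        have hk₀ : ω₀.out⁻¹ * x * ω₀.out ∈ (P : Subgroup G) :=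
          (hfixg x ω₀.out).mp (by rw [QuotientGroup.out_eq']; exact hω₀fix)
        have hconst : ∀ ω ∈ S, τ ω.out = τ ω₀.out := by
          intro ω hω
          have hωfix : x • ω = ω := ((hSmem ω).mp hω).1
          have hk : ω.out⁻¹ * x * ω.out ∈ (P : Subgroup G) :=
            (hfixg x ω.out).mp (by rw [QuotientGroup.out_eq']; exact hωfix)
          obtain ⟨u, hu⟩ := hπeq ω ω₀ (by rw [((hSmem ω).mp hω).2, ((hSmem ω₀).mp hω₀).2])
          have hv : ((u : G) * ω₀.out)⁻¹ * ω.out ∈ (P : Subgroup G) := by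
            rw [← QuotientGroup.eq, QuotientGroup.out_eq', ← hu]
            conv_rhs => rw [← QuotientGroup.out_eq' ω₀]
            rfl
          have e : ω.out = (u : G) * ω₀.out * (((u : G) * ω₀.out)⁻¹ * ω.out) := by group
          rw [e]
          apply hT1 _ _ _ u.2 hv hk₀
          rw [← e]; exact hk
        rw [Finset.prod_eq_pow_card hconst]
        obtain ⟨c, hc⟩ := hcardS
        rw [hc, pow_mul, hT2 _ hk₀, one_pow, pow_mul, hxp, one_pow]
  have hD : θ ⟨x, hxP⟩ ^ Fix.card = 1 := by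
    rw [← hC', ← Finset.prod_fiberwise Fix π, Finset.prod_congr rfl (fun O _ => hO O),
      Finset.prod_pow_eq_pow_sum]
    congr 1
    exact Finset.card_eq_sum_card_fiberwise (fun ω _ => Finset.mem_coe.mpr (Finset.mem_univ _))
  have hcard : Fix.card ≡ (Finset.univ : Finset (G ⧸ (P : Subgroup G))).card [MOD p] :=
    fp_congr p (P.isPGroup'.to_le (Subgroup.zpowers_le.mpr hxP)) Finset.univ
      (fun _ _ _ => Finset.mem_univ _) Fix (by
        intro ω
        rw [hFixmem, hzp ω]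
        simp)
  have hnd : ¬ p ∣ Fix.card := by
    rw [Nat.ModEq.dvd_iff hcard (dvd_refl p), Finset.card_univ, ← Nat.card_eq_fintype_card,
      ← Subgroup.index_eq_card]
    exact P.not_dvd_index
  have hordx : θ ⟨x, hxP⟩ ^ (p ^ e) = 1 := by
    rw [← map_pow]
    have : (⟨x, hxP⟩ : ↥(P : Subgroup G)) ^ (p ^ e) = 1 :=
      Subtype.ext (by
        show x ^ (p ^ e) = 1
        rw [← he]; exact pow_orderOf_eq_one x)
    rw [this, map_one]
  have hcop : Nat.Coprime Fix.card (p ^ e) :=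
    Nat.Coprime.pow_right e ((Nat.coprime_comm).mp ((Nat.Prime.coprime_iff_not_dvd hp).mpr hnd))
  have h3 : orderOf (θ ⟨x, hxP⟩) ∣ Nat.gcd Fix.card (p ^ e) :=
    Nat.dvd_gcd (orderOf_dvd_of_pow_eq_one hD) (orderOf_dvd_of_pow_eq_one hordx)
  rw [Nat.Coprime.gcd_eq_one hcop, Nat.dvd_one] at h3
  exact orderOf_eq_one_iff.mp h3

/-- Grün's first Theorem: if `P` is a Sylow `p`-subgroup of the finite group `G`, then `P ∩ G'` is the subgroup generated by `P ∩ N_G(P)'` together with the subgroups `P ∩ z P' z⁻¹` for all `z ∈ G`, where `'` denotes the derived subgroup and `N_G(P)` the normalizer of `P`. -/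
theorem result {G : Type*} [Group G] [Finite G] {p : ℕ} [Fact p.Prime] (P : Sylow p G) : (P : Subgroup G) ⊓ commutator G = ((P : Subgroup G) ⊓ ⁅Subgroup.normalizer ((P : Subgroup G) : Set G), Subgroup.normalizer ((P : Subgroup G) : Set G)⁆) ⊔ ⨆ z : G, (P : Subgroup G) ⊓ (⁅(P : Subgroup G), (P : Subgroup G)⁆).map (MulAut.conj z).toMonoidHom := by
  classical
  obtain ⟨D, hDdef⟩ : ∃ D : Subgroup G, D = ((P : Subgroup G) ⊓
      ⁅Subgroup.normalizer ((P : Subgroup G) : Set G),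
        Subgroup.normalizer ((P : Subgroup G) : Set G)⁆) ⊔
      ⨆ z : G, (P : Subgroup G) ⊓
        (⁅(P : Subgroup G), (P : Subgroup G)⁆).map (MulAut.conj z).toMonoidHom := ⟨_, rfl⟩
  rw [← hDdef]
  have hDP : D ≤ (P : Subgroup G) := by
    rw [hDdef]
    exact sup_le inf_le_left (iSup_le (fun z => inf_le_left))
  have hcommP : ⁅(P : Subgroup G), (P : Subgroup G)⁆ ≤ (P : Subgroup G) :=
    Subgroup.commutator_le.mpr (fun a ha b hb => by
      rw [commutatorElement_def]
      exact mul_mem (mul_mem (mul_mem ha hb) (inv_mem ha)) (inv_mem hb))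
  have hD2 : ⁅(P : Subgroup G), (P : Subgroup G)⁆ ≤ D := by
    intro c hc
    rw [hDdef]
    apply Subgroup.mem_sup_right
    apply Subgroup.mem_iSup_of_mem 1
    refine Subgroup.mem_inf.mpr ⟨hcommP hc, ⟨c, hc, ?_⟩⟩
    simp
  have hD3' : ∀ (z c : G), c ∈ ⁅(P : Subgroup G), (P : Subgroup G)⁆ →
      z⁻¹ * c * z ∈ (P : Subgroup G) → z⁻¹ * c * z ∈ D := by
    intro z c hc h
    rw [hDdef]
    apply Subgroup.mem_sup_right
    apply Subgroup.mem_iSup_of_mem z⁻¹
    refine Subgroup.mem_inf.mpr ⟨h, ⟨c, hc, ?_⟩⟩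
    simp [MulAut.conj_apply]
  have hD4' : ∀ (x k : G), x ∈ (P : Subgroup G) →
      k ∈ Subgroup.normalizer ((P : Subgroup G) : Set G) →
      x⁻¹ * k⁻¹ * x * k ∈ (P : Subgroup G) → x⁻¹ * k⁻¹ * x * k ∈ D := by
    intro x k hx hk h
    rw [hDdef]
    apply Subgroup.mem_sup_left
    refine Subgroup.mem_inf.mpr ⟨h, ?_⟩
    have := Subgroup.commutator_mem_commutator
      (H₁ := Subgroup.normalizer ((P : Subgroup G) : Set G))
      (H₂ := Subgroup.normalizer ((P : Subgroup G) : Set G))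
      (inv_mem (Subgroup.le_normalizer hx)) (inv_mem hk)
    rw [commutatorElement_def, inv_inv, inv_inv] at this
    exact this
  -- the homomorphism
  obtain ⟨Dbar, hDbar⟩ : ∃ Dbar : Subgroup (Abelianization ↥(P : Subgroup G)),
      Dbar = (D.subgroupOf (P : Subgroup G)).map Abelianization.of := ⟨_, rfl⟩
  obtain ⟨θ, hθ⟩ : ∃ θ : ↥(P : Subgroup G) →* Abelianization ↥(P : Subgroup G) ⧸ Dbar,
      θ = (QuotientGroup.mk' Dbar).comp Abelianization.of := ⟨_, rfl⟩
  have hθker : ∀ w : ↥(P : Subgroup G), θ w = 1 → (w : G) ∈ D := by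
    intro w hw
    rw [hθ] at hw
    have h1 : Abelianization.of w ∈ Dbar := (QuotientGroup.eq_one_iff _).mp hw
    rw [hDbar] at h1
    obtain ⟨d, hd, hdw⟩ := h1
    have h2 : d⁻¹ * w ∈ (Abelianization.of : ↥(P : Subgroup G) →* _).ker := by
      rw [MonoidHom.mem_ker, map_mul, map_inv, hdw, inv_mul_cancel]
    rw [Abelianization.ker_of] at h2
    have h3 : ((d⁻¹ * w : ↥(P : Subgroup G)) : G) ∈ ⁅(P : Subgroup G), (P : Subgroup G)⁆ := by
      rw [← Subgroup.map_subtype_commutator]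
      exact ⟨_, h2, rfl⟩
    have h4 := hD2 h3
    have h5 : (w : G) = (d : G) * ((d⁻¹ * w : ↥(P : Subgroup G)) : G) := by
      show (w : G) = (d : G) * ((d : G)⁻¹ * (w : G))
      group
    rw [h5]
    exact mul_mem (Subgroup.mem_subgroupOf.mp hd) h4
  have hθD : ∀ w : ↥(P : Subgroup G), (w : G) ∈ D → θ w = 1 := by
    intro w hw
    rw [hθ]
    show (QuotientGroup.mk' Dbar) (Abelianization.of w) = 1
    rw [QuotientGroup.mk'_apply, QuotientGroup.eq_one_iff, hDbar]
    exact ⟨w, Subgroup.mem_subgroupOf.mpr hw, rfl⟩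
  apply le_antisymm
  · rintro x ⟨hxP, hxG⟩
    have := grun_core P θ (fun z c hc h => hθD _ (hD3' z c hc h))
      (fun x k hx hk h => hθD _ (hD4' x k hx hk h)) (orderOf x) x hxP rfl hxG
    exact hθker _ this
  · rw [hDdef]
    apply sup_le
    · apply inf_le_inf_left
      rw [commutator_def]
      exact Subgroup.commutator_mono le_top le_top
    · apply iSup_le
      intro z
      apply inf_le_inf_left
      rintro _ ⟨c, hc, rfl⟩
      have hc' : c ∈ commutator G := by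
        rw [commutator_def]
        exact Subgroup.commutator_mono le_top le_top hc
      exact (inferInstance : (commutator G).Normal).conj_mem c hc' z

end Cfsg.Agent.S4216
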