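import Mathlib
import Cfsg.Statements.S4230

set_option autoImplicit false
open Cfsg

namespace Cfsg.Agent.S4230

/-- Let p be an odd prime, q a natural number not divisible by p, and e the multiplicative order of q modulo p. For a natural number f, p divides the value at q of the f-th cyclotomic polynomial if and only if f = e·p^j for some j ≥ 0. -/
theorem result (p q f : ℕ) (hp : p.Prime) (hp2 : p ≠ 2) (hpq : ¬ p ∣ q) :
    ((p : ℤ) ∣ (Polynomial.cyclotomic f ℤ).eval (q : ℤ)) ↔ ∃ j : ℕ, f = orderOf (q : ZMod p) * p ^ j := by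
  haveI : Fact p.Prime := ⟨hp⟩
  have hcast : ∀ n : ℕ, ((p : ℤ) ∣ (Polynomial.cyclotomic n ℤ).eval (q : ℤ)) ↔
      (Polynomial.cyclotomic n (ZMod p)).eval (q : ZMod p) = 0 := by
    intro n
    rw [← ZMod.intCast_zmod_eq_zero_iff_dvd, ← Polynomial.map_cyclotomic_int n (ZMod p)]
    have h := Polynomial.eval_intCast_map (Int.castRingHom (ZMod p)) (Polynomial.cyclotomic n ℤ) (q : ℤ)
    rw [Int.cast_natCast] at h
    rw [h]
    rfl
  have hq0 : (q : ZMod p) ≠ 0 := fun h => hpq ((ZMod.natCast_eq_zero_iff q p).1 h)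
  have hedvd : orderOf (q : ZMod p) ∣ p - 1 := ZMod.orderOf_dvd_card_sub_one hq0
  have hp1 : 0 < p - 1 := Nat.sub_pos_of_lt hp.one_lt
  have hepos : 0 < orderOf (q : ZMod p) := Nat.pos_of_dvd_of_pos hedvd hp1
  have hpe : ¬ p ∣ orderOf (q : ZMod p) := by
    intro h
    have h1 : p ≤ p - 1 := Nat.le_of_dvd hp1 (h.trans hedvd)
    omega
  have hroot : ∀ m : ℕ, ¬ p ∣ m →
      ((Polynomial.cyclotomic m (ZMod p)).eval (q : ZMod p) = 0 ↔ m = orderOf (q : ZMod p)) := by
    intro m hm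
    haveI : NeZero ((m : ℕ) : ZMod p) := ⟨fun h => hm ((ZMod.natCast_eq_zero_iff m p).1 h)⟩
    have h1 : (Polynomial.cyclotomic m (ZMod p)).IsRoot (q : ZMod p) ↔ IsPrimitiveRoot (q : ZMod p) m :=
      Polynomial.isRoot_cyclotomic_iff
    constructor
    · intro h
      exact (h1.1 h).eq_orderOf
    · intro h
      apply h1.2
      rw [h]
      exact IsPrimitiveRoot.orderOf _
  have hpow : ∀ (m k : ℕ), ¬ p ∣ m →
      ((Polynomial.cyclotomic (p ^ k * m) (ZMod p)).eval (q : ZMod p) = 0 ↔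
        (Polynomial.cyclotomic m (ZMod p)).eval (q : ZMod p) = 0) := by
    intro m k hm
    rcases Nat.eq_zero_or_pos k with hk | hk
    · subst hk
      rw [pow_zero, one_mul]
    · rw [Polynomial.cyclotomic_mul_prime_pow_eq (ZMod p) hm hk, Polynomial.eval_pow]
      have hne : p ^ k - p ^ (k - 1) ≠ 0 := by
        have : p ^ (k - 1) < p ^ k := Nat.pow_lt_pow_right hp.one_lt (by omega)
        omega
      exact pow_eq_zero_iff hne
  rw [hcast]
  constructor
  · intro h
    have hf0 : f ≠ 0 := by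
      rintro rfl
      simp at h
    obtain ⟨k, m, hm, hf⟩ := Nat.exists_eq_pow_mul_and_not_dvd hf0 p hp.ne_one
    rw [hf, hpow m k hm, hroot m hm] at h
    exact ⟨k, by rw [hf, h, mul_comm]⟩
  · rintro ⟨j, rfl⟩
    rw [mul_comm, hpow _ j hpe, hroot _ hpe]

end Cfsg.Agent.S4230
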