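import Mathlib
import Cfsg.Statements.S4242
import Cfsg.Agent.Lib.Helper6.FrobNC
import Cfsg.Agent.Lib.Helper6.NilpComm
import Cfsg.Agent.Lib.Lead.CoprimeSylow

set_option autoImplicit false
open Cfsg

namespace Cfsg.Agent.S4242

open scoped Pointwise

theorem nilp_of_le {G : Type*} [Group G] {H M : Subgroup G} (h : H ≤ M)
    (hM : Group.IsNilpotent M) : Group.IsNilpotent H := by
  haveI := hM
  exact (Group.isNilpotent_congr (Subgroup.subgroupOfEquivOfLe h)).mp inferInstance

theorem exists_coatom_ge {G : Type*} [Group G] [Finite G] (H : Subgroup G) (hH : H ≠ ⊤) :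
    ∃ M : Subgroup G, IsCoatom M ∧ H ≤ M := by
  rcases IsCoatomic.eq_top_or_exists_le_coatom H with h | h
  · exact absurd h hH
  · exact h

theorem nilp_of_proper {G : Type*} [Group G] [Finite G] (p : ℕ)
    (h : ∀ M : Subgroup G, IsCoatom M → p ∣ Nat.card M → Group.IsNilpotent M)
    (H : Subgroup G) (hH : H ≠ ⊤) (hpH : p ∣ Nat.card H) : Group.IsNilpotent H := by
  obtain ⟨M, hM, hHM⟩ := exists_coatom_ge H hH
  exact nilp_of_le hHM (h M hM (hpH.trans (Subgroup.card_dvd_of_le hHM)))

theorem comm_of_proper {G : Type*} [Group G] [Finite G] (p : ℕ) [Fact p.Prime]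
    (h : ∀ M : Subgroup G, IsCoatom M → p ∣ Nat.card M → Group.IsNilpotent M)
    (H : Subgroup G) (hH : H ≠ ⊤) (hpH : p ∣ Nat.card H) (x m : G) (hx : x ∈ H) (hm : m ∈ H)
    (i : ℕ) (hxo : orderOf x = p ^ i) (hmo : (orderOf m).Coprime p) : x * m = m * x := by
  have hn := nilp_of_proper p h H hH hpH
  have := Cfsg.Agent.Lib.Helper6.commute_of_pelt_of_coprime hn (p := p)
    (u := (⟨x, hx⟩ : H)) (v := (⟨m, hm⟩ : H)) (i := i)
    (by rw [Subgroup.orderOf_mk]; exact hxo) (by rw [Subgroup.orderOf_mk]; exact hmo)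
  exact congrArg Subtype.val this.eq

theorem coprime_of_mem {G : Type*} [Group G] [Finite G] (p : ℕ) [Fact p.Prime]
    (K : Subgroup G) (hpK : ¬ p ∣ Nat.card K) : ∀ m ∈ K, (orderOf m).Coprime p := by
  intro m hm
  apply Nat.Coprime.symm
  rw [Nat.Prime.coprime_iff_not_dvd Fact.out]
  intro hd
  exact hpK (hd.trans (Subgroup.orderOf_dvd_natCard K hm))

theorem assemble {G : Type*} [Group G] [Finite G] (p : ℕ) [Fact p.Prime]
    (h : ∀ M : Subgroup G, IsCoatom M → p ∣ Nat.card M → Group.IsNilpotent M)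
    (K : Subgroup G) (hK : IsCoatom K) (hKn : ¬ Group.IsNilpotent K) (hpK : ¬ p ∣ Nat.card K)
    (x : G) (hxo : orderOf x = p) (hxc : x ∈ Subgroup.center G) :
    ∃ Z K : Subgroup G, Z.Normal ∧ K.Normal ∧ Z ⊓ K = ⊥ ∧ Z ⊔ K = ⊤ ∧ Nat.card Z = p ∧
          Cfsg.IsMinimalNonNilpotent K ∧ ¬ p ∣ Nat.card K := by
  have hp : p.Prime := Fact.out
  have hZc : Subgroup.zpowers x ≤ Subgroup.center G := (Subgroup.zpowers_le).mpr hxc
  have hZn : (Subgroup.zpowers x).Normal := by
    constructor
    intro n hn g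
    have := Subgroup.mem_center_iff.mp (hZc hn) g
    have e : g * n * g⁻¹ = n := by rw [this, mul_inv_cancel_right]
    rw [e]; exact hn
  have hZcard : Nat.card (Subgroup.zpowers x) = p := by rw [Nat.card_zpowers, hxo]
  have hdisj : Subgroup.zpowers x ⊓ K = ⊥ := by
    apply Subgroup.inf_eq_bot_of_coprime
    rw [hZcard]
    exact (Nat.Prime.coprime_iff_not_dvd hp).mpr hpK
  have hxK : x ∉ K := by
    intro hx
    apply hpK
    rw [← hxo]
    exact Subgroup.orderOf_dvd_natCard K hx
  have hsup : Subgroup.zpowers x ⊔ K = ⊤ := by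
    apply hK.2
    refine lt_of_le_of_ne le_sup_right ?_
    intro e
    apply hxK
    rw [e]
    exact (le_sup_left : Subgroup.zpowers x ≤ _) (Subgroup.mem_zpowers x)
  have hKnorm : K.Normal := by
    rw [← Subgroup.normalizer_eq_top_iff, eq_top_iff, ← hsup]
    refine sup_le ?_ Subgroup.le_normalizer
    intro z hz
    have hzc := Subgroup.mem_center_iff.mp (hZc hz)
    rw [Subgroup.mem_normalizer_iff]
    intro k
    have e : z * k * z⁻¹ = k := by rw [← hzc k, mul_inv_cancel_right]
    rw [e]
  refine ⟨Subgroup.zpowers x, K, hZn, hKnorm, hdisj, hsup, hZcard, ⟨hKn, ?_⟩, hpK⟩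
  intro H hH
  have hH'K : H.map K.subtype ≤ K := Subgroup.map_subtype_le H
  have hJ : Subgroup.zpowers x ⊔ H.map K.subtype ≠ ⊤ := by
    intro e
    apply hH
    rw [eq_top_iff]
    intro k _
    have hk : (k : G) ∈ (↑(Subgroup.zpowers x ⊔ H.map K.subtype) : Set G) := by rw [e]; trivial
    rw [Subgroup.normal_mul] at hk
    obtain ⟨z, hz, h', hh', hzk⟩ := Set.mem_mul.mp hk
    have hzK : z ∈ K := by
      have : z = (k : G) * h'⁻¹ := by rw [← hzk]; group
      rw [this]; exact K.mul_mem k.2 (K.inv_mem (hH'K hh'))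
    have hz1 : z = 1 := by
      have : z ∈ Subgroup.zpowers x ⊓ K := ⟨hz, hzK⟩
      rw [hdisj] at this
      exact Subgroup.mem_bot.mp this
    rw [hz1, one_mul] at hzk
    obtain ⟨y, hy, hyk⟩ := hh'
    have : y = k := Subtype.ext (by rw [← hzk]; exact hyk)
    rw [← this]; exact hy
  have hpJ : p ∣ Nat.card (Subgroup.zpowers x ⊔ H.map K.subtype : Subgroup G) := by
    rw [← hZcard]; exact Subgroup.card_dvd_of_le le_sup_left
  have hJn := nilp_of_proper p h _ hJ hpJ
  have hH'n : Group.IsNilpotent (H.map K.subtype) := nilp_of_le le_sup_right hJn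
  exact (Group.isNilpotent_congr (H.equivMapOfInjective K.subtype K.subtype_injective)).mpr hH'n

theorem central_of_normal_p {G : Type*} [Group G] [Finite G] (p : ℕ) [Fact p.Prime]
    (h : ∀ M : Subgroup G, IsCoatom M → p ∣ Nat.card M → Group.IsNilpotent M)
    (K : Subgroup G) (hK : IsCoatom K) (hKn : ¬ Group.IsNilpotent K) (hpK : ¬ p ∣ Nat.card K)
    (U : Subgroup G) (hUn : U.Normal) (hU : IsPGroup p U) (hU1 : U ≠ ⊥) :
    ∃ x : G, orderOf x = p ∧ x ∈ Subgroup.center G := by
  have hp : p.Prime := Fact.out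
  haveI : Nontrivial U := (Subgroup.nontrivial_iff_ne_bot U).mpr hU1
  haveI := hU.center_nontrivial
  have hcp : p ∣ Nat.card (Subgroup.center U) := by
    have hc : IsPGroup p (Subgroup.center U) := hU.to_subgroup _
    rcases hc.card_eq_or_dvd with h1 | h1
    · exfalso
      have := (Nat.card_eq_one_iff_unique.mp h1).1
      exact not_subsingleton (Subgroup.center U) this
    · exact h1
  obtain ⟨c, hc⟩ := exists_prime_orderOf_dvd_card' p hcp
  have hxo : orderOf ((c : U) : G) = p := by
    rw [Subgroup.orderOf_coe, Subgroup.orderOf_coe]; exact hc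
  have hxU : ((c : U) : G) ∈ U := (c : U).2
  have hxcU : ∀ u ∈ U, u * ((c : U) : G) = ((c : U) : G) * u := by
    intro u hu
    have := Subgroup.mem_center_iff.mp c.2 ⟨u, hu⟩
    exact congrArg Subtype.val this
  have hUK : U ⊓ K = ⊥ := by
    apply Subgroup.inf_eq_bot_of_coprime
    obtain ⟨n, hn⟩ := IsPGroup.iff_card.mp hU
    rw [hn]
    exact Nat.Coprime.pow_left n ((Nat.Prime.coprime_iff_not_dvd hp).mpr hpK)
  have hpU : p ∣ Nat.card U := by
    rw [← hxo]; exact Subgroup.orderOf_dvd_natCard U hxU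
  have hcop := coprime_of_mem p K hpK
  have hxK : ∀ m ∈ K, ((c : U) : G) * m = m * ((c : U) : G) := by
    intro m hm
    by_cases hH : U ⊔ Subgroup.zpowers m = ⊤
    · exfalso
      apply hKn
      have hcomm : ∀ a ∈ K, ∀ b ∈ K, a * b = b * a := by
        haveI := hUn
        have key : ∀ a : G, ∃ i : ℤ, (QuotientGroup.mk' U) a = (QuotientGroup.mk' U m) ^ i := by
          intro a
          have ha : a ∈ (↑(U ⊔ Subgroup.zpowers m) : Set G) := by rw [hH]; trivial
          rw [Subgroup.normal_mul] at ha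
          obtain ⟨u, hu, z, hz, rfl⟩ := Set.mem_mul.mp ha
          obtain ⟨i, rfl⟩ := Subgroup.mem_zpowers_iff.mp hz
          refine ⟨i, ?_⟩
          rw [map_mul, map_zpow, QuotientGroup.mk'_apply, (QuotientGroup.eq_one_iff u).mpr hu, one_mul]
        intro a ha b hb
        obtain ⟨i, hi⟩ := key a
        obtain ⟨j, hj⟩ := key b
        have h1 : (QuotientGroup.mk' U) (a * b * a⁻¹ * b⁻¹) = 1 := by
          rw [map_mul, map_mul, map_mul, map_inv, map_inv, hi, hj]
          rw [← zpow_add, ← zpow_neg, ← zpow_add, ← zpow_neg, ← zpow_add]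
          simp
        have h2 : a * b * a⁻¹ * b⁻¹ ∈ U := (QuotientGroup.eq_one_iff _).mp h1
        have h3 : a * b * a⁻¹ * b⁻¹ ∈ K :=
          K.mul_mem (K.mul_mem (K.mul_mem ha hb) (K.inv_mem ha)) (K.inv_mem hb)
        have h4 : a * b * a⁻¹ * b⁻¹ ∈ U ⊓ K := ⟨h2, h3⟩
        rw [hUK] at h4
        have h5 := Subgroup.mem_bot.mp h4
        calc a * b = (a * b * a⁻¹ * b⁻¹) * (b * a) := by group
          _ = b * a := by rw [h5, one_mul]
      refine ⟨⟨1, ?_⟩⟩
      rw [Subgroup.upperCentralSeries_one, eq_top_iff]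
      intro a _
      rw [Subgroup.mem_center_iff]
      intro b
      exact Subtype.ext (hcomm b b.2 a a.2)
    · exact comm_of_proper p h _ hH (hpU.trans (Subgroup.card_dvd_of_le le_sup_left)) _ m
        ((le_sup_left : U ≤ _) hxU)
        ((le_sup_right : Subgroup.zpowers m ≤ _) (Subgroup.mem_zpowers m)) 1
        (by rw [pow_one]; exact hxo) (hcop m hm)
  have hsup : U ⊔ K = ⊤ := by
    apply hK.2
    refine lt_of_le_of_ne le_sup_right ?_
    intro e
    have : U ≤ K := by rw [e]; exact le_sup_left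
    apply hU1
    rw [← hUK]; exact (inf_eq_left.mpr this).symm
  refine ⟨_, hxo, ?_⟩
  have hle : (⊤ : Subgroup G) ≤ Subgroup.centralizer {((c : U) : G)} := by
    rw [← hsup]
    refine sup_le ?_ ?_
    · intro u hu
      rw [Subgroup.mem_centralizer_iff]
      intro y hy
      rw [Set.mem_singleton_iff] at hy
      rw [hy]; exact (hxcU u hu).symm
    · intro k hk
      rw [Subgroup.mem_centralizer_iff]
      intro y hy
      rw [Set.mem_singleton_iff] at hy
      rw [hy]; exact hxK k hk
  rw [Subgroup.mem_center_iff]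
  intro g
  have := Subgroup.mem_centralizer_iff.mp (hle (Subgroup.mem_top g)) _ rfl
  exact this.symm

theorem central_of_no_normal_p {G : Type*} [Group G] [Finite G] (p : ℕ) [Fact p.Prime]
    (hpG : p ∣ Nat.card G)
    (h : ∀ M : Subgroup G, IsCoatom M → p ∣ Nat.card M → Group.IsNilpotent M)
    (K : Subgroup G) (hK : IsCoatom K) (hKn : ¬ Group.IsNilpotent K) (hpK : ¬ p ∣ Nat.card K)
    (hno : ∀ U : Subgroup G, U.Normal → IsPGroup p U → U = ⊥) :
    ∃ x : G, orderOf x = p ∧ x ∈ Subgroup.center G := by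
  have hp : p.Prime := Fact.out
  have hcop := coprime_of_mem p K hpK
  have hF : Cfsg.Agent.Lib.Helper6.FrobCond p G := by
    intro Q hQ g hg hcopg
    rw [Subgroup.mem_centralizer_iff]
    intro y hy
    have hy' : y ∈ Q := hy
    by_cases hQ1 : Q = ⊥
    · rw [hQ1] at hy'; rw [Subgroup.mem_bot.mp hy']; simp
    by_cases hH : Q ⊔ Subgroup.zpowers g = ⊤
    · exfalso
      apply hQ1
      apply hno Q _ hQ
      rw [← Subgroup.normalizer_eq_top_iff, eq_top_iff, ← hH]
      exact sup_le Subgroup.le_normalizer ((Subgroup.zpowers_le).mpr hg)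
    · obtain ⟨i, hi⟩ := (IsPGroup.iff_orderOf.mp hQ) ⟨y, hy'⟩
      have hpQ : p ∣ Nat.card Q := by
        rcases hQ.card_eq_or_dvd with h1 | h1
        · exfalso
          apply hQ1
          exact Subgroup.card_eq_one.mp h1
        · exact h1
      exact comm_of_proper p h _ hH (hpQ.trans (Subgroup.card_dvd_of_le le_sup_left)) y g
        ((le_sup_left : Q ≤ _) hy')
        ((le_sup_right : Subgroup.zpowers g ≤ _) (Subgroup.mem_zpowers g)) i
        (by rw [← hi, Subgroup.orderOf_mk]) hcopg
  obtain ⟨P, N, hN, hc⟩ := Cfsg.Agent.Lib.Helper6.frobenius_npc hF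
  haveI := hN
  have hNcard : Nat.card N = (P : Subgroup G).index := (hc.index_eq_card).symm
  have hpN : ¬ p ∣ Nat.card N := by rw [hNcard]; exact P.not_dvd_index
  have hNidx : N.index = Nat.card (P : Subgroup G) := hc.symm.index_eq_card
  have hKN : K ≤ N := by
    intro k hk
    have h1 : k ^ Nat.card (P : Subgroup G) ∈ N := by
      rw [← hNidx]
      exact Subgroup.pow_index_mem N k
    obtain ⟨n, hn⟩ := IsPGroup.iff_card.mp P.isPGroup'
    rw [hn] at h1
    obtain ⟨a, ha⟩ := exists_pow_eq_self_of_coprime (x := k) (n := p ^ n)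
      (Nat.Coprime.pow_left n (hcop k hk).symm)
    rw [← ha]; exact N.pow_mem h1 a
  have hNK : N = K := by
    by_contra hne
    have hlt : K < N := lt_of_le_of_ne hKN (Ne.symm hne)
    have := hK.2 N hlt
    apply hpN
    rw [this, Subgroup.card_top]; exact hpG
  rw [hNK] at hN
  haveI := hN
  obtain ⟨x, hxo⟩ := exists_prime_orderOf_dvd_card' p hpG
  have hxK' : x ∉ K := by
    intro hx
    apply hpK
    rw [← hxo]
    exact Subgroup.orderOf_dvd_natCard K hx
  have hAcard : Nat.card (Subgroup.zpowers x) = p := by rw [Nat.card_zpowers, hxo]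
  have hAK : Subgroup.zpowers x ≤ Subgroup.normalizer (K : Set G) := by
    rw [Subgroup.normalizer_eq_top]; exact le_top
  have hcopAK : (Nat.card (Subgroup.zpowers x)).Coprime (Nat.card K) := by
    rw [hAcard]; exact (Nat.Prime.coprime_iff_not_dvd hp).mpr hpK
  have hsolv : Group.IsSolvable (Subgroup.zpowers x) := inferInstance
  have hCq : ∀ q : ℕ, q.Prime →
      q ^ (Nat.card K).factorization q ∣ Nat.card (Subgroup.centralizer {x} ⊓ K : Subgroup G) := by
    intro q hq
    haveI : Fact q.Prime := ⟨hq⟩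
    obtain ⟨Q, hQ⟩ := Cfsg.Agent.Lib.Lead.exists_invariant_sylow (Subgroup.zpowers x) K hAK hcopAK
      (Or.inl hsolv) q
    have hQ'K : (Q : Subgroup K).map K.subtype ≤ K := Subgroup.map_subtype_le _
    have hQ'card : Nat.card ((Q : Subgroup K).map K.subtype) = q ^ (Nat.card K).factorization q :=
      Cfsg.Agent.Lib.Lead.card_sylow_map K Q
    have hle : (Q : Subgroup K).map K.subtype ≤ Subgroup.centralizer {x} ⊓ K := by
      intro y hy
      refine ⟨show y ∈ Subgroup.centralizer {x} from ?_, hQ'K hy⟩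
      rw [Subgroup.mem_centralizer_iff]
      intro z hz
      rw [Set.mem_singleton_iff] at hz
      rw [hz]
      by_cases hH : (Q : Subgroup K).map K.subtype ⊔ Subgroup.zpowers x = ⊤
      · exfalso
        have hQ'n : ((Q : Subgroup K).map K.subtype).Normal := by
          rw [← Subgroup.normalizer_eq_top_iff, eq_top_iff, ← hH]
          exact sup_le Subgroup.le_normalizer hQ
        have hKQ : K ≤ (Q : Subgroup K).map K.subtype := by
          intro k hk
          have key : ∃ i : ℤ, (QuotientGroup.mk' ((Q : Subgroup K).map K.subtype)) k =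
              (QuotientGroup.mk' ((Q : Subgroup K).map K.subtype) x) ^ i := by
            have ha : k ∈ (↑((Q : Subgroup K).map K.subtype ⊔ Subgroup.zpowers x) : Set G) := by
              rw [hH]; trivial
            rw [Subgroup.normal_mul] at ha
            obtain ⟨u, hu, z, hz, rfl⟩ := Set.mem_mul.mp ha
            obtain ⟨i, rfl⟩ := Subgroup.mem_zpowers_iff.mp hz
            exact ⟨i, by rw [map_mul, map_zpow, QuotientGroup.mk'_apply,
              (QuotientGroup.eq_one_iff u).mpr hu, one_mul]⟩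
          obtain ⟨i, hi⟩ := key
          have h1 : (QuotientGroup.mk' ((Q : Subgroup K).map K.subtype)) (k ^ p) = 1 := by
            rw [map_pow, hi, ← zpow_natCast, ← zpow_mul, mul_comm, zpow_mul, zpow_natCast,
              ← map_pow, ← hxo, pow_orderOf_eq_one, map_one, one_zpow]
          have h2 : k ^ p ∈ (Q : Subgroup K).map K.subtype := (QuotientGroup.eq_one_iff _).mp h1
          obtain ⟨a, ha⟩ := exists_pow_eq_self_of_coprime (x := k) (n := p) (hcop k hk).symm
          rw [← ha]; exact Subgroup.pow_mem _ h2 a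
        apply hKn
        have hKp : IsPGroup q K := by
          intro k
          have hkQ : k ∈ (Q : Subgroup K) := by
            obtain ⟨y, hy, hyk⟩ := hKQ k.2
            have : y = k := Subtype.ext hyk
            rw [← this]; exact hy
          obtain ⟨n, hn⟩ := Q.isPGroup' ⟨k, hkQ⟩
          refine ⟨n, ?_⟩
          have := congrArg Subtype.val hn
          simpa using this
        exact hKp.isNilpotent
      · have hpH : p ∣ Nat.card ((Q : Subgroup K).map K.subtype ⊔ Subgroup.zpowers x : Subgroup G) := by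
          rw [← hAcard]; exact Subgroup.card_dvd_of_le le_sup_right
        exact comm_of_proper p h _ hH hpH x y
          ((le_sup_right : Subgroup.zpowers x ≤ _) (Subgroup.mem_zpowers x))
          ((le_sup_left : (Q : Subgroup K).map K.subtype ≤ _) hy) 1 (by rw [pow_one]; exact hxo)
          (hcop y (hQ'K hy))
    rw [← hQ'card]; exact Subgroup.card_dvd_of_le hle
  have hCK : Subgroup.centralizer {x} ⊓ K = K := by
    apply Subgroup.eq_of_le_of_card_ge inf_le_right
    apply Nat.le_of_dvd Nat.card_pos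
    rw [← Nat.factorization_le_iff_dvd Nat.card_pos.ne' Nat.card_pos.ne']
    intro q
    by_cases hq : q.Prime
    · exact (hq.pow_dvd_iff_le_factorization Nat.card_pos.ne').mp (hCq q hq)
    · rw [Nat.factorization_eq_zero_of_not_prime _ hq]; exact Nat.zero_le _
  have hsup : Subgroup.zpowers x ⊔ K = ⊤ := by
    apply hK.2
    refine lt_of_le_of_ne le_sup_right ?_
    intro e
    apply hxK'
    rw [e]
    exact (le_sup_left : Subgroup.zpowers x ≤ _) (Subgroup.mem_zpowers x)
  refine ⟨x, hxo, ?_⟩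
  have hle : (⊤ : Subgroup G) ≤ Subgroup.centralizer {x} := by
    rw [← hsup]
    refine sup_le ?_ ?_
    · rw [Subgroup.zpowers_le, Subgroup.mem_centralizer_iff]
      intro y hy
      rw [Set.mem_singleton_iff] at hy
      rw [hy]
    · intro k hk
      have : k ∈ Subgroup.centralizer {x} ⊓ K := by rw [hCK]; exact hk
      exact this.1
  rw [Subgroup.mem_center_iff]
  intro g
  have := Subgroup.mem_centralizer_iff.mp (hle (Subgroup.mem_top g)) _ rfl
  exact this.symm

theorem conv3 {G : Type*} [Group G] [Finite G] (p : ℕ) [Fact p.Prime]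
    (Z K : Subgroup G) (hZ : Z.Normal) (hKn : K.Normal) (hdisj : Z ⊓ K = ⊥) (hsup : Z ⊔ K = ⊤)
    (hZc : Nat.card Z = p) (hKm : Cfsg.IsMinimalNonNilpotent K) (hpK : ¬ p ∣ Nat.card K)
    (M : Subgroup G) (hM : IsCoatom M) (hpM : p ∣ Nat.card M) : Group.IsNilpotent M := by
  have hp : p.Prime := Fact.out
  have hmul : (Z : Set G) * (K : Set G) = Set.univ := by
    rw [← Subgroup.normal_mul, hsup]; rfl
  have hc : Subgroup.IsComplement' Z K :=
    Subgroup.isComplement'_of_disjoint_and_mul_eq_univ (disjoint_iff.mpr hdisj) hmul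
  have hZidx : Z.index = Nat.card K := hc.symm.index_eq_card
  obtain ⟨y, hy⟩ := exists_prime_orderOf_dvd_card' p hpM
  have hyo : orderOf (y : G) = p := by rw [Subgroup.orderOf_coe]; exact hy
  have hyZ : (y : G) ∈ Z := by
    have h1 : (y : G) ^ Z.index ∈ Z := Subgroup.pow_index_mem Z _
    obtain ⟨a, ha⟩ := exists_pow_eq_self_of_coprime (x := (y : G)) (n := Z.index) (by
      rw [hyo, hZidx]
      exact ((Nat.Prime.coprime_iff_not_dvd hp).mpr hpK).symm)
    rw [← ha]; exact Z.pow_mem h1 a
  have hZM : Z ≤ M := by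
    have e : Subgroup.zpowers (y : G) = Z := by
      apply Subgroup.eq_of_le_of_card_ge ((Subgroup.zpowers_le).mpr hyZ)
      rw [Nat.card_zpowers, hyo, hZc]
    rw [← e, Subgroup.zpowers_le]
    exact y.2
  have hMeq : M = Z ⊔ (M ⊓ K) := by
    apply le_antisymm
    · intro m hm
      have hm' : m ∈ (Z : Set G) * (K : Set G) := by rw [hmul]; trivial
      obtain ⟨z, hz, k, hk, rfl⟩ := Set.mem_mul.mp hm'
      have hkM : k ∈ M := by
        have : k = z⁻¹ * (z * k) := by group
        rw [this]; exact M.mul_mem (M.inv_mem (hZM hz)) hm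
      exact Subgroup.mul_mem_sup hz ⟨hkM, hk⟩
    · exact sup_le hZM inf_le_left
  have hne : (M ⊓ K).subgroupOf K ≠ ⊤ := by
    intro e
    rw [Subgroup.subgroupOf_eq_top] at e
    have hKM : K ≤ M := e.trans inf_le_left
    apply hM.1
    rw [eq_top_iff, ← hsup]
    exact sup_le hZM hKM
  have hn1 : Group.IsNilpotent ((M ⊓ K).subgroupOf K) := hKm.2 _ hne
  have hn2 : Group.IsNilpotent (M ⊓ K : Subgroup G) :=
    (Group.isNilpotent_congr (Subgroup.subgroupOfEquivOfLe (inf_le_right : M ⊓ K ≤ K))).mp hn1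
  have hn3 : Group.IsNilpotent Z := by
    have : IsPGroup p Z := IsPGroup.of_card (n := 1) (by rw [pow_one]; exact hZc)
    exact this.isNilpotent
  have comm : ∀ (z : Z) (k : (M ⊓ K : Subgroup G)),
      Commute (Z.subtype z) ((M ⊓ K).subtype k) := by
    intro z k
    exact Subgroup.commute_of_normal_of_disjoint Z K hZ hKn (disjoint_iff.mpr hdisj) z k z.2 k.2.2
  have hr : (MonoidHom.noncommCoprod Z.subtype (M ⊓ K).subtype comm).range = M := by
    rw [MonoidHom.noncommCoprod_range, Subgroup.range_subtype, Subgroup.range_subtype, ← hMeq]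
  haveI := hn2
  haveI := hn3
  have hn4 : Group.IsNilpotent (MonoidHom.noncommCoprod Z.subtype (M ⊓ K).subtype comm).range :=
    Group.nilpotent_of_surjective (MonoidHom.noncommCoprod Z.subtype (M ⊓ K).subtype comm).rangeRestrict
      (MonoidHom.rangeRestrict_surjective _)
  rw [hr] at hn4
  exact hn4

/-- Let G be a finite group and p a prime dividing its order. Every maximal subgroup of G of order divisible by p is nilpotent if and only if G is nilpotent, or G is a minimal non-nilpotent group, or G is the internal direct product of a normal subgroup of order p and a normal minimal non-nilpotent subgroup of order prime to p. -/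
theorem result {G : Type*} [Group G] [Finite G] (p : ℕ) (hp : p.Prime) (hpG : p ∣ Nat.card G) :
    (∀ M : Subgroup G, IsCoatom M → p ∣ Nat.card M → Group.IsNilpotent M) ↔
      (Group.IsNilpotent G ∨ Cfsg.IsMinimalNonNilpotent G ∨
        ∃ Z K : Subgroup G, Z.Normal ∧ K.Normal ∧ Z ⊓ K = ⊥ ∧ Z ⊔ K = ⊤ ∧ Nat.card Z = p ∧
          Cfsg.IsMinimalNonNilpotent K ∧ ¬ p ∣ Nat.card K) := by
  haveI : Fact p.Prime := ⟨hp⟩
  constructor
  · intro h
    by_cases hnil : Group.IsNilpotent G
    · exact Or.inl hnil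
    by_cases hall : ∀ M : Subgroup G, IsCoatom M → Group.IsNilpotent M
    · refine Or.inr (Or.inl ⟨hnil, ?_⟩)
      intro H hH
      obtain ⟨M, hM, hHM⟩ := exists_coatom_ge H hH
      exact nilp_of_le hHM (hall M hM)
    · push Not at hall
      obtain ⟨K, hK, hKn⟩ := hall
      have hpK : ¬ p ∣ Nat.card K := fun hd => hKn (h K hK hd)
      refine Or.inr (Or.inr ?_)
      by_cases hex : ∃ U : Subgroup G, U.Normal ∧ IsPGroup p U ∧ U ≠ ⊥
      · obtain ⟨U, hUn, hU, hU1⟩ := hex
        obtain ⟨x, hxo, hxc⟩ := central_of_normal_p p h K hK hKn hpK U hUn hU hU1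
        exact assemble p h K hK hKn hpK x hxo hxc
      · have hno : ∀ U : Subgroup G, U.Normal → IsPGroup p U → U = ⊥ := by
          intro U hUn hU
          by_contra hne
          exact hex ⟨U, hUn, hU, hne⟩
        obtain ⟨x, hxo, hxc⟩ := central_of_no_normal_p p hpG h K hK hKn hpK hno
        exact assemble p h K hK hKn hpK x hxo hxc
  · rintro (hnil | hmin | ⟨Z, K, hZ, hKn, hdisj, hsup, hZc, hKm, hpK⟩)
    · intro M _ _
      haveI := hnil
      infer_instance
    · intro M hM _
      exact hmin.2 M hM.1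
    · intro M hM hpM
      exact conv3 p Z K hZ hKn hdisj hsup hZc hKm hpK M hM hpM

end Cfsg.Agent.S4242
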