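import Mathlib
import Cfsg.Statements.S4244

set_option autoImplicit false
open Cfsg

namespace Cfsg.Agent.S4244

theorem relIndex_normal_dvd_index {Γ : Type*} [Group Γ] [Finite Γ] (M N : Subgroup Γ) [N.Normal] :
    M.relIndex N ∣ M.index := by
  have h1 : (M ⊓ N).relIndex N * N.index = (M ⊓ N).index := Subgroup.relIndex_mul_index inf_le_right
  have h2 : (M ⊓ N).relIndex M * M.index = (M ⊓ N).index := Subgroup.relIndex_mul_index inf_le_left
  rw [Subgroup.inf_relIndex_right] at h1
  rw [Subgroup.inf_relIndex_left] at h2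
  obtain ⟨t, ht⟩ := Subgroup.relIndex_dvd_index_of_normal (H := N) (K := M)
  have h0 : 0 < N.relIndex M := Nat.pos_of_ne_zero (Subgroup.index_ne_zero_of_finite (H := N.subgroupOf M))
  refine ⟨t, ?_⟩
  apply Nat.eq_of_mul_eq_mul_left h0
  rw [h2, ← h1, ht]
  ring

/-- Let H be a subnormal subgroup of a finite group G. Then for every subgroup K of G the index of H ∩ K in H divides the index of K in G. -/
theorem result {G : Type*} [Group G] [Finite G] (H : Subgroup G) (hH : H.IsSubnormal) (K : Subgroup G) :
    (H ⊓ K).relIndex H ∣ K.index := by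
  induction hH with
  | top => simp
  | step H L hle hsub hN ih =>
    rw [Subgroup.inf_relIndex_left] at ih ⊢
    refine dvd_trans ?_ ih
    rw [← Subgroup.relIndex_subgroupOf hle]
    exact relIndex_normal_dvd_index (K.subgroupOf L) (H.subgroupOf L)

end Cfsg.Agent.S4244
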