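import Mathlib
import Cfsg.Statements.S4253

set_option autoImplicit false
open scoped Pointwise
open Cfsg

namespace Cfsg.Agent.S4253

/-- Let H be a Frobenius complement in a finite group G (a nontrivial proper subgroup meeting each conjugate gHg⁻¹ with g outside H trivially). Then in the action of G on the left cosets of H by left multiplication, no non-identity element of G fixes two distinct cosets. -/
theorem result {G : Type*} [Group G] [Finite G] (H : Subgroup G) (hH : Cfsg.IsFrobeniusComplement H)
    (g : G) (hg : g ≠ 1) (a b : G ⧸ H) (ha : g • a = a) (hb : g • b = b) : a = b := by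
  induction a using QuotientGroup.induction_on with
  | H x =>
  induction b using QuotientGroup.induction_on with
  | H y =>
  rw [MulAction.Quotient.smul_mk, QuotientGroup.eq] at ha hb
  simp only [smul_eq_mul] at ha hb
  rw [QuotientGroup.eq]
  by_contra hxy
  have h1 := hH.2.2 (x⁻¹ * y) hxy
  have h2 : x⁻¹ * g⁻¹ * x ∈ H ⊓ (MulAut.conj (x⁻¹ * y) • H) := by
    refine Subgroup.mem_inf.2 ⟨?_, ?_⟩
    · have := inv_mem ha
      have e : ((g * x)⁻¹ * x)⁻¹ = x⁻¹ * g * x := by group
      rw [e] at this
      have := inv_mem this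
      have e2 : (x⁻¹ * g * x)⁻¹ = x⁻¹ * g⁻¹ * x := by group
      rwa [e2] at this
    · rw [Subgroup.mem_pointwise_smul_iff_inv_smul_mem]
      simp only [MulAut.smul_def, MulAut.inv_apply, MulAut.conj_symm_apply]
      have e : (x⁻¹ * y)⁻¹ * (x⁻¹ * g⁻¹ * x) * (x⁻¹ * y) = (g * y)⁻¹ * y := by group
      rw [e]
      exact hb
  rw [h1, Subgroup.mem_bot] at h2
  apply hg
  have : g⁻¹ = x * (x⁻¹ * g⁻¹ * x) * x⁻¹ := by group
  rw [h2] at this
  simpa using this

end Cfsg.Agent.S4253
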