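import Mathlib
import Cfsg.Statements.S4269
import Cfsg.Agent.Lib.Helper7.Basic

set_option autoImplicit false
open Cfsg

namespace Cfsg.Agent.S4269

open Cfsg.Agent.Lib.Helper7
open scoped commutatorElement

theorem mem_cj {G : Type*} [Group G] (g : G) (H : Subgroup G) (x : G) :
    x ∈ H.map (MulAut.conj g).toMonoidHom ↔ g⁻¹ * x * g ∈ H := by
  rw [map_conj_eq_smul, mem_conj_smul_iff]

theorem conj_mem_cj {G : Type*} [Group G] (g : G) (H : Subgroup G) (x : G) (hx : x ∈ H) :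
    g * x * g⁻¹ ∈ H.map (MulAut.conj g).toMonoidHom := by
  rw [mem_cj]
  have e : g⁻¹ * (g * x * g⁻¹) * g = x := by group
  rw [e]; exact hx

theorem cj_self {G : Type*} [Group G] (H : Subgroup G) (h : G) (hh : h ∈ H) :
    H.map (MulAut.conj h).toMonoidHom = H := by
  ext y
  rw [mem_cj]
  constructor
  · intro hy
    have e : y = h * (h⁻¹ * y * h) * h⁻¹ := by group
    rw [e]
    exact H.mul_mem (H.mul_mem hh hy) (H.inv_mem hh)
  · intro hy
    exact H.mul_mem (H.mul_mem (H.inv_mem hh) hy) hh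

theorem cj_mul_right {G : Type*} [Group G] (H : Subgroup G) (w h : G) (hh : h ∈ H) :
    H.map (MulAut.conj (w * h)).toMonoidHom = H.map (MulAut.conj w).toMonoidHom := by
  ext y
  rw [mem_cj, mem_cj]
  constructor
  · intro hy
    have e : w⁻¹ * y * w = h * ((w * h)⁻¹ * y * (w * h)) * h⁻¹ := by group
    rw [e]
    exact H.mul_mem (H.mul_mem hh hy) (H.inv_mem hh)
  · intro hy
    have e : (w * h)⁻¹ * y * (w * h) = h⁻¹ * (w⁻¹ * y * w) * h := by group
    rw [e]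
    exact H.mul_mem (H.mul_mem (H.inv_mem hh) hy) hh

theorem forward {G : Type*} [Group G] (H : Subgroup G) (hpro : Cfsg.IsPronormal H)
    (U : Subgroup G) (hU : ∀ h ∈ H, U.map (MulAut.conj h).toMonoidHom = U) :
    U = (U ⊓ Subgroup.normalizer (H : Set G)) ⊔ ⁅H, U⁆ := by
  have hconjU : ∀ h ∈ H, ∀ u ∈ U, h * u * h⁻¹ ∈ U := by
    intro h hh u hu
    have h1 := conj_mem_cj h U u hu
    rw [hU h hh] at h1
    exact h1
  have hWU : ⁅H, U⁆ ≤ U := by
    rw [Subgroup.commutator_le]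
    intro h hh u hu
    rw [commutatorElement_def]
    exact U.mul_mem (hconjU h hh u hu) (U.inv_mem hu)
  have hHW : H ≤ Subgroup.normalizer ((⁅H, U⁆ : Subgroup G) : Set G) := by
    intro h hh
    rw [mem_normalizer_iff_smul, ← map_conj_eq_smul, Subgroup.map_commutator, cj_self H h hh,
      hU h hh]
  apply le_antisymm
  · intro u hu
    obtain ⟨x, hx, hxeq⟩ := hpro u
    have hle : H ⊔ H.map (MulAut.conj u).toMonoidHom ≤ ⁅H, U⁆ ⊔ H := by
      apply sup_le le_sup_right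
      intro y hy
      rw [mem_cj] at hy
      have e : y = ⁅u⁻¹ * y * u, u⁆⁻¹ * (u⁻¹ * y * u) := by
        rw [commutatorElement_def]; group
      rw [e]
      exact Subgroup.mul_mem _
        (le_sup_left (a := ⁅H, U⁆) (Subgroup.inv_mem _ (Subgroup.commutator_mem_commutator hy hu)))
        (le_sup_right (b := H) hy)
    have hx' : x ∈ ((⁅H, U⁆ ⊔ H : Subgroup G) : Set G) := hle hx
    rw [Subgroup.coe_mul_of_right_le_normalizer_left _ _ hHW] at hx'
    obtain ⟨w, hw, h₀, hh₀, rfl⟩ := Set.mem_mul.mp hx'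
    rw [cj_mul_right H w h₀ hh₀] at hxeq
    have hnorm : w⁻¹ * u ∈ Subgroup.normalizer (H : Set G) := by
      rw [Subgroup.mem_normalizer_iff]
      intro y
      have e : w⁻¹ * u * y * (w⁻¹ * u)⁻¹ = w⁻¹ * (u * y * u⁻¹) * w := by group
      rw [e, ← mem_cj, ← hxeq, mem_cj]
      have e2 : u⁻¹ * (u * y * u⁻¹) * u = y := by group
      rw [e2]
    have e : u = w * (w⁻¹ * u) := by group
    rw [e]
    exact Subgroup.mul_mem _ (le_sup_right (a := U ⊓ Subgroup.normalizer (H : Set G)) hw)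
      (le_sup_left (b := ⁅H, U⁆) ⟨U.mul_mem (U.inv_mem (hWU hw)) hu, hnorm⟩)
  · exact sup_le inf_le_left hWU

theorem comm_mul {G : Type*} [Group G] (V : Subgroup G) [hVn : V.Normal]
    (hcomm : ∀ a ∈ V, ∀ b ∈ V, a * b = b * a) (h u₁ u₂ : G) (h₁ : u₁ ∈ V) (h₂ : u₂ ∈ V) :
    ⁅h, u₁ * u₂⁆ = ⁅h, u₁⁆ * ⁅h, u₂⁆ := by
  have hc : h * u₂ * h⁻¹ * u₂⁻¹ ∈ V := V.mul_mem (hVn.conj_mem u₂ h₂ h) (V.inv_mem h₂)
  have h3 := hcomm u₁⁻¹ (V.inv_mem h₁) _ hc
  rw [commutatorElement_def, commutatorElement_def, commutatorElement_def]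
  calc h * (u₁ * u₂) * h⁻¹ * (u₁ * u₂)⁻¹
      = h * u₁ * h⁻¹ * ((h * u₂ * h⁻¹ * u₂⁻¹) * u₁⁻¹) := by group
    _ = h * u₁ * h⁻¹ * (u₁⁻¹ * (h * u₂ * h⁻¹ * u₂⁻¹)) := by rw [h3]
    _ = h * u₁ * h⁻¹ * u₁⁻¹ * (h * u₂ * h⁻¹ * u₂⁻¹) := by group

theorem backward {G : Type*} [Group G] (V : Subgroup G) [hVn : V.Normal]
    (hV : IsMulCommutative ↥V) (H : Subgroup G) (hHV : H ⊔ V = ⊤)
    (hcond : ∀ U : Subgroup G, U ≤ V → (∀ h ∈ H, U.map (MulAut.conj h).toMonoidHom = U) →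
        U = (U ⊓ Subgroup.normalizer (H : Set G)) ⊔ ⁅H, U⁆) :
    Cfsg.IsPronormal H := by
  intro g
  have hg : g ∈ ((V ⊔ H : Subgroup G) : Set G) := by rw [sup_comm, hHV]; trivial
  rw [Subgroup.normal_mul] at hg
  obtain ⟨v, hv, h, hh, rfl⟩ := Set.mem_mul.mp hg
  rw [cj_mul_right H v h hh]
  have hcomm : ∀ a ∈ V, ∀ b ∈ V, a * b = b * a := by
    intro a ha b hb
    have h1 := hV.is_comm.comm ⟨a, ha⟩ ⟨b, hb⟩
    exact congrArg Subtype.val h1
  obtain ⟨U, hUdef⟩ : ∃ U : Subgroup G, U = Subgroup.closure {y | ∃ h ∈ H, y = h * v * h⁻¹} :=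
    ⟨_, rfl⟩
  have hUV : U ≤ V := by
    rw [hUdef, Subgroup.closure_le]
    rintro y ⟨h, hh, rfl⟩
    exact hVn.conj_mem v hv h
  have hUinv : ∀ h ∈ H, U.map (MulAut.conj h).toMonoidHom = U := by
    intro h hh
    rw [hUdef, MonoidHom.map_closure]
    congr 1
    ext y
    constructor
    · rintro ⟨z, ⟨h', hh', rfl⟩, rfl⟩
      refine ⟨h * h', H.mul_mem hh hh', ?_⟩
      show h * (h' * v * h'⁻¹) * h⁻¹ = h * h' * v * (h * h')⁻¹
      group
    · rintro ⟨h', hh', rfl⟩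
      refine ⟨(h⁻¹ * h') * v * (h⁻¹ * h')⁻¹, ⟨h⁻¹ * h', H.mul_mem (H.inv_mem hh) hh', rfl⟩, ?_⟩
      show h * ((h⁻¹ * h') * v * (h⁻¹ * h')⁻¹) * h⁻¹ = h' * v * h'⁻¹
      group
  have hvU : v ∈ U := by
    rw [hUdef]
    exact Subgroup.subset_closure ⟨1, H.one_mem, by simp⟩
  have hUeq := hcond U hUV hUinv
  have hWU : ⁅H, U⁆ ≤ U :=
    le_of_le_of_eq (le_sup_right (a := U ⊓ Subgroup.normalizer (H : Set G))) hUeq.symm
  have hcent : U ⊓ Subgroup.normalizer (H : Set G) ≤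
      Subgroup.normalizer ((⁅H, U⁆ : Subgroup G) : Set G) := by
    intro a ha
    rw [Subgroup.mem_normalizer_iff]
    intro b
    constructor
    · intro hb
      have h1 := hcomm a (hUV ha.1) b (hUV (hWU hb))
      have e : a * b * a⁻¹ = b := by rw [h1]; group
      rw [e]; exact hb
    · intro hb
      have h1 := hcomm a⁻¹ (V.inv_mem (hUV ha.1)) _ (hUV (hWU hb))
      have e : b = a⁻¹ * (a * b * a⁻¹) * a := by group
      rw [e, h1]
      have e2 : a * b * a⁻¹ * a⁻¹ * a = a * b * a⁻¹ := by group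
      rw [e2]; exact hb
  have hvU' : v ∈ (((U ⊓ Subgroup.normalizer (H : Set G)) ⊔ ⁅H, U⁆ : Subgroup G) : Set G) := by
    rw [← hUeq]; exact hvU
  rw [Subgroup.coe_mul_of_left_le_normalizer_right _ _ hcent] at hvU'
  obtain ⟨n, hn, w, hw, hvnw⟩ := Set.mem_mul.mp hvU'
  -- ⁅H, U⁆ ≤ H ⊔ cj v H
  have hT : ∀ h ∈ H, ∀ u ∈ U, ⁅h, u⁆ ∈ H ⊔ H.map (MulAut.conj v).toMonoidHom := by
    intro h hh u hu
    rw [hUdef] at hu
    induction hu using Subgroup.closure_induction with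
    | mem y hy =>
      obtain ⟨h', hh', rfl⟩ := hy
      have e : ⁅h, h' * v * h'⁻¹⁆ =
          h' * ((h'⁻¹ * h * h') * (v * (h'⁻¹ * h * h')⁻¹ * v⁻¹)) * h'⁻¹ := by
        rw [commutatorElement_def]; group
      rw [e]
      have ha : h'⁻¹ * h * h' ∈ H := H.mul_mem (H.mul_mem (H.inv_mem hh') hh) hh'
      refine Subgroup.mul_mem _ (Subgroup.mul_mem _ (le_sup_left (a := H) hh') ?_)
        (le_sup_left (a := H) (H.inv_mem hh'))
      exact Subgroup.mul_mem _ (le_sup_left (a := H) ha)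
        (le_sup_right (b := H.map (MulAut.conj v).toMonoidHom) (conj_mem_cj v H _ (H.inv_mem ha)))
    | one => simp
    | mul x y hx hy ihx ihy =>
      rw [← hUdef] at hx hy
      rw [comm_mul V hcomm h x y (hUV hx) (hUV hy)]
      exact Subgroup.mul_mem _ ihx ihy
    | inv x hx ih =>
      rw [← hUdef] at hx
      have h1 := comm_mul V hcomm h x x⁻¹ (hUV hx) (V.inv_mem (hUV hx))
      rw [mul_inv_cancel, commutatorElement_one_right] at h1
      have h2 : ⁅h, x⁻¹⁆ = ⁅h, x⁆⁻¹ := eq_inv_of_mul_eq_one_right h1.symm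
      rw [h2]
      exact Subgroup.inv_mem _ ih
  have hWT : ⁅H, U⁆ ≤ H ⊔ H.map (MulAut.conj v).toMonoidHom := by
    rw [Subgroup.commutator_le]
    exact hT
  refine ⟨w, hWT hw, ?_⟩
  -- cj v H = cj w H
  have hnw : n * w = w * n := hcomm n (hUV hn.1) w (hUV (hWU hw))
  rw [← hvnw, hnw]
  ext y
  rw [mem_cj, mem_cj]
  have hnN : n ∈ Subgroup.normalizer (H : Set G) := hn.2
  rw [Subgroup.mem_normalizer_iff] at hnN
  have e : w⁻¹ * y * w = n * ((w * n)⁻¹ * y * (w * n)) * n⁻¹ := by group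
  rw [e, ← hnN]

/-- Let G be a finite group, V an abelian normal subgroup and H a subgroup with HV = G. Then H is pronormal in G (H and gHg⁻¹ are conjugate inside the subgroup they generate, for every g) if and only if every H-invariant subgroup U of V satisfies U = N_U(H)·[H, U], that is, U is the join of U ∩ N_G(H) and the commutator subgroup [H, U]. -/
theorem result {G : Type*} [Group G] [Finite G]
    (V : Subgroup G) [V.Normal] (hV : IsMulCommutative ↥V) (H : Subgroup G) (hHV : H ⊔ V = ⊤) :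
    Cfsg.IsPronormal H ↔
      ∀ U : Subgroup G, U ≤ V → (∀ h ∈ H, U.map (MulAut.conj h).toMonoidHom = U) →
        U = (U ⊓ Subgroup.normalizer (H : Set G)) ⊔ ⁅H, U⁆ := by
  constructor
  · intro hpro U _ hU
    exact forward H hpro U hU
  · intro hcond
    exact backward V hV H hHV hcond

end Cfsg.Agent.S4269
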