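import Mathlib
import Cfsg.Statements.S4304
import Cfsg.Agent.Lib.Helper7.TwoPPlusOne

namespace Cfsg.Agent.S4304

open Cfsg.Agent.Lib.Helper7

/-- No finite group has exactly 15 Sylow 7-subgroups. -/
theorem result {G : Type*} [Group G] [Finite G] : Nat.card (Sylow 7 G) ≠ 15 := by
  intro h
  haveI : Fact (Nat.Prime 7) := ⟨by norm_num⟩
  have hnpp : ¬ IsPrimePow 15 := by
    rw [isPrimePow_iff_unique_prime_dvd]
    rintro ⟨q, -, huniq⟩
    have h5 := huniq 5 ⟨by norm_num, by norm_num⟩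
    have h3 := huniq 3 ⟨by norm_num, by norm_num⟩
    omega
  obtain ⟨T, iG, iF, hsimple, hT⟩ := NP2.exists_simple_of_card_sylow 7 15 h
    (by
      intro d hd h1 h2
      have hle : d ≤ 15 := Nat.le_of_dvd (by norm_num) hd
      interval_cases d <;> omega)
    hnpp (by norm_num)
  have hne1 : Nat.card (Sylow 7 T) ≠ 1 := by rw [hT]; norm_num
  obtain ⟨hnc, hdvd⟩ := NP2.nonabelian_of_card_ne_one (S := T) (p := 7) hne1
  let P : Sylow 7 T := default
  have hPcard : Nat.card (P : Subgroup T) = 7 :=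
    Cfsg.Agent.S4343.result hnc 7 hdvd (by rw [hT]; norm_num) P
  obtain ⟨e, hodd, hed, he1, hcard⟩ := NP2.card_eq hnc (by decide : Odd 7) (by rw [hT]) P hPcard
  have hle : e ≤ 6 := Nat.le_of_dvd (by norm_num) hed
  have h2 : e % 2 = 1 := Nat.odd_iff.mp hodd
  have he3 : e = 3 := by
    interval_cases e <;> omega
  rw [he3] at hcard
  exact NP2.no_simple_315 (S := T) (by rw [hcard])

end Cfsg.Agent.S4304
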