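import Mathlib
import Cfsg.Statements.S4331
import Cfsg.Agent.Lib.Lead.Fitting2
import Cfsg.Agent.Lib.Helper3.Cores
import Cfsg.Agent.Lib.Helper1.Subnormal2

set_option autoImplicit false
open Cfsg

namespace Cfsg.Agent.S4331



abbrev V := Multiplicative (ZMod 3 × ZMod 3)
abbrev C8 := Multiplicative (ZMod 8)
abbrev C2 := Multiplicative (ZMod 2)

/-- multiplication by `1 + i` on `F_9 = F_3[i]` -/
def α : MulAut V where
  toFun v := Multiplicative.ofAdd ((Multiplicative.toAdd v).1 - (Multiplicative.toAdd v).2,
    (Multiplicative.toAdd v).1 + (Multiplicative.toAdd v).2)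
  invFun v := Multiplicative.ofAdd (2 * (Multiplicative.toAdd v).1 - (Multiplicative.toAdd v).2,
    (Multiplicative.toAdd v).1 + 2 * (Multiplicative.toAdd v).2)
  left_inv := by decide
  right_inv := by decide
  map_mul' := by decide

/-- conjugation on `F_9 = F_3[i]` -/
def τ : MulAut V where
  toFun v := Multiplicative.ofAdd ((Multiplicative.toAdd v).1, - (Multiplicative.toAdd v).2)
  invFun v := Multiplicative.ofAdd ((Multiplicative.toAdd v).1, - (Multiplicative.toAdd v).2)
  left_inv := by decide
  right_inv := by decide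
  map_mul' := by decide

/-- cubing on the cyclic group of order 8 -/
def β : MulAut C8 where
  toFun x := x ^ 3
  invFun x := x ^ 3
  left_inv := by decide
  right_inv := by decide
  map_mul' := by decide

theorem β_sq : β * β = 1 := by
  apply MulEquiv.ext
  decide

/-- the action defining the semidihedral group of order 16 -/
def ψ : C2 →* MulAut C8 where
  toFun s := if s = 1 then 1 else β
  map_one' := if_pos rfl
  map_mul' := by
    intro s t
    have h2 : ∀ s t : C2, s ≠ 1 → t ≠ 1 → s * t = 1 := by decide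
    by_cases hs : s = 1 <;> by_cases ht : t = 1
    · simp [hs, ht]
    · simp [hs, ht]
    · simp [hs, ht]
    · rw [if_neg hs, if_neg ht, if_pos (h2 s t hs ht), β_sq]

abbrev H := C8 ⋊[ψ] C2

instance : Fintype H := Fintype.ofEquiv _ SemidirectProduct.equivProd.symm

/-- the semilinear action of the semidihedral group on `F_9` -/
def φfun (h : H) : MulAut V :=
  α ^ (Multiplicative.toAdd h.left).val * (if h.right = 1 then 1 else τ)

set_option maxRecDepth 100000 in
/-- the semilinear action of the semidihedral group on `F_9` -/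
def φ : H →* MulAut V where
  toFun := φfun
  map_one' := by
    apply MulEquiv.ext
    decide
  map_mul' := by
    intro h h'
    apply MulEquiv.ext
    intro v
    revert h h' v
    decide

abbrev G := V ⋊[φ] H

instance : Fintype G := Fintype.ofEquiv _ SemidirectProduct.equivProd.symm

/-- the reflection -/
def a : G := ⟨1, ⟨1, Multiplicative.ofAdd 1⟩⟩

/-- a vector moved by the reflection -/
def v₀ : G := ⟨Multiplicative.ofAdd (0, 1), 1⟩

set_option maxRecDepth 1000000 in
theorem key : ∀ c : G, ∃ t : G,
    ((t * c * t⁻¹) * a = a * (t * c * t⁻¹) ∨ (t * c * t⁻¹).left = 1) := by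
  decide +kernel

instance : Group.IsSolvable H :=
  solvable_of_ker_le_range (SemidirectProduct.inl : C8 →* H) SemidirectProduct.rightHom
    (le_of_eq SemidirectProduct.range_inl_eq_ker_rightHom.symm)

instance : Group.IsSolvable G :=
  solvable_of_ker_le_range (SemidirectProduct.inl : V →* G) SemidirectProduct.rightHom
    (le_of_eq SemidirectProduct.range_inl_eq_ker_rightHom.symm)

set_option maxRecDepth 100000 in
theorem H_pow : ∀ h : H, h ^ 16 = 1 := by decide

theorem a_sq : a ^ 2 = 1 := by decide

theorem a_ne : a ≠ 1 := by decide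

set_option maxRecDepth 100000 in
theorem w_cube : (a * v₀ * a⁻¹ * v₀⁻¹) ^ 3 = 1 := by decide

set_option maxRecDepth 100000 in
theorem w_ne : a * v₀ * a⁻¹ * v₀⁻¹ ≠ 1 := by decide

/-- There is a finite solvable group G with a subgroup A of order 2 such that every conjugacy class of G contains an element g for which A is subnormal in the subgroup generated by A and g, and yet A is not contained in O_2(G). (So the corresponding criteria for odd primes fail at the prime 2, even for solvable groups.) -/
theorem result :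
    ∃ (G : Type) (_ : Group G) (_ : Finite G) (A : Subgroup G), Group.IsSolvable G ∧ Nat.card A = 2 ∧
      (∀ c : G, ∃ g : G, IsConj c g ∧ (A.subgroupOf (A ⊔ Subgroup.zpowers g)).IsSubnormal) ∧
      ¬ A ≤ Cfsg.pCore 2 G := by
  haveI : Fact (Nat.Prime 2) := ⟨Nat.prime_two⟩
  refine ⟨G, inferInstance, inferInstance, Subgroup.zpowers a, inferInstance, ?_, ?_, ?_⟩
  · rw [Nat.card_zpowers]
    exact orderOf_eq_prime a_sq a_ne
  · intro c
    obtain ⟨t, ht⟩ := key c
    refine ⟨t * c * t⁻¹, isConj_iff.mpr ⟨t, rfl⟩, ?_⟩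
    rcases ht with hcomm | hleft
    · apply Subgroup.Normal.isSubnormal
      rw [Subgroup.normal_subgroupOf_iff_le_normalizer le_sup_left]
      refine sup_le Subgroup.le_normalizer ?_
      refine le_trans ?_ (Subgroup.centralizer_le_normalizer _)
      rw [Subgroup.zpowers_le, Subgroup.mem_centralizer_iff]
      intro s hs
      obtain ⟨j, rfl⟩ := Subgroup.mem_zpowers_iff.mp hs
      exact (Commute.zpow_left (show Commute a (t * c * t⁻¹) from hcomm.symm) j).eq
    · have hT : IsPGroup 2 (SemidirectProduct.inr : H →* G).range := by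
        rintro ⟨x, h, rfl⟩
        refine ⟨4, ?_⟩
        apply Subtype.ext
        show (SemidirectProduct.inr h : G) ^ 2 ^ 4 = 1
        rw [← map_pow]
        have : h ^ 2 ^ 4 = 1 := H_pow h
        rw [this, map_one]
      have hK : Subgroup.zpowers a ⊔ Subgroup.zpowers (t * c * t⁻¹) ≤
          (SemidirectProduct.inr : H →* G).range := by
        refine sup_le ?_ ?_
        · rw [Subgroup.zpowers_le]
          exact ⟨⟨1, Multiplicative.ofAdd 1⟩, rfl⟩
        · rw [Subgroup.zpowers_le]
          refine ⟨(t * c * t⁻¹).right, ?_⟩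
          apply SemidirectProduct.ext
          · rw [hleft]; rfl
          · rfl
      have hKp : IsPGroup 2 (Subgroup.zpowers a ⊔ Subgroup.zpowers (t * c * t⁻¹) : Subgroup G) :=
        hT.to_le hK
      haveI := hKp.isNilpotent
      exact Cfsg.Agent.Lib.Helper1.isSubnormal_of_isNilpotent' _
  · intro hle
    have ha : a ∈ Cfsg.pCore 2 G := hle (Subgroup.mem_zpowers a)
    haveI hn : (Cfsg.pCore 2 G).Normal := Cfsg.Agent.Lib.Helper3.pCore_normal 2 _
    have hw : a * v₀ * a⁻¹ * v₀⁻¹ ∈ Cfsg.pCore 2 G := by
      have e : a * v₀ * a⁻¹ * v₀⁻¹ = a * (v₀ * a⁻¹ * v₀⁻¹) := by group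
      rw [e]
      exact Subgroup.mul_mem _ ha (hn.conj_mem _ (Subgroup.inv_mem _ ha) _)
    obtain ⟨k, hk⟩ := (Cfsg.Agent.Lib.Lead.pCore_isPGroup' (G := G) 2) ⟨_, hw⟩
    have hk' : (a * v₀ * a⁻¹ * v₀⁻¹) ^ 2 ^ k = 1 := by
      have := congrArg Subtype.val hk
      simpa using this
    have hord : orderOf (a * v₀ * a⁻¹ * v₀⁻¹) ∣ Nat.gcd 3 (2 ^ k) :=
      Nat.dvd_gcd (orderOf_dvd_of_pow_eq_one w_cube) (orderOf_dvd_of_pow_eq_one hk')
    have hg : Nat.gcd 3 (2 ^ k) = 1 := Nat.Coprime.pow_right k (by decide)
    rw [hg] at hord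
    exact w_ne (orderOf_eq_one_iff.mp (Nat.dvd_one.mp hord))

end Cfsg.Agent.S4331
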