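import Mathlib
import Cfsg.Statements.S4332
import Cfsg.Agent.Lib.Lead.Fitting2
import Cfsg.Agent.Lib.Helper3.Cores

set_option autoImplicit false
open Cfsg

namespace Cfsg.Agent.S4332

open scoped Pointwise

theorem raw (c : Equiv.Perm (Fin 8)) :
    ∃ x1 x2 x3 : Fin 8, x1 ≠ x2 ∧ x1 ≠ x3 ∧ x2 ≠ x3 ∧
      ((c x1 = x1 ∧ c x2 = x2 ∧ c x3 = x3) ∨ (c x1 = x2 ∧ c x2 = x1 ∧ c x3 = x3) ∨
       (c x1 = x2 ∧ c x2 = x3 ∧ c x3 = x1) ∨
       (c x1 ≠ x1 ∧ c x1 ≠ x2 ∧ c x1 ≠ x3 ∧ c x2 ≠ x1 ∧ c x2 ≠ x2 ∧ c x2 ≠ x3 ∧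
        c x3 ≠ x1 ∧ c x3 ≠ x2 ∧ c x3 ≠ x3)) := by
  classical
  have hcard : (Finset.univ.filter (fun x => c x = x)).card +
      (Finset.univ.filter (fun x => ¬ c x = x)).card = 8 := by
    rw [Finset.card_filter_add_card_filter_not]; simp
  have hs : ∀ u v : Fin 8, u ≠ c.symm v → c u ≠ v := by
    intro u v h h'
    apply h
    rw [← h', Equiv.symm_apply_apply]
  have pick : ∀ S : Finset (Fin 8), S.card < (Finset.univ.filter (fun x => ¬ c x = x)).card →
      ∃ x, ¬ c x = x ∧ x ∉ S := by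
    intro S hS
    obtain ⟨e, he, heS⟩ := Finset.exists_mem_notMem_of_card_lt_card hS
    simp only [Finset.mem_filter, Finset.mem_univ, true_and] at he
    exact ⟨e, he, heS⟩
  by_cases h3 : 2 < (Finset.univ.filter (fun x => c x = x)).card
  · obtain ⟨a, b, d, ha, hb, hd, hab, had, hbd⟩ := Finset.two_lt_card_iff.mp h3
    simp only [Finset.mem_filter, Finset.mem_univ, true_and] at ha hb hd
    exact ⟨a, b, d, hab, had, hbd, Or.inl ⟨ha, hb, hd⟩⟩
  by_cases h0 : (Finset.univ.filter (fun x => c x = x)).card = 0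
  · have hM8 : (Finset.univ.filter (fun x => ¬ c x = x)).card = 8 := by omega
    obtain ⟨x1, hx1, -⟩ := pick ∅ (by rw [hM8]; simp)
    obtain ⟨x2, hx2, hx2S⟩ := pick {x1, c x1, c.symm x1}
      (lt_of_le_of_lt Finset.card_le_three (by omega))
    obtain ⟨x3, hx3, hx3S⟩ := pick {x1, c x1, c.symm x1, x2, c x2, c.symm x2}
      (lt_of_le_of_lt Finset.card_le_six (by omega))
    simp only [Finset.mem_insert, Finset.mem_singleton, not_or] at hx2S hx3S
    obtain ⟨a1, a2, a3⟩ := hx2S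
    obtain ⟨b1, b2, b3, b4, b5, b6⟩ := hx3S
    exact ⟨x1, x2, x3, Ne.symm a1, Ne.symm b1, Ne.symm b4, Or.inr (Or.inr (Or.inr
      ⟨hx1, Ne.symm a2, Ne.symm b2, hs _ _ a3, hx2, Ne.symm b5, hs _ _ b3, hs _ _ b6, hx3⟩))⟩
  · have hM6 : 6 ≤ (Finset.univ.filter (fun x => ¬ c x = x)).card := by omega
    obtain ⟨a, ha⟩ := Finset.card_pos.mp (Nat.pos_of_ne_zero h0)
    simp only [Finset.mem_filter, Finset.mem_univ, true_and] at ha
    obtain ⟨x, hx, -⟩ := pick ∅ (by rw [Finset.card_empty]; omega)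
    have hxa : x ≠ a := fun h => hx (by rw [h]; exact ha)
    by_cases hB1 : c (c x) = x
    · refine ⟨x, c x, a, Ne.symm hx, hxa, ?_, Or.inr (Or.inl ⟨rfl, hB1, ha⟩)⟩
      intro h
      apply hxa
      have : c (c x) = c a := by rw [h]
      rw [hB1, ha] at this
      exact this
    by_cases hB2 : c (c (c x)) = x
    · exact ⟨x, c x, c (c x), Ne.symm hx, Ne.symm hB1, fun h => hx (c.injective h.symm),
        Or.inr (Or.inr (Or.inl ⟨rfl, rfl, hB2⟩))⟩
    · obtain ⟨x3, hx3, hx3S⟩ := pick {x, c x, c.symm x, c (c x), c (c (c x))}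
        (lt_of_le_of_lt Finset.card_le_five (by omega))
      simp only [Finset.mem_insert, Finset.mem_singleton, not_or] at hx3S
      obtain ⟨b1, b2, b3, b4, b5⟩ := hx3S
      refine ⟨x, c (c x), x3, Ne.symm hB1, Ne.symm b1, Ne.symm b4, Or.inr (Or.inr (Or.inr
        ⟨hx, ?_, Ne.symm b2, hB2, ?_, Ne.symm b5, hs _ _ b3, ?_, hx3⟩))⟩
      · intro h; exact hx (c.injective h.symm)
      · intro h; exact hx (c.injective (c.injective h))
      · intro h; exact b2 (c.injective h)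

theorem pattern (c : Equiv.Perm (Fin 8)) (a b d : Fin 8) (hab : a ≠ b) (had : a ≠ d)
    (hbd : b ≠ d) :
    ∃ g : Equiv.Perm (Fin 8), IsConj c g ∧
      ((g a = a ∧ g b = b ∧ g d = d) ∨ (g a = b ∧ g b = a ∧ g d = d) ∨
       (g a = b ∧ g b = d ∧ g d = a) ∨
       (g a ≠ a ∧ g a ≠ b ∧ g a ≠ d ∧ g b ≠ a ∧ g b ≠ b ∧ g b ≠ d ∧
        g d ≠ a ∧ g d ≠ b ∧ g d ≠ d)) := by
  obtain ⟨x1, x2, x3, h12, h13, h23, hpat⟩ := raw c
  obtain ⟨τ, hτ⟩ := Equiv.Perm.exists_extending_pair (![x1, x2, x3] : Fin 3 → Fin 8) ![a, b, d]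
    (by intro i j hij; fin_cases i <;> fin_cases j <;> simp_all)
    (by intro i j hij; fin_cases i <;> fin_cases j <;> simp_all)
  have t1 : τ x1 = a := hτ 0
  have t2 : τ x2 = b := hτ 1
  have t3 : τ x3 = d := hτ 2
  refine ⟨τ * c * τ⁻¹, isConj_iff.mpr ⟨τ, rfl⟩, ?_⟩
  have e1 : (τ * c * τ⁻¹) a = τ (c x1) := by rw [← t1]; simp
  have e2 : (τ * c * τ⁻¹) b = τ (c x2) := by rw [← t2]; simp
  have e3 : (τ * c * τ⁻¹) d = τ (c x3) := by rw [← t3]; simp
  rw [e1, e2, e3]
  rcases hpat with ⟨p1, p2, p3⟩ | ⟨p1, p2, p3⟩ | ⟨p1, p2, p3⟩ |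
    ⟨q1, q2, q3, q4, q5, q6, q7, q8, q9⟩
  · left; rw [p1, p2, p3]; exact ⟨t1, t2, t3⟩
  · right; left; rw [p1, p2, p3]; exact ⟨t2, t1, t3⟩
  · right; right; left; rw [p1, p2, p3]; exact ⟨t2, t3, t1⟩
  · right; right; right
    rw [← t1, ← t2, ← t3]
    exact ⟨τ.injective.ne q1, τ.injective.ne q2, τ.injective.ne q3, τ.injective.ne q4,
      τ.injective.ne q5, τ.injective.ne q6, τ.injective.ne q7, τ.injective.ne q8,
      τ.injective.ne q9⟩

theorem three_cycle_form (σ : Equiv.Perm (Fin 8)) (hσ : σ.IsThreeCycle) :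
    ∃ a b d : Fin 8, a ≠ b ∧ a ≠ d ∧ b ≠ d ∧ σ a = b ∧ σ b = d ∧ σ d = a ∧
      ∀ y, y ≠ a → y ≠ b → y ≠ d → σ y = y := by
  classical
  obtain ⟨a, ha, -⟩ := hσ.isCycle
  have h3 : σ ^ 3 = 1 := by rw [← hσ.orderOf]; exact pow_orderOf_eq_one σ
  have h3a : σ (σ (σ a)) = a := by
    have := congrArg (fun f => f a) h3
    simpa [pow_succ] using this
  have hb : σ (σ a) ≠ σ a := fun h => ha (σ.injective h)
  have hd : σ (σ a) ≠ a := by
    intro h
    apply ha
    have := h3a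
    rw [h] at this
    exact this
  refine ⟨a, σ a, σ (σ a), Ne.symm ha, Ne.symm hd, Ne.symm hb, rfl, rfl, h3a, ?_⟩
  intro y hya hyb hyd
  have hsub : ({a, σ a, σ (σ a)} : Finset (Fin 8)) ⊆ σ.support := by
    intro z hz
    simp only [Finset.mem_insert, Finset.mem_singleton] at hz
    rw [Equiv.Perm.mem_support]
    rcases hz with rfl | rfl | rfl
    · exact ha
    · exact hb
    · rw [h3a]; exact Ne.symm hd
  have hcard : ({a, σ a, σ (σ a)} : Finset (Fin 8)).card = 3 := by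
    rw [Finset.card_eq_three]
    exact ⟨a, σ a, σ (σ a), Ne.symm ha, Ne.symm hd, Ne.symm hb, rfl⟩
  have heq := Finset.eq_of_subset_of_card_le hsub (by rw [hcard, hσ.card_support])
  by_contra hy
  have : y ∈ σ.support := Equiv.Perm.mem_support.mpr hy
  rw [← heq] at this
  simp only [Finset.mem_insert, Finset.mem_singleton] at this
  rcases this with h | h | h
  · exact hya h
  · exact hyb h
  · exact hyd h

theorem comm_of_patterns (σ g : Equiv.Perm (Fin 8)) (a b d : Fin 8)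
    (h1 : σ a = b) (h2 : σ b = d) (h3 : σ d = a)
    (hT : ∀ y, y ≠ a → y ≠ b → y ≠ d → σ y = y)
    (hg : (g a = a ∧ g b = b ∧ g d = d) ∨ (g a = b ∧ g b = a ∧ g d = d) ∨
      (g a = b ∧ g b = d ∧ g d = a) ∨
      (g a ≠ a ∧ g a ≠ b ∧ g a ≠ d ∧ g b ≠ a ∧ g b ≠ b ∧ g b ≠ d ∧
        g d ≠ a ∧ g d ≠ b ∧ g d ≠ d)) :
    (g * σ * g⁻¹) * σ = σ * (g * σ * g⁻¹) := by
  rcases hg with ⟨ga, gb, gd⟩ | ⟨ga, gb, gd⟩ | ⟨ga, gb, gd⟩ | h4
  · have key : g * σ = σ * g := by
      ext y
      simp only [Equiv.Perm.coe_mul, Function.comp_apply]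
      by_cases hya : y = a
      · rw [hya, h1, gb, ga, h1]
      by_cases hyb : y = b
      · rw [hyb, h2, gd, gb, h2]
      by_cases hyd : y = d
      · rw [hyd, h3, ga, gd, h3]
      rw [hT y hya hyb hyd, hT (g y)]
      · intro h; apply hya; apply g.injective; rw [h, ga]
      · intro h; apply hyb; apply g.injective; rw [h, gb]
      · intro h; apply hyd; apply g.injective; rw [h, gd]
    have : g * σ * g⁻¹ = σ := by rw [key, mul_inv_cancel_right]
    rw [this]
  · have key : σ * g * σ = g := by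
      ext y
      simp only [Equiv.Perm.coe_mul, Function.comp_apply]
      by_cases hya : y = a
      · rw [hya, h1, gb, h1, ga]
      by_cases hyb : y = b
      · rw [hyb, h2, gd, h3, gb]
      by_cases hyd : y = d
      · rw [hyd, h3, ga, h2, gd]
      rw [hT y hya hyb hyd, hT (g y)]
      · intro h; apply hyb; apply g.injective; rw [h, gb]
      · intro h; apply hya; apply g.injective; rw [h, ga]
      · intro h; apply hyd; apply g.injective; rw [h, gd]
    have : g * σ * g⁻¹ = σ⁻¹ := by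
      calc g * σ * g⁻¹ = σ⁻¹ * (σ * g * σ) * g⁻¹ := by group
        _ = σ⁻¹ := by rw [key, mul_inv_cancel_right]
    rw [this, inv_mul_cancel, mul_inv_cancel]
  · have key : g * σ = σ * g := by
      ext y
      simp only [Equiv.Perm.coe_mul, Function.comp_apply]
      by_cases hya : y = a
      · rw [hya, h1, gb, ga, h2]
      by_cases hyb : y = b
      · rw [hyb, h2, gd, gb, h3]
      by_cases hyd : y = d
      · rw [hyd, h3, ga, gd, h1]
      rw [hT y hya hyb hyd, hT (g y)]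
      · intro h; apply hyd; apply g.injective; rw [h, gd]
      · intro h; apply hya; apply g.injective; rw [h, ga]
      · intro h; apply hyb; apply g.injective; rw [h, gb]
    have : g * σ * g⁻¹ = σ := by rw [key, mul_inv_cancel_right]
    rw [this]
  · obtain ⟨q1, q2, q3, q4, q5, q6, q7, q8, q9⟩ := h4
    have hinv : ∀ y, (y = a ∨ y = b ∨ y = d) → σ (g⁻¹ y) = g⁻¹ y := by
      intro y hy
      have e : ∀ t, g⁻¹ y = t → y = g t := by
        intro t ht
        rw [← ht]; simp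
      apply hT
      · intro h
        have := e _ h
        rcases hy with rfl | rfl | rfl
        · exact q1 this.symm
        · exact q2 this.symm
        · exact q3 this.symm
      · intro h
        have := e _ h
        rcases hy with rfl | rfl | rfl
        · exact q4 this.symm
        · exact q5 this.symm
        · exact q6 this.symm
      · intro h
        have := e _ h
        rcases hy with rfl | rfl | rfl
        · exact q7 this.symm
        · exact q8 this.symm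
        · exact q9 this.symm
    have hd : Equiv.Perm.Disjoint (g * σ * g⁻¹) σ := by
      intro y
      by_cases hy : y = a ∨ y = b ∨ y = d
      · left
        simp only [Equiv.Perm.coe_mul, Function.comp_apply]
        rw [hinv y hy]
        simp
      · right
        push Not at hy
        exact hT y hy.1 hy.2.1 hy.2.2
    exact hd.commute.eq

theorem pcore_bot : Cfsg.pCore 3 (Equiv.Perm (Fin 8)) = ⊥ := by
  haveI : Fact (Nat.Prime 3) := ⟨by norm_num⟩
  have hN : IsPGroup 3 (Cfsg.pCore 3 (Equiv.Perm (Fin 8))) :=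
    Cfsg.Agent.Lib.Lead.pCore_isPGroup' 3
  haveI hn : (Cfsg.pCore 3 (Equiv.Perm (Fin 8))).Normal :=
    Cfsg.Agent.Lib.Helper3.pCore_normal 3 _
  have hpow : ∀ x ∈ Cfsg.pCore 3 (Equiv.Perm (Fin 8)), ∃ k : ℕ, x ^ 3 ^ k = 1 := by
    intro x hx
    obtain ⟨k, hk⟩ := hN ⟨x, hx⟩
    exact ⟨k, by simpa using congrArg Subtype.val hk⟩
  have hsign : ∀ x ∈ Cfsg.pCore 3 (Equiv.Perm (Fin 8)), x ∈ alternatingGroup (Fin 8) := by
    intro x hx
    obtain ⟨k, hk⟩ := hpow x hx
    rw [Equiv.Perm.mem_alternatingGroup]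
    rcases Int.units_eq_one_or (Equiv.Perm.sign x) with h | h
    · exact h
    · exfalso
      have := congrArg Equiv.Perm.sign hk
      rw [map_pow, h, map_one, Odd.neg_one_pow (Odd.pow (by decide : Odd 3))] at this
      exact absurd this (by decide)
  rcases alternatingGroup.normal_subgroup_eq_bot_or_eq_top (α := Fin 8) (by simp)
    (N := (Cfsg.pCore 3 (Equiv.Perm (Fin 8))).subgroupOf (alternatingGroup (Fin 8))) with h | h
  · rw [eq_bot_iff]
    intro x hx
    have : (⟨x, hsign x hx⟩ : alternatingGroup (Fin 8)) ∈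
        (Cfsg.pCore 3 (Equiv.Perm (Fin 8))).subgroupOf (alternatingGroup (Fin 8)) := hx
    rw [h, Subgroup.mem_bot] at this
    rw [Subgroup.mem_bot]
    exact congrArg Subtype.val this
  · exfalso
    rw [Subgroup.subgroupOf_eq_top] at h
    have hy : (Equiv.swap (0 : Fin 8) 1 * Equiv.swap 2 3) ∈ alternatingGroup (Fin 8) := by
      rw [Equiv.Perm.mem_alternatingGroup]
      simp [Equiv.Perm.sign_swap]
    obtain ⟨k, hk⟩ := hpow _ (h hy)
    have h2 : (Equiv.swap (0 : Fin 8) 1 * Equiv.swap 2 3) ^ 2 = 1 := by decide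
    have hord : orderOf (Equiv.swap (0 : Fin 8) 1 * Equiv.swap 2 3) ∣ Nat.gcd 2 (3 ^ k) :=
      Nat.dvd_gcd (orderOf_dvd_of_pow_eq_one h2) (orderOf_dvd_of_pow_eq_one hk)
    have hg : Nat.gcd 2 (3 ^ k) = 1 := Nat.Coprime.pow_right k (by decide)
    rw [hg] at hord
    have h1 := orderOf_eq_one_iff.mp (Nat.dvd_one.mp hord)
    have h0 := congrArg (fun f => f 0) h1
    revert h0
    decide

/-- In the symmetric group of degree 8, let A be the subgroup generated by a 3-cycle. Then every conjugacy class contains an element g for which A is subnormal in the subgroup generated by A and its conjugate by g, although O_3 of the symmetric group of degree 8 is trivial. -/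
theorem result
    (σ : Equiv.Perm (Fin 8)) (hσ : σ.IsThreeCycle) :
    (∀ c : Equiv.Perm (Fin 8), ∃ g : Equiv.Perm (Fin 8), IsConj c g ∧
      ((Subgroup.zpowers σ).subgroupOf (Subgroup.zpowers σ ⊔ MulAut.conj g • Subgroup.zpowers σ)).IsSubnormal) ∧
    Cfsg.pCore 3 (Equiv.Perm (Fin 8)) = ⊥ := by
  obtain ⟨a, b, d, hab, had, hbd, h1, h2, h3, hT⟩ := three_cycle_form σ hσ
  refine ⟨fun c => ?_, pcore_bot⟩
  obtain ⟨g, hcg, hg⟩ := pattern c a b d hab had hbd
  refine ⟨g, hcg, ?_⟩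
  have hcomm := comm_of_patterns σ g a b d h1 h2 h3 hT hg
  apply Subgroup.Normal.isSubnormal
  rw [Subgroup.normal_subgroupOf_iff_le_normalizer le_sup_left]
  refine sup_le Subgroup.le_normalizer ?_
  refine le_trans ?_ (Subgroup.centralizer_le_normalizer _)
  intro x hx
  rw [Subgroup.mem_pointwise_smul_iff_inv_smul_mem] at hx
  obtain ⟨k, hk⟩ := Subgroup.mem_zpowers_iff.mp hx
  have hx' : x = (g * σ * g⁻¹) ^ k := by
    rw [conj_zpow, hk]
    simp [MulAut.smul_def, MulAut.conj_inv_apply]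
    group
  rw [hx', Subgroup.mem_centralizer_iff]
  intro s hs
  obtain ⟨j, rfl⟩ := Subgroup.mem_zpowers_iff.mp hs
  exact (Commute.zpow_zpow (show Commute σ (g * σ * g⁻¹) from hcomm.symm) j k).eq

end Cfsg.Agent.S4332
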