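import Mathlib
import Cfsg.Statements.S4337

set_option autoImplicit false
open Cfsg
open scoped commutatorElement

namespace Cfsg.Agent.S4337

set_option maxRecDepth 100000 in
lemma comm_even_sq : ∀ σ τ : Equiv.Perm (Fin 4), Equiv.Perm.sign σ = 1 → Equiv.Perm.sign τ = 1 →
    (σ * τ * σ⁻¹ * τ⁻¹) * (σ * τ * σ⁻¹ * τ⁻¹) = 1 := by
  decide

set_option maxRecDepth 100000 in
lemma klein_comm : ∀ g h : Equiv.Perm (Fin 4), g * g = 1 → Equiv.Perm.sign g = 1 → h * h = 1 →
    Equiv.Perm.sign h = 1 → g * h = h * g := by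
  decide

lemma solvable_perm_four : Group.IsSolvable (Equiv.Perm (Fin 4)) := by
  refine ⟨⟨3, ?_⟩⟩
  have h1 : derivedSeries (Equiv.Perm (Fin 4)) 1 ≤
      (Equiv.Perm.sign : Equiv.Perm (Fin 4) →* ℤˣ).ker := by
    rw [derivedSeries_one]
    exact Abelianization.commutator_subset_ker _
  have hW : ∀ g ∈ ({g | g * g = 1 ∧ Equiv.Perm.sign g = 1} : Set (Equiv.Perm (Fin 4))),
      ∀ h ∈ ({g | g * g = 1 ∧ Equiv.Perm.sign g = 1} : Set (Equiv.Perm (Fin 4))), g * h = h * g :=
    fun g hg h hh => klein_comm g h hg.1 hg.2 hh.1 hh.2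
  have h2 : derivedSeries (Equiv.Perm (Fin 4)) 2 ≤
      Subgroup.closure ({g | g * g = 1 ∧ Equiv.Perm.sign g = 1} : Set (Equiv.Perm (Fin 4))) := by
    rw [derivedSeries_succ]
    refine (Subgroup.commutator_mono h1 h1).trans ?_
    rw [Subgroup.commutator_le]
    intro σ hσ τ hτ
    apply Subgroup.subset_closure
    rw [MonoidHom.mem_ker] at hσ hτ
    rw [commutatorElement_def]
    refine ⟨comm_even_sq σ τ hσ hτ, ?_⟩
    simp [hσ, hτ]
  have h3 : ⁅Subgroup.closure ({g | g * g = 1 ∧ Equiv.Perm.sign g = 1} : Set (Equiv.Perm (Fin 4))),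
      Subgroup.closure ({g | g * g = 1 ∧ Equiv.Perm.sign g = 1} : Set (Equiv.Perm (Fin 4)))⁆ = ⊥ := by
    rw [Subgroup.commutator_eq_bot_iff_le_centralizer]
    have hc1 : Subgroup.closure ({g | g * g = 1 ∧ Equiv.Perm.sign g = 1} : Set (Equiv.Perm (Fin 4))) ≤
        Subgroup.centralizer ({g | g * g = 1 ∧ Equiv.Perm.sign g = 1} : Set (Equiv.Perm (Fin 4))) := by
      rw [Subgroup.closure_le]
      intro g hg
      rw [SetLike.mem_coe, Subgroup.mem_centralizer_iff]
      intro h hh
      exact hW h hh g hg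
    intro x hx
    rw [Subgroup.mem_centralizer_iff]
    intro y hy
    have hx' := hc1 hx
    have hc2 : Subgroup.closure ({g | g * g = 1 ∧ Equiv.Perm.sign g = 1} : Set (Equiv.Perm (Fin 4))) ≤
        Subgroup.centralizer {x} := by
      rw [Subgroup.closure_le]
      intro g hg
      rw [SetLike.mem_coe, Subgroup.mem_centralizer_iff]
      intro h hh
      rw [Set.mem_singleton_iff] at hh
      subst hh
      exact ((Subgroup.mem_centralizer_iff.1 hx') g hg).symm
    have h4 := hc2 hy
    exact ((Subgroup.mem_centralizer_iff.1 h4) x rfl).symm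
  rw [derivedSeries_succ, eq_bot_iff, ← h3]
  exact Subgroup.commutator_mono h2 h2

lemma solvable_insert_central {G : Type*} [Group G] (S : Set G) (c : G)
    (hc : ∀ s ∈ S, s * c = c * s) (hS : Group.IsSolvable (Subgroup.closure S)) :
    Group.IsSolvable (Subgroup.closure (insert c S)) := by
  have hcomm : ∀ (d : Subgroup.closure S) (z : Subgroup.zpowers c),
      Commute ((Subgroup.closure S).subtype d) ((Subgroup.zpowers c).subtype z) := by
    intro d z
    have h1 : Subgroup.closure S ≤ Subgroup.centralizer {c} := by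
      rw [Subgroup.closure_le]
      intro s hs
      rw [SetLike.mem_coe, Subgroup.mem_centralizer_iff]
      intro h hh
      rw [Set.mem_singleton_iff] at hh
      subst hh
      exact (hc s hs).symm
    have h2 : Commute (d : G) c := by
      have h3 := Subgroup.mem_centralizer_iff.1 (h1 d.2) c rfl
      exact h3.symm
    obtain ⟨k, hk⟩ := Subgroup.mem_zpowers_iff.1 z.2
    show Commute (d : G) (z : G)
    rw [← hk]
    exact h2.zpow_right k
  have hle : Subgroup.closure (insert c S) ≤
      (MonoidHom.noncommCoprod (Subgroup.closure S).subtype (Subgroup.zpowers c).subtype hcomm).range := by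
    rw [Subgroup.closure_le]
    intro g hg
    rcases hg with rfl | hg
    · exact ⟨(1, ⟨g, Subgroup.mem_zpowers g⟩), by simp⟩
    · exact ⟨(⟨g, Subgroup.subset_closure hg⟩, 1), by simp⟩
  haveI : Group.IsSolvable (Subgroup.zpowers c) := by
    apply Group.isSolvable_of_comm
    intro a b
    obtain ⟨i, hi⟩ := Subgroup.mem_zpowers_iff.1 a.2
    obtain ⟨j, hj⟩ := Subgroup.mem_zpowers_iff.1 b.2
    apply Subtype.ext
    show (a : G) * (b : G) = (b : G) * (a : G)
    rw [← hi, ← hj, ← zpow_add, ← zpow_add, add_comm]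
  haveI := hS
  haveI : Group.IsSolvable (MonoidHom.noncommCoprod (Subgroup.closure S).subtype
      (Subgroup.zpowers c).subtype hcomm).range :=
    Group.isSolvable_of_surjective (MonoidHom.rangeRestrict_surjective _)
  exact Group.isSolvable_of_isSolvable_injective (Subgroup.inclusion_injective hle)

lemma solvable_of_small_support {n : ℕ} (S : Set (Equiv.Perm (Fin n))) (T : Finset (Fin n))
    (hT : T.card ≤ 4) (hS : ∀ s ∈ S, ∀ x, x ∉ T → s x = x) :
    Group.IsSolvable (Subgroup.closure S) := by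
  classical
  have hle : Subgroup.closure S ≤
      (Equiv.Perm.ofSubtype : Equiv.Perm {x // x ∈ T} →* Equiv.Perm (Fin n)).range := by
    rw [Subgroup.closure_le]
    intro s hs
    have h2 : ∀ x, s x ≠ x → x ∈ T := fun x hx => by
      by_contra h
      exact hx (hS s hs x h)
    have h1 : ∀ x, s x ∈ T ↔ x ∈ T := by
      intro x
      constructor
      · intro h
        by_contra hx
        rw [hS s hs x hx] at h
        exact hx h
      · intro h
        by_contra hx
        have h3 : s (s x) = s x := hS s hs (s x) hx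
        have h4 : s x = x := s.injective h3
        rw [h4] at hx
        exact hx h
    exact ⟨Equiv.Perm.subtypePerm s h1, Equiv.Perm.ofSubtype_subtypePerm h1 h2⟩
  obtain ⟨ι⟩ : Nonempty ({x // x ∈ T} ↪ Fin 4) :=
    Function.Embedding.nonempty_of_card_le (by simpa using hT)
  haveI : Group.IsSolvable (Equiv.Perm (Fin 4)) := solvable_perm_four
  haveI : Group.IsSolvable (Equiv.Perm {x // x ∈ T}) :=
    Group.isSolvable_of_isSolvable_injective (Equiv.Perm.viaEmbeddingHom_injective ι)
  haveI : Group.IsSolvable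
      (Equiv.Perm.ofSubtype : Equiv.Perm {x // x ∈ T} →* Equiv.Perm (Fin n)).range :=
    Group.isSolvable_of_surjective (MonoidHom.rangeRestrict_surjective _)
  exact Group.isSolvable_of_isSolvable_injective (Subgroup.inclusion_injective hle)

lemma card_union_three {α : Type*} [DecidableEq α] (A B C : Finset α) (hA2 : A.card ≤ 2)
    (hB2 : B.card ≤ 2) (hC2 : C.card ≤ 2) (hC : ¬ Disjoint C (A ∪ B)) (hA : ¬ Disjoint A (B ∪ C))
    (hB : ¬ Disjoint B (A ∪ C)) : ((A ∪ B) ∪ C).card ≤ 4 := by
  have e1 := Finset.card_union_add_card_inter A B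
  have e2 := Finset.card_union_add_card_inter (A ∪ B) C
  by_cases hAB : Disjoint A B
  · rw [Finset.not_disjoint_iff] at hA hB
    obtain ⟨x, hxA, hxBC⟩ := hA
    obtain ⟨y, hyB, hyAC⟩ := hB
    have hxC : x ∈ C := by
      rcases Finset.mem_union.1 hxBC with h | h
      · exact absurd h (Finset.disjoint_left.1 hAB hxA)
      · exact h
    have hyC : y ∈ C := by
      rcases Finset.mem_union.1 hyAC with h | h
      · exact absurd hyB (Finset.disjoint_left.1 hAB h)
      · exact h
    have hxy : x ≠ y := by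
      rintro rfl
      exact Finset.disjoint_left.1 hAB hxA hyB
    have hsub : ({x, y} : Finset α) ⊆ (A ∪ B) ∩ C := by
      intro z hz
      rw [Finset.mem_insert, Finset.mem_singleton] at hz
      rcases hz with rfl | rfl
      · exact Finset.mem_inter.2 ⟨Finset.mem_union_left _ hxA, hxC⟩
      · exact Finset.mem_inter.2 ⟨Finset.mem_union_right _ hyB, hyC⟩
    have h2 : 2 ≤ ((A ∪ B) ∩ C).card := by
      rw [← Finset.card_pair hxy]
      exact Finset.card_le_card hsub
    have h3 : (A ∪ B).card ≤ 4 := by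
      have := Finset.card_union_le A B
      omega
    omega
  · rw [Finset.not_disjoint_iff] at hAB hC
    obtain ⟨x, hxA, hxB⟩ := hAB
    obtain ⟨z, hzC, hzAB⟩ := hC
    have h1 : 1 ≤ (A ∩ B).card := Finset.card_pos.2 ⟨x, Finset.mem_inter.2 ⟨hxA, hxB⟩⟩
    have h2 : 1 ≤ ((A ∪ B) ∩ C).card := Finset.card_pos.2 ⟨z, Finset.mem_inter.2 ⟨hzAB, hzC⟩⟩
    omega

/-- In a finite symmetric group, any three transpositions generate a solvable subgroup. -/
theorem result (n : ℕ) (a b c : Equiv.Perm (Fin n))
    (ha : a.IsSwap) (hb : b.IsSwap) (hc : c.IsSwap) :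
    Group.IsSolvable (Subgroup.closure ({a, b, c} : Set (Equiv.Perm (Fin n)))) := by
  classical
  obtain ⟨a1, a2, ha12, rfl⟩ := ha
  obtain ⟨b1, b2, hb12, rfl⟩ := hb
  obtain ⟨c1, c2, hc12, rfl⟩ := hc
  have pair : ∀ (x1 x2 y1 y2 : Fin n), Group.IsSolvable (Subgroup.closure
      ({Equiv.swap x1 x2, Equiv.swap y1 y2} : Set (Equiv.Perm (Fin n)))) := by
    intro x1 x2 y1 y2
    apply solvable_of_small_support _ ({x1, x2, y1, y2} : Finset (Fin n)) Finset.card_le_four
    intro s hs x hx
    simp only [Finset.mem_insert, Finset.mem_singleton, not_or] at hx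
    rcases hs with rfl | rfl
    · exact Equiv.swap_apply_of_ne_of_ne hx.1 hx.2.1
    · exact Equiv.swap_apply_of_ne_of_ne hx.2.2.1 hx.2.2.2
  have comm : ∀ (x1 x2 y1 y2 : Fin n), x1 ≠ x2 → y1 ≠ y2 →
      Disjoint ({x1, x2} : Finset (Fin n)) {y1, y2} →
      Equiv.swap x1 x2 * Equiv.swap y1 y2 = Equiv.swap y1 y2 * Equiv.swap x1 x2 := by
    intro x1 x2 y1 y2 hx hy hd
    have hdis : Equiv.Perm.Disjoint (Equiv.swap x1 x2) (Equiv.swap y1 y2) := by
      rw [Equiv.Perm.disjoint_iff_disjoint_support, Equiv.Perm.support_swap hx,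
        Equiv.Perm.support_swap hy]
      exact hd
    exact hdis.commute.eq
  by_cases hC : Disjoint ({c1, c2} : Finset (Fin n)) ({a1, a2} ∪ {b1, b2})
  · have hset : ({Equiv.swap a1 a2, Equiv.swap b1 b2, Equiv.swap c1 c2} : Set (Equiv.Perm (Fin n))) =
        insert (Equiv.swap c1 c2) {Equiv.swap a1 a2, Equiv.swap b1 b2} := by
      ext z
      simp only [Set.mem_insert_iff, Set.mem_singleton_iff]
      tauto
    rw [hset]
    apply solvable_insert_central _ _ _ (pair a1 a2 b1 b2)
    intro s hs
    rcases hs with rfl | rfl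
    · exact (comm c1 c2 a1 a2 hc12 ha12
        (Finset.disjoint_of_subset_right Finset.subset_union_left hC)).symm
    · exact (comm c1 c2 b1 b2 hc12 hb12
        (Finset.disjoint_of_subset_right Finset.subset_union_right hC)).symm
  by_cases hA : Disjoint ({a1, a2} : Finset (Fin n)) ({b1, b2} ∪ {c1, c2})
  · apply solvable_insert_central _ _ _ (pair b1 b2 c1 c2)
    intro s hs
    rcases hs with rfl | rfl
    · exact (comm a1 a2 b1 b2 ha12 hb12
        (Finset.disjoint_of_subset_right Finset.subset_union_left hA)).symm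
    · exact (comm a1 a2 c1 c2 ha12 hc12
        (Finset.disjoint_of_subset_right Finset.subset_union_right hA)).symm
  by_cases hB : Disjoint ({b1, b2} : Finset (Fin n)) ({a1, a2} ∪ {c1, c2})
  · have hset : ({Equiv.swap a1 a2, Equiv.swap b1 b2, Equiv.swap c1 c2} : Set (Equiv.Perm (Fin n))) =
        insert (Equiv.swap b1 b2) {Equiv.swap a1 a2, Equiv.swap c1 c2} := by
      ext z
      simp only [Set.mem_insert_iff, Set.mem_singleton_iff]
      tauto
    rw [hset]
    apply solvable_insert_central _ _ _ (pair a1 a2 c1 c2)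
    intro s hs
    rcases hs with rfl | rfl
    · exact (comm b1 b2 a1 a2 hb12 ha12
        (Finset.disjoint_of_subset_right Finset.subset_union_left hB)).symm
    · exact (comm b1 b2 c1 c2 hb12 hc12
        (Finset.disjoint_of_subset_right Finset.subset_union_right hB)).symm
  apply solvable_of_small_support _ ((({a1, a2} : Finset (Fin n)) ∪ {b1, b2}) ∪ {c1, c2})
  · exact card_union_three _ _ _ Finset.card_le_two Finset.card_le_two Finset.card_le_two hC hA hB
  · intro s hs x hx
    simp only [Finset.mem_union, Finset.mem_insert, Finset.mem_singleton, not_or] at hx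
    rcases hs with rfl | rfl | rfl
    · exact Equiv.swap_apply_of_ne_of_ne hx.1.1.1 hx.1.1.2
    · exact Equiv.swap_apply_of_ne_of_ne hx.1.2.1 hx.1.2.2
    · exact Equiv.swap_apply_of_ne_of_ne hx.2.1 hx.2.2

end Cfsg.Agent.S4337
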