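import Mathlib
import Cfsg.Statements.S4342

set_option autoImplicit false
open Cfsg

namespace Cfsg.Agent.S4342

lemma card_sylow_quot_center {K : Type*} [Group K] [Finite K] (p : ℕ) [Fact p.Prime] :
    Nat.card (Sylow p (K ⧸ Subgroup.center K)) = Nat.card (Sylow p K) := by
  symm
  have hsurj : Function.Surjective (QuotientGroup.mk' (Subgroup.center K)) :=
    QuotientGroup.mk'_surjective _
  apply Nat.card_congr
  refine Equiv.ofBijective (Sylow.mapSurjective hsurj) ⟨?_, Sylow.mapSurjective_surjective hsurj p⟩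
  intro P Q hPQ
  have h1 : (P : Subgroup K).map (QuotientGroup.mk' (Subgroup.center K)) =
      (Q : Subgroup K).map (QuotientGroup.mk' (Subgroup.center K)) := by
    have := congrArg (fun S : Sylow p (K ⧸ Subgroup.center K) => (S : Subgroup (K ⧸ Subgroup.center K))) hPQ
    simpa using this
  have h2 : (P : Subgroup K) ⊔ Subgroup.center K = (Q : Subgroup K) ⊔ Subgroup.center K := by
    have := congrArg (Subgroup.comap (QuotientGroup.mk' (Subgroup.center K))) h1
    simpa [Subgroup.comap_map_eq] using this
  have h3 : (Q : Subgroup K) ≤ Subgroup.normalizer (P : Set K) := by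
    calc (Q : Subgroup K) ≤ (Q : Subgroup K) ⊔ Subgroup.center K := le_sup_left
      _ = (P : Subgroup K) ⊔ Subgroup.center K := h2.symm
      _ ≤ Subgroup.normalizer (P : Set K) :=
        sup_le Subgroup.le_normalizer (Subgroup.center_le_normalizer _)
  have h4 : (Q : Subgroup K) ≤ P := by
    rw [← Q.isPGroup'.sylow_mem_fixedPoints_iff, Subgroup.sylow_mem_fixedPoints_iff]
    exact h3
  exact Sylow.ext (Q.is_maximal' P.isPGroup' h4)

lemma sylow_le_of_not_dvd_index {G : Type*} [Group G] [Finite G]
    (p : ℕ) [Fact p.Prime] (H : Subgroup G) [H.Normal] (hp : ¬ p ∣ H.index) (P : Sylow p G) :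
    (P : Subgroup G) ≤ H := by
  have hpg : IsPGroup p ((P : Subgroup G).map (QuotientGroup.mk' H)) := P.isPGroup'.map _
  obtain ⟨n, hn⟩ := IsPGroup.iff_card.1 hpg
  have hdvd : Nat.card ((P : Subgroup G).map (QuotientGroup.mk' H)) ∣ H.index := by
    rw [Subgroup.index_eq_card]
    exact Subgroup.card_subgroup_dvd_card _
  have hn0 : n = 0 := by
    by_contra h0
    apply hp
    rw [hn] at hdvd
    exact (dvd_pow_self p h0).trans hdvd
  rw [hn0, pow_zero] at hn
  have hbot := Subgroup.eq_bot_of_card_eq _ hn
  rw [Subgroup.map_eq_bot_iff, QuotientGroup.ker_mk'] at hbot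
  exact hbot

lemma card_sylow_of_not_dvd_index {G : Type*} [Group G] [Finite G]
    (p : ℕ) [Fact p.Prime] (H : Subgroup G) [H.Normal] (hp : ¬ p ∣ H.index) :
    Nat.card (Sylow p G) = Nat.card (Sylow p H) := by
  apply Nat.card_congr
  refine Equiv.ofBijective (fun P => P.subtype (sylow_le_of_not_dvd_index p H hp P)) ⟨?_, ?_⟩
  · intro P Q hPQ
    have h1 : (P : Subgroup G).subgroupOf H = (Q : Subgroup G).subgroupOf H := by
      have := congrArg (fun S : Sylow p H => (S : Subgroup H)) hPQ
      simpa using this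
    rw [Subgroup.subgroupOf_inj] at h1
    rw [inf_eq_left.2 (sylow_le_of_not_dvd_index p H hp P),
      inf_eq_left.2 (sylow_le_of_not_dvd_index p H hp Q)] at h1
    exact Sylow.ext h1
  · intro Q
    obtain ⟨P, hP⟩ := (Q.isPGroup'.map H.subtype).exists_le_sylow
    refine ⟨P, ?_⟩
    apply Sylow.ext
    apply Q.is_maximal' (Sylow.isPGroup' _)
    intro x hx
    show x ∈ (P : Subgroup G).subgroupOf H
    rw [Subgroup.mem_subgroupOf]
    exact hP (Subgroup.mem_map_of_mem _ hx)

/-- Let H be a normal subgroup of a finite group G and p a prime not dividing the index of H. Then the number of Sylow p-subgroups of H/Z(H) equals the number of Sylow p-subgroups of G. -/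
theorem result {G : Type*} [Group G] [Finite G]
    (p : ℕ) [Fact p.Prime] (H : Subgroup G) [H.Normal] (hp : ¬ p ∣ H.index) :
    Nat.card (Sylow p (H ⧸ Subgroup.center H)) = Nat.card (Sylow p G) := by
  rw [card_sylow_quot_center, card_sylow_of_not_dvd_index p H hp]

end Cfsg.Agent.S4342
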