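import Mathlib
import Cfsg.Statements.S4344
import Cfsg.Agent.Lib.Helper7.Basic

set_option autoImplicit false
open scoped Pointwise
open Cfsg Cfsg.Agent.Lib.Helper7

namespace Cfsg.Agent.S4344

/-- Let S be a finite non-abelian simple group, M a maximal subgroup of S and C a cyclic normal subgroup of M. If a Sylow p-subgroup P of S (for a prime p dividing the order of S) is contained in C, then the number of Sylow p-subgroups of S equals the index of M. -/
theorem result {S : Type*} [Group S] [Finite S]
    [IsSimpleGroup S] (hS : ¬ IsMulCommutative S) (p : ℕ) [Fact p.Prime] (hp : p ∣ Nat.card S)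
    (M : Subgroup S) (hM : IsCoatom M) (C : Subgroup S) (hCM : C ≤ M) (hCn : (C.subgroupOf M).Normal)
    (hC : IsCyclic C) (P : Sylow p S) (hP : (P : Subgroup S) ≤ C) :
    Nat.card (Sylow p S) = M.index := by
  rw [Sylow.card_eq_index_normalizer P]
  have hMN : M ≤ Subgroup.normalizer ((P : Subgroup S) : Set S) := by
    intro m hm
    rw [mem_normalizer_iff_smul]
    have hmC : m ∈ Subgroup.normalizer (C : Set S) :=
      (Subgroup.normal_subgroupOf_iff_le_normalizer hCM).1 hCn hm
    rw [mem_normalizer_iff_smul] at hmC
    apply eq_of_card_eq_of_le_cyclic C _ _ hC _ hP (card_conj_smul _ _)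
    rw [← hmC]
    exact Subgroup.pointwise_smul_le_pointwise_smul_iff.2 hP
  rcases hM.le_iff.1 hMN with h | h
  · exfalso
    have hPn : (P : Subgroup S).Normal := Subgroup.normalizer_eq_top_iff.1 h
    rcases hPn.eq_bot_or_eq_top with h0 | h1
    · exact P.ne_bot_of_dvd_card hp h0
    · apply hS
      have hpg : IsPGroup p S := by
        have := P.isPGroup'
        rw [h1] at this
        exact IsPGroup.of_equiv this Subgroup.topEquiv
      have hZ : Nontrivial (Subgroup.center S) := hpg.center_nontrivial
      have hZ' : Subgroup.center S = ⊤ := by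
        rcases (inferInstance : (Subgroup.center S).Normal).eq_bot_or_eq_top with h0 | h1
        · exfalso
          rw [Subgroup.nontrivial_iff_ne_bot] at hZ
          exact hZ h0
        · exact h1
      apply IsMulCommutative.of_comm
      intro a b
      have : b ∈ Subgroup.center S := by rw [hZ']; trivial
      exact (Subgroup.mem_center_iff.1 this a)
  · exact congrArg Subgroup.index h

end Cfsg.Agent.S4344
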