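import Mathlib
import Cfsg.Statements.S4345
import Cfsg.Agent.Lib.Helper7.SylowCount
import Cfsg.Agent.Lib.Lead.Hall

namespace Cfsg.Agent.S4345

open Cfsg.Agent.Lib

universe u

theorem aux (p : ℕ) [Fact p.Prime] : ∀ n : ℕ, ∀ (G : Type u) [Group G] [Finite G],
    Group.IsSolvable G → Nat.card G = n → ∀ ℓ : ℕ, ℓ.Prime →
    ℓ ^ (Nat.card (Sylow p G)).factorization ℓ ≡ 1 [MOD p] := by
  intro n
  induction n using Nat.strong_induction_on with
  | _ n ih =>
    intro G _ _ hs hn ℓ hℓ
    by_cases htriv : Nontrivial G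
    · obtain ⟨q, hq, K, hKn, hKne, hKq⟩ := Lead.exists_normal_pgroup_of_solvable G
      let P : Sylow p G := default
      have hmul := Helper7.card_sylow_eq_mul p K P
      have hdvd := Helper7.card_sylow_sup_dvd p K P
      have hmod : Nat.card (Sylow p ↥((P : Subgroup G) ⊔ K)) ≡ 1 [MOD p] :=
        card_sylow_modEq_one p _
      have hlt : Nat.card (G ⧸ K) < n := by
        rw [← hn, ← Subgroup.index_eq_card]
        exact Helper7.index_lt_card_of_ne_bot K hKne
      have hih := ih _ hlt (G ⧸ K) inferInstance rfl ℓ hℓ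
      haveI : Fact q.Prime := ⟨hq⟩
      obtain ⟨k, hk⟩ := (IsPGroup.iff_card.mp hKq)
      rw [hk] at hdvd
      obtain ⟨j, -, hj⟩ := (Nat.dvd_prime_pow hq).mp hdvd
      rw [hmul, hj]
      have ha0 : Nat.card (Sylow p (G ⧸ K)) ≠ 0 := Nat.card_pos.ne'
      have hc0 : q ^ j ≠ 0 := pow_ne_zero _ hq.ne_zero
      rw [Nat.factorization_mul ha0 hc0, Finsupp.add_apply, pow_add]
      have h2 : ℓ ^ (q ^ j).factorization ℓ ≡ 1 [MOD p] := by
        by_cases hlq : ℓ = q
        · subst hlq
          rw [Nat.Prime.factorization_pow hℓ, Finsupp.single_eq_same, ← hj]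
          exact hmod
        · have : ¬ ℓ ∣ q ^ j := by
            intro hd
            have := (Nat.prime_dvd_prime_iff_eq hℓ hq).mp (hℓ.dvd_of_dvd_pow hd)
            exact hlq this
          rw [Nat.factorization_eq_zero_of_not_dvd this, pow_zero]
      have := Nat.ModEq.mul hih h2
      simpa using this
    · rw [not_nontrivial_iff_subsingleton] at htriv
      have : Nat.card (Sylow p G) = 1 := by
        have h2 : Nat.card (Sylow p G) ∣ Nat.card G := by
          rw [Sylow.card_eq_index_normalizer (default : Sylow p G)]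
          exact Subgroup.index_dvd_card _
        rw [Nat.card_of_subsingleton (1 : G)] at h2
        exact Nat.dvd_one.mp h2
      rw [this]
      simp [Nat.ModEq]

/-- Let G be a finite solvable group and p, ℓ primes. Then the largest power of ℓ dividing the number of Sylow p-subgroups of G is congruent to 1 modulo p. -/
theorem result {G : Type*} [Group G] [Finite G]
    (hG : Group.IsSolvable G) (p ℓ : ℕ) [Fact p.Prime] (hℓ : ℓ.Prime) :
    ℓ ^ (Nat.card (Sylow p G)).factorization ℓ ≡ 1 [MOD p] := by
  exact aux p (Nat.card G) G hG rfl ℓ hℓ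

end Cfsg.Agent.S4345
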