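import Mathlib
import Cfsg.Statements.S4365

namespace Cfsg.Agent.S4365

/-- Let P be a finite p-group whose conjugacy class sizes are exactly 1 and pᵃ for some a ≥ 1. Then every element of P has its p-th power in the center of P (P/Z(P) has exponent p). -/
theorem result {P : Type*} [Group P] [Finite P] (p : ℕ) [Fact p.Prime]
    (hP : IsPGroup p P) (a : ℕ) (ha : 1 ≤ a)
    (hcs : {k : ℕ | ∃ x : P, (Subgroup.centralizer ({x} : Set P)).index = k} = {1, p ^ a}) (x : P) :
    x ^ p ∈ Subgroup.center P := by
  classical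
  have hpp : p.Prime := Fact.out
  by_contra hxp
  set Z := Subgroup.center P with hZ
  have hpa1 : 1 < p ^ a := Nat.one_lt_pow (by omega) hpp.one_lt
  -- indices
  have hidx : ∀ u : P, u ∉ Z → (Subgroup.centralizer ({u} : Set P)).index = p ^ a := by
    intro u hu
    have h1 : (Subgroup.centralizer ({u} : Set P)).index ∈
        {k : ℕ | ∃ x : P, (Subgroup.centralizer ({x} : Set P)).index = k} := ⟨u, rfl⟩
    rw [hcs] at h1
    rcases h1 with h1 | h1
    · exfalso
      apply hu
      rw [Subgroup.index_eq_one] at h1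
      rw [hZ, Subgroup.mem_center_iff]
      intro g
      have : g ∈ Subgroup.centralizer ({u} : Set P) := by rw [h1]; trivial
      exact Subgroup.mem_centralizer_singleton_iff.mp this
    · exact h1
  have heq : ∀ u v : P, u ∉ Z → v ∉ Z →
      Subgroup.centralizer ({u} : Set P) ≤ Subgroup.centralizer ({v} : Set P) →
      Subgroup.centralizer ({u} : Set P) = Subgroup.centralizer ({v} : Set P) := by
    intro u v hu hv hle
    apply Subgroup.eq_of_le_of_card_ge hle
    have h1 := (Subgroup.centralizer ({u} : Set P)).card_mul_index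
    have h2 := (Subgroup.centralizer ({v} : Set P)).card_mul_index
    rw [hidx u hu] at h1
    rw [hidx v hv, ← h1] at h2
    exact (Nat.eq_of_mul_eq_mul_right (by positivity) h2).le
  have hxZ : x ∉ Z := fun h => hxp (Z.pow_mem h p)
  -- centralizer of y * z, z central
  have hcz : ∀ (y z : P), z ∈ Z →
      Subgroup.centralizer ({y * z} : Set P) = Subgroup.centralizer ({y} : Set P) := by
    intro y z hz
    ext c
    rw [Subgroup.mem_centralizer_singleton_iff, Subgroup.mem_centralizer_singleton_iff]
    have hzc : c * z = z * c := Subgroup.mem_center_iff.mp hz c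
    constructor
    · intro h
      have h1 : c * y * z = y * c * z := by
        calc c * y * z = c * (y * z) := by group
          _ = y * z * c := h
          _ = y * (z * c) := by group
          _ = y * (c * z) := by rw [hzc]
          _ = y * c * z := by group
      exact mul_right_cancel h1
    · intro h
      calc c * (y * z) = c * y * z := by group
        _ = y * c * z := by rw [h]
        _ = y * (c * z) := by group
        _ = y * (z * c) := by rw [hzc]
        _ = y * z * c := by group
  -- K1
  have K1 : ∀ y : P, y ^ p ∉ Z →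
      Subgroup.centralizer ({y} : Set P) = Subgroup.centralizer ({y ^ p} : Set P) := by
    intro y hy
    apply heq y (y ^ p) (fun h => hy (Z.pow_mem h p)) hy
    intro c hc
    rw [Subgroup.mem_centralizer_singleton_iff] at hc ⊢
    exact (Commute.pow_right (show Commute c y from hc) p)
  -- the quotient by the centre and a central element of order p in it
  have hmk : ∀ y : P, (QuotientGroup.mk y : P ⧸ Z) = 1 ↔ y ∈ Z := fun y =>
    QuotientGroup.eq_one_iff y
  haveI : Nontrivial (P ⧸ Z) := ⟨⟨QuotientGroup.mk x, 1, fun h => hxZ ((hmk x).mp h)⟩⟩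
  have hQ : IsPGroup p (P ⧸ Z) := hP.to_quotient Z
  haveI := hQ.center_nontrivial
  have hdvd : p ∣ Nat.card (Subgroup.center (P ⧸ Z)) := by
    obtain ⟨k, hk⟩ := IsPGroup.iff_card.mp (hQ.to_subgroup (Subgroup.center (P ⧸ Z)))
    rw [hk]
    rcases Nat.eq_zero_or_pos k with h0 | h0
    · exfalso
      rw [h0, pow_zero] at hk
      have := Finite.one_lt_card_iff_nontrivial.mpr
        (inferInstance : Nontrivial (Subgroup.center (P ⧸ Z)))
      omega
    · exact dvd_pow_self p h0.ne'
  obtain ⟨wq, hwq⟩ := exists_prime_orderOf_dvd_card' p hdvd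
  obtain ⟨w, hw⟩ := QuotientGroup.mk_surjective (wq : P ⧸ Z)
  have hw1 : (QuotientGroup.mk w : P ⧸ Z) ≠ 1 := by
    rw [hw]
    intro h
    have h1 : wq = 1 := Subtype.ext h
    rw [h1, orderOf_one] at hwq
    exact hpp.one_lt.ne' hwq.symm
  have hwp : (QuotientGroup.mk w : P ⧸ Z) ^ p = 1 := by
    rw [hw, ← Subgroup.coe_pow, ← hwq, pow_orderOf_eq_one]
    rfl
  have hwc : ∀ q : P ⧸ Z, q * QuotientGroup.mk w = QuotientGroup.mk w * q := by
    intro q
    rw [hw]
    exact Subgroup.mem_center_iff.mp wq.2 q
  have hwZ : w ∉ Z := fun h => hw1 ((hmk w).mpr h)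
  -- K2
  have K2 : ∀ y : P, y ^ p ∉ Z →
      Subgroup.centralizer ({y * w} : Set P) = Subgroup.centralizer ({y} : Set P) := by
    intro y hy
    have h1 : (QuotientGroup.mk ((y * w) ^ p) : P ⧸ Z) = QuotientGroup.mk (y ^ p) := by
      rw [QuotientGroup.mk_pow, QuotientGroup.mk_mul,
        Commute.mul_pow (show Commute (QuotientGroup.mk y : P ⧸ Z) (QuotientGroup.mk w) from
          hwc _), hwp, mul_one, QuotientGroup.mk_pow]
    have h2 : (y ^ p)⁻¹ * (y * w) ^ p ∈ Z := QuotientGroup.eq.mp h1.symm
    have h3 : (y * w) ^ p = y ^ p * ((y ^ p)⁻¹ * (y * w) ^ p) := by group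
    have h4 : (y * w) ^ p ∉ Z := by
      intro h
      apply hy
      rw [← hmk, ← h1, hmk]
      exact h
    rw [K1 (y * w) h4, h3, hcz _ _ h2, ← K1 y hy]
  -- K3
  have K3 : ∀ y : P, y ^ p ∉ Z → w ∈ Subgroup.centralizer ({y} : Set P) ∧
      ∀ c ∈ Subgroup.centralizer ({y} : Set P), c * w = w * c := by
    intro y hy
    have h1 := K2 y hy
    constructor
    · have h2 : y * w ∈ Subgroup.centralizer ({y * w} : Set P) :=
        Subgroup.mem_centralizer_singleton_iff.mpr rfl
      rw [h1] at h2
      have h3 : y ∈ Subgroup.centralizer ({y} : Set P) :=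
        Subgroup.mem_centralizer_singleton_iff.mpr rfl
      have h4 := Subgroup.mul_mem _ (Subgroup.inv_mem _ h3) h2
      have e : y⁻¹ * (y * w) = w := by group
      rw [e] at h4
      exact h4
    · intro c hc
      have hc1 : c * y = y * c := Subgroup.mem_centralizer_singleton_iff.mp hc
      have hc2 : c * (y * w) = y * w * c := by
        rw [← h1] at hc
        exact Subgroup.mem_centralizer_singleton_iff.mp hc
      have h5 : y * (c * w) = y * (w * c) := by
        calc y * (c * w) = y * c * w := by group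
          _ = c * y * w := by rw [hc1]
          _ = c * (y * w) := by group
          _ = y * w * c := hc2
          _ = y * (w * c) := by group
      exact mul_left_cancel h5
  -- C and A
  set C := Subgroup.centralizer ({x} : Set P) with hC
  set A := C ⊓ Subgroup.centralizer (C : Set P) with hA
  have hxC : x ∈ C := Subgroup.mem_centralizer_singleton_iff.mpr rfl
  have hxA : x ∈ A := by
    refine ⟨hxC, ?_⟩
    show x ∈ Subgroup.centralizer (C : Set P)
    rw [Subgroup.mem_centralizer_iff]
    intro c hc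
    exact Subgroup.mem_centralizer_singleton_iff.mp hc
  have hAC : ∀ u ∈ A, u ∉ Z → Subgroup.centralizer ({u} : Set P) = C := by
    intro u hu huZ
    symm
    apply heq x u hxZ huZ
    intro c hc
    rw [Subgroup.mem_centralizer_singleton_iff]
    exact Subgroup.mem_centralizer_iff.mp hu.2 c hc
  have hwA : w ∈ A := by
    obtain ⟨h1, h2⟩ := K3 x hxp
    refine ⟨h1, ?_⟩
    show w ∈ Subgroup.centralizer (C : Set P)
    rw [Subgroup.mem_centralizer_iff]
    intro c hc
    exact h2 c hc
  have hCw : Subgroup.centralizer ({w} : Set P) = C := hAC w hwA hwZ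
  -- elements outside A have p-th power in Z
  have hughes : ∀ g : P, g ∉ A → g ^ p ∈ Z := by
    intro g hg
    by_contra hgp
    apply hg
    obtain ⟨h1, h2⟩ := K3 g hgp
    have hgZ : g ∉ Z := fun h => hgp (Z.pow_mem h p)
    have h3 : Subgroup.centralizer ({g} : Set P) = C := by
      apply heq g x hgZ hxZ
      intro c hc
      rw [← hC, ← hCw, Subgroup.mem_centralizer_singleton_iff]
      exact h2 c hc
    refine ⟨?_, ?_⟩
    · rw [← h3]; exact Subgroup.mem_centralizer_singleton_iff.mpr rfl
    · show g ∈ Subgroup.centralizer (C : Set P)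
      rw [Subgroup.mem_centralizer_iff]
      intro c hc
      have hc' : c ∈ Subgroup.centralizer ({g} : Set P) := by rw [h3]; exact hc
      exact Subgroup.mem_centralizer_singleton_iff.mp hc'
  -- C is normal
  have hCnorm : ∀ g : P, ∀ c ∈ C, g * c * g⁻¹ ∈ C := by
    intro g c hc
    rw [← hCw] at hc ⊢
    rw [Subgroup.mem_centralizer_singleton_iff] at hc ⊢
    have hζ : w⁻¹ * (g⁻¹ * w * g) ∈ Z := by
      rw [← hmk]
      have := hwc (QuotientGroup.mk g⁻¹ : P ⧸ Z)
      rw [QuotientGroup.mk_mul, QuotientGroup.mk_mul, QuotientGroup.mk_mul, this]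
      simp
    have hζc : c * (w⁻¹ * (g⁻¹ * w * g)) = (w⁻¹ * (g⁻¹ * w * g)) * c :=
      Subgroup.mem_center_iff.mp hζ c
    have h1 : c * (g⁻¹ * w * g) = (g⁻¹ * w * g) * c := by
      calc c * (g⁻¹ * w * g) = c * w * (w⁻¹ * (g⁻¹ * w * g)) := by group
        _ = w * c * (w⁻¹ * (g⁻¹ * w * g)) := by rw [hc]
        _ = w * (c * (w⁻¹ * (g⁻¹ * w * g))) := by group
        _ = w * ((w⁻¹ * (g⁻¹ * w * g)) * c) := by rw [hζc]
        _ = (g⁻¹ * w * g) * c := by group
    calc g * c * g⁻¹ * w = g * (c * (g⁻¹ * w * g)) * g⁻¹ := by group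
      _ = g * ((g⁻¹ * w * g) * c) * g⁻¹ := by rw [h1]
      _ = w * (g * c * g⁻¹) := by group
  have hconjA : ∀ g : P, g * x * g⁻¹ ∈ A := by
    intro g
    refine ⟨hCnorm g x hxC, ?_⟩
    show g * x * g⁻¹ ∈ Subgroup.centralizer (C : Set P)
    rw [Subgroup.mem_centralizer_iff]
    intro c hc
    have h1 : g⁻¹ * c * g ∈ C := by
      have := hCnorm g⁻¹ c hc
      rwa [inv_inv] at this
    have h2 : (g⁻¹ * c * g) * x = x * (g⁻¹ * c * g) := Subgroup.mem_centralizer_singleton_iff.mp h1
    calc c * (g * x * g⁻¹) = g * ((g⁻¹ * c * g) * x) * g⁻¹ := by group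
      _ = g * (x * (g⁻¹ * c * g)) * g⁻¹ := by rw [h2]
      _ = g * x * g⁻¹ * c := by group
  have hAle : A ≤ C := inf_le_left
  -- key: conjugates of x by elements outside C differ from x modulo Z
  have key : ∀ g : P, g ∉ C →
      (QuotientGroup.mk (g * x * g⁻¹) : P ⧸ Z) ≠ QuotientGroup.mk x := by
    intro g hg h
    apply hxp
    have hgA : g ∉ A := fun h' => hg (hAle h')
    have hxgA : x * g ∉ A := by
      intro h'
      apply hgA
      have := A.mul_mem (A.inv_mem hxA) h'
      have e : x⁻¹ * (x * g) = g := by group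
      rwa [e] at this
    have h1 : (QuotientGroup.mk g : P ⧸ Z) ^ p = 1 := by
      rw [← QuotientGroup.mk_pow, hmk]; exact hughes g hgA
    have h2 : ((QuotientGroup.mk x : P ⧸ Z) * QuotientGroup.mk g) ^ p = 1 := by
      rw [← QuotientGroup.mk_mul, ← QuotientGroup.mk_pow, hmk]; exact hughes _ hxgA
    have hcomm : Commute (QuotientGroup.mk x : P ⧸ Z) (QuotientGroup.mk g) := by
      show (QuotientGroup.mk x : P ⧸ Z) * QuotientGroup.mk g = QuotientGroup.mk g * QuotientGroup.mk x
      rw [QuotientGroup.mk_mul, QuotientGroup.mk_mul, QuotientGroup.mk_inv] at h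
      calc (QuotientGroup.mk x : P ⧸ Z) * QuotientGroup.mk g
          = (QuotientGroup.mk g * QuotientGroup.mk x * (QuotientGroup.mk g)⁻¹) * QuotientGroup.mk g := by
            rw [h]
        _ = QuotientGroup.mk g * QuotientGroup.mk x := by group
    rw [hcomm.mul_pow, h1, mul_one] at h2
    rw [← hmk, QuotientGroup.mk_pow]
    exact h2
  -- the image of A in P/Z
  set T := A.map (QuotientGroup.mk' Z) with hT
  -- lower bound
  have hlow : C.index < Nat.card T := by
    haveI : Fintype (P ⧸ C) := Fintype.ofFinite _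
    haveI : Fintype T := Fintype.ofFinite _
    let F : P ⧸ C → T := Quotient.lift
      (fun g : P => (⟨QuotientGroup.mk (g * x * g⁻¹), ⟨g * x * g⁻¹, hconjA g, rfl⟩⟩ : T))
      (by
        intro g h hgh
        have hgh' : g⁻¹ * h ∈ C := QuotientGroup.leftRel_apply.mp hgh
        have hcx : (g⁻¹ * h) * x = x * (g⁻¹ * h) := Subgroup.mem_centralizer_singleton_iff.mp hgh'
        apply Subtype.ext
        show (QuotientGroup.mk (g * x * g⁻¹) : P ⧸ Z) = QuotientGroup.mk (h * x * h⁻¹)
        congr 1
        calc g * x * g⁻¹ = g * (x * (g⁻¹ * h)) * h⁻¹ := by group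
          _ = g * ((g⁻¹ * h) * x) * h⁻¹ := by rw [hcx]
          _ = h * x * h⁻¹ := by group)
    have hFinj : Function.Injective F := by
      intro q1 q2
      induction q1 using Quotient.inductionOn with
      | _ g =>
      induction q2 using Quotient.inductionOn with
      | _ h =>
      intro hF
      have hF' : (QuotientGroup.mk (g * x * g⁻¹) : P ⧸ Z) = QuotientGroup.mk (h * x * h⁻¹) :=
        congrArg Subtype.val hF
      apply Quotient.sound
      show (QuotientGroup.leftRel C) g h
      rw [QuotientGroup.leftRel_apply]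
      by_contra hnot
      have hnot' : h⁻¹ * g ∉ C := by
        intro h'
        apply hnot
        have := C.inv_mem h'
        have e : (h⁻¹ * g)⁻¹ = g⁻¹ * h := by group
        rwa [e] at this
      apply key (h⁻¹ * g) hnot'
      have e1 : h⁻¹ * g * x * (h⁻¹ * g)⁻¹ = h⁻¹ * (g * x * g⁻¹) * h := by group
      have e2 : x = h⁻¹ * (h * x * h⁻¹) * h := by group
      rw [e1]
      conv_rhs => rw [e2]
      rw [QuotientGroup.mk_mul, QuotientGroup.mk_mul, hF', ← QuotientGroup.mk_mul,
        ← QuotientGroup.mk_mul]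
    have hmiss : (1 : T) ∉ Set.range F := by
      rintro ⟨q, hq⟩
      induction q using Quotient.inductionOn with
      | _ g =>
      have hq' : (QuotientGroup.mk (g * x * g⁻¹) : P ⧸ Z) = 1 := congrArg Subtype.val hq
      rw [hmk] at hq'
      apply hxZ
      have := Subgroup.Normal.conj_mem (inferInstance : Z.Normal) _ hq' g⁻¹
      have e : g⁻¹ * (g * x * g⁻¹) * g⁻¹⁻¹ = x := by group
      rwa [e] at this
    have := Fintype.card_lt_of_injective_of_notMem F hFinj hmiss
    rw [Subgroup.index_eq_card, Nat.card_eq_fintype_card, Nat.card_eq_fintype_card]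
    exact this
  -- upper bound
  have hCtop : C ≠ ⊤ := by
    intro h
    have := hidx x hxZ
    rw [← hC, h, Subgroup.index_top] at this
    omega
  obtain ⟨g₀, hg₀⟩ : ∃ g₀ : P, g₀ ∉ C := by
    by_contra hcon
    push Not at hcon
    exact hCtop (eq_top_iff.mpr (fun g _ => hcon g))
  have hg₀Z : g₀ ∉ Z := by
    intro h
    apply hg₀
    rw [hC, Subgroup.mem_centralizer_singleton_iff]
    exact (Subgroup.mem_center_iff.mp h x).symm
  have hup : Nat.card T ≤ p ^ a := by
    rw [← hidx g₀ hg₀Z, Subgroup.index_eq_card]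
    have hch : ∀ t : T, ∃ u : P, u ∈ A ∧ (QuotientGroup.mk u : P ⧸ Z) = t := by
      intro t
      obtain ⟨u, hu, hut⟩ := t.2
      exact ⟨u, hu, hut⟩
    choose f hfA hft using hch
    apply Nat.card_le_card_of_injective
      (fun t : T => (QuotientGroup.mk (f t) : P ⧸ Subgroup.centralizer ({g₀} : Set P)))
    intro t s hts
    have h1 : (f t)⁻¹ * f s ∈ Subgroup.centralizer ({g₀} : Set P) := QuotientGroup.eq.mp hts
    have h2 : (f t)⁻¹ * f s ∈ A := A.mul_mem (A.inv_mem (hfA t)) (hfA s)
    have h3 : (f t)⁻¹ * f s ∈ Z := by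
      by_contra hnZ
      have h4 := hAC _ h2 hnZ
      apply hg₀
      rw [← h4, Subgroup.mem_centralizer_singleton_iff]
      exact (Subgroup.mem_centralizer_singleton_iff.mp h1).symm
    apply Subtype.ext
    rw [← hft t, ← hft s]
    exact QuotientGroup.eq.mpr h3
  have hCi := hidx x hxZ
  rw [← hC] at hCi
  omega

end Cfsg.Agent.S4365
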