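import Mathlib
import Cfsg.Statements.S4370
import Cfsg.Agent.S0016
import Cfsg.Agent.Lib.Lead.UniqueInvol
import Cfsg.Agent.Lib.Helper6.NilpComm

set_option autoImplicit false
open Cfsg

namespace Cfsg.Agent.S4370



/-- all abelian subgroups are cyclic -/
def AbCyc (X : Type*) [Group X] : Prop :=
  ∀ A : Subgroup X, (∀ a ∈ A, ∀ b ∈ A, a * b = b * a) → IsCyclic A

theorem abCyc_sub {X : Type*} [Group X] (h : AbCyc X) (Y : Subgroup X) : AbCyc Y := by
  intro B hB
  haveI h1 : IsCyclic (B.map Y.subtype) := h _ (by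
    rintro _ ⟨a, ha, rfl⟩ _ ⟨b, hb, rfl⟩
    have := hB a ha b hb
    exact congrArg Subtype.val this)
  exact isCyclic_of_surjective
    (Subgroup.equivMapOfInjective B Y.subtype Y.subtype_injective).symm.toMonoidHom
    (Subgroup.equivMapOfInjective B Y.subtype Y.subtype_injective).symm.surjective

theorem uniq_of_abCyc {X : Type*} [Group X] [Finite X] (q : ℕ) [Fact q.Prime]
    (hX : IsPGroup q X) (h : AbCyc X) :
    ∀ H K : Subgroup X, Nat.card H = q → Nat.card K = q → H = K := by
  intro H K hH hK
  have hq : q.Prime := Fact.out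
  haveI : Nontrivial X := by
    by_contra hnt
    rw [not_nontrivial_iff_subsingleton] at hnt
    have : Nat.card H = 1 := Nat.card_eq_one_iff_unique.mpr ⟨inferInstance, ⟨1⟩⟩
    rw [hH] at this
    exact hq.one_lt.ne' this
  have hcen : q ∣ Nat.card (Subgroup.center X) := by
    haveI := hX.center_nontrivial
    obtain ⟨n, hn⟩ := IsPGroup.iff_card.mp (hX.to_subgroup (Subgroup.center X))
    rcases Nat.eq_zero_or_pos n with h0 | h0
    · rw [h0, pow_zero] at hn
      exact absurd hn (Finite.one_lt_card (α := Subgroup.center X)).ne'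
    · rw [hn]; exact dvd_pow_self q h0.ne'
  obtain ⟨z, hz⟩ := exists_prime_orderOf_dvd_card' q hcen
  obtain ⟨Z₀, hZ₀⟩ : ∃ Z₀ : Subgroup X, Z₀ = Subgroup.zpowers (z : X) := ⟨_, rfl⟩
  have hZcard : Nat.card Z₀ = q := by rw [hZ₀, Nat.card_zpowers, Subgroup.orderOf_coe, hz]
  have hzc : ∀ x : X, (z : X) * x = x * z := fun x => (Subgroup.mem_center_iff.mp z.2 x).symm
  have key : ∀ H : Subgroup X, Nat.card H = q → H = Z₀ := by
    intro H hH
    haveI hHcyc : IsCyclic H := isCyclic_of_prime_card hH
    have hHcomm : ∀ a ∈ H, ∀ b ∈ H, a * b = b * a := by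
      intro a ha b hb
      obtain ⟨g, hg⟩ := IsCyclic.exists_generator (α := H)
      obtain ⟨i, hi⟩ := Subgroup.mem_zpowers_iff.mp (hg ⟨a, ha⟩)
      obtain ⟨j, hj⟩ := Subgroup.mem_zpowers_iff.mp (hg ⟨b, hb⟩)
      have := zpow_mul_comm g i j
      rw [hi, hj] at this
      exact congrArg Subtype.val this
    have hA : ∀ a ∈ H ⊔ Z₀, ∀ b ∈ H ⊔ Z₀, a * b = b * a := by
      have h1 : H ⊔ Z₀ ≤ Subgroup.centralizer (H : Set X) := by
        apply sup_le
        · intro a ha
          rw [Subgroup.mem_centralizer_iff]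
          intro b hb
          exact hHcomm b hb a ha
        · rw [hZ₀, Subgroup.zpowers_le, Subgroup.mem_centralizer_iff]
          intro b _
          exact (hzc b).symm
      have h2 : H ⊔ Z₀ ≤ Subgroup.centralizer ((H ⊔ Z₀ : Subgroup X) : Set X) := by
        apply sup_le
        · exact Subgroup.le_centralizer_iff.mp h1
        · rw [hZ₀, Subgroup.zpowers_le, Subgroup.mem_centralizer_iff]
          intro b _
          exact (hzc b).symm
      intro a ha b hb
      exact Subgroup.mem_centralizer_iff.mp (h2 hb) a ha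
    haveI hAc : IsCyclic ↥(H ⊔ Z₀) := h _ hA
    have hc1 : Nat.card (H.subgroupOf (H ⊔ Z₀)) = q := by
      rw [Nat.card_congr (Subgroup.subgroupOfEquivOfLe (le_sup_left : H ≤ H ⊔ Z₀)).toEquiv, hH]
    have hc2 : Nat.card (Z₀.subgroupOf (H ⊔ Z₀)) = q := by
      rw [Nat.card_congr (Subgroup.subgroupOfEquivOfLe (le_sup_right : Z₀ ≤ H ⊔ Z₀)).toEquiv,
        hZcard]
    have heq : H.subgroupOf (H ⊔ Z₀) = Z₀.subgroupOf (H ⊔ Z₀) := by
      ext c
      rw [Cfsg.Agent.Lib.Lead.mem_iff_pow_card_of_cyclic,
        Cfsg.Agent.Lib.Lead.mem_iff_pow_card_of_cyclic, hc1, hc2]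
    apply le_antisymm
    · intro x hx
      have : (⟨x, Subgroup.mem_sup_left hx⟩ : ↥(H ⊔ Z₀)) ∈ H.subgroupOf (H ⊔ Z₀) :=
        Subgroup.mem_subgroupOf.mpr hx
      rw [heq] at this
      exact Subgroup.mem_subgroupOf.mp this
    · intro x hx
      have : (⟨x, Subgroup.mem_sup_right hx⟩ : ↥(H ⊔ Z₀)) ∈ Z₀.subgroupOf (H ⊔ Z₀) :=
        Subgroup.mem_subgroupOf.mpr hx
      rw [← heq] at this
      exact Subgroup.mem_subgroupOf.mp this
  rw [key H hH, key K hK]

theorem cyc_of_le_zpowers {H Γ : Type*} [Group H] [Group Γ] (f : H →* Γ)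
    (hf : Function.Injective f) (w : Γ) (hw : ∀ h : H, f h ∈ Subgroup.zpowers w) :
    IsCyclic H := by
  have hle : f.range ≤ Subgroup.zpowers w := by
    rintro _ ⟨h, rfl⟩; exact hw h
  haveI : IsCyclic ((f.range).subgroupOf (Subgroup.zpowers w)) := inferInstance
  haveI : IsCyclic f.range := isCyclic_of_surjective
    (Subgroup.subgroupOfEquivOfLe hle).toMonoidHom (Subgroup.subgroupOfEquivOfLe hle).surjective
  exact isCyclic_of_surjective (MonoidHom.ofInjective hf).symm.toMonoidHom
    (MonoidHom.ofInjective hf).symm.surjective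

theorem crt_pow {Q : Type*} [Group Q] (m N : ℕ) [NeZero m] (hco : N.Coprime m) (y : Q)
    (hy : y ^ N = 1) (s : ℕ) (c : Multiplicative (ZMod m)) :
    (y ^ s, c) ∈ Subgroup.zpowers
      ((y, Multiplicative.ofAdd (1 : ZMod m)) : Q × Multiplicative (ZMod m)) := by
  obtain ⟨t, ht1, ht2⟩ := Nat.chineseRemainder hco s (Multiplicative.toAdd c).val
  refine ⟨(t : ℤ), ?_⟩
  show (y, Multiplicative.ofAdd (1 : ZMod m)) ^ (t : ℤ) = (y ^ s, c)
  rw [zpow_natCast, Prod.pow_mk]
  apply Prod.ext
  · show y ^ t = y ^ s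
    rw [pow_eq_pow_mod t hy, pow_eq_pow_mod s hy]
    congr 1
  · show Multiplicative.ofAdd (1 : ZMod m) ^ t = c
    rw [← ofAdd_nsmul, nsmul_one]
    have : (t : ZMod m) = Multiplicative.toAdd c := by
      rw [← ZMod.natCast_zmod_val (Multiplicative.toAdd c)]
      exact (ZMod.natCast_eq_natCast_iff t _ m).mpr ht2
    rw [this]; rfl

theorem two_mul_eq_zero {N : ℕ} [NeZero N] (j : ZMod (2 * N)) (h : j + j = 0) :
    j = 0 ∨ j = ((N : ℕ) : ZMod (2 * N)) := by
  have hpos : 0 < N := Nat.pos_of_ne_zero (NeZero.ne N)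
  have h1 := congrArg ZMod.val h
  rw [ZMod.val_add, ZMod.val_zero] at h1
  have h2 : j.val < 2 * N := ZMod.val_lt j
  have h3 : 2 * N ∣ j.val + j.val := Nat.dvd_of_mod_eq_zero h1
  have h4 : j.val = 0 ∨ j.val = N := by
    obtain ⟨c, hc⟩ := h3
    have hc2 : c < 2 := by
      by_contra hge
      have h5 : 2 * N * 2 ≤ 2 * N * c := Nat.mul_le_mul_left _ (by omega)
      omega
    have : c = 0 ∨ c = 1 := by omega
    rcases this with rfl | rfl
    · left; rw [mul_zero] at hc; omega
    · right; rw [mul_one] at hc; omega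
  rcases h4 with h5 | h5
  · left; exact (ZMod.val_eq_zero j).mp h5
  · right
    have h6 := ZMod.natCast_zmod_val j
    rw [h5] at h6
    exact h6.symm

/-- Let G be a finite non-abelian nilpotent group. Then the centralizer of every non-central element of G is cyclic if and only if G is isomorphic to the direct product of a generalized quaternion group and a cyclic group of odd order. -/
theorem result {G : Type*} [Group G] [Finite G] (hG : Group.IsNilpotent G)
    (hna : ¬ IsMulCommutative G) :
    (∀ x : G, x ∉ Subgroup.center G → IsCyclic (Subgroup.centralizer ({x} : Set G))) ↔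
      ∃ (k m : ℕ), 1 ≤ k ∧ Odd m ∧ Nonempty (G ≃* QuaternionGroup (2 ^ k) × Multiplicative (ZMod m)) := by
  classical
  constructor
  · intro hcyc
    obtain ⟨x₀, hx₀⟩ : ∃ x₀ : G, x₀ ∉ Subgroup.center G := by
      by_contra h
      push Not at h
      exact hna ⟨⟨fun a b => (Subgroup.mem_center_iff.mp (h b) a)⟩⟩
    have hab : AbCyc G := by
      intro A hA
      obtain ⟨x, hx, hle⟩ : ∃ x, x ∉ Subgroup.center G ∧
          A ≤ Subgroup.centralizer ({x} : Set G) := by
        by_cases hAc : A ≤ Subgroup.center G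
        · refine ⟨x₀, hx₀, fun a ha => ?_⟩
          rw [Subgroup.mem_centralizer_iff]
          intro y hy
          rw [Set.mem_singleton_iff] at hy
          rw [hy]
          exact Subgroup.mem_center_iff.mp (hAc ha) x₀
        · obtain ⟨x, hxA, hxc⟩ := SetLike.not_le_iff_exists.mp hAc
          refine ⟨x, hxc, fun a ha => ?_⟩
          rw [Subgroup.mem_centralizer_iff]
          intro y hy
          rw [Set.mem_singleton_iff] at hy
          rw [hy]
          exact hA x hxA a ha
      haveI := hcyc x hx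
      haveI : IsCyclic (A.subgroupOf (Subgroup.centralizer ({x} : Set G))) := inferInstance
      exact isCyclic_of_surjective (Subgroup.subgroupOfEquivOfLe hle).toMonoidHom
        (Subgroup.subgroupOfEquivOfLe hle).surjective
    have hsyl := ((Group.isNilpotent_of_finite_tfae (G := G)).out 0 3).mp hG
    have hS : ∀ (q : ℕ) [Fact q.Prime] (R : Sylow q G),
        IsCyclic R ∨ (q = 2 ∧ ∃ n : ℕ, Nonempty (R ≃* QuaternionGroup (2 ^ n))) := by
      intro q _ R
      exact Cfsg.Agent.S0016.result q R.isPGroup'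
        (uniq_of_abCyc q R.isPGroup' (abCyc_sub hab R))
    haveI : Fact (Nat.Prime 2) := ⟨Nat.prime_two⟩
    obtain ⟨P⟩ : Nonempty (Sylow 2 G) := inferInstance
    haveI hPn : (P : Subgroup G).Normal := hsyl 2 inferInstance P
    have hPnc : ¬ IsCyclic P := by
      intro hPc
      haveI : IsZGroup G := by
        rw [isZGroup_iff]
        intro q hq R
        haveI : Fact q.Prime := ⟨hq⟩
        rcases hS q R with h | ⟨rfl, -⟩
        · exact h
        · obtain ⟨g, hg⟩ := MulAction.exists_smul_eq G P R
          rw [← hg]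
          exact isCyclic_of_surjective (Sylow.equivSMul P g).toMonoidHom
            (Sylow.equivSMul P g).surjective
      haveI := hG
      haveI : IsCyclic G := inferInstance
      apply hna
      obtain ⟨g, hg⟩ := IsCyclic.exists_generator (α := G)
      refine ⟨⟨fun a b => ?_⟩⟩
      obtain ⟨i, hi⟩ := Subgroup.mem_zpowers_iff.mp (hg a)
      obtain ⟨j, hj⟩ := Subgroup.mem_zpowers_iff.mp (hg b)
      rw [← hi, ← hj]
      exact zpow_mul_comm g i j
    obtain ⟨n, ⟨e⟩⟩ : ∃ n : ℕ, Nonempty (P ≃* QuaternionGroup (2 ^ n)) := by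
      rcases hS 2 P with h | ⟨-, h⟩
      · exact absurd h hPnc
      · exact h
    have hn : 1 ≤ n := by
      by_contra h0
      have hn0 : n = 0 := by omega
      subst hn0
      apply hPnc
      haveI hc : IsCyclic (QuaternionGroup (2 ^ 0)) := QuaternionGroup.quaternionGroup_one_isCyclic
      exact isCyclic_of_surjective e.symm.toMonoidHom e.symm.surjective
    obtain ⟨K, hK⟩ := Subgroup.exists_right_complement'_of_coprime P.card_coprime_index
    have hKcard : Nat.card K = (P : Subgroup G).index := by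
      have h1 := hK.card_mul
      have h2 := Subgroup.card_mul_index (P : Subgroup G)
      rw [← h2] at h1
      exact Nat.eq_of_mul_eq_mul_left Nat.card_pos h1
    have hKodd : ¬ 2 ∣ Nat.card K := by rw [hKcard]; exact P.not_dvd_index
    have hcomm : ∀ u ∈ (P : Subgroup G), ∀ v ∈ K, Commute u v := by
      intro u hu v hv
      obtain ⟨i, hi⟩ : ∃ i, orderOf u = 2 ^ i := by
        obtain ⟨k, hk⟩ := P.isPGroup' ⟨u, hu⟩
        have h1 : u ^ 2 ^ k = 1 := congrArg Subtype.val hk
        obtain ⟨i, -, hi⟩ := (Nat.dvd_prime_pow Nat.prime_two).mp (orderOf_dvd_of_pow_eq_one h1)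
        exact ⟨i, hi⟩
      have hv2 : (orderOf v).Coprime 2 := by
        have h1 : orderOf v ∣ Nat.card K := by
          have := orderOf_dvd_natCard (⟨v, hv⟩ : K)
          rwa [Subgroup.orderOf_mk] at this
        rw [Nat.coprime_comm, Nat.Prime.coprime_iff_not_dvd Nat.prime_two]
        exact fun h => hKodd (h.trans h1)
      exact Cfsg.Agent.Lib.Helper6.commute_of_pelt_of_coprime hG hi hv2
    haveI : IsZGroup K := by
      rw [isZGroup_iff]
      intro q hq R
      haveI : Fact q.Prime := ⟨hq⟩
      rcases Cfsg.Agent.S0016.result q R.isPGroup'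
        (uniq_of_abCyc q R.isPGroup' (abCyc_sub (abCyc_sub hab K) R)) with h | ⟨rfl, -⟩
      · exact h
      · have h1 : Nat.card R ∣ Nat.card K := Subgroup.card_subgroup_dvd_card _
        obtain ⟨j, hj⟩ := IsPGroup.iff_card.mp R.isPGroup'
        have hj0 : j = 0 := by
          by_contra hne
          exact hKodd ((dvd_pow_self 2 hne).trans (hj ▸ h1))
        rw [hj0, pow_zero] at hj
        haveI : Subsingleton R := (Nat.card_eq_one_iff_unique.mp hj).1
        exact isCyclic_of_subsingleton
    haveI := hG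
    haveI hKc : IsCyclic K := inferInstance
    let f : ↥(P : Subgroup G) × ↥K →* G :=
      MonoidHom.noncommCoprod (P : Subgroup G).subtype K.subtype (fun u v => hcomm u u.2 v v.2)
    have hf : ∀ u v, f (u, v) = (u : G) * (v : G) := fun u v => rfl
    have hinj : Function.Injective f := by
      rw [injective_iff_map_eq_one]
      rintro ⟨u, v⟩ h
      rw [hf] at h
      have h1 : (u : G) = (v : G)⁻¹ := eq_inv_of_mul_eq_one_left h
      have h2 : (u : G) ∈ (P : Subgroup G) ⊓ K :=
        Subgroup.mem_inf.mpr ⟨u.2, by rw [h1]; exact Subgroup.inv_mem _ v.2⟩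
      rw [hK.isCompl.inf_eq_bot, Subgroup.mem_bot] at h2
      have h3 : (v : G) = 1 := by rw [h2] at h1; exact inv_eq_one.mp h1.symm
      exact Prod.ext (Subtype.ext h2) (Subtype.ext h3)
    have hbij : Function.Bijective f := by
      rw [Nat.bijective_iff_injective_and_card]
      refine ⟨hinj, ?_⟩
      rw [Nat.card_prod]; exact hK.card_mul
    refine ⟨n, Nat.card K, hn, Nat.odd_iff.mpr (by omega), ⟨?_⟩⟩
    exact (MulEquiv.ofBijective f hbij).symm.trans
      (MulEquiv.prodCongr e (zmodCyclicMulEquiv hKc).symm)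
  · rintro ⟨k, m, hk, hm, ⟨e⟩⟩ x hx
    haveI : NeZero (2 ^ k) := ⟨(pow_pos (by norm_num) k).ne'⟩
    haveI : NeZero m := ⟨by rintro rfl; simp at hm⟩
    have hcomm : ∀ g ∈ Subgroup.centralizer ({x} : Set G),
        (e x).1 * (e g).1 = (e g).1 * (e x).1 := by
      intro g hg
      have h1 := Subgroup.mem_centralizer_iff.mp hg x (Set.mem_singleton x)
      have h2 := congrArg e h1
      rw [map_mul, map_mul] at h2
      exact congrArg Prod.fst h2
    let f : ↥(Subgroup.centralizer ({x} : Set G)) →*
        QuaternionGroup (2 ^ k) × Multiplicative (ZMod m) :=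
      e.toMonoidHom.comp (Subgroup.subtype _)
    have hf : Function.Injective f := e.injective.comp Subtype.val_injective
    have hco2 : ∀ j : ℕ, (2 ^ j).Coprime m :=
      fun j => Nat.Coprime.pow_left j (Nat.coprime_two_left.mpr hm)
    obtain ⟨N, hN⟩ : ∃ N : ZMod (2 * 2 ^ k), N = ((2 ^ k : ℕ) : ZMod (2 * 2 ^ k)) := ⟨_, rfl⟩
    have hNN : N + N = 0 := by
      have h0 : ((2 * 2 ^ k : ℕ) : ZMod (2 * 2 ^ k)) = 0 := ZMod.natCast_self _
      rw [hN, ← h0]
      push_cast
      ring
    rcases hq : (e x).1 with i | i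
    · have hi : i + i ≠ 0 := by
        intro h0
        apply hx
        rw [Subgroup.mem_center_iff]
        intro g
        apply e.injective
        rw [map_mul, map_mul]
        apply Prod.ext
        · show (e g).1 * (e x).1 = (e x).1 * (e g).1
          rw [hq]
          rcases (e g).1 with j | j
          · rw [QuaternionGroup.a_mul_a, QuaternionGroup.a_mul_a, add_comm]
          · rw [QuaternionGroup.xa_mul_a, QuaternionGroup.a_mul_xa]
            congr 1
            linear_combination h0
        · exact mul_comm _ _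
      apply cyc_of_le_zpowers f hf
        ((QuaternionGroup.a 1, Multiplicative.ofAdd (1 : ZMod m)))
      intro g
      have hc := hcomm g g.2
      rw [hq] at hc
      have hform : ∃ j, (e g).1 = QuaternionGroup.a j := by
        rcases hg1 : (e g).1 with j | j
        · exact ⟨j, rfl⟩
        · exfalso
          rw [hg1, QuaternionGroup.a_mul_xa, QuaternionGroup.xa_mul_a] at hc
          have h1 : j - i = j + i := QuaternionGroup.xa.inj hc
          apply hi
          linear_combination -h1
      obtain ⟨j, hj⟩ := hform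
      have hco : (2 * 2 ^ k).Coprime m := by rw [← pow_succ']; exact hco2 (k + 1)
      have h2 := crt_pow m (2 * 2 ^ k) hco (QuaternionGroup.a 1 : QuaternionGroup (2 ^ k))
        QuaternionGroup.a_one_pow_n j.val (e g).2
      rw [QuaternionGroup.a_one_pow, ZMod.natCast_zmod_val] at h2
      have : f g = (QuaternionGroup.a j, (e g).2) := Prod.ext hj rfl
      rw [this]; exact h2
    · apply cyc_of_le_zpowers f hf
        ((QuaternionGroup.xa i, Multiplicative.ofAdd (1 : ZMod m)))
      intro g
      have hc := hcomm g g.2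
      rw [hq] at hc
      have hform : ∃ s : ℕ, (e g).1 = (QuaternionGroup.xa i) ^ s := by
        rcases hg1 : (e g).1 with j | j
        · rw [hg1, QuaternionGroup.xa_mul_a, QuaternionGroup.a_mul_xa] at hc
          have h1 : i + j = i - j := QuaternionGroup.xa.inj hc
          have h2 : j + j = 0 := by linear_combination h1
          rcases two_mul_eq_zero j h2 with h | h
          · exact ⟨0, by rw [h, pow_zero, QuaternionGroup.one_def]⟩
          · exact ⟨2, by rw [h, QuaternionGroup.xa_sq]⟩
        · rw [hg1, QuaternionGroup.xa_mul_xa, QuaternionGroup.xa_mul_xa, ← hN] at hc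
          have h1 : N + j - i = N + i - j := QuaternionGroup.a.inj hc
          have h2 : (j - i) + (j - i) = 0 := by linear_combination h1
          rcases two_mul_eq_zero (j - i) h2 with h | h
          · exact ⟨1, by rw [pow_one]; congr 1; exact (sub_eq_zero.mp h)⟩
          · refine ⟨3, ?_⟩
            rw [pow_succ, QuaternionGroup.xa_sq, QuaternionGroup.a_mul_xa, ← hN]
            congr 1
            rw [← hN] at h
            linear_combination h + hNN
      obtain ⟨s, hs⟩ := hform
      have h2 := crt_pow m 4 (hco2 2) (QuaternionGroup.xa i : QuaternionGroup (2 ^ k))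
        (QuaternionGroup.xa_pow_four i) s (e g).2
      have : f g = ((QuaternionGroup.xa i) ^ s, (e g).2) := Prod.ext hs rfl
      rw [this]; exact h2

end Cfsg.Agent.S4370
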