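import Mathlib
import Cfsg.Statements.S4377

set_option autoImplicit false
open Cfsg

namespace Cfsg.Agent.S4377

theorem pow_count (G : Type*) [Group G] [Finite G] (n : ℕ) (hn : n ≠ 0) :
    Nat.card {g : G // g ^ n = 1} = ∑ d ∈ n.divisors, Nat.card {g : G // orderOf g = d} := by
  classical
  have : Fintype G := Fintype.ofFinite G
  simp_rw [Nat.card_eq_fintype_card, Fintype.card_subtype]
  rw [Finset.card_eq_sum_card_fiberwise (f := orderOf) (t := n.divisors)]
  · apply Finset.sum_congr rfl
    intro d hd
    congr 1
    ext g
    simp only [Finset.mem_filter, Finset.mem_univ, true_and, and_iff_right_iff_imp]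
    intro h
    rw [← orderOf_dvd_iff_pow_eq_one, h]
    exact Nat.dvd_of_mem_divisors hd
  · intro g hg
    simp only [Finset.coe_filter, Finset.mem_univ, true_and, Set.mem_ofPred_eq] at hg
    simp only [Finset.mem_coe, Nat.mem_divisors]
    exact ⟨orderOf_dvd_of_pow_eq_one hg, hn⟩

theorem pow_count_all (G : Type*) [Group G] [Finite G] (n : ℕ) (h : ∀ g : G, g ^ n = 1) :
    Nat.card {g : G // g ^ n = 1} = Nat.card G :=
  Nat.card_congr (Equiv.subtypeUnivEquiv h)

theorem order_zero (G : Type*) [Group G] [Finite G] : Nat.card {g : G // orderOf g = 0} = 0 := by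
  rw [Nat.card_eq_zero]
  left
  constructor
  rintro ⟨g, hg⟩
  exact (orderOf_pos g).ne' hg

/-- Two finite groups have the same number of elements of each order if and only if, for every n, they have the same number of elements g with gⁿ = 1. -/
theorem result {G H : Type*} [Group G] [Finite G] [Group H] [Finite H] :
    (∀ n : ℕ, Nat.card {g : G // orderOf g = n} = Nat.card {h : H // orderOf h = n}) ↔
      ∀ n : ℕ, Nat.card {g : G // g ^ n = 1} = Nat.card {h : H // h ^ n = 1} := by
  constructor
  · intro h
    have key : ∀ n : ℕ, n ≠ 0 → Nat.card {g : G // g ^ n = 1} = Nat.card {h : H // h ^ n = 1} := by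
      intro n hn
      rw [pow_count G n hn, pow_count H n hn]
      exact Finset.sum_congr rfl (fun d _ => h d)
    intro n
    by_cases hn : n = 0
    · subst hn
      rw [pow_count_all G 0 (fun g => pow_zero g), pow_count_all H 0 (fun g => pow_zero g)]
      have hN : Nat.card G * Nat.card H ≠ 0 :=
        Nat.mul_ne_zero Nat.card_pos.ne' Nat.card_pos.ne'
      have := key _ hN
      rw [pow_count_all G _ (fun g => by rw [pow_mul, pow_card_eq_one', one_pow]),
        pow_count_all H _ (fun g => by rw [mul_comm, pow_mul, pow_card_eq_one', one_pow])] at this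
      exact this
    · exact key n hn
  · intro h n
    induction n using Nat.strong_induction_on with
    | _ n ih =>
      by_cases hn : n = 0
      · subst hn
        rw [order_zero, order_zero]
      · have h1 := h n
        rw [pow_count G n hn, pow_count H n hn, ← Nat.insert_self_properDivisors hn,
          Finset.sum_insert Nat.self_notMem_properDivisors,
          Finset.sum_insert Nat.self_notMem_properDivisors] at h1
        have h2 : ∑ d ∈ n.properDivisors, Nat.card {g : G // orderOf g = d} =
            ∑ d ∈ n.properDivisors, Nat.card {g : H // orderOf g = d} :=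
          Finset.sum_congr rfl (fun d hd => ih d (Nat.mem_properDivisors.1 hd).2)
        omega

end Cfsg.Agent.S4377
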