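import Mathlib
import Cfsg.Statements.S4381
import Cfsg.Agent.Lib.Lead.PFrat
import Cfsg.Agent.Lib.Lead.CoprimeSylow

set_option autoImplicit false
open Cfsg

namespace Cfsg.Agent.S4381

open scoped Pointwise commutatorElement

theorem maschke_mul {A V : Type*} [Group A] [Finite A] [CommGroup V] [Finite V]
    [MulDistribMulAction A V] (p : ℕ) [Fact p.Prime] (hexp : ∀ v : V, v ^ p = 1)
    (hcop : (Nat.card A).Coprime p) (U : Subgroup V) (hU : ∀ a : A, ∀ x ∈ U, a • x ∈ U) :
    ∃ K : Subgroup V, (∀ a : A, ∀ x ∈ K, a • x ∈ K) ∧ U ⊓ K = ⊥ ∧ U ⊔ K = ⊤ := by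
  classical
  haveI : Fintype A := Fintype.ofFinite A
  obtain ⟨W, hUW, hWmax⟩ := Set.exists_max_image {W : Subgroup V | U ⊓ W = ⊥}
    (fun W => Nat.card W) (Set.toFinite _) ⟨⊥, inf_bot_eq _⟩
  have hUW' : U ⊓ W = ⊥ := hUW
  have hsup : U ⊔ W = ⊤ := by
    by_contra hne
    obtain ⟨v, hv⟩ : ∃ v, v ∉ U ⊔ W := by
      by_contra h; push Not at h; exact hne (eq_top_iff.mpr (fun x _ => h x))
    have hv1 : v ≠ 1 := fun h => hv (h ▸ one_mem _)
    have hord : orderOf v = p := orderOf_eq_prime (hexp v) hv1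
    have hdisj : ∀ y ∈ Subgroup.zpowers v, y ∈ U ⊔ W → y = 1 := by
      intro y hy hyT
      by_contra hy1
      apply hv
      have hoy : orderOf y = p := orderOf_eq_prime (hexp y) hy1
      have hle : Subgroup.zpowers y ≤ Subgroup.zpowers v := Subgroup.zpowers_le.mpr hy
      have heq : Subgroup.zpowers y = Subgroup.zpowers v :=
        Subgroup.eq_of_le_of_card_ge hle (by rw [Nat.card_zpowers, Nat.card_zpowers, hoy, hord])
      have hvy : v ∈ Subgroup.zpowers y := heq ▸ Subgroup.mem_zpowers v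
      exact (Subgroup.zpowers_le.mpr hyT) hvy
    have hW' : U ⊓ (W ⊔ Subgroup.zpowers v) = ⊥ := by
      rw [eq_bot_iff]
      rintro x ⟨hxU, hxW⟩
      obtain ⟨w, hw, z, hz, rfl⟩ := Subgroup.mem_sup.mp hxW
      have hz1 : z = 1 := hdisj z hz (by
        have : z = w⁻¹ * (w * z) := by group
        rw [this]
        exact mul_mem (inv_mem (Subgroup.mem_sup_right hw)) (Subgroup.mem_sup_left hxU))
      rw [hz1, mul_one] at hxU ⊢
      have : w ∈ U ⊓ W := ⟨hxU, hw⟩
      rw [hUW'] at this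
      exact this
    have hcard := hWmax _ hW'
    have hle : W ≤ W ⊔ Subgroup.zpowers v := le_sup_left
    have heq := Subgroup.eq_of_le_of_card_ge hle hcard
    apply hv
    have : v ∈ W ⊔ Subgroup.zpowers v := Subgroup.mem_sup_right (Subgroup.mem_zpowers v)
    rw [← heq] at this
    exact Subgroup.mem_sup_right this
  have hex : ∀ v : V, ∃ u ∈ U, u⁻¹ * v ∈ W := by
    intro v
    have : v ∈ U ⊔ W := by rw [hsup]; trivial
    obtain ⟨u, hu, w, hw, rfl⟩ := Subgroup.mem_sup.mp this
    exact ⟨u, hu, by rw [inv_mul_cancel_left]; exact hw⟩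
  have huniq : ∀ v u u' : V, u ∈ U → u' ∈ U → u⁻¹ * v ∈ W → u'⁻¹ * v ∈ W → u = u' := by
    intro v u u' hu hu' h1 h2
    have h3 : u⁻¹ * u' ∈ U ⊓ W := by
      refine Subgroup.mem_inf.mpr ⟨Subgroup.mul_mem _ (Subgroup.inv_mem _ hu) hu', ?_⟩
      have : u⁻¹ * u' = (u⁻¹ * v) * (u'⁻¹ * v)⁻¹ := by group
      rw [this]; exact Subgroup.mul_mem _ h1 (Subgroup.inv_mem _ h2)
    rw [hUW', Subgroup.mem_bot] at h3
    exact inv_mul_eq_one.mp h3
  choose π hπU hπW using hex
  have hπmul : ∀ v v', π (v * v') = π v * π v' := by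
    intro v v'
    apply huniq (v * v') _ _ (hπU _) (mul_mem (hπU v) (hπU v')) (hπW _)
    have : (π v * π v')⁻¹ * (v * v') = ((π v)⁻¹ * v) * ((π v')⁻¹ * v') := by
      rw [mul_inv]; exact mul_mul_mul_comm _ _ _ _
    rw [this]; exact mul_mem (hπW v) (hπW v')
  have hπid : ∀ u ∈ U, π u = u := by
    intro u hu
    exact huniq u _ _ (hπU u) hu (hπW u) (by rw [inv_mul_cancel]; exact one_mem W)
  obtain ⟨τ, hτ⟩ : ∃ τ : V → V, τ = fun v => ∏ a : A, a • π (a⁻¹ • v) := ⟨_, rfl⟩
  have hτU : ∀ v, τ v ∈ U := fun v => by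
    rw [hτ]; exact Subgroup.prod_mem _ (fun a _ => hU a _ (hπU _))
  have hτmul : ∀ v v', τ (v * v') = τ v * τ v' := by
    intro v v'
    rw [hτ]
    show ∏ a : A, a • π (a⁻¹ • (v * v')) = (∏ a : A, a • π (a⁻¹ • v)) * ∏ a : A, a • π (a⁻¹ • v')
    rw [← Finset.prod_mul_distrib]
    apply Finset.prod_congr rfl
    intro a _
    rw [smul_mul', hπmul, smul_mul']
  have hτone : τ 1 = 1 := by
    have h := hτmul 1 1
    rw [mul_one] at h
    exact mul_eq_left.mp h.symm
  have hτinv : ∀ v, τ v⁻¹ = (τ v)⁻¹ := by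
    intro v
    have h := hτmul v v⁻¹
    rw [mul_inv_cancel, hτone] at h
    exact eq_inv_of_mul_eq_one_right h.symm
  have hτeq : ∀ (b : A) v, τ (b • v) = b • τ v := by
    intro b v
    rw [hτ]
    show ∏ a : A, a • π (a⁻¹ • (b • v)) = b • ∏ a : A, a • π (a⁻¹ • v)
    rw [Finset.smul_prod']
    apply Fintype.prod_equiv (Equiv.mulLeft b⁻¹)
    intro a
    show a • π (a⁻¹ • b • v) = b • ((b⁻¹ * a) • π ((b⁻¹ * a)⁻¹ • v))
    rw [smul_smul, smul_smul, mul_inv_rev, inv_inv, mul_inv_cancel_left]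
  have hτid : ∀ u ∈ U, τ u = u ^ Nat.card A := by
    intro u hu
    rw [hτ]
    show ∏ a : A, a • π (a⁻¹ • u) = _
    have : ∀ a : A, a • π (a⁻¹ • u) = u := fun a => by rw [hπid _ (hU _ _ hu), smul_inv_smul]
    rw [Finset.prod_congr rfl (fun a _ => this a), Finset.prod_const, Finset.card_univ,
      Nat.card_eq_fintype_card]
  let K : Subgroup V :=
    { carrier := {v | τ v = 1}
      one_mem' := hτone
      mul_mem' := by
        intro x y hx hy
        show τ (x * y) = 1
        rw [hτmul, (hx : τ x = 1), (hy : τ y = 1), mul_one]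
      inv_mem' := by
        intro x hx
        show τ x⁻¹ = 1
        rw [hτinv, (hx : τ x = 1), inv_one] }
  refine ⟨K, ?_, ?_, ?_⟩
  · intro a x hx
    show τ (a • x) = 1
    rw [hτeq, (hx : τ x = 1), smul_one]
  · rw [eq_bot_iff]
    rintro x ⟨hxU, hxK⟩
    rw [Subgroup.mem_bot]
    have h1 : x ^ Nat.card A = 1 := by rw [← hτid x hxU]; exact hxK
    have h2 := hexp x
    have h3 : orderOf x ∣ Nat.gcd (Nat.card A) p :=
      Nat.dvd_gcd (orderOf_dvd_of_pow_eq_one h1) (orderOf_dvd_of_pow_eq_one h2)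
    rw [Nat.Coprime.gcd_eq_one hcop, Nat.dvd_one] at h3
    exact orderOf_eq_one_iff.mp h3
  · rw [eq_top_iff]
    intro v _
    obtain ⟨m, hm⟩ : ∃ m : ℕ, ∀ u : V, (u ^ Nat.card A) ^ m = u := by
      obtain ⟨m, -, hm⟩ := Nat.exists_mul_mod_eq_one_of_coprime hcop (Fact.out : p.Prime).one_lt
      refine ⟨m, fun u => ?_⟩
      rw [← pow_mul, ← Nat.div_add_mod (Nat.card A * m) p, hm, pow_add, pow_mul, hexp, one_pow,
        one_mul, pow_one]
    have huU : (τ v) ^ m ∈ U := pow_mem (hτU v) m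
    have hτu : τ ((τ v) ^ m) = τ v := by
      rw [hτid _ huU, ← pow_mul, mul_comm, pow_mul]; exact hm (τ v)
    have hk : ((τ v) ^ m)⁻¹ * v ∈ K := by
      show τ (((τ v) ^ m)⁻¹ * v) = 1
      rw [hτmul, hτinv, hτu, inv_mul_cancel]
    have : v = (τ v) ^ m * (((τ v) ^ m)⁻¹ * v) := by group
    rw [this]; exact mul_mem (Subgroup.mem_sup_left huU) (Subgroup.mem_sup_right hk)

theorem frat_inv {A G : Type*} [Group A] [Group G] [MulDistribMulAction A G] :
    ∀ a : A, ∀ x ∈ frattini G, a • x ∈ frattini G := by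
  intro a x hx
  have h := Subgroup.characteristic_iff_map_le.mp (frattini_characteristic (G := G))
    (MulDistribMulAction.toMulAut A G a)
  exact h ⟨x, hx, rfl⟩

theorem maschke_frat {A G : Type*} [Group A] [Finite A] [Group G] [Finite G]
    [MulDistribMulAction A G] (p : ℕ) [Fact p.Prime] (hG : IsPGroup p G)
    (hcop : (Nat.card A).Coprime p) (L : Subgroup G) (hΦL : frattini G ≤ L)
    (hLne : L ≠ frattini G) (hLinv : ∀ a : A, ∀ x ∈ L, a • x ∈ L) :
    ∃ K : Subgroup G, (∀ a : A, ∀ x ∈ K, a • x ∈ K) ∧ K ≠ ⊤ ∧ L ⊔ K = ⊤ := by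
  classical
  obtain ⟨hcomm, hpow⟩ := Cfsg.Agent.Lib.Lead.commutator_le_frattini_and_pow_mem hG
  rw [commutator_def] at hcomm
  have hΦinv := frat_inv (A := A) (G := G)
  have hle : ∀ a : A, frattini G ≤ (frattini G).comap (MulDistribMulAction.toMonoidHom G a) :=
    fun a x hx => hΦinv a x hx
  letI cg : CommGroup (G ⧸ frattini G) :=
    { (inferInstance : Group (G ⧸ frattini G)) with
      mul_comm := by
        intro x y
        obtain ⟨x, rfl⟩ := QuotientGroup.mk_surjective x
        obtain ⟨y, rfl⟩ := QuotientGroup.mk_surjective y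
        rw [← QuotientGroup.mk_mul, ← QuotientGroup.mk_mul, QuotientGroup.eq]
        have h1 : (x * y)⁻¹ * (y * x) = ⁅y⁻¹, x⁻¹⁆ := by
          rw [commutatorElement_def]; group
        rw [h1]
        exact hcomm (Subgroup.commutator_mem_commutator (Subgroup.mem_top _) (Subgroup.mem_top _)) }
  letI act : MulDistribMulAction A (G ⧸ frattini G) :=
    { smul := fun a x => QuotientGroup.map (frattini G) (frattini G)
        (MulDistribMulAction.toMonoidHom G a) (hle a) x
      one_smul := by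
        intro x
        obtain ⟨x, rfl⟩ := QuotientGroup.mk_surjective x
        show QuotientGroup.map (frattini G) (frattini G) _ _ (x : G ⧸ frattini G) = x
        rw [QuotientGroup.map_mk]
        simp
      mul_smul := by
        intro a b x
        obtain ⟨x, rfl⟩ := QuotientGroup.mk_surjective x
        show QuotientGroup.map (frattini G) (frattini G) _ _ (x : G ⧸ frattini G) =
          QuotientGroup.map (frattini G) (frattini G) _ _
            (QuotientGroup.map (frattini G) (frattini G) _ _ (x : G ⧸ frattini G))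
        rw [QuotientGroup.map_mk, QuotientGroup.map_mk, QuotientGroup.map_mk]
        simp [mul_smul]
      smul_mul := by
        intro a x y
        exact map_mul (QuotientGroup.map (frattini G) (frattini G)
          (MulDistribMulAction.toMonoidHom G a) (hle a)) x y
      smul_one := by
        intro a
        exact map_one (QuotientGroup.map (frattini G) (frattini G)
          (MulDistribMulAction.toMonoidHom G a) (hle a)) }
  have hsmk : ∀ (a : A) (g : G), a • (g : G ⧸ frattini G) = ((a • g : G) : G ⧸ frattini G) :=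
    fun a g => rfl
  have hexp : ∀ v : G ⧸ frattini G, v ^ p = 1 := by
    intro v
    obtain ⟨g, rfl⟩ := QuotientGroup.mk_surjective v
    rw [← QuotientGroup.mk_pow, QuotientGroup.eq_one_iff]
    exact hpow g
  obtain ⟨Kb, hKbinv, hKbinf, hKbsup⟩ := maschke_mul p hexp hcop
    (L.map (QuotientGroup.mk' (frattini G))) (by
      rintro a x ⟨l, hl, rfl⟩
      exact ⟨a • l, hLinv a l hl, rfl⟩)
  refine ⟨Kb.comap (QuotientGroup.mk' (frattini G)), ?_, ?_, ?_⟩
  · intro a x hx
    rw [Subgroup.mem_comap] at hx ⊢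
    exact hKbinv a _ hx
  · intro htop
    apply hLne
    apply le_antisymm _ hΦL
    intro l hl
    have h1 : (QuotientGroup.mk' (frattini G)) l ∈ Kb := by
      have : l ∈ Kb.comap (QuotientGroup.mk' (frattini G)) := by rw [htop]; trivial
      exact this
    have h2 : (QuotientGroup.mk' (frattini G)) l ∈
        L.map (QuotientGroup.mk' (frattini G)) ⊓ Kb := ⟨⟨l, hl, rfl⟩, h1⟩
    rw [hKbinf, Subgroup.mem_bot] at h2
    exact (QuotientGroup.eq_one_iff l).mp h2
  · rw [eq_top_iff]
    intro g _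
    have h1 : (QuotientGroup.mk' (frattini G)) g ∈
        L.map (QuotientGroup.mk' (frattini G)) ⊔ Kb := by rw [hKbsup]; trivial
    obtain ⟨u, ⟨l, hl, rfl⟩, k, hk, hmul⟩ := Subgroup.mem_sup.mp h1
    have h2 : l⁻¹ * g ∈ Kb.comap (QuotientGroup.mk' (frattini G)) := by
      rw [Subgroup.mem_comap, map_mul, map_inv, ← hmul]
      rw [inv_mul_cancel_left]
      exact hk
    have : g = l * (l⁻¹ * g) := by group
    rw [this]
    exact mul_mem (Subgroup.mem_sup_left hl) (Subgroup.mem_sup_right h2)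

theorem inv_sylow_act {A G : Type*} [Group A] [Finite A] [Group G] [Finite G]
    [MulDistribMulAction A G] (hcop : (Nat.card A).Coprime (Nat.card G))
    (hsol : Group.IsSolvable A ∨ Group.IsSolvable G) (p : ℕ) [Fact p.Prime] :
    ∃ P : Subgroup G, Nat.card P = p ^ (Nat.card G).factorization p ∧
      ∀ a : A, ∀ x ∈ P, a • x ∈ P := by
  classical
  let φ : A →* MulAut G := MulDistribMulAction.toMulAut A G
  haveI : Finite (G ⋊[φ] A) := Finite.of_equiv _ SemidirectProduct.equivProd.symm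
  let K : Subgroup (G ⋊[φ] A) := (SemidirectProduct.inl : G →* G ⋊[φ] A).range
  let A' : Subgroup (G ⋊[φ] A) := (SemidirectProduct.inr : A →* G ⋊[φ] A).range
  haveI hKn : K.Normal := by
    show ((SemidirectProduct.inl : G →* G ⋊[φ] A).range).Normal
    rw [SemidirectProduct.range_inl_eq_ker_rightHom]
    infer_instance
  have hAK : A' ≤ Subgroup.normalizer (K : Set (G ⋊[φ] A)) := by
    rw [Subgroup.normalizer_eq_top]
    exact le_top
  have hcK : Nat.card K = Nat.card G :=
    (Nat.card_congr (MonoidHom.ofInjective (SemidirectProduct.inl_injective (φ := φ))).toEquiv).symm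
  have hcA : Nat.card A' = Nat.card A :=
    (Nat.card_congr (MonoidHom.ofInjective (SemidirectProduct.inr_injective (φ := φ))).toEquiv).symm
  have hcop' : (Nat.card A').Coprime (Nat.card K) := by rw [hcK, hcA]; exact hcop
  have hsolv' : Group.IsSolvable A' ∨ Group.IsSolvable K := by
    rcases hsol with h | h
    · left
      exact solvable_of_surjective (SemidirectProduct.inr : A →* G ⋊[φ] A).rangeRestrict_surjective
    · right
      exact solvable_of_surjective (SemidirectProduct.inl : G →* G ⋊[φ] A).rangeRestrict_surjective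
  obtain ⟨P₀, hP₀⟩ := Cfsg.Agent.Lib.Lead.exists_invariant_sylow A' K hAK hcop' hsolv' p
  obtain ⟨S, hS⟩ : ∃ S : Subgroup (G ⋊[φ] A), S = (P₀ : Subgroup K).map K.subtype := ⟨_, rfl⟩
  rw [← hS] at hP₀
  refine ⟨S.comap SemidirectProduct.inl, ?_, ?_⟩
  · have h1 : (S.comap (SemidirectProduct.inl : G →* G ⋊[φ] A)).map SemidirectProduct.inl = S := by
      rw [Subgroup.map_comap_eq, inf_eq_right, hS]
      exact Subgroup.map_subtype_le _
    rw [← Subgroup.card_map_of_injective (SemidirectProduct.inl_injective (φ := φ)), h1, hS,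
      Subgroup.card_map_of_injective K.subtype_injective, Sylow.card_eq_multiplicity, hcK]
  · intro a x hx
    rw [Subgroup.mem_comap] at hx ⊢
    have h1 : (SemidirectProduct.inr a : G ⋊[φ] A) ∈ A' := ⟨a, rfl⟩
    have h2 := (Subgroup.mem_normalizer_iff.mp (hP₀ h1) _).mp hx
    have h3 : (SemidirectProduct.inl (a • x) : G ⋊[φ] A) =
        SemidirectProduct.inr a * SemidirectProduct.inl x * (SemidirectProduct.inr a)⁻¹ := by
      rw [← map_inv, ← SemidirectProduct.inl_aut]; rfl
    rw [h3]; exact h2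

theorem exists_max_inv {A G : Type*} [Group A] [Group G] [Finite G] [MulDistribMulAction A G]
    (H : Subgroup G) (hH : H ≠ ⊤) (hinv : ∀ a : A, ∀ x ∈ H, a • x ∈ H) :
    ∃ M : Subgroup G, H ≤ M ∧ (M ≠ ⊤ ∧ (∀ a : A, ∀ x ∈ M, a • x ∈ M) ∧
      ∀ L : Subgroup G, M < L → (∀ a : A, ∀ x ∈ L, a • x ∈ L) → L = ⊤) := by
  obtain ⟨M, ⟨hHM, hM, hMinv⟩, hmax⟩ := Set.exists_max_image
    {M : Subgroup G | H ≤ M ∧ M ≠ ⊤ ∧ ∀ a : A, ∀ x ∈ M, a • x ∈ M} (fun M => Nat.card M)
    (Set.toFinite _) ⟨H, le_rfl, hH, hinv⟩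
  refine ⟨M, hHM, hM, hMinv, ?_⟩
  intro L hML hL
  by_contra hne
  have := hmax L ⟨hHM.trans hML.le, hne, hL⟩
  have heq := Subgroup.eq_of_le_of_card_ge hML.le this
  exact hML.ne heq

/-- Let the finite group A act by automorphisms on the finite group G with the orders of A and G coprime, and assume that A or G is solvable. Call a proper A-invariant subgroup of G maximal A-invariant when no A-invariant subgroup lies strictly between it and G. Then all maximal A-invariant subgroups of G are conjugate under elements of the fixed-point subgroup C_G(A) if and only if G is a p-group for some prime p and A leaves invariant no subgroup strictly between the Frattini subgroup of G and G. In that case, if G is nontrivial, the Frattini subgroup is the only maximal A-invariant subgroup (a trivial G has none). -/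
theorem result {A G : Type*} [Group A] [Finite A]
    [Group G] [Finite G] [MulDistribMulAction A G] (hcop : (Nat.card A).Coprime (Nat.card G)) (hsol : Group.IsSolvable A ∨ Group.IsSolvable G) :
    ((∀ M N : Subgroup G, (M ≠ ⊤ ∧ (∀ a : A, ∀ x ∈ M, a • x ∈ M) ∧ ∀ L : Subgroup G, M < L → (∀ a : A, ∀ x ∈ L, a • x ∈ L) → L = ⊤) → (N ≠ ⊤ ∧ (∀ a : A, ∀ x ∈ N, a • x ∈ N) ∧ ∀ L : Subgroup G, N < L → (∀ a : A, ∀ x ∈ L, a • x ∈ L) → L = ⊤) →
        ∃ c : G, (∀ a : A, a • c = c) ∧ N = MulAut.conj c • M) ↔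
      ((∃ p : ℕ, p.Prime ∧ IsPGroup p G) ∧ ∀ L : Subgroup G, frattini G < L → (∀ a : A, ∀ x ∈ L, a • x ∈ L) → L = ⊤)) ∧
    (((∃ p : ℕ, p.Prime ∧ IsPGroup p G) ∧ ∀ L : Subgroup G, frattini G < L → (∀ a : A, ∀ x ∈ L, a • x ∈ L) → L = ⊤) →
      ∀ M : Subgroup G, (M ≠ ⊤ ∧ (∀ a : A, ∀ x ∈ M, a • x ∈ M) ∧ ∀ L : Subgroup G, M < L → (∀ a : A, ∀ x ∈ L, a • x ∈ L) → L = ⊤) ↔ (M = frattini G ∧ M ≠ ⊤)) := by
  classical
  have hΦinv := frat_inv (A := A) (G := G)
  have key2 : ((∃ p : ℕ, p.Prime ∧ IsPGroup p G) ∧ ∀ L : Subgroup G, frattini G < L →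
      (∀ a : A, ∀ x ∈ L, a • x ∈ L) → L = ⊤) →
      ∀ M : Subgroup G, (M ≠ ⊤ ∧ (∀ a : A, ∀ x ∈ M, a • x ∈ M) ∧ ∀ L : Subgroup G, M < L →
        (∀ a : A, ∀ x ∈ L, a • x ∈ L) → L = ⊤) ↔ (M = frattini G ∧ M ≠ ⊤) := by
    rintro ⟨-, hirr⟩ M
    constructor
    · rintro ⟨hM, hMinv, hMmax⟩
      refine ⟨?_, hM⟩
      have hsupinv : ∀ a : A, ∀ x ∈ M ⊔ frattini G, a • x ∈ M ⊔ frattini G := by
        intro a x hx
        rw [Subgroup.mem_sup_of_normal_right] at hx ⊢
        obtain ⟨m, hm, f, hf, rfl⟩ := hx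
        exact ⟨a • m, hMinv a m hm, a • f, hΦinv a f hf, (smul_mul' a m f).symm⟩
      have hsupne : M ⊔ frattini G ≠ ⊤ := fun h => hM (frattini_nongenerating h)
      have hle : frattini G ≤ M := by
        by_contra hnle
        have hlt : M < M ⊔ frattini G :=
          lt_of_le_of_ne le_sup_left (fun h => hnle (h ▸ le_sup_right))
        exact hsupne (hMmax _ hlt hsupinv)
      by_contra hne
      have hlt : frattini G < M := lt_of_le_of_ne hle (fun h => hne h.symm)
      exact hM (hirr M hlt hMinv)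
    · rintro ⟨rfl, hM⟩
      exact ⟨hM, hΦinv, fun L hL hLinv => hirr L hL hLinv⟩
  refine ⟨⟨?_, ?_⟩, key2⟩
  · intro hconj
    have hpG : ∃ p : ℕ, p.Prime ∧ IsPGroup p G := by
      by_cases htriv : (⊥ : Subgroup G) = ⊤
      · refine ⟨2, Nat.prime_two, ?_⟩
        intro g
        refine ⟨0, ?_⟩
        have : g ∈ (⊥ : Subgroup G) := by rw [htriv]; trivial
        rw [Subgroup.mem_bot] at this
        rw [this, pow_zero, pow_one]
      · obtain ⟨M₀, -, hM₀⟩ := exists_max_inv (A := A) (⊥ : Subgroup G) htriv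
          (fun a x hx => by rw [Subgroup.mem_bot] at hx ⊢; rw [hx, smul_one])
        by_contra hno
        push Not at hno
        have hdvd : Nat.card G ∣ Nat.card M₀ := by
          rw [← Nat.factorization_le_iff_dvd Nat.card_pos.ne' Nat.card_pos.ne']
          intro q
          by_cases hq : q.Prime
          · haveI : Fact q.Prime := ⟨hq⟩
            obtain ⟨P, hPcard, hPinv⟩ := inv_sylow_act hcop hsol q
            have hPne : P ≠ ⊤ := by
              intro h
              apply hno q hq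
              apply IsPGroup.of_card (n := (Nat.card G).factorization q)
              rw [← hPcard, h, Subgroup.card_top]
            obtain ⟨M, hPM, hM⟩ := exists_max_inv P hPne hPinv
            obtain ⟨c, -, hc⟩ := hconj M M₀ hM hM₀
            have hcard : Nat.card M₀ = Nat.card M := by
              rw [hc]; exact (Nat.card_congr (Subgroup.equivSMul (MulAut.conj c) M).toEquiv).symm
            rw [← Nat.Prime.pow_dvd_iff_le_factorization hq Nat.card_pos.ne', hcard, ← hPcard]
            exact Subgroup.card_dvd_of_le hPM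
          · rw [Nat.factorization_eq_zero_of_not_prime _ hq]; exact Nat.zero_le _
        have := Subgroup.eq_top_of_le_card M₀ (Nat.le_of_dvd Nat.card_pos hdvd)
        exact hM₀.1 this
    refine ⟨hpG, ?_⟩
    obtain ⟨p, hp, hG⟩ := hpG
    haveI : Fact p.Prime := ⟨hp⟩
    intro L hΦL hLinv
    by_contra hLne
    have hpdvd : p ∣ Nat.card G := by
      obtain ⟨n, hn⟩ := IsPGroup.iff_card.mp hG
      rcases Nat.eq_zero_or_pos n with h0 | h0
      · exfalso
        rw [h0, pow_zero] at hn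
        haveI : Subsingleton G := (Nat.card_eq_one_iff_unique.mp hn).1
        exact hLne (Subsingleton.elim _ _)
      · rw [hn]; exact dvd_pow_self p h0.ne'
    have hcop' : (Nat.card A).Coprime p := Nat.Coprime.coprime_dvd_right hpdvd hcop
    obtain ⟨K, hKinv, hKne, hLK⟩ := maschke_frat p hG hcop' L hΦL.le (fun h => hΦL.ne h.symm) hLinv
    obtain ⟨M₁, hLM₁, hM₁⟩ := exists_max_inv L hLne hLinv
    obtain ⟨M₂, hKM₂, hM₂⟩ := exists_max_inv K hKne hKinv
    obtain ⟨c, -, hc⟩ := hconj M₁ M₂ hM₁ hM₂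
    have hcomm := (Cfsg.Agent.Lib.Lead.commutator_le_frattini_and_pow_mem hG).1
    rw [commutator_def] at hcomm
    have hΦM₁ : frattini G ≤ M₁ := hΦL.le.trans hLM₁
    have hnorm : ∀ g : G, ∀ m ∈ M₁, g * m * g⁻¹ ∈ M₁ := by
      intro g m hm
      have h1 : ⁅g, m⁆ ∈ frattini G :=
        hcomm (Subgroup.commutator_mem_commutator (Subgroup.mem_top g) (Subgroup.mem_top m))
      rw [commutatorElement_def] at h1
      have h2 : g * m * g⁻¹ = (g * m * g⁻¹ * m⁻¹) * m := by group
      rw [h2]; exact mul_mem (hΦM₁ h1) hm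
    have hKM₁ : K ≤ M₁ := by
      intro k hk
      have h1 := hKM₂ hk
      rw [hc, Subgroup.mem_smul_pointwise_iff_exists] at h1
      obtain ⟨m, hm, rfl⟩ := h1
      exact hnorm c m hm
    have : (⊤ : Subgroup G) ≤ M₁ := by rw [← hLK]; exact sup_le hLM₁ hKM₁
    exact hM₁.1 (top_le_iff.mp this)
  · intro hR M N hM hN
    have h1 := (key2 hR M).mp hM
    have h2 := (key2 hR N).mp hN
    refine ⟨1, fun a => smul_one a, ?_⟩
    rw [h1.1, h2.1]
    simp

end Cfsg.Agent.S4381
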