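import Mathlib
import Cfsg.Statements.S4387
import Cfsg.Agent.Lib.Helper7.Jordan

set_option autoImplicit false
open Pointwise
open Cfsg Cfsg.Agent.Lib.Helper7

namespace Cfsg.Agent.S4387

/-- Let G be a non-trivial finite group in which any two maximal subgroups are conjugate. Then G is cyclic of prime-power order. -/
theorem result {G : Type*} [Group G] [Finite G] [Nontrivial G]
    (h : ∀ M N : Subgroup G, IsCoatom M → IsCoatom N → ∃ g : G, N = MulAut.conj g • M) :
    IsCyclic G ∧ IsPrimePow (Nat.card G) := by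
  have hbt : (⊥ : Subgroup G) ≠ ⊤ := bot_ne_top
  obtain ⟨M, hM, -⟩ := (eq_top_or_exists_le_coatom (⊥ : Subgroup G)).resolve_left hbt
  obtain ⟨x, hx⟩ := exists_not_mem_conj M hM.1
  have hxtop : Subgroup.zpowers x = ⊤ := by
    by_contra hne
    obtain ⟨N, hN, hxN⟩ := (eq_top_or_exists_le_coatom (Subgroup.zpowers x)).resolve_left hne
    obtain ⟨g, rfl⟩ := h M N hM hN
    exact hx g (hxN (Subgroup.mem_zpowers x))
  have hcyc : IsCyclic G := isCyclic_iff_exists_zpowers_eq_top.2 ⟨x, hxtop⟩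
  refine ⟨hcyc, ?_⟩
  have hcomm : ∀ a b : G, a * b = b * a := by
    intro a b
    have ha : a ∈ Subgroup.zpowers x := by rw [hxtop]; trivial
    have hb : b ∈ Subgroup.zpowers x := by rw [hxtop]; trivial
    obtain ⟨i, rfl⟩ := Subgroup.mem_zpowers_iff.1 ha
    obtain ⟨j, rfl⟩ := Subgroup.mem_zpowers_iff.1 hb
    rw [← zpow_add, ← zpow_add, add_comm]
  have hMuniq : ∀ K : Subgroup G, K ≠ ⊤ → K ≤ M := by
    intro K hK
    obtain ⟨N, hN, hKN⟩ := (eq_top_or_exists_le_coatom K).resolve_left hK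
    obtain ⟨g, rfl⟩ := h M N hM hN
    intro y hy
    have := hKN hy
    rw [mem_conj_smul_iff] at this
    have e : g⁻¹ * y * g = y := by rw [mul_assoc, hcomm y g, ← mul_assoc, inv_mul_cancel, one_mul]
    rwa [e] at this
  have hxM : x ∉ M := by
    intro hxM
    apply hM.1
    rw [eq_top_iff, ← hxtop, Subgroup.zpowers_le]
    exact hxM
  have hord : orderOf x = Nat.card G :=
    orderOf_eq_card_of_forall_mem_zpowers (fun y => by rw [hxtop]; trivial)
  have hpow : ∀ q : ℕ, q.Prime → q ∣ Nat.card G → x ^ q ∈ M := by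
    intro q hq hqn
    apply hMuniq (Subgroup.zpowers (x ^ q))
    · intro htop
      have hxm : x ∈ Subgroup.zpowers (x ^ q) := by rw [htop]; trivial
      obtain ⟨k, hk⟩ := Subgroup.mem_zpowers_iff.1 hxm
      have h1 : x ^ ((q : ℤ) * k - 1) = 1 := by
        rw [zpow_sub, zpow_mul, zpow_natCast, hk, zpow_one, mul_inv_cancel]
      have h2 := orderOf_dvd_iff_zpow_eq_one.2 h1
      rw [hord] at h2
      have h3 : (q : ℤ) ∣ (q : ℤ) * k - 1 := (Int.natCast_dvd_natCast.2 hqn).trans h2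
      have h4 : (q : ℤ) ∣ 1 := by
        have := dvd_sub (dvd_mul_right (q : ℤ) k) h3
        simpa using this
      have h5 : q ∣ 1 := by exact_mod_cast h4
      exact hq.one_lt.ne' (Nat.dvd_one.1 h5)
    · exact Subgroup.mem_zpowers _
  rw [isPrimePow_iff_unique_prime_dvd]
  have hn1 : Nat.card G ≠ 1 := by
    have := Finite.one_lt_card (α := G)
    omega
  obtain ⟨p, hp, hpn⟩ := Nat.exists_prime_and_dvd hn1
  refine ⟨p, ⟨hp, hpn⟩, ?_⟩
  rintro q ⟨hq, hqn⟩
  by_contra hne
  apply hxM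
  have hcop : Nat.Coprime p q := (Nat.coprime_primes hp hq).2 (fun h => hne h.symm)
  have h1 := hpow p hp hpn
  have h2 := hpow q hq hqn
  have hb := Nat.gcd_eq_gcd_ab p q
  rw [hcop] at hb
  have : x = (x ^ p) ^ (Nat.gcdA p q) * (x ^ q) ^ (Nat.gcdB p q) := by
    rw [← zpow_natCast, ← zpow_natCast, ← zpow_mul, ← zpow_mul, ← zpow_add, ← hb]
    simp
  rw [this]
  exact M.mul_mem (M.zpow_mem h1 _) (M.zpow_mem h2 _)

end Cfsg.Agent.S4387
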