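import Mathlib
import Cfsg.Statements.S4399
import Cfsg.Agent.Lib.Helper7.MaxClass2

set_option autoImplicit false
open Cfsg

namespace Cfsg.Agent.S4399



/-- Let S be a finite 2-group whose commutator quotient S/[S,S] is a Klein four-group (order 4 and exponent 2). Then S itself has order 4, or S is dihedral of order at least 8, semidihedral of order at least 16 (order 2^(k+4) with an element a of order 2^(k+3) and an involution b with b a b⁻¹ = a^(2^(k+2)−1)), or generalized quaternion of order at least 8. -/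
theorem result {S : Type*} [Group S] [Finite S] (h2 : IsPGroup 2 S) (hab : Nat.card (Abelianization S) = 4)
    (hexp : ∀ x : Abelianization S, x ^ 2 = 1) :
    Nat.card S = 4 ∨
    ((∃ k : ℕ, Nonempty (S ≃* DihedralGroup (2 ^ (k + 2)))) ∨
      (∃ k : ℕ, Nat.card S = 2 ^ (k + 4) ∧ ∃ a b : S, orderOf a = 2 ^ (k + 3) ∧ orderOf b = 2 ∧ b * a * b⁻¹ = a ^ (2 ^ (k + 2) - 1)) ∨
      (∃ k : ℕ, Nonempty (S ≃* QuaternionGroup (2 ^ (k + 1))))) := by
  haveI : Fact (Nat.Prime 2) := ⟨Nat.prime_two⟩
  obtain ⟨n, hn⟩ := IsPGroup.iff_card.mp h2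
  have hKF : Cfsg.Agent.S0115.KF S := by
    refine ⟨?_, ?_⟩
    · rw [Subgroup.index_eq_card]; exact hab
    · intro x
      rw [← QuotientGroup.eq_one_iff, QuotientGroup.mk_pow]
      exact hexp (x : S ⧸ commutator S)
  have hcc : Nat.card (commutator S) * 4 = 2 ^ n := by
    have h1 := Subgroup.card_mul_index (commutator S)
    rw [hKF.1, hn] at h1; exact h1
  have hn2 : 2 ≤ n := by
    have h4 : 4 ∣ 2 ^ n := ⟨Nat.card (commutator S), by rw [← hcc]; ring⟩
    have h4' : 2 ^ 2 ∣ 2 ^ n := by norm_num; exact h4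
    exact (Nat.pow_dvd_pow_iff_le_right (by norm_num)).mp h4'
  by_cases hn2' : n = 2
  · left; rw [hn, hn2']; norm_num
  right
  have hn3 : 3 ≤ n := by omega
  have hcl := Cfsg.Agent.S0115.bwd n hn2 S hn hKF
  obtain ⟨m, c, g, w, hm, hordc, hgC, hCidx, hw, hw1, hw2, hZ, hwcent, hinv, hg2, hsurj⟩ :=
    Cfsg.Agent.Lib.Helper7.MC2.max_class_structure n hn3 hn hcl
  have hmpos : 0 < m := by rw [hm]; positivity
  haveI : NeZero m := ⟨by omega⟩
  haveI : NeZero (m * 2) := ⟨by omega⟩
  have hcm2 : c ^ (m * 2) = 1 := by rw [← hordc]; exact pow_orderOf_eq_one c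
  have hSm : Nat.card S = m * 2 * 2 := by
    rw [hn, hm, ← pow_succ, ← pow_succ]; congr 1; omega
  have hgg : g * g = g ^ 2 := (pow_two g).symm
  rcases hinv with hA | hB
  · have hconj : g * c * g⁻¹ = c⁻¹ := eq_inv_of_mul_eq_one_right hA
    rcases hg2 with hg1 | hgw
    · left
      refine ⟨n - 3, ?_⟩
      have e : 2 ^ (n - 3 + 2) = m * 2 := by rw [hm, ← pow_succ]; congr 1; omega
      rw [e]
      exact Cfsg.Agent.S0114.dihedral_iso (m * 2) c g hcm2 (by rw [hgg, hg1]) hconj
        (by rw [hSm]; ring) hsurj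
    · right; right
      refine ⟨n - 3, ?_⟩
      have e : 2 ^ (n - 3 + 1) = m := by rw [hm]; congr 1; omega
      rw [e]
      exact Cfsg.Agent.Lib.Helper7.MC2.quaternion_iso m c g (by rw [mul_comm]; exact hcm2)
        (by rw [hgg, hgw, hw]) hconj (by rw [hSm]; ring) hsurj
  · right; left
    have hconj : g * c * g⁻¹ = c⁻¹ * w := by
      rw [← hB]; group
    have hm2 : m ≠ 2 := by
      intro h
      have h1 : g * c * g⁻¹ = c := by rw [hconj, hw, h]; group
      have hgc : g * c = c * g := by
        calc g * c = (g * c * g⁻¹) * g := by group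
          _ = c * g := by rw [h1]
      have hcc' : c ∈ Subgroup.center S := by
        rw [Subgroup.mem_center_iff]
        intro x
        rcases hsurj x with ⟨t, rfl⟩ | ⟨t, rfl⟩
        · exact ((Commute.refl c).zpow_left t).eq
        · calc g * c ^ t * c = g * (c ^ t * c) := by rw [mul_assoc]
            _ = g * (c * c ^ t) := by rw [((Commute.refl c).zpow_left t).eq]
            _ = (g * c) * c ^ t := by rw [mul_assoc]
            _ = c * (g * c ^ t) := by rw [hgc, mul_assoc]
      have hc2 : c ^ 2 = 1 := by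
        rcases hZ c hcc' with h0 | h0
        · rw [h0, one_pow]
        · rw [h0]; exact hw2
      have h3 := orderOf_dvd_of_pow_eq_one hc2
      rw [hordc, h] at h3
      norm_num at h3
    have hn4 : 4 ≤ n := by
      by_contra hlt
      have hn3' : n = 3 := by omega
      apply hm2
      rw [hm, hn3']
      norm_num
    refine ⟨n - 4, ?_, ?_⟩
    · rw [hn]; congr 1; omega
    have e1 : 2 ^ (n - 4 + 3) = m * 2 := by rw [hm, ← pow_succ]; congr 1; omega
    have e2 : 2 ^ (n - 4 + 2) = m := by rw [hm]; congr 1; omega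
    rw [e1, e2]
    have hcm1 : c ^ (m - 1) = c⁻¹ * w := by
      rw [hw]
      have h5 : c ^ m = c ^ (m - 1) * c := by rw [← pow_succ]; congr 1; omega
      rw [h5]; group
    rcases hg2 with hg1 | hgw
    · refine ⟨c, g, hordc, orderOf_eq_prime hg1 ?_, ?_⟩
      · intro h; apply hgC; rw [h]; exact Subgroup.one_mem _
      · rw [hcm1]; exact hconj
    · refine ⟨c, g * c, hordc, orderOf_eq_prime ?_ ?_, ?_⟩
      · calc (g * c) ^ 2 = (g * c * g⁻¹) * g ^ 2 * c := by rw [pow_two, pow_two]; group
          _ = c⁻¹ * w * w * c := by rw [hconj, hgw]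
          _ = c⁻¹ * (w ^ 2) * c := by rw [pow_two]; group
          _ = 1 := by rw [hw2]; group
      · intro h
        apply hgC
        have h6 : g = c⁻¹ := eq_inv_of_mul_eq_one_left h
        rw [h6]; exact Subgroup.inv_mem _ (Subgroup.mem_zpowers c)
      · rw [hcm1, ← hconj]; group


end Cfsg.Agent.S4399
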