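import Mathlib
import Cfsg.Statements.S4400
import Cfsg.Agent.Lib.Lead.Nilpotent
import Cfsg.Agent.Lib.Lead.PFrat

set_option autoImplicit false
open Cfsg

namespace Cfsg.Agent.S4400

open scoped Pointwise commutatorElement

theorem comm_of_sq {G : Type*} [Group G] (h : ∀ x : G, x ^ 2 = 1) (a b : G) : a * b = b * a := by
  have ha : a⁻¹ = a := by
    rw [inv_eq_iff_mul_eq_one, ← pow_two]; exact h a
  have hb : b⁻¹ = b := by
    rw [inv_eq_iff_mul_eq_one, ← pow_two]; exact h b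
  have hab : (a * b)⁻¹ = a * b := by
    rw [inv_eq_iff_mul_eq_one, ← pow_two]; exact h (a * b)
  rw [← hab, mul_inv_rev, ha, hb]

theorem card_sub_eq {S : Type*} [Group S] (H K : Subgroup S) (h : H ≤ K) :
    Nat.card (H.subgroupOf K) = Nat.card H :=
  Nat.card_congr (Subgroup.subgroupOfEquivOfLe h).toEquiv

theorem center_le_of_normal {S : Type*} [Group S] [Finite S] (h2 : IsPGroup 2 S)
    (P : Subgroup S) (hZP : Nat.card ↥(Subgroup.center ↥P) = 2) (M : Subgroup S) (hMP : M ≤ P)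
    (hMn : ∀ g ∈ P, ∀ m ∈ M, g * m * g⁻¹ ∈ M) (hM : M ≠ ⊥) :
    (Subgroup.center ↥P).map P.subtype ≤ M := by
  haveI : Fact (Nat.Prime 2) := ⟨Nat.prime_two⟩
  haveI : Group.IsNilpotent ↥P := (h2.to_subgroup P).isNilpotent
  haveI : (M.subgroupOf P).Normal := ⟨fun m hm g => by
    rw [Subgroup.mem_subgroupOf] at hm ⊢
    exact hMn g.1 g.2 m.1 hm⟩
  have hne : M.subgroupOf P ≠ ⊥ := by
    intro h
    apply hM
    rw [Subgroup.subgroupOf_eq_bot] at h
    exact (disjoint_of_le_iff_left_eq_bot hMP).mp h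
  have h1 := Cfsg.Agent.Lib.Lead.normal_inf_center_ne_bot (M.subgroupOf P) hne
  have h3 : M.subgroupOf P ⊓ Subgroup.center ↥P = Subgroup.center ↥P := by
    have hd := Subgroup.card_dvd_of_le (inf_le_right : M.subgroupOf P ⊓ Subgroup.center ↥P ≤ Subgroup.center ↥P)
    rw [hZP] at hd
    have h4 : Nat.card ↥(M.subgroupOf P ⊓ Subgroup.center ↥P) ≠ 1 := by
      intro h; exact h1 ((Subgroup.eq_bot_iff_card _).mpr h)
    have h5 : Nat.card ↥(M.subgroupOf P ⊓ Subgroup.center ↥P) = 2 := by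
      rcases (Nat.dvd_prime Nat.prime_two).mp hd with h | h
      · exact absurd h h4
      · exact h
    exact Subgroup.eq_of_le_of_card_ge inf_le_right (by rw [hZP, h5])
  intro x hx
  obtain ⟨y, hy, rfl⟩ := hx
  have hy' : y ∈ Subgroup.center ↥P := hy
  rw [← h3] at hy'
  exact hy'.1

theorem four_le_index_frattini {P : Type*} [Group P] [Finite P] (h2 : IsPGroup 2 P)
    (hP : ¬ ∀ a b : P, a * b = b * a) : 4 ≤ (frattini P).index := by
  haveI : Fact (Nat.Prime 2) := ⟨Nat.prime_two⟩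
  obtain ⟨n, hn⟩ := h2.index (frattini P)
  by_contra hlt
  have hn1 : n ≤ 1 := by
    by_contra h
    push Not at h
    have : 2 ^ 2 ≤ 2 ^ n := Nat.pow_le_pow_right (by norm_num) h
    omega
  haveI : IsCyclic (P ⧸ frattini P) := by
    interval_cases n
    · haveI : Subsingleton (P ⧸ frattini P) := by
        rw [← Finite.card_le_one_iff_subsingleton, ← Subgroup.index_eq_card, hn]
        norm_num
      infer_instance
    · exact isCyclic_of_prime_card (p := 2) (by rw [← Subgroup.index_eq_card]; exact hn)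
  obtain ⟨g, hg⟩ := IsCyclic.exists_generator (α := P ⧸ frattini P)
  obtain ⟨x, rfl⟩ := QuotientGroup.mk_surjective g
  have htop : Subgroup.zpowers x ⊔ frattini P = ⊤ := by
    rw [eq_top_iff]; intro y _
    obtain ⟨k, hk⟩ := Subgroup.mem_zpowers_iff.mp (hg (y : P ⧸ frattini P))
    have : (x ^ k)⁻¹ * y ∈ frattini P := by
      rw [← QuotientGroup.eq, QuotientGroup.mk_zpow]; exact hk
    have h3 : y = x ^ k * ((x ^ k)⁻¹ * y) := by group
    rw [h3]
    exact Subgroup.mul_mem _ (Subgroup.mem_sup_left (Subgroup.zpow_mem_zpowers x k)) (Subgroup.mem_sup_right this)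
  have := frattini_nongenerating htop
  apply hP; intro a b
  have ha : a ∈ Subgroup.zpowers x := this ▸ Subgroup.mem_top a
  have hb : b ∈ Subgroup.zpowers x := this ▸ Subgroup.mem_top b
  obtain ⟨i, rfl⟩ := Subgroup.mem_zpowers_iff.mp ha
  obtain ⟨j, rfl⟩ := Subgroup.mem_zpowers_iff.mp hb
  exact (Commute.zpow_zpow_self x i j)

/-- facts on the Frattini image of a nonabelian normal 2-subgroup with centre of order 2 -/
theorem frat_facts {S : Type*} [Group S] [Finite S] (h2 : IsPGroup 2 S)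
    (P : Subgroup S) [P.Normal] (hP : ¬ IsMulCommutative ↥P)
    (hZP : Nat.card ↥(Subgroup.center ↥P) = 2) :
    ((frattini ↥P).map P.subtype).Normal ∧ (frattini ↥P).map P.subtype ≤ P ∧
    (∀ x ∈ P, x ^ 2 ∈ (frattini ↥P).map P.subtype) ∧
    (Subgroup.center ↥P).map P.subtype ≤ (frattini ↥P).map P.subtype ∧
    4 * Nat.card ↥((frattini ↥P).map P.subtype) ≤ Nat.card ↥P := by
  haveI : Fact (Nat.Prime 2) := ⟨Nat.prime_two⟩
  have hn : ((frattini ↥P).map P.subtype).Normal := inferInstance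
  have hle : (frattini ↥P).map P.subtype ≤ P := Subgroup.map_subtype_le _
  have hP' : ¬ ∀ a b : ↥P, a * b = b * a := fun h => hP ⟨⟨h⟩⟩
  have hsq : ∀ x ∈ P, x ^ 2 ∈ (frattini ↥P).map P.subtype := by
    intro x hx
    exact ⟨⟨x, hx⟩ ^ 2, (Cfsg.Agent.Lib.Lead.commutator_le_frattini_and_pow_mem (h2.to_subgroup P)).2 ⟨x, hx⟩, rfl⟩
  have hne : (frattini ↥P).map P.subtype ≠ ⊥ := by
    intro h
    apply hP'
    apply comm_of_sq
    intro x
    have := hsq x.1 x.2
    rw [h, Subgroup.mem_bot] at this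
    exact Subtype.ext this
  refine ⟨hn, hle, hsq, center_le_of_normal h2 P hZP _ hle (fun g _ m hm => hn.conj_mem m hm g) hne, ?_⟩
  have h4 := four_le_index_frattini (h2.to_subgroup P) hP'
  rw [Subgroup.card_map_of_injective P.subtype_injective, ← Subgroup.card_mul_index (frattini ↥P), mul_comm]
  exact Nat.mul_le_mul_left _ h4

/-- Let S be a finite 2-group of sectional 2-rank at most 4, and let P and Q be normal non-abelian subgroups of S whose centres have order 2 and are different. Then P and Q commute elementwise and intersect trivially, and PQ contains its own centralizer in S. -/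
theorem result {S : Type*} [Group S] [Finite S] (h2 : IsPGroup 2 S) (hr : Cfsg.SectionalPRankLE 2 4 S)
    (P Q : Subgroup S) [P.Normal] [Q.Normal] (hP : ¬ IsMulCommutative ↥P) (hQ : ¬ IsMulCommutative ↥Q)
    (hZP : Nat.card ↥(Subgroup.center ↥P) = 2) (hZQ : Nat.card ↥(Subgroup.center ↥Q) = 2)
    (hne : (Subgroup.center ↥P).map P.subtype ≠ (Subgroup.center ↥Q).map Q.subtype) :
    ⁅P, Q⁆ = ⊥ ∧ P ⊓ Q = ⊥ ∧ Subgroup.centralizer ((P ⊔ Q : Subgroup S) : Set S) ≤ P ⊔ Q := by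
  classical
  haveI : Fact (Nat.Prime 2) := ⟨Nat.prime_two⟩
  have hZPn : ((Subgroup.center ↥P).map P.subtype).Normal := inferInstance
  have hcZP : Nat.card ↥((Subgroup.center ↥P).map P.subtype) = 2 := by
    rw [Subgroup.card_map_of_injective P.subtype_injective]; exact hZP
  have hcZQ : Nat.card ↥((Subgroup.center ↥Q).map Q.subtype) = 2 := by
    rw [Subgroup.card_map_of_injective Q.subtype_injective]; exact hZQ
  have hPQ : P ⊓ Q = ⊥ := by
    by_contra hne'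
    have h1 : (Subgroup.center ↥P).map P.subtype ≤ P ⊓ Q :=
      center_le_of_normal h2 P hZP (P ⊓ Q) inf_le_left
        (fun g _ m hm => (inferInstance : (P ⊓ Q).Normal).conj_mem m hm g) hne'
    have hZPne : (Subgroup.center ↥P).map P.subtype ≠ ⊥ := by
      intro h; rw [Subgroup.eq_bot_iff_card] at h; omega
    have h2' : (Subgroup.center ↥Q).map Q.subtype ≤ (Subgroup.center ↥P).map P.subtype :=
      center_le_of_normal h2 Q hZQ _ (h1.trans inf_le_right)
        (fun g _ m hm => hZPn.conj_mem m hm g) hZPne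
    exact hne (Subgroup.eq_of_le_of_card_ge h2' (by rw [hcZP, hcZQ])).symm
  have hcomm : ⁅P, Q⁆ = ⊥ := le_bot_iff.mp (hPQ ▸ Subgroup.commutator_le_inf P Q)
  refine ⟨hcomm, hPQ, ?_⟩
  have hcm : ∀ x ∈ P, ∀ y ∈ Q, x * y = y * x := by
    intro x hx y hy
    have := Subgroup.commutator_mem_commutator hx hy
    rw [hcomm, Subgroup.mem_bot, commutatorElement_def] at this
    calc x * y = (x * y * x⁻¹ * y⁻¹) * (y * x) := by group
      _ = y * x := by rw [this, one_mul]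
  by_contra hC
  obtain ⟨c0, hc0C, hc0⟩ := SetLike.not_le_iff_exists.mp hC
  obtain ⟨c, hcC, hc, hc2⟩ : ∃ c ∈ Subgroup.centralizer ((P ⊔ Q : Subgroup S) : Set S),
      c ∉ P ⊔ Q ∧ c ^ 2 ∈ P ⊔ Q := by
    have hex : ∃ k : ℕ, c0 ^ (2 ^ k) ∈ P ⊔ Q := by
      obtain ⟨k, hk⟩ := h2 c0
      exact ⟨k, by rw [hk]; exact one_mem _⟩
    have hk0 : Nat.find hex ≠ 0 := by
      intro h0
      have := Nat.find_spec hex
      rw [h0] at this
      simp at this
      exact hc0 this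
    obtain ⟨k, hk⟩ := Nat.exists_eq_succ_of_ne_zero hk0
    refine ⟨c0 ^ (2 ^ k), Subgroup.pow_mem _ hc0C _, Nat.find_min hex (by omega), ?_⟩
    have := Nat.find_spec hex
    rw [hk, Nat.succ_eq_add_one, pow_succ, pow_mul] at this
    exact this
  obtain ⟨hFPn, hFPle, hFPsq, hZFP, hFPc⟩ := frat_facts h2 P hP hZP
  obtain ⟨hFQn, hFQle, hFQsq, hZFQ, hFQc⟩ := frat_facts h2 Q hQ hZQ
  set FP := (frattini ↥P).map P.subtype with hFPdef
  set FQ := (frattini ↥Q).map Q.subtype with hFQdef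
  have hcc : ∀ w ∈ P ⊔ Q, w * c = c * w := fun w hw => Subgroup.mem_centralizer_iff.mp hcC w hw
  -- c^2 in FP ⊔ FQ
  have hc2N : c ^ 2 ∈ FP ⊔ FQ := by
    have h1 : c ^ 2 ∈ ((P ⊔ Q : Subgroup S) : Set S) := hc2
    rw [Subgroup.mul_normal P Q, Set.mem_mul] at h1
    obtain ⟨x0, hx0, y0, hy0, hxy⟩ := h1
    have hc2c : ∀ w ∈ P ⊔ Q, w * c ^ 2 = c ^ 2 * w := fun w hw =>
      Subgroup.mem_centralizer_iff.mp (Subgroup.pow_mem _ hcC 2) w hw
    have hx0Z : x0 ∈ (Subgroup.center ↥P).map P.subtype := by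
      refine ⟨⟨x0, hx0⟩, Subgroup.mem_center_iff.mpr ?_, rfl⟩
      intro g
      apply Subtype.ext
      show g.1 * x0 = x0 * g.1
      have e1 := hc2c g.1 (Subgroup.mem_sup_left g.2)
      rw [← hxy] at e1
      have e2 := hcm g.1 g.2 y0 hy0
      have e3 : g.1 * x0 * y0 = x0 * g.1 * y0 := by
        rw [← mul_assoc] at e1
        rw [e1, mul_assoc x0 y0, ← e2, mul_assoc]
      exact mul_right_cancel e3
    have hy0Z : y0 ∈ (Subgroup.center ↥Q).map Q.subtype := by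
      refine ⟨⟨y0, hy0⟩, Subgroup.mem_center_iff.mpr ?_, rfl⟩
      intro g
      apply Subtype.ext
      show g.1 * y0 = y0 * g.1
      have e1 := hc2c g.1 (Subgroup.mem_sup_right g.2)
      rw [← hxy] at e1
      have e2 := hcm x0 hx0 g.1 g.2
      have e3 : x0 * (g.1 * y0) = x0 * (y0 * g.1) := by
        rw [← mul_assoc, ← e2, mul_assoc, mul_assoc] at e1
        exact e1
      exact mul_left_cancel e3
    rw [← hxy]
    exact Subgroup.mul_mem _ (Subgroup.mem_sup_left (hZFP hx0Z)) (Subgroup.mem_sup_right (hZFQ hy0Z))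
  set H : Subgroup S := Subgroup.zpowers c ⊔ (P ⊔ Q) with hHdef
  have hN0H : FP ⊔ FQ ≤ H :=
    (sup_le_sup hFPle hFQle).trans le_sup_right
  -- squares of H lie in FP ⊔ FQ
  have hsqH : ∀ h ∈ H, h ^ 2 ∈ FP ⊔ FQ := by
    intro h hh
    have h1 : h ∈ ((Subgroup.zpowers c ⊔ (P ⊔ Q) : Subgroup S) : Set S) := hh
    rw [Subgroup.mul_normal (Subgroup.zpowers c) (P ⊔ Q), Set.mem_mul] at h1
    obtain ⟨z, hz, w, hw, rfl⟩ := h1
    have hw' : w ∈ ((P ⊔ Q : Subgroup S) : Set S) := hw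
    rw [Subgroup.mul_normal P Q, Set.mem_mul] at hw'
    obtain ⟨x, hx, y, hy, rfl⟩ := hw'
    obtain ⟨i, rfl⟩ := Subgroup.mem_zpowers_iff.mp hz
    have hzC : c ^ i ∈ Subgroup.centralizer ((P ⊔ Q : Subgroup S) : Set S) := Subgroup.zpow_mem _ hcC i
    have hzx : Commute (c ^ i) x := (Subgroup.mem_centralizer_iff.mp hzC x (Subgroup.mem_sup_left hx)).symm
    have hzy : Commute (c ^ i) y := (Subgroup.mem_centralizer_iff.mp hzC y (Subgroup.mem_sup_right hy)).symm
    have hxy : Commute x y := hcm x hx y hy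
    have e : (c ^ i * (x * y)) ^ 2 = (c ^ 2) ^ i * (x ^ 2 * y ^ 2) := by
      rw [(hzx.mul_right hzy).mul_pow, hxy.mul_pow, ← zpow_natCast (c ^ i) 2, ← zpow_mul, mul_comm i,
        zpow_mul, zpow_natCast]
    rw [e]
    exact Subgroup.mul_mem _ (Subgroup.zpow_mem _ hc2N i)
      (Subgroup.mul_mem _ (Subgroup.mem_sup_left (hFPsq x hx)) (Subgroup.mem_sup_right (hFQsq y hy)))
  set N : Subgroup ↥H := (FP ⊔ FQ).subgroupOf H with hNdef
  haveI : (FP ⊔ FQ).Normal := inferInstance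
  haveI : N.Normal := inferInstance
  have hsq : ∀ q : ↥H ⧸ N, q ^ 2 = 1 := by
    intro q
    obtain ⟨h, rfl⟩ := QuotientGroup.mk_surjective q
    rw [← QuotientGroup.mk_pow, QuotientGroup.eq_one_iff, hNdef, Subgroup.mem_subgroupOf]
    exact hsqH h.1 h.2
  have hrank := hr H N ⊤ ⟨⟨fun a b => Subtype.ext (comm_of_sq hsq a.1 b.1)⟩⟩ (fun a _ => hsq a)
  rw [Subgroup.card_top, ← Subgroup.index_eq_card] at hrank
  have hcH : Nat.card ↥(FP ⊔ FQ) * N.index = Nat.card ↥H := by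
    rw [← card_sub_eq (FP ⊔ FQ) H hN0H]
    exact Subgroup.card_mul_index N
  -- upper bound for card of FP ⊔ FQ
  have hub : Nat.card ↥(FP ⊔ FQ) ≤ Nat.card ↥FP * Nat.card ↥FQ := by
    rw [← Nat.card_prod]
    let g : ↥FP × ↥FQ → ↥(FP ⊔ FQ) := fun ab =>
      ⟨ab.1.1 * ab.2.1, Subgroup.mul_mem _ (Subgroup.mem_sup_left ab.1.2) (Subgroup.mem_sup_right ab.2.2)⟩
    refine Nat.card_le_card_of_surjective g ?_
    intro ⟨w, hw⟩
    have hw' : w ∈ ((FP ⊔ FQ : Subgroup S) : Set S) := hw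
    rw [Subgroup.mul_normal FP FQ, Set.mem_mul] at hw'
    obtain ⟨a, ha, b, hb, hab⟩ := hw'
    exact ⟨(⟨a, ha⟩, ⟨b, hb⟩), Subtype.ext hab⟩
  -- lower bound for card of P ⊔ Q
  have hlb : Nat.card ↥P * Nat.card ↥Q ≤ Nat.card ↥(P ⊔ Q) := by
    rw [← Nat.card_prod]
    let f : ↥P × ↥Q → ↥(P ⊔ Q) := fun ab =>
      ⟨ab.1.1 * ab.2.1, Subgroup.mul_mem _ (Subgroup.mem_sup_left ab.1.2) (Subgroup.mem_sup_right ab.2.2)⟩
    refine Nat.card_le_card_of_injective f ?_
    intro ⟨⟨a, ha⟩, ⟨b, hb⟩⟩ ⟨⟨a', ha'⟩, ⟨b', hb'⟩⟩ hab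
    have hab' : a * b = a' * b' := congrArg Subtype.val hab
    have h1 : a'⁻¹ * a = b' * b⁻¹ := by
      rw [inv_mul_eq_iff_eq_mul, ← mul_assoc, ← hab', mul_assoc, mul_inv_cancel, mul_one]
    have h2 : a'⁻¹ * a ∈ P ⊓ Q :=
      ⟨Subgroup.mul_mem _ (Subgroup.inv_mem _ ha') ha, h1 ▸ Subgroup.mul_mem _ hb' (Subgroup.inv_mem _ hb)⟩
    rw [hPQ, Subgroup.mem_bot] at h2
    have h3 : a = a' := by rw [inv_mul_eq_one] at h2; exact h2.symm
    subst h3
    have h4 : b = b' := mul_left_cancel hab'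
    subst h4
    rfl
  -- H is at least twice P ⊔ Q
  have hH2 : 2 * Nat.card ↥(P ⊔ Q) ≤ Nat.card ↥H := by
    have hle : P ⊔ Q ≤ H := le_sup_right
    have h1 := Subgroup.card_mul_index ((P ⊔ Q).subgroupOf H)
    rw [card_sub_eq (P ⊔ Q) H hle] at h1
    have h2 : ((P ⊔ Q).subgroupOf H).index ≠ 1 := by
      intro h
      have : H ≤ P ⊔ Q := Subgroup.relIndex_eq_one.mp h
      exact hc (this (Subgroup.mem_sup_left (Subgroup.mem_zpowers c)))
    have h3 : ((P ⊔ Q).subgroupOf H).index ≠ 0 := Subgroup.index_ne_zero_of_finite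
    rw [← h1, mul_comm]
    exact Nat.mul_le_mul_left _ (by omega)
  have hpos1 : 0 < Nat.card ↥FP := Nat.card_pos
  have hpos2 : 0 < Nat.card ↥FQ := Nat.card_pos
  have hpos3 : 0 < Nat.card ↥(FP ⊔ FQ) := Nat.card_pos
  have e1 : Nat.card ↥H ≤ 16 * (Nat.card ↥FP * Nat.card ↥FQ) := by
    rw [← hcH]
    calc Nat.card ↥(FP ⊔ FQ) * N.index ≤ (Nat.card ↥FP * Nat.card ↥FQ) * 2 ^ 4 :=
          Nat.mul_le_mul hub hrank
      _ = 16 * (Nat.card ↥FP * Nat.card ↥FQ) := by ring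
  have e2 : 32 * (Nat.card ↥FP * Nat.card ↥FQ) ≤ Nat.card ↥H := by
    calc 32 * (Nat.card ↥FP * Nat.card ↥FQ) = 2 * ((4 * Nat.card ↥FP) * (4 * Nat.card ↥FQ)) := by ring
      _ ≤ 2 * (Nat.card ↥P * Nat.card ↥Q) := Nat.mul_le_mul_left _ (Nat.mul_le_mul hFPc hFQc)
      _ ≤ 2 * Nat.card ↥(P ⊔ Q) := Nat.mul_le_mul_left _ hlb
      _ ≤ Nat.card ↥H := hH2
  have hpos : 0 < Nat.card ↥FP * Nat.card ↥FQ := Nat.mul_pos hpos1 hpos2
  omega

end Cfsg.Agent.S4400
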