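import Mathlib
import Cfsg.Statements.S4406
import Cfsg.Agent.S4216

set_option autoImplicit false
open Cfsg

namespace Cfsg.Agent.S4406

open scoped Pointwise

abbrev A4t := ↥(alternatingGroup (Fin 4))

def InB (x1 x2 y1 y2 u w : A4t) : Prop :=
  (u = 1 ∧ w = 1) ∨ (u = x1 ∧ w = x2) ∨ (u = y1 ∧ w = y2) ∨ (u = x1 * y1 ∧ w = x2 * y2)

instance (x1 x2 y1 y2 u w : A4t) : Decidable (InB x1 x2 y1 y2 u w) := by
  unfold InB; infer_instance

set_option synthInstance.maxSize 100000 in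
set_option synthInstance.maxHeartbeats 0 in
set_option maxRecDepth 1000000 in
theorem key : ∀ a : A4t, a ^ 3 = 1 → a ≠ 1 → ∀ b : A4t, b ^ 3 = 1 → b ≠ 1 →
    ∀ x1 : A4t, x1 ^ 2 = 1 → x1 ≠ 1 → ∀ x2 : A4t, x2 ^ 2 = 1 → x2 ≠ 1 →
    ∀ y1 : A4t, y1 ^ 2 = 1 → y1 ≠ 1 → y1 ≠ x1 → ∀ y2 : A4t, y2 ^ 2 = 1 → y2 ≠ 1 → y2 ≠ x2 →
    (InB x1 x2 y1 y2 (a⁻¹ * x1 * a) (b⁻¹ * x2 * b) ∧ InB x1 x2 y1 y2 (a⁻¹ * y1 * a) (b⁻¹ * y2 * b)) ∨
    (InB x1 x2 y1 y2 (a⁻¹ * x1 * a) (b * x2 * b⁻¹) ∧ InB x1 x2 y1 y2 (a⁻¹ * y1 * a) (b * y2 * b⁻¹)) := by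
  decide +kernel

def c0 : A4t := ⟨Equiv.swap 0 1 * Equiv.swap 1 2, Equiv.Perm.mem_alternatingGroup.mpr (by decide)⟩

theorem c0_pow : c0 ^ 3 = 1 := by decide
theorem c0_ne : c0 ≠ 1 := by decide

theorem two_elt : ∀ a : A4t, a ^ 2 = 1 ∨ a ^ 3 = 1 := by decide

theorem sq_of_two_pow (a : A4t) (k : ℕ) (h : a ^ (2 ^ k) = 1) : a ^ 2 = 1 := by
  rcases two_elt a with h2 | h3
  · exact h2
  · have h1 : orderOf a ∣ Nat.gcd 3 (2 ^ k) :=
      Nat.dvd_gcd (orderOf_dvd_of_pow_eq_one h3) (orderOf_dvd_of_pow_eq_one h)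
    have h2 : Nat.gcd 3 (2 ^ k) = 1 := Nat.Coprime.pow_right k (by norm_num)
    rw [h2, Nat.dvd_one, orderOf_eq_one_iff] at h1
    rw [h1, one_pow]

theorem zpow_pow3 (i : ℤ) : (c0 ^ i) ^ 3 = 1 := by
  rw [← zpow_natCast, ← zpow_mul, mul_comm, zpow_mul, zpow_natCast, c0_pow, one_zpow]

theorem four_enum {G : Type*} [Group G] (B : Subgroup G) (hB : Nat.card B = 4) (x y : G)
    (hx : x ∈ B) (hy : y ∈ B) (hx1 : x ≠ 1) (hy1 : y ≠ 1) (hxy : y ≠ x) (hx2 : x * x = 1) :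
    ∀ z ∈ B, z = 1 ∨ z = x ∨ z = y ∨ z = x * y := by
  classical
  haveI : Finite ↥B := Nat.finite_of_card_ne_zero (by rw [hB]; norm_num)
  have hfin : (B : Set G).Finite := Set.toFinite _
  have hsub : (({1, x, y, x * y} : Finset G) : Set G) ⊆ (B : Set G) := by
    intro z hz
    simp only [Finset.coe_insert, Finset.coe_singleton, Set.mem_insert_iff, Set.mem_singleton_iff] at hz
    rcases hz with rfl | rfl | rfl | rfl
    · exact B.one_mem
    · exact hx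
    · exact hy
    · exact B.mul_mem hx hy
  have hxinv : x⁻¹ = x := inv_eq_of_mul_eq_one_right hx2
  have hcard : ({1, x, y, x * y} : Finset G).card = 4 := by
    rw [Finset.card_insert_of_notMem, Finset.card_insert_of_notMem, Finset.card_insert_of_notMem,
      Finset.card_singleton]
    · rw [Finset.mem_singleton]
      intro h
      exact hx1 (by simpa using h)
    · rw [Finset.mem_insert, Finset.mem_singleton]
      rintro (h | h)
      · exact hxy h.symm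
      · exact hy1 (by simpa using h)
    · rw [Finset.mem_insert, Finset.mem_insert, Finset.mem_singleton]
      rintro (h | h | h)
      · exact hx1 h.symm
      · exact hy1 h.symm
      · apply hxy
        rw [← hxinv]
        exact (inv_eq_of_mul_eq_one_right h.symm).symm
  have heq := Set.eq_of_subset_of_ncard_le hsub
    (by rw [Set.ncard_coe_finset, hcard, ← Nat.card_coe_set_eq]; exact le_of_eq hB) hfin
  intro z hz
  have hz' : z ∈ (({1, x, y, x * y} : Finset G) : Set G) := by rw [heq]; exact hz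
  simpa using hz'

/-- In the direct product P = A₄ × A₄, let X be the Sylow 2-subgroup, X₁ and X₂ its intersections with the two direct factors, Q a Sylow 3-subgroup and Q₁, Q₂ its intersections with the two factors. Then every subgroup B of X of order 4 either meets X₁ or X₂ nontrivially, or is normalized by one of the two subgroups of Q of order 3 other than Q₁ and Q₂. -/
theorem result
    (X : Sylow 2 (↥(alternatingGroup (Fin 4)) × ↥(alternatingGroup (Fin 4))))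
    (Q : Sylow 3 (↥(alternatingGroup (Fin 4)) × ↥(alternatingGroup (Fin 4))))
    (B : Subgroup (↥(alternatingGroup (Fin 4)) × ↥(alternatingGroup (Fin 4)))) (hBX : B ≤ (X : Subgroup _)) (hB4 : Nat.card ↥B = 4) :
    B ⊓ ((X : Subgroup _) ⊓ Subgroup.prod ⊤ ⊥) ≠ ⊥ ∨ B ⊓ ((X : Subgroup _) ⊓ Subgroup.prod ⊥ ⊤) ≠ ⊥ ∨
      ∃ R : Subgroup (↥(alternatingGroup (Fin 4)) × ↥(alternatingGroup (Fin 4))), R ≤ (Q : Subgroup _) ∧ Nat.card ↥R = 3 ∧
        R ≠ (Q : Subgroup _) ⊓ Subgroup.prod ⊤ ⊥ ∧ R ≠ (Q : Subgroup _) ⊓ Subgroup.prod ⊥ ⊤ ∧ R ≤ Subgroup.normalizer (B : Set _) := by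
  classical
  by_cases hc1 : B ⊓ ((X : Subgroup _) ⊓ Subgroup.prod ⊤ ⊥) = ⊥
  swap
  · exact Or.inl hc1
  by_cases hc2 : B ⊓ ((X : Subgroup _) ⊓ Subgroup.prod ⊥ ⊤) = ⊥
  swap
  · exact Or.inr (Or.inl hc2)
  right; right
  have hB1 : ∀ z ∈ B, z.2 = 1 → z = 1 := by
    intro z hz h
    have : z ∈ B ⊓ ((X : Subgroup _) ⊓ Subgroup.prod ⊤ ⊥) :=
      ⟨hz, hBX hz, Subgroup.mem_prod.mpr ⟨Subgroup.mem_top _, Subgroup.mem_bot.mpr h⟩⟩
    rw [hc1, Subgroup.mem_bot] at this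
    exact this
  have hB2 : ∀ z ∈ B, z.1 = 1 → z = 1 := by
    intro z hz h
    have : z ∈ B ⊓ ((X : Subgroup _) ⊓ Subgroup.prod ⊥ ⊤) :=
      ⟨hz, hBX hz, Subgroup.mem_prod.mpr ⟨Subgroup.mem_bot.mpr h, Subgroup.mem_top _⟩⟩
    rw [hc2, Subgroup.mem_bot] at this
    exact this
  have hBsq : ∀ z ∈ B, z.1 ^ 2 = 1 ∧ z.2 ^ 2 = 1 := by
    intro z hz
    obtain ⟨k, hk⟩ := X.isPGroup' ⟨z, hBX hz⟩
    have hk' : z ^ (2 ^ k) = 1 := congrArg Subtype.val hk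
    have h1 : z.1 ^ (2 ^ k) = 1 := by rw [← Prod.pow_fst, hk']; rfl
    have h2 : z.2 ^ (2 ^ k) = 1 := by rw [← Prod.pow_snd, hk']; rfl
    exact ⟨sq_of_two_pow _ k h1, sq_of_two_pow _ k h2⟩
  obtain ⟨x, hxB, hx1⟩ : ∃ x ∈ B, x ≠ 1 := by
    by_contra hno
    push Not at hno
    have : B = ⊥ := (Subgroup.eq_bot_iff_forall B).mpr hno
    rw [this, Subgroup.card_bot] at hB4
    omega
  obtain ⟨y, hyB, hy1, hyx⟩ : ∃ y ∈ B, y ≠ 1 ∧ y ≠ x := by
    by_contra hno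
    push Not at hno
    have hsub : (B : Set (A4t × A4t)) ⊆ ({1, x} : Set (A4t × A4t)) := by
      intro z hz
      by_cases h1 : z = 1
      · left; exact h1
      · right; exact hno z hz h1
    have h1 := Set.ncard_le_ncard hsub (Set.toFinite _)
    have h2 : ({1, x} : Set (A4t × A4t)).ncard ≤ 2 :=
      (Set.ncard_insert_le _ _).trans (by rw [Set.ncard_singleton])
    have h3 : Nat.card ↥B = (B : Set (A4t × A4t)).ncard := Nat.card_coe_set_eq _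
    omega
  have hxx : x * x = 1 := by
    apply Prod.ext
    · show x.1 * x.1 = 1
      rw [← pow_two]; exact (hBsq x hxB).1
    · show x.2 * x.2 = 1
      rw [← pow_two]; exact (hBsq x hxB).2
  have hxinv : x⁻¹ = x := inv_eq_of_mul_eq_one_right hxx
  have hx1ne : x.1 ≠ 1 := fun h => hx1 (hB2 x hxB h)
  have hx2ne : x.2 ≠ 1 := fun h => hx1 (hB1 x hxB h)
  have hy1ne : y.1 ≠ 1 := fun h => hy1 (hB2 y hyB h)
  have hy2ne : y.2 ≠ 1 := fun h => hy1 (hB1 y hyB h)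
  have hy1x : y.1 ≠ x.1 := by
    intro h
    apply hyx
    have h1 : (x * y).1 = 1 := by
      show x.1 * y.1 = 1
      rw [h, ← pow_two]; exact (hBsq x hxB).1
    have h2 := hB2 _ (B.mul_mem hxB hyB) h1
    rw [← hxinv]
    exact (inv_eq_of_mul_eq_one_right h2).symm
  have hy2x : y.2 ≠ x.2 := by
    intro h
    apply hyx
    have h1 : (x * y).2 = 1 := by
      show x.2 * y.2 = 1
      rw [h, ← pow_two]; exact (hBsq x hxB).2
    have h2 := hB1 _ (B.mul_mem hxB hyB) h1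
    rw [← hxinv]
    exact (inv_eq_of_mul_eq_one_right h2).symm
  have henum := four_enum B hB4 x y hxB hyB hx1 hy1 hyx hxx
  have hIn : ∀ u w : A4t, InB x.1 x.2 y.1 y.2 u w → ((u, w) : A4t × A4t) ∈ B := by
    intro u w h
    rcases h with ⟨rfl, rfl⟩ | ⟨rfl, rfl⟩ | ⟨rfl, rfl⟩ | ⟨rfl, rfl⟩
    · exact B.one_mem
    · exact hxB
    · exact hyB
    · exact B.mul_mem hxB hyB
  -- the final step
  have fin : ∀ c : A4t × A4t, c ∈ (Q : Subgroup (A4t × A4t)) → c ^ 3 = 1 → c.1 ≠ 1 → c.2 ≠ 1 →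
      c⁻¹ * x * c ∈ B → c⁻¹ * y * c ∈ B →
      ∃ R : Subgroup (A4t × A4t), R ≤ (Q : Subgroup _) ∧ Nat.card ↥R = 3 ∧
        R ≠ (Q : Subgroup _) ⊓ Subgroup.prod ⊤ ⊥ ∧ R ≠ (Q : Subgroup _) ⊓ Subgroup.prod ⊥ ⊤ ∧
        R ≤ Subgroup.normalizer (B : Set _) := by
    intro c hcQ hc3 hc1 hc2 hcx hcy
    haveI : Fact (Nat.Prime 3) := ⟨Nat.prime_three⟩
    have hcne : c ≠ 1 := fun h => hc1 (by rw [h]; rfl)
    refine ⟨Subgroup.zpowers c, (Subgroup.zpowers_le).mpr hcQ, ?_, ?_, ?_, ?_⟩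
    · rw [Nat.card_zpowers]; exact orderOf_eq_prime hc3 hcne
    · intro h
      have : c ∈ (Q : Subgroup (A4t × A4t)) ⊓ Subgroup.prod ⊤ ⊥ := h ▸ Subgroup.mem_zpowers c
      exact hc2 (Subgroup.mem_bot.mp (Subgroup.mem_prod.mp this.2).2)
    · intro h
      have : c ∈ (Q : Subgroup (A4t × A4t)) ⊓ Subgroup.prod ⊥ ⊤ := h ▸ Subgroup.mem_zpowers c
      exact hc1 (Subgroup.mem_bot.mp (Subgroup.mem_prod.mp this.2).1)
    · rw [Subgroup.zpowers_le]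
      apply Cfsg.Agent.S4216.mem_normalizer_of_conj_le
      intro u hu
      rcases henum u hu with rfl | rfl | rfl | rfl
      · rw [mul_one, inv_mul_cancel]; exact B.one_mem
      · exact hcx
      · exact hcy
      · have : c⁻¹ * (x * y) * c = (c⁻¹ * x * c) * (c⁻¹ * y * c) := by group
        rw [this]; exact B.mul_mem hcx hcy
  -- the Sylow 3-subgroup
  haveI : Fact (Nat.Prime 3) := ⟨Nat.prime_three⟩
  let H0 : Subgroup (A4t × A4t) := Subgroup.prod (Subgroup.zpowers c0) (Subgroup.zpowers c0)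
  have hH0 : IsPGroup 3 ↥H0 := by
    intro ⟨z, hz⟩
    refine ⟨1, ?_⟩
    apply Subtype.ext
    obtain ⟨hu, hw⟩ := Subgroup.mem_prod.mp hz
    obtain ⟨i, hi⟩ := Subgroup.mem_zpowers_iff.mp hu
    obtain ⟨j, hj⟩ := Subgroup.mem_zpowers_iff.mp hw
    show z ^ (3 ^ 1) = 1
    rw [pow_one]
    apply Prod.ext
    · show z.1 ^ 3 = 1
      rw [← hi]; exact zpow_pow3 i
    · show z.2 ^ 3 = 1
      rw [← hj]; exact zpow_pow3 j
  obtain ⟨Q', hQ'⟩ := hH0.exists_le_sylow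
  obtain ⟨g, hg⟩ := MulAction.exists_smul_eq (A4t × A4t) Q' Q
  have hmem : ∀ z ∈ H0, g * z * g⁻¹ ∈ (Q : Subgroup (A4t × A4t)) := by
    intro z hz
    rw [← hg]
    show g * z * g⁻¹ ∈ ((g • Q' : Sylow 3 (A4t × A4t)) : Subgroup (A4t × A4t))
    rw [Sylow.coe_subgroup_smul]
    exact ⟨z, hQ' hz, rfl⟩
  set a : A4t := g.1 * c0 * g.1⁻¹ with ha
  set b : A4t := g.2 * c0 * g.2⁻¹ with hb
  have ha3 : a ^ 3 = 1 := by rw [ha, conj_pow, c0_pow, mul_one, mul_inv_cancel]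
  have hb3 : b ^ 3 = 1 := by rw [hb, conj_pow, c0_pow, mul_one, mul_inv_cancel]
  have ha1 : a ≠ 1 := by
    intro h; rw [ha, conj_eq_one_iff] at h; exact c0_ne h
  have hb1 : b ≠ 1 := by
    intro h; rw [hb, conj_eq_one_iff] at h; exact c0_ne h
  have haQ : ((a, 1) : A4t × A4t) ∈ (Q : Subgroup (A4t × A4t)) := by
    have h1 := hmem ((c0, 1) : A4t × A4t)
      (Subgroup.mem_prod.mpr ⟨Subgroup.mem_zpowers c0, Subgroup.one_mem _⟩)
    have h2 : g * ((c0, 1) : A4t × A4t) * g⁻¹ = (a, 1) := by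
      apply Prod.ext
      · rfl
      · show g.2 * 1 * g.2⁻¹ = 1
        rw [mul_one, mul_inv_cancel]
    rw [h2] at h1; exact h1
  have hbQ : ((1, b) : A4t × A4t) ∈ (Q : Subgroup (A4t × A4t)) := by
    have h1 := hmem ((1, c0) : A4t × A4t)
      (Subgroup.mem_prod.mpr ⟨Subgroup.one_mem _, Subgroup.mem_zpowers c0⟩)
    have h2 : g * ((1, c0) : A4t × A4t) * g⁻¹ = (1, b) := by
      apply Prod.ext
      · show g.1 * 1 * g.1⁻¹ = 1
        rw [mul_one, mul_inv_cancel]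
      · rfl
    rw [h2] at h1; exact h1
  rcases key a ha3 ha1 b hb3 hb1 x.1 (hBsq x hxB).1 hx1ne x.2 (hBsq x hxB).2 hx2ne
      y.1 (hBsq y hyB).1 hy1ne hy1x y.2 (hBsq y hyB).2 hy2ne hy2x with ⟨k1, k2⟩ | ⟨k1, k2⟩
  · have hcQ : ((a, b) : A4t × A4t) ∈ (Q : Subgroup (A4t × A4t)) := by
      have : ((a, b) : A4t × A4t) = (a, 1) * (1, b) := by
        apply Prod.ext
        · show a = a * 1
          rw [mul_one]
        · show b = 1 * b
          rw [one_mul]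
      rw [this]; exact Subgroup.mul_mem _ haQ hbQ
    refine fin (a, b) hcQ ?_ ha1 hb1 (hIn _ _ k1) (hIn _ _ k2)
    apply Prod.ext
    · exact ha3
    · exact hb3
  · have hcQ : ((a, b⁻¹) : A4t × A4t) ∈ (Q : Subgroup (A4t × A4t)) := by
      have : ((a, b⁻¹) : A4t × A4t) = (a, 1) * (1, b)⁻¹ := by
        apply Prod.ext
        · show a = a * 1⁻¹
          rw [inv_one, mul_one]
        · show b⁻¹ = 1 * b⁻¹
          rw [one_mul]
      rw [this]; exact Subgroup.mul_mem _ haQ (Subgroup.inv_mem _ hbQ)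
    have e1 : ((a, b⁻¹) : A4t × A4t)⁻¹ * x * (a, b⁻¹) = (a⁻¹ * x.1 * a, b * x.2 * b⁻¹) := by
      apply Prod.ext
      · rfl
      · show b⁻¹⁻¹ * x.2 * b⁻¹ = b * x.2 * b⁻¹
        rw [inv_inv]
    have e2 : ((a, b⁻¹) : A4t × A4t)⁻¹ * y * (a, b⁻¹) = (a⁻¹ * y.1 * a, b * y.2 * b⁻¹) := by
      apply Prod.ext
      · rfl
      · show b⁻¹⁻¹ * y.2 * b⁻¹ = b * y.2 * b⁻¹
        rw [inv_inv]
    refine fin (a, b⁻¹) hcQ ?_ ha1 (inv_ne_one.mpr hb1) (e1 ▸ hIn _ _ k1) (e2 ▸ hIn _ _ k2)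
    apply Prod.ext
    · exact ha3
    · show b⁻¹ ^ 3 = 1
      rw [inv_pow, hb3, inv_one]

end Cfsg.Agent.S4406
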