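import Mathlib
import Cfsg.Statements.S4420

set_option autoImplicit false
open Cfsg

namespace Cfsg.Agent.S4420

variable {H : Type*} [Group H]

theorem inv_of_sq {x : H} (hx : x ^ 2 = 1) : x⁻¹ = x := by
  rw [inv_eq_iff_mul_eq_one, ← sq, hx]

theorem invert (A : Subgroup H) (hD : ∀ x : H, x ∉ A → x ^ 2 = 1) (x : H) (hx : x ∉ A)
    (a : H) (ha : a ∈ A) : x * a * x⁻¹ = a⁻¹ := by
  have hxa : x * a ∉ A := by
    intro h
    apply hx
    have := A.mul_mem h (A.inv_mem ha)
    simpa using this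
  have h1 := hD _ hxa
  have h2 := inv_of_sq (hD x hx)
  rw [h2]
  rw [sq] at h1
  have : x * a * x = (x * a * (x * a)) * a⁻¹ := by group
  rw [this, h1, one_mul]

theorem caseE [Finite H] (hE : ∀ h : H, h ^ 2 = 1) (hnt : Nontrivial H) :
    ∃ B : Subgroup H, B.Normal ∧ IsMulCommutative ↥B ∧ B.index = 2 ∧
      (∀ x : H, x ∉ B → x ^ 2 = 1 ∧ ∀ b ∈ B, x * b * x⁻¹ = b⁻¹) := by
  have hcomm : ∀ a b : H, a * b = b * a := by
    intro a b
    have h1 := inv_of_sq (hE (a * b))
    have h2 := inv_of_sq (hE a)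
    have h3 := inv_of_sq (hE b)
    rw [mul_inv_rev, h2, h3] at h1
    exact h1.symm
  have hp : IsPGroup 2 H := fun g => ⟨1, by simpa using hE g⟩
  obtain ⟨n, hn⟩ := IsPGroup.iff_card.1 hp
  have hn0 : n ≠ 0 := by
    rintro rfl
    have := Finite.one_lt_card (α := H)
    simp at hn
    omega
  obtain ⟨n', rfl⟩ : ∃ n', n = n' + 1 := ⟨n - 1, by omega⟩
  haveI : Fact (Nat.Prime 2) := ⟨Nat.prime_two⟩
  obtain ⟨B, hB⟩ := Sylow.exists_subgroup_card_pow_prime (G := H) 2 (n := n')
    (by rw [hn]; exact pow_dvd_pow 2 (Nat.le_succ n'))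
  refine ⟨B, ⟨fun b hb g => ?_⟩, ?_, ?_, ?_⟩
  · rw [hcomm g b, mul_inv_cancel_right]; exact hb
  · exact isMulCommutative_iff.2 (fun a b => Subtype.ext (hcomm a b))
  · have := B.card_mul_index
    rw [hB, hn, pow_succ] at this
    exact Nat.eq_of_mul_eq_mul_left (by positivity) this
  · intro x _
    refine ⟨hE x, fun b _ => ?_⟩
    rw [hcomm x b, mul_inv_cancel_right, inv_of_sq (hE b)]

/-- Structure of groups in which every element outside some proper subgroup has square 1. Let H be a finite group with a proper subgroup A such that every element outside A has square 1. Then H has an abelian normal subgroup B of index 2 such that every element outside B is an involution inverting every element of B; and if H is not an elementary abelian 2-group, B is the only abelian normal subgroup of index 2 with this property. -/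
theorem result {H : Type*} [Group H] [Finite H] (A : Subgroup H) (hA : A ≠ ⊤) (hD : ∀ x : H, x ∉ A → x ^ 2 = 1) :
    ∃ B : Subgroup H, B.Normal ∧ IsMulCommutative ↥B ∧ B.index = 2 ∧
      (∀ x : H, x ∉ B → x ^ 2 = 1 ∧ ∀ b ∈ B, x * b * x⁻¹ = b⁻¹) ∧
      (¬ (IsMulCommutative H ∧ ∀ x : H, x ^ 2 = 1) →
        ∀ B' : Subgroup H, B'.Normal → IsMulCommutative ↥B' → B'.index = 2 →
          (∀ x : H, x ∉ B' → x ^ 2 = 1 ∧ ∀ b ∈ B', x * b * x⁻¹ = b⁻¹) → B' = B) := by
  obtain ⟨x₀, hx₀⟩ : ∃ x₀ : H, x₀ ∉ A := by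
    by_contra hcon
    push Not at hcon
    exact hA (eq_top_iff.2 (fun x _ => hcon x))
  by_cases hE : ∀ h : H, h ^ 2 = 1
  · have hnt : Nontrivial H := ⟨x₀, 1, fun h => hx₀ (h ▸ A.one_mem)⟩
    obtain ⟨B, h1, h2, h3, h4⟩ := caseE hE hnt
    refine ⟨B, h1, h2, h3, h4, ?_⟩
    intro hcon
    exfalso
    apply hcon
    refine ⟨isMulCommutative_iff.2 ?_, hE⟩
    intro a b
    have h1 := inv_of_sq (hE (a * b))
    have h2 := inv_of_sq (hE a)
    have h3 := inv_of_sq (hE b)
    rw [mul_inv_rev, h2, h3] at h1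
    exact h1.symm
  · push Not at hE
    obtain ⟨h₀, hh₀⟩ := hE
    have hinv := invert A hD
    have hsq : ∀ a ∈ A, a ^ 2 = 1 → True := fun _ _ _ => trivial
    have hprod : ∀ x y : H, x ∉ A → y ∉ A → x * y ∈ A := by
      intro x y hx hy
      by_contra hxy
      apply hh₀
      have hA' : ∀ a ∈ A, a ^ 2 = 1 := by
        intro a ha
        have h1 := hinv (x * y) hxy a ha
        have h2 := hinv y hy a ha
        have h3 := hinv x hx a⁻¹ (A.inv_mem ha)
        have h4 : x * y * a * (x * y)⁻¹ = x * (y * a * y⁻¹) * x⁻¹ := by group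
        rw [h4, h2, h3, inv_inv] at h1
        rw [sq]
        calc a * a = a * a⁻¹ := by rw [← h1]
          _ = 1 := mul_inv_cancel a
      by_cases hh : h₀ ∈ A
      · exact hA' h₀ hh
      · exact hD h₀ hh
    have hidx : A.index = 2 := by
      rw [Subgroup.index_eq_two_iff]
      refine ⟨x₀, fun b => ?_⟩
      by_cases hb : b ∈ A
      · right
        refine ⟨hb, fun h => hx₀ ?_⟩
        have := A.mul_mem (A.inv_mem hb) h
        simpa using this
      · left
        exact ⟨hprod b x₀ hb hx₀, hb⟩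
    have hAcomm : ∀ a ∈ A, ∀ b ∈ A, a * b = b * a := by
      intro a ha b hb
      have h1 := hinv x₀ hx₀ (a * b) (A.mul_mem ha hb)
      have h2 := hinv x₀ hx₀ a ha
      have h3 := hinv x₀ hx₀ b hb
      have h4 : x₀ * (a * b) * x₀⁻¹ = (x₀ * a * x₀⁻¹) * (x₀ * b * x₀⁻¹) := by group
      rw [h4, h2, h3, mul_inv_rev] at h1
      have h5 := congrArg (fun t => t⁻¹) h1
      simp only [mul_inv_rev, inv_inv] at h5
      exact h5.symm
    refine ⟨A, Subgroup.normal_of_index_eq_two hidx,
      isMulCommutative_iff.2 (fun a b => Subtype.ext (hAcomm a a.2 b b.2)), hidx,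
      fun x hx => ⟨hD x hx, hinv x hx⟩, ?_⟩
    intro _ B' hB'n hB'c hB'i hB'p
    by_contra hne
    have hex : ∃ a ∈ A, a ∉ B' := by
      by_contra hcon
      push Not at hcon
      have hle : A ≤ B' := hcon
      have h1 := Subgroup.relIndex_mul_index hle
      rw [hidx, hB'i] at h1
      have h2 : A.relIndex B' = 1 := by omega
      exact hne (le_antisymm (Subgroup.relIndex_eq_one.1 h2) hle)
    obtain ⟨a, haA, haB'⟩ := hex
    apply hh₀
    by_cases h1 : h₀ ∈ A
    · by_cases h2 : h₀ ∈ B'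
      · have h3 := (hB'p a haB').2 h₀ h2
        have h4 := hAcomm a haA h₀ h1
        rw [h4, mul_inv_cancel_right] at h3
        rw [sq]
        calc h₀ * h₀ = h₀ * h₀⁻¹ := by rw [← h3]
          _ = 1 := mul_inv_cancel h₀
      · exact (hB'p h₀ h2).1
    · exact hD h₀ h1

end Cfsg.Agent.S4420
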