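import Mathlib
import Cfsg.Statements.S4493
import Cfsg.Agent.Lib.Helper7.PDeg

namespace Cfsg.Agent.S4493

open Cfsg.Agent.Lib.Helper7.PDeg

/-- Let G be a finite solvable group and p a prime. Then G has a normal abelian Sylow p-subgroup if and only if no irreducible character degree of G is divisible by p. -/
theorem result {G : Type*} [Group G] [Finite G] (hsolv : Group.IsSolvable G) (p : ℕ) (hp : p.Prime) : (∃ P : Subgroup G, P.Normal ∧ (∀ x ∈ P, ∀ y ∈ P, x * y = y * x) ∧ IsPGroup p P ∧ ¬ p ∣ P.index) ↔ ∀ χ : Cfsg.IrrCharacter G, ¬ p ∣ Cfsg.charDegree (χ : G → ℂ) := by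
  haveI : Fact p.Prime := ⟨hp⟩
  constructor
  · rintro ⟨P, hn, hc, -, hidx⟩
    haveI := hn
    exact PD_of_normal_comm p P hc hidx
  · intro h
    have hps := isPSolvable_of_isSolvable p (Nat.card G) G rfl hsolv
    obtain ⟨P, hP⟩ := exists_normal_sylow p (Nat.card G) G rfl hps h
    refine ⟨(P : Subgroup G), hP, comm_of_PD p P hP h, P.2, ?_⟩
    intro hd
    have h1 := Subgroup.card_mul_index (P : Subgroup G)
    rw [Sylow.card_eq_multiplicity P] at h1
    have h2 : p ^ ((Nat.card G).factorization p + 1) ∣ Nat.card G := by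
      have h3 : p ^ (Nat.card G).factorization p * p ∣
          p ^ (Nat.card G).factorization p * (P : Subgroup G).index := mul_dvd_mul_left _ hd
      rw [h1] at h3
      rw [pow_succ]; exact h3
    exact Nat.pow_succ_factorization_not_dvd Nat.card_pos.ne' hp h2

end Cfsg.Agent.S4493
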