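import Mathlib
import Cfsg.Statements.S4495
import Cfsg.Agent.Lib.Helper7.SelfCent

set_option autoImplicit false
open Cfsg

namespace Cfsg.Agent.S4495

open Cfsg.Agent.Lib.Helper7.SelfCent

/-- Let the finite group G contain an element x of prime order p with C_G(x) = ⟨x⟩, and let t be the number of conjugacy classes of elements of order p. If t ≠ p − 1 then the commutator subgroup has index at most (p − 1)/t; if t = p − 1 it has index exactly p. -/
theorem result {G : Type*} [Group G] [Finite G] (p : ℕ) (hp : p.Prime) (x : G) (hx : orderOf x = p) (hC : Subgroup.centralizer ({x} : Set G) = Subgroup.zpowers x) (t : ℕ) (ht : Nat.card {C : ConjClasses G // ∃ g ∈ C.carrier, orderOf g = p} = t) : (t ≠ p - 1 → (commutator G).index * t ≤ p - 1) ∧ (t = p - 1 → (commutator G).index = p) := by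
  have hcount := class_count p hp x hx hC
  rw [ht] at hcount
  have hle := index_commutator_le p hp x hx hC
  obtain ⟨e, he⟩ : ∃ e : ℕ, e = (Subgroup.zpowers x).relIndex
      (Subgroup.normalizer ((Subgroup.zpowers x : Subgroup G) : Set G)) := ⟨_, rfl⟩
  rw [← he] at hcount hle
  constructor
  · intro hne
    have he1 : e ≠ 1 := by
      intro h
      rw [h, mul_one] at hcount
      exact hne hcount
    have hd : p ∣ Nat.card (commutator G) := by
      by_contra hnd
      apply he1
      rw [he, Subgroup.relIndex_eq_one]
      exact normalizer_le_of_not_dvd p hp x hx hC hnd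
    have h1 := hle hd
    calc (commutator G).index * t ≤ e * t := Nat.mul_le_mul_right t h1
      _ = p - 1 := by rw [mul_comm]; exact hcount
  · intro heq
    have he1 : e = 1 := by
      rw [heq] at hcount
      have hpos : 0 < p - 1 := by have := hp.two_le; omega
      exact Nat.eq_of_mul_eq_mul_left hpos (by rw [hcount, mul_one])
    rw [he] at he1
    have hN := Subgroup.relIndex_eq_one.mp he1
    have hnd := not_dvd_card_commutator_of_normalizer_le p hp x hx hC hN
    exact index_commutator_of_not_dvd p hp x hx hC hnd

end Cfsg.Agent.S4495
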