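import Mathlib
import Cfsg.Statements.S4497
import Cfsg.Agent.Lib.Helper7.SelfCent
import Cfsg.Agent.Lib.Helper7.PPrime

set_option autoImplicit false
open Cfsg

namespace Cfsg.Agent.S4497

open Cfsg.Agent.Lib.Helper7.SelfCent Cfsg.Agent.Lib.Helper7 Cfsg.Agent.S4496
open scoped commutatorElement

/-- Let the finite group G contain an element x of prime order p with C_G(x) = ⟨x⟩, let t be the number of conjugacy classes of elements of order p, and let S* = O_{p′}(G) be the largest normal subgroup of order prime to p. Then S* ≤ G′; if t ≠ p − 1 the quotient G′/S* is simple (in particular non-trivial); if t = p − 1 then G′ = S*. -/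
theorem result {G : Type*} [Group G] [Finite G] (p : ℕ) (hp : p.Prime) (x : G) (hx : orderOf x = p) (hC : Subgroup.centralizer ({x} : Set G) = Subgroup.zpowers x) (t : ℕ) (ht : Nat.card {C : ConjClasses G // ∃ g ∈ C.carrier, orderOf g = p} = t) : Cfsg.pPrimeCore p G ≤ commutator G ∧ (t ≠ p - 1 → ∀ h : ((Cfsg.pPrimeCore p G).subgroupOf (commutator G)).Normal, IsSimpleGroup (↥(commutator G) ⧸ (Cfsg.pPrimeCore p G).subgroupOf (commutator G))) ∧ (t = p - 1 → commutator G = Cfsg.pPrimeCore p G) := by
  haveI : Fact p.Prime := ⟨hp⟩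
  haveI hSn := pPrimeCore_normal' p G
  have hScop := pPrimeCore_coprime (G := G) p
  have hSnd : ¬ p ∣ Nat.card (pPrimeCore p G) :=
    (Nat.Prime.coprime_iff_not_dvd hp).mp hScop.symm
  have hle : pPrimeCore p G ≤ commutator G := by
    intro s hs
    obtain ⟨u, hu, rfl⟩ := exists_comm_eq p hp x hx hC _ hSnd s hs
    rw [commutator_def, ← commutatorElement_def]
    exact Subgroup.commutator_mem_commutator (Subgroup.mem_top _) (Subgroup.mem_top _)
  have hcount := class_count p hp x hx hC
  rw [ht] at hcount
  refine ⟨hle, ?_, ?_⟩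
  · intro hne hnorm
    have hd : p ∣ Nat.card (commutator G) := by
      by_contra hnd
      have hN := normalizer_le_of_not_dvd p hp x hx hC hnd
      have he := Subgroup.relIndex_eq_one.mpr hN
      rw [he, mul_one] at hcount
      exact hne hcount
    have hxK : x ∈ commutator G := x_mem_of_dvd p hp x hx hC (commutator G) hd
    have hx' : orderOf (⟨x, hxK⟩ : commutator G) = p := by
      rw [← hx]; exact Subgroup.orderOf_mk x hxK
    have hC' := hyp_subgroup x hC (commutator G) hxK
    haveI hnt : Nontrivial (↥(commutator G) ⧸ (pPrimeCore p G).subgroupOf (commutator G)) := by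
      refine ⟨⟨QuotientGroup.mk (⟨x, hxK⟩ : commutator G), 1, ?_⟩⟩
      intro h
      have h1 : (⟨x, hxK⟩ : commutator G) ∈ (pPrimeCore p G).subgroupOf (commutator G) :=
        (QuotientGroup.eq_one_iff _).mp h
      have hx1 := cent_inf p hp x hx hC _ hSnd x (Subgroup.mem_subgroupOf.mp h1) rfl
      rw [hx1, orderOf_one] at hx
      exact hp.one_lt.ne hx
    refine @IsSimpleGroup.mk _ _ hnt ?_
    intro H hH
    obtain ⟨M', hM'⟩ : ∃ M' : Subgroup (commutator G),
        M' = H.comap (QuotientGroup.mk' ((pPrimeCore p G).subgroupOf (commutator G))) := ⟨_, rfl⟩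
    haveI hM'n : M'.Normal := by rw [hM']; exact Subgroup.Normal.comap hH _
    have hHmap : H = M'.map (QuotientGroup.mk' ((pPrimeCore p G).subgroupOf (commutator G))) := by
      rw [hM']
      exact (Subgroup.map_comap_eq_self_of_surjective (QuotientGroup.mk'_surjective _) H).symm
    by_cases hdM : p ∣ Nat.card M'
    · right
      have hxM : (⟨x, hxK⟩ : commutator G) ∈ M' := x_mem_of_dvd p hp _ hx' hC' M' hdM
      have hconj : ∀ g : G, g * x * g⁻¹ ∈ M'.map (commutator G).subtype := by
        intro g
        have hgK : g * x * g⁻¹ ∈ commutator G :=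
          (inferInstance : (commutator G).Normal).conj_mem x hxK g
        have hord : orderOf (⟨g * x * g⁻¹, hgK⟩ : commutator G) = p := by
          rw [Subgroup.orderOf_mk, orderOf_conj_eq, hx]
        obtain ⟨a, ha⟩ := exists_conj_mem p hp _ hx' hC' ⟨g * x * g⁻¹, hgK⟩ hord
        have h1 : a * ⟨g * x * g⁻¹, hgK⟩ * a⁻¹ ∈ M' := (Subgroup.zpowers_le.mpr hxM) ha
        have h2 : (⟨g * x * g⁻¹, hgK⟩ : commutator G) ∈ M' := by
          have h3 := hM'n.conj_mem _ h1 a⁻¹
          have e : a⁻¹ * (a * ⟨g * x * g⁻¹, hgK⟩ * a⁻¹) * a⁻¹⁻¹ = ⟨g * x * g⁻¹, hgK⟩ := by group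
          rw [e] at h3; exact h3
        exact Subgroup.mem_map.mpr ⟨_, h2, rfl⟩
      have hL : Subgroup.normalClosure {x} ≤ M'.map (commutator G).subtype := by
        rw [Subgroup.normalClosure, Subgroup.closure_le]
        intro y hy
        rw [Group.mem_conjugatesOfSet_iff] at hy
        obtain ⟨b, hb, hby⟩ := hy
        rw [Set.mem_singleton_iff] at hb
        subst hb
        obtain ⟨c, rfl⟩ := isConj_iff.mp hby
        exact hconj c
      have hdL : p ∣ Nat.card (Subgroup.normalClosure ({x} : Set G)) := by
        have hxL : x ∈ Subgroup.normalClosure ({x} : Set G) :=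
          Subgroup.subset_normalClosure (Set.mem_singleton x)
        rw [← hx]
        exact Subgroup.orderOf_dvd_natCard _ hxL
      have hKL := part_a p hp x hx hC (Subgroup.normalClosure ({x} : Set G)) hdL
      have hKM : commutator G ≤ M'.map (commutator G).subtype := hKL.trans hL
      have hM'top : M' = ⊤ := by
        rw [eq_top_iff]
        intro k _
        obtain ⟨m, hm, hmk⟩ := Subgroup.mem_map.mp (hKM k.2)
        have : m = k := Subtype.ext hmk
        rw [← this]; exact hm
      rw [hHmap, hM'top, ← MonoidHom.range_eq_map, MonoidHom.range_eq_top]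
      exact QuotientGroup.mk'_surjective _
    · left
      have hcop : (Nat.card M').Coprime p := ((Nat.Prime.coprime_iff_not_dvd hp).mpr hdM).symm
      have h1 := map_le_pPrimeCore_of_normal p (commutator G) M' hcop
      have h2 : M' ≤ (pPrimeCore p G).subgroupOf (commutator G) := by
        intro m hm
        rw [Subgroup.mem_subgroupOf]
        exact h1 (Subgroup.mem_map.mpr ⟨m, hm, rfl⟩)
      rw [hHmap, eq_bot_iff]
      rintro q ⟨m, hm, rfl⟩
      rw [Subgroup.mem_bot]
      exact (QuotientGroup.eq_one_iff m).mpr (h2 hm)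
  · intro heq
    have he : (Subgroup.zpowers x).relIndex
        (Subgroup.normalizer ((Subgroup.zpowers x : Subgroup G) : Set G)) = 1 := by
      rw [heq] at hcount
      have hpos : 0 < p - 1 := by have := hp.two_le; omega
      exact Nat.eq_of_mul_eq_mul_left hpos (by rw [hcount, mul_one])
    have hN := Subgroup.relIndex_eq_one.mp he
    have hnd := not_dvd_card_commutator_of_normalizer_le p hp x hx hC hN
    apply le_antisymm _ hle
    exact le_pPrimeCore p _ ((Nat.Prime.coprime_iff_not_dvd hp).mpr hnd).symm

end Cfsg.Agent.S4497
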