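import Mathlib
import Cfsg.Statements.S4509
import Cfsg.Agent.Lib.Helper7.SelfCent
import Cfsg.Agent.Lib.Helper7.PPrime

set_option autoImplicit false
open Cfsg

namespace Cfsg.Agent.S4509

open Cfsg.Agent.Lib.Helper7.SelfCent Cfsg.Agent.Lib.Helper7 Cfsg.Agent.S4496
open scoped commutatorElement

/-- `(1 + n p) * |N| = |G|` -/
theorem star {G : Type*} [Group G] [Finite G] (p : ℕ) (hp : p.Prime) (x : G)
    (hx : orderOf x = p) (hC : Subgroup.centralizer ({x} : Set G) = Subgroup.zpowers x)
    (n : ℕ) (hn : Nat.card {H : Subgroup G // Nat.card H = p} = 1 + n * p) :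
    (1 + n * p) * Nat.card (Subgroup.normalizer ((Subgroup.zpowers x : Subgroup G) : Set G)) =
      Nat.card G := by
  rw [← hn, card_subgroups_eq p hp x hx hC]
  exact Subgroup.index_mul_card _

/-- part (B) -/
theorem part_B {G : Type*} [Group G] [Finite G] (p : ℕ) (hp : p.Prime) (x : G)
    (hx : orderOf x = p) (hC : Subgroup.centralizer ({x} : Set G) = Subgroup.zpowers x)
    (n : ℕ) (hn : Nat.card {H : Subgroup G // Nat.card H = p} = 1 + n * p)
    (he : (Subgroup.zpowers x).relIndex
        (Subgroup.normalizer ((Subgroup.zpowers x : Subgroup G) : Set G)) = 1) :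
    Nat.card (commutator G) = 1 + n * p ∧ IsCyclic (G ⧸ commutator G) ∧
      (commutator G).index = p := by
  have hN := Subgroup.relIndex_eq_one.mp he
  have hnd := not_dvd_card_commutator_of_normalizer_le p hp x hx hC hN
  have hidx := index_commutator_of_not_dvd p hp x hx hC hnd
  refine ⟨?_, isCyclic_quot_of_not_dvd p hp x hx hC hnd, hidx⟩
  have hNeq : Subgroup.normalizer ((Subgroup.zpowers x : Subgroup G) : Set G) = Subgroup.zpowers x :=
    le_antisymm hN Subgroup.le_normalizer
  have h1 := star p hp x hx hC n hn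
  rw [hNeq, card_zpowers_eq p x hx] at h1
  have h2 := (commutator G).card_mul_index
  rw [hidx, ← h1] at h2
  exact Nat.eq_of_mul_eq_mul_right hp.pos h2

/-- `N_G(⟨x⟩) ∩ G' = ⟨x⟩` when `p ∤ |G''|` and `x ∈ G'` -/
theorem part_C {G : Type*} [Group G] [Finite G] (p : ℕ) (hp : p.Prime) (x : G)
    (hx : orderOf x = p) (hC : Subgroup.centralizer ({x} : Set G) = Subgroup.zpowers x)
    (n : ℕ) (hn : Nat.card {H : Subgroup G // Nat.card H = p} = 1 + n * p)
    (hd : p ∣ Nat.card (commutator G))
    (hne2 : derivedSeries G 2 ≠ derivedSeries G 1) :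
    Nat.card (derivedSeries G 2) = 1 + n * p ∧ Nat.card (commutator G) = p * (1 + n * p) := by
  haveI : Fact p.Prime := ⟨hp⟩
  have hxK : x ∈ commutator G := x_mem_of_dvd p hp x hx hC (commutator G) hd
  haveI hD2n : (derivedSeries G 2).Normal := derivedSeries_normal G 2
  have hD2le : derivedSeries G 2 ≤ commutator G := by
    rw [← derivedSeries_one]; exact derivedSeries_antitone G (by norm_num)
  have hD2nd : ¬ p ∣ Nat.card (derivedSeries G 2) := by
    intro h
    have h1 := part_a p hp x hx hC (derivedSeries G 2) h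
    apply hne2
    rw [derivedSeries_one]
    exact le_antisymm hD2le h1
  have hx' : orderOf (⟨x, hxK⟩ : commutator G) = p := by
    rw [← hx]; exact Subgroup.orderOf_mk x hxK
  have hC' := hyp_subgroup x hC (commutator G) hxK
  have hmap : (commutator (commutator G)).map (commutator G).subtype = derivedSeries G 2 := by
    rw [Subgroup.map_subtype_commutator]; rfl
  have hcardK : Nat.card (commutator (commutator G)) = Nat.card (derivedSeries G 2) := by
    rw [← hmap, Subgroup.card_map_of_injective (Subgroup.subtype_injective _)]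
  have hnd' : ¬ p ∣ Nat.card (commutator (commutator G)) := by rw [hcardK]; exact hD2nd
  have hidx := index_commutator_of_not_dvd p hp _ hx' hC' hnd'
  have hNK := normalizer_le_of_not_dvd p hp _ hx' hC' hnd'
  -- |G'| = |G''| * p
  have hK : Nat.card (derivedSeries G 2) * p = Nat.card (commutator G) := by
    have := (commutator (commutator G)).card_mul_index
    rw [hidx, hcardK] at this
    exact this
  -- N ⊓ G' = ⟨x⟩
  have hinf : commutator G ⊓ Subgroup.normalizer ((Subgroup.zpowers x : Subgroup G) : Set G) =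
      Subgroup.zpowers x := by
    apply le_antisymm
    · rintro u ⟨huK, huN⟩
      have hu' : (⟨u, huK⟩ : commutator G) ∈ Subgroup.normalizer
          ((Subgroup.zpowers (⟨x, hxK⟩ : commutator G) : Subgroup (commutator G)) : Set _) := by
        rw [Subgroup.mem_normalizer_iff]
        intro h
        have key : ∀ w : commutator G, w ∈ Subgroup.zpowers (⟨x, hxK⟩ : commutator G) ↔
            (w : G) ∈ Subgroup.zpowers x := by
          intro w
          rw [Subgroup.mem_zpowers_iff, Subgroup.mem_zpowers_iff]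
          constructor
          · rintro ⟨k, hk⟩
            exact ⟨k, by rw [← hk]; simp⟩
          · rintro ⟨k, hk⟩
            exact ⟨k, Subtype.ext (by simpa using hk)⟩
        rw [key, key]
        exact Subgroup.mem_normalizer_iff.mp huN (h : G)
      have h1 := hNK hu'
      obtain ⟨k, hk⟩ := Subgroup.mem_zpowers_iff.mp h1
      rw [Subgroup.mem_zpowers_iff]
      exact ⟨k, by have := congrArg Subtype.val hk; simpa using this⟩
    · exact le_inf ((Subgroup.zpowers_le).mpr hxK) Subgroup.le_normalizer
  -- Frattini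
  obtain ⟨P, hP⟩ := sylow_eq_zpowers p hp x hx hC
  have hPS : (P : Subgroup G) ≤ commutator G := by rw [hP]; exact (Subgroup.zpowers_le).mpr hxK
  have hfr : Subgroup.normalizer ((Subgroup.zpowers x : Subgroup G) : Set G) ⊔ commutator G = ⊤ := by
    rw [← hP]; exact Sylow.normalizer_sup_eq_top' P hPS
  have hprod := card_sup_mul_card_inf
    (Subgroup.normalizer ((Subgroup.zpowers x : Subgroup G) : Set G)) (commutator G)
  rw [hfr, Subgroup.card_top, hinf, card_zpowers_eq p x hx] at hprod
  have hstar := star p hp x hx hC n hn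
  -- |G| * p = |N| * |G'| ,  (1+np) |N| = |G|
  have hNpos : 0 < Nat.card (Subgroup.normalizer ((Subgroup.zpowers x : Subgroup G) : Set G)) :=
    Nat.card_pos
  have hfin : Nat.card (commutator G) = p * (1 + n * p) := by
    rw [← hstar] at hprod
    have : Nat.card (Subgroup.normalizer ((Subgroup.zpowers x : Subgroup G) : Set G)) *
        (p * (1 + n * p)) =
        Nat.card (Subgroup.normalizer ((Subgroup.zpowers x : Subgroup G) : Set G)) *
        Nat.card (commutator G) := by
      rw [← hprod]; ring
    exact (Nat.eq_of_mul_eq_mul_left hNpos this).symm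
  refine ⟨?_, hfin⟩
  rw [hfin] at hK
  have : Nat.card (derivedSeries G 2) * p = (1 + n * p) * p := by rw [hK]; ring
  exact Nat.eq_of_mul_eq_mul_right hp.pos this

/-- the forward direction of (A) in the case `t ≠ p - 1` -/
theorem part_A {G : Type*} [Group G] [Finite G] (p : ℕ) (hp : p.Prime) (x : G)
    (hx : orderOf x = p) (hC : Subgroup.centralizer ({x} : Set G) = Subgroup.zpowers x)
    (n : ℕ) (hn : Nat.card {H : Subgroup G // Nat.card H = p} = 1 + n * p)
    (hd : p ∣ Nat.card (commutator G)) (S : Subgroup G) [hS : S.Normal]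
    (hcard : Nat.card S = 1 + n * p) : derivedSeries G 2 ≠ derivedSeries G 1 := by
  have hnd : ¬ p ∣ Nat.card S := by
    rw [hcard]
    intro h
    have h2 : p ∣ n * p := dvd_mul_left p n
    have h3 : p ∣ 1 := (Nat.dvd_add_left h2).mp h
    exact hp.one_lt.ne' (Nat.dvd_one.mp h3)
  have hinf : S ⊓ Subgroup.normalizer ((Subgroup.zpowers x : Subgroup G) : Set G) = ⊥ := by
    rw [eq_bot_iff]
    rintro s ⟨hsS, hsN⟩
    rw [Subgroup.mem_bot]
    exact eq_one_of_mem_normalizer_of_mem p hp x hx hC S hnd s hsN hsS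
  have hprod := card_sup_mul_card_inf
    (Subgroup.normalizer ((Subgroup.zpowers x : Subgroup G) : Set G)) S
  rw [hinf, Subgroup.card_bot, mul_one, hcard, mul_comm, star p hp x hx hC n hn] at hprod
  have htop : Subgroup.normalizer ((Subgroup.zpowers x : Subgroup G) : Set G) ⊔ S = ⊤ :=
    Subgroup.eq_top_of_card_eq _ hprod
  have hdecomp : ∀ a : G, ∃ m ∈ Subgroup.normalizer ((Subgroup.zpowers x : Subgroup G) : Set G),
      ∃ s ∈ S, m * s = a := by
    intro a
    have ha : a ∈ ((Subgroup.normalizer ((Subgroup.zpowers x : Subgroup G) : Set G) ⊔ S :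
        Subgroup G) : Set G) := by
      rw [htop]; trivial
    rw [Subgroup.mul_normal] at ha
    exact Set.mem_mul.mp ha
  -- image of G' in G/S lies in ⟨x̄⟩
  have h1 : commutator G ≤ (Subgroup.zpowers (QuotientGroup.mk x : G ⧸ S)).comap
      (QuotientGroup.mk' S) := by
    rw [commutator_def, Subgroup.commutator_le]
    intro a _ b _
    obtain ⟨n₁, hn₁, s₁, hs₁, rfl⟩ := hdecomp a
    obtain ⟨n₂, hn₂, s₂, hs₂, rfl⟩ := hdecomp b
    have hc := comm_mem_zpowers_of_normalizer x hC n₁ n₂ hn₁ hn₂
    obtain ⟨k, hk⟩ := Subgroup.mem_zpowers_iff.mp hc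
    rw [Subgroup.mem_comap, Subgroup.mem_zpowers_iff]
    refine ⟨k, ?_⟩
    have e1 : ((s₁ : G) : G ⧸ S) = 1 := (QuotientGroup.eq_one_iff _).mpr hs₁
    have e2 : ((s₂ : G) : G ⧸ S) = 1 := (QuotientGroup.eq_one_iff _).mpr hs₂
    have e3 : (QuotientGroup.mk' S) ⁅n₁ * s₁, n₂ * s₂⁆ = (QuotientGroup.mk' S) ⁅n₁, n₂⁆ := by
      rw [commutatorElement_def, commutatorElement_def]
      simp only [map_mul, map_inv, QuotientGroup.mk'_apply, e1, e2, mul_one]
    rw [e3, ← hk, QuotientGroup.mk'_apply, QuotientGroup.mk_zpow]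
  have h2 : derivedSeries G 2 ≤ S := by
    rw [derivedSeries_succ, derivedSeries_one, Subgroup.commutator_le]
    intro u hu v hv
    obtain ⟨i, hi⟩ := Subgroup.mem_zpowers_iff.mp (h1 hu)
    obtain ⟨j, hj⟩ := Subgroup.mem_zpowers_iff.mp (h1 hv)
    rw [← QuotientGroup.eq_one_iff]
    rw [QuotientGroup.mk'_apply] at hi hj
    rw [commutatorElement_def]
    simp only [QuotientGroup.mk_mul, QuotientGroup.mk_inv]
    rw [← hi, ← hj]
    rw [← zpow_add, ← zpow_neg, ← zpow_add, ← zpow_neg, ← zpow_add]
    have : i + j + -i + -j = 0 := by ring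
    rw [this, zpow_zero]
  intro heq
  apply hnd
  rw [heq, derivedSeries_one] at h2
  exact hd.trans (Subgroup.card_dvd_of_le h2)

/-- Let the finite group G contain an element x of prime order p with C_G(x) = ⟨x⟩; let t be the number of conjugacy classes of elements of order p and 1 + n·p the number of subgroups of order p. Then G has a normal subgroup of order 1 + n·p if and only if either t = p − 1, or t < p − 1 and G″ ≠ G′. Moreover, if t = p − 1 then G′ has order 1 + n·p and G/G′ is cyclic of order p; and if t < p − 1 and G″ ≠ G′ then G″ has order 1 + n·p and G′ has order p·(1 + n·p). -/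
theorem result {G : Type*} [Group G] [Finite G] (p : ℕ) (hp : p.Prime) (x : G) (hx : orderOf x = p) (hC : Subgroup.centralizer ({x} : Set G) = Subgroup.zpowers x) (t : ℕ) (ht : Nat.card {C : ConjClasses G // ∃ g ∈ C.carrier, orderOf g = p} = t) (n : ℕ) (hn : Nat.card {H : Subgroup G // Nat.card H = p} = 1 + n * p) : ((∃ S : Subgroup G, S.Normal ∧ Nat.card S = 1 + n * p) ↔ (t = p - 1 ∨ (t < p - 1 ∧ derivedSeries G 2 ≠ derivedSeries G 1))) ∧ (t = p - 1 → Nat.card (commutator G) = 1 + n * p ∧ IsCyclic (G ⧸ commutator G) ∧ (commutator G).index = p) ∧ (t < p - 1 → derivedSeries G 2 ≠ derivedSeries G 1 → Nat.card (derivedSeries G 2) = 1 + n * p ∧ Nat.card (commutator G) = p * (1 + n * p)) := by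
  have hcount := class_count p hp x hx hC
  rw [ht] at hcount
  have hpos : 0 < p - 1 := by have := hp.two_le; omega
  have he_of_eq : t = p - 1 → (Subgroup.zpowers x).relIndex
        (Subgroup.normalizer ((Subgroup.zpowers x : Subgroup G) : Set G)) = 1 := by
    intro heq
    rw [heq] at hcount
    exact Nat.eq_of_mul_eq_mul_left hpos (by rw [hcount, mul_one])
  have hd_of_ne : t ≠ p - 1 → p ∣ Nat.card (commutator G) := by
    intro hne
    by_contra hnd
    have hN := normalizer_le_of_not_dvd p hp x hx hC hnd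
    have he := Subgroup.relIndex_eq_one.mpr hN
    rw [he, mul_one] at hcount
    exact hne hcount
  have hle : t ≤ p - 1 := by
    rw [← hcount]
    apply Nat.le_mul_of_pos_right
    rcases Nat.eq_zero_or_pos ((Subgroup.zpowers x).relIndex
        (Subgroup.normalizer ((Subgroup.zpowers x : Subgroup G) : Set G))) with h | h
    · rw [h, mul_zero] at hcount; omega
    · exact h
  have hB : t = p - 1 → Nat.card (commutator G) = 1 + n * p ∧ IsCyclic (G ⧸ commutator G) ∧
      (commutator G).index = p := fun heq => part_B p hp x hx hC n hn (he_of_eq heq)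
  have hCc : t < p - 1 → derivedSeries G 2 ≠ derivedSeries G 1 →
      Nat.card (derivedSeries G 2) = 1 + n * p ∧ Nat.card (commutator G) = p * (1 + n * p) :=
    fun hlt hne2 => part_C p hp x hx hC n hn (hd_of_ne hlt.ne) hne2
  refine ⟨⟨?_, ?_⟩, hB, hCc⟩
  · rintro ⟨S, hSn, hScard⟩
    by_cases heq : t = p - 1
    · exact Or.inl heq
    · right
      haveI := hSn
      exact ⟨lt_of_le_of_ne hle heq, part_A p hp x hx hC n hn (hd_of_ne heq) S hScard⟩
  · rintro (heq | ⟨hlt, hne2⟩)
    · exact ⟨commutator G, inferInstance, (hB heq).1⟩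
    · exact ⟨derivedSeries G 2, derivedSeries_normal G 2, (hCc hlt hne2).1⟩

end Cfsg.Agent.S4509
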