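import Mathlib
import Cfsg.Statements.S4518
import Cfsg.Agent.Lib.Helper7.GalConj
import Cfsg.Agent.Lib.Helper7.Clifford

set_option autoImplicit false
open Cfsg

namespace Cfsg.Agent.S4518

open Cfsg.Agent.Lib.Lead Cfsg.Agent.Lib.Helper7

/-- Let N be a normal subgroup of the finite group G whose index is not divisible by the prime p, and let k be coprime to the order of G with k ^ (p ^ e) ≡ 1 modulo the order of G for some e (so g ↦ g ^ k induces a field automorphism of p-power order on character values). If an irreducible character χ of G satisfies χ (g ^ k) = χ g for all g, then every irreducible constituent θ of the restriction of χ to N satisfies θ (n ^ k) = θ n for all n. -/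
theorem result {G : Type*} [Group G] [Fintype G] (p : ℕ) [Fact p.Prime] (N : Subgroup G) [N.Normal] [Fintype N] (hidx : ¬ p ∣ N.index) (k e : ℕ) (hk : Nat.Coprime k (Nat.card G)) (hke : k ^ (p ^ e) ≡ 1 [MOD Nat.card G]) (χ : Cfsg.IrrCharacter G) (hχ : ∀ g : G, (χ : G → ℂ) (g ^ k) = (χ : G → ℂ) g) (θ : Cfsg.IrrCharacter N) (hθ : Cfsg.classInner (fun n : N => (χ : G → ℂ) n) (θ : N → ℂ) ≠ 0) : ∀ n : N, (θ : N → ℂ) (n ^ k) = (θ : N → ℂ) n := by
  classical
  have hp : p.Prime := Fact.out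
  haveI : Fintype (Cfsg.IrrCharacter N) := Fintype.ofFinite _
  have hkN : k.Coprime (Nat.card N) :=
    Nat.Coprime.coprime_dvd_right (Subgroup.card_subgroup_dvd_card N) hk
  let T : Cfsg.IrrCharacter N → Cfsg.IrrCharacter N :=
    fun ψ => ⟨fun n => ψ.1 (n ^ k), Gal.isIrrCharacter_galois ψ k hkN⟩
  have hTinner : ∀ ψ : Cfsg.IrrCharacter N,
      Cfsg.classInner (fun n : N => (χ : G → ℂ) n) (T ψ).1
        = Cfsg.classInner (fun n : N => (χ : G → ℂ) n) ψ.1 := by
    intro ψ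
    unfold Cfsg.classInner
    congr 1
    have e1 : ∀ n : N, (χ : G → ℂ) n * (starRingEnd ℂ) ((T ψ).1 n)
        = (fun u : N => (χ : G → ℂ) u * (starRingEnd ℂ) (ψ.1 u)) (n ^ k) := by
      intro n
      show χ.1 (n : G) * (starRingEnd ℂ) (ψ.1 (n ^ k))
        = χ.1 ((n ^ k : N) : G) * (starRingEnd ℂ) (ψ.1 (n ^ k))
      rw [Subgroup.coe_pow, hχ]
    rw [Finset.sum_congr rfl (fun n _ => e1 n)]
    exact Equiv.sum_comp (powCoprime hkN.symm)
      (fun u : N => (χ : G → ℂ) u * (starRingEnd ℂ) (ψ.1 u))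
  let f : Function.End {ψ : Cfsg.IrrCharacter N //
      Cfsg.classInner (fun n : N => (χ : G → ℂ) n) ψ.1 ≠ 0} :=
    fun ψ => ⟨T ψ.1, by rw [hTinner]; exact ψ.2⟩
  have hiter : ∀ (j : ℕ) (ψ : {ψ : Cfsg.IrrCharacter N //
      Cfsg.classInner (fun n : N => (χ : G → ℂ) n) ψ.1 ≠ 0}) (n : N),
      ((f ^ j) ψ).1.1 n = ψ.1.1 (n ^ (k ^ j)) := by
    intro j
    induction j with
    | zero => intro ψ n; rw [pow_zero, pow_zero, pow_one]; rfl
    | succ j ih =>
      intro ψ n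
      rw [pow_succ]
      show ((f ^ j) (f ψ)).1.1 n = _
      rw [ih]
      show ψ.1.1 ((n ^ (k ^ j)) ^ k) = _
      rw [← pow_mul, ← pow_succ]
  have hfp : f ^ (p ^ e) = 1 := by
    funext ψ
    apply Subtype.ext; apply Subtype.ext
    funext n
    rw [hiter]
    show ψ.1.1 (n ^ (k ^ (p ^ e))) = ψ.1.1 n
    have h1 : k ^ (p ^ e) ≡ 1 [MOD orderOf n] :=
      hke.of_dvd ((orderOf_dvd_natCard n).trans (Subgroup.card_subgroup_dvd_card N))
    have h2 := (pow_eq_pow_iff_modEq (x := n)).mpr h1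
    rw [h2, pow_one]
  have hmod := Equiv.Perm.card_fixedPoints_modEq (p := p) (n := e) hfp
  have hCcard : Fintype.card {ψ : Cfsg.IrrCharacter N //
      Cfsg.classInner (fun n : N => (χ : G → ℂ) n) ψ.1 ≠ 0} ∣ N.index := by
    have h1 := Cliff.card_conj_dvd_index N θ
    have h2 : Nat.card {ψ : Cfsg.IrrCharacter N //
        Cfsg.classInner (fun n : N => (χ : G → ℂ) n) ψ.1 ≠ 0}
        = Nat.card {ψ : Cfsg.IrrCharacter N // ∃ x : G, ψ.1 = conjFun N θ.1 x} := by
      apply Nat.card_congr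
      apply Equiv.subtypeEquivRight
      intro ψ
      constructor
      · intro hψ; exact Cliff.exists_conj_of_constituents N χ θ ψ hθ hψ
      · rintro ⟨x, hx⟩
        rw [hx, Cliff.inner_restrict_conjFun N χ.1 (isClassFunction_of_irr χ)]; exact hθ
    rw [← Nat.card_eq_fintype_card, h2]; exact h1
  have hfix : ∃ ψ : {ψ : Cfsg.IrrCharacter N //
      Cfsg.classInner (fun n : N => (χ : G → ℂ) n) ψ.1 ≠ 0}, f ψ = ψ := by
    by_contra hno
    push Not at hno
    have hempty : Fintype.card (Function.fixedPoints f) = 0 := by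
      rw [Fintype.card_eq_zero_iff]
      exact ⟨fun ψ => hno ψ.1 ψ.2⟩
    rw [hempty] at hmod
    have hdvd : p ∣ Fintype.card {ψ : Cfsg.IrrCharacter N //
      Cfsg.classInner (fun n : N => (χ : G → ℂ) n) ψ.1 ≠ 0} := (Nat.modEq_zero_iff_dvd).mp hmod
    exact hidx (hdvd.trans hCcard)
  obtain ⟨ψ₀, hψ₀⟩ := hfix
  obtain ⟨x, hx⟩ := Cliff.exists_conj_of_constituents N χ ψ₀.1 θ ψ₀.2 hθ
  intro n
  have h1 : ∀ u : N, ψ₀.1.1 (u ^ k) = ψ₀.1.1 u := by
    intro u
    exact congrArg (fun z : {ψ : Cfsg.IrrCharacter N //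
      Cfsg.classInner (fun n : N => (χ : G → ℂ) n) ψ.1 ≠ 0} => z.1.1 u) hψ₀
  show θ.1 (n ^ k) = θ.1 n
  rw [hx, conjFun_apply, conjFun_apply]
  rw [← h1 ⟨x * n * x⁻¹, _⟩]
  refine congrArg ψ₀.1.1 (Subtype.ext ?_)
  show x * ((n : G) ^ k) * x⁻¹ = (x * (n : G) * x⁻¹) ^ k
  exact (conj_pow).symm

end Cfsg.Agent.S4518
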