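import Mathlib
import Cfsg.Statements.S4558

set_option autoImplicit false
open Cfsg

namespace Cfsg.Agent.S4558

open Polynomial in
theorem multiset_roots_of_unity (N : ℕ) (hN : N ≠ 0) (ζ : ℂ) (hζ : IsPrimitiveRoot ζ N)
    (S : Multiset ℂ) (hS : ∀ μ ∈ S, μ ^ N = 1) :
    ∃ F : ℤ[X], aeval ζ F = S.sum ∧ F.eval 1 = (Multiset.card S : ℤ) := by
  haveI : NeZero N := ⟨hN⟩
  induction S using Multiset.induction with
  | empty => exact ⟨0, by simp, by simp⟩
  | cons a S ih =>
    obtain ⟨F, hF1, hF2⟩ := ih (fun μ hμ => hS μ (Multiset.mem_cons_of_mem hμ))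
    obtain ⟨i, hi, rfl⟩ := hζ.eq_pow_of_pow_eq_one (hS a (Multiset.mem_cons_self a S))
    refine ⟨X ^ i + F, ?_, ?_⟩
    · simp [hF1]
    · simp [hF2]; ring

open Polynomial in
theorem end_lemma (p : ℕ) [hp : Fact p.Prime] (n j : ℕ) (f : Module.End ℂ (Fin n → ℂ))
    (hf : f ^ (p ^ j) = 1) (htr : LinearMap.trace ℂ _ f = 0) : p ∣ n := by
  have hN : p ^ j ≠ 0 := pow_ne_zero _ hp.out.ne_zero
  have hsplit : (f.charpoly).Splits := IsAlgClosed.splits _
  have htrace := Module.End.trace_eq_sum_roots_charpoly_of_splits hsplit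
  have hcard : Multiset.card f.charpoly.roots = n := by
    rw [IsAlgClosed.card_roots_eq_natDegree, LinearMap.charpoly_natDegree]
    simp
  have hroots : ∀ μ ∈ f.charpoly.roots, μ ^ (p ^ j) = 1 := by
    intro μ hμ
    have hroot : f.charpoly.IsRoot μ := (Polynomial.mem_roots'.mp hμ).2
    have hev : f.HasEigenvalue μ := (Module.End.hasEigenvalue_iff_isRoot_charpoly f μ).mpr hroot
    obtain ⟨v, hv⟩ := hev.exists_hasEigenvector
    have h1 : (f ^ (p ^ j)) v = μ ^ (p ^ j) • v := by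
      have := hv.pow_apply (p ^ j)
      exact this
    rw [hf] at h1
    have h2 : (μ ^ (p ^ j) - 1) • v = 0 := by
      rw [sub_smul, ← h1]; simp
    rcases smul_eq_zero.mp h2 with h3 | h3
    · exact sub_eq_zero.mp h3
    · exact absurd h3 hv.2
  obtain ⟨F, hF1, hF2⟩ := multiset_roots_of_unity (p ^ j) hN _
    (Complex.isPrimitiveRoot_exp (p ^ j) hN) _ hroots
  rw [← htrace, htr] at hF1
  have hζ := Complex.isPrimitiveRoot_exp (p ^ j) hN
  have hint : IsIntegral ℤ (Complex.exp (2 * Real.pi * Complex.I / ((p ^ j : ℕ) : ℂ))) :=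
    hζ.isIntegral (Nat.pos_of_ne_zero hN)
  have hdvd := minpoly.isIntegrallyClosed_dvd hint hF1
  rw [← Polynomial.cyclotomic_eq_minpoly hζ (Nat.pos_of_ne_zero hN)] at hdvd
  obtain ⟨Q, hQ⟩ := hdvd
  have hev : (n : ℤ) = (cyclotomic (p ^ j) ℤ).eval 1 * Q.eval 1 := by
    rw [← hcard, ← hF2, hQ, eval_mul]
  rcases Nat.eq_zero_or_pos j with rfl | hj
  · simp at hev
    rw [hev]; exact dvd_zero p
  · obtain ⟨k, rfl⟩ := Nat.exists_eq_succ_of_ne_zero hj.ne'
    rw [eval_one_cyclotomic_prime_pow] at hev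
    have : (p : ℤ) ∣ (n : ℤ) := ⟨_, hev⟩
    exact_mod_cast this

/-- Let χ be a character of the finite group G and g an element of p-power order for the prime p. If χ g = 0, then p divides the degree of χ. -/
theorem result {G : Type*} [Group G] [Finite G] (p : ℕ) [Fact p.Prime] (χ : G → ℂ) (hχ : Cfsg.IsCharacter G χ) (g : G) (hg : ∃ j : ℕ, orderOf g = p ^ j) (h0 : χ g = 0) : p ∣ Cfsg.charDegree χ := by
  obtain ⟨n, ρ, rfl⟩ := hχ
  obtain ⟨j, hj⟩ := hg
  have hdeg : Cfsg.charDegree ρ.character = n := by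
    unfold Cfsg.charDegree
    rw [Representation.char_one]
    simp
  rw [hdeg]
  apply end_lemma p n j (ρ g)
  · rw [← map_pow, ← hj, pow_orderOf_eq_one, map_one]
  · exact h0

end Cfsg.Agent.S4558
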