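import Mathlib
import Cfsg.Statements.S4566
import Cfsg.Agent.Lib.Helper7.Schur

set_option autoImplicit false
open Cfsg

namespace Cfsg.Agent.S4566

open Cfsg.Agent.Lib.Helper7
open scoped ComplexConjugate

/-- Let N be a central subgroup of the finite group G, ψ a faithful irreducible (hence degree-one) character of N, and χ an irreducible character of G whose restriction to N contains ψ. If g ∈ G and some x ∈ G has commutator x⁻¹ g⁻¹ x g in N but different from 1, then χ g = 0. -/
theorem result {G : Type*} [Group G] [Fintype G] (N : Subgroup G) [Fintype N] (hN : N ≤ Subgroup.center G) (ψ : Cfsg.IrrCharacter ↥N) (hfaith : ∀ n : ↥N, (ψ : ↥N → ℂ) n = (ψ : ↥N → ℂ) 1 → n = 1) (χ : Cfsg.IrrCharacter G) (hover : Cfsg.classInner (fun n : ↥N => (χ : G → ℂ) n) (ψ : ↥N → ℂ) ≠ 0) (g x : G) (hcomm : x⁻¹ * g⁻¹ * x * g ∈ N) (hne : x⁻¹ * g⁻¹ * x * g ≠ 1) : (χ : G → ℂ) g = 0 := by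
  classical
  obtain ⟨χf, m, ρ, hρ, rfl⟩ := χ
  obtain ⟨ψf, k, σ, hσ, rfl⟩ := ψ
  simp only at hfaith hover ⊢
  -- scalars for ρ on N
  have hlam : ∀ n : N, ∃ c : ℂ, ρ (n : G) = c • (1 : Module.End ℂ (Fin m → ℂ)) :=
    fun n => central_scalar ρ (n : G) (hN n.2)
  choose lam hlam using hlam
  have hmu : ∀ n : N, ∃ c : ℂ, σ n = c • (1 : Module.End ℂ (Fin k → ℂ)) := by
    intro n
    apply central_scalar σ n
    rw [Subgroup.mem_center_iff]
    intro y
    apply Subtype.ext
    have := Subgroup.mem_center_iff.mp (hN n.2) (y : G)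
    simpa using this
  choose mu hmu using hmu
  have hχN : ∀ n : N, ρ.character (n : G) = lam n * m := by
    intro n
    unfold Representation.character
    rw [hlam n, map_smul, LinearMap.trace_one]
    simp
  have hψN : ∀ n : N, σ.character n = mu n * k := by
    intro n
    unfold Representation.character
    rw [hmu n, map_smul, LinearMap.trace_one]
    simp
  -- k ≠ 0
  have hk : k ≠ 0 := by
    rintro rfl
    apply hover
    unfold Cfsg.classInner
    simp [hψN]
  rcases Nat.eq_zero_or_pos m with rfl | hm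
  · exact character_fin_zero ρ g
  have hkC : (k : ℂ) ≠ 0 := by exact_mod_cast hk
  have hmC : (m : ℂ) ≠ 0 := by exact_mod_cast hm.ne'
  haveI : Nonempty (Fin k) := ⟨⟨0, Nat.pos_of_ne_zero hk⟩⟩
  haveI : Nonempty (Fin m) := ⟨⟨0, hm⟩⟩
  have hinjk : ∀ c c' : ℂ, c • (1 : Module.End ℂ (Fin k → ℂ)) = c' • 1 → c = c' := by
    intro c c' h
    have := congrArg (fun f : Module.End ℂ (Fin k → ℂ) => f (fun _ => 1) ⟨0, Nat.pos_of_ne_zero hk⟩) h
    simpa using this
  have hinjm : ∀ c c' : ℂ, c • (1 : Module.End ℂ (Fin m → ℂ)) = c' • 1 → c = c' := by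
    intro c c' h
    have := congrArg (fun f : Module.End ℂ (Fin m → ℂ) => f (fun _ => 1) ⟨0, hm⟩) h
    simpa using this
  have hlam_mul : ∀ a b : N, lam (a * b) = lam a * lam b := by
    intro a b
    apply hinjm
    rw [← hlam, Subgroup.coe_mul, map_mul, hlam a, hlam b, smul_mul_smul_comm, mul_one]
  have hmu_mul : ∀ a b : N, mu (a * b) = mu a * mu b := by
    intro a b
    apply hinjk
    rw [← hmu, map_mul, hmu a, hmu b, smul_mul_smul_comm, mul_one]
  have hmu_one : mu 1 = 1 := by
    apply hinjk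
    rw [← hmu, map_one, one_smul]
  have hmu_pow : ∀ (a : N) (j : ℕ), mu (a ^ j) = mu a ^ j := by
    intro a j
    induction j with
    | zero => simp [hmu_one]
    | succ j ih => rw [pow_succ, hmu_mul, ih, pow_succ]
  have hmu_norm : ∀ a : N, mu a * conj (mu a) = 1 := by
    intro a
    have h1 : mu a ^ orderOf a = 1 := by rw [← hmu_pow, pow_orderOf_eq_one, hmu_one]
    have h2 : ‖mu a‖ = 1 := Complex.norm_eq_one_of_pow_eq_one h1 (orderOf_pos a).ne'
    rw [Complex.mul_conj, Complex.normSq_eq_norm_sq, h2]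
    simp
  -- the inner product sum
  have hS : ∑ n : N, lam n * conj (mu n) ≠ 0 := by
    intro h0
    apply hover
    unfold Cfsg.classInner
    have : ∑ n : N, ρ.character (n : G) * conj (σ.character n) = (m : ℂ) * k * ∑ n : N, lam n * conj (mu n) := by
      rw [Finset.mul_sum]
      apply Finset.sum_congr rfl
      intro n _
      rw [hχN, hψN]
      simp
      ring
    rw [this, h0]
    simp
  have hlam_eq : ∀ a : N, lam a = mu a := by
    intro a
    have hre : ∑ n : N, lam n * conj (mu n) = lam a * conj (mu a) * ∑ n : N, lam n * conj (mu n) := by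
      conv_lhs => rw [← Equiv.sum_comp (Equiv.mulLeft a)]
      rw [Finset.mul_sum]
      apply Finset.sum_congr rfl
      intro n _
      simp only [Equiv.coe_mulLeft]
      rw [hlam_mul, hmu_mul, map_mul]
      ring
    have h1 : lam a * conj (mu a) = 1 := by
      have h2 : (1 - lam a * conj (mu a)) * ∑ n : N, lam n * conj (mu n) = 0 := by
        rw [sub_mul, one_mul, ← hre, sub_self]
      rcases mul_eq_zero.mp h2 with h3 | h3
      · exact (sub_eq_zero.mp h3).symm
      · exact absurd h3 hS
    have h4 : conj (mu a) ≠ 0 := by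
      intro h
      have := hmu_norm a
      rw [h, mul_zero] at this
      exact zero_ne_one this
    have h5 : lam a * conj (mu a) = mu a * conj (mu a) := by rw [h1, hmu_norm]
    exact mul_right_cancel₀ h4 h5
  -- final
  set z : N := ⟨x⁻¹ * g⁻¹ * x * g, hcomm⟩ with hz
  have hzne : z ≠ 1 := by
    intro h
    apply hne
    have := congrArg Subtype.val h
    simpa [hz] using this
  have hlamz : lam z ≠ 1 := by
    intro h
    apply hzne
    apply hfaith
    rw [hψN, hψN, ← hlam_eq, h, hmu_one]
  have hzc : (z : G) ∈ Subgroup.center G := hN z.2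
  have hconj : x * g * x⁻¹ = g * (z : G) := by
    have h1 := Subgroup.mem_center_iff.mp hzc x
    have : (z : G) = x⁻¹ * g⁻¹ * x * g := rfl
    rw [this] at h1 ⊢
    have h2 : x * g = g * x * (x⁻¹ * g⁻¹ * x * g) := by group
    calc x * g * x⁻¹ = g * x * (x⁻¹ * g⁻¹ * x * g) * x⁻¹ := by rw [← h2]
      _ = g * (x * (x⁻¹ * g⁻¹ * x * g)) * x⁻¹ := by group
      _ = g * ((x⁻¹ * g⁻¹ * x * g) * x) * x⁻¹ := by rw [h1]
      _ = g * (x⁻¹ * g⁻¹ * x * g) := by group
  have hfin : ρ.character g = lam z * ρ.character g := by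
    rw [← character_mul_scalar ρ g (z : G) (lam z) (hlam z), ← hconj, Representation.char_conj]
  have : (1 - lam z) * ρ.character g = 0 := by
    rw [sub_mul, one_mul, ← hfin, sub_self]
  rcases mul_eq_zero.mp this with h | h
  · exact absurd (sub_eq_zero.mp h).symm hlamz
  · exact h

end Cfsg.Agent.S4566
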