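import Mathlib
import Cfsg.Statements.S4582

set_option autoImplicit false
open Cfsg

namespace Cfsg.Agent.S4582



theorem transfer_comp_eq_pow {G : Type*} [Group G] {H : Subgroup G} [H.FiniteIndex]
    {A B : Type*} [CommGroup A] [CommGroup B] (ϕ : H →* A) (π : A →* B) (g : G) (b : B)
    (key : ∀ (k : ℕ) (g₀ : G) (hk : g₀⁻¹ * g ^ k * g₀ ∈ H),
      π (ϕ ⟨g₀⁻¹ * g ^ k * g₀, hk⟩) = b ^ k) :
    π (MonoidHom.transfer ϕ g) = b ^ H.index := by
  classical
  let := H.fintypeQuotientOfFiniteIndex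
  rw [MonoidHom.transfer_eq_prod_quotient_orbitRel_zpowers_quot, map_prod]
  rw [Subgroup.index_eq_sum_minimalPeriod H g, ← Finset.prod_pow_eq_pow_sum]
  refine Finset.prod_congr rfl (fun q _ => key _ _ _)

theorem eq_one_of_two_pow_of_odd {T : Type*} [Group T] (hT : IsPGroup 2 T) (t : T) (m : ℕ)
    (hm : Odd m) (h : t ^ m = 1) : t = 1 := by
  obtain ⟨k, hk⟩ := hT t
  have h1 : orderOf t ∣ m := orderOf_dvd_of_pow_eq_one h
  have h2 : orderOf t ∣ 2 ^ k := orderOf_dvd_of_pow_eq_one hk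
  have hc : Nat.Coprime m (2 ^ k) := Nat.Coprime.pow_right k (Nat.Coprime.symm (Nat.coprime_two_left.mpr hm))
  have h3 : orderOf t ∣ Nat.gcd m (2 ^ k) := Nat.dvd_gcd h1 h2
  rw [hc] at h3
  exact orderOf_eq_one_iff.mp (Nat.dvd_one.mp h3)

theorem mem_comm_of {G : Type*} [Group G] (P : Subgroup G) (y : P) (h : (y : G) ∈ ⁅P, P⁆) :
    y ∈ commutator P := by
  rw [← Subgroup.map_subtype_commutator] at h
  obtain ⟨z, hz, hzy⟩ := h
  have : z = y := Subtype.ext hzy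
  rw [← this]; exact hz

theorem core {G : Type*} [Group G] [Finite G] (N : Subgroup G) [N.Normal] (P : Subgroup G)
    (hP2 : IsPGroup 2 P) (hidx : Odd P.index) (hNP : N ⊔ P = ⊤)
    (hP : ∀ x ∈ P, x ^ 2 ∈ (P ⊓ N) ⊔ ⁅P, P⁆)
    (hQ : ∀ x ∈ P ⊓ N, x ^ 2 ∈ ⁅P, P⁆)
    (hodd : Odd (Nat.card (Abelianization N))) :
    ∀ x ∈ P, x ^ 2 ∈ ⁅P, P⁆ := by
  classical
  let ϕ : P →* Abelianization P := Abelianization.of
  have hϕs : Function.Surjective ϕ := QuotientGroup.mk_surjective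
  have hT2 : IsPGroup 2 (Abelianization P) := hP2.of_surjective ϕ hϕs
  let V : G →* Abelianization P := MonoidHom.transfer ϕ
  -- (1)
  have h1 : ∀ n ∈ N, V n = 1 := by
    intro n hn
    let VN : N →* Abelianization P := V.comp N.subtype
    let L : Abelianization N →* Abelianization P := Abelianization.lift VN
    have e1 : V n = L (Abelianization.of ⟨n, hn⟩) := by
      rw [Abelianization.lift_apply_of]; rfl
    rw [e1]
    apply eq_one_of_two_pow_of_odd hT2 _ _ hodd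
    rw [← map_pow, pow_card_eq_one', map_one]
  -- (2)
  have h2 : ∀ x ∈ P, V x ^ 2 = 1 := by
    intro x hx
    have hle : (P ⊓ N) ⊔ ⁅P, P⁆ ≤ V.ker := by
      refine sup_le ?_ ?_
      · intro g hg
        exact MonoidHom.mem_ker.mpr (h1 g hg.2)
      · have : ⁅P, P⁆ ≤ commutator G := by
          rw [commutator_def]
          exact Subgroup.commutator_mono le_top le_top
        exact this.trans (Abelianization.commutator_subset_ker V)
    have := hle (hP x hx)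
    rw [MonoidHom.mem_ker, map_pow] at this
    exact this
  -- (3)
  let Qb : Subgroup (Abelianization P) := ((P ⊓ N).subgroupOf P).map ϕ
  let π : Abelianization P →* Abelianization P ⧸ Qb := QuotientGroup.mk' Qb
  have h4 : ∀ t ∈ Qb, t ^ 2 = 1 := by
    rintro t ⟨q, hq, rfl⟩
    rw [← map_pow]
    have hq' : (q : G) ∈ P ⊓ N := hq
    have := mem_comm_of P (q ^ 2) (by simpa using hQ _ hq')
    rw [← Abelianization.ker_of] at this
    exact MonoidHom.mem_ker.mp this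
  intro x hx
  have h3 : π (V x) = (π (ϕ ⟨x, hx⟩)) ^ P.index := by
    apply transfer_comp_eq_pow
    intro k g₀ hk
    have hg₀ : g₀ ∈ (↑(N ⊔ P) : Set G) := by rw [hNP]; trivial
    rw [Subgroup.normal_mul] at hg₀
    obtain ⟨n, hn, p, hp, rfl⟩ := Set.mem_mul.mp hg₀
    have hy : n⁻¹ * x ^ k * n ∈ P := by
      have : n⁻¹ * x ^ k * n = p * ((n * p)⁻¹ * x ^ k * (n * p)) * p⁻¹ := by group
      rw [this]
      exact P.mul_mem (P.mul_mem hp hk) (P.inv_mem hp)
    have hxk : x ^ k ∈ P := P.pow_mem hx k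
    have hcP : (x ^ k)⁻¹ * (n⁻¹ * x ^ k * n) ∈ P := P.mul_mem (P.inv_mem hxk) hy
    have hcN : (x ^ k)⁻¹ * (n⁻¹ * x ^ k * n) ∈ N := by
      have : (x ^ k)⁻¹ * (n⁻¹ * x ^ k * n) = ((x ^ k)⁻¹ * n⁻¹ * (x ^ k)⁻¹⁻¹) * n := by group
      rw [this]
      exact N.mul_mem (Subgroup.Normal.conj_mem inferInstance _ (N.inv_mem hn) _) hn
    have e : (⟨(n * p)⁻¹ * x ^ k * (n * p), hk⟩ : P) =
        (⟨p, hp⟩ : P)⁻¹ * ((⟨x, hx⟩ : P) ^ k * ⟨_, hcP⟩) * ⟨p, hp⟩ := by
      apply Subtype.ext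
      simp only [Subgroup.coe_mul, Subgroup.coe_inv, Subgroup.coe_pow]
      group
    rw [e]
    have e2 : ϕ ((⟨p, hp⟩ : P)⁻¹ * ((⟨x, hx⟩ : P) ^ k * ⟨_, hcP⟩) * ⟨p, hp⟩) =
        ϕ ⟨x, hx⟩ ^ k * ϕ ⟨_, hcP⟩ := by
      rw [map_mul, map_mul, map_inv, map_mul, map_pow, mul_comm, mul_inv_cancel_left]
    rw [e2, map_mul, map_pow]
    have e3 : π (ϕ ⟨_, hcP⟩) = 1 := by
      rw [QuotientGroup.mk'_apply, QuotientGroup.eq_one_iff]
      exact ⟨⟨_, hcP⟩, ⟨hcP, hcN⟩, rfl⟩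
    rw [e3, mul_one]
  have h5 : V x * (ϕ ⟨x, hx⟩ ^ P.index)⁻¹ ∈ Qb := by
    rw [← QuotientGroup.eq_one_iff]
    have : π (V x * (ϕ ⟨x, hx⟩ ^ P.index)⁻¹) = 1 := by
      rw [map_mul, map_inv, map_pow, h3, mul_inv_cancel]
    exact this
  have h6 := h4 _ h5
  rw [mul_pow, h2 x hx, one_mul, inv_pow, inv_eq_one, ← pow_mul, mul_comm, pow_mul] at h6
  have h7 : ϕ ⟨x, hx⟩ ^ 2 = 1 := eq_one_of_two_pow_of_odd hT2 _ _ hidx h6
  rw [← map_pow] at h7
  have h8 : (⟨x, hx⟩ : P) ^ 2 ∈ commutator P := by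
    rw [← Abelianization.ker_of]; exact h7
  rw [← Subgroup.map_subtype_commutator]
  exact ⟨_, h8, by simp⟩

/-- Let N be a normal subgroup of the finite group G, P a Sylow 2-subgroup of G and Q = P ∩ N. Suppose that P/QP' and Q/Q' are elementary abelian (every square of an element of P lies in the subgroup generated by Q and the derived subgroup of P, and every square of an element of Q lies in the derived subgroup of Q), and that the commutator factor group N/N' has odd order. Then P/P' is elementary abelian. -/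
theorem result {G : Type*} [Group G] [Finite G] (N : Subgroup G) [N.Normal] (P : Sylow 2 G)
    (hP : ∀ x ∈ (P : Subgroup G), x ^ 2 ∈ ((P : Subgroup G) ⊓ N) ⊔ ⁅(P : Subgroup G), (P : Subgroup G)⁆)
    (hQ : ∀ x ∈ (P : Subgroup G) ⊓ N, x ^ 2 ∈ ⁅(P : Subgroup G) ⊓ N, (P : Subgroup G) ⊓ N⁆)
    (hodd : Odd (Nat.card (Abelianization N))) :
    ∀ x ∈ (P : Subgroup G), x ^ 2 ∈ ⁅(P : Subgroup G), (P : Subgroup G)⁆ := by
  classical
  set K : Subgroup G := N ⊔ (P : Subgroup G) with hK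
  have hNK : N ≤ K := le_sup_left
  have hPK : (P : Subgroup G) ≤ K := le_sup_right
  let N' : Subgroup K := N.subgroupOf K
  let P' : Subgroup K := (P : Subgroup G).subgroupOf K
  have hP2' : IsPGroup 2 P' := P.isPGroup'.comap_of_injective K.subtype K.subtype_injective
  have hidx : Odd P'.index := by
    have h1 : P'.index ∣ (P : Subgroup G).index := Subgroup.relIndex_dvd_index_of_le hPK
    have h2 : Odd (P : Subgroup G).index := by
      rw [← Nat.not_even_iff_odd, even_iff_two_dvd]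
      exact P.not_dvd_index
    exact Odd.of_dvd_nat h2 h1
  have hNP' : N' ⊔ P' = ⊤ := by
    rw [eq_top_iff]
    intro g _
    have hg : (g : G) ∈ (↑(N ⊔ (P : Subgroup G)) : Set G) := g.2
    rw [Subgroup.normal_mul] at hg
    obtain ⟨n, hn, p, hp, hnp⟩ := Set.mem_mul.mp hg
    have : g = (⟨n, hNK hn⟩ : K) * ⟨p, hPK hp⟩ := Subtype.ext hnp.symm
    rw [this]
    exact Subgroup.mul_mem_sup (show (⟨n, hNK hn⟩ : K) ∈ N' from hn) (show (⟨p, hPK hp⟩ : K) ∈ P' from hp)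
  have hmapP : P'.map K.subtype = (P : Subgroup G) := by
    rw [Subgroup.subgroupOf_map_subtype]; exact inf_eq_left.mpr hPK
  have hcomm : (⁅P', P'⁆).map K.subtype = ⁅(P : Subgroup G), (P : Subgroup G)⁆ := by
    rw [Subgroup.map_commutator, hmapP]
  have pull : ∀ (S : Subgroup K) (x : K), (x : G) ∈ S.map K.subtype → x ∈ S := by
    rintro S x ⟨s, hs, hsx⟩
    have : s = x := Subtype.ext hsx
    rw [← this]; exact hs
  have hP' : ∀ x ∈ P', x ^ 2 ∈ (P' ⊓ N') ⊔ ⁅P', P'⁆ := by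
    intro x hx
    apply pull
    have hle : ((P : Subgroup G) ⊓ N) ⊔ ⁅(P : Subgroup G), (P : Subgroup G)⁆ ≤
        ((P' ⊓ N') ⊔ ⁅P', P'⁆).map K.subtype := by
      rw [Subgroup.map_sup, hcomm]
      refine sup_le_sup_right ?_ _
      intro g hg
      exact ⟨⟨g, hPK hg.1⟩, ⟨hg.1, hg.2⟩, rfl⟩
    have := hle (hP (x : G) hx)
    simpa using this
  have hQ' : ∀ x ∈ P' ⊓ N', x ^ 2 ∈ ⁅P', P'⁆ := by
    intro x hx
    apply pull
    rw [hcomm]
    have h1 : (x : G) ∈ (P : Subgroup G) ⊓ N := ⟨hx.1, hx.2⟩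
    have := Subgroup.commutator_mono (inf_le_left : (P : Subgroup G) ⊓ N ≤ P)
      (inf_le_left : (P : Subgroup G) ⊓ N ≤ P) (hQ _ h1)
    simpa using this
  have hodd' : Odd (Nat.card (Abelianization N')) := by
    have e : N' ≃* N := Subgroup.subgroupOfEquivOfLe hNK
    rw [Nat.card_congr (MulEquiv.abelianizationCongr e).toEquiv]
    exact hodd
  have key := core N' P' hP2' hidx hNP' hP' hQ' hodd'
  intro x hx
  have := key ⟨x, hPK hx⟩ hx
  rw [← hcomm]
  exact ⟨_, this, by simp⟩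

end Cfsg.Agent.S4582
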