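import Mathlib
import Cfsg.Statements.S4602
import Cfsg.Agent.Lib.Helper7.PSolv2

namespace Cfsg.Agent.S4602

open Cfsg.Agent.Lib.Helper7

/-- Let G be a finite p-solvable group and q a prime different from p. Some Sylow p-subgroup of G normalizes some Sylow q-subgroup of G if and only if q does not divide the order of G/O_{p'}(G), the quotient by the largest normal subgroup of order prime to p. -/
theorem result {G : Type*} [Group G] [Finite G] (p q : ℕ) [Fact p.Prime] [Fact q.Prime] (hpq : p ≠ q) (hsolv : Cfsg.IsPSolvable p G) :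
    (∃ (P : Sylow p G) (Q : Sylow q G), (P : Subgroup G) ≤ Subgroup.normalizer ((Q : Subgroup G) : Set G)) ↔ ¬ q ∣ (Cfsg.pPrimeCore p G).index := by
  have hp : p.Prime := Fact.out
  have hq : q.Prime := Fact.out
  have hidx := Subgroup.index_mul_card (Cfsg.pPrimeCore p G)
  constructor
  · rintro ⟨P, Q, hPQ⟩ hdvd
    have hle := PS.sylow_le_pPrimeCore p q hpq _ G rfl hsolv P Q hPQ
    have h1 : q ^ (Nat.card G).factorization q ∣ Nat.card (Cfsg.pPrimeCore p G) := by
      rw [← Sylow.card_eq_multiplicity Q]
      exact Subgroup.card_dvd_of_le hle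
    have h2 : q ^ ((Nat.card G).factorization q + 1) ∣ Nat.card G := by
      have h3 := Nat.mul_dvd_mul hdvd h1
      rw [hidx] at h3
      rw [pow_succ, mul_comm]
      exact h3
    exact Nat.pow_succ_factorization_not_dvd Nat.card_pos.ne' hq h2
  · intro hq'
    obtain ⟨P⟩ : Nonempty (Sylow p G) := inferInstance
    haveI hNn := pPrimeCore_normal' p G
    have hAK : (P : Subgroup G) ≤ Subgroup.normalizer ((Cfsg.pPrimeCore p G : Subgroup G) : Set G) := by
      rw [Subgroup.normalizer_eq_top]
      exact le_top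
    have hcop : (Nat.card (P : Subgroup G)).Coprime (Nat.card (Cfsg.pPrimeCore p G)) := by
      rw [Sylow.card_eq_multiplicity P]
      exact Nat.Coprime.pow_left _ (pPrimeCore_coprime p).symm
    haveI : Group.IsNilpotent (P : Subgroup G) := P.2.isNilpotent
    have hsolvP : Group.IsSolvable (P : Subgroup G) := inferInstance
    obtain ⟨Q₀, hQ₀⟩ := Cfsg.Agent.Lib.Lead.exists_invariant_sylow (P : Subgroup G)
      (Cfsg.pPrimeCore p G) hAK hcop (Or.inl hsolvP) q
    have hcard : Nat.card ((Q₀ : Subgroup (Cfsg.pPrimeCore p G)).map (Cfsg.pPrimeCore p G).subtype)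
        = q ^ (Nat.card G).factorization q := by
      rw [Cfsg.Agent.Lib.Lead.card_sylow_map]
      congr 1
      rw [← hidx, Nat.factorization_mul Subgroup.index_ne_zero_of_finite Nat.card_pos.ne']
      simp [Nat.factorization_eq_zero_of_not_dvd hq']
    refine ⟨P, Sylow.ofCard _ hcard, ?_⟩
    rw [Sylow.coe_ofCard]
    exact hQ₀

end Cfsg.Agent.S4602
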