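import Cfsg.Statements.S4604
import Mathlib
import Cfsg.Agent.Lib.Lead.PiSection
import Cfsg.Agent.Lib.Lead.PReg
-- import your own Cfsg.Agent.* helpers here

set_option autoImplicit false
open Cfsg

namespace Cfsg.Agent.S4604

/-- Let G be a finite group, p a prime and p^a the p-part of the order of G. Let x, y ∈ G and let x′, y′ be their p-regular parts: x′ has order prime to p, commutes with x·x′⁻¹, and x·x′⁻¹ has p-power order (likewise for y). Then x′ and y′ are conjugate in G if and only if for every irreducible character χ of G the algebraic integer χ(x)^(p^a) − χ(y)^(p^a) is p times an algebraic integer. -/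
theorem result {G : Type*} [Group G] [Finite G] (p : ℕ) [Fact p.Prime] (x y x' y' : G)
    (hx : (∃ k : ℕ, orderOf (x * x'⁻¹) = p ^ k) ∧ Commute (x * x'⁻¹) x' ∧ ¬ p ∣ orderOf x')
    (hy : (∃ k : ℕ, orderOf (y * y'⁻¹) = p ^ k) ∧ Commute (y * y'⁻¹) y' ∧ ¬ p ∣ orderOf y') :
    IsConj x' y' ↔ ∀ χ : Cfsg.IrrCharacter G, ∃ γ : Cfsg.AlgInt,
      (χ : G → ℂ) x ^ (p ^ (Nat.card G).factorization p) - (χ : G → ℂ) y ^ (p ^ (Nat.card G).factorization p) = (p : ℂ) * (γ : ℂ) := by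
  classical
  haveI : Fintype G := Fintype.ofFinite G
  haveI : Fintype (Cfsg.IrrCharacter G) := Fintype.ofFinite _
  have hp : p.Prime := Fact.out
  obtain ⟨A, hA⟩ : ∃ A, A = (Nat.card G).factorization p := ⟨_, rfl⟩
  rw [← hA]
  have hG0 : Nat.card G ≠ 0 := Nat.card_pos.ne'
  obtain ⟨n, hn⟩ : ∃ n, n = Nat.card G / p ^ A := ⟨_, rfl⟩
  have hGn : Nat.card G = p ^ A * n := by
    rw [hn, hA]; exact (Nat.ordProj_mul_ordCompl_eq_self (Nat.card G) p).symm
  have hpn : Nat.Coprime p n := by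
    rw [Nat.Prime.coprime_iff_not_dvd hp, hn, hA]
    exact Nat.not_dvd_ordCompl hp hG0
  have hcop : Nat.Coprime (p ^ A) n := Nat.Coprime.pow_left A hpn
  obtain ⟨⟨kx, hkx⟩, hxc, hxp⟩ := hx
  obtain ⟨⟨ky, hky⟩, hyc, hyp⟩ := hy
  have hxe : x * x'⁻¹ * x' = x := by rw [inv_mul_cancel_right]
  have hye : y * y'⁻¹ * y' = y := by rw [inv_mul_cancel_right]
  have hkA : ∀ (u : G) (k : ℕ), orderOf u = p ^ k → k ≤ A := by
    intro u k hk
    rw [hA]
    apply (Nat.Prime.pow_dvd_iff_le_factorization hp hG0).mp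
    rw [← hk]; exact orderOf_dvd_natCard u
  have hcong : ∀ χ : Cfsg.IrrCharacter G,
      Lib.Lead.InIdeal (Ideal.span {(p : Cfsg.AlgInt)}) (χ.1 x ^ p ^ A - χ.1 (x' ^ p ^ A)) ∧
      Lib.Lead.InIdeal (Ideal.span {(p : Cfsg.AlgInt)}) (χ.1 y ^ p ^ A - χ.1 (y' ^ p ^ A)) := by
    intro χ
    obtain ⟨d, ρ, hρ, hρχ⟩ := χ.2
    rw [← hρχ]
    constructor
    · have h1 := Lib.Lead.char_preg_congr_p ρ p (x * x'⁻¹) x' hxc kx hkx hxp A (hkA _ _ hkx)
      rwa [hxe] at h1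
    · have h1 := Lib.Lead.char_preg_congr_p ρ p (y * y'⁻¹) y' hyc ky hky hyp A (hkA _ _ hky)
      rwa [hye] at h1
  have hspan : ∀ z : ℂ, Lib.Lead.InIdeal (Ideal.span {(p : Cfsg.AlgInt)}) z ↔
      ∃ γ : Cfsg.AlgInt, z = (p : ℂ) * (γ : ℂ) := by
    intro z
    constructor
    · rintro ⟨a, ha, rfl⟩
      obtain ⟨γ, hγ⟩ := Ideal.mem_span_singleton.mp ha
      exact ⟨γ, by rw [hγ]; push_cast; rfl⟩
    · rintro ⟨γ, rfl⟩
      exact ⟨(p : Cfsg.AlgInt) * γ, Ideal.mem_span_singleton.mpr (dvd_mul_right _ _), by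
        push_cast; rfl⟩
  constructor
  · intro hconj χ
    rw [← hspan]
    have h1 : χ.1 (x' ^ p ^ A) = χ.1 (y' ^ p ^ A) := by
      obtain ⟨c, hc⟩ := isConj_iff.mp hconj
      rw [← hc, conj_pow]
      exact (Lib.Lead.isClassFunction_of_char (Lib.Lead.isCharacter_of_irr χ.2) _ c).symm
    have h2 := Lib.Lead.inIdeal_sub (hcong χ).1 (hcong χ).2
    have h3 : χ.1 x ^ p ^ A - χ.1 (x' ^ p ^ A) - (χ.1 y ^ p ^ A - χ.1 (y' ^ p ^ A))
        = χ.1 x ^ p ^ A - χ.1 y ^ p ^ A := by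
      rw [h1]; ring
    rw [h3] at h2
    exact h2
  · intro h
    obtain ⟨t, ht0, ht1⟩ := Nat.chineseRemainder hcop 0 1
    have htm : p ^ A ∣ t := (Nat.modEq_zero_iff_dvd).mp ht0
    have hmem := Lib.Lead.pi_section_ai (p ^ A) n hGn hcop (x' ^ p ^ A) t htm ht1
    obtain ⟨c, hc, hsum⟩ := Lib.Lead.aiSpan_exists_coeff hmem
    have hval : ∀ z : G, (if IsConj (z ^ t) (x' ^ p ^ A) then (n : ℂ) else 0)
        = ∑ χ : Cfsg.IrrCharacter G, c χ * χ.1 z := by
      intro z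
      have h4 := congrFun hsum z
      rw [Finset.sum_apply] at h4
      exact h4
    have hreg : ∀ v : G, ¬ p ∣ orderOf v → v ^ t = v := by
      intro v hv
      have h3 : orderOf v ∣ n := by
        have h4 : orderOf v ∣ p ^ A * n := by
          rw [← hGn]; exact orderOf_dvd_natCard v
        exact (Nat.Coprime.pow_left A
          ((Nat.Prime.coprime_iff_not_dvd hp).mpr hv)).symm.dvd_of_dvd_mul_left h4
      have h6 := pow_eq_pow_iff_modEq.mpr (ht1.of_dvd h3)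
      rw [pow_one] at h6
      exact h6
    have hregP : ∀ v : G, ¬ p ∣ orderOf v → (v ^ p ^ A) ^ t = v ^ p ^ A := by
      intro v hv
      rw [← pow_mul, mul_comm, pow_mul, hreg v hv]
    have hvx := hval (x' ^ p ^ A)
    rw [hregP x' hxp, if_pos (IsConj.refl _)] at hvx
    have hvy := hval (y' ^ p ^ A)
    rw [hregP y' hyp] at hvy
    have hconjP : IsConj (y' ^ p ^ A) (x' ^ p ^ A) := by
      by_contra hnc
      rw [if_neg hnc] at hvy
      have hdiff : Lib.Lead.InIdeal (Ideal.span {(p : Cfsg.AlgInt)}) ((n : ℂ)) := by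
        have h7 : ∑ χ : Cfsg.IrrCharacter G, c χ * (χ.1 (x' ^ p ^ A) - χ.1 (y' ^ p ^ A))
            = (n : ℂ) := by
          simp only [mul_sub, Finset.sum_sub_distrib]
          rw [← hvx, ← hvy, sub_zero]
        rw [← h7]
        apply Lib.Lead.inIdeal_sum
        intro χ _
        apply Lib.Lead.inIdeal_mul_left (hc χ)
        have h8 := Lib.Lead.inIdeal_add
          (Lib.Lead.inIdeal_sub ((hspan _).mpr (h χ)) (hcong χ).1) (hcong χ).2
        have h9 : χ.1 x ^ p ^ A - χ.1 y ^ p ^ A - (χ.1 x ^ p ^ A - χ.1 (x' ^ p ^ A))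
            + (χ.1 y ^ p ^ A - χ.1 (y' ^ p ^ A)) = χ.1 (x' ^ p ^ A) - χ.1 (y' ^ p ^ A) := by ring
        rw [h9] at h8
        exact h8
      exact (Nat.Prime.coprime_iff_not_dvd hp).mp hpn (Lib.Lead.natCast_inIdeal_span hp hdiff)
    obtain ⟨r, hr⟩ := htm
    obtain ⟨c', hc'⟩ := isConj_iff.mp hconjP
    rw [isConj_comm, isConj_iff]
    refine ⟨c', ?_⟩
    have h10 : (c' * y' ^ p ^ A * c'⁻¹) ^ r = (x' ^ p ^ A) ^ r := by rw [hc']
    rw [conj_pow, ← pow_mul, ← pow_mul, ← hr, hreg y' hyp, hreg x' hxp] at h10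
    exact h10

end Cfsg.Agent.S4604
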