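import Mathlib
import Cfsg.Statements.S4619

set_option autoImplicit false
open scoped Pointwise
open Cfsg

namespace Cfsg.Agent.S4619

theorem aux {G : Type*} [Group G] (P Q : Subgroup G)
    (hTI : (∀ g : G, g ∉ Subgroup.normalizer (P : Set G) → P ⊓ (MulAut.conj g • P) = ⊥))
    (hQ : Q ≤ P) (hQ1 : Q ≠ ⊥) (g : G) (hg : MulAut.conj g • Q ≤ P) :
    g ∈ Subgroup.normalizer (P : Set G) := by
  by_contra hcon
  have hg' : g⁻¹ ∉ Subgroup.normalizer (P : Set G) := fun h => hcon (by simpa using inv_mem h)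
  have h1 := hTI g⁻¹ hg'
  apply hQ1
  rw [eq_bot_iff, ← h1]
  refine le_inf hQ ?_
  intro x hx
  rw [Subgroup.mem_pointwise_smul_iff_inv_smul_mem]
  have : MulAut.conj g • x ∈ MulAut.conj g • Q := Subgroup.smul_mem_pointwise_smul _ _ _ hx
  have h2 := hg this
  simpa using h2

/-- Let P be a Sylow p-subgroup of the finite group G that is a trivial-intersection set: P meets each conjugate g P g⁻¹ with g outside N_G(P) trivially. Then for every nontrivial subgroup Q of P the normalizer of Q lies in the normalizer of P, and any g ∈ G conjugating Q into P lies in N_G(P). -/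
theorem result {G : Type*} [Group G] [Finite G] (p : ℕ) [Fact p.Prime] (P : Sylow p G) (hTI : (∀ g : G, g ∉ Subgroup.normalizer ((P : Subgroup G) : Set G) → (P : Subgroup G) ⊓ (MulAut.conj g • (P : Subgroup G)) = ⊥)) (Q : Subgroup G) (hQ : Q ≤ (P : Subgroup G)) (hQ1 : Q ≠ ⊥) :
    Subgroup.normalizer (Q : Set G) ≤ Subgroup.normalizer ((P : Subgroup G) : Set G) ∧
      ∀ g : G, MulAut.conj g • Q ≤ (P : Subgroup G) → g ∈ Subgroup.normalizer ((P : Subgroup G) : Set G) := by
  refine ⟨?_, fun g hg => aux _ Q hTI hQ hQ1 g hg⟩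
  intro g hg
  apply aux _ Q hTI hQ hQ1 g
  have : MulAut.conj g • Q = Q := by
    rw [Subgroup.mem_normalizer_iff'] at hg
    ext x
    rw [Subgroup.mem_pointwise_smul_iff_inv_smul_mem]
    simp only [MulAut.smul_def, MulAut.inv_apply, MulAut.conj_symm_apply]
    have := hg (g⁻¹ * x)
    simp only [mul_inv_cancel_left] at this
    rw [this]
  rw [this]; exact hQ

end Cfsg.Agent.S4619
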