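import Mathlib
import Cfsg.Statements.S4620
import Cfsg.Agent.Lib.Lead.Frob2
import Cfsg.Agent.Lib.Helper7.PPrime

set_option autoImplicit false
open Cfsg

namespace Cfsg.Agent.S4620



open scoped Pointwise
open Cfsg.Agent.Lib.Lead Cfsg.Agent.Lib.Helper7

theorem isPGroup_zpowers_of_pow {H : Type*} [Group H] {p : ℕ} [hp : Fact p.Prime] (y : H) (k : ℕ)
    (hy : y ^ p ^ k = 1) : IsPGroup p (Subgroup.zpowers y) := by
  obtain ⟨j, -, hj⟩ := (Nat.dvd_prime_pow hp.out).mp (orderOf_dvd_of_pow_eq_one hy)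
  apply IsPGroup.of_card (n := j)
  rw [Nat.card_zpowers, hj]

theorem mem_sylow_of_mem_normalizer {H : Type*} [Group H] {p : ℕ} [Fact p.Prime] (S : Sylow p H)
    (y : H) (hy : IsPGroup p (Subgroup.zpowers y))
    (hn : y ∈ Subgroup.normalizer ((S : Subgroup H) : Set H)) : y ∈ (S : Subgroup H) := by
  have h1 : Subgroup.zpowers y ≤ Subgroup.normalizer ((S : Subgroup H) : Set H) := by
    rw [Subgroup.zpowers_le]; exact hn
  have h2 := IsPGroup.to_sup_of_normal_right' hy S.2 h1
  have h3 := S.is_maximal' h2 le_sup_right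
  rw [← h3]
  exact (le_sup_left : Subgroup.zpowers y ≤ _) (Subgroup.mem_zpowers y)

/-- elementwise trivial-intersection property -/
def TIe {H : Type*} [Group H] (S : Subgroup H) : Prop :=
  ∀ g x : H, x ∈ S → x ≠ 1 → g⁻¹ * x * g ∈ S → g ∈ Subgroup.normalizer (S : Set H)

theorem tie_all {H : Type*} [Group H] [Finite H] {p : ℕ} [Fact p.Prime] (P : Sylow p H)
    (hP : TIe (P : Subgroup H)) (S : Sylow p H) : TIe (S : Subgroup H) := by
  obtain ⟨c, rfl⟩ := MulAction.exists_smul_eq H P S
  intro g x hx hx1 hgx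
  rw [Sylow.coe_subgroup_smul] at hx hgx ⊢
  rw [frob_mem_conj_smul] at hx hgx
  have h1 : c⁻¹ * g * c ∈ Subgroup.normalizer ((P : Subgroup H) : Set H) := by
    apply hP (c⁻¹ * g * c) (c⁻¹ * x * c) hx
    · intro h
      apply hx1
      have e : x = c * (c⁻¹ * x * c) * c⁻¹ := by group
      rw [e, h]; group
    · have e : (c⁻¹ * g * c)⁻¹ * (c⁻¹ * x * c) * (c⁻¹ * g * c) = c⁻¹ * (g⁻¹ * x * g) * c := by
        group
      rw [e]; exact hgx
  rw [Subgroup.mem_set_normalizer_iff] at h1 ⊢
  intro h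
  show h ∈ MulAut.conj c • (P : Subgroup H) ↔ g * h * g⁻¹ ∈ MulAut.conj c • (P : Subgroup H)
  rw [frob_mem_conj_smul, frob_mem_conj_smul]
  have h2 := h1 (c⁻¹ * h * c)
  have e : c⁻¹ * g * c * (c⁻¹ * h * c) * (c⁻¹ * g * c)⁻¹ = c⁻¹ * (g * h * g⁻¹) * c := by group
  rw [e] at h2
  exact h2

section conjs

variable {H : Type*} [Group H]

theorem conj_le (N M : Subgroup H) [hN : N.Normal] (hMN : M ≤ N) (h : H) :
    MulAut.conj h • M ≤ N := by
  intro y hy
  rw [frob_mem_conj_smul] at hy
  have h1 := hN.conj_mem _ (hMN hy) h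
  have e : h * (h⁻¹ * y * h) * h⁻¹ = y := by group
  rwa [e] at h1

theorem conj_norm (N M : Subgroup H) [hN : N.Normal]
    (hMn : N ≤ Subgroup.normalizer (M : Set H)) (h : H) :
    N ≤ Subgroup.normalizer ((MulAut.conj h • M : Subgroup H) : Set H) := by
  intro n hn
  rw [Subgroup.mem_set_normalizer_iff]
  intro y
  show y ∈ MulAut.conj h • M ↔ n * y * n⁻¹ ∈ MulAut.conj h • M
  rw [frob_mem_conj_smul, frob_mem_conj_smul]
  have h1 : h⁻¹ * n * h ∈ N := by
    have := hN.conj_mem n hn h⁻¹
    rwa [inv_inv] at this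
  have h2 := hMn h1
  rw [Subgroup.mem_set_normalizer_iff] at h2
  have h3 := h2 (h⁻¹ * y * h)
  have e : h⁻¹ * n * h * (h⁻¹ * y * h) * (h⁻¹ * n * h)⁻¹ = h⁻¹ * (n * y * n⁻¹) * h := by group
  rw [e] at h3
  exact h3

theorem conj_card (M : Subgroup H) (h : H) :
    Nat.card (MulAut.conj h • M : Subgroup H) = Nat.card M :=
  Nat.card_congr (Subgroup.equivSMul (MulAut.conj h) M).toEquiv.symm

theorem gen_le (M X : Subgroup H) (hX : ∀ h : H, MulAut.conj h • M ≤ X) :
    Subgroup.normalClosure (M : Set H) ≤ X := by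
  unfold Subgroup.normalClosure
  rw [Subgroup.closure_le]
  intro z hz
  obtain ⟨a, ha, hc⟩ := Group.mem_conjugatesOfSet_iff.mp hz
  obtain ⟨c, hc⟩ := isConj_iff.mp hc
  apply hX c
  rw [frob_mem_conj_smul, ← hc]
  have e : c⁻¹ * (c * a * c⁻¹) * c = a := by group
  rw [e]; exact ha

end conjs

/-- Let H be a finite group with no nontrivial normal p-subgroup and no nontrivial normal subgroup of order prime to p, whose Sylow p-subgroup P is nontrivial and a trivial-intersection set (P meets its conjugates by elements outside N_H(P) trivially). Then H has a unique minimal normal subgroup N; N is non-abelian simple with trivial centralizer in H (so H embeds in Aut(N)), and a Sylow p-subgroup of N is again a nontrivial trivial-intersection set in N. -/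
theorem result {H : Type*} [Group H] [Finite H] (p : ℕ) [Fact p.Prime] (hOp : Cfsg.pCore p H = ⊥) (hOp' : Cfsg.pPrimeCore p H = ⊥) (P : Sylow p H) (hP1 : (P : Subgroup H) ≠ ⊥)
    (hTI : ∀ g : H, g ∉ Subgroup.normalizer ((P : Subgroup H) : Set H) → (P : Subgroup H) ⊓ (MulAut.conj g • (P : Subgroup H)) = ⊥) :
    ∃ N : Subgroup H, N.Normal ∧ N ≠ ⊥ ∧ (∀ K : Subgroup H, K.Normal → K ≠ ⊥ → N ≤ K) ∧
      IsSimpleGroup N ∧ ¬ IsMulCommutative N ∧ Subgroup.centralizer (N : Set H) = ⊥ ∧
      ∀ Q : Sylow p N, (Q : Subgroup N) ≠ ⊥ ∧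
        ∀ n : N, n ∉ Subgroup.normalizer ((Q : Subgroup N) : Set N) → (Q : Subgroup N) ⊓ (MulAut.conj n • (Q : Subgroup N)) = ⊥ := by
  classical
  have hp := (Fact.out : p.Prime)
  have F0 : ∀ K : Subgroup H, K.Normal → IsPGroup p K → K = ⊥ := by
    intro K hK hKp
    have h1 : K ≤ Cfsg.pCore p H := le_sSup ⟨hK, hKp⟩
    rw [hOp] at h1
    exact le_bot_iff.mp h1
  have F1 : ∀ K : Subgroup H, K.Normal → K ≠ ⊥ → p ∣ Nat.card K := by
    intro K hK hK1
    by_contra hnd
    apply hK1
    have hc : (Nat.card K).Coprime p :=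
      Nat.Coprime.symm ((Nat.Prime.coprime_iff_not_dvd hp).mpr hnd)
    have h1 : K ≤ Cfsg.pPrimeCore p H := le_sSup ⟨hK, hc⟩
    rw [hOp'] at h1
    exact le_bot_iff.mp h1
  have cauchy : ∀ K : Subgroup H, p ∣ Nat.card K → ∃ x ∈ K, orderOf x = p := by
    intro K hK
    obtain ⟨x, hx⟩ := exists_prime_orderOf_dvd_card' p hK
    exact ⟨x, x.2, by rw [← hx, Subgroup.orderOf_coe]⟩
  have ne_one_of_order : ∀ x : H, orderOf x = p → x ≠ 1 := by
    intro x hx h
    rw [h, orderOf_one] at hx
    exact hp.one_lt.ne hx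
  have TIP : TIe (P : Subgroup H) := by
    intro g x hx hx1 hgx
    by_contra hg
    have h1 := hTI g hg
    have h2 : x ∈ (P : Subgroup H) ⊓ MulAut.conj g • (P : Subgroup H) :=
      ⟨hx, (frob_mem_conj_smul _ g x).mpr hgx⟩
    rw [h1, Subgroup.mem_bot] at h2
    exact hx1 h2
  have TIS : ∀ S : Sylow p H, TIe (S : Subgroup H) := tie_all P TIP
  have T2 : ∀ (S : Sylow p H) (x g : H), x ∈ (S : Subgroup H) → x ≠ 1 → g * x = x * g →
      g ∈ Subgroup.normalizer ((S : Subgroup H) : Set H) := by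
    intro S x g hx hx1 hc
    apply TIS S g x hx hx1
    have e : g⁻¹ * x * g = x := by rw [mul_assoc, ← hc, inv_mul_cancel_left]
    rw [e]; exact hx
  have pgrp_of_order : ∀ x : H, orderOf x = p → IsPGroup p (Subgroup.zpowers x) := by
    intro x hx
    apply isPGroup_zpowers_of_pow x 1
    rw [pow_one, ← hx, pow_orderOf_eq_one]
  have inSyl : ∀ x : H, orderOf x = p → ∃ S : Sylow p H, x ∈ (S : Subgroup H) := by
    intro x hx
    obtain ⟨S, hS⟩ := (pgrp_of_order x hx).exists_le_sylow
    exact ⟨S, hS (Subgroup.mem_zpowers x)⟩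
  have L4 : ∀ (K : Subgroup H), K.Normal → K ≠ ⊥ → ∀ S : Sylow p H,
      ¬ K ≤ Subgroup.normalizer ((S : Subgroup H) : Set H) := by
    intro K hK hK1 S hKS
    have hT : ((S : Subgroup H) ⊓ K).Normal := by
      constructor
      intro x hx h
      refine ⟨?_, hK.conj_mem x hx.2 h⟩
      apply mem_sylow_of_mem_normalizer S
      · obtain ⟨k, hk⟩ := S.2 ⟨x, hx.1⟩
        have hk' : x ^ p ^ k = 1 := congrArg Subtype.val hk
        apply isPGroup_zpowers_of_pow _ k
        rw [conj_pow, hk']; group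
      · exact hKS (hK.conj_mem x hx.2 h)
    have hTp : IsPGroup p ((S : Subgroup H) ⊓ K : Subgroup H) := S.2.to_le inf_le_left
    have hT1 := F0 _ hT hTp
    obtain ⟨x, hxK, hxo⟩ := cauchy K (F1 K hK hK1)
    have hxS : x ∈ (S : Subgroup H) :=
      mem_sylow_of_mem_normalizer S x (pgrp_of_order x hxo) (hKS hxK)
    have h2 : x ∈ ((S : Subgroup H) ⊓ K : Subgroup H) := ⟨hxS, hxK⟩
    rw [hT1, Subgroup.mem_bot] at h2
    exact ne_one_of_order x hxo h2
  have hH1 : (⊤ : Subgroup H) ≠ ⊥ := by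
    intro h
    apply hP1
    exact le_bot_iff.mp (h ▸ le_top)
  have hex : ∃ n : ℕ, ∃ N : Subgroup H, N.Normal ∧ N ≠ ⊥ ∧ Nat.card N = n :=
    ⟨_, ⊤, inferInstance, hH1, rfl⟩
  obtain ⟨N, hNn, hN1, hNc⟩ := Nat.find_spec hex
  have hNmin : ∀ K : Subgroup H, K.Normal → K ≠ ⊥ → Nat.card N ≤ Nat.card K := by
    intro K hK hK1
    rw [hNc]
    exact Nat.find_min' hex ⟨K, hK, hK1, rfl⟩
  have hNmin' : ∀ K : Subgroup H, K.Normal → K ≠ ⊥ → K ≤ N → K = N := by
    intro K hK hK1 hKN
    exact Subgroup.eq_of_le_of_card_ge hKN (hNmin K hK hK1)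
  haveI := hNn
  have step2 : ∀ K : Subgroup H, K.Normal → K ≠ ⊥ → N ≤ K := by
    intro K hK hK1
    by_contra hNK
    haveI := hK
    have hKN : K ⊓ N = ⊥ := by
      by_contra h
      have h1 := hNmin' (K ⊓ N) inferInstance h inf_le_right
      apply hNK
      rw [← h1]; exact inf_le_left
    have hcomm : ∀ k ∈ K, ∀ n ∈ N, n * k = k * n := by
      intro k hk n hn
      have h1 : n * k * n⁻¹ * k⁻¹ ∈ K ⊓ N := by
        refine ⟨K.mul_mem (hK.conj_mem k hk n) (K.inv_mem hk), ?_⟩
        have e : n * k * n⁻¹ * k⁻¹ = n * (k * n⁻¹ * k⁻¹) := by group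
        rw [e]; exact N.mul_mem hn (hNn.conj_mem _ (N.inv_mem hn) k)
      rw [hKN, Subgroup.mem_bot] at h1
      calc n * k = (n * k * n⁻¹ * k⁻¹) * (k * n) := by group
        _ = k * n := by rw [h1, one_mul]
    obtain ⟨x, hxK, hxo⟩ := cauchy K (F1 K hK hK1)
    obtain ⟨S, hxS⟩ := inSyl x hxo
    exact L4 N hNn hN1 S (fun n hn => T2 S x n hxS (ne_one_of_order x hxo) (hcomm x hxK n hn))
  have pN : p ∣ Nat.card N := F1 N hNn hN1
  have simp3 : ∀ M : Subgroup H, M ≤ N → N ≤ Subgroup.normalizer (M : Set H) →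
      M = ⊥ ∨ M = N := by
    by_contra hcon
    push Not at hcon
    have hex2 : ∃ n : ℕ, ∃ M : Subgroup H, M ≤ N ∧ N ≤ Subgroup.normalizer (M : Set H) ∧
        M ≠ ⊥ ∧ Nat.card M = n := by
      obtain ⟨M, h1, h2, h3, -⟩ := hcon
      exact ⟨_, M, h1, h2, h3, rfl⟩
    obtain ⟨M, hMN, hMnorm, hM1, hMc⟩ := Nat.find_spec hex2
    have hMmin : ∀ M' : Subgroup H, M' ≤ N → N ≤ Subgroup.normalizer (M' : Set H) → M' ≠ ⊥ →
        Nat.card M ≤ Nat.card M' := by
      intro M' h1 h2 h3
      rw [hMc]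
      exact Nat.find_min' hex2 ⟨M', h1, h2, h3, rfl⟩
    have hMneN : M ≠ N := by
      obtain ⟨M0, h1, h2, h3, h4⟩ := hcon
      intro h
      have h5 := hMmin M0 h1 h2 h3
      rw [h] at h5
      exact h4 (Subgroup.eq_of_le_of_card_ge h1 h5)
    -- conjugates
    have hcl : ∀ h : H, MulAut.conj h • M ≤ N := fun h => conj_le N M hMN h
    have hcn : ∀ h : H, N ≤ Subgroup.normalizer ((MulAut.conj h • M : Subgroup H) : Set H) :=
      fun h => conj_norm N M hMnorm h
    have hcc : ∀ h : H, Nat.card (MulAut.conj h • M : Subgroup H) = Nat.card M :=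
      fun h => conj_card M h
    have claimA : ∀ h : H, MulAut.conj h • M = M ∨
        (∀ a ∈ M, ∀ b ∈ MulAut.conj h • M, a * b = b * a) := by
      intro h
      by_cases hI : M ⊓ MulAut.conj h • M = ⊥
      · right
        intro a ha b hb
        have h1 : a * b * a⁻¹ * b⁻¹ ∈ M ⊓ MulAut.conj h • M := by
          constructor
          · have hbn := hMnorm (hcl h hb)
            rw [Subgroup.mem_set_normalizer_iff] at hbn
            have h2 := (hbn a⁻¹).mp (M.inv_mem ha)
            have e : a * b * a⁻¹ * b⁻¹ = a * (b * a⁻¹ * b⁻¹) := by group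
            rw [e]; exact M.mul_mem ha h2
          · have han := hcn h (hMN ha)
            rw [Subgroup.mem_set_normalizer_iff] at han
            have h2 := (han b).mp hb
            exact Subgroup.mul_mem _ h2 (Subgroup.inv_mem _ hb)
        rw [hI, Subgroup.mem_bot] at h1
        calc a * b = (a * b * a⁻¹ * b⁻¹) * (b * a) := by group
          _ = b * a := by rw [h1, one_mul]
      · left
        have h1 : M ⊓ MulAut.conj h • M ≤ N := le_trans inf_le_left hMN
        have h2 : N ≤ Subgroup.normalizer ((M ⊓ MulAut.conj h • M : Subgroup H) : Set H) := by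
          intro n hn
          have hn1 := hMnorm hn
          have hn2 := hcn h hn
          rw [Subgroup.mem_set_normalizer_iff] at hn1 hn2 ⊢
          intro y
          constructor
          · rintro ⟨hy1, hy2⟩
            exact ⟨(hn1 y).mp hy1, (hn2 y).mp hy2⟩
          · rintro ⟨hy1, hy2⟩
            exact ⟨(hn1 y).mpr hy1, (hn2 y).mpr hy2⟩
        have h3 := hMmin _ h1 h2 hI
        have h4 : M ⊓ MulAut.conj h • M = M := Subgroup.eq_of_le_of_card_ge inf_le_left h3
        have h5 : M ≤ MulAut.conj h • M := fun a ha => (h4.ge ha).2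
        exact (Subgroup.eq_of_le_of_card_ge h5 (hcc h).le).symm
    have hNC : Subgroup.normalClosure (M : Set H) = N := by
      apply hNmin' _ Subgroup.normalClosure_normal
      · intro h
        apply hM1
        have := Subgroup.le_normalClosure (H := M)
        rw [h] at this
        exact le_bot_iff.mp this
      · exact Subgroup.normalClosure_le_normal hMN
    have gen : ∀ X : Subgroup H, (∀ h : H, MulAut.conj h • M ≤ X) → N ≤ X := by
      intro X hX
      rw [← hNC]
      exact gen_le M X hX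
    have claimB : ∃ h : H, MulAut.conj h • M ≠ M := by
      by_contra hall
      push Not at hall
      apply hMneN
      exact le_antisymm hMN (gen M (fun h => (hall h).le))
    obtain ⟨h0, hh0⟩ := claimB
    have hcomm0 : ∀ a ∈ M, ∀ b ∈ MulAut.conj h0 • M, a * b = b * a := by
      rcases claimA h0 with h | h
      · exact absurd h hh0
      · exact h
    by_cases hpM : p ∣ Nat.card M
    · obtain ⟨x, hxM, hxo⟩ := cauchy M hpM
      obtain ⟨S, hxS⟩ := inSyl x hxo
      have hx1 := ne_one_of_order x hxo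
      have hyM : h0 * x * h0⁻¹ ∈ MulAut.conj h0 • M := by
        rw [frob_mem_conj_smul]
        have e : h0⁻¹ * (h0 * x * h0⁻¹) * h0 = x := by group
        rw [e]; exact hxM
      have hy1 : h0 * x * h0⁻¹ ≠ 1 := by
        intro h
        apply hx1
        have e : x = h0⁻¹ * (h0 * x * h0⁻¹) * h0 := by group
        rw [e, h]; group
      have hynorm : h0 * x * h0⁻¹ ∈ Subgroup.normalizer ((S : Subgroup H) : Set H) :=
        T2 S x _ hxS hx1 (hcomm0 x hxM _ hyM).symm
      have hyS : h0 * x * h0⁻¹ ∈ (S : Subgroup H) := by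
        apply mem_sylow_of_mem_normalizer S _ _ hynorm
        apply isPGroup_zpowers_of_pow _ 1
        rw [conj_pow, pow_one, ← hxo, pow_orderOf_eq_one]; group
      have hMS : M ≤ Subgroup.normalizer ((S : Subgroup H) : Set H) := by
        intro a ha
        exact T2 S _ a hyS hy1 (hcomm0 a ha _ hyM)
      have hall : ∀ h : H, MulAut.conj h • M ≤ Subgroup.normalizer ((S : Subgroup H) : Set H) := by
        intro h
        rcases claimA h with hh | hh
        · rw [hh]; exact hMS
        · intro b hb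
          exact T2 S x b hxS hx1 (hh x hxM b hb).symm
      exact L4 N hNn hN1 S (gen _ hall)
    · have hcop : (Nat.card M).Coprime p :=
        Nat.Coprime.symm ((Nat.Prime.coprime_iff_not_dvd hp).mpr hpM)
      have hall : ∀ h : H, MulAut.conj h • M ≤ (Cfsg.pPrimeCore p N).map N.subtype := by
        intro h y hy
        have hyN : y ∈ N := hcl h hy
        haveI : ((MulAut.conj h • M : Subgroup H).subgroupOf N).Normal :=
          (Subgroup.normal_subgroupOf_iff_le_normalizer (hcl h)).mpr (hcn h)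
        have hcard : Nat.card ((MulAut.conj h • M : Subgroup H).subgroupOf N) = Nat.card M := by
          rw [Nat.card_congr (Subgroup.subgroupOfEquivOfLe (hcl h)).toEquiv, hcc h]
        have hle := le_pPrimeCore p ((MulAut.conj h • M : Subgroup H).subgroupOf N)
          (by rw [hcard]; exact hcop)
        have hmem : (⟨y, hyN⟩ : N) ∈ (MulAut.conj h • M : Subgroup H).subgroupOf N := by
          rw [Subgroup.mem_subgroupOf]; exact hy
        exact ⟨⟨y, hyN⟩, hle hmem, rfl⟩
      have h1 := gen _ hall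
      have h2 : Nat.card N ∣ Nat.card ((Cfsg.pPrimeCore p N).map N.subtype : Subgroup H) :=
        Subgroup.card_dvd_of_le h1
      have h3 : Nat.card ((Cfsg.pPrimeCore p N).map N.subtype : Subgroup H)
          = Nat.card (Cfsg.pPrimeCore p N) :=
        Subgroup.card_map_of_injective N.subtype_injective
      rw [h3] at h2
      have h4 := pPrimeCore_coprime (G := N) p
      exact hp.one_lt.ne' (Nat.Coprime.eq_one_of_dvd h4.symm (pN.trans h2))
  have hNsimple : IsSimpleGroup N := by
    haveI : Nontrivial N := (Subgroup.nontrivial_iff_ne_bot N).mpr hN1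
    refine { exists_pair_ne := exists_pair_ne N, eq_bot_or_eq_top_of_normal := ?_ }
    intro A hA
    have h1 : A.map N.subtype ≤ N := by
      rintro _ ⟨a, -, rfl⟩
      exact a.2
    have h2 : N ≤ Subgroup.normalizer ((A.map N.subtype : Subgroup H) : Set H) := by
      intro n hn
      rw [Subgroup.mem_set_normalizer_iff]
      intro y
      constructor
      · rintro ⟨a, ha, rfl⟩
        exact ⟨⟨n, hn⟩ * a * ⟨n, hn⟩⁻¹, hA.conj_mem a ha ⟨n, hn⟩, rfl⟩
      · rintro ⟨a, ha, hay⟩
        refine ⟨⟨n, hn⟩⁻¹ * a * ⟨n, hn⟩, ?_, ?_⟩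
        · have h3 := hA.conj_mem a ha ⟨n, hn⟩⁻¹
          rwa [inv_inv] at h3
        · show n⁻¹ * (N.subtype a) * n = y
          rw [hay]; group
    rcases simp3 _ h1 h2 with h | h
    · left
      exact (Subgroup.map_eq_bot_iff_of_injective A N.subtype_injective).mp h
    · right
      rw [eq_top_iff]
      intro a _
      have h3 : (a : H) ∈ A.map N.subtype := by rw [h]; exact a.2
      obtain ⟨b, hb, hba⟩ := h3
      have h4 : b = a := Subtype.ext hba
      rw [← h4]; exact hb
  have hNnc : ¬ IsMulCommutative N := by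
    intro hc
    obtain ⟨x, hxN, hxo⟩ := cauchy N pN
    have hx1 := ne_one_of_order x hxo
    have h1 : Subgroup.zpowers x ≤ N := by rw [Subgroup.zpowers_le]; exact hxN
    have h2 : N ≤ Subgroup.normalizer ((Subgroup.zpowers x : Subgroup H) : Set H) := by
      intro n hn
      rw [Subgroup.mem_set_normalizer_iff]
      intro y
      have key : ∀ y ∈ Subgroup.zpowers x, n * y * n⁻¹ = y := by
        intro y hy
        have h3 : n * y = y * n :=
          congrArg Subtype.val (hc.is_comm.comm ⟨n, hn⟩ ⟨y, h1 hy⟩)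
        rw [h3]; group
      constructor
      · intro hy; rw [key y hy]; exact hy
      · intro hy
        have h5 : n * (n * y * n⁻¹) * n⁻¹ = n * y * n⁻¹ := key _ hy
        have h4 : n * y * n⁻¹ = y := mul_left_cancel (mul_right_cancel h5)
        rw [← h4]; exact hy
    rcases simp3 _ h1 h2 with h | h
    · apply hx1
      have h3 := Subgroup.mem_zpowers x
      rw [h, Subgroup.mem_bot] at h3
      exact h3
    · have hcard : Nat.card N = p := by rw [← h, Nat.card_zpowers, hxo]
      have hNp : IsPGroup p N := IsPGroup.of_card (n := 1) (by rw [hcard, pow_one])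
      exact hN1 (F0 N hNn hNp)
  have hcent : Subgroup.centralizer (N : Set H) = ⊥ := by
    by_contra h
    have h1 := step2 (Subgroup.centralizer (N : Set H)) inferInstance h
    apply hNnc
    refine ⟨⟨fun a b => ?_⟩⟩
    apply Subtype.ext
    have h2 := h1 a.2
    rw [Subgroup.mem_centralizer_iff] at h2
    exact (h2 b b.2).symm
  refine ⟨N, hNn, hN1, step2, hNsimple, hNnc, hcent, ?_⟩
  intro Q
  refine ⟨Q.ne_bot_of_dvd_card pN, ?_⟩
  intro n hn
  by_contra hne
  apply hn
  rw [Subgroup.eq_bot_iff_forall] at hne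
  push Not at hne
  obtain ⟨z, hz, hz1⟩ := hne
  have hzQ : z ∈ (Q : Subgroup N) := hz.1
  have hznQ : n⁻¹ * z * n ∈ (Q : Subgroup N) := (frob_mem_conj_smul _ n z).mp hz.2
  obtain ⟨S, hS⟩ := (Q.2.map N.subtype).exists_le_sylow
  have hQS : ∀ q : N, q ∈ (Q : Subgroup N) ↔ (q : H) ∈ (S : Subgroup H) := by
    intro q
    constructor
    · intro hq; exact hS ⟨q, hq, rfl⟩
    · intro hq
      have h1 : IsPGroup p ((S : Subgroup H).comap N.subtype) :=
        S.2.comap_of_injective N.subtype N.subtype_injective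
      have h2 : (Q : Subgroup N) ≤ (S : Subgroup H).comap N.subtype :=
        fun q' hq' => hS ⟨q', hq', rfl⟩
      have h3 := Q.is_maximal' h1 h2
      rw [← h3]; exact hq
  have hnS : (n : H) ∈ Subgroup.normalizer ((S : Subgroup H) : Set H) := by
    apply TIS S (n : H) (z : H) ((hQS z).mp hzQ)
    · intro h; exact hz1 (Subtype.ext h)
    · exact (hQS _).mp hznQ
  rw [Subgroup.mem_set_normalizer_iff] at hnS ⊢
  intro q
  show q ∈ (Q : Subgroup N) ↔ n * q * n⁻¹ ∈ (Q : Subgroup N)
  rw [hQS, hQS]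
  exact hnS q

end Cfsg.Agent.S4620
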