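import Mathlib
import Cfsg.Statements.S4713
import Cfsg.Agent.Lib.Helper7.PDeg

namespace Cfsg.Agent.S4713

open Cfsg.Agent.Lib.Helper7.PDeg

/-- Let p be a prime and G a finite p-solvable group. Then G has a normal abelian Sylow p-subgroup if and only if the degree of every irreducible character of G is prime to p. -/
theorem result {G : Type*} [Group G] [Finite G] (p : ℕ) [Fact p.Prime] (hsolv : Cfsg.IsPSolvable p G) (P : Sylow p G) : ((P : Subgroup G).Normal ∧ IsMulCommutative P) ↔ ∀ χ : Cfsg.IrrCharacter G, ¬ p ∣ Cfsg.charDegree (χ : G → ℂ) := by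
  constructor
  · rintro ⟨hn, hc⟩
    haveI := hn
    have hidx : ¬ p ∣ (P : Subgroup G).index := by
      intro hd
      have hp : p.Prime := Fact.out
      have h1 := Subgroup.card_mul_index (P : Subgroup G)
      rw [Sylow.card_eq_multiplicity P] at h1
      have h2 : p ^ ((Nat.card G).factorization p + 1) ∣ Nat.card G := by
        have h3 : p ^ (Nat.card G).factorization p * p ∣
            p ^ (Nat.card G).factorization p * (P : Subgroup G).index := mul_dvd_mul_left _ hd
        rw [h1] at h3
        rw [pow_succ]; exact h3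
      exact Nat.pow_succ_factorization_not_dvd Nat.card_pos.ne' hp h2
    refine PD_of_normal_comm p (P : Subgroup G) ?_ hidx
    intro x hx y hy
    have h1 := hc.is_comm.comm (⟨x, hx⟩ : (P : Subgroup G)) ⟨y, hy⟩
    exact congrArg Subtype.val h1
  · intro h
    obtain ⟨P', hP'⟩ := exists_normal_sylow p (Nat.card G) G rfl hsolv h
    have hPP' : P = P' := by
      haveI := hP'
      obtain ⟨g, hg⟩ := MulAction.exists_smul_eq G P' P
      rw [← hg, Sylow.smul_eq_of_normal]
    subst hPP'
    refine ⟨hP', ⟨⟨fun a b => ?_⟩⟩⟩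
    apply Subtype.ext
    exact comm_of_PD p P hP' h a a.2 b b.2

end Cfsg.Agent.S4713
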