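import Mathlib
import Cfsg.Statements.S4742
import Cfsg.Agent.Lib.Helper7.DefectZero

namespace Cfsg.Agent.S4742

open Cfsg.Agent.Lib.Lead Cfsg.Agent.Lib.Helper7

/-- a non-identity `q`-element is centralized by no element of order `p` -/
theorem not_dvd_card_centralizer {G : Type*} [Group G] [Finite G] (p q : ℕ) [Fact p.Prime]
    (hC : ∀ g : G, g ≠ 1 → (∃ k : ℕ, orderOf g = p ^ k) →
      ¬ q ∣ Nat.card ↥(Subgroup.centralizer ({g} : Set G)))
    (z : G) (hz1 : z ≠ 1) (hzq : ∃ k : ℕ, orderOf z = q ^ k) :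
    ¬ p ∣ Nat.card (Subgroup.centralizer ({z} : Set G)) := by
  have hp : p.Prime := Fact.out
  intro hdiv
  obtain ⟨v, hv⟩ := exists_prime_orderOf_dvd_card' p hdiv
  have hvo : orderOf (v : G) = p := by rw [Subgroup.orderOf_coe]; exact hv
  have hv1 : (v : G) ≠ 1 := by
    intro h
    rw [h, orderOf_one] at hvo
    exact hp.one_lt.ne hvo
  have hvp : ∃ k : ℕ, orderOf (v : G) = p ^ k := ⟨1, by rw [hvo, pow_one]⟩
  apply hC (v : G) hv1 hvp
  have hzv : z ∈ Subgroup.centralizer ({(v : G)} : Set G) := by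
    rw [Subgroup.mem_centralizer_singleton_iff]
    exact (Subgroup.mem_centralizer_singleton_iff.mp v.2).symm
  obtain ⟨k, hk⟩ := hzq
  have hk0 : k ≠ 0 := by
    intro h
    rw [h, pow_zero, orderOf_eq_one_iff] at hk
    exact hz1 hk
  have h1 : q ∣ orderOf z := by rw [hk]; exact dvd_pow_self q hk0
  exact h1.trans (Subgroup.orderOf_dvd_natCard _ hzv)

/-- Let p ≠ q be primes dividing the order of the finite group G, and suppose the centralizer of every non-identity p-element of G has order prime to q. Then either G has an irreducible character of p-defect zero, or for every non-identity q-element z of G there are conjugates g, h of z such that g h⁻¹ is a non-identity p-element. -/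
theorem result {G : Type*} [Group G] [Finite G] (p q : ℕ) [Fact p.Prime] [Fact q.Prime] (hppq : p ≠ q) (hpG : p ∣ Nat.card G) (hqG : q ∣ Nat.card G) (hC : ∀ g : G, g ≠ 1 → (∃ k : ℕ, orderOf g = p ^ k) → ¬ q ∣ Nat.card ↥(Subgroup.centralizer ({g} : Set G))) : (∃ χ : Cfsg.IrrCharacter G, (Cfsg.charDegree (χ : G → ℂ)).factorization p = (Nat.card G).factorization p) ∨ ∀ z : G, z ≠ 1 → (∃ k : ℕ, orderOf z = q ^ k) → ∃ g h : G, IsConj z g ∧ IsConj z h ∧ g * h⁻¹ ≠ 1 ∧ ∃ k : ℕ, orderOf (g * h⁻¹) = p ^ k := by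
  have hp : p.Prime := Fact.out
  by_cases hdz : ∃ χ : Cfsg.IrrCharacter G,
      (Cfsg.charDegree (χ : G → ℂ)).factorization p = (Nat.card G).factorization p
  · left; exact hdz
  · right
    intro z hz1 hzq
    have hpz := not_dvd_card_centralizer p q hC z hz1 hzq
    rcases DZ.defect_zero_or p z hpz with h | h
    · exact absurd h hdz
    · obtain ⟨P⟩ : Nonempty (Sylow p G) := inferInstance
      obtain ⟨a, b, u, hu, hu1, heq⟩ := h P
      have hinv : (b * z * b⁻¹)⁻¹ = b * z⁻¹ * b⁻¹ := by group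
      refine ⟨a * z * a⁻¹, b * z * b⁻¹, isConj_iff.mpr ⟨a, rfl⟩, isConj_iff.mpr ⟨b, rfl⟩, ?_, ?_⟩
      · rw [hinv, heq]; exact hu1
      · rw [hinv, heq]
        obtain ⟨k, hk⟩ := P.2 ⟨u, hu⟩
        have h1 : u ^ (p ^ k) = 1 := by
          have := congrArg Subtype.val hk
          simpa using this
        obtain ⟨j, -, hj⟩ := (Nat.dvd_prime_pow hp).mp (orderOf_dvd_of_pow_eq_one h1)
        exact ⟨j, hj⟩

end Cfsg.Agent.S4742
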