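import Mathlib
import Cfsg.Statements.S4743
import Cfsg.Agent.Lib.Helper7.DefectZero
import Cfsg.Agent.Lib.Helper7.PSolv
import Cfsg.Agent.S4742

namespace Cfsg.Agent.S4743

open Cfsg.Agent.Lib.Lead Cfsg.Agent.Lib.Helper7

/-- Let p ≠ q be primes dividing the order of the finite group G, suppose the centralizer of every non-identity p-element has order prime to q, and suppose G is p-solvable or q-solvable. Then G has an irreducible character of p-defect zero or an irreducible character of q-defect zero. -/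
theorem result {G : Type*} [Group G] [Finite G] (p q : ℕ) [Fact p.Prime] [Fact q.Prime] (hppq : p ≠ q) (hpG : p ∣ Nat.card G) (hqG : q ∣ Nat.card G) (hC : ∀ g : G, g ≠ 1 → (∃ k : ℕ, orderOf g = p ^ k) → ¬ q ∣ Nat.card ↥(Subgroup.centralizer ({g} : Set G))) (hsolv : Cfsg.IsPSolvable p G ∨ Cfsg.IsPSolvable q G) : (∃ χ : Cfsg.IrrCharacter G, (Cfsg.charDegree (χ : G → ℂ)).factorization p = (Nat.card G).factorization p) ∨ (∃ χ : Cfsg.IrrCharacter G, (Cfsg.charDegree (χ : G → ℂ)).factorization q = (Nat.card G).factorization q) := by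
  by_contra hcon
  push Not at hcon
  obtain ⟨hp0, hq0⟩ := hcon
  have hA : PS.AB p q G :=
    (Cfsg.Agent.S4742.result p q hppq hpG hqG hC).resolve_left (by push Not; exact hp0)
  have hC' : ∀ g : G, g ≠ 1 → (∃ k : ℕ, orderOf g = q ^ k) →
      ¬ p ∣ Nat.card ↥(Subgroup.centralizer ({g} : Set G)) :=
    fun g hg1 hgq => DZ.not_dvd_card_centralizer p q hC g hg1 hgq
  have hB : PS.AB q p G :=
    (Cfsg.Agent.S4742.result q p hppq.symm hqG hpG hC').resolve_left (by push Not; exact hq0)
  rcases hsolv with h | h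
  · exact PS.no_AB p q hppq _ G rfl hpG h hA hB
  · exact PS.no_AB q p hppq.symm _ G rfl hqG h hB hA

end Cfsg.Agent.S4743
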