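import Mathlib
import Cfsg.Statements.S4744
import Cfsg.Agent.Lib.Helper7.DefectZero2

namespace Cfsg.Agent.S4744

open Cfsg.Agent.Lib.Lead Cfsg.Agent.Lib.Helper7

/-- Let p be an odd prime and G a finite group of even order divisible by p in which the centralizer of every non-identity p-element has odd order. Then either G has an irreducible character of p-defect zero, or the normalizer of every Sylow p-subgroup P of G has even order and P is abelian. -/
theorem result {G : Type*} [Group G] [Finite G] (p : ℕ) [Fact p.Prime] (hp2 : p ≠ 2) (hpG : p ∣ Nat.card G) (h2G : 2 ∣ Nat.card G) (hC : ∀ g : G, g ≠ 1 → (∃ k : ℕ, orderOf g = p ^ k) → Odd (Nat.card ↥(Subgroup.centralizer ({g} : Set G)))) : (∃ χ : Cfsg.IrrCharacter G, (Cfsg.charDegree (χ : G → ℂ)).factorization p = (Nat.card G).factorization p) ∨ ∀ P : Sylow p G, Even (Nat.card ↥(Subgroup.normalizer ((P : Subgroup G) : Set G))) ∧ IsMulCommutative ↥(P : Subgroup G) := by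
  by_cases hdz : ∃ χ : Cfsg.IrrCharacter G,
      (Cfsg.charDegree (χ : G → ℂ)).factorization p = (Nat.card G).factorization p
  · left; exact hdz
  · right
    intro P
    obtain ⟨x, hx⟩ := exists_prime_orderOf_dvd_card' 2 h2G
    obtain ⟨t, -, ht2, ht1, hinv, -⟩ := DZ.main_inv p hC hdz x hx P
    exact ⟨DZ.even_normalizer_of_inverted t ht2 ht1 (P : Subgroup G) hinv,
      DZ.comm_of_inverted t (P : Subgroup G) hinv⟩

end Cfsg.Agent.S4744
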