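import Mathlib
import Cfsg.Statements.S4746
import Cfsg.Agent.Lib.Helper7.DefectZero

namespace Cfsg.Agent.S4746

open Cfsg.Agent.Lib.Lead Cfsg.Agent.Lib.Helper7

/-- Let p be an odd prime and G a finite group of even order divisible by p in which the centralizer of every non-identity p-element has odd order. Then G has an irreducible character of p-defect zero or an irreducible character of even degree. -/
theorem result {G : Type*} [Group G] [Finite G] (p : ℕ) [Fact p.Prime] (hp2 : p ≠ 2) (hpG : p ∣ Nat.card G) (h2G : 2 ∣ Nat.card G) (hC : ∀ g : G, g ≠ 1 → (∃ k : ℕ, orderOf g = p ^ k) → Odd (Nat.card ↥(Subgroup.centralizer ({g} : Set G)))) : (∃ χ : Cfsg.IrrCharacter G, (Cfsg.charDegree (χ : G → ℂ)).factorization p = (Nat.card G).factorization p) ∨ ∃ χ : Cfsg.IrrCharacter G, Even (Cfsg.charDegree (χ : G → ℂ)) := by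
  by_contra hcon
  push Not at hcon
  obtain ⟨hdz, hodd⟩ := hcon
  obtain ⟨x, hx⟩ := exists_prime_orderOf_dvd_card' 2 h2G
  have hx2 : x * x = 1 := by
    have := pow_orderOf_eq_one x
    rw [hx, pow_two] at this
    exact this
  have hx1 : x ≠ 1 := by
    intro h
    rw [h, orderOf_one] at hx
    omega
  have hC' : ∀ g : G, g ≠ 1 → (∃ k : ℕ, orderOf g = p ^ k) →
      ¬ 2 ∣ Nat.card ↥(Subgroup.centralizer ({g} : Set G)) := by
    intro g hg1 hgp h2
    exact (Nat.not_even_iff_odd.mpr (hC g hg1 hgp)) (even_iff_two_dvd.mpr h2)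
  have hpx := DZ.not_dvd_card_centralizer p 2 hC' x hx1 ⟨1, by rw [hx, pow_one]⟩
  obtain ⟨P⟩ : Nonempty (Sylow p G) := inferInstance
  obtain ⟨t, -, u, hu, hu1, htu⟩ := DZ.exists_inverting p x hx2 hpx
    (by push Not; exact hdz) P
  have hreal : IsConj u u⁻¹ := isConj_iff.mpr ⟨t, htu⟩
  have heven := DZ.even_centralizer_of_real u hu1 hreal
    (fun χ => Nat.not_even_iff_odd.mp (hodd χ))
  exact (Nat.not_even_iff_odd.mpr (hC u hu1 (DZ.orderOf_of_mem_sylow p P hu))) heven

end Cfsg.Agent.S4746
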