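import Mathlib
import Cfsg.Statements.S4754
import Cfsg.Agent.Lib.Helper7.ClassProd

namespace Cfsg.Agent.S4754

open Cfsg.Agent.Lib.Lead Cfsg.Agent.Lib.Helper7

/-- For elements x, y of a finite group G, the conjugacy class of x y equals the set of all products of a conjugate of x with a conjugate of y if and only if χ(1) χ(a x a⁻¹ b y b⁻¹) = χ(x) χ(y) for all a, b ∈ G and every irreducible character χ. -/
theorem result {G : Type*} [Group G] [Finite G] (x y : G) : (∀ z : G, IsConj (x * y) z ↔ ∃ a b : G, z = a * x * a⁻¹ * (b * y * b⁻¹)) ↔ ∀ (a b : G) (χ : Cfsg.IrrCharacter G), (χ : G → ℂ) 1 * (χ : G → ℂ) (a * x * a⁻¹ * (b * y * b⁻¹)) = (χ : G → ℂ) x * (χ : G → ℂ) y := by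
  classical
  haveI : Fintype G := Fintype.ofFinite G
  have hG : (Nat.card G : ℂ) ≠ 0 := by exact_mod_cast Nat.card_pos.ne'
  constructor
  · intro hz a b χ
    have hconst : ∀ a b : G, (χ : G → ℂ) (a * x * a⁻¹ * (b * y * b⁻¹)) = (χ : G → ℂ) (x * y) := by
      intro a b
      have hc : IsConj (x * y) (a * x * a⁻¹ * (b * y * b⁻¹)) := (hz _).mpr ⟨a, b, rfl⟩
      exact ((isConj_iff_irr _ _).mp hc χ).symm
    have h1 := irr_sum_conj_mul χ x y
    have h2 : ∑ a : G, ∑ b : G, (χ : G → ℂ) (a * x * a⁻¹ * (b * y * b⁻¹))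
        = (Nat.card G : ℂ) ^ 2 * (χ : G → ℂ) (x * y) := by
      rw [Finset.sum_congr rfl (fun a _ => Finset.sum_congr rfl (fun b _ => hconst a b))]
      simp only [Finset.sum_const, Finset.card_univ, nsmul_eq_mul, Nat.card_eq_fintype_card]
      ring
    rw [h2] at h1
    rw [hconst a b]
    have h3 : (Nat.card G : ℂ) ^ 2 * ((χ : G → ℂ) 1 * (χ : G → ℂ) (x * y))
        = (Nat.card G : ℂ) ^ 2 * ((χ : G → ℂ) x * (χ : G → ℂ) y) := by
      rw [← h1]; ring
    exact mul_left_cancel₀ (pow_ne_zero 2 hG) h3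
  · intro hid z
    constructor
    · intro hc
      obtain ⟨c, hc⟩ := isConj_iff.mp hc
      refine ⟨c, c, ?_⟩
      rw [← hc]; group
    · rintro ⟨a, b, rfl⟩
      rw [isConj_iff_irr]
      intro χ
      have h1 := hid a b χ
      have h2 := hid 1 1 χ
      simp only [one_mul, inv_one, mul_one] at h2
      rw [← h2] at h1
      exact (mul_left_cancel₀ (irr_deg_ne_zero χ) h1).symm

end Cfsg.Agent.S4754
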