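import Mathlib
import Cfsg.Statements.S4755
import Cfsg.Agent.Lib.Helper7.ClassProd

namespace Cfsg.Agent.S4755

open Cfsg.Agent.Lib.Lead Cfsg.Agent.Lib.Helper7
open scoped commutatorElement

/-- Let x, y be non-identity elements of the finite group G such that χ(x' y') = χ(x') χ(y') for all conjugates x' of x, y' of y and every irreducible character χ. Then the conjugacy class of x y is the set of all products of a conjugate of x with a conjugate of y; every irreducible character of degree greater than 1 vanishes at x y; and the conjugacy class of x y is the coset of the commutator subgroup containing x y. -/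
theorem result {G : Type*} [Group G] [Finite G] (x y : G) (hx : x ≠ 1) (hy : y ≠ 1) (h : ∀ (a b : G) (χ : Cfsg.IrrCharacter G), (χ : G → ℂ) (a * x * a⁻¹ * (b * y * b⁻¹)) = (χ : G → ℂ) (a * x * a⁻¹) * (χ : G → ℂ) (b * y * b⁻¹)) : (∀ z : G, IsConj (x * y) z ↔ ∃ a b : G, z = a * x * a⁻¹ * (b * y * b⁻¹)) ∧ (∀ χ : Cfsg.IrrCharacter G, (χ : G → ℂ) 1 ≠ 1 → (χ : G → ℂ) (x * y) = 0) ∧ (∀ z : G, IsConj (x * y) z ↔ (x * y)⁻¹ * z ∈ commutator G) := by
  classical
  haveI : Fintype G := Fintype.ofFinite G
  haveI : Fintype (Cfsg.IrrCharacter G) := Fintype.ofFinite _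
  have hG : (Nat.card G : ℂ) ≠ 0 := by exact_mod_cast Nat.card_pos.ne'
  -- basic consequence of the hypothesis
  have hprod : ∀ (a b : G) (χ : Cfsg.IrrCharacter G),
      (χ : G → ℂ) (a * x * a⁻¹ * (b * y * b⁻¹)) = (χ : G → ℂ) x * (χ : G → ℂ) y := by
    intro a b χ
    rw [h a b χ, isClassFunction_of_irr χ x a, isClassFunction_of_irr χ y b]
  have hxy : ∀ χ : Cfsg.IrrCharacter G, (χ : G → ℂ) (x * y) = (χ : G → ℂ) x * (χ : G → ℂ) y := by
    intro χ
    have := hprod 1 1 χ
    simpa using this
  have part2 : ∀ χ : Cfsg.IrrCharacter G, (χ : G → ℂ) 1 ≠ 1 → (χ : G → ℂ) (x * y) = 0 := by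
    intro χ hχ
    have h1 := irr_sum_conj_mul χ x y
    have h2 : ∑ a : G, ∑ b : G, (χ : G → ℂ) (a * x * a⁻¹ * (b * y * b⁻¹))
        = (Nat.card G : ℂ) ^ 2 * ((χ : G → ℂ) x * (χ : G → ℂ) y) := by
      rw [Finset.sum_congr rfl (fun a _ => Finset.sum_congr rfl (fun b _ => hprod a b χ))]
      simp only [Finset.sum_const, Finset.card_univ, nsmul_eq_mul, Nat.card_eq_fintype_card]
      ring
    rw [h2] at h1
    have h3 : ((χ : G → ℂ) 1 - 1) * ((Nat.card G : ℂ) ^ 2 * ((χ : G → ℂ) x * (χ : G → ℂ) y)) = 0 := by
      rw [sub_mul, h1]; ring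
    rcases mul_eq_zero.mp h3 with h4 | h4
    · exact absurd (sub_eq_zero.mp h4) hχ
    · rcases mul_eq_zero.mp h4 with h5 | h5
      · exact absurd h5 (pow_ne_zero 2 hG)
      · rw [hxy χ]; exact h5
  refine ⟨?_, part2, ?_⟩
  · intro z
    constructor
    · intro hc
      obtain ⟨c, hc⟩ := isConj_iff.mp hc
      refine ⟨c, c, ?_⟩
      rw [← hc]; group
    · rintro ⟨a, b, rfl⟩
      rw [isConj_iff_irr]
      intro χ
      rw [hprod a b χ, hxy χ]
  · intro z
    constructor
    · intro hc
      obtain ⟨c, hc⟩ := isConj_iff.mp hc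
      rw [← hc]
      have : (x * y)⁻¹ * (c * (x * y) * c⁻¹) = ⁅(x * y)⁻¹, c⁆ := by
        rw [commutatorElement_def]; group
      rw [this]
      rw [commutator_def]
      exact Subgroup.commutator_mem_commutator (Subgroup.mem_top _) (Subgroup.mem_top _)
    · intro hz
      set θ : G → ℂ := fun g => if IsConj (x * y) g then 1 else 0 with hθ
      have hθcf : Cfsg.IsClassFunction G θ := by
        intro g k
        simp only [hθ]
        have : IsConj (x * y) (k * g * k⁻¹) ↔ IsConj (x * y) g := by
          constructor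
          · intro h1
            exact h1.trans (isConj_iff.mpr ⟨k⁻¹, by group⟩)
          · intro h1
            exact h1.trans (isConj_iff.mpr ⟨k, rfl⟩)
        rw [if_congr this rfl rfl]
      have hexp := class_fn_expand' θ hθcf
      have hterm : ∀ χ : Cfsg.IrrCharacter G,
          Cfsg.classInner θ χ.1 * (χ : G → ℂ) z = Cfsg.classInner θ χ.1 * (χ : G → ℂ) (x * y) := by
        intro χ
        by_cases hχ : (χ : G → ℂ) 1 = 1
        · have h1 : z = (x * y) * ((x * y)⁻¹ * z) := by group
          have h2 : (χ : G → ℂ) z = (χ : G → ℂ) (x * y) * (χ : G → ℂ) ((x * y)⁻¹ * z) := by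
            conv_lhs => rw [h1]
            exact irr_linear_mul χ hχ _ _
          rw [h2, irr_linear_commutator χ hχ hz, mul_one]
        · have h0 : Cfsg.classInner θ χ.1 = 0 := by
            unfold Cfsg.classInner
            rw [Finset.sum_eq_zero, mul_zero]
            intro g _
            simp only [hθ]
            by_cases hg : IsConj (x * y) g
            · have : (χ : G → ℂ) g = 0 := by
                rw [← (isConj_iff_irr _ _).mp hg χ]; exact part2 χ hχ
              rw [this]; simp
            · rw [if_neg hg, zero_mul]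
          rw [h0, zero_mul, zero_mul]
      have hz1 : θ z = θ (x * y) := by
        have e1 := congrFun hexp z
        have e2 := congrFun hexp (x * y)
        rw [Finset.sum_apply] at e1 e2
        rw [e1, e2]
        apply Finset.sum_congr rfl
        intro χ _
        simp only [Pi.smul_apply, smul_eq_mul]
        exact hterm χ
      have hz2 : θ (x * y) = 1 := by
        simp only [hθ]; rw [if_pos (IsConj.refl _)]
      rw [hz2] at hz1
      simp only [hθ] at hz1
      by_contra hcon
      rw [if_neg hcon] at hz1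
      exact zero_ne_one hz1

end Cfsg.Agent.S4755
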