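import Mathlib
import Cfsg.Statements.S4757
import Cfsg.Agent.Lib.Lead.Char8
import Cfsg.Agent.Lib.Lead.Char4
import Cfsg.Agent.Lib.Helper7.LinTwist
import Cfsg.Agent.Lib.Helper7.Codeg
import Cfsg.Agent.Lib.Helper7.PPrime
import Cfsg.Agent.Lib.Helper7.ClassProd

set_option autoImplicit false
open Cfsg

namespace Cfsg.Agent.S4757

open scoped Pointwise commutatorElement

open Cfsg.Agent.Lib

theorem split2 {ι M : Type*} [Fintype ι] [DecidableEq ι] [AddCommMonoid M] (f : ι → M) (a b : ι)
    (hab : a ≠ b) :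
    ∑ x, f x = f a + (f b + ∑ x ∈ (Finset.univ.erase a).erase b, f x) := by
  rw [Finset.add_sum_erase _ f (Finset.mem_erase.mpr ⟨hab.symm, Finset.mem_univ b⟩),
    Finset.add_sum_erase _ f (Finset.mem_univ a)]

theorem orth1 {G : Type*} [Group G] [Finite G] [Fintype (Cfsg.IrrCharacter G)] (u : G) (hu : u ≠ 1) :
    ∑ χ : Cfsg.IrrCharacter G, χ.1 u * χ.1 1 = 0 := by
  classical
  haveI : Fintype G := Fintype.ofFinite G
  have h := Lead.col_orth' u 1
  rw [if_neg (by rw [isConj_one_left]; exact hu)] at h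
  rw [← h]
  apply Finset.sum_congr rfl
  intro χ _
  rw [Lead.irr_conj_one]

theorem orth2 {G : Type*} [Group G] [Finite G] [Fintype (Cfsg.IrrCharacter G)] (u : G) :
    ∑ χ : Cfsg.IrrCharacter G, χ.1 u * (starRingEnd ℂ) (χ.1 u)
      = (Nat.card (Subgroup.centralizer ({u} : Set G)) : ℂ) := by
  classical
  haveI : Fintype G := Fintype.ofFinite G
  have h := Lead.col_orth' u u
  rw [if_pos (IsConj.refl u)] at h
  exact h

theorem no_nonneg {G : Type*} [Group G] [Finite G] (u : G) (hu : u ≠ 1)
    (h : ∀ χ : Cfsg.IrrCharacter G, χ.1 ≠ (fun _ => (1:ℂ)) → 0 ≤ (χ.1 u * χ.1 1).re) : False := by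
  classical
  haveI : Fintype (Cfsg.IrrCharacter G) := Fintype.ofFinite _
  have h1 := congrArg Complex.re (orth1 u hu)
  rw [Complex.re_sum, Complex.zero_re] at h1
  have h2 : ∀ χ ∈ (Finset.univ : Finset (Cfsg.IrrCharacter G)), 0 ≤ (χ.1 u * χ.1 1).re := by
    intro χ _
    by_cases hχ : χ.1 = fun _ => (1:ℂ)
    · rw [hχ]; simp
    · exact h χ hχ
  have h3 := Finset.single_le_sum h2 (Finset.mem_univ (Lead.irrOne G))
  rw [h1] at h3
  have : ((Lead.irrOne G).1 u * (Lead.irrOne G).1 1).re = 1 := by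
    show ((1:ℂ) * 1).re = 1
    simp
  linarith

theorem re_aux (n : ℕ) : (((n:ℂ) - 2) * (n:ℂ)).re = ((n:ℝ) - 2) * (n:ℝ) := by
  have : ((n:ℂ) - 2) * (n:ℂ) = ((((n:ℝ) - 2) * (n:ℝ) : ℝ) : ℂ) := by push_cast; ring
  rw [this, Complex.ofReal_re]

/-- Let u ≠ 1 be an element of the finite group G and c a complex number such that every non-principal irreducible character χ satisfies χ(1) − χ(u) = c or χ(u) = 0. Then the following are equivalent: (a) u has order 2, G is generated by u together with O(G), the largest normal subgroup of G of odd order, and the centralizer of u is {1, u}; (b) G is not perfect; (c) c = 2. -/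
theorem result {G : Type*} [Group G] [Finite G] (u : G) (hu : u ≠ 1) (c : ℂ) (hyp : ∀ χ : Cfsg.IrrCharacter G, (χ : G → ℂ) ≠ (fun _ => (1 : ℂ)) → ((χ : G → ℂ) 1 - (χ : G → ℂ) u = c ∨ (χ : G → ℂ) u = 0)) : ((orderOf u = 2 ∧ Subgroup.zpowers u ⊔ Cfsg.oddCore G = ⊤ ∧ Subgroup.centralizer ({u} : Set G) = Subgroup.zpowers u) ↔ commutator G ≠ ⊤) ∧ (commutator G ≠ ⊤ ↔ c = 2) := by
  classical
  haveI : Fintype (Cfsg.IrrCharacter G) := Fintype.ofFinite _
  have hback : c = 2 → commutator G ≠ ⊤ := by
    intro hc htop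
    apply no_nonneg u hu
    intro χ hχ
    obtain ⟨n, hn0, hn⟩ := Lead.irr_one_eq_nat χ
    have hn2 : 2 ≤ n := by
      by_contra hlt
      have hn1 : n = 1 := by omega
      apply hχ
      funext g
      exact Helper7.irr_linear_commutator χ (by rw [hn, hn1]; simp) (htop ▸ Subgroup.mem_top g)
    rcases hyp χ hχ with h1 | h1
    · have : χ.1 u = (n : ℂ) - 2 := by rw [← hn, ← hc, ← h1]; ring
      rw [this, hn, re_aux]
      have : (2:ℝ) ≤ n := by exact_mod_cast hn2
      nlinarith
    · rw [h1]; simp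
  have hfwd : commutator G ≠ ⊤ → c = 2 ∧ (orderOf u = 2 ∧ Subgroup.zpowers u ⊔ Cfsg.oddCore G = ⊤ ∧
      Subgroup.centralizer ({u} : Set G) = Subgroup.zpowers u) := by
    intro h
    obtain ⟨lam, N, hNp, hl1, hlN⟩ := Helper7.Codeg.exists_linear_prime_codeg h
    have hlmul := Helper7.irr_linear_mul lam hl1
    have hNtop : N ≠ ⊤ := by
      intro h'; rw [h', Subgroup.index_top] at hNp; exact Nat.not_prime_one hNp
    have hlne : lam.1 ≠ fun _ => (1:ℂ) := by
      intro h'
      apply hNtop
      rw [eq_top_iff]; intro g _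
      rw [← hlN, h']
    have hlu0 : lam.1 u ≠ 0 := by
      intro h0
      have := Helper7.LT.linear_mul_conj lam hl1 u
      rw [h0, zero_mul] at this
      exact zero_ne_one this
    have hc0 : c ≠ 0 := by
      intro hc
      apply no_nonneg u hu
      intro χ hχ
      obtain ⟨n, hn0, hn⟩ := Lead.irr_one_eq_nat χ
      rcases hyp χ hχ with h1 | h1
      · have : χ.1 u = (n : ℂ) := by rw [← hn]; rw [hc] at h1; exact (sub_eq_zero.mp h1).symm
        rw [this, hn]
        have : (n:ℂ) * (n:ℂ) = (((n:ℝ) * (n:ℝ) : ℝ) : ℂ) := by push_cast; ring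
        rw [this, Complex.ofReal_re]
        positivity
      · rw [h1]; simp
    have hlin : ∀ μ : Cfsg.IrrCharacter G, μ.1 1 = 1 → μ.1 ≠ (fun _ => (1:ℂ)) → μ.1 u = 1 - c := by
      intro μ hμ1 hμne
      rcases hyp μ hμne with h1 | h1
      · rw [← h1, hμ1]; ring
      · exfalso
        have := Helper7.LT.linear_mul_conj μ hμ1 u
        rw [h1, zero_mul] at this
        exact zero_ne_one this
    have hlu := hlin lam hl1 hlne
    have hsq : ∀ g : G, lam.1 g * lam.1 g = 1 := by
      by_contra hcon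
      have hne : (lam.1 * lam.1) ≠ fun _ => (1:ℂ) := by
        intro h'
        apply hcon
        intro g
        exact congrFun h' g
      have h2 := hlin ⟨lam.1 * lam.1, Helper7.LT.irr_linear_twist lam lam hl1⟩ (by simp [hl1]) hne
      simp only [Pi.mul_apply] at h2
      rw [hlu] at h2
      have h3 : (1 - c) * c = 0 := by linear_combination -h2
      rcases mul_eq_zero.mp h3 with h4 | h4
      · exact hlu0 (by rw [hlu]; exact h4)
      · exact hc0 h4
    have hc2 : c = 2 := by
      have h2 := hsq u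
      rw [hlu] at h2
      have h3 : c * (c - 2) = 0 := by linear_combination h2
      rcases mul_eq_zero.mp h3 with h4 | h4
      · exact absurd h4 hc0
      · exact sub_eq_zero.mp h4
    have hlu' : lam.1 u = -1 := by rw [hlu, hc2]; norm_num
    refine ⟨hc2, ?_⟩
    have huniq : ∀ μ : Cfsg.IrrCharacter G, μ.1 1 = 1 → μ.1 ≠ (fun _ => (1:ℂ)) → μ = lam := by
      intro μ hμ1 hμne
      have hμu : μ.1 u = -1 := by rw [hlin μ hμ1 hμne, hc2]; norm_num
      have hprod : ∀ g : G, lam.1 g * μ.1 g = 1 := by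
        by_contra hcon
        have hne : (lam.1 * μ.1) ≠ fun _ => (1:ℂ) := by
          intro h'
          apply hcon
          intro g
          exact congrFun h' g
        have h2 := hlin ⟨lam.1 * μ.1, Helper7.LT.irr_linear_twist lam μ hl1⟩ (by simp [hl1, hμ1]) hne
        simp only [Pi.mul_apply] at h2
        rw [hlu', hμu, hc2] at h2
        norm_num at h2
      apply Subtype.ext
      funext g
      have h1 := hprod g
      have h2 := hsq g
      have h3 : lam.1 g ≠ 0 := by
        intro h0; rw [h0, zero_mul] at h2; exact zero_ne_one h2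
      exact mul_left_cancel₀ h3 (h1.trans h2.symm)
    have hone_ne : Lead.irrOne G ≠ lam := by
      intro h'; apply hlne; rw [← h']; rfl
    have hvan : ∀ χ ∈ ((Finset.univ : Finset (Cfsg.IrrCharacter G)).erase (Lead.irrOne G)).erase lam,
        χ.1 u = 0 := by
      have h1 := congrArg Complex.re (orth1 u hu)
      rw [Complex.re_sum, Complex.zero_re, split2 _ (Lead.irrOne G) lam hone_ne] at h1
      have ha : ((Lead.irrOne G).1 u * (Lead.irrOne G).1 1).re = 1 := by
        show ((1:ℂ) * 1).re = 1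
        simp
      have hb : (lam.1 u * lam.1 1).re = -1 := by rw [hlu', hl1]; simp
      rw [ha, hb] at h1
      have hrest : ∑ x ∈ ((Finset.univ : Finset (Cfsg.IrrCharacter G)).erase (Lead.irrOne G)).erase lam,
          (x.1 u * x.1 1).re = 0 := by linarith
      have key : ∀ χ ∈ ((Finset.univ : Finset (Cfsg.IrrCharacter G)).erase (Lead.irrOne G)).erase lam,
          (χ.1 u = 0 ∨ ∃ n : ℕ, 2 ≤ n ∧ χ.1 1 = n ∧ χ.1 u = (n:ℂ) - 2) := by
        intro χ hχ
        rw [Finset.mem_erase, Finset.mem_erase] at hχ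
        have hχne : χ.1 ≠ fun _ => (1:ℂ) := by
          intro h'; exact hχ.2.1 (Subtype.ext h')
        obtain ⟨n, hn0, hn⟩ := Lead.irr_one_eq_nat χ
        rcases hyp χ hχne with h2 | h2
        · right
          refine ⟨n, ?_, hn, ?_⟩
          · by_contra hlt
            have hn1 : n = 1 := by omega
            exact hχ.1 (huniq χ (by rw [hn, hn1]; simp) hχne)
          · rw [← hn, ← hc2, ← h2]; ring
        · left; exact h2
      have hnn : ∀ χ ∈ ((Finset.univ : Finset (Cfsg.IrrCharacter G)).erase (Lead.irrOne G)).erase lam,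
          0 ≤ (χ.1 u * χ.1 1).re := by
        intro χ hχ
        rcases key χ hχ with h2 | ⟨n, hn2, hn, h2⟩
        · rw [h2]; simp
        · rw [h2, hn, re_aux]
          have : (2:ℝ) ≤ n := by exact_mod_cast hn2
          nlinarith
      have hz := (Finset.sum_eq_zero_iff_of_nonneg hnn).mp hrest
      intro χ hχ
      rcases key χ hχ with h2 | ⟨n, hn2, hn, h2⟩
      · exact h2
      · have h3 := hz χ hχ
        rw [h2, hn, re_aux] at h3
        have h4 : (2:ℝ) ≤ n := by exact_mod_cast hn2
        have h5 : (n:ℝ) = 2 := by nlinarith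
        have h6 : n = 2 := by exact_mod_cast h5
        rw [h2, h6]; norm_num
    have hC2 : Nat.card (Subgroup.centralizer ({u} : Set G)) = 2 := by
      have h1 := orth2 u
      rw [split2 _ (Lead.irrOne G) lam hone_ne,
        Finset.sum_eq_zero (fun χ hχ => by rw [hvan χ hχ, zero_mul]), hlu'] at h1
      have ha : (Lead.irrOne G).1 u * (starRingEnd ℂ) ((Lead.irrOne G).1 u) = 1 := by
        show (1:ℂ) * (starRingEnd ℂ) 1 = 1
        simp
      rw [ha] at h1
      have : ((2:ℕ):ℂ) = (Nat.card (Subgroup.centralizer ({u} : Set G)) : ℂ) := by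
        rw [← h1]; simp; norm_num
      exact (Nat.cast_injective this).symm
    have huC : u ∈ Subgroup.centralizer ({u} : Set G) := by
      rw [Subgroup.mem_centralizer_iff]; intro h hh; rw [Set.mem_singleton_iff.mp hh]
    have hzle : Subgroup.zpowers u ≤ Subgroup.centralizer ({u} : Set G) := by
      rw [Subgroup.zpowers_le]; exact huC
    have hord : orderOf u = 2 := by
      have h1 : orderOf u ∣ 2 := by
        rw [← hC2, ← Nat.card_zpowers]; exact Subgroup.card_dvd_of_le hzle
      rcases (Nat.dvd_prime Nat.prime_two).mp h1 with h2 | h2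
      · exact absurd (orderOf_eq_one_iff.mp h2) hu
      · exact h2
    have hCz : Subgroup.centralizer ({u} : Set G) = Subgroup.zpowers u :=
      (Subgroup.eq_of_le_of_card_ge hzle (by rw [hC2, Nat.card_zpowers, hord])).symm
    refine ⟨hord, ?_, hCz⟩
    have hN1 : ∀ g : G, g ∈ N ↔ lam.1 g = 1 := fun g => by rw [← hlN, hl1]
    haveI hNn : N.Normal := ⟨fun n hn g => by
      rw [hN1] at hn ⊢
      rw [hlmul, hlmul, hn, mul_one, ← hlmul, mul_inv_cancel, hl1]⟩
    have hpm : ∀ g : G, g ∉ N → lam.1 g = -1 := by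
      intro g hg
      rw [hN1] at hg
      have h1 := hsq g
      have h2 : (lam.1 g - 1) * (lam.1 g + 1) = 0 := by linear_combination h1
      rcases mul_eq_zero.mp h2 with h3 | h3
      · exact absurd (sub_eq_zero.mp h3) hg
      · exact eq_neg_of_add_eq_zero_left h3
    have hmulu : ∀ g : G, g ∉ N → g * u ∈ N := by
      intro g hg
      rw [hN1, hlmul, hpm g hg, hlu']; norm_num
    have hNidx : N.index = 2 := by
      rw [Subgroup.index_eq_two_iff]
      refine ⟨u, fun b => ?_⟩
      by_cases hb : b ∈ N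
      · right
        refine ⟨hb, ?_⟩
        rw [hN1, hlmul, (hN1 b).mp hb, one_mul, hlu']; norm_num
      · left
        exact ⟨hmulu b hb, hb⟩
    haveI : Fact (Nat.Prime 2) := ⟨Nat.prime_two⟩
    have hz2 : IsPGroup 2 (Subgroup.zpowers u) :=
      IsPGroup.of_card (n := 1) (by rw [Nat.card_zpowers, hord, pow_one])
    obtain ⟨P, hP⟩ := hz2.exists_le_sylow
    have huP : u ∈ (P : Subgroup G) := hP (Subgroup.mem_zpowers u)
    have hPle : (P : Subgroup G) ≤ Subgroup.zpowers u := by
      haveI : Nontrivial ↥(P : Subgroup G) :=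
        ⟨⟨⟨u, huP⟩, 1, fun h' => hu (congrArg Subtype.val h')⟩⟩
      haveI := P.isPGroup'.center_nontrivial
      obtain ⟨z, hz⟩ := exists_ne (1 : Subgroup.center ↥(P : Subgroup G))
      have hzc := Subgroup.mem_center_iff.mp z.2
      have hzu : ((z.1 : ↥(P : Subgroup G)) : G) ∈ Subgroup.zpowers u := by
        rw [← hCz, Subgroup.mem_centralizer_iff]
        intro h hh
        rw [Set.mem_singleton_iff.mp hh]
        exact congrArg Subtype.val (hzc ⟨u, huP⟩)
      obtain ⟨k, hk⟩ := Subgroup.mem_zpowers_iff.mp hzu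
      have hu2 : u ^ (2:ℤ) = 1 := by
        rw [zpow_ofNat, ← hord, pow_orderOf_eq_one]
      have hzu' : ((z.1 : ↥(P : Subgroup G)) : G) = u := by
        rcases Int.emod_two_eq_zero_or_one k with h2 | h2
        · exfalso
          apply hz
          apply Subtype.ext; apply Subtype.ext
          show ((z.1 : ↥(P : Subgroup G)) : G) = 1
          rw [← hk, ← Int.mul_ediv_add_emod k 2, h2, add_zero, zpow_mul, hu2, one_zpow]
        · rw [← hk, ← Int.mul_ediv_add_emod k 2, h2, zpow_add, zpow_mul, hu2, one_zpow, one_mul, zpow_one]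
      intro x hx
      rw [← hCz, Subgroup.mem_centralizer_iff]
      intro h hh
      rw [Set.mem_singleton_iff.mp hh]
      have h3 := congrArg Subtype.val (hzc ⟨x, hx⟩)
      simp only [Subgroup.coe_mul] at h3
      rw [hzu'] at h3
      exact h3.symm
    have hPeq : (P : Subgroup G) = Subgroup.zpowers u := le_antisymm hPle hP
    have hNodd : (Nat.card N).Coprime 2 := by
      have h1 := N.card_mul_index
      have h2 := (P : Subgroup G).card_mul_index
      have h3 : Nat.card (P : Subgroup G) = 2 := by rw [hPeq, Nat.card_zpowers, hord]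
      have h4 := P.not_dvd_index
      rw [hNidx] at h1
      rw [h3] at h2
      have h5 : Nat.card N = (P : Subgroup G).index := by omega
      rw [h5]
      exact (Nat.coprime_comm.mp ((Nat.Prime.coprime_iff_not_dvd Nat.prime_two).mpr h4))
    have hNle : N ≤ Cfsg.oddCore G := Helper7.le_pPrimeCore 2 N hNodd
    rw [eq_top_iff]
    intro g _
    by_cases hg : g ∈ N
    · exact Subgroup.mem_sup_right (hNle hg)
    · have h1 := hmulu g hg
      have h2 : g = g * u * u⁻¹ := by group
      rw [h2]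
      exact Subgroup.mul_mem _ (Subgroup.mem_sup_right (hNle h1))
        (Subgroup.mem_sup_left (Subgroup.inv_mem _ (Subgroup.mem_zpowers u)))
  have hA : (orderOf u = 2 ∧ Subgroup.zpowers u ⊔ Cfsg.oddCore G = ⊤ ∧
      Subgroup.centralizer ({u} : Set G) = Subgroup.zpowers u) → commutator G ≠ ⊤ := by
    rintro ⟨hord, hsup, -⟩ htop
    haveI hKn : (Cfsg.oddCore G).Normal := Helper7.pPrimeCore_normal' 2 G
    have hKodd : (Nat.card (Cfsg.oddCore G)).Coprime 2 := Helper7.pPrimeCore_coprime 2
    have huK : u ∉ Cfsg.oddCore G := by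
      intro h'
      have h1 : orderOf u ∣ Nat.card (Cfsg.oddCore G) := Subgroup.orderOf_dvd_natCard _ h'
      rw [hord] at h1
      have := Nat.Coprime.eq_one_of_dvd hKodd.symm h1
      omega
    have hle : commutator G ≤ Cfsg.oddCore G := by
      rw [commutator_def, Subgroup.commutator_le]
      intro g₁ _ g₂ _
      have hdec : ∀ g : G, ∃ i : ℤ, ∃ k ∈ Cfsg.oddCore G, g = u ^ i * k := by
        intro g
        have hg : g ∈ ((Subgroup.zpowers u ⊔ Cfsg.oddCore G : Subgroup G) : Set G) := by
          rw [hsup]; trivial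
        rw [Subgroup.mul_normal, Set.mem_mul] at hg
        obtain ⟨z, hz, k, hk, rfl⟩ := hg
        obtain ⟨i, rfl⟩ := Subgroup.mem_zpowers_iff.mp hz
        exact ⟨i, k, hk, rfl⟩
      obtain ⟨i, k₁, hk₁, rfl⟩ := hdec g₁
      obtain ⟨j, k₂, hk₂, rfl⟩ := hdec g₂
      rw [← QuotientGroup.eq_one_iff (N := Cfsg.oddCore G)]
      have e1 : ((u ^ i * k₁ : G) : G ⧸ Cfsg.oddCore G) = (u : G ⧸ Cfsg.oddCore G) ^ i := by
        rw [QuotientGroup.mk_mul, (QuotientGroup.eq_one_iff k₁).mpr hk₁, mul_one, QuotientGroup.mk_zpow]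
      have e2 : ((u ^ j * k₂ : G) : G ⧸ Cfsg.oddCore G) = (u : G ⧸ Cfsg.oddCore G) ^ j := by
        rw [QuotientGroup.mk_mul, (QuotientGroup.eq_one_iff k₂).mpr hk₂, mul_one, QuotientGroup.mk_zpow]
      rw [commutatorElement_def]
      simp only [QuotientGroup.mk_mul, QuotientGroup.mk_inv] at e1 e2 ⊢
      rw [e1, e2]
      group
    exact huK (hle (htop ▸ Subgroup.mem_top u))
  exact ⟨⟨hA, fun h => (hfwd h).2⟩, ⟨fun h => (hfwd h).1, hback⟩⟩

end Cfsg.Agent.S4757
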