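import Mathlib
import Cfsg.Statements.S4784
import Cfsg.Agent.Lib.Helper7.Codeg
import Cfsg.Agent.Lib.Helper7.FS

namespace Cfsg.Agent.S4784

open Cfsg.Agent.Lib.Lead Cfsg.Agent.Lib.Helper7

section aux

variable {G : Type*} [Group G] [Fintype G]

theorem perm_inner_one (H : Subgroup G) :
    Cfsg.classInner (Cfsg.indFun H (fun _ : H => (1 : ℂ))) (fun _ : G => (1 : ℂ)) = 1 := by
  classical
  haveI : Fintype H := Fintype.ofFinite H
  rw [frobenius_reciprocity H _ _ (fun _ _ => rfl)]
  unfold Cfsg.classInner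
  have hne : (Nat.card H : ℂ) ≠ 0 := by exact_mod_cast Nat.card_pos.ne'
  simp only [map_one, mul_one, Finset.sum_const, Finset.card_univ, nsmul_eq_mul]
  rw [← Nat.card_eq_fintype_card, inv_mul_cancel₀ hne]

theorem perm_apply_core (H : Subgroup G) (n : G) (hn : n ∈ H.normalCore) :
    Cfsg.indFun H (fun _ : H => (1 : ℂ)) n = Cfsg.indFun H (fun _ : H => (1 : ℂ)) 1 := by
  rw [indFun_apply, indFun_apply]
  congr 1
  apply Finset.sum_congr rfl
  intro x _
  have h1 : x⁻¹ * n * x ∈ H := by
    have h := hn x⁻¹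
    rwa [inv_inv] at h
  have h2 : x⁻¹ * 1 * x ∈ H := by
    have e : x⁻¹ * 1 * x = 1 := by group
    rw [e]; exact H.one_mem
  rw [extendByZero_mem' H _ h1, extendByZero_mem' H _ h2]

theorem sum_sq_perm (H : Subgroup G) :
    ∑ g : G, Cfsg.indFun H (fun _ : H => (1 : ℂ)) (g * g)
      = (Nat.card H : ℂ)⁻¹ * ((Nat.card G : ℂ) * (Nat.card {g : G // g * g ∈ H} : ℂ)) := by
  classical
  simp_rw [indFun_apply]
  rw [← Finset.mul_sum, Finset.sum_comm]
  congr 1
  have h2 : ∀ g : G, Cfsg.extendByZero H (fun _ : H => (1 : ℂ)) (g * g)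
      = if g * g ∈ H then 1 else 0 := by
    intro g
    split_ifs with hg
    · rw [extendByZero_mem' H _ hg]
    · rw [extendByZero_not_mem H _ hg]
  have h1 : ∀ x : G, ∑ g : G, Cfsg.extendByZero H (fun _ : H => (1 : ℂ)) (x⁻¹ * (g * g) * x)
      = (Nat.card {g : G // g * g ∈ H} : ℂ) := by
    intro x
    have e : ∀ g : G, x⁻¹ * (g * g) * x = (x⁻¹ * g * x) * (x⁻¹ * g * x) := by intro g; group
    simp_rw [e]
    rw [Fintype.sum_equiv (MulAut.conj x⁻¹).toEquiv
      (fun g => Cfsg.extendByZero H (fun _ : H => (1 : ℂ)) ((x⁻¹ * g * x) * (x⁻¹ * g * x)))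
      (fun g' => Cfsg.extendByZero H (fun _ : H => (1 : ℂ)) (g' * g'))
      (fun g => by simp)]
    simp_rw [h2]
    rw [Finset.sum_boole, Nat.card_eq_fintype_card, Fintype.card_subtype]
  rw [Finset.sum_congr rfl (fun x _ => h1 x), Finset.sum_const, Finset.card_univ, nsmul_eq_mul,
    Nat.card_eq_fintype_card (α := G)]

theorem re_le_deg (χ : Cfsg.IrrCharacter G) (g : G) : (χ.1 g).re ≤ (χ.1 1).re := by
  obtain ⟨n, ρ, hρ, hρχ⟩ := χ.2
  rw [← hρχ, Representation.char_one]
  have h1 := char_norm_le ρ g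
  have h2 : (ρ.character g).re ≤ ‖ρ.character g‖ := Complex.re_le_norm _
  simpa using h2.trans h1

end aux

/-- Let H be a subgroup of the finite group G and consider the permutation character of G on the cosets of H (the function induced from the principal character of H). Then exactly one irreducible constituent of it is real-valued with Frobenius–Schur indicator +1 (namely the principal character) if and only if the normal core of H has odd index in G. -/
theorem result {G : Type*} [Group G] [Fintype G] (H : Subgroup G) : Nat.card {χ : Cfsg.IrrCharacter G // Cfsg.classInner (Cfsg.indFun H (fun _ : H => (1 : ℂ))) (χ : G → ℂ) ≠ 0 ∧ (∀ g : G, (starRingEnd ℂ) ((χ : G → ℂ) g) = (χ : G → ℂ) g) ∧ (Nat.card G : ℂ)⁻¹ * ∑ g : G, (χ : G → ℂ) (g * g) = 1} = 1 ↔ Odd H.normalCore.index := by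
  classical
  haveI : Fintype (Cfsg.IrrCharacter G) := Fintype.ofFinite _
  haveI : Fintype H := Fintype.ofFinite H
  set π := Cfsg.indFun H (fun _ : H => (1 : ℂ)) with hπ
  have hπchar : Cfsg.IsCharacter G π := isCharacter_indFun H _ isCharacter_one
  have hπcf : Cfsg.IsClassFunction G π := indFun_isClassFunction H _
  have hm : ∀ χ : Cfsg.IrrCharacter G, ∃ m : ℕ, Cfsg.classInner π χ.1 = (m : ℂ) := fun χ =>
    classInner_char_nat hπchar (isCharacter_of_irr χ.2)
  choose m hm using hm
  have hexp : ∀ g : G, π g = ∑ χ : Cfsg.IrrCharacter G, (m χ : ℂ) * χ.1 g := by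
    intro g
    have h1 := congrFun (class_fn_expand' π hπcf) g
    rw [Finset.sum_apply] at h1
    rw [h1]
    apply Finset.sum_congr rfl
    intro χ _
    rw [Pi.smul_apply, smul_eq_mul, hm χ]
  have hOne_inner : Cfsg.classInner π (irrOne G).1 = 1 := perm_inner_one H
  have hmOne : m (irrOne G) = 1 := by
    have h1 := hm (irrOne G)
    rw [hOne_inner] at h1
    exact_mod_cast h1.symm
  have hGne : (Nat.card G : ℂ) ≠ 0 := by exact_mod_cast Nat.card_pos.ne'
  have hOne_nu : (Nat.card G : ℂ)⁻¹ * ∑ g : G, (irrOne G).1 (g * g) = 1 := by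
    show (Nat.card G : ℂ)⁻¹ * ∑ g : G, (1 : ℂ) = 1
    rw [Finset.sum_const, Finset.card_univ, nsmul_eq_mul, mul_one, ← Nat.card_eq_fintype_card,
      inv_mul_cancel₀ hGne]
  have hOne_real : ∀ g : G, (starRingEnd ℂ) ((irrOne G).1 g) = (irrOne G).1 g := by
    intro g
    show (starRingEnd ℂ) (1 : ℂ) = 1
    rw [map_one]
  set N := H.normalCore with hN
  constructor
  · intro hcard
    by_contra hodd
    rw [Nat.not_odd_iff_even] at hodd
    haveI : Subsingleton {χ : Cfsg.IrrCharacter G // Cfsg.classInner π (χ : G → ℂ) ≠ 0 ∧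
        (∀ g : G, (starRingEnd ℂ) ((χ : G → ℂ) g) = (χ : G → ℂ) g) ∧
        (Nat.card G : ℂ)⁻¹ * ∑ g : G, (χ : G → ℂ) (g * g) = 1} :=
      (Nat.card_eq_one_iff_unique.mp hcard).1
    -- an element outside `H` with square in `H`
    have hcardQ : Nat.card (G ⧸ N) = N.index := (Subgroup.index_eq_card N).symm
    haveI : Fact (Nat.Prime 2) := ⟨Nat.prime_two⟩
    obtain ⟨tb, htb⟩ := exists_prime_orderOf_dvd_card' (G := G ⧸ N) 2
      (by rw [hcardQ]; exact hodd.two_dvd)
    obtain ⟨t, rfl⟩ := QuotientGroup.mk_surjective tb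
    have htN : t ∉ N := by
      intro h
      have h1 : (t : G ⧸ N) = 1 := (QuotientGroup.eq_one_iff t).mpr h
      rw [h1, orderOf_one] at htb
      omega
    have ht2 : t * t ∈ N := by
      have h1 : (t : G ⧸ N) ^ 2 = 1 := by rw [← htb]; exact pow_orderOf_eq_one _
      rw [← QuotientGroup.mk_pow, QuotientGroup.eq_one_iff, pow_two] at h1
      exact h1
    obtain ⟨b, hb⟩ : ∃ b : G, b * t * b⁻¹ ∉ H := by
      by_contra hcon
      push Not at hcon
      exact htN hcon
    have hg₀sq : (b * t * b⁻¹) * (b * t * b⁻¹) ∈ H := by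
      have e : (b * t * b⁻¹) * (b * t * b⁻¹) = b * (t * t) * b⁻¹ := by group
      rw [e]
      exact H.normalCore_le (H.normalCore_normal.conj_mem _ ht2 b)
    -- counting
    have hcount : Nat.card H + 1 ≤ Nat.card {g : G // g * g ∈ H} := by
      rw [Nat.card_eq_fintype_card, Nat.card_eq_fintype_card, Fintype.card_subtype,
        Fintype.card_subtype]
      apply Nat.succ_le_of_lt
      apply Finset.card_lt_card
      rw [Finset.ssubset_iff_of_subset]
      · exact ⟨b * t * b⁻¹, Finset.mem_filter.mpr ⟨Finset.mem_univ _, hg₀sq⟩,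
          fun h => hb (Finset.mem_filter.mp h).2⟩
      · intro g hg
        simp only [Finset.mem_filter, Finset.mem_univ, true_and] at hg ⊢
        exact H.mul_mem hg hg
    -- the formula
    have hF : ∑ χ : Cfsg.IrrCharacter G,
        (m χ : ℂ) * ((Nat.card G : ℂ)⁻¹ * ∑ g : G, χ.1 (g * g))
        = (Nat.card H : ℂ)⁻¹ * (Nat.card {g : G // g * g ∈ H} : ℂ) := by
      have h1 := sum_sq_perm H
      rw [← hπ] at h1
      have h2 : ∑ g : G, π (g * g)
          = ∑ χ : Cfsg.IrrCharacter G, (m χ : ℂ) * ∑ g : G, χ.1 (g * g) := by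
        simp_rw [hexp]
        rw [Finset.sum_comm]
        apply Finset.sum_congr rfl
        intro χ _
        rw [Finset.mul_sum]
      calc ∑ χ : Cfsg.IrrCharacter G, (m χ : ℂ) * ((Nat.card G : ℂ)⁻¹ * ∑ g : G, χ.1 (g * g))
          = (Nat.card G : ℂ)⁻¹ * ∑ χ : Cfsg.IrrCharacter G, (m χ : ℂ) * ∑ g : G, χ.1 (g * g) := by
            rw [Finset.mul_sum]
            apply Finset.sum_congr rfl
            intro χ _
            ring
        _ = (Nat.card G : ℂ)⁻¹ * ((Nat.card H : ℂ)⁻¹ *
              ((Nat.card G : ℂ) * (Nat.card {g : G // g * g ∈ H} : ℂ))) := by rw [← h2, h1]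
        _ = (Nat.card H : ℂ)⁻¹ * (Nat.card {g : G // g * g ∈ H} : ℂ) := by
            field_simp
    have hre : (∑ χ : Cfsg.IrrCharacter G,
        (m χ : ℂ) * ((Nat.card G : ℂ)⁻¹ * ∑ g : G, χ.1 (g * g))).re ≤ 1 := by
      rw [Complex.re_sum, ← Finset.add_sum_erase Finset.univ _ (Finset.mem_univ (irrOne G))]
      have h1 : ((m (irrOne G) : ℂ) * ((Nat.card G : ℂ)⁻¹ * ∑ g : G, (irrOne G).1 (g * g))).re
          = 1 := by
        rw [hmOne, hOne_nu]; simp
      have h2 : ∑ χ ∈ Finset.univ.erase (irrOne G),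
          ((m χ : ℂ) * ((Nat.card G : ℂ)⁻¹ * ∑ g : G, χ.1 (g * g))).re ≤ 0 := by
        apply Finset.sum_nonpos
        intro χ hχ
        have hχne : χ ≠ irrOne G := Finset.ne_of_mem_erase hχ
        by_cases hreal : ∀ g : G, (χ.1 g).im = 0
        · rcases (FS.fs_cases χ).1 hreal with h3 | h3
          · -- `ν = 1`: the multiplicity must vanish
            have hm0 : m χ = 0 := by
              by_contra hne
              apply hχne
              have hmem : Cfsg.classInner π (χ : G → ℂ) ≠ 0 ∧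
                  (∀ g : G, (starRingEnd ℂ) ((χ : G → ℂ) g) = (χ : G → ℂ) g) ∧
                  (Nat.card G : ℂ)⁻¹ * ∑ g : G, (χ : G → ℂ) (g * g) = 1 := by
                refine ⟨?_, fun g => Complex.conj_eq_iff_im.mpr (hreal g), h3⟩
                rw [hm χ]
                exact_mod_cast hne
              have h4 : (⟨χ, hmem⟩ : {χ : Cfsg.IrrCharacter G // Cfsg.classInner π (χ : G → ℂ) ≠ 0 ∧
                  (∀ g : G, (starRingEnd ℂ) ((χ : G → ℂ) g) = (χ : G → ℂ) g) ∧
                  (Nat.card G : ℂ)⁻¹ * ∑ g : G, (χ : G → ℂ) (g * g) = 1})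
                  = ⟨irrOne G, by rw [hOne_inner]; exact one_ne_zero, hOne_real, hOne_nu⟩ :=
                Subsingleton.elim _ _
              exact congrArg Subtype.val h4
            rw [hm0]; simp
          · rw [h3]; simp
        · rw [(FS.fs_cases χ).2 hreal]; simp
      linarith
    rw [hF] at hre
    have hHpos : (0 : ℝ) < (Nat.card H : ℝ) := by exact_mod_cast Nat.card_pos
    have h5 : ((Nat.card H : ℂ)⁻¹ * (Nat.card {g : G // g * g ∈ H} : ℂ)).re
        = (Nat.card H : ℝ)⁻¹ * (Nat.card {g : G // g * g ∈ H} : ℝ) := by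
      rw [← Complex.ofReal_natCast, ← Complex.ofReal_natCast, ← Complex.ofReal_inv,
        ← Complex.ofReal_mul, Complex.ofReal_re]
    rw [h5] at hre
    have h6 : ((Nat.card H : ℝ) + 1) ≤ (Nat.card {g : G // g * g ∈ H} : ℝ) := by
      exact_mod_cast hcount
    have h7 : (Nat.card H : ℝ)⁻¹ * (Nat.card {g : G // g * g ∈ H} : ℝ) > 1 := by
      rw [gt_iff_lt, inv_mul_eq_div, lt_div_iff₀ hHpos]
      linarith
    linarith
  · intro hodd
    rw [Nat.card_eq_one_iff_unique]
    refine ⟨⟨?_⟩, ⟨⟨irrOne G, by rw [hOne_inner]; exact one_ne_zero, hOne_real, hOne_nu⟩⟩⟩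
    have key : ∀ χ : Cfsg.IrrCharacter G, Cfsg.classInner π (χ : G → ℂ) ≠ 0 →
        (∀ g : G, (starRingEnd ℂ) ((χ : G → ℂ) g) = (χ : G → ℂ) g) → χ = irrOne G := by
      intro χ ha hreal
      have hreal' : ∀ g : G, (χ.1 g).im = 0 := fun g => Complex.conj_eq_iff_im.mp (hreal g)
      have hm0 : m χ ≠ 0 := by
        intro h0
        apply ha
        rw [hm χ, h0]; simp
      have hker : ∀ n ∈ N, χ.1 n = χ.1 1 := by
        intro n hn
        have h1 : π n = π 1 := perm_apply_core H n hn
        rw [hexp n, hexp 1] at h1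
        have h2 : ∑ χ' : Cfsg.IrrCharacter G, (m χ' : ℝ) * ((χ'.1 1).re - (χ'.1 n).re) = 0 := by
          have h3 := congrArg Complex.re h1
          rw [Complex.re_sum, Complex.re_sum] at h3
          have h4 : ∀ (χ' : Cfsg.IrrCharacter G) (g : G),
              ((m χ' : ℂ) * χ'.1 g).re = (m χ' : ℝ) * (χ'.1 g).re := by
            intro χ' g
            rw [← Complex.ofReal_natCast, Complex.re_ofReal_mul]
          simp_rw [h4] at h3
          simp_rw [mul_sub]
          rw [Finset.sum_sub_distrib, h3, sub_self]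
        have h5 := (Finset.sum_eq_zero_iff_of_nonneg (fun χ' _ =>
          mul_nonneg (Nat.cast_nonneg _) (sub_nonneg.mpr (re_le_deg χ' n)))).mp h2 χ
          (Finset.mem_univ χ)
        have h6 : (χ.1 1).re - (χ.1 n).re = 0 := by
          rcases mul_eq_zero.mp h5 with h | h
          · exact absurd (by exact_mod_cast h) hm0
          · exact h
        apply Complex.ext
        · linarith
        · rw [hreal' n, hreal' 1]
      obtain ⟨ψ, hψ⟩ := Codeg.exists_irr_quot χ N hker
      have hψreal : ∀ q : G ⧸ N, (ψ.1 q).im = 0 := by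
        intro q
        obtain ⟨g, rfl⟩ := QuotientGroup.mk_surjective q
        rw [hψ g]; exact hreal' g
      have hoddQ : Odd (Nat.card (G ⧸ N)) := by
        rw [← Subgroup.index_eq_card]; exact hodd
      have h8 := real_irr_odd hoddQ ψ hψreal
      apply Subtype.ext
      funext g
      rw [← hψ g, h8]
      rfl
    intro a b
    apply Subtype.ext
    rw [key a.1 a.2.1 a.2.2.1, key b.1 b.2.1 b.2.2.1]

end Cfsg.Agent.S4784
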