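import Mathlib
import Cfsg.Statements.S4796
import Cfsg.Agent.Lib.Helper7.Clifford
import Cfsg.Agent.Lib.Helper7.CharCenter
import Cfsg.Agent.Lib.Helper7.FrobKer

namespace Cfsg.Agent.S4796

open scoped Pointwise

open Cfsg.Agent.Lib.Lead Cfsg.Agent.Lib.Helper7 Cfsg.Agent.Lib.Helper7.Cliff

/-- Let G be a finite group with a faithful irreducible complex character χ whose codegree #G / χ(1) is a prime p (for a faithful character the kernel is trivial, so the codegree is #G / χ(1)). Then either G is cyclic of order p, or G is a Frobenius group whose Frobenius kernel has order p: some proper non-trivial subgroup H satisfies H ∩ gHg⁻¹ = 1 for every element g outside H, and the set of elements lying in no conjugate of H, together with the identity, has exactly p elements. -/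
theorem result {G : Type*} [Group G] [Finite G] (χ : Cfsg.IrrCharacter G) (hfaith : ∀ g : G, (χ : G → ℂ) g = (χ : G → ℂ) 1 → g = 1) (p : ℕ) (hp : p.Prime) (hcod : Nat.card G = p * Cfsg.charDegree (χ : G → ℂ)) : (IsCyclic G ∧ Nat.card G = p) ∨ ∃ H : Subgroup G, Cfsg.IsFrobeniusComplement H ∧ Nat.card ↥(Cfsg.frobeniusKernel H) = p := by
  classical
  haveI : Fact p.Prime := ⟨hp⟩
  haveI : Fintype G := Fintype.ofFinite G
  haveI : Fintype (Cfsg.IrrCharacter G) := Fintype.ofFinite _
  obtain ⟨hdpos, hd1, hddvd⟩ := DZ.charDegree_spec χ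
  set d := Cfsg.charDegree χ.1 with hd
  by_cases hd1' : d = 1
  · left
    have hcard : Nat.card G = p := by rw [hcod, hd1', mul_one]
    exact ⟨isCyclic_of_prime_card hcard, hcard⟩
  right
  have hd2 : 2 ≤ d := by omega
  -- the degree is less than `p`
  have hlt : d < p := by
    have hsum := sum_deg_sq (G := G)
    rw [finsum_eq_sum_of_fintype] at hsum
    have hsumN : ((∑ χ' : Cfsg.IrrCharacter G, (Cfsg.charDegree χ'.1) ^ 2 : ℕ) : ℂ)
        = (Nat.card G : ℂ) := by
      rw [← hsum]
      push_cast
      exact Finset.sum_congr rfl (fun χ' _ => by rw [(DZ.charDegree_spec χ').2.1])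
    have hsumN' : ∑ χ' : Cfsg.IrrCharacter G, (Cfsg.charDegree χ'.1) ^ 2 = Nat.card G := by
      exact_mod_cast hsumN
    have hone : Cfsg.charDegree (irrOne G).1 = 1 := by
      have h1 := (DZ.charDegree_spec (irrOne G)).2.1
      have h2 : (irrOne G).1 1 = 1 := rfl
      rw [h2] at h1
      exact_mod_cast h1.symm
    have hne : χ ≠ irrOne G := by
      intro h
      apply hd1'
      rw [hd, h, hone]
    have h2 : ∑ x ∈ ({χ, irrOne G} : Finset (Cfsg.IrrCharacter G)), (Cfsg.charDegree x.1) ^ 2
        ≤ ∑ χ' : Cfsg.IrrCharacter G, (Cfsg.charDegree χ'.1) ^ 2 :=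
      Finset.sum_le_sum_of_subset (Finset.subset_univ _)
    rw [Finset.sum_pair hne, hone, hsumN', hcod] at h2
    by_contra hge
    push Not at hge
    have h3 : p * d ≤ d * d := Nat.mul_le_mul_right d hge
    nlinarith
  have hpd : ¬ p ∣ d := fun h => by
    have := Nat.le_of_dvd hdpos h
    omega
  obtain ⟨P⟩ : Nonempty (Sylow p G) := inferInstance
  have hfac : (Nat.card G).factorization p = 1 := by
    rw [hcod, Nat.factorization_mul hp.ne_zero hdpos.ne', Finsupp.add_apply, hp.factorization_self,
      Nat.factorization_eq_zero_of_not_dvd hpd]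
  have hPcard : Nat.card (P : Subgroup G) = p := by
    rw [Sylow.card_eq_multiplicity P, hfac, pow_one]
  have hPidx : (P : Subgroup G).index = d := by
    have h1 := Subgroup.card_mul_index (P : Subgroup G)
    rw [hPcard, hcod] at h1
    exact Nat.eq_of_mul_eq_mul_left hp.pos h1
  have hPn : (P : Subgroup G).Normal := by
    have h1 := card_sylow_modEq_one p G
    have h2 := Sylow.card_dvd_index P
    rw [hPidx] at h2
    have h3 : Nat.card (Sylow p G) ≤ d := Nat.le_of_dvd hdpos h2
    have h4 : Nat.card (Sylow p G) = 1 := by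
      have h5 : Nat.card (Sylow p G) < p := by omega
      unfold Nat.ModEq at h1
      rw [Nat.mod_eq_of_lt h5, Nat.mod_eq_of_lt hp.one_lt] at h1
      exact h1
    haveI : Subsingleton (Sylow p G) := (Nat.card_eq_one_iff_unique.mp h4).1
    exact Sylow.normal_of_subsingleton P
  haveI := hPn
  set C := Subgroup.centralizer ((P : Subgroup G) : Set G) with hC
  haveI hCn : C.Normal := Subgroup.normal_centralizer
  haveI : IsCyclic (P : Subgroup G) := isCyclic_of_prime_card hPcard
  have hPC : (P : Subgroup G) ≤ C := by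
    intro x hx
    rw [hC, Subgroup.mem_centralizer_iff]
    intro y hy
    have h1 := (IsCyclic.isMulCommutative (α := (P : Subgroup G))).is_comm.comm ⟨y, hy⟩ ⟨x, hx⟩
    exact congrArg Subtype.val h1
  haveI : Fintype C := Fintype.ofFinite C
  have hres : (fun c : C => χ.1 c) ≠ 0 := by
    intro h
    exact irr_deg_ne_zero χ (congrFun h 1)
  obtain ⟨θ, hθ⟩ := exists_constituent _
    (isClassFunction_restrict C χ.1 (isClassFunction_of_irr χ)) hres
  obtain ⟨r, hr⟩ := deg_le_index_mul C χ θ hθ
  have htpos : 0 < Cfsg.charDegree θ.1 := (DZ.charDegree_spec θ).1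
  set t := Cfsg.charDegree θ.1 with ht
  have hr' : C.index * t = d + r := by
    rw [(DZ.charDegree_spec θ).2.1, hd1] at hr
    exact_mod_cast hr
  have hcent : (P : Subgroup G).subgroupOf C ≤ Subgroup.center C := by
    intro z hz
    rw [Subgroup.mem_center_iff]
    intro g
    apply Subtype.ext
    have h1 := Subgroup.mem_centralizer_iff.mp g.2 (z : G) hz
    exact h1.symm
  have hsq := CC.card_mul_deg_sq_le θ _ hcent
  rw [Nat.card_congr (Subgroup.subgroupOfEquivOfLe hPC).toEquiv, hPcard] at hsq
  have hCG := Subgroup.card_mul_index C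
  obtain ⟨k, hk⟩ : p ∣ Nat.card C := by
    rw [← hPcard]; exact Subgroup.card_dvd_of_le hPC
  have hk1 : k = 1 := by
    have hidx : 0 < C.index := Nat.pos_of_ne_zero Subgroup.index_ne_zero_of_finite
    have e1 : k * C.index = d := by
      rw [hk, hcod, mul_assoc] at hCG
      exact Nat.eq_of_mul_eq_mul_left hp.pos hCG
    have e2 : k ≤ t := by
      by_contra hlt'
      push Not at hlt'
      have h1 : C.index * t < C.index * k := Nat.mul_lt_mul_of_pos_left hlt' hidx
      nlinarith
    have e3 : t ^ 2 ≤ k := by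
      rw [hk] at hsq
      exact Nat.le_of_mul_le_mul_left hsq hp.pos
    have hkpos : 0 < k := by
      rcases Nat.eq_zero_or_pos k with h0 | h0
      · rw [h0, mul_zero] at hk
        exact absurd hk Nat.card_pos.ne'
      · exact h0
    nlinarith
  have hCcard : Nat.card C = p := by rw [hk, hk1, mul_one]
  have hCP : C = (P : Subgroup G) :=
    (Subgroup.eq_of_le_of_card_ge hPC (by rw [hCcard, hPcard])).symm
  have hcop : (Nat.card (P : Subgroup G)).Coprime (P : Subgroup G).index := by
    rw [hPcard, hPidx]
    exact (Nat.Prime.coprime_iff_not_dvd hp).mpr hpd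
  obtain ⟨H, hH⟩ := Subgroup.exists_right_complement'_of_coprime hcop
  have hHcard : Nat.card H = d := by
    have h1 := hH.card_mul_card
    rw [hPcard, hcod] at h1
    exact Nat.eq_of_mul_eq_mul_left hp.pos h1
  have hdisj : (P : Subgroup G) ⊓ H = ⊥ := hH.disjoint.eq_bot
  have hFrob : Cfsg.IsFrobeniusComplement H := by
    refine ⟨?_, ?_, ?_⟩
    · intro h
      rw [h, Subgroup.card_bot] at hHcard
      omega
    · intro h
      rw [h, Subgroup.card_top, hcod] at hHcard
      have h1 : p * d = 1 * d := by omega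
      exact hp.one_lt.ne' (Nat.eq_of_mul_eq_mul_right hdpos h1)
    · intro g hg
      rw [eq_bot_iff]
      intro x hx
      rw [Subgroup.mem_bot]
      obtain ⟨hxH, hxg0⟩ := hx
      have hxH : x ∈ H := hxH
      have hxg : g⁻¹ * x * g ∈ H := mem_conj_smul.mp hxg0
      have hgmem : g ∈ (((P : Subgroup G) : Set G) * (H : Set G)) := by
        rw [← Subgroup.normal_mul, hH.sup_eq_top]
        exact Subgroup.mem_top g
      obtain ⟨u, hu, h', hh', hg'⟩ := Set.mem_mul.mp hgmem
      have hu1 : u ≠ 1 := by
        intro h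
        apply hg
        rw [← hg', h, one_mul]
        exact hh'
      have hy : u⁻¹ * x * u ∈ H := by
        have e : u⁻¹ * x * u = h' * (g⁻¹ * x * g) * h'⁻¹ := by rw [← hg']; group
        rw [e]
        exact H.mul_mem (H.mul_mem hh' hxg) (H.inv_mem hh')
      have h1 : x⁻¹ * u⁻¹ * x * u ∈ (P : Subgroup G) ⊓ H := by
        constructor
        · have e : x⁻¹ * u⁻¹ * x * u = (x⁻¹ * u⁻¹ * x⁻¹⁻¹) * u := by group
          rw [e]
          exact (P : Subgroup G).mul_mem (hPn.conj_mem _ ((P : Subgroup G).inv_mem hu) _) hu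
        · have e : x⁻¹ * u⁻¹ * x * u = x⁻¹ * (u⁻¹ * x * u) := by group
          rw [e]
          exact H.mul_mem (H.inv_mem hxH) hy
      rw [hdisj, Subgroup.mem_bot] at h1
      have hcomm : u * x = x * u := by
        have e : u * x = u * x * (x⁻¹ * u⁻¹ * x * u) := by rw [h1, mul_one]
        rw [e]; group
      have hxC : x ∈ C := by
        rw [hC, Subgroup.mem_centralizer_iff]
        intro y hy'
        have htop := zpowers_eq_top_of_prime_card (G := (P : Subgroup G)) hPcard
          (g := ⟨u, hu⟩) (by intro h; exact hu1 (congrArg Subtype.val h))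
        have hmem : (⟨y, hy'⟩ : (P : Subgroup G)) ∈ Subgroup.zpowers (⟨u, hu⟩ : (P : Subgroup G)) := by
          rw [htop]; exact Subgroup.mem_top _
        obtain ⟨j, hj⟩ := Subgroup.mem_zpowers_iff.mp hmem
        have hyj : y = u ^ j := by
          have h2 := congrArg Subtype.val hj
          simpa using h2.symm
        rw [hyj]
        exact (Commute.zpow_left (show Commute u x from hcomm) j).eq
      rw [hCP] at hxC
      have h2 : x ∈ (P : Subgroup G) ⊓ H := ⟨hxC, hxH⟩
      rw [hdisj, Subgroup.mem_bot] at h2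
      exact h2
  refine ⟨H, hFrob, ?_⟩
  rw [FK.card_frobeniusKernel H hFrob]
  have h1 := Subgroup.card_mul_index H
  rw [hHcard, hcod, mul_comm p d] at h1
  exact Nat.eq_of_mul_eq_mul_left hdpos h1

end Cfsg.Agent.S4796
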