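import Mathlib
import Cfsg.Statements.S4797
import Cfsg.Agent.Lib.Helper7.Codeg

namespace Cfsg.Agent.S4797

open scoped commutatorElement

open Cfsg.Agent.Lib.Lead Cfsg.Agent.Lib.Helper7 Cfsg.Agent.Lib.Helper7.Codeg

/-- The codegree of an irreducible complex character χ of a finite group G is [G : ker χ] / χ(1), where ker χ is the set of elements at which χ takes the value χ(1). A non-trivial finite group is perfect if and only if no irreducible complex character of it has prime codegree. -/
theorem result {G : Type*} [Group G] [Finite G] [Nontrivial G] : commutator G = ⊤ ↔ ∀ χ : Cfsg.IrrCharacter G, ¬ ((Nat.card G / (Nat.card {g : G // (χ : G → ℂ) g = (χ : G → ℂ) 1} * Cfsg.charDegree (χ : G → ℂ)))).Prime := by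
  constructor
  · intro hperf χ hprime
    obtain ⟨n, ρ, hρ, hρχ⟩ := χ.2
    set K : Subgroup G := MonoidHom.ker ρ with hK
    have hKmem : ∀ g : G, g ∈ K ↔ χ.1 g = χ.1 1 := by
      intro g
      rw [hK, MonoidHom.mem_ker, ← char_eq_deg_iff ρ g, ← hρχ, Representation.char_one]
    have hcardK : Nat.card {g : G // χ.1 g = χ.1 1} = Nat.card K :=
      Nat.card_congr (Equiv.subtypeEquivRight (fun g => (hKmem g).symm))
    rw [hcardK] at hprime
    obtain ⟨ψ, hψ⟩ := exists_irr_quot χ K (fun k hk => (hKmem k).mp hk)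
    have hdeg : Cfsg.charDegree ψ.1 = Cfsg.charDegree χ.1 := by
      unfold Cfsg.charDegree
      have h1 := hψ 1
      rw [show ((1 : G) : G ⧸ K) = 1 from rfl] at h1
      rw [h1]
    obtain ⟨hdpos, -, hddvd⟩ := DZ.charDegree_spec ψ
    rw [hdeg] at hdpos hddvd
    obtain ⟨c, hc⟩ := hddvd
    have hG : Nat.card G = Nat.card (G ⧸ K) * Nat.card K :=
      Subgroup.card_eq_card_quotient_mul_card_subgroup K
    have hquot : Nat.card G / (Nat.card K * Cfsg.charDegree χ.1) = c := by
      rw [hG, hc, show Cfsg.charDegree χ.1 * c * Nat.card K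
        = (Nat.card K * Cfsg.charDegree χ.1) * c by ring]
      exact Nat.mul_div_cancel_left c (Nat.mul_pos Nat.card_pos hdpos)
    rw [hquot] at hprime
    have hcod : Nat.card (G ⧸ K) = c * Cfsg.charDegree ψ.1 := by rw [hdeg, hc, mul_comm]
    have hperf' : commutator (G ⧸ K) = ⊤ := by
      rw [commutator_def, ← Subgroup.map_top_of_surjective (QuotientGroup.mk' K)
        (QuotientGroup.mk'_surjective K), ← Subgroup.map_commutator, ← commutator_def, hperf]
    haveI : Fact c.Prime := ⟨hprime⟩
    by_cases hd1 : Cfsg.charDegree ψ.1 = 1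
    · have hcard : Nat.card (G ⧸ K) = c := by rw [hcod, hd1, mul_one]
      haveI : IsCyclic (G ⧸ K) := isCyclic_of_prime_card hcard
      have hcomm : commutator (G ⧸ K) = ⊥ := by
        rw [eq_bot_iff, commutator_def, Subgroup.commutator_le]
        intro a _ b _
        rw [Subgroup.mem_bot, commutatorElement_eq_one_iff_mul_comm]
        exact (IsCyclic.isMulCommutative (α := G ⧸ K)).is_comm.comm a b
      rw [hcomm] at hperf'
      have h1 : Nat.card (G ⧸ K) = 1 := by
        have h2 := Subgroup.card_top (G := G ⧸ K)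
        rw [← hperf', Subgroup.card_bot] at h2
        exact h2.symm
      rw [hcard] at h1
      exact hprime.one_lt.ne' h1
    · obtain ⟨P, hPn, hPcard, hPC⟩ := prime_codeg_structure ψ c hprime hcod hd1
      haveI := hPn
      haveI : IsCyclic (P : Subgroup (G ⧸ K)) := isCyclic_of_prime_card hPcard
      have h1 := commutator_le_centralizer_of_cyclic (P : Subgroup (G ⧸ K))
      rw [hPC, hperf'] at h1
      have h2 : (P : Subgroup (G ⧸ K)) = ⊤ := top_le_iff.mp h1
      have h3 : Nat.card (P : Subgroup (G ⧸ K)) = Nat.card (G ⧸ K) := by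
        rw [h2, Subgroup.card_top]
      rw [hPcard, hcod] at h3
      have h4 : c * 1 = c * Cfsg.charDegree ψ.1 := by rw [mul_one]; exact h3
      exact hd1 (Nat.eq_of_mul_eq_mul_left hprime.pos h4).symm
  · intro h
    by_contra hne
    obtain ⟨χ, N, hNp, hχ1, hχN⟩ := exists_linear_prime_codeg hne
    apply h χ
    have hcardK : Nat.card {g : G // χ.1 g = χ.1 1} = Nat.card N :=
      Nat.card_congr (Equiv.subtypeEquivRight hχN)
    have hdeg : Cfsg.charDegree χ.1 = 1 := by
      have h1 := (DZ.charDegree_spec χ).2.1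
      rw [hχ1] at h1
      exact_mod_cast h1.symm
    rw [hcardK, hdeg, mul_one, ← Subgroup.card_mul_index N, Nat.mul_div_cancel_left _ Nat.card_pos]
    exact hNp

end Cfsg.Agent.S4797
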