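import Cfsg.Statements.S4856
import Cfsg.Agent.Lib.Lead.Char16

set_option autoImplicit false
open Cfsg

namespace Cfsg.Agent.S4856

/-- For an element z of a finite group G, the number of pairs (x, y) of elements with x y x⁻¹ y⁻¹ = z equals the order of G times the sum over the irreducible characters χ of χ(z)/χ(1). -/
theorem result {G : Type*} [Group G] [Finite G] (z : G) : (Nat.card {xy : G × G // xy.1 * xy.2 * xy.1⁻¹ * xy.2⁻¹ = z} : ℂ) = (Nat.card G : ℂ) * ∑ᶠ χ : Cfsg.IrrCharacter G, (χ : G → ℂ) z / (χ : G → ℂ) 1 := by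
  classical
  haveI : Fintype G := Fintype.ofFinite G
  haveI : Fintype (Cfsg.IrrCharacter G) := Fintype.ofFinite _
  rw [finsum_eq_sum_of_fintype]
  have h1 := Cfsg.Agent.Lib.Lead.card_commutator_eq z
  have h2 : ∑ χ : Cfsg.IrrCharacter G, χ.1 z⁻¹ / χ.1 1
      = (starRingEnd ℂ) (∑ χ : Cfsg.IrrCharacter G, χ.1 z / χ.1 1) := by
    rw [map_sum]
    apply Finset.sum_congr rfl
    intro χ _
    rw [map_div₀, Cfsg.Agent.Lib.Lead.irr_conj_one, Cfsg.Agent.Lib.Lead.irr_conj_inv]
  rw [h2] at h1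
  have h3 : Nat.card {xy : G × G // xy.1 * xy.2 * xy.1⁻¹ * xy.2⁻¹ = z}
      = (Finset.univ.filter (fun p : G × G => p.1 * p.2 * p.1⁻¹ * p.2⁻¹ = z)).card := by
    rw [Nat.card_eq_fintype_card, Fintype.card_subtype]
  rw [h3]
  have h4 := congrArg (starRingEnd ℂ) h1
  rw [Complex.conj_natCast, map_mul, Complex.conj_natCast, Complex.conj_conj] at h4
  exact h4

end Cfsg.Agent.S4856
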