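import Cfsg.Statements.S4969
import Cfsg.Agent.Lib.Lead.Char16

set_option autoImplicit false
open Cfsg

namespace Cfsg.Agent.S4969

/-- Let G be a finite group with k conjugacy classes, g ∈ G, and N > 0. Then the sum over the irreducible complex characters χ of G with χ(1) ≥ N of |χ(g)|/χ(1) is at most √(k · #C_G(g)) / N. -/
theorem result {G : Type*} [Group G] [Finite G] (g : G) (N : ℝ) (hN : 0 < N) :
    ∑ᶠ χ : Cfsg.IrrCharacter G, (if N ≤ ‖(χ : G → ℂ) 1‖ then ‖(χ : G → ℂ) g‖ / ‖(χ : G → ℂ) 1‖ else 0) ≤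
      Real.sqrt ((Nat.card (ConjClasses G) : ℝ) * (Nat.card ↥(Subgroup.centralizer ({g} : Set G)) : ℝ)) / N := by
  classical
  haveI : Fintype G := Fintype.ofFinite G
  haveI : Fintype (Cfsg.IrrCharacter G) := Fintype.ofFinite _
  rw [finsum_eq_sum_of_fintype]
  have hcol := Cfsg.Agent.Lib.Lead.col_orth' g g
  rw [if_pos (IsConj.refl g)] at hcol
  have hsq : ∑ χ : Cfsg.IrrCharacter G, ‖χ.1 g‖ ^ 2
      = (Nat.card ↥(Subgroup.centralizer ({g} : Set G)) : ℝ) := by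
    have h3 : ∀ χ : Cfsg.IrrCharacter G,
        χ.1 g * (starRingEnd ℂ) (χ.1 g) = ((‖χ.1 g‖ ^ 2 : ℝ) : ℂ) := by
      intro χ
      rw [Complex.mul_conj, Complex.normSq_eq_norm_sq]
    rw [Finset.sum_congr rfl (fun χ _ => h3 χ), ← Complex.ofReal_sum] at hcol
    exact_mod_cast hcol
  have hk : (Finset.univ : Finset (Cfsg.IrrCharacter G)).card = Nat.card (ConjClasses G) := by
    rw [Finset.card_univ, ← Nat.card_eq_fintype_card, Cfsg.Agent.Lib.Lead.card_irr]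
  have hCS := sq_sum_le_card_mul_sum_sq (s := (Finset.univ : Finset (Cfsg.IrrCharacter G)))
    (f := fun χ => ‖χ.1 g‖)
  rw [hk, hsq] at hCS
  have hsum : ∑ χ : Cfsg.IrrCharacter G, ‖χ.1 g‖
      ≤ Real.sqrt ((Nat.card (ConjClasses G) : ℝ)
        * (Nat.card ↥(Subgroup.centralizer ({g} : Set G)) : ℝ)) :=
    Real.le_sqrt_of_sq_le hCS
  have hterm : ∀ χ : Cfsg.IrrCharacter G,
      (if N ≤ ‖χ.1 1‖ then ‖χ.1 g‖ / ‖χ.1 1‖ else 0) ≤ ‖χ.1 g‖ / N := by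
    intro χ
    split_ifs with h
    · exact div_le_div_of_nonneg_left (norm_nonneg _) hN h
    · exact div_nonneg (norm_nonneg _) hN.le
  calc ∑ χ : Cfsg.IrrCharacter G, (if N ≤ ‖χ.1 1‖ then ‖χ.1 g‖ / ‖χ.1 1‖ else 0)
      ≤ ∑ χ : Cfsg.IrrCharacter G, ‖χ.1 g‖ / N := Finset.sum_le_sum (fun χ _ => hterm χ)
    _ = (∑ χ : Cfsg.IrrCharacter G, ‖χ.1 g‖) / N := by rw [Finset.sum_div]
    _ ≤ _ := div_le_div_of_nonneg_right hsum hN.le

end Cfsg.Agent.S4969
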