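import Cfsg.Statements.S4989
import Cfsg.Agent.Lib.Lead.Char16
import Cfsg.Agent.Lib.Helper7.Vanish

set_option autoImplicit false
open Cfsg

namespace Cfsg.Agent.S4989

/-- Let H be a subgroup of the finite group G and χ an irreducible complex character of G. Then the inner product of the restriction of χ to H with itself, (1/#H)·Σ_{h ∈ H} |χ(h)|², is at most 1 + #(Z ∖ H)/#H, where Z is the set of zeros of χ in G. -/
theorem result {G : Type*} [Group G] [Finite G] (H : Subgroup G) (χ : Cfsg.IrrCharacter G) : (Nat.card ↥H : ℝ)⁻¹ * ∑ᶠ h : ↥H, ‖(χ : G → ℂ) h‖ ^ 2 ≤ 1 + (Set.ncard ({x : G | (χ : G → ℂ) x = 0} \ (H : Set G)) : ℝ) / (Nat.card ↥H : ℝ) := by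
  classical
  haveI : Fintype G := Fintype.ofFinite G
  obtain ⟨n, ρ, hρ, hρχ⟩ := χ.2
  have htot : ∑ g : G, ‖χ.1 g‖ ^ 2 = (Nat.card G : ℝ) := by
    have h1 := Cfsg.Agent.Lib.Lead.irr_inner_self χ
    unfold Cfsg.classInner at h1
    have hG : (Nat.card G : ℂ) ≠ 0 := Cfsg.Agent.Lib.Lead.card_ne_zero_C
    have h2 : ∑ g : G, χ.1 g * (starRingEnd ℂ) (χ.1 g) = (Nat.card G : ℂ) :=
      ((inv_mul_eq_one₀ hG).mp h1).symm
    have h3 : ∀ g : G, χ.1 g * (starRingEnd ℂ) (χ.1 g) = ((‖χ.1 g‖ ^ 2 : ℝ) : ℂ) := by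
      intro g
      rw [Complex.mul_conj, Complex.normSq_eq_norm_sq]
    rw [Finset.sum_congr rfl (fun g _ => h3 g), ← Complex.ofReal_sum] at h2
    exact_mod_cast h2
  obtain ⟨A, hAdef⟩ : ∃ A : Finset G, A = Finset.univ.filter (fun g : G => g ∉ H ∧ χ.1 g ≠ 0) :=
    ⟨_, rfl⟩
  have hA := Cfsg.Agent.Lib.Helper7.Van.amgm_sum ρ A (by
      intro g hg
      rw [hAdef] at hg
      rw [hρχ]
      exact (Finset.mem_filter.mp hg).2.2) (by
      intro m hm g hg
      rw [hAdef] at hg ⊢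
      obtain ⟨-, hgH, hg0⟩ := Finset.mem_filter.mp hg
      rw [Finset.mem_filter]
      refine ⟨Finset.mem_univ _, ?_, ?_⟩
      · intro hpow
        apply hgH
        have hcop : m.Coprime (orderOf g) :=
          Nat.Coprime.coprime_dvd_right (orderOf_dvd_natCard g) hm
        obtain ⟨k, hk⟩ := exists_pow_eq_self_of_coprime hcop
        rw [← hk]
        exact H.pow_mem hpow k
      · have := Cfsg.Agent.Lib.Helper7.Van.pow_nonvanishing ρ g m hm (by rw [hρχ]; exact hg0)
        rwa [hρχ] at this)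
  rw [hρχ] at hA
  -- split the total sum
  have hsplit := Finset.sum_filter_add_sum_filter_not (Finset.univ : Finset G) (fun g => g ∈ H)
    (fun g => ‖χ.1 g‖ ^ 2)
  have hH : ∑ g ∈ Finset.univ.filter (fun g : G => g ∈ H), ‖χ.1 g‖ ^ 2
      = ∑ᶠ h : ↥H, ‖χ.1 h‖ ^ 2 := by
    rw [finsum_eq_sum_of_fintype]
    exact Finset.sum_subtype (Finset.univ.filter (fun g : G => g ∈ H)) (by simp)
      (fun g => ‖χ.1 g‖ ^ 2)
  have hnotH : ∑ g ∈ Finset.univ.filter (fun g : G => ¬ g ∈ H), ‖χ.1 g‖ ^ 2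
      = ∑ g ∈ A, ‖χ.1 g‖ ^ 2 := by
    symm
    apply Finset.sum_subset
    · intro g hg
      rw [hAdef] at hg
      rw [Finset.mem_filter] at hg ⊢
      exact ⟨hg.1, hg.2.1⟩
    · intro g hg hgA
      rw [Finset.mem_filter] at hg
      have : χ.1 g = 0 := by
        by_contra h0
        apply hgA
        rw [hAdef, Finset.mem_filter]
        exact ⟨Finset.mem_univ _, hg.2, h0⟩
      rw [this, norm_zero]
      norm_num
  have hZ : Set.ncard ({x : G | χ.1 x = 0} \ (H : Set G))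
      = (Finset.univ.filter (fun g : G => g ∉ H ∧ χ.1 g = 0)).card := by
    rw [← Set.ncard_coe_finset]
    congr 1
    ext g
    simp [and_comm]
  have hcardH : (Finset.univ.filter (fun g : G => g ∈ H)).card = Nat.card H := by
    rw [Nat.card_eq_fintype_card]
    exact (Fintype.card_of_subtype _ (by simp)).symm
  have hcardG : (Finset.univ.filter (fun g : G => g ∈ H)).card
      + (Finset.univ.filter (fun g : G => ¬ g ∈ H)).card = Nat.card G := by
    rw [Finset.card_filter_add_card_filter_not, Finset.card_univ, Nat.card_eq_fintype_card]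
  have hcardN : (Finset.univ.filter (fun g : G => ¬ g ∈ H)).card
      = A.card + (Finset.univ.filter (fun g : G => g ∉ H ∧ χ.1 g = 0)).card := by
    have e1 : A = (Finset.univ.filter (fun g : G => ¬ g ∈ H)).filter (fun g => ¬ χ.1 g = 0) := by
      rw [hAdef, Finset.filter_filter]
    have e2 : Finset.univ.filter (fun g : G => g ∉ H ∧ χ.1 g = 0)
        = (Finset.univ.filter (fun g : G => ¬ g ∈ H)).filter (fun g => χ.1 g = 0) := by
      rw [Finset.filter_filter]
    rw [e1, e2, add_comm, Finset.card_filter_add_card_filter_not]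
  have hpos : (0 : ℝ) < (Nat.card ↥H : ℝ) := by exact_mod_cast Nat.card_pos
  rw [hZ, ← hH]
  have key : ∑ g ∈ Finset.univ.filter (fun g : G => g ∈ H), ‖χ.1 g‖ ^ 2
      ≤ (Nat.card ↥H : ℝ) + ((Finset.univ.filter (fun g : G => g ∉ H ∧ χ.1 g = 0)).card : ℝ) := by
    have h1 : ((Finset.univ.filter (fun g : G => g ∈ H)).card : ℝ)
        + ((Finset.univ.filter (fun g : G => ¬ g ∈ H)).card : ℝ) = (Nat.card G : ℝ) := by
      exact_mod_cast hcardG
    have h2 : ((Finset.univ.filter (fun g : G => ¬ g ∈ H)).card : ℝ)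
        = (A.card : ℝ) + ((Finset.univ.filter (fun g : G => g ∉ H ∧ χ.1 g = 0)).card : ℝ) := by
      exact_mod_cast hcardN
    have h3 : ((Finset.univ.filter (fun g : G => g ∈ H)).card : ℝ) = (Nat.card ↥H : ℝ) := by
      exact_mod_cast hcardH
    rw [hnotH, htot] at hsplit
    linarith
  have e : 1 + ((Finset.univ.filter (fun g : G => g ∉ H ∧ χ.1 g = 0)).card : ℝ) / (Nat.card ↥H : ℝ)
      = (Nat.card ↥H : ℝ)⁻¹ * ((Nat.card ↥H : ℝ)
        + ((Finset.univ.filter (fun g : G => g ∉ H ∧ χ.1 g = 0)).card : ℝ)) := by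
    field_simp
  rw [e]
  exact mul_le_mul_of_nonneg_left key (inv_nonneg.mpr hpos.le)

end Cfsg.Agent.S4989
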