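import Cfsg.Statements.S5011

set_option autoImplicit false
open Cfsg

namespace Cfsg.Agent.S5011

/-- Let G be a finite non-abelian simple group and ρ an irreducible complex representation of G on a space of dimension greater than one (irreducible in the sense that the only subspaces invariant under every ρ(x) are 0 and the whole space). Then for every non-identity element g of G, the centralizer of g does not act irreducibly: there is a non-zero proper subspace invariant under ρ(c) for every c commuting with g. -/
theorem result {G : Type*} [Group G] [Finite G] [IsSimpleGroup G]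
    (hG : ¬ IsMulCommutative G) {V : Type*} [AddCommGroup V] [Module ℂ V] [FiniteDimensional ℂ V]
    (ρ : Representation ℂ G V)
    (hirr : ∀ W : Submodule ℂ V, (∀ x : G, ∀ v ∈ W, ρ x v ∈ W) → W = ⊥ ∨ W = ⊤)
    (hdim : 1 < Module.finrank ℂ V) (g : G) (hg : g ≠ 1) :
    ∃ W : Submodule ℂ V, W ≠ ⊥ ∧ W ≠ ⊤ ∧ ∀ c ∈ Subgroup.centralizer ({g} : Set G), ∀ v ∈ W, ρ c v ∈ W := by
  have hV : Nontrivial V := by
    apply Module.nontrivial_of_finrank_pos (R := ℂ)
    omega
  obtain ⟨μ, hμ⟩ := Module.End.exists_eigenvalue (ρ g)
  by_cases htop : Module.End.eigenspace (ρ g) μ = ⊤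
  · exfalso
    have hscal : ρ g = μ • (1 : Module.End ℂ V) := by
      ext v
      have hv : v ∈ Module.End.eigenspace (ρ g) μ := by rw [htop]; trivial
      rw [Module.End.mem_eigenspace_iff] at hv
      simpa using hv
    have hN : Subgroup.normalClosure {g} = ⊤ := by
      rcases (Subgroup.normalClosure_normal (s := ({g} : Set G))).eq_bot_or_eq_top with h | h
      · exfalso
        apply hg
        have hmem : g ∈ Subgroup.normalClosure {g} := Subgroup.subset_normalClosure (Set.mem_singleton g)
        rw [h] at hmem
        exact Subgroup.mem_bot.mp hmem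
      · exact h
    have hall : ∀ x : G, ∃ c : ℂ, ρ x = c • (1 : Module.End ℂ V) := by
      intro x
      have hx : x ∈ Subgroup.normalClosure {g} := by rw [hN]; trivial
      unfold Subgroup.normalClosure at hx
      induction hx using Subgroup.closure_induction with
      | mem y hy =>
        rw [Group.mem_conjugatesOfSet_iff] at hy
        obtain ⟨a, ha, hc⟩ := hy
        rw [Set.mem_singleton_iff] at ha
        subst ha
        obtain ⟨c, rfl⟩ := isConj_iff.mp hc
        refine ⟨μ, ?_⟩
        rw [map_mul, map_mul, hscal]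
        rw [mul_smul_comm, mul_one, smul_mul_assoc, ← map_mul, mul_inv_cancel, map_one]
      | one => exact ⟨1, by rw [map_one, one_smul]⟩
      | mul a b _ _ iha ihb =>
        obtain ⟨c1, h1⟩ := iha
        obtain ⟨c2, h2⟩ := ihb
        refine ⟨c1 * c2, ?_⟩
        rw [map_mul, h1, h2, smul_mul_smul_comm, mul_one]
      | inv a _ iha =>
        obtain ⟨c, hc⟩ := iha
        by_cases hc0 : c = 0
        · refine ⟨0, ?_⟩
          have h10 : (1 : Module.End ℂ V) = 0 := by
            rw [← map_one ρ, ← mul_inv_cancel a, map_mul, hc, hc0, zero_smul, zero_mul]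
          rw [zero_smul, ← mul_one (ρ a⁻¹), h10, mul_zero]
        · refine ⟨c⁻¹, ?_⟩
          have h1 : c • ρ a⁻¹ = 1 := by
            rw [← map_one ρ, ← mul_inv_cancel a, map_mul, hc, smul_mul_assoc, one_mul]
          rw [← h1, smul_smul, inv_mul_cancel₀ hc0, one_smul]
    obtain ⟨v, hv⟩ := exists_ne (0 : V)
    have hinvW : ∀ x : G, ∀ w ∈ (ℂ ∙ v), ρ x w ∈ (ℂ ∙ v) := by
      intro x w hw
      obtain ⟨c, hc⟩ := hall x
      rw [hc]
      simpa using Submodule.smul_mem _ c hw
    rcases hirr _ hinvW with h | h
    · exact hv ((Submodule.span_singleton_eq_bot).mp h)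
    · have h1 : Module.finrank ℂ (ℂ ∙ v) = 1 := finrank_span_singleton hv
      rw [h, finrank_top] at h1
      omega
  · refine ⟨Module.End.eigenspace (ρ g) μ, hμ, htop, ?_⟩
    intro c hc v hv
    rw [Module.End.mem_eigenspace_iff] at hv ⊢
    have hcomm : g * c = c * g := by
      rw [Subgroup.mem_centralizer_iff] at hc
      exact hc g (Set.mem_singleton g)
    calc ρ g (ρ c v) = (ρ g * ρ c) v := rfl
      _ = ρ (g * c) v := by rw [map_mul]
      _ = ρ (c * g) v := by rw [hcomm]
      _ = ρ c (ρ g v) := by rw [map_mul]; rfl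
      _ = μ • ρ c v := by rw [hv, map_smul]

end Cfsg.Agent.S5011
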