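import Cfsg.Statements.S5125
import Cfsg.Agent.Lib.Helper8.AutRes

set_option autoImplicit false
open Cfsg

namespace Cfsg.Agent.S5125

/-- Let F be a saturated fusion system over a finite p-group S and Q a subgroup strongly closed in F. If Q has a subgroup Q₁ that is normal in F, with Q/Q₁ abelian and Aut_F(Q₁) a p-group, then Q is normal in F. -/
theorem result {Ω : Type*} [Group Ω] {S : Subgroup Ω} [Finite S] (p : ℕ) [Fact p.Prime] (hS : IsPGroup p S) (F : Cfsg.FusionSystem S) (hF : F.IsSaturated p) (Q Q₁ : Subgroup Ω) (hQ : F.StronglyClosed Q) (hQ₁Q : Q₁ ≤ Q) (hQ₁ : F.IsNormal Q₁) (hab : ⁅Q, Q⁆ ≤ Q₁) (hAut : IsPGroup p ↥(F.autGroup Q₁)) : F.IsNormal Q := by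
  open Cfsg.Agent.Lib.Helper8 in
  apply normal_of_sc_of_le_cr hS F hF hQ
  intro U _ hUc hUr
  have hUS := hUc.1
  have hsc₁ := sc_of_normal F hQ₁
  have hQ₁U : Q₁ ≤ U := normal_le_cr hS F hQ₁ hUc hUr
  have hinv₁ : ∀ β ∈ F.autGroup U, ∀ x : U, (x : Ω) ∈ Q₁ → ((β x : U) : Ω) ∈ Q₁ :=
    fun β hβ x hx => sc_map_mem F hsc₁ ((mem_autGroup_iff F hUS β).mp hβ) x hx
  apply chain_le_cr hS F hUc hUr hQ.1 (sc_conj_mem F hQ) 2 (fun i => [S, Q, Q₁].getD i ⊥)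
  · exact hUS
  · intro α hα m hm hαm x hx
    exact aut_fix_of_pgroup F hUS hQ₁U hinv₁ hAut α hα m hm hαm x hx
  · intro i hi β hβ x hx
    have hβ' := (mem_autGroup_iff F hUS β).mp hβ
    interval_cases i
    · exact hUS (β x).2
    · exact sc_map_mem F hQ hβ' x hx
    · exact hinv₁ β hβ x hx
  · intro t ht htN i hi x hxU hx
    interval_cases i
    · show x⁻¹ * (t * x * t⁻¹) ∈ Q
      have h1 := sc_conj_mem F hQ x⁻¹ (S.inv_mem (hUS hxU)) t ht
      have e : x⁻¹ * (t * x * t⁻¹) = (x⁻¹ * t * x⁻¹⁻¹) * t⁻¹ := by group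
      rw [e]
      exact Q.mul_mem h1 (Q.inv_mem ht)
    · show x⁻¹ * (t * x * t⁻¹) ∈ Q₁
      have hxQ : x ∈ Q := hx
      have h1 := hab (Subgroup.commutator_mem_commutator (Q.inv_mem hxQ) ht)
      rw [commutatorElement_def] at h1
      have e : x⁻¹ * (t * x * t⁻¹) = x⁻¹ * t * x⁻¹⁻¹ * t⁻¹ := by group
      rw [e]
      exact h1

end Cfsg.Agent.S5125
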