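import Cfsg.Statements.S5198
import Cfsg.Agent.Lib.Helper8.HypGen

set_option autoImplicit false
open Cfsg

namespace Cfsg.Agent.S5198

open Cfsg.Agent.Lib.Helper8 in
theorem aux {Ω : Type*} [Group Ω] {S : Subgroup Ω} [Finite S] (p : ℕ) [Fact p.Prime]
    (hS : IsPGroup p S) (F : Cfsg.FusionSystem S) (hF : F.IsSaturated p) (T : Subgroup Ω)
    (hT : F.StronglyClosed T) : ∀ x ∈ F.hyperfocalSubgroup p,
    ∃ α ∈ ((Cfsg.pResidual p ↥(F.autGroup T)).map (F.autGroup T).subtype ⊔ Cfsg.Inn ↥T :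
      Subgroup (MulAut ↥T)), ∀ t : ↥T, ((α t : ↥T) : Ω) = x * (t : Ω) * x⁻¹ := by
  let X : Subgroup Ω :=
    { carrier := {x | ∃ α ∈ ((Cfsg.pResidual p ↥(F.autGroup T)).map (F.autGroup T).subtype ⊔
        Cfsg.Inn ↥T : Subgroup (MulAut ↥T)), ∀ t : ↥T, ((α t : ↥T) : Ω) = x * (t : Ω) * x⁻¹}
      one_mem' := ⟨1, Subgroup.one_mem _, fun t => by simp⟩
      mul_mem' := by
        rintro x y ⟨α, hα, hα'⟩ ⟨β, hβ, hβ'⟩
        refine ⟨α * β, Subgroup.mul_mem _ hα hβ, fun t => ?_⟩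
        rw [MulAut.mul_apply, hα', hβ']
        group
      inv_mem' := by
        rintro x ⟨α, hα, hα'⟩
        refine ⟨α⁻¹, Subgroup.inv_mem _ hα, fun t => ?_⟩
        have h := hα' (α⁻¹ t)
        rw [MulAut.apply_inv_self] at h
        rw [h]
        group }
  have key : F.hyperfocalSubgroup p ≤ X := by
    apply hyp_le_of
    intro P hP α hα hαp x
    obtain ⟨β, hβ, hβp, hβl⟩ := exists_pprime_lift hS F hF hT hP hα hαp
    have hKS : P ⊔ T ≤ S := sup_le hP hT.1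
    have hinv : ∀ γ ∈ F.autGroup (P ⊔ T), ∀ z : ↥(P ⊔ T), (z : Ω) ∈ T →
        ((γ z : ↥(P ⊔ T)) : Ω) ∈ T :=
      fun γ hγ z hz => sc_map_mem F hT ((mem_autGroup_iff F hKS γ).mp hγ) z hz
    have hγ : autRestrict F (le_sup_right : T ≤ P ⊔ T) hinv ⟨β, hβ⟩ ∈ F.autGroup T :=
      autRestrict_mem F hKS le_sup_right hinv ⟨β, hβ⟩
    have hγp : (orderOf (autRestrict F (le_sup_right : T ≤ P ⊔ T) hinv ⟨β, hβ⟩)).Coprime p := by
      refine Nat.Coprime.coprime_dvd_left (orderOf_map_dvd _ _) ?_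
      rw [Subgroup.orderOf_mk]
      exact hβp
    have hxN : (x : Ω) ∈ Subgroup.normalizer (T : Set Ω) := sc_le_normalizer F hT (hP x.2)
    have hκ : normConj T ⟨x, hxN⟩ ∈ F.autGroup T :=
      autInducedBy_le_autGroup F hT.1
        ((mem_autInducedBy_iff S T _).mpr ⟨x, hP x.2, fun t => rfl⟩)
    have ht₀ := hβl x
    -- the element x⁻¹ β(x)
    have h1 : (x : Ω)⁻¹ * ((β (Subgroup.inclusion le_sup_left x) : ↥(P ⊔ T)) : Ω) ∈ X := by
      refine ⟨(normConj T ⟨x, hxN⟩)⁻¹ * (autRestrict F (le_sup_right : T ≤ P ⊔ T) hinv ⟨β, hβ⟩ *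
        normConj T ⟨x, hxN⟩ * (autRestrict F (le_sup_right : T ≤ P ⊔ T) hinv ⟨β, hβ⟩)⁻¹), ?_, ?_⟩
      · apply Subgroup.mem_sup_left
        refine ⟨(⟨normConj T ⟨x, hxN⟩, hκ⟩ : F.autGroup T)⁻¹ * ⟨_, hγ⟩ *
          (⟨normConj T ⟨x, hxN⟩, hκ⟩ : F.autGroup T)⁻¹⁻¹ * (⟨_, hγ⟩ : F.autGroup T)⁻¹, ?_, ?_⟩
        · have hmem : (⟨_, hγ⟩ : F.autGroup T) ∈ Cfsg.pResidual p ↥(F.autGroup T) := by
            apply Subgroup.subset_closure
            show Nat.Coprime (orderOf (⟨_, hγ⟩ : F.autGroup T)) p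
            rw [Subgroup.orderOf_mk]
            exact hγp
          exact Subgroup.mul_mem _ ((pResidual_normal p _).conj_mem _ hmem _)
            (Subgroup.inv_mem _ hmem)
        · show (normConj T ⟨x, hxN⟩)⁻¹ * _ * (normConj T ⟨x, hxN⟩)⁻¹⁻¹ * _⁻¹ = _
          group
      · intro t
        have e1 : ∀ s : T, (((normConj T ⟨x, hxN⟩)⁻¹ s : T) : Ω) = (x : Ω)⁻¹ * s * x := by
          intro s
          rw [← map_inv]
          show ((x : Ω))⁻¹ * (s : Ω) * ((x : Ω))⁻¹⁻¹ = _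
          group
        rw [MulAut.mul_apply, e1, MulAut.mul_apply, MulAut.mul_apply]
        have e2 : ∀ t₂ : T, ((autRestrict F (le_sup_right : T ≤ P ⊔ T) hinv ⟨β, hβ⟩
            (normConj T ⟨x, hxN⟩ t₂) : T) : Ω) =
            ((β (Subgroup.inclusion le_sup_left x) : ↥(P ⊔ T)) : Ω) *
              ((autRestrict F (le_sup_right : T ≤ P ⊔ T) hinv ⟨β, hβ⟩ t₂ : T) : Ω) *
              ((β (Subgroup.inclusion le_sup_left x) : ↥(P ⊔ T)) : Ω)⁻¹ := by
          intro t₂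
          rw [autRestrict_apply, autRestrict_apply]
          have e3 : (⟨((normConj T ⟨x, hxN⟩ t₂ : T) : Ω),
              (le_sup_right : T ≤ P ⊔ T) (normConj T ⟨x, hxN⟩ t₂).2⟩ : ↥(P ⊔ T)) =
              Subgroup.inclusion le_sup_left x * ⟨t₂, (le_sup_right : T ≤ P ⊔ T) t₂.2⟩ *
                (Subgroup.inclusion le_sup_left x)⁻¹ := Subtype.ext rfl
          rw [e3, map_mul, map_mul, map_inv]
          rfl
        rw [e2, MulAut.apply_inv_self]
        group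
    have h2 : ((α x : P) : Ω)⁻¹ *
        ((β (Subgroup.inclusion le_sup_left x) : ↥(P ⊔ T)) : Ω) ∈ X := by
      refine ⟨MulAut.conj ⟨_, ht₀⟩, Subgroup.mem_sup_right ⟨_, rfl⟩, fun t => rfl⟩
    have e : (x : Ω)⁻¹ * ((α x : P) : Ω) =
        ((x : Ω)⁻¹ * ((β (Subgroup.inclusion le_sup_left x) : ↥(P ⊔ T)) : Ω)) *
        (((α x : P) : Ω)⁻¹ * ((β (Subgroup.inclusion le_sup_left x) : ↥(P ⊔ T)) : Ω))⁻¹ := by
      group
    rw [e]
    exact X.mul_mem h1 (X.inv_mem h2)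
  intro x hx
  exact key hx

/-- Let F be a saturated fusion system over a finite p-group S and T a subgroup of S strongly closed in F (so T is normal in S). Then every element x of the hyperfocal subgroup of F acts on T by conjugation as an element of O^p(Aut_F(T))·Inn(T): there is an automorphism of T in the subgroup generated by the elements of Aut_F(T) of order prime to p together with the inner automorphisms of T that agrees with conjugation by x. -/
theorem result {Ω : Type*} [Group Ω] {S : Subgroup Ω} [Finite S] (p : ℕ) [Fact p.Prime] (hS : IsPGroup p S) (F : Cfsg.FusionSystem S) (hF : F.IsSaturated p) (T : Subgroup Ω) (hT : F.StronglyClosed T) : ∀ x ∈ F.hyperfocalSubgroup p, ∃ α ∈ ((Cfsg.pResidual p ↥(F.autGroup T)).map (F.autGroup T).subtype ⊔ Cfsg.Inn ↥T : Subgroup (MulAut ↥T)), ∀ t : ↥T, ((α t : ↥T) : Ω) = x * (t : Ω) * x⁻¹ := by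
  exact aux p hS F hF T hT

end Cfsg.Agent.S5198
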