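import Cfsg.Statements.S5199
import Cfsg.Agent.Lib.Helper8.Restr
import Cfsg.Agent.Lib.Helper8.Hyp
import Cfsg.Agent.Lib.Helper8.NormSub

set_option autoImplicit false
open Cfsg

namespace Cfsg.Agent.S5199

open Cfsg.Agent.Lib.Helper8 in
theorem aux {Ω : Type*} [Group Ω] {S : Subgroup Ω} [Finite S] (p : ℕ) [Fact p.Prime]
    (hS : IsPGroup p S) (F : Cfsg.FusionSystem S) {T U : Subgroup Ω}
    (E : Cfsg.FusionSystem T) (hE : E.IsNormalIn F p) (F₀ : Cfsg.FusionSystem U)
    (hU : T ⊔ F.hyperfocalSubgroup p ≤ U) (hidx : F₀.HasPPowerIndexIn F p) :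
    E.IsSubsystemOf F₀ := by
  have hEsat : E.IsSaturated p := hE.1.1
  have hEF : E.IsSubsystemOf F := hE.1.2.2.1
  have hTU : T ≤ U := le_sup_left.trans hU
  have hTS : T ≤ S := hE.1.2.2.2.1.1
  haveI : Finite T := finite_of_le hTS
  have hT : IsPGroup p T := hS.to_le hTS
  have key : E ≤ restrSys F₀ T hTU := by
    apply alperin_ind hT E hEsat
    intro R hfa hrec _ α hα
    have hRT := hfa.1
    haveI : Finite R := finite_of_le hRT
    haveI : Finite (MulAut R) := finite_mulAut R
    have hαE : α ∈ E.autGroup R := (mem_autGroup_iff E hRT α).mpr hα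
    obtain ⟨-, T₀, hT₀⟩ := hfa
    obtain ⟨t, ht, n, hn, hαtn⟩ := sylow_mul_pResidual T₀ (⟨α, hαE⟩ : E.autGroup R)
    have ht' : (t : MulAut R) ∈ Cfsg.autInducedBy T R := by
      have h1 : t ∈ (Cfsg.autInducedBy T R).subgroupOf (E.autGroup R) := hT₀ ▸ ht
      exact h1
    have hn' : (n : MulAut R) ∈ F₀.autGroup R := by
      have hle : E.autGroup R ≤ F.autGroup R := by
        intro β hβ
        rw [mem_autGroup_iff F (hRT.trans hTS)]
        exact hEF R ((mem_autGroup_iff E hRT β).mp hβ)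
      have h1 := pResidual_map_mem p (Subgroup.inclusion hle) hn
      exact hidx.2.2 R (hRT.trans hTU) ⟨_, h1, rfl⟩
    have e : α = (t : MulAut R) * (n : MulAut R) := congrArg Subtype.val hαtn
    refine ⟨?_, hRT, fun x => hRT (α x).2⟩
    rw [← mem_autGroup_iff F₀ (hRT.trans hTU), e]
    exact Subgroup.mul_mem _ (autInducedBy_le_autGroup F₀ (hRT.trans hTU)
      (autInducedBy_mono hTU R ht')) hn'
  intro P φ hφ
  exact (key P hφ).1

/-- Let F be a saturated fusion system over a finite p-group S, E a normal subsystem of F over T, and F₀ a normal subsystem of F over a subgroup U containing both T and the hyperfocal subgroup of F, such that F₀ has p-power index in F. Then E is a subsystem of F₀. -/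
theorem result {Ω : Type*} [Group Ω] {S : Subgroup Ω} [Finite S] (p : ℕ) [Fact p.Prime] (hS : IsPGroup p S) (F : Cfsg.FusionSystem S) (hF : F.IsSaturated p) {T U : Subgroup Ω} (E : Cfsg.FusionSystem T) (hE : E.IsNormalIn F p) (F₀ : Cfsg.FusionSystem U) (hF₀ : F₀.IsNormalIn F p) (hU : T ⊔ F.hyperfocalSubgroup p ≤ U) (hidx : F₀.HasPPowerIndexIn F p) : E.IsSubsystemOf F₀ := by
  exact aux p hS F E hE F₀ hU hidx

end Cfsg.Agent.S5199
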