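import Cfsg.Statements.S5223
import Cfsg.Agent.Lib.Helper8.Alp

set_option autoImplicit false
open Cfsg

namespace Cfsg.Agent.S5223

open Cfsg.Agent.Lib.Helper8 in
theorem aux {Ω : Type*} [Group Ω] {S : Subgroup Ω} [Finite S] (p : ℕ) [Fact p.Prime] (hS : IsPGroup p S) (F : Cfsg.FusionSystem S) (n : ℕ) (Q : Fin (n + 1) → Subgroup Ω) (hQn : Q (Fin.last n) = ⊥) (hstep : ∀ i : Fin n, Subgroup.closure {y : Ω | ∃ x ∈ Q i.castSucc, ∃ φ ∈ F.Hom (Subgroup.zpowers x), y = x⁻¹ * φ ⟨x, Subgroup.mem_zpowers x⟩} ≤ Q i.succ) (P : Subgroup Ω) (hP : P ≤ S) (α : MulAut P) (hα : P.subtype.comp α.toMonoidHom ∈ F.Hom P) (m : ℕ) (hm : m.Coprime p) (hαm : α ^ m = 1) :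
    ∀ k : ℕ, ∀ (hk : k ≤ n), ∀ x : P, (x : Ω) ∈ Q ⟨n - k, by omega⟩ → α x = x := by
  intro k
  induction k with
  | zero =>
    intro hk x hx
    have h0 : (⟨n - 0, by omega⟩ : Fin (n+1)) = Fin.last n := by ext; simp
    rw [h0, hQn] at hx
    have hx1 : x = 1 := by
      ext
      simpa using hx
    rw [hx1, map_one]
  | succ k ih =>
    intro hk x hx
    have hs : (⟨n - (k+1), by omega⟩ : Fin n).succ = ⟨n - k, by omega⟩ := by
      ext
      simp
      omega
    have hy : ((x⁻¹ * α x : P) : Ω) ∈ Q ⟨n - k, by omega⟩ := by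
      rw [← hs]
      apply hstep ⟨n - (k+1), by omega⟩
      apply Subgroup.subset_closure
      refine ⟨(x : Ω), hx, (P.subtype.comp α.toMonoidHom).comp (Subgroup.inclusion ((Subgroup.zpowers_le).mpr x.2)), fs_restrict F _ hα, ?_⟩
      rfl
    have hfix := ih (by omega) (x⁻¹ * α x) hy
    have hpow : ∀ j : ℕ, (α ^ j) x = x * (x⁻¹ * α x) ^ j := by
      intro j
      induction j with
      | zero => simp
      | succ j ihj =>
        rw [pow_succ', MulAut.mul_apply, ihj, map_mul, map_pow, hfix, pow_succ']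
        have e : α x = x * (x⁻¹ * α x) := by group
        rw [← mul_assoc x, ← e]
    have h1 := hpow m
    rw [hαm] at h1
    have hym : (x⁻¹ * α x) ^ m = 1 := by
      have h2 : x * 1 = x * (x⁻¹ * α x) ^ m := by simpa using h1
      exact (mul_left_cancel h2).symm
    obtain ⟨a, ha⟩ := (hS.to_le hP) (x⁻¹ * α x)
    have hy1 : x⁻¹ * α x = 1 := by
      have hcop : Nat.Coprime m (p ^ a) := Nat.Coprime.pow_right a hm
      have d1 := orderOf_dvd_of_pow_eq_one hym
      have d2 := orderOf_dvd_of_pow_eq_one ha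
      have d3 := Nat.dvd_gcd d1 d2
      rw [hcop] at d3
      exact orderOf_eq_one_iff.mp (Nat.dvd_one.mp d3)
    calc α x = x * (x⁻¹ * α x) := by group
      _ = x := by rw [hy1, mul_one]

/-- Let F be a saturated fusion system over a finite p-group S. Suppose there are subgroups Q₀ = S, Q₁, …, Qₙ = 1 (not required to be nested) such that for each i < n the focal subgroup of Qᵢ (generated by the elements x⁻¹φ(x), x ∈ Qᵢ, φ a map of F defined on the cyclic group generated by x) lies in Qᵢ₊₁. Then F is the inner fusion system of S. -/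
theorem result {Ω : Type*} [Group Ω] {S : Subgroup Ω} [Finite S] (p : ℕ) [Fact p.Prime] (hS : IsPGroup p S) (F : Cfsg.FusionSystem S) (hF : F.IsSaturated p) (n : ℕ) (Q : Fin (n + 1) → Subgroup Ω) (hQ0 : Q 0 = S) (hQn : Q (Fin.last n) = ⊥) (hstep : ∀ i : Fin n, Subgroup.closure {y : Ω | ∃ x ∈ Q i.castSucc, ∃ φ ∈ F.Hom (Subgroup.zpowers x), y = x⁻¹ * φ ⟨x, Subgroup.mem_zpowers x⟩} ≤ Q i.succ) : ∀ P : Subgroup Ω, F.Hom P = (Cfsg.innerFusionSystem S).Hom P := by
  open Cfsg.Agent.Lib.Helper8 in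
  apply eq_inner_of_pgroups hS F hF
  intro P hP g
  haveI : Finite P := finite_of_le hP
  haveI : Finite (MulAut P) := finite_mulAut P
  obtain ⟨k, m, hm, hkm⟩ := Nat.exists_eq_pow_mul_and_not_dvd (orderOf_pos g).ne' p (Nat.Prime.ne_one Fact.out)
  refine ⟨k, ?_⟩
  have hmem : ((g ^ (p^k) : F.autGroup P) : MulAut P) ∈ F.autGroup P := (g ^ (p^k)).2
  have hh := (mem_autGroup_iff F hP _).mp hmem
  have hcop : m.Coprime p := by
    rw [Nat.coprime_comm]
    exact (Nat.Prime.coprime_iff_not_dvd Fact.out).mpr hm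
  have hpm : ((g ^ (p^k) : F.autGroup P) : MulAut P) ^ m = 1 := by
    rw [← Subgroup.coe_pow, ← pow_mul, ← hkm, pow_orderOf_eq_one]
    rfl
  have key := aux p hS F n Q hQn hstep P hP _ hh m hcop hpm n le_rfl
  apply Subtype.ext
  apply MulEquiv.ext
  intro x
  apply key x
  have h0 : (⟨n - n, by omega⟩ : Fin (n+1)) = 0 := by ext; simp
  rw [h0, hQ0]
  exact hP x.2

end Cfsg.Agent.S5223
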