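import Cfsg.Statements.S5226
import Cfsg.Agent.Lib.Helper8.Series

set_option autoImplicit false
open Cfsg

namespace Cfsg.Agent.S5226

/-- Let F be a saturated fusion system over a finite p-group S and Q a subgroup of S. Then Q is normal in F (F equals the normalizer system of Q) if and only if Q is strongly closed in F and admits a central series 1 = Q₀ ≤ Q₁ ≤ ⋯ ≤ Qₙ = Q ([Qᵢ₊₁, Q] ≤ Qᵢ) all of whose proper terms are weakly closed in F. -/
theorem result {Ω : Type*} [Group Ω] {S : Subgroup Ω} [Finite S] (p : ℕ) [Fact p.Prime] (hS : IsPGroup p S) (F : Cfsg.FusionSystem S) (hF : F.IsSaturated p) (Q : Subgroup Ω) : F.IsNormal Q ↔ F.StronglyClosed Q ∧ ∃ (n : ℕ) (C : Fin (n + 1) → Subgroup Ω), C 0 = ⊥ ∧ C (Fin.last n) = Q ∧ Monotone C ∧ (∀ i : Fin n, ⁅C i.succ, Q⁆ ≤ C i.castSucc) ∧ ∀ i : Fin n, F.WeaklyClosed (C i.castSucc) := by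
  open Cfsg.Agent.Lib.Helper8 in
  constructor
  · intro hQ
    obtain ⟨n, C, h0, hl, hmono, hcomm, hnorm⟩ := ucs_data hS F hQ
    exact ⟨sc_of_normal F hQ, n, C, h0, hl, hmono, hcomm,
      fun i => wc_of_sc F (sc_of_normal F (hnorm _))⟩
  · rintro ⟨hsc, n, C, h0, hl, hmono, hcomm, hwc⟩
    apply normal_of_series hS F hF hsc n (fun i => if h : i ≤ n then C ⟨i, by omega⟩ else ⊥)
    · show (if h : 0 ≤ n then C ⟨0, by omega⟩ else ⊥) = ⊥
      rw [dif_pos (Nat.zero_le n)]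
      exact h0
    · show (if h : n ≤ n then C ⟨n, by omega⟩ else ⊥) = Q
      rw [dif_pos le_rfl]
      exact hl
    · intro i hi
      show (if h : i ≤ n then C ⟨i, by omega⟩ else ⊥) ≤ (if h : i + 1 ≤ n then C ⟨i + 1, by omega⟩ else ⊥)
      rw [dif_pos hi.le, dif_pos (Nat.succ_le_of_lt hi)]
      exact hmono (Fin.mk_le_mk.mpr (Nat.le_succ i))
    · intro i hi
      show ⁅(if h : i + 1 ≤ n then C ⟨i + 1, by omega⟩ else ⊥), Q⁆ ≤ (if h : i ≤ n then C ⟨i, by omega⟩ else ⊥)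
      rw [dif_pos hi.le, dif_pos (Nat.succ_le_of_lt hi)]
      exact hcomm ⟨i, hi⟩
    · intro i hi
      show F.WeaklyClosed (if h : i ≤ n then C ⟨i, by omega⟩ else ⊥)
      rw [dif_pos hi.le]
      exact hwc ⟨i, hi⟩

end Cfsg.Agent.S5226
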