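import Cfsg.Statements.S5255
import Cfsg.Agent.Lib.Helper8.Lift

set_option autoImplicit false
open Cfsg

namespace Cfsg.Agent.S5255

open Cfsg.Agent.Lib.Helper8 in
theorem aux {Ω : Type*} [Group Ω] {S : Subgroup Ω} [Finite S] (p : ℕ) [Fact p.Prime]
    (hS : IsPGroup p S) (F : Cfsg.FusionSystem S) (hF : F.IsSaturated p) (T : Subgroup Ω)
    (hT : F.StronglyClosed T) : F.StronglyClosed (T ⊔ Cfsg.FusionSystem.centralizerIn S T) := by
  have hCS : Cfsg.FusionSystem.centralizerIn S T ≤ S := fun x hx => hx.1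
  haveI : Finite T := finite_of_le hT.1
  refine ⟨sup_le hT.1 hCS, fun R hR φ hφ x => ?_⟩
  obtain ⟨ψ, hψ, hψx⟩ := exists_lift_mod hS F hF hT hφ
  obtain ⟨t₁, ht₁, t₂, ht₂, hx⟩ := mem_sup_of_normalizes (N := T)
    (H := Cfsg.FusionSystem.centralizerIn S T)
    (fun h hh n hn => sc_conj_mem F hT h (hCS hh) n hn) (hR x.2)
  have hm1 : t₁ ∈ R ⊔ T := Subgroup.mem_sup_right ht₁
  have hm2 : t₂ ∈ R ⊔ T := by
    have e : t₂ = t₁⁻¹ * (x : Ω) := by rw [hx]; group
    rw [e]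
    exact Subgroup.mul_mem _ (Subgroup.inv_mem _ hm1) (Subgroup.mem_sup_left x.2)
  have e1 : Subgroup.inclusion (le_sup_left : R ≤ R ⊔ T) x =
      (⟨t₁, hm1⟩ : ↥(R ⊔ T)) * ⟨t₂, hm2⟩ := Subtype.ext hx
  have honto := map_subgroupOf_eq_of_mem (le_sup_right : T ≤ R ⊔ T) (F.injective_of_mem hψ)
      (fun x hx => sc_map_mem F hT hψ x hx)
  have hc : ψ ⟨t₂, hm2⟩ ∈ Cfsg.FusionSystem.centralizerIn S T := by
    refine ⟨(F.le_of_mem hψ).2 ⟨t₂, hm2⟩, ?_⟩
    show _ ∈ Subgroup.centralizer (T : Set Ω)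
    rw [Subgroup.mem_centralizer_iff]
    intro h hh
    have hh' : h ∈ (T.subgroupOf (R ⊔ T)).map ψ := by rw [honto]; exact hh
    obtain ⟨z, hz, rfl⟩ := hh'
    rw [← map_mul, ← map_mul]
    congr 1
    apply Subtype.ext
    have h5 := (Subgroup.mem_centralizer_iff.mp ht₂.2) (z : Ω) hz
    exact h5
  have h3 : ψ (Subgroup.inclusion le_sup_left x) ∈ T ⊔ Cfsg.FusionSystem.centralizerIn S T := by
    rw [e1, map_mul]
    exact Subgroup.mul_mem _ (Subgroup.mem_sup_left (sc_map_mem F hT hψ _ ht₁))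
      (Subgroup.mem_sup_right hc)
  have e2 : φ x = ψ (Subgroup.inclusion le_sup_left x) *
      ((φ x)⁻¹ * ψ (Subgroup.inclusion le_sup_left x))⁻¹ := by group
  rw [e2]
  exact Subgroup.mul_mem _ h3 (Subgroup.inv_mem _ (Subgroup.mem_sup_left (hψx x)))

/-- Let F be a saturated fusion system over a finite p-group S and T a subgroup of S strongly closed in F. Then T·C_S(T) is strongly closed in F. -/
theorem result {Ω : Type*} [Group Ω] {S : Subgroup Ω} [Finite S] (p : ℕ) [Fact p.Prime] (hS : IsPGroup p S) (F : Cfsg.FusionSystem S) (hF : F.IsSaturated p) (T : Subgroup Ω) (hT : F.StronglyClosed T) : F.StronglyClosed (T ⊔ Cfsg.FusionSystem.centralizerIn S T) := by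
  exact aux p hS F hF T hT

end Cfsg.Agent.S5255
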