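import Cfsg.Statements.S5256
import Cfsg.Agent.Lib.Helper8.HypGen
import Cfsg.Agent.Lib.Helper8.FactorMor

set_option autoImplicit false
open Cfsg

namespace Cfsg.Agent.S5256

open Cfsg.Agent.Lib.Helper8 in
theorem induced_pow {Ω : Type*} [Group Ω] {S : Subgroup Ω} {Ω' : Type*} [Group Ω']
    {θ : S →* Ω'} {K : Subgroup Ω} (hK : K ≤ S) {P' : Subgroup Ω'} (α : MulAut K)
    (β : MulAut P') (hKP : ∀ x : K, θ ⟨x, hK x.2⟩ ∈ P')
    (h : ∀ x : K, ((β ⟨θ ⟨x, hK x.2⟩, hKP x⟩ : P') : Ω') = θ ⟨((α x : K) : Ω), hK (α x).2⟩)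
    (n : ℕ) : ∀ x : K, (((β ^ n) ⟨θ ⟨x, hK x.2⟩, hKP x⟩ : P') : Ω') =
      θ ⟨(((α ^ n) x : K) : Ω), hK ((α ^ n) x).2⟩ := by
  induction n with
  | zero => intro x; rfl
  | succ n ih =>
    intro x
    rw [pow_succ', pow_succ', MulAut.mul_apply, MulAut.mul_apply]
    have e : (β ^ n) ⟨θ ⟨x, hK x.2⟩, hKP x⟩ =
        ⟨θ ⟨(((α ^ n) x : K) : Ω), hK ((α ^ n) x).2⟩, hKP _⟩ := Subtype.ext (ih x)
    rw [e, h]

open Cfsg.Agent.Lib.Helper8 in
theorem aux {Ω : Type*} [Group Ω] {S : Subgroup Ω} [Finite S] (p : ℕ) [Fact p.Prime]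
    (hS : IsPGroup p S) (F : Cfsg.FusionSystem S) (hF : F.IsSaturated p) (T : Subgroup Ω)
    (hT : F.StronglyClosed T) {Ω' : Type*} [Group Ω'] {S' : Subgroup Ω'} (θ : ↥S →* Ω')
    (E : Cfsg.FusionSystem S') (hE : F.IsFactorSystem T θ E) :
    E.hyperfocalSubgroup p = ((F.hyperfocalSubgroup p).subgroupOf S).map θ := by
  have hrange := hE.2.2.1
  haveI : Finite S' := by
    rw [← hrange]
    exact Finite.of_surjective θ.rangeRestrict θ.rangeRestrict_surjective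
  apply le_antisymm
  · -- hyp(E) ≤ θ(hyp F)
    apply hyp_le_of
    intro P' hP' β hβ hβp y
    have hβ' := (mem_autGroup_iff E hP' β).mp hβ
    obtain ⟨-, φ, hφ, hK, hφS, hKP, hind⟩ := (hE.2.2.2 P' _).mp hβ'
    have hφK : ∀ x : ↥(Cfsg.FusionSystem.preimageAlong θ P'),
        φ x ∈ Cfsg.FusionSystem.preimageAlong θ P' := by
      intro x
      rw [mem_preimageAlong θ P' ⟨φ x, hφS x⟩, ← hind x]
      exact (β _).2
    obtain ⟨α, hα, hαφ⟩ := exists_aut_of_hom F hφ hφK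
    haveI : Finite ↥(Cfsg.FusionSystem.preimageAlong θ P') := finite_of_le hK
    haveI : Finite (MulAut ↥(Cfsg.FusionSystem.preimageAlong θ P')) := finite_mulAut _
    obtain ⟨e, he, he1⟩ := exists_pprime_pow (p := p) α (orderOf β) hβp
    have hβe : β ^ e = β := pow_eq_self_of_modEq (pow_orderOf_eq_one β) he1
    have hcompat : ∀ x : ↥(Cfsg.FusionSystem.preimageAlong θ P'),
        ((β ⟨θ ⟨x, hK x.2⟩, hKP x⟩ : P') : Ω') = θ ⟨((α x : _) : Ω), hK (α x).2⟩ := by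
      intro x
      have h1 := hind x
      have h2 : (⟨((α x : _) : Ω), hK (α x).2⟩ : S) = ⟨φ x, hφS x⟩ := Subtype.ext (hαφ x)
      rw [h2]
      exact h1
    have hpow := induced_pow hK α β hKP hcompat e
    rw [hβe] at hpow
    -- pick a preimage of y
    have hyS : (y : Ω') ∈ θ.range := by
      rw [hrange]
      exact hP' y.2
    obtain ⟨s, hs⟩ := hyS
    have hsK : (s : Ω) ∈ Cfsg.FusionSystem.preimageAlong θ P' := by
      rw [mem_preimageAlong, hs]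
      exact y.2
    have h3 := hpow ⟨s, hsK⟩
    have hy : (⟨θ ⟨((⟨s, hsK⟩ : ↥(Cfsg.FusionSystem.preimageAlong θ P')) : Ω), hK hsK⟩,
        hKP ⟨s, hsK⟩⟩ : P') = y := Subtype.ext hs
    rw [hy] at h3
    have hgen : ((⟨s, hsK⟩ : ↥(Cfsg.FusionSystem.preimageAlong θ P')) : Ω)⁻¹ *
        (((α ^ e) ⟨s, hsK⟩ : ↥(Cfsg.FusionSystem.preimageAlong θ P')) : Ω) ∈
        F.hyperfocalSubgroup p := by
      apply Subgroup.subset_closure
      refine ⟨_, ⟨α ^ e, Subgroup.pow_mem _ hα e⟩, ⟨s, hsK⟩, hK, ?_, rfl⟩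
      apply Subgroup.subset_closure
      show Nat.Coprime (orderOf (⟨α ^ e, Subgroup.pow_mem _ hα e⟩ : F.autGroup _)) p
      rw [Subgroup.orderOf_mk]
      exact he
    refine ⟨s⁻¹ * ⟨(((α ^ e) ⟨s, hsK⟩ : ↥(Cfsg.FusionSystem.preimageAlong θ P')) : Ω),
      hK ((α ^ e) ⟨s, hsK⟩).2⟩, hgen, ?_⟩
    rw [map_mul, map_inv, ← h3, hs]
  · -- θ(hyp F) ≤ hyp(E)
    have key : F.hyperfocalSubgroup p ≤ Cfsg.FusionSystem.preimageAlong θ (E.hyperfocalSubgroup p) := by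
      apply hyp_le_of
      intro P hP α hα hαp x
      have hα' := (mem_autGroup_iff F hP α).mp hα
      obtain ⟨φ', hφ', hP₁, hφS, hPP', hind⟩ := factor_induced hS F hF hT θ E hE hα'
      have hP'S : Cfsg.FusionSystem.imageAlong θ P ≤ S' := (E.le_of_mem hφ').1
      have hφ'K : ∀ z : ↥(Cfsg.FusionSystem.imageAlong θ P),
          φ' z ∈ Cfsg.FusionSystem.imageAlong θ P := by
        rintro ⟨_, s, hs, rfl⟩
        have h1 := hind ⟨s, hs⟩
        have h2 : (⟨θ ⟨((⟨s, hs⟩ : P) : Ω), hP₁ hs⟩, hPP' ⟨s, hs⟩⟩ :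
            ↥(Cfsg.FusionSystem.imageAlong θ P)) = ⟨θ s, ⟨s, hs, rfl⟩⟩ := Subtype.ext rfl
        rw [h2] at h1
        rw [h1]
        exact ⟨⟨_, hφS ⟨s, hs⟩⟩, (α ⟨s, hs⟩).2, rfl⟩
      obtain ⟨β, hβ, hβφ⟩ := exists_aut_of_hom E hφ' hφ'K
      have hcompat : ∀ x : P, ((β ⟨θ ⟨x, hP₁ x.2⟩, hPP' x⟩ : _) : Ω') =
          θ ⟨((α x : P) : Ω), hP₁ (α x).2⟩ := by
        intro x
        rw [hβφ]
        exact hind x
      have hpow := induced_pow hP₁ α β hPP' hcompat (orderOf α)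
      have hβo : β ^ orderOf α = 1 := by
        ext z
        obtain ⟨_, s, hs, rfl⟩ := z
        have h1 := hpow ⟨s, hs⟩
        rw [pow_orderOf_eq_one] at h1
        exact h1
      have hβp : (orderOf β).Coprime p :=
        Nat.Coprime.coprime_dvd_left (orderOf_dvd_of_pow_eq_one hβo) hαp
      have hmem : (⟨(x : Ω)⁻¹ * ((α x : P) : Ω), S.mul_mem (S.inv_mem (hP x.2)) (hP (α x).2)⟩ : S) =
          (⟨x, hP x.2⟩ : S)⁻¹ * ⟨((α x : P) : Ω), hP (α x).2⟩ := rfl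
      rw [mem_preimageAlong θ _ ⟨(x : Ω)⁻¹ * ((α x : P) : Ω),
        S.mul_mem (S.inv_mem (hP x.2)) (hP (α x).2)⟩, hmem, map_mul, map_inv, ← hcompat x]
      apply Subgroup.subset_closure
      refine ⟨_, ⟨β, hβ⟩, ⟨θ ⟨x, hP₁ x.2⟩, hPP' x⟩, hP'S, ?_, rfl⟩
      apply Subgroup.subset_closure
      show Nat.Coprime (orderOf (⟨β, hβ⟩ : E.autGroup _)) p
      rw [Subgroup.orderOf_mk]
      exact hβp
    rintro _ ⟨s, hs, rfl⟩
    exact (mem_preimageAlong θ _ s).mp (key hs)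

/-- Let F be a saturated fusion system over a finite p-group S, T a subgroup of S strongly closed in F, and E a factor system F/T realised along a homomorphism θ of S with kernel T. Then the hyperfocal subgroup of E is the image under θ of the hyperfocal subgroup of F (hyp(F/T) = T·hyp(F)/T). -/
theorem result {Ω : Type*} [Group Ω] {S : Subgroup Ω} [Finite S] (p : ℕ) [Fact p.Prime] (hS : IsPGroup p S) (F : Cfsg.FusionSystem S) (hF : F.IsSaturated p) (T : Subgroup Ω) (hT : F.StronglyClosed T) {Ω' : Type*} [Group Ω'] {S' : Subgroup Ω'} (θ : ↥S →* Ω') (E : Cfsg.FusionSystem S') (hE : F.IsFactorSystem T θ E) : E.hyperfocalSubgroup p = ((F.hyperfocalSubgroup p).subgroupOf S).map θ := by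
  exact aux p hS F hF T hT θ E hE

end Cfsg.Agent.S5256
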