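import Cfsg.Statements.S5294
import Cfsg.Agent.Lib.Helper8.EssRad
import Cfsg.Agent.Lib.Helper8.HypGen
import Cfsg.Agent.Lib.Helper8.Central
import Cfsg.Agent.Lib.Helper3.RelTrace

set_option autoImplicit false
universe u
open Cfsg

namespace Cfsg.Agent.S5294

open Cfsg.Agent.Lib.Helper8 in
open scoped IsMulCommutative in
theorem aux {Ω : Type*} [Group Ω] {S : Subgroup Ω} [Finite S] (p : ℕ) [Fact p.Prime] (hS : IsPGroup p S)
    (F : Cfsg.FusionSystem S) (hF : F.IsSaturated p) (hZ : (S ⊓ Subgroup.centralizer (S : Set Ω)) ≤ F.core) :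
    ∃ K : Subgroup Ω, K ≤ (S ⊓ Subgroup.centralizer (S : Set Ω)) ∧ F.center ⊓ K = ⊥ ∧ F.center ⊔ K = (S ⊓ Subgroup.centralizer (S : Set Ω)) := by
  have hQn : F.IsNormal F.core := core_isNormal F
  obtain ⟨Q, hQdef⟩ : ∃ Q : Subgroup Ω, Q = F.core := ⟨_, rfl⟩
  rw [← hQdef] at hZ hQn
  have hQS : Q ≤ S := hQn.1
  have hsc := sc_of_normal F hQn
  have hQconj := sc_conj_mem F hsc
  haveI : Finite Q := finite_of_le hQS
  haveI : Finite (MulAut Q) := finite_mulAut Q
  -- Q is fully normalized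
  have hfn : F.IsFullyNormalized Q := by
    refine ⟨hQS, fun R hR => ?_⟩
    have hcard := fs_isConj_card F hR
    obtain ⟨φ, hφ, rfl⟩ := hR
    have hle : φ.range ≤ Q := by
      rintro _ ⟨x, rfl⟩
      exact hsc.2 Q le_rfl φ hφ x
    have heq : φ.range = Q := Subgroup.eq_of_le_of_card_ge hle hcard.ge
    rw [heq]
  obtain ⟨-, T, hT⟩ := (sat_fn hS F hF hfn).2
  -- the action on Z(Q)
  have hcen : ∀ (a : MulAut Q) (v : Q), v ∈ Subgroup.center Q → a v ∈ Subgroup.center Q := by
    intro a v hv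
    rw [Subgroup.mem_center_iff] at hv ⊢
    intro y
    have h1 := hv (a.symm y)
    have h2 := congrArg a h1
    rw [map_mul, map_mul, MulEquiv.apply_symm_apply] at h2
    exact h2
  obtain ⟨act, hact⟩ : ∃ act : ↥(F.autGroup Q) → ↥(Subgroup.center Q) → ↥(Subgroup.center Q),
      ∀ a v, ((act a v : ↥(Subgroup.center Q)) : Q) = (a : MulAut Q) v :=
    ⟨fun a v => ⟨(a : MulAut Q) v, hcen _ _ v.2⟩, fun _ _ => rfl⟩
  have hact_mul : ∀ a b v, act (a * b) v = act a (act b v) := by
    intro a b v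
    apply Subtype.ext
    rw [hact, hact, hact]
    rfl
  have hact_vmul : ∀ a v w, act a (v * w) = act a v * act a w := by
    intro a v w
    apply Subtype.ext
    rw [hact]
    show (a : MulAut Q) ((v : Q) * (w : Q)) = ((act a v : ↥(Subgroup.center Q)) : Q) * ((act a w : ↥(Subgroup.center Q)) : Q)
    rw [hact, hact, map_mul]
  have hVp : IsPGroup p ↥(Subgroup.center Q) :=
    hS.of_injective ((Subgroup.inclusion hQS).comp (Subgroup.center Q).subtype)
      (fun a b hab => Subtype.ext (Subgroup.inclusion_injective hQS hab))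
  have hcop : ∀ v : ↥(Subgroup.center Q), (orderOf v).Coprime (T : Subgroup ↥(F.autGroup Q)).index := by
    intro v
    obtain ⟨k, hk⟩ := hVp v
    have h1 : orderOf v ∣ p ^ k := orderOf_dvd_of_pow_eq_one hk
    have h2 : (p ^ k).Coprime (T : Subgroup ↥(F.autGroup Q)).index :=
      Nat.Coprime.pow_left k ((Nat.Prime.coprime_iff_not_dvd Fact.out).mpr T.not_dvd_index)
    exact Nat.Coprime.coprime_dvd_left h1 h2
  obtain ⟨W, K, Z, hW, hZ', hKZ, hWK, hWKZ⟩ :=
    Cfsg.Agent.Lib.Helper3.exists_fixed_complement act hact_mul hact_vmul (T : Subgroup ↥(F.autGroup Q)) hcop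
  obtain ⟨ι, hι⟩ : ∃ ι : ↥(Subgroup.center Q) →* Ω, ∀ v, ι v = ((v : Q) : Ω) :=
    ⟨Q.subtype.comp (Subgroup.center Q).subtype, fun _ => rfl⟩
  have hιinj : Function.Injective ι := by
    intro a b hab
    rw [hι, hι] at hab
    exact Subtype.ext (Subtype.ext hab)
  have hc := center_isCentral F
  -- elements of Z(S) as elements of Z(Q)
  have hZSQ : ∀ z : Ω, z ∈ S ⊓ Subgroup.centralizer (S : Set Ω) →
      ∃ v : ↥(Subgroup.center Q), ι v = z := by
    intro z hz
    have hzQ : z ∈ Q := hZ hz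
    have hzc : (⟨z, hzQ⟩ : Q) ∈ Subgroup.center Q := by
      rw [Subgroup.mem_center_iff]
      intro y
      apply Subtype.ext
      have h1 := (Subgroup.mem_centralizer_iff.mp hz.2) (y : Ω) (hQS y.2)
      exact h1
    exact ⟨⟨⟨z, hzQ⟩, hzc⟩, hι _⟩
  have hcenZS : F.center ≤ S ⊓ Subgroup.centralizer (S : Set Ω) := by
    intro z hz
    refine ⟨hc.1 hz, ?_⟩
    show z ∈ Subgroup.centralizer (S : Set Ω)
    rw [Subgroup.mem_centralizer_iff]
    intro s hs
    have h1 := central_map_eq F hc (F.conj_mem hc.1 hs) ⟨z, hz⟩ hz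
    have h2 : s * z * s⁻¹ = z := h1
    calc s * z = s * z * s⁻¹ * s := by group
      _ = z * s := by rw [h2]
  -- Claim 1
  have hclaim1 : Z.map ι = S ⊓ Subgroup.centralizer (S : Set Ω) := by
    apply le_antisymm
    · rintro _ ⟨v, hv, rfl⟩
      have hvZ := (hZ' v).mp hv
      rw [hι]
      refine ⟨hQS (v : Q).2, ?_⟩
      show _ ∈ Subgroup.centralizer (S : Set Ω)
      rw [Subgroup.mem_centralizer_iff]
      intro s hs
      have hsN : s ∈ Subgroup.normalizer (Q : Set Ω) := by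
        rw [Subgroup.mem_normalizer_iff]
        intro x
        constructor
        · intro hx
          exact hQconj s hs x hx
        · intro hx
          have := hQconj s⁻¹ (S.inv_mem hs) _ hx
          have e : s⁻¹ * (s * x * s⁻¹) * s⁻¹⁻¹ = x := by group
          rwa [e] at this
      have hmem : normAut F hQS ⟨s, hs, hsN⟩ ∈ (T : Subgroup ↥(F.autGroup Q)) := by
        rw [hT]
        exact (mem_autInducedBy_iff S Q _).mpr ⟨s, hs, fun _ => rfl⟩
      have h1 := hvZ _ hmem
      have h2 := congrArg (fun w : ↥(Subgroup.center Q) => ((w : Q) : Ω)) h1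
      have h3 : (((act (normAut F hQS ⟨s, hs, hsN⟩) v : ↥(Subgroup.center Q)) : Q) : Ω) = ((v : Q) : Ω) := h2
      rw [hact] at h3
      have h4 : s * ((v : Q) : Ω) * s⁻¹ = ((v : Q) : Ω) := h3
      calc s * ((v : Q) : Ω) = s * ((v : Q) : Ω) * s⁻¹ * s := by group
        _ = ((v : Q) : Ω) * s := by rw [h4]
    · intro z hz
      obtain ⟨v, rfl⟩ := hZSQ z hz
      refine ⟨v, (hZ' v).mpr ?_, rfl⟩
      intro s hs
      have hs' : (s : MulAut Q) ∈ autInducedBy S Q := by
        rw [hT] at hs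
        exact hs
      obtain ⟨g, hg, hge⟩ := (mem_autInducedBy_iff S Q _).mp hs'
      apply Subtype.ext
      apply Subtype.ext
      rw [hact, hge]
      rw [hι] at hz
      have h1 := (Subgroup.mem_centralizer_iff.mp hz.2) g hg
      calc g * ((v : Q) : Ω) * g⁻¹ = ((v : Q) : Ω) * g * g⁻¹ := by rw [h1]
        _ = ((v : Q) : Ω) := by group
  -- Claim 2
  have hclaim2 : W.map ι = F.center := by
    apply le_antisymm
    · apply le_sSup
      have hWS : W.map ι ≤ S := by
        rintro _ ⟨v, -, rfl⟩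
        rw [hι]
        exact hQS (v : Q).2
      have hWQ : W.map ι ≤ Q := by
        rintro _ ⟨v, -, rfl⟩
        rw [hι]
        exact (v : Q).2
      refine ⟨hWS, fun P φ hφ => ?_⟩
      obtain ⟨ψ₀, hψ₀, he, hm⟩ := hQn.2 P φ hφ
      have hle : P ⊔ W.map ι ≤ P ⊔ Q := sup_le_sup_left hWQ P
      have hres := fs_restrict F (le_sup_right : Q ≤ P ⊔ Q) hψ₀
      have hresQ : ∀ z : Q, (ψ₀.comp (Subgroup.inclusion (le_sup_right : Q ≤ P ⊔ Q))) z ∈ Q := by
        intro z
        have hmem : ψ₀ (Subgroup.inclusion le_sup_right z) ∈ (Q.subgroupOf (P ⊔ Q)).map ψ₀ :=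
          ⟨_, z.2, rfl⟩
        rw [hm] at hmem
        exact hmem
      obtain ⟨α, hα, hαe⟩ := exists_aut_of_hom F hres hresQ
      refine ⟨ψ₀.comp (Subgroup.inclusion hle), fs_restrict F hle hψ₀, fun x => he x, ?_⟩
      intro x
      obtain ⟨v, hv, hvx⟩ := x.2
      have h1 := (hW v).mp hv ⟨α, hα⟩
      have h2 := congrArg (fun w : ↥(Subgroup.center Q) => ((w : Q) : Ω)) h1
      have h3 : (((act ⟨α, hα⟩ v : ↥(Subgroup.center Q)) : Q) : Ω) = ((v : Q) : Ω) := h2
      rw [hact, hαe] at h3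
      rw [← hι] at h3
      have e : Subgroup.inclusion hle (Subgroup.inclusion le_sup_right x) =
          Subgroup.inclusion (le_sup_right : Q ≤ P ⊔ Q) (v : Q) :=
        Subtype.ext (hvx.symm.trans (hι v))
      show ψ₀ (Subgroup.inclusion hle (Subgroup.inclusion le_sup_right x)) = (x : Ω)
      rw [e, ← hvx]
      exact h3
    · intro z hz
      obtain ⟨v, hv⟩ := hZSQ z (hcenZS hz)
      refine ⟨v, (hW v).mpr ?_, hv⟩
      intro n
      apply Subtype.ext
      apply Subtype.ext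
      rw [hact]
      have h1 := (mem_autGroup_iff F hQS _).mp n.2
      have hvz : ((v : Q) : Ω) ∈ F.center := by
        rw [← hι, hv]
        exact hz
      exact central_map_eq F hc h1 (v : Q) hvz
  refine ⟨K.map ι, ?_, ?_, ?_⟩
  · rw [← hclaim1]
    exact Subgroup.map_mono hKZ
  · rw [← hclaim2, ← Subgroup.map_inf _ _ _ hιinj, hWK, Subgroup.map_bot]
  · rw [← hclaim2, ← Subgroup.map_sup, hWKZ, hclaim1]

/-- Let F be a saturated fusion system over a finite p-group S whose centre Z(S) lies in the largest subgroup O_p(F) normal in F. Then the centre Z(F) of F is a direct factor of Z(S): there is a subgroup K of Z(S) with Z(F) ∩ K = 1 and Z(F)K = Z(S). -/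
theorem result {Ω : Type u} [Group Ω] {S : Subgroup Ω} [Finite S] (p : ℕ) [Fact p.Prime] (hS : IsPGroup p S)
    (F : Cfsg.FusionSystem S) (hF : F.IsSaturated p) (hZ : (S ⊓ Subgroup.centralizer (S : Set Ω)) ≤ F.core) :
    ∃ K : Subgroup Ω, K ≤ (S ⊓ Subgroup.centralizer (S : Set Ω)) ∧ F.center ⊓ K = ⊥ ∧ F.center ⊔ K = (S ⊓ Subgroup.centralizer (S : Set Ω)) := by
  exact aux p hS F hF hZ

end Cfsg.Agent.S5294
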