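import Cfsg.Statements.S5301
import Cfsg.Agent.Lib.Helper8.Series

set_option autoImplicit false
universe u
open Cfsg

namespace Cfsg.Agent.S5301

/-- Let F be a saturated fusion system over a finite p-group S. If for every subgroup P of S that is fully normalized, centric and radical in F the automorphism group that F induces on P has a normal Sylow p-subgroup, then S is normal in F. -/
theorem result {Ω : Type u} [Group Ω] {S : Subgroup Ω} [Finite S] (p : ℕ) [Fact p.Prime] (hS : IsPGroup p S)
    (F : Cfsg.FusionSystem S) (hF : F.IsSaturated p)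
    (hcl : ∀ P : Subgroup Ω, F.IsFullyNormalized P → F.IsCentric P → F.IsRadical p P →
      ∃ R : Sylow p ↥(F.autGroup P), (R : Subgroup ↥(F.autGroup P)).Normal) :
    F.IsNormal S := by
  open Cfsg.Agent.Lib.Helper8 in
  have hsc : F.StronglyClosed S := ⟨le_rfl, fun R _ φ hφ x => (F.le_of_mem hφ).2 x⟩
  apply normal_of_sc_of_le_cr hS F hF hsc
  intro P hfn hc hr
  have hPS := hc.1
  obtain ⟨R, hRn⟩ := hcl P hfn hc hr
  obtain ⟨-, T, hT⟩ := (sat_fn hS F hF hfn).2
  have hTR : (T : Subgroup (F.autGroup P)) = R := by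
    haveI := hRn
    have h1 : IsPGroup p ((R : Subgroup (F.autGroup P)) ⊔ (T : Subgroup (F.autGroup P)) :
        Subgroup (F.autGroup P)) := IsPGroup.to_sup_of_normal_left R.isPGroup' T.isPGroup'
    have h2 := T.is_maximal' h1 le_sup_right
    have h3 := R.is_maximal' h1 le_sup_left
    exact h2.symm.trans h3
  apply le_of_normal_pgroup_aut hS F hc hr le_rfl
    (fun s hs x hx => S.mul_mem (S.mul_mem hs hx) (S.inv_mem hs)) (autInducedBy S P)
  · exact autInducedBy_le_autGroup F hPS
  · intro α hα β hβ
    have h1 : (⟨α, autInducedBy_le_autGroup F hPS hα⟩ : F.autGroup P) ∈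
        (T : Subgroup (F.autGroup P)) := by
      rw [hT]
      exact hα
    rw [hTR] at h1
    have h2 := hRn.conj_mem _ h1 ⟨β, hβ⟩
    rw [← hTR, hT] at h2
    exact h2
  · exact isPGroup_autInducedBy hS P
  · intro t ht α hα
    exact (mem_autInducedBy_iff S P α).mpr ⟨t, ht, hα⟩

end Cfsg.Agent.S5301
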