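import Cfsg.Statements.S5315
import Cfsg.Agent.Lib.Helper8.Central
import Cfsg.Agent.Lib.Helper8.FactorMor
import Cfsg.Agent.Lib.Helper8.HypGen
import Cfsg.Agent.Lib.Helper8.Chain
import Cfsg.Agent.Lib.Helper8.CentralSub

set_option autoImplicit false
open Cfsg

namespace Cfsg.Agent.S5315

open Cfsg.Agent.Lib.Helper8 in
/-- A `p'`-automorphism fixes every element it moves only inside a central subgroup. -/
theorem fix_of_coprime {Ω : Type*} [Group Ω] {S : Subgroup Ω} [Finite S] {p : ℕ} [Fact p.Prime]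
    (hS : IsPGroup p S) (F : Cfsg.FusionSystem S) {Z : Subgroup Ω} (hZ : F.IsCentral Z)
    {P : Subgroup Ω} (hP : P ≤ S) (α : MulAut P) (hα : α ∈ F.autGroup P) (m : ℕ)
    (hm : m.Coprime p) (hαm : α ^ m = 1) (x : P) (hx : ((x⁻¹ * α x : P) : Ω) ∈ Z) : α x = x := by
  have hα' := (mem_autGroup_iff F hP α).mp hα
  have hfix : α (x⁻¹ * α x) = x⁻¹ * α x := Subtype.ext (central_map_eq F hZ hα' _ hx)
  have hpow : ∀ n : ℕ, (α ^ n) x = x * (x⁻¹ * α x) ^ n := by
    intro n
    induction n with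
    | zero => simp
    | succ n ih =>
      rw [pow_succ', MulAut.mul_apply, ih, map_mul, map_pow, hfix, pow_succ', ← mul_assoc,
        mul_inv_cancel_left]
  have h1 := hpow m
  rw [hαm, MulAut.one_apply] at h1
  have h2 : (x⁻¹ * α x) ^ m = 1 := by
    apply mul_left_cancel (a := x)
    rw [mul_one]
    exact h1.symm
  obtain ⟨k, hk⟩ := (hS.to_le hP) (x⁻¹ * α x)
  have h3 : x⁻¹ * α x = 1 := by
    have d1 := orderOf_dvd_of_pow_eq_one h2
    have d2 := orderOf_dvd_of_pow_eq_one hk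
    have hcop : Nat.Coprime m (p ^ k) := Nat.Coprime.pow_right k hm
    have d3 := Nat.dvd_gcd d1 d2
    rw [hcop] at d3
    exact orderOf_eq_one_iff.mp (Nat.dvd_one.mp d3)
  exact (inv_mul_eq_one.mp h3).symm

theorem grp_calc {G : Type*} [Group G] (w z A B X : G) (hA : A = w * z) (hzB : Commute B z)
    (hzw : Commute w z) (E1 : A⁻¹ * (B * A * B⁻¹) = w⁻¹ * (X * w * X⁻¹)) :
    w * (X⁻¹ * B) = (X⁻¹ * B) * w := by
  subst hA
  have h0 : z * B⁻¹ = B⁻¹ * z := (hzB.inv_left).eq.symm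
  have h1 : B * (w * z) * B⁻¹ = (B * w * B⁻¹) * z := by
    calc B * (w * z) * B⁻¹ = B * w * (z * B⁻¹) := by group
      _ = B * w * (B⁻¹ * z) := by rw [h0]
      _ = (B * w * B⁻¹) * z := by group
  have hY : Commute (w⁻¹ * (B * w * B⁻¹)) z :=
    (hzw.inv_left).mul_left ((hzB.mul_left hzw).mul_left hzB.inv_left)
  have h2 : (w * z)⁻¹ * ((B * w * B⁻¹) * z) = w⁻¹ * (B * w * B⁻¹) := by
    calc (w * z)⁻¹ * ((B * w * B⁻¹) * z) = z⁻¹ * ((w⁻¹ * (B * w * B⁻¹)) * z) := by group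
      _ = z⁻¹ * (z * (w⁻¹ * (B * w * B⁻¹))) := by rw [hY.eq]
      _ = w⁻¹ * (B * w * B⁻¹) := by group
  rw [h1, h2] at E1
  have E5 : B * w * B⁻¹ = X * w * X⁻¹ := mul_left_cancel E1
  calc w * (X⁻¹ * B) = X⁻¹ * (X * w * X⁻¹) * B := by group
    _ = X⁻¹ * (B * w * B⁻¹) * B := by rw [E5]
    _ = X⁻¹ * B * w := by group

open Cfsg.Agent.Lib.Helper8 in
theorem aux {Ω : Type*} [Group Ω] {S : Subgroup Ω} [Finite S] (p : ℕ) [Fact p.Prime]
    (hS : IsPGroup p S) (F : Cfsg.FusionSystem S) (hF : F.IsSaturated p)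
    (hperf : F.hyperfocalSubgroup p = S)
    (E : Cfsg.FusionSystem (⊤ : Subgroup (↥S ⧸ (F.center).subgroupOf S)))
    (hE : F.IsFactorSystem F.center (QuotientGroup.mk' ((F.center).subgroupOf S)) E) :
    E.center = ⊥ := by
  have hZc := center_isCentral F
  have hZsc := center_sc F
  have hZS : F.center ≤ S := hZc.1
  have hker := hE.2.1
  have hEc := center_isCentral E
  have hZcent : ∀ z ∈ F.center, ∀ s ∈ S, s * z = z * s := fun z hz s hs =>
    Subgroup.mem_centralizer_iff.mp (F.center_le_centralizer hz) s hs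
  set W := Cfsg.FusionSystem.preimageAlong (QuotientGroup.mk' ((F.center).subgroupOf S))
    E.center with hWdef
  have hWS : W ≤ S := preimageAlong_le _ _
  have hZW : F.center ≤ W := by
    intro z hz
    have h1 : (QuotientGroup.mk' ((F.center).subgroupOf S)) ⟨z, hZS hz⟩ = 1 := (hker _).mpr hz
    exact (mem_preimageAlong _ _ ⟨z, hZS hz⟩).mpr (h1 ▸ Subgroup.one_mem _)
  have hstar : ∀ (P : Subgroup Ω) (φ : P →* Ω), φ ∈ F.Hom P → ∀ x : P, (x : Ω) ∈ W →
      (x : Ω)⁻¹ * φ x ∈ F.center := by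
    intro P φ hφ x hx
    obtain ⟨φ', hφ', hP, hφS, hP', hind⟩ := factor_induced hS F hF hZsc _ E hE hφ
    have hx' : (QuotientGroup.mk' ((F.center).subgroupOf S)) ⟨x, hP x.2⟩ ∈ E.center :=
      (mem_preimageAlong (QuotientGroup.mk' ((F.center).subgroupOf S)) E.center
        ⟨x, hP x.2⟩).mp hx
    have h1 := central_map_eq E hEc hφ' ⟨_, hP' x⟩ hx'
    rw [hind x] at h1
    have h4 : (QuotientGroup.mk' ((F.center).subgroupOf S))
        ((⟨x, hP x.2⟩ : S)⁻¹ * ⟨φ x, hφS x⟩) = 1 := by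
      rw [map_mul, map_inv, h1, inv_mul_cancel]
    exact (hker _).mp h4
  have hWsc : F.StronglyClosed W := by
    refine ⟨hWS, fun R hR φ hφ x => ?_⟩
    have h1 := hstar R φ hφ x (hR x.2)
    have e : φ x = (x : Ω) * ((x : Ω)⁻¹ * φ x) := by group
    rw [e]
    exact W.mul_mem (hR x.2) (hZW h1)
  have hfix : ∀ (P : Subgroup Ω), P ≤ S → ∀ α ∈ F.autGroup P, ∀ m : ℕ, m.Coprime p →
      α ^ m = 1 → ∀ x : P, (x : Ω) ∈ W → α x = x := by
    intro P hP α hα m hm hαm x hx
    exact fix_of_coprime hS F hZc hP α hα m hm hαm x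
      (hstar P _ ((mem_autGroup_iff F hP α).mp hα) x hx)
  have hWcr : ∀ U, F.IsCentric U → F.IsRadical p U → W ≤ U := by
    intro U hUc hUr
    have hUS := hUc.1
    apply chain_le_cr hS F hUc hUr hWS (sc_conj_mem F hWsc) 1 (fun i => [S, W].getD i ⊥)
    · exact hUS
    · intro α hα m hm hαm x hx
      exact hfix U hUS α hα m hm hαm x hx
    · intro i hi β hβ x hx
      have hβ' := (mem_autGroup_iff F hUS β).mp hβ
      interval_cases i
      · exact hUS (β x).2
      · exact sc_map_mem F hWsc hβ' x hx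
    · intro t ht htN i hi x hxU hx
      interval_cases i
      show x⁻¹ * (t * x * t⁻¹) ∈ W
      have h1 := sc_conj_mem F hWsc x⁻¹ (S.inv_mem (hUS hxU)) t ht
      have e : x⁻¹ * (t * x * t⁻¹) = (x⁻¹ * t * x⁻¹⁻¹) * t⁻¹ := by group
      rw [e]
      exact W.mul_mem h1 (W.inv_mem ht)
  have hSW : ⁅S, W⁆ ≤ F.center := by
    rw [Subgroup.commutator_le]
    intro s hs w hw
    rw [commutatorElement_def]
    have h2 : w⁻¹ * (s * w * s⁻¹) ∈ F.center :=
      hstar W (Cfsg.conjHom W s) (F.conj_mem hWS hs) ⟨w, hw⟩ hw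
    have h3 := hZcent _ h2 w (hWS hw)
    have e : s * w * s⁻¹ * w⁻¹ = w * (w⁻¹ * (s * w * s⁻¹)) * w⁻¹ := by group
    rw [e, h3, mul_inv_cancel_right]
    exact h2
  have hcomm : ⁅S, S⁆ ≤ Subgroup.centralizer (W : Set Ω) := by
    rw [← Subgroup.commutator_eq_bot_iff_le_centralizer]
    apply Subgroup.commutator_commutator_eq_bot_of_rotate
    · rw [Subgroup.commutator_eq_bot_iff_le_centralizer]
      exact hSW.trans F.center_le_centralizer
    · rw [Subgroup.commutator_comm W S, Subgroup.commutator_eq_bot_iff_le_centralizer]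
      exact hSW.trans F.center_le_centralizer
  have hC : ∀ s ∈ S, ∀ h ∈ Cfsg.FusionSystem.centralizerIn S W,
      s * h * s⁻¹ ∈ Cfsg.FusionSystem.centralizerIn S W := by
    rintro s hs h ⟨hhS, hhC⟩
    have hhC' : h ∈ Subgroup.centralizer (W : Set Ω) := hhC
    refine ⟨S.mul_mem (S.mul_mem hs hhS) (S.inv_mem hs), ?_⟩
    show _ ∈ Subgroup.centralizer (W : Set Ω)
    rw [Subgroup.mem_centralizer_iff]
    intro w hw
    have h1 := sc_conj_mem F hWsc s⁻¹ (S.inv_mem hs) w hw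
    have h2 := Subgroup.mem_centralizer_iff.mp hhC' _ h1
    calc w * (s * h * s⁻¹) = s * ((s⁻¹ * w * s⁻¹⁻¹) * h) * s⁻¹ := by group
      _ = s * (h * (s⁻¹ * w * s⁻¹⁻¹)) * s⁻¹ := by rw [h2]
      _ = s * h * s⁻¹ * w := by group
  have hkey : F ≤ modSubsys F (Cfsg.FusionSystem.centralizerIn S W) hC := by
    apply alperin_ind_cr hS F hF
    intro R hfn _ _ hcen hrad _ α hα
    have hRS := hcen.1
    have hWR := hWcr R hcen hrad
    refine ⟨hα, 1, S.one_mem, fun x => ?_⟩
    have e : (1 * (x : Ω) * 1⁻¹)⁻¹ * (R.subtype.comp α.toMonoidHom) x =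
        (x : Ω)⁻¹ * ((α x : R) : Ω) := by
      show (1 * (x : Ω) * 1⁻¹)⁻¹ * ((α x : R) : Ω) = _
      simp
    rw [e]
    refine ⟨S.mul_mem (S.inv_mem (hRS x.2)) (hRS (α x).2), ?_⟩
    show _ ∈ Subgroup.centralizer (W : Set Ω)
    rw [Subgroup.mem_centralizer_iff]
    intro w hw
    have hc : (((⟨w, hWR hw⟩ : R)⁻¹ * (x * ⟨w, hWR hw⟩ * x⁻¹) : R) : Ω) ∈ F.center :=
      hstar W (Cfsg.conjHom W x) (F.conj_mem hWS (hRS x.2)) ⟨w, hw⟩ hw
    have hfixc : α ((⟨w, hWR hw⟩ : R)⁻¹ * (x * ⟨w, hWR hw⟩ * x⁻¹)) =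
        (⟨w, hWR hw⟩ : R)⁻¹ * (x * ⟨w, hWR hw⟩ * x⁻¹) :=
      Subtype.ext (central_map_eq F hZc hα _ hc)
    have hz : (w : Ω)⁻¹ * ((α ⟨w, hWR hw⟩ : R) : Ω) ∈ F.center := hstar R _ hα ⟨w, hWR hw⟩ hw
    have E1 : ((α ⟨w, hWR hw⟩ : R) : Ω)⁻¹ * (((α x : R) : Ω) * ((α ⟨w, hWR hw⟩ : R) : Ω) *
        ((α x : R) : Ω)⁻¹) = w⁻¹ * ((x : Ω) * w * (x : Ω)⁻¹) := by
      have h5 := congrArg Subtype.val hfixc
      rw [map_mul, map_inv, map_mul, map_mul, map_inv] at h5
      exact h5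
    have hA : ((α ⟨w, hWR hw⟩ : R) : Ω) = w * (w⁻¹ * ((α ⟨w, hWR hw⟩ : R) : Ω)) := by group
    exact grp_calc w _ _ _ _ hA (hZcent _ hz _ (hRS (α x).2)) (hZcent _ hz w (hWS hw)) E1
  have hSC : S ≤ Subgroup.centralizer (W : Set Ω) := by
    have h0 : F.hyperfocalSubgroup p ≤ Subgroup.centralizer (W : Set Ω) := by
      apply hyp_le_of
      intro P hP α hα _ x
      obtain ⟨-, s, hs, h⟩ := hkey P ((mem_autGroup_iff F hP α).mp hα)
      have h1 : (s * (x : Ω) * s⁻¹)⁻¹ * ((α x : P) : Ω) ∈ Subgroup.centralizer (W : Set Ω) :=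
        (h x).2
      have h2 : (x : Ω)⁻¹ * s * (x : Ω)⁻¹⁻¹ * s⁻¹ ∈ Subgroup.centralizer (W : Set Ω) := by
        have h3 := Subgroup.commutator_mem_commutator (S.inv_mem (hP x.2)) hs
        rw [commutatorElement_def] at h3
        exact hcomm h3
      have e : (x : Ω)⁻¹ * ((α x : P) : Ω) = ((x : Ω)⁻¹ * s * (x : Ω)⁻¹⁻¹ * s⁻¹) *
          ((s * (x : Ω) * s⁻¹)⁻¹ * ((α x : P) : Ω)) := by group
      rw [e]
      exact Subgroup.mul_mem _ h2 h1
    exact (le_of_eq hperf.symm).trans h0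
  have hWZ' : ∀ q ∈ W, ∀ s ∈ S, s * q * s⁻¹ = q := by
    intro q hq s hs
    have h1 := Subgroup.mem_centralizer_iff.mp (hSC hs) q hq
    rw [← h1, mul_inv_cancel_right]
  have hcent : F ≤ centSubsys F W hWS hWZ' := by
    apply alperin_ind_centric hS F hF
    intro R hfa hrec hcen _ α hα
    have hRS := hcen.1
    have hWR : W ≤ R := by
      have h1 := hcen.2 R (fs_isConj_refl F hRS)
      intro w hw
      apply h1
      refine ⟨hWS hw, ?_⟩
      show w ∈ Subgroup.centralizer (R : Set Ω)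
      rw [Subgroup.mem_centralizer_iff]
      intro r hr
      exact (Subgroup.mem_centralizer_iff.mp (hSC (hRS hr)) w hw).symm
    haveI : Finite R := finite_of_le hRS
    haveI : Finite (MulAut R) := finite_mulAut R
    have hαm : α ∈ F.autGroup R := (mem_autGroup_iff F hRS α).mpr hα
    obtain ⟨-, T, hT⟩ := hfa
    obtain ⟨t, ht, n, hn, htn⟩ := sylow_mul_pResidual T (⟨α, hαm⟩ : F.autGroup R)
    have ht' : (t : MulAut R) ∈ Cfsg.autInducedBy S R := by
      have h1 : t ∈ (T : Subgroup (F.autGroup R)) := ht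
      rw [hT] at h1
      exact h1
    obtain ⟨s, hs, hst⟩ := (mem_autInducedBy_iff S R _).mp ht'
    let FixW : Subgroup (F.autGroup R) :=
      { carrier := {β | ∀ x : R, (x : Ω) ∈ W → (β : MulAut R) x = x}
        one_mem' := fun x _ => rfl
        mul_mem' := fun {a b} ha hb x hx => by
          show (a : MulAut R) ((b : MulAut R) x) = x
          rw [hb x hx, ha x hx]
        inv_mem' := fun {a} ha x hx => by
          calc ((a : MulAut R))⁻¹ x = ((a : MulAut R))⁻¹ ((a : MulAut R) x) := by rw [ha x hx]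
            _ = x := MulAut.inv_apply_self _ _ _ }
    have hle : Cfsg.pResidual p (F.autGroup R) ≤ FixW := by
      unfold Cfsg.pResidual
      rw [Subgroup.closure_le]
      intro β hβ x hx
      have hpw : (β : MulAut R) ^ orderOf β = 1 := by
        rw [← Subgroup.orderOf_coe]
        exact pow_orderOf_eq_one _
      exact hfix R hRS β β.2 (orderOf β) hβ hpw x hx
    have hnfix : ∀ x : R, (x : Ω) ∈ W → (n : MulAut R) x = x := hle hn
    have hαfix : ∀ x : R, (x : Ω) ∈ W → α x = x := by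
      intro x hx
      have h1 : α = (t : MulAut R) * (n : MulAut R) := congrArg Subtype.val htn
      rw [h1, MulAut.mul_apply, hnfix x hx]
      apply Subtype.ext
      rw [hst x]
      exact hWZ' x hx s hs
    have hle2 : R ⊔ W ≤ R := sup_le le_rfl hWR
    refine ⟨hα, (R.subtype.comp α.toMonoidHom).comp (Subgroup.inclusion hle2),
      fs_restrict F hle2 hα, fun x => rfl, fun w => ?_⟩
    show ((α ⟨w, hWR w.2⟩ : R) : Ω) = w
    rw [hαfix _ w.2]
  have hWZ : W ≤ F.center :=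
    le_sSup (show F.IsCentral W from ⟨hWS, fun P φ hφ => (hcent P hφ).2⟩)
  rw [eq_bot_iff]
  intro y hy
  obtain ⟨a, rfl⟩ := QuotientGroup.mk_surjective y
  rw [Subgroup.mem_bot]
  have haW : (a : Ω) ∈ W := (mem_preimageAlong _ _ a).mpr hy
  exact (hker a).mpr (hWZ haW)

/-- An analogue of Grün's lemma for fusion systems. Let F be a saturated fusion system over a finite p-group S that is perfect in the sense that its hyperfocal subgroup is all of S (F coincides with its p-residual subsystem). Then the second centre of F equals its centre: every fusion system over S/(Z(F) ∩ S) that is the factor system of F modulo its centre Z(F), read through the quotient map, has trivial centre. -/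
theorem result {Ω : Type*} [Group Ω] {S : Subgroup Ω} [Finite S] (p : ℕ) [Fact p.Prime] (hS : IsPGroup p S) (F : Cfsg.FusionSystem S) (hF : F.IsSaturated p)
    (hperf : F.hyperfocalSubgroup p = S)
    (E : Cfsg.FusionSystem (⊤ : Subgroup (↥S ⧸ (F.center).subgroupOf S)))
    (hE : F.IsFactorSystem F.center (QuotientGroup.mk' ((F.center).subgroupOf S)) E) : E.center = ⊥ := by
  exact aux p hS F hF hperf E hE

end Cfsg.Agent.S5315
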