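import Cfsg.Statements.S5521
import Mathlib
import Cfsg.Agent.Lib.Helper9.M24T
-- import your own Cfsg.Agent.* helpers here

set_option autoImplicit false
open Cfsg

namespace Cfsg.Agent.S5521

/-- The Mathieu group M₂₄ in its natural action on the 24 coordinate positions of the binary Golay code has minimal base size exactly 7: every set of at most 6 positions is fixed pointwise by some non-identity element of M₂₄, while some set of 7 positions is fixed pointwise only by the identity. -/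
theorem result :
    (∀ B : Finset Cfsg.GolayPt, B.card ≤ 6 → ∃ g ∈ Cfsg.M24, g ≠ 1 ∧ ∀ b ∈ B, g b = b) ∧
    (∃ B : Finset Cfsg.GolayPt, B.card = 7 ∧ ∀ g ∈ Cfsg.M24, (∀ b ∈ B, g b = b) → g = 1) := by
  constructor
  · intro B hB
    obtain ⟨E, hBE, hE⟩ := Finset.exists_superset_card_eq hB
      (by rw [Cfsg.Agent.Lib.Helper9.GolayC.card_pts]; norm_num)
    obtain ⟨x, hx1, hx2, hx3⟩ := Cfsg.Agent.Lib.Helper9.M24T.exists_enum E 6 hE
    obtain ⟨g, hg, hgx⟩ := Cfsg.Agent.Lib.Helper9.M24T.exists_tuple 5 le_rfl x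
      (fun i hi j hj => hx2 i (by omega) j (by omega))
    obtain ⟨h, hh, hne, hfix, hq⟩ := Cfsg.Agent.Lib.Helper9.M24T.exists_fix6 (g⁻¹ (x 5))
    refine ⟨g * h * g⁻¹, mul_mem (mul_mem hg hh) (inv_mem hg), ?_, ?_⟩
    · intro h1
      apply hne
      have : h = g⁻¹ * (g * h * g⁻¹) * g := by group
      rw [this, h1]
      group
    · intro b hb
      obtain ⟨i, hi, rfl⟩ := hx3 b (hBE hb)
      rw [Equiv.Perm.mul_apply, Equiv.Perm.mul_apply]
      rcases Nat.lt_succ_iff_lt_or_eq.mp hi with h5 | h5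
      · rw [← hgx i h5]
        simp [hfix i h5]
      · rw [h5, hq]
        simp
  · refine ⟨(Finset.range 7).image Cfsg.Agent.Lib.Helper9.M24C.B, ?_, ?_⟩
    · rw [Finset.card_image_of_injOn, Finset.card_range]
      intro i hi j hj hij
      rw [Finset.coe_range, Set.mem_Iio] at hi hj
      exact Cfsg.Agent.Lib.Helper9.M24C.B_inj i hi j hj hij
    · intro g hg hfix
      have : g ∈ Cfsg.Agent.Lib.Helper9.M24B.Gk 7 :=
        ⟨hg, fun i hi => hfix _ (Finset.mem_image.mpr ⟨i, Finset.mem_range.mpr hi, rfl⟩)⟩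
      rw [Cfsg.Agent.Lib.Helper9.M24B.Gk_seven, Subgroup.mem_bot] at this
      exact this

end Cfsg.Agent.S5521
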