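import Cfsg.Statements.S5562
import Mathlib
-- import your own Cfsg.Agent.* helpers here

set_option autoImplicit false
open Cfsg

namespace Cfsg.Agent.S5562

/-- Let G be a finite group, d an involution of G whose conjugates pairwise have products of odd order, and x any involution of G. Then the conjugacy class of d is the disjoint union, over the conjugates a of d commuting with x, of the sets of conjugates of d commuting with ax: every conjugate of d commutes with ax for exactly one conjugate a of d that commutes with x. -/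
theorem result {G : Type*} [Group G] [Finite G] (d : G) (hd : orderOf d = 2)
    (hodd : ∀ a ∈ conjugatesOf d, ∀ b ∈ conjugatesOf d, Odd (orderOf (a * b)))
    (x : G) (hx : orderOf x = 2) :
    ∀ e ∈ conjugatesOf d,
      ∃! a : G, a ∈ conjugatesOf d ∧ Commute a x ∧ Commute e (a * x) := by
  intro e he
  have hx2 : x * x = 1 := by
    have := pow_orderOf_eq_one x; rw [hx, pow_two] at this; exact this
  have hxinv : x⁻¹ = x := inv_eq_of_mul_eq_one_left hx2
  have hinvol : ∀ a ∈ conjugatesOf d, a * a = 1 := by
    intro a ha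
    have ha : IsConj d a := ha
    rw [isConj_iff] at ha
    obtain ⟨c, rfl⟩ := ha
    have hd2 : d * d = 1 := by
      have := pow_orderOf_eq_one d; rw [hd, pow_two] at this; exact this
    calc c * d * c⁻¹ * (c * d * c⁻¹) = c * (d * d) * c⁻¹ := by group
      _ = 1 := by rw [hd2]; group
  have hconj : ∀ a ∈ conjugatesOf d, ∀ g : G, g * a * g⁻¹ ∈ conjugatesOf d := by
    intro a ha g
    have ha : IsConj d a := ha
    exact (ha.trans (isConj_iff.mpr ⟨g, rfl⟩) : IsConj d (g * a * g⁻¹))
  have he2 : e * e = 1 := hinvol e he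
  have heinv : e⁻¹ = e := inv_eq_of_mul_eq_one_left he2
  have huinv : (e * x)⁻¹ = x * e := by rw [mul_inv_rev, hxinv, heinv]
  have hsemi : SemiconjBy e (e * x) (e * x)⁻¹ := by
    unfold SemiconjBy; rw [huinv]
    rw [← mul_assoc, he2, one_mul, mul_assoc, he2, mul_one]
  have hsemix : SemiconjBy x (e * x) (e * x)⁻¹ := by
    unfold SemiconjBy; rw [huinv]
    rw [mul_assoc x e x]
  have heu : ∀ j : ℕ, (e * x) ^ j * e * ((e * x) ^ j)⁻¹ = (e * x) ^ (2 * j) * e := by
    intro j
    have h2 : SemiconjBy e ((e * x)⁻¹ ^ j) ((e * x) ^ j) := by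
      have := hsemi.inv_right.pow_right j
      simpa using this
    have h3 : e * ((e * x) ^ j)⁻¹ = (e * x) ^ j * e := by
      rw [← inv_pow]; exact h2.eq
    rw [mul_assoc, h3, ← mul_assoc, ← pow_add, two_mul]
  refine existsUnique_of_exists_of_unique ?_ ?_
  · rcases Nat.even_or_odd (orderOf (e * x)) with hk | hk
    · obtain ⟨m, hm⟩ := hk
      have hm0 : 0 < m := by have := orderOf_pos (e * x); omega
      have hmodd : Odd m := by
        have h1 := hodd e he (x * e * x⁻¹) (hconj e he x)
        have h2 : e * (x * e * x⁻¹) = (e * x) ^ 2 := by rw [hxinv, pow_two]; group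
        rw [h2, orderOf_pow, hm] at h1
        have h3 : (m + m).gcd 2 = 2 := by
          rw [← two_mul]; exact Nat.gcd_mul_right_left _ _
        rw [h3] at h1
        have h4 : (m + m) / 2 = m := by omega
        rwa [h4] at h1
      obtain ⟨j, hj⟩ := hmodd
      have hum : (e * x) ^ (2 * j + 1) * (e * x) ^ (2 * j + 1) = 1 := by
        rw [← pow_add, ← hj, ← hm]; exact pow_orderOf_eq_one _
      have hax : (e * x) ^ (2 * j) * e * x = (e * x) ^ (2 * j + 1) := by
        rw [pow_succ, mul_assoc]
      refine ⟨(e * x) ^ (2 * j) * e, ?_, ?_, ?_⟩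
      · rw [← heu]; exact hconj e he _
      · unfold Commute SemiconjBy
        rw [hax]
        have h5 : x * ((e * x) ^ (2 * j) * e) = ((e * x)⁻¹) ^ (2 * j + 1) := by
          rw [← mul_assoc, (hsemix.pow_right (2 * j)).eq, pow_succ, huinv, mul_assoc]
        rw [h5, inv_pow]
        exact (eq_inv_of_mul_eq_one_left hum)
      · rw [hax]
        unfold Commute
        have h6 := hsemi.pow_right (2 * j + 1)
        rw [inv_pow, ← eq_inv_of_mul_eq_one_left hum] at h6
        exact h6
    · obtain ⟨j, hj⟩ := hk
      refine ⟨x, ?_, Commute.refl x, ?_⟩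
      · have : x = (e * x) ^ j * e * ((e * x) ^ j)⁻¹ := by
          rw [heu]
          have h1 : (e * x) ^ (2 * j) * (e * x) = 1 := by
            rw [← pow_succ, ← hj]; exact pow_orderOf_eq_one _
          have h2 : (e * x) ^ (2 * j) = (e * x)⁻¹ := eq_inv_of_mul_eq_one_left h1
          rw [h2, huinv, mul_assoc, he2, mul_one]
        rw [this]; exact hconj e he _
      · rw [hx2]; exact Commute.one_right e
  · rintro a a' ⟨ha, hax, hea⟩ ⟨ha', hax', hea'⟩
    have ha2 := hinvol a ha
    have ha'2 := hinvol a' ha'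
    have hainv : a⁻¹ = a := inv_eq_of_mul_eq_one_left ha2
    have ha'inv : a'⁻¹ = a' := inv_eq_of_mul_eq_one_left ha'2
    -- e commutes with w = a * a'
    have hw : a * a' = (a * x) * (a' * x)⁻¹ := by
      rw [mul_inv_rev, hxinv, ha'inv, mul_assoc, ← mul_assoc x x, hx2, one_mul]
    have hew : Commute e (a * a') := by
      rw [hw]; exact hea.mul_right hea'.inv_right
    have haw : SemiconjBy a (a * a') (a * a')⁻¹ := by
      unfold SemiconjBy
      rw [mul_inv_rev, hainv, ha'inv, ← mul_assoc, ha2, one_mul, mul_assoc, ha2, mul_one]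
    have hg : SemiconjBy (e * a) (a * a') (a * a')⁻¹ :=
      SemiconjBy.mul_left (hew.inv_right : Commute e (a * a')⁻¹) haw
    have hg' : SemiconjBy (e * a) (a * a')⁻¹ (a * a') := by
      have := hg.inv_right; simpa using this
    have hg2 : Commute ((e * a) * (e * a)) (a * a') := hg'.mul_left hg
    obtain ⟨k, hk⟩ := hodd e he a ha
    have hpow : (e * a) ^ (2 * k + 1) = 1 := by rw [← hk]; exact pow_orderOf_eq_one _
    have hg3 : SemiconjBy ((e * a) ^ (2 * k + 1)) (a * a') (a * a')⁻¹ := by
      rw [pow_succ, pow_mul, pow_two]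
      exact SemiconjBy.mul_left ((hg2.inv_right.pow_left k : Commute _ (a * a')⁻¹)) hg
    rw [hpow] at hg3
    have hwinv : a * a' = (a * a')⁻¹ := by
      have := hg3.eq; rwa [one_mul, mul_one] at this
    have hw2 : (a * a') ^ 2 = 1 := by
      rw [pow_two]; nth_rewrite 2 [hwinv]; exact mul_inv_cancel _
    have hord : orderOf (a * a') ∣ 2 := orderOf_dvd_of_pow_eq_one hw2
    have hoddw := hodd a ha a' ha'
    have h1 : orderOf (a * a') = 1 := by
      rcases (Nat.dvd_prime Nat.prime_two).mp hord with h | h
      · exact h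
      · rw [h] at hoddw; exact absurd hoddw (by decide)
    rw [orderOf_eq_one_iff] at h1
    calc a = a'⁻¹ := eq_inv_of_mul_eq_one_left h1
      _ = a' := ha'inv

end Cfsg.Agent.S5562
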