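import Cfsg.Statements.S5729
-- import your own Cfsg.Agent.* helpers here

set_option autoImplicit false
open Cfsg

namespace Cfsg.Agent.S5729

/-- Let a finite group G act faithfully and transitively on a set with n ≥ 3 points. Then either G is a Frobenius permutation group (Frobenius as a permutation group: transitive, some non-identity element fixes a point, and no non-identity element fixes two points) of order n(n − 1) and exactly |G|/n of its elements are derangements (fix no point), or the number of derangements is greater than |G|/n. -/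
theorem result {G Ω : Type*} [Group G] [Finite G] [MulAction G Ω] [FaithfulSMul G Ω] [Fintype Ω] (htr : MulAction.IsPretransitive G Ω) (hn : 3 ≤ Fintype.card Ω) :
    ((MulAction.IsPretransitive G Ω ∧ (∃ g : G, g ≠ 1 ∧ ∃ ω : Ω, g • ω = ω) ∧ ∀ g : G, g ≠ 1 → Nat.card (MulAction.fixedBy Ω g) ≤ 1) ∧ Nat.card G = Fintype.card Ω * (Fintype.card Ω - 1) ∧ Fintype.card Ω * Nat.card {g : G // ∀ ω : Ω, g • ω ≠ ω} = Nat.card G) ∨
    Nat.card G < Fintype.card Ω * Nat.card {g : G // ∀ ω : Ω, g • ω ≠ ω} := by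
  classical
  have hFG : Fintype G := Fintype.ofFinite G
  have hn2 : 3 ≤ Fintype.card Ω := hn
  -- fixed point counts
  have hfle : ∀ g : G, (MulAction.fixedBy Ω g).ncard ≤ Fintype.card Ω := fun g => by
    rw [← Nat.card_eq_fintype_card]; exact Set.ncard_le_card _
  have hf1 : (MulAction.fixedBy Ω (1 : G)).ncard = Fintype.card Ω := by
    have : MulAction.fixedBy Ω (1 : G) = Set.univ := by
      ext ω; simp [MulAction.mem_fixedBy]
    rw [this, Set.ncard_univ, Nat.card_eq_fintype_card]
  have hfn : ∀ g : G, (MulAction.fixedBy Ω g).ncard = Fintype.card Ω → g = 1 := by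
    intro g hg
    apply eq_of_smul_eq_smul (α := Ω)
    intro ω
    have h1 : MulAction.fixedBy Ω g = Set.univ := by
      rw [Set.eq_univ_iff_ncard, Nat.card_eq_fintype_card]; exact hg
    have hω : ω ∈ MulAction.fixedBy Ω g := by rw [h1]; trivial
    rw [one_smul]; exact hω
  have hcardG : Fintype.card G = Nat.card G := Fintype.card_eq_nat_card
  -- Burnside on Ω
  have hS1 : ∑ g : G, (MulAction.fixedBy Ω g).ncard = Nat.card G := by
    have h := MulAction.sum_card_fixedBy_eq_card_orbits_mul_card_group G Ω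
    simp only [Fintype.card_eq_nat_card, Nat.card_coe_set_eq] at h
    rw [h]
    have h1 : Nat.card (Quotient (MulAction.orbitRel G Ω)) = 1 := by
      rw [Nat.card_eq_one_iff_unique]
      refine ⟨(MulAction.pretransitive_iff_subsingleton_quotient G Ω).mp htr, ?_⟩
      have hpos : 0 < Fintype.card Ω := by omega
      obtain ⟨ω⟩ := Fintype.card_pos_iff.mp hpos
      exact ⟨Quotient.mk _ ω⟩
    rw [h1, one_mul]
  -- Burnside on Ω × Ω
  have hS2 : 2 * Nat.card G ≤ ∑ g : G, (MulAction.fixedBy Ω g).ncard ^ 2 := by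
    have h := MulAction.sum_card_fixedBy_eq_card_orbits_mul_card_group G (Ω × Ω)
    simp only [Fintype.card_eq_nat_card, Nat.card_coe_set_eq] at h
    have hprod : ∀ g : G, (MulAction.fixedBy (Ω × Ω) g).ncard = (MulAction.fixedBy Ω g).ncard ^ 2 := by
      intro g
      have : MulAction.fixedBy (Ω × Ω) g = (MulAction.fixedBy Ω g) ×ˢ (MulAction.fixedBy Ω g) := by
        ext ⟨a, b⟩
        simp [MulAction.mem_fixedBy, Prod.ext_iff]
      rw [this, Set.ncard_prod, pow_two]
    rw [Finset.sum_congr rfl (fun g _ => hprod g)] at h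
    rw [h]
    apply Nat.mul_le_mul_right
    have h1 : 1 < Fintype.card Ω := by omega
    obtain ⟨a, b, hab⟩ := Fintype.exists_pair_of_one_lt_card h1
    have hnt : Nontrivial (Quotient (MulAction.orbitRel G (Ω × Ω))) := by
      refine ⟨Quotient.mk _ (a, a), Quotient.mk _ (a, b), ?_⟩
      intro heq
      have h2 := Quotient.exact heq
      have h3 : (a, a) ∈ MulAction.orbit G (a, b) := MulAction.orbitRel_apply.mp h2
      obtain ⟨g, hg⟩ := h3
      have h4 : g • a = a := congrArg Prod.fst hg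
      have h5 : g • b = a := congrArg Prod.snd hg
      exact hab (smul_left_cancel g (h4.trans h5.symm))
    have := Finite.one_lt_card_iff_nontrivial.mpr hnt
    omega
  -- derangements
  have hD : Nat.card {g : G // ∀ ω : Ω, g • ω ≠ ω} = (Finset.univ.filter (fun g : G => (MulAction.fixedBy Ω g).ncard = 0)).card := by
    rw [Nat.card_eq_fintype_card, Fintype.card_subtype]
    congr 1
    ext g
    simp only [Finset.mem_filter, Finset.mem_univ, true_and]
    rw [Set.ncard_eq_zero (Set.toFinite _), Set.eq_empty_iff_forall_notMem]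
    simp [MulAction.mem_fixedBy]
  -- key inequality
  have hterm : ∀ g : G, (((MulAction.fixedBy Ω g).ncard : ℤ) - 1) * (((MulAction.fixedBy Ω g).ncard : ℤ) - (Fintype.card Ω : ℤ))
      ≤ if (MulAction.fixedBy Ω g).ncard = 0 then (Fintype.card Ω : ℤ) else 0 := by
    intro g
    by_cases h0 : (MulAction.fixedBy Ω g).ncard = 0
    · rw [if_pos h0, h0]; simp
    · rw [if_neg h0]
      apply mul_nonpos_of_nonneg_of_nonpos
      · have : 1 ≤ (MulAction.fixedBy Ω g).ncard := Nat.one_le_iff_ne_zero.mpr h0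
        have : (1 : ℤ) ≤ ((MulAction.fixedBy Ω g).ncard : ℤ) := by exact_mod_cast this
        linarith
      · have : ((MulAction.fixedBy Ω g).ncard : ℤ) ≤ (Fintype.card Ω : ℤ) := by exact_mod_cast hfle g
        linarith
  have hsumbound : ∑ g : G, (if (MulAction.fixedBy Ω g).ncard = 0 then (Fintype.card Ω : ℤ) else 0)
      = (Fintype.card Ω : ℤ) * (Nat.card {g : G // ∀ ω : Ω, g • ω ≠ ω} : ℤ) := by
    rw [← Finset.sum_filter, Finset.sum_const, hD, nsmul_eq_mul, mul_comm]
  have hexp : ∑ g : G, (((MulAction.fixedBy Ω g).ncard : ℤ) - 1) * (((MulAction.fixedBy Ω g).ncard : ℤ) - (Fintype.card Ω : ℤ))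
      = ((∑ g : G, (MulAction.fixedBy Ω g).ncard ^ 2 : ℕ) : ℤ) - ((Fintype.card Ω : ℤ) + 1) * (Nat.card G : ℤ)
        + (Fintype.card Ω : ℤ) * (Nat.card G : ℤ) := by
    have h1 : ∀ g : G, (((MulAction.fixedBy Ω g).ncard : ℤ) - 1) * (((MulAction.fixedBy Ω g).ncard : ℤ) - (Fintype.card Ω : ℤ))
        = ((MulAction.fixedBy Ω g).ncard : ℤ) ^ 2 - ((Fintype.card Ω : ℤ) + 1) * ((MulAction.fixedBy Ω g).ncard : ℤ) + (Fintype.card Ω : ℤ) :=
      fun g => by ring
    rw [Finset.sum_congr rfl (fun g _ => h1 g), Finset.sum_add_distrib, Finset.sum_sub_distrib, ← Finset.mul_sum,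
      Finset.sum_const, Finset.card_univ, hcardG, nsmul_eq_mul]
    have h2 : (∑ g : G, ((MulAction.fixedBy Ω g).ncard : ℤ)) = (Nat.card G : ℤ) := by
      rw [← hS1]; push_cast; rfl
    rw [h2]
    push_cast
    ring
  have hsumle : ∑ g : G, (((MulAction.fixedBy Ω g).ncard : ℤ) - 1) * (((MulAction.fixedBy Ω g).ncard : ℤ) - (Fintype.card Ω : ℤ))
      ≤ (Fintype.card Ω : ℤ) * (Nat.card {g : G // ∀ ω : Ω, g • ω ≠ ω} : ℤ) := by
    rw [← hsumbound]
    exact Finset.sum_le_sum (fun g _ => hterm g)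
  have hS2' : (2 : ℤ) * (Nat.card G : ℤ) ≤ ((∑ g : G, (MulAction.fixedBy Ω g).ncard ^ 2 : ℕ) : ℤ) := by
    exact_mod_cast hS2
  have hmain : (Nat.card G : ℤ) ≤ (Fintype.card Ω : ℤ) * (Nat.card {g : G // ∀ ω : Ω, g • ω ≠ ω} : ℤ) := by
    rw [hexp] at hsumle
    linarith
  have hmainN : Nat.card G ≤ Fintype.card Ω * Nat.card {g : G // ∀ ω : Ω, g • ω ≠ ω} := by
    exact_mod_cast hmain
  rcases Nat.lt_or_ge (Nat.card G) (Fintype.card Ω * Nat.card {g : G // ∀ ω : Ω, g • ω ≠ ω}) with hlt | hge
  · right; exact hlt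
  left
  have heqN : Fintype.card Ω * Nat.card {g : G // ∀ ω : Ω, g • ω ≠ ω} = Nat.card G := le_antisymm hge hmainN
  have heqZ : (Fintype.card Ω : ℤ) * (Nat.card {g : G // ∀ ω : Ω, g • ω ≠ ω} : ℤ) = (Nat.card G : ℤ) := by
    exact_mod_cast heqN
  -- termwise equality
  have hzero : ∑ g : G, ((if (MulAction.fixedBy Ω g).ncard = 0 then (Fintype.card Ω : ℤ) else 0)
      - (((MulAction.fixedBy Ω g).ncard : ℤ) - 1) * (((MulAction.fixedBy Ω g).ncard : ℤ) - (Fintype.card Ω : ℤ))) = 0 := by
    rw [Finset.sum_sub_distrib, hsumbound, hexp]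
    linarith
  have hall := (Finset.sum_eq_zero_iff_of_nonneg (fun g _ => sub_nonneg.mpr (hterm g))).mp hzero
  have hcases : ∀ g : G, (MulAction.fixedBy Ω g).ncard ≠ 0 →
      (MulAction.fixedBy Ω g).ncard = 1 ∨ (MulAction.fixedBy Ω g).ncard = Fintype.card Ω := by
    intro g h0
    have h1 := hall g (Finset.mem_univ g)
    rw [if_neg h0] at h1
    have h2 : (((MulAction.fixedBy Ω g).ncard : ℤ) - 1) * (((MulAction.fixedBy Ω g).ncard : ℤ) - (Fintype.card Ω : ℤ)) = 0 := by
      linarith
    rcases mul_eq_zero.mp h2 with h3 | h3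
    · left
      have : ((MulAction.fixedBy Ω g).ncard : ℤ) = 1 := by linarith
      exact_mod_cast this
    · right
      have : ((MulAction.fixedBy Ω g).ncard : ℤ) = (Fintype.card Ω : ℤ) := by linarith
      exact_mod_cast this
  have hle1 : ∀ g : G, g ≠ 1 → (MulAction.fixedBy Ω g).ncard ≤ 1 := by
    intro g hg
    by_cases h0 : (MulAction.fixedBy Ω g).ncard = 0
    · omega
    · rcases hcases g h0 with h | h
      · omega
      · exact absurd (hfn g h) hg
  -- count: D = n - 1
  have hSsum : ∑ g ∈ Finset.univ.filter (fun g : G => (MulAction.fixedBy Ω g).ncard ≠ 0), (((MulAction.fixedBy Ω g).ncard : ℤ) - 1)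
      = (Fintype.card Ω : ℤ) - 1 := by
    rw [Finset.sum_eq_single (1 : G)]
    · rw [hf1]
    · intro g hg hg1
      rw [Finset.mem_filter] at hg
      rcases hcases g hg.2 with h | h
      · rw [h]; simp
      · exact absurd (hfn g h) hg1
    · intro h1
      exfalso
      apply h1
      rw [Finset.mem_filter]
      refine ⟨Finset.mem_univ _, ?_⟩
      rw [hf1]; omega
  have hSsum2 : ∑ g ∈ Finset.univ.filter (fun g : G => (MulAction.fixedBy Ω g).ncard ≠ 0), (((MulAction.fixedBy Ω g).ncard : ℤ) - 1)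
      = (Nat.card G : ℤ) - ((Finset.univ.filter (fun g : G => (MulAction.fixedBy Ω g).ncard ≠ 0)).card : ℤ) := by
    rw [Finset.sum_sub_distrib, Finset.sum_const, nsmul_eq_mul, mul_one]
    congr 1
    rw [Finset.sum_filter]
    rw [← hS1]
    push_cast
    apply Finset.sum_congr rfl
    intro g _
    by_cases h0 : (MulAction.fixedBy Ω g).ncard = 0
    · simp [h0]
    · simp [h0]
  have hcardS : (Finset.univ.filter (fun g : G => (MulAction.fixedBy Ω g).ncard = 0)).card
      + (Finset.univ.filter (fun g : G => (MulAction.fixedBy Ω g).ncard ≠ 0)).card = Nat.card G := by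
    rw [← hcardG, ← Finset.card_univ]
    exact Finset.card_filter_add_card_filter_not _
  have hDval : Nat.card {g : G // ∀ ω : Ω, g • ω ≠ ω} = Fintype.card Ω - 1 := by
    rw [hD]
    have h1 : ((Finset.univ.filter (fun g : G => (MulAction.fixedBy Ω g).ncard = 0)).card : ℤ)
        + ((Finset.univ.filter (fun g : G => (MulAction.fixedBy Ω g).ncard ≠ 0)).card : ℤ) = (Nat.card G : ℤ) := by
      exact_mod_cast hcardS
    have h2 : ((Finset.univ.filter (fun g : G => (MulAction.fixedBy Ω g).ncard = 0)).card : ℤ) = (Fintype.card Ω : ℤ) - 1 := by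
      rw [hSsum] at hSsum2
      linarith
    omega
  have hNval : Nat.card G = Fintype.card Ω * (Fintype.card Ω - 1) := by
    rw [← heqN, hDval]
  refine ⟨⟨htr, ?_, ?_⟩, hNval, heqN⟩
  · -- a non-identity element with a fixed point
    have hScard : 1 < (Finset.univ.filter (fun g : G => (MulAction.fixedBy Ω g).ncard ≠ 0)).card := by
      have h1 : (Finset.univ.filter (fun g : G => (MulAction.fixedBy Ω g).ncard = 0)).card = Fintype.card Ω - 1 := by
        rw [← hD, hDval]
      rw [h1, hNval] at hcardS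
      have h3 : 2 ≤ Fintype.card Ω - 1 := by omega
      have h4 : (Fintype.card Ω - 1) + (Fintype.card Ω - 1) ≤ Fintype.card Ω * (Fintype.card Ω - 1) := by
        calc (Fintype.card Ω - 1) + (Fintype.card Ω - 1) = 2 * (Fintype.card Ω - 1) := by ring
          _ ≤ Fintype.card Ω * (Fintype.card Ω - 1) := Nat.mul_le_mul_right _ (by omega)
      omega
    obtain ⟨g, hg, hg1⟩ := Finset.exists_mem_ne hScard (1 : G)
    rw [Finset.mem_filter] at hg
    refine ⟨g, hg1, ?_⟩
    have hne : (MulAction.fixedBy Ω g).Nonempty := by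
      rw [← Set.ncard_pos (Set.toFinite _)]
      exact Nat.pos_of_ne_zero hg.2
    obtain ⟨ω, hω⟩ := hne
    exact ⟨ω, hω⟩
  · intro g hg
    rw [Nat.card_coe_set_eq]
    exact hle1 g hg

end Cfsg.Agent.S5729
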