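import Cfsg.Statements.S5738
import Mathlib
-- import your own Cfsg.Agent.* helpers here

set_option autoImplicit false
open Cfsg

namespace Cfsg.Agent.S5738

/-- Let F ⊆ K be finite fields with |F| = q and [K : F] = n ≥ 2, so |K| = q^n. Regard K as an n-dimensional F-vector space; the multiplications by non-zero elements of K form a cyclic subgroup of GL_F(K) of order q^n − 1 acting regularly on the non-zero vectors (a Singer group). Its normaliser in GL_F(K) has order n·(q^n − 1). -/
theorem result {F K : Type*} [Field F] [Fintype F] [Field K] [Fintype K] [Algebra F K] (n : ℕ) (hn : 2 ≤ n) (hdim : Module.finrank F K = n) :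
    Nat.card (Subgroup.normalizer (((Units.map ((Algebra.lmul F K : K →ₐ[F] Module.End F K) : K →* Module.End F K)).range : Subgroup (Module.End F K)ˣ) : Set (Module.End F K)ˣ)) = n * (Fintype.card K - 1) := by
  classical
  let lm : K →* Module.End F K := ((Algebra.lmul F K : K →ₐ[F] Module.End F K) : K →* Module.End F K)
  have hlm : ∀ a x : K, lm a x = a * x := fun a x => rfl
  set S : Subgroup (Module.End F K)ˣ := (Units.map lm).range with hS
  have hSmem : ∀ u : (Module.End F K)ˣ, u ∈ S ↔
      ∃ a : Kˣ, ∀ x : K, (u : Module.End F K) x = a * x := by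
    intro u
    constructor
    · rintro ⟨a, rfl⟩
      exact ⟨a, fun x => rfl⟩
    · rintro ⟨a, ha⟩
      refine ⟨a, Units.ext (LinearMap.ext fun x => ?_)⟩
      exact (ha x).symm
  let gal : (K ≃ₐ[F] K) →* (Module.End F K)ˣ :=
    MonoidHom.toHomUnits
      { toFun := fun σ => σ.toLinearMap
        map_one' := rfl
        map_mul' := fun σ τ => rfl }
  have hgal : ∀ (σ : K ≃ₐ[F] K) (x : K), ((gal σ : (Module.End F K)ˣ) : Module.End F K) x = σ x :=
    fun σ x => rfl
  have hgalinv : ∀ (σ : K ≃ₐ[F] K) (x : K),
      (((gal σ)⁻¹ : (Module.End F K)ˣ) : Module.End F K) x = σ.symm x := by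
    intro σ x
    rw [← map_inv]
    rfl
  have hmulapp : ∀ (u v : (Module.End F K)ˣ) (x : K),
      ((u * v : (Module.End F K)ˣ) : Module.End F K) x
        = (u : Module.End F K) ((v : Module.End F K) x) := fun u v x => rfl
  have hinvl : ∀ (u : (Module.End F K)ˣ) (x : K),
      ((u⁻¹ : (Module.End F K)ˣ) : Module.End F K) ((u : Module.End F K) x) = x := by
    intro u x
    rw [← hmulapp, inv_mul_cancel]
    rfl
  have hinvr : ∀ (u : (Module.End F K)ˣ) (x : K),
      (u : Module.End F K) (((u⁻¹ : (Module.End F K)ˣ) : Module.End F K) x) = x := by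
    intro u x
    rw [← hmulapp, mul_inv_cancel]
    rfl
  have hconjS : ∀ (σ : K ≃ₐ[F] K) (h : (Module.End F K)ˣ), h ∈ S →
      gal σ * h * (gal σ)⁻¹ ∈ S := by
    intro σ h hh
    obtain ⟨a, ha⟩ := (hSmem h).mp hh
    rw [hSmem]
    refine ⟨Units.mk0 (σ a) (by simp), ?_⟩
    intro x
    rw [hmulapp, hmulapp, hgal, hgalinv, ha, map_mul, AlgEquiv.apply_symm_apply]
    rfl
  have hgalN : ∀ σ : K ≃ₐ[F] K, gal σ ∈ Subgroup.normalizer (S : Set (Module.End F K)ˣ) := by
    intro σ
    rw [Subgroup.mem_set_normalizer_iff]
    intro h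
    constructor
    · exact hconjS σ h
    · intro hh
      have h1 := hconjS σ⁻¹ _ hh
      have e : gal σ⁻¹ * (gal σ * h * (gal σ)⁻¹) * (gal σ⁻¹)⁻¹ = h := by
        rw [map_inv]; group
      rw [e] at h1
      exact h1
  have hSN : S ≤ Subgroup.normalizer (S : Set (Module.End F K)ˣ) := Subgroup.le_normalizer
  let Φ : Kˣ × (K ≃ₐ[F] K) → Subgroup.normalizer (S : Set (Module.End F K)ˣ) :=
    fun q => ⟨Units.map lm q.1 * gal q.2,
      Subgroup.mul_mem _ (hSN ⟨q.1, rfl⟩) (hgalN q.2)⟩
  have hΦapp : ∀ (q : Kˣ × (K ≃ₐ[F] K)) (x : K),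
      (((Φ q : Subgroup.normalizer (S : Set (Module.End F K)ˣ)) : (Module.End F K)ˣ) :
        Module.End F K) x = (q.1 : K) * q.2 x := fun q x => rfl
  have hΦ : Function.Bijective Φ := by
    constructor
    · rintro ⟨c, σ⟩ ⟨c', σ'⟩ h
      have h1 : ∀ x : K, (c : K) * σ x = (c' : K) * σ' x := by
        intro x
        have := congrArg (fun t : Subgroup.normalizer (S : Set (Module.End F K)ˣ) =>
          ((t : (Module.End F K)ˣ) : Module.End F K) x) h
        exact this
      have hc : c = c' := by
        apply Units.ext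
        have := h1 1
        rw [map_one, map_one, mul_one, mul_one] at this
        exact this
      subst hc
      have hσ : σ = σ' := by
        apply AlgEquiv.ext
        intro x
        exact mul_left_cancel₀ c.ne_zero (h1 x)
      rw [hσ]
    · rintro ⟨g, hg⟩
      have hc0 : (g : Module.End F K) 1 ≠ 0 := by
        intro h0
        have := hinvl g 1
        rw [h0, map_zero] at this
        exact zero_ne_one this
      obtain ⟨c0, hc0def⟩ : ∃ c0 : K, c0 = (g : Module.End F K) 1 := ⟨_, rfl⟩
      rw [← hc0def] at hc0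
      have hucN : Units.map lm (Units.mk0 c0 hc0) ∈
          Subgroup.normalizer (S : Set (Module.End F K)ˣ) := hSN ⟨_, rfl⟩
      have hhN : (Units.map lm (Units.mk0 c0 hc0))⁻¹ * g ∈
          Subgroup.normalizer (S : Set (Module.End F K)ˣ) :=
        Subgroup.mul_mem _ (Subgroup.inv_mem _ hucN) hg
      obtain ⟨h, hhdef⟩ : ∃ h : (Module.End F K)ˣ,
          h = (Units.map lm (Units.mk0 c0 hc0))⁻¹ * g := ⟨_, rfl⟩
      rw [← hhdef] at hhN
      have hh : ∀ x : K, (h : Module.End F K) x = c0⁻¹ * (g : Module.End F K) x := by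
        intro x
        rw [hhdef, hmulapp, ← map_inv]
        show lm ((Units.mk0 c0 hc0)⁻¹ : Kˣ) ((g : Module.End F K) x) = _
        rw [hlm]
        rfl
      have h1 : (h : Module.End F K) 1 = 1 := by
        rw [hh, ← hc0def, inv_mul_cancel₀ hc0]
      have hinv1 : ((h⁻¹ : (Module.End F K)ˣ) : Module.End F K) 1 = 1 := by
        have := hinvl h 1
        rw [h1] at this
        exact this
      have hmul : ∀ a y : K, (h : Module.End F K) (a * y)
          = (h : Module.End F K) a * (h : Module.End F K) y := by
        intro a y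
        by_cases ha : a = 0
        · rw [ha, zero_mul, map_zero, zero_mul]
        · have hmem := (Subgroup.mem_set_normalizer_iff.mp hhN
            (Units.map lm (Units.mk0 a ha))).mp ⟨_, rfl⟩
          obtain ⟨a', ha'⟩ := (hSmem _).mp hmem
          have e1 := ha' 1
          rw [hmulapp, hmulapp, hinv1, mul_one] at e1
          have e1' : (h : Module.End F K) a = a' := by
            rw [← e1]
            show _ = (h : Module.End F K) (lm a 1)
            rw [hlm, mul_one]
          have e2 := ha' ((h : Module.End F K) y)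
          rw [hmulapp, hmulapp, hinvl, ← e1'] at e2
          exact e2
      have hbij : Function.Bijective (AlgHom.ofLinearMap (h : Module.End F K) h1 hmul) := by
        constructor
        · intro x y hxy
          have hxy' : (h : Module.End F K) x = (h : Module.End F K) y := hxy
          have := congrArg (((h⁻¹ : (Module.End F K)ˣ) : Module.End F K)) hxy'
          rw [hinvl, hinvl] at this
          exact this
        · intro y
          exact ⟨((h⁻¹ : (Module.End F K)ˣ) : Module.End F K) y, hinvr h y⟩
      refine ⟨(Units.mk0 c0 hc0, AlgEquiv.ofBijective _ hbij), ?_⟩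
      apply Subtype.ext
      apply Units.ext
      apply LinearMap.ext
      intro x
      rw [hΦapp]
      show c0 * (h : Module.End F K) x = (g : Module.End F K) x
      rw [hh, ← mul_assoc, mul_inv_cancel₀ hc0, one_mul]
  have hcard := Nat.card_eq_of_bijective Φ hΦ
  rw [← hcard, Nat.card_prod, Nat.card_units, IsGalois.card_aut_eq_finrank F K, hdim,
    Nat.card_eq_fintype_card, mul_comm]

end Cfsg.Agent.S5738
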