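import Cfsg.Statements.S5739
import Mathlib
-- import your own Cfsg.Agent.* helpers here

set_option autoImplicit false
open Cfsg

namespace Cfsg.Agent.S5739


/-- the intermediate field of elements whose multiplication is conjugate into the Singer algebra -/
def Efield {F K : Type*} [Field F] [Field K] [Algebra F K] (g : (Module.End F K)ˣ) : IntermediateField F K where
  carrier := {x | ∃ y : K, Algebra.lmul F K x = (g : Module.End F K) * Algebra.lmul F K y * ((g⁻¹ : (Module.End F K)ˣ) : Module.End F K)}
  mul_mem' := by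
    rintro a b ⟨y, hy⟩ ⟨y', hy'⟩
    refine ⟨y * y', ?_⟩
    rw [map_mul, map_mul, hy, hy']
    simp only [mul_assoc]
    rw [Units.inv_mul_cancel_left]
  one_mem' := ⟨1, by rw [map_one, mul_one, Units.mul_inv]⟩
  add_mem' := by
    rintro a b ⟨y, hy⟩ ⟨y', hy'⟩
    refine ⟨y + y', ?_⟩
    rw [map_add, map_add, hy, hy', mul_add, add_mul]
  zero_mem' := ⟨0, by simp⟩
  algebraMap_mem' := by
    intro c
    refine ⟨algebraMap F K c, ?_⟩
    rw [AlgHom.commutes, Algebra.algebraMap_eq_smul_one]
    simp
  inv_mem' := by
    rintro x ⟨y, hy⟩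
    by_cases hx : x = 0
    · subst hx
      exact ⟨0, by simp⟩
    · refine ⟨y⁻¹, ?_⟩
      have hy0 : y ≠ 0 := by
        rintro rfl
        apply hx
        simp only [map_zero, mul_zero, zero_mul] at hy
        have := congrArg (fun f : Module.End F K => f 1) hy
        simpa using this
      have h1 : (g : Module.End F K) * Algebra.lmul F K y * ((g⁻¹ : (Module.End F K)ˣ) : Module.End F K) *
          ((g : Module.End F K) * Algebra.lmul F K y⁻¹ * ((g⁻¹ : (Module.End F K)ˣ) : Module.End F K)) = 1 := by
        simp only [mul_assoc]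
        rw [Units.inv_mul_cancel_left, ← mul_assoc (Algebra.lmul F K y), ← map_mul, mul_inv_cancel₀ hy0, map_one,
          one_mul, Units.mul_inv]
      calc Algebra.lmul F K x⁻¹ = Algebra.lmul F K x⁻¹ * 1 := (mul_one _).symm
        _ = Algebra.lmul F K x⁻¹ * (Algebra.lmul F K x *
          ((g : Module.End F K) * Algebra.lmul F K y⁻¹ * ((g⁻¹ : (Module.End F K)ˣ) : Module.End F K))) := by
            rw [← h1, hy]
        _ = _ := by
            rw [← mul_assoc, ← map_mul, inv_mul_cancel₀ hx, map_one, one_mul]


lemma lmul_inj {F K : Type*} [Field F] [Field K] [Algebra F K] (x y : K) (h : Algebra.lmul F K x = Algebra.lmul F K y) : x = y := by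
  have := congrArg (fun f : Module.End F K => f 1) h
  simpa using this

/-- Let F ⊆ K be finite fields with |F| = q and [K : F] = n ≥ 2, and let M ≤ GL_F(K) be the Singer group of multiplications by non-zero elements of K. If g ∈ GL_F(K) does not normalise M, then the order of M ∩ gMg⁻¹ divides q^r − 1 for some proper divisor r of n. In particular, when n is prime, that order divides q − 1. -/
theorem result {F K : Type*} [Field F] [Fintype F] [Field K] [Fintype K] [Algebra F K] (n : ℕ) (hn : 2 ≤ n) (hdim : Module.finrank F K = n)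
    (g : (Module.End F K)ˣ) (hg : ((Units.map ((Algebra.lmul F K : K →ₐ[F] Module.End F K) : K →* Module.End F K)).range).map (MulAut.conj g).toMonoidHom ≠ (Units.map ((Algebra.lmul F K : K →ₐ[F] Module.End F K) : K →* Module.End F K)).range) :
    ∃ r : ℕ, 1 ≤ r ∧ r ∣ n ∧ r < n ∧ Nat.card ↥(((Units.map ((Algebra.lmul F K : K →ₐ[F] Module.End F K) : K →* Module.End F K)).range).map (MulAut.conj g).toMonoidHom ⊓ (Units.map ((Algebra.lmul F K : K →ₐ[F] Module.End F K) : K →* Module.End F K)).range) ∣ Fintype.card F ^ r - 1 := by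
  classical
  set φ : Kˣ →* (Module.End F K)ˣ :=
    Units.map ((Algebra.lmul F K : K →ₐ[F] Module.End F K) : K →* Module.End F K) with hφ
  have hφv : ∀ x : Kˣ, ((φ x : (Module.End F K)ˣ) : Module.End F K) = Algebra.lmul F K (x : K) :=
    fun x => rfl
  haveI : Finite (Module.End F K) :=
    Finite.of_injective (fun f : Module.End F K => (f : K → K)) DFunLike.coe_injective
  have hE_ne_top : ∃ x : K, x ∉ Efield g := by
    by_contra hcon
    push Not at hcon
    apply hg
    symm
    apply Subgroup.eq_of_le_of_card_ge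
    · rintro u ⟨x, rfl⟩
      obtain ⟨y, hy⟩ := hcon (x : K)
      have hy0 : y ≠ 0 := by
        rintro rfl
        simp only [map_zero, mul_zero, zero_mul] at hy
        exact x.ne_zero (lmul_inj (F := F) _ _ (by rw [hy, map_zero]))
      refine ⟨φ (Units.mk0 y hy0), ⟨_, rfl⟩, ?_⟩
      apply Units.ext
      show (g : Module.End F K) * Algebra.lmul F K y * ((g⁻¹ : (Module.End F K)ˣ) : Module.End F K)
        = Algebra.lmul F K (x : K)
      exact hy.symm
    · rw [Subgroup.card_map_of_injective (MulAut.conj g).injective]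
  obtain ⟨x₀, hx₀⟩ := hE_ne_top
  refine ⟨Module.finrank F (Efield g), ?_, ?_, ?_, ?_⟩
  · exact Module.finrank_pos
  · rw [← hdim, ← Module.finrank_mul_finrank F (Efield g) K]
    exact dvd_mul_right _ _
  · rw [← hdim]
    have hlt : (Efield g).toSubalgebra.toSubmodule < ⊤ := by
      refine lt_top_iff_ne_top.mpr (fun h => hx₀ ?_)
      have : x₀ ∈ (Efield g).toSubalgebra.toSubmodule := by rw [h]; trivial
      exact this
    exact Submodule.finrank_lt hlt.ne
  · let ψ : (Efield g)ˣ →* (Module.End F K)ˣ :=
      φ.comp (Units.map ((Efield g).val : Efield g →* K))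
    have hψ : Function.Injective ψ := by
      intro a b hab
      have h1 : Algebra.lmul F K ((a : Efield g) : K) = Algebra.lmul F K ((b : Efield g) : K) :=
        congrArg (fun u : (Module.End F K)ˣ => (u : Module.End F K)) hab
      exact Units.ext (Subtype.ext (lmul_inj (F := F) _ _ h1))
    have hle : (φ.range).map (MulAut.conj g).toMonoidHom ⊓ φ.range ≤ ψ.range := by
      rintro u ⟨⟨v, ⟨y, rfl⟩, hv⟩, ⟨x, rfl⟩⟩
      have hxE : (x : K) ∈ Efield g := by
        refine ⟨(y : K), ?_⟩
        have := congrArg (fun u : (Module.End F K)ˣ => (u : Module.End F K)) hv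
        exact this.symm
      have hx0 : (⟨(x : K), hxE⟩ : Efield g) ≠ 0 := by
        intro h
        exact x.ne_zero (congrArg Subtype.val h)
      refine ⟨Units.mk0 ⟨(x : K), hxE⟩ hx0, ?_⟩
      apply Units.ext
      rfl
    have h1 := Subgroup.card_dvd_of_le hle
    have h2 : Nat.card ψ.range = Fintype.card F ^ Module.finrank F (Efield g) - 1 := by
      rw [← Nat.card_congr (MonoidHom.ofInjective hψ).toEquiv, Nat.card_units,
        Module.natCard_eq_pow_finrank (K := F), Nat.card_eq_fintype_card]
    rw [← h2]
    exact h1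

end Cfsg.Agent.S5739
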