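import Cfsg.Statements.S5747
import Mathlib
-- import your own Cfsg.Agent.* helpers here

set_option autoImplicit false
open Cfsg

namespace Cfsg.Agent.S5747

variable {G Ω : Type*} [Group G] [MulAction G Ω]

def IsB (G : Type*) {Ω : Type*} [Group G] [MulAction G Ω] (l : List Ω) : Prop :=
  ∀ g : G, (∀ x ∈ l, g • x = x) → g = 1

def Irr (G : Type*) {Ω : Type*} [Group G] [MulAction G Ω] (l : List Ω) : Prop :=
  ∀ l₁ x l₂, l = l₁ ++ x :: l₂ → ∃ g : G, (∀ y ∈ l₁, g • y = y) ∧ g • x ≠ x

theorem isB_ofFn {t : ℕ} (f : Fin t → Ω) :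
    IsB G (List.ofFn f) ↔ (∀ g : G, (∀ i : Fin t, g • f i = f i) → g = 1) := by
  unfold IsB
  simp only [List.forall_mem_ofFn_iff]

theorem irr_ofFn {t : ℕ} (f : Fin t → Ω) :
    Irr G (List.ofFn f) ↔
      (∀ i : Fin t, ∃ g : G, (∀ j : Fin t, j < i → g • f j = f j) ∧ g • f i ≠ f i) := by
  constructor
  · intro h i
    have hi : (i : ℕ) < (List.ofFn f).length := by simp
    obtain ⟨g, hg1, hg2⟩ := h ((List.ofFn f).take i) ((List.ofFn f)[(i : ℕ)])
      ((List.ofFn f).drop (i+1)) (by
        rw [List.getElem_cons_drop, List.take_append_drop])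
    refine ⟨g, ?_, ?_⟩
    · intro j hj
      apply hg1
      rw [List.mem_take_iff_getElem]
      refine ⟨j, ?_, ?_⟩
      · simp only [List.length_ofFn]
        have : (j : ℕ) < i := hj
        omega
      · simp
    · simpa using hg2
  · intro h l₁ x l₂ hl
    have hlen : l₁.length < t := by
      have := congrArg List.length hl
      simp at this
      omega
    obtain ⟨g, hg1, hg2⟩ := h ⟨l₁.length, hlen⟩
    have key : ∀ (j : ℕ) (hj : j < t), (List.ofFn f)[j]'(by simpa using hj) = f ⟨j, hj⟩ := by
      intro j hj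
      simp
    have key2 : ∀ (j : ℕ) (hj : j < t), (l₁ ++ x :: l₂)[j]'(by rw [← hl]; simpa using hj) = f ⟨j, hj⟩ := by
      intro j hj
      rw [← key j hj]
      congr 1
      exact hl.symm
    refine ⟨g, ?_, ?_⟩
    · intro y hy
      obtain ⟨j, hj, rfl⟩ := List.getElem_of_mem hy
      have h1 := hg1 ⟨j, by omega⟩ (by simpa [Fin.lt_def] using hj)
      have h2 := key2 j (by omega)
      rw [List.getElem_append_left hj] at h2
      rw [h2]
      exact h1
    · have h2 := key2 l₁.length hlen
      rw [List.getElem_append_right (le_refl _)] at h2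
      simp only [Nat.sub_self, List.getElem_cons_zero] at h2
      rw [h2]
      exact hg2

theorem irr_snoc (l : List Ω) (y : Ω) :
    Irr G (l ++ [y]) ↔ Irr G l ∧ ∃ g : G, (∀ z ∈ l, g • z = z) ∧ g • y ≠ y := by
  constructor
  · intro h
    refine ⟨?_, ?_⟩
    · intro l₁ x l₂ hl
      exact h l₁ x (l₂ ++ [y]) (by rw [hl]; simp)
    · exact h l y [] rfl
  · rintro ⟨h1, h2⟩ l₁ x l₂ hl
    rcases List.eq_nil_or_concat l₂ with rfl | ⟨l₂', z, rfl⟩
    · have := List.append_inj' hl (by simp)
      obtain ⟨e1, e2⟩ := this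
      simp only [List.cons.injEq, and_true] at e2
      subst e1 e2
      exact h2
    · have e : l ++ [y] = (l₁ ++ x :: l₂') ++ [z] := by rw [hl]; simp
      have := List.append_inj' e (by simp)
      exact h1 l₁ x l₂' this.1

theorem irr_nodup : ∀ (l : List Ω), Irr G l → l.Nodup := by
  intro l
  induction l using List.reverseRecOn with
  | nil => intro _; exact List.nodup_nil
  | append_singleton l x ih =>
    intro h
    rw [irr_snoc] at h
    obtain ⟨h1, g, hg1, hg2⟩ := h
    rw [List.nodup_append]
    refine ⟨ih h1, List.nodup_singleton x, ?_⟩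
    intro a ha b hb
    simp only [List.mem_singleton] at hb
    subst hb
    rintro rfl
    exact hg2 (hg1 _ ha)

/-- pruning a base to an irredundant base -/
theorem prune : ∀ (n : ℕ) (l : List Ω), l.length = n → IsB G l →
    ∃ l' : List Ω, IsB G l' ∧ Irr G l' ∧ l'.length ≤ n ∧ (¬ Irr G l → l'.length < n) := by
  intro n
  induction n using Nat.strong_induction_on with
  | _ n ih =>
    intro l hl hB
    by_cases hI : Irr G l
    · exact ⟨l, hB, hI, hl.le, fun h => absurd hI h⟩
    · have hI' := hI
      unfold Irr at hI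
      push Not at hI
      obtain ⟨l₁, x, l₂, e, hx⟩ := hI
      have hB' : IsB G (l₁ ++ l₂) := by
        intro g hg
        apply hB
        intro y hy
        rw [e] at hy
        simp only [List.mem_append, List.mem_cons] at hy
        rcases hy with hy | rfl | hy
        · exact hg y (by simp [hy])
        · exact hx g (fun z hz => hg z (by simp [hz]))
        · exact hg y (by simp [hy])
      have hlen : (l₁ ++ l₂).length < n := by
        rw [← hl, e]; simp
      obtain ⟨l', h1, h2, h3, _⟩ := ih _ hlen (l₁ ++ l₂) rfl hB'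
      exact ⟨l', h1, h2, by omega, fun _ => by omega⟩

/-- list form of the reordering property -/
def Reord (G : Type*) (Ω : Type*) [Group G] [MulAction G Ω] : Prop :=
  ∀ l l' : List Ω, IsB G l → Irr G l → l.Perm l' → (IsB G l' ∧ Irr G l')

theorem isB_perm {l l' : List Ω} (h : l.Perm l') (hB : IsB G l) : IsB G l' := by
  intro g hg
  exact hB g (fun x hx => hg x (h.subset hx))

theorem isB_mono {l l' : List Ω} (h : l ⊆ l') (hB : IsB G l) : IsB G l' := by
  intro g hg
  exact hB g (fun x hx => hg x (h hx))

theorem base_case (hR : Reord G Ω) [DecidableEq Ω] (l l' : List Ω) (hB : IsB G l) (hI : Irr G l)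
    (hB' : IsB G l') (hI' : Irr G l') (hsub : l ⊆ l') : l.length = l'.length := by
  have hn := irr_nodup (G := G) l hI
  have hn' := irr_nodup (G := G) l' hI'
  by_cases hsub' : l' ⊆ l
  · have : l.Perm l' := by
      rw [List.perm_ext_iff_of_nodup hn hn']
      intro a
      exact ⟨fun h => hsub h, fun h => hsub' h⟩
    exact this.length_eq
  · exfalso
    rw [List.subset_def] at hsub'
    push Not at hsub'
    obtain ⟨y, hy, hyl⟩ := hsub'
    have hp : l'.Perm (l'.erase y ++ [y]) :=
      (List.perm_cons_erase hy).trans (List.perm_append_singleton y _).symm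
    obtain ⟨_, h2⟩ := hR _ _ hB' hI' hp
    rw [irr_snoc] at h2
    obtain ⟨_, g, hg1, hg2⟩ := h2
    have : g = 1 := by
      apply hB
      intro x hx
      apply hg1
      exact (List.mem_erase_of_ne (by rintro rfl; exact hyl hx)).2 (hsub hx)
    rw [this, one_smul] at hg2
    exact hg2 rfl

theorem main_ind (hR : Reord G Ω) [DecidableEq Ω] : ∀ (k : ℕ) (l l' : List Ω), IsB G l → Irr G l →
    IsB G l' → Irr G l' → (l.toFinset \ l'.toFinset).card ≤ k → l.length = l'.length := by
  intro k
  induction k with
  | zero =>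
    intro l l' hB hI hB' hI' hk
    apply base_case hR l l' hB hI hB' hI'
    intro x hx
    have : l.toFinset \ l'.toFinset = ∅ := Finset.card_eq_zero.1 (Nat.le_zero.1 hk)
    rw [Finset.sdiff_eq_empty_iff_subset] at this
    simpa using this (List.mem_toFinset.2 hx)
  | succ k ih =>
    intro l l' hB hI hB' hI' hk
    by_cases hsub : l ⊆ l'
    · exact base_case hR l l' hB hI hB' hI' hsub
    · rw [List.subset_def] at hsub
      push Not at hsub
      obtain ⟨x, hx, hxl'⟩ := hsub
      have hp : l.Perm (l.erase x ++ [x]) :=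
        (List.perm_cons_erase hx).trans (List.perm_append_singleton x _).symm
      obtain ⟨hB1, hI1⟩ := hR _ _ hB hI hp
      have hI1' := hI1
      rw [irr_snoc] at hI1
      obtain ⟨hI0, g, hg1, hg2⟩ := hI1
      -- y ∈ l' moved by g
      have hy : ∃ y ∈ l', g • y ≠ y := by
        by_contra hcon
        push Not at hcon
        have : g = 1 := hB' g hcon
        rw [this, one_smul] at hg2
        exact hg2 rfl
      obtain ⟨y, hyl', hgy⟩ := hy
      have hI2 : Irr G (l.erase x ++ [y]) := by
        rw [irr_snoc]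
        exact ⟨hI0, g, hg1, hgy⟩
      have hB2 : IsB G (l.erase x ++ [y]) := by
        by_contra hcon
        unfold IsB at hcon
        push Not at hcon
        obtain ⟨h, hh1, hh2⟩ := hcon
        have hhx : h • x ≠ x := by
          intro hhx
          apply hh2
          apply hB1
          intro z hz
          simp only [List.mem_append, List.mem_singleton] at hz
          rcases hz with hz | rfl
          · exact hh1 z (by simp [hz])
          · exact hhx
        have hI3 : Irr G ((l.erase x ++ [y]) ++ [x]) := by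
          rw [irr_snoc]
          exact ⟨hI2, h, hh1, hhx⟩
        have hB3 : IsB G ((l.erase x ++ [y]) ++ [x]) := by
          refine isB_mono ?_ hB1
          intro z hz
          simp only [List.mem_append, List.mem_singleton] at hz ⊢
          tauto
        have hp3 : ((l.erase x ++ [y]) ++ [x]).Perm ((l.erase x ++ [x]) ++ [y]) := by
          rw [List.append_assoc, List.append_assoc]
          exact List.Perm.append_left _ (List.Perm.swap x y [])
        obtain ⟨_, hI4⟩ := hR _ _ hB3 hI3 hp3
        rw [irr_snoc] at hI4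
        obtain ⟨_, g', hg'1, hg'2⟩ := hI4
        have : g' = 1 := hB1 g' hg'1
        rw [this, one_smul] at hg'2
        exact hg'2 rfl
      have hlen : (l.erase x ++ [y]).length = l.length := by
        rw [hp.length_eq]; simp
      rw [← hlen]
      apply ih _ _ hB2 hI2 hB' hI'
      have hss : (l.erase x ++ [y]).toFinset \ l'.toFinset ⊆ (l.toFinset \ l'.toFinset).erase x := by
        intro z hz
        simp only [Finset.mem_sdiff, List.mem_toFinset, List.mem_append, List.mem_singleton,
          Finset.mem_erase] at hz ⊢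
        obtain ⟨hz1, hz2⟩ := hz
        rcases hz1 with hz1 | rfl
        · have hn := irr_nodup (G := G) l hI
          exact ⟨fun e => by
            subst e
            exact (List.Nodup.mem_erase_iff hn).1 hz1 |>.1 rfl, List.mem_of_mem_erase hz1, hz2⟩
        · exact absurd hyl' hz2
      have hc := Finset.card_le_card hss
      have hxm : x ∈ l.toFinset \ l'.toFinset := by
        simp [hx, hxl']
      rw [Finset.card_erase_of_mem hxm] at hc
      omega

theorem reord_of (h : ∀ (t : ℕ) (f : Fin t → Ω) (σ : Equiv.Perm (Fin t)), ((∀ g : G, (∀ i : Fin t, g • f i = f i) → g = 1) ∧ ∀ i : Fin t, ∃ g : G, (∀ j : Fin t, j < i → g • f j = f j) ∧ g • f i ≠ f i) → ((∀ g : G, (∀ i : Fin t, g • (f ∘ σ) i = (f ∘ σ) i) → g = 1) ∧ ∀ i : Fin t, ∃ g : G, (∀ j : Fin t, j < i → g • (f ∘ σ) j = (f ∘ σ) j) ∧ g • (f ∘ σ) i ≠ (f ∘ σ) i)) :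
    Reord G Ω := by
  classical
  intro l l' hB hI hp
  have hn := irr_nodup (G := G) l hI
  have hn' : l'.Nodup := hp.nodup_iff.1 hn
  have hlen : l'.length = l.length := hp.length_eq.symm
  have hmem : ∀ i : Fin l.length, l.idxOf (l'[(i : ℕ)]'(by rw [hlen]; exact i.2)) < l.length := by
    intro i
    apply List.idxOf_lt_length_of_mem
    exact hp.symm.subset (List.getElem_mem _)
  let s : Fin l.length → Fin l.length := fun i => ⟨_, hmem i⟩
  have hs : ∀ i : Fin l.length, l[(s i : ℕ)] = l'[(i : ℕ)]'(by rw [hlen]; exact i.2) := by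
    intro i
    exact List.getElem_idxOf _
  have hinj : Function.Injective s := by
    intro i j hij
    have h1 := hs i
    have h2 := hs j
    have : l'[(i : ℕ)]'(by rw [hlen]; exact i.2) = l'[(j : ℕ)]'(by rw [hlen]; exact j.2) := by
      rw [← h1, ← h2]
      simp only [hij]
    have := (List.Nodup.getElem_inj_iff hn').1 this
    exact Fin.ext this
  let σ : Equiv.Perm (Fin l.length) := Equiv.ofBijective s (Finite.injective_iff_bijective.1 hinj)
  have e1 : List.ofFn l.get = l := List.ofFn_get l
  have e2 : List.ofFn (l.get ∘ σ) = l' := by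
    apply List.ext_getElem
    · simp [hlen]
    · intro i h1 h2
      simp only [List.getElem_ofFn, Function.comp_apply, List.get_eq_getElem]
      have : i < l.length := by simpa using h1
      exact hs ⟨i, this⟩
  have := h l.length l.get σ ⟨(isB_ofFn _).1 (by rw [e1]; exact hB), (irr_ofFn _).1 (by rw [e1]; exact hI)⟩
  rw [← isB_ofFn, ← irr_ofFn, e2] at this
  exact this

/-- Let a finite group G act on a finite set Ω. An irredundant base is a sequence of points ω₁, …, ω_t whose pointwise stabiliser is trivial and in which each ω_i is moved by some element fixing ω₁, …, ω_{i−1}. Then all irredundant bases have the same length if and only if every reordering of an irredundant base is again an irredundant base. -/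
theorem result {G Ω : Type*} [Group G] [Finite G] [MulAction G Ω] [Fintype Ω] :
    (∀ (t t' : ℕ) (f : Fin t → Ω) (f' : Fin t' → Ω), ((∀ g : G, (∀ i : Fin t, g • f i = f i) → g = 1) ∧ ∀ i : Fin t, ∃ g : G, (∀ j : Fin t, j < i → g • f j = f j) ∧ g • f i ≠ f i) → ((∀ g : G, (∀ i : Fin t', g • f' i = f' i) → g = 1) ∧ ∀ i : Fin t', ∃ g : G, (∀ j : Fin t', j < i → g • f' j = f' j) ∧ g • f' i ≠ f' i) → t = t') ↔
    (∀ (t : ℕ) (f : Fin t → Ω) (σ : Equiv.Perm (Fin t)), ((∀ g : G, (∀ i : Fin t, g • f i = f i) → g = 1) ∧ ∀ i : Fin t, ∃ g : G, (∀ j : Fin t, j < i → g • f j = f j) ∧ g • f i ≠ f i) → ((∀ g : G, (∀ i : Fin t, g • (f ∘ σ) i = (f ∘ σ) i) → g = 1) ∧ ∀ i : Fin t, ∃ g : G, (∀ j : Fin t, j < i → g • (f ∘ σ) j = (f ∘ σ) j) ∧ g • (f ∘ σ) i ≠ (f ∘ σ) i)) := by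
  classical
  constructor
  · intro h t f σ ⟨hb, hi⟩
    have hb' : ∀ g : G, (∀ i : Fin t, g • (f ∘ σ) i = (f ∘ σ) i) → g = 1 := by
      intro g hg
      apply hb
      intro i
      have := hg (σ.symm i)
      simpa using this
    refine ⟨hb', ?_⟩
    by_contra hcon
    rw [← irr_ofFn] at hcon
    rw [← isB_ofFn] at hb'
    obtain ⟨l', h1, h2, h3, h4⟩ := prune _ _ rfl hb'
    have h5 := h4 hcon
    simp only [List.length_ofFn] at h5
    have e1 : List.ofFn l'.get = l' := List.ofFn_get l'
    have := h t l'.length f l'.get ⟨hb, hi⟩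
      ⟨(isB_ofFn _).1 (by rw [e1]; exact h1), (irr_ofFn _).1 (by rw [e1]; exact h2)⟩
    omega
  · intro h t t' f f' ⟨hb, hi⟩ ⟨hb', hi'⟩
    have hR := reord_of h
    rw [← isB_ofFn] at hb hb'
    rw [← irr_ofFn] at hi hi'
    have := main_ind hR _ _ _ hb hi hb' hi' le_rfl
    simpa using this

end Cfsg.Agent.S5747
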