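import Cfsg.Statements.S5754
import Mathlib
-- import your own Cfsg.Agent.* helpers here

set_option autoImplicit false
open Cfsg

namespace Cfsg.Agent.S5754

/-- The reflection along a non-singular vector `d`, as a linear map. -/
noncomputable def reflLin {F V : Type*} [Field F] [AddCommGroup V] [Module F V]
    (Q : QuadraticForm F V) (d : V) : V →ₗ[F] V :=
  LinearMap.id - ((Q d)⁻¹ • (QuadraticMap.polarBilin Q).flip d).smulRight d

theorem reflLin_apply {F V : Type*} [Field F] [AddCommGroup V] [Module F V]
    (Q : QuadraticForm F V) (d v : V) :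
    reflLin Q d v = v - ((Q d)⁻¹ * QuadraticMap.polar Q v d) • d := by
  simp [reflLin]

theorem reflLin_invol {F V : Type*} [Field F] [AddCommGroup V] [Module F V]
    (Q : QuadraticForm F V) (d : V) (hd : Q d ≠ 0) (v : V) :
    reflLin Q d (reflLin Q d v) = v := by
  rw [reflLin_apply, reflLin_apply]
  have h1 : QuadraticMap.polar Q (v - ((Q d)⁻¹ * QuadraticMap.polar Q v d) • d) d
      = - QuadraticMap.polar Q v d := by
    rw [QuadraticMap.polar_sub_left, QuadraticMap.polar_smul_left, QuadraticMap.polar_self]
    simp only [smul_eq_mul, nsmul_eq_mul, Nat.cast_ofNat]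
    field_simp
    ring
  rw [h1]
  simp only [mul_neg, neg_smul, sub_neg_eq_add, sub_add_cancel]

theorem reflLin_norm {F V : Type*} [Field F] [AddCommGroup V] [Module F V]
    (Q : QuadraticForm F V) (d : V) (hd : Q d ≠ 0) (v : V) :
    Q (reflLin Q d v) = Q v := by
  rw [reflLin_apply, sub_eq_add_neg, ← neg_smul, QuadraticMap.map_add Q, QuadraticMap.map_smul,
    QuadraticMap.polar_smul_right]
  simp only [smul_eq_mul]
  field_simp
  ring

/-- The reflection along a non-singular vector as an isometry. -/
noncomputable def reflIso {F V : Type*} [Field F] [AddCommGroup V] [Module F V]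
    (Q : QuadraticForm F V) (d : V) (hd : Q d ≠ 0) : Q.IsometryEquiv Q :=
  { LinearEquiv.ofInvolutive (reflLin Q d) (reflLin_invol Q d hd) with
    map_app' := fun v => reflLin_norm Q d hd v }

theorem reflIso_apply {F V : Type*} [Field F] [AddCommGroup V] [Module F V]
    (Q : QuadraticForm F V) (d : V) (hd : Q d ≠ 0) (v : V) :
    reflIso Q d hd v = v - ((Q d)⁻¹ * QuadraticMap.polar Q v d) • d :=
  reflLin_apply Q d v

theorem norm_sub_eq {F V : Type*} [Field F] [AddCommGroup V] [Module F V]
    (Q : QuadraticForm F V) (a b : V) :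
    Q (a - b) = Q a + Q b - QuadraticMap.polar Q a b := by
  rw [sub_eq_add_neg, QuadraticMap.map_add Q, QuadraticMap.map_neg, QuadraticMap.polar_neg_right]
  ring

theorem exists_iso {F V ι : Type*} [Field F] [AddCommGroup V] [Module F V] [DecidableEq ι]
    (Q : QuadraticForm F V) (hQ : Q.Anisotropic) (x y : ι → V) (s : Finset ι) :
    (∀ i ∈ s, Q (x i) = Q (y i)) → (∀ i ∈ s, ∀ j ∈ s, Q (x i - x j) = Q (y i - y j)) →
    ∃ φ : Q.IsometryEquiv Q, ∀ i ∈ s, φ (x i) = y i := by
  induction s using Finset.induction_on with
  | empty => intro _ _; exact ⟨QuadraticMap.IsometryEquiv.refl Q, by simp⟩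
  | insert a s ha ih =>
    intro h1 h2
    obtain ⟨φ, hφ⟩ := ih (fun i hi => h1 i (Finset.mem_insert_of_mem hi))
      (fun i hi j hj => h2 i (Finset.mem_insert_of_mem hi) j (Finset.mem_insert_of_mem hj))
    by_cases hd : φ (x a) - y a = 0
    · refine ⟨φ, fun i hi => ?_⟩
      rcases Finset.mem_insert.mp hi with rfl | hi
      · exact sub_eq_zero.mp hd
      · exact hφ i hi
    · have hd' : Q (φ (x a) - y a) ≠ 0 := fun h => hd (hQ _ h)
      have hQa : Q (φ (x a)) = Q (y a) := by
        rw [QuadraticMap.IsometryEquiv.map_app]; exact h1 a (Finset.mem_insert_self a s)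
      refine ⟨φ.trans (reflIso Q _ hd'), fun i hi => ?_⟩
      show reflIso Q _ hd' (φ (x i)) = y i
      rw [reflIso_apply]
      rcases Finset.mem_insert.mp hi with rfl | hi
      · -- the new point
        have hp : QuadraticMap.polar Q (φ (x i)) (φ (x i) - y i) = Q (φ (x i) - y i) := by
          rw [QuadraticMap.polar_sub_right, QuadraticMap.polar_self, norm_sub_eq, hQa]
          simp only [nsmul_eq_mul, Nat.cast_ofNat]
          ring
        rw [hp, inv_mul_cancel₀ hd', one_smul]
        abel
      · -- old points are fixed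
        rw [hφ i hi]
        have hp : QuadraticMap.polar Q (y i) (φ (x a) - y a) = 0 := by
          rw [QuadraticMap.polar_sub_right]
          have e1 : QuadraticMap.polar Q (y i) (φ (x a)) = Q (y i) + Q (φ (x a)) - Q (y i - φ (x a)) := by
            rw [norm_sub_eq]; ring
          have e2 : QuadraticMap.polar Q (y i) (y a) = Q (y i) + Q (y a) - Q (y i - y a) := by
            rw [norm_sub_eq]; ring
          have e3 : Q (y i - φ (x a)) = Q (y i - y a) := by
            have e4 : y i - φ (x a) = φ (x i - x a) := by rw [map_sub, hφ i hi]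
            rw [e4, QuadraticMap.IsometryEquiv.map_app]
            exact h2 i (Finset.mem_insert_of_mem hi) a (Finset.mem_insert_self a s)
          rw [e1, e2, e3, hQa]; ring
        rw [hp, mul_zero, zero_smul, sub_zero]

/-- Let V be a finite-dimensional vector space over a finite field F carrying an anisotropic quadratic form Q (Q(v) = 0 only for v = 0). Then the group of all maps v ↦ φ(v) + c, with φ an isometry of Q and c ∈ V, acts on V as a binary permutation group: given n ≥ 2 and two n-tuples u, u' of vectors such that every pair of corresponding entries of u is carried to that of u' by such a map, one such map carries u to u'. -/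
theorem result {F V : Type*} [Field F] [Finite F] [AddCommGroup V] [Module F V] [Module.Finite F V]
    (Q : QuadraticForm F V) (hQ : Q.Anisotropic) (n : ℕ) (hn : 2 ≤ n) (u u' : Fin n → V)
    (h2 : ∀ i j : Fin n, i ≠ j → ∃ (φ : Q.IsometryEquiv Q) (c : V), φ (u i) + c = u' i ∧ φ (u j) + c = u' j) :
    ∃ (φ : Q.IsometryEquiv Q) (c : V), ∀ i, φ (u i) + c = u' i := by
  classical
  have hn0 : 0 < n := by omega
  let i0 : Fin n := ⟨0, hn0⟩
  have hpair : ∀ i j : Fin n, Q (u i - u j) = Q (u' i - u' j) := by
    intro i j
    by_cases hij : i = j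
    · subst hij; simp
    · obtain ⟨φ, c, h1, h2'⟩ := h2 i j hij
      rw [← h1, ← h2', add_sub_add_right_eq_sub, ← map_sub, QuadraticMap.IsometryEquiv.map_app]
  obtain ⟨φ, hφ⟩ := exists_iso Q hQ (fun i => u i - u i0) (fun i => u' i - u' i0) Finset.univ
    (fun i _ => hpair i i0)
    (fun i _ j _ => by
      have := hpair i j
      simpa using this)
  refine ⟨φ, u' i0 - φ (u i0), fun i => ?_⟩
  have h := hφ i (Finset.mem_univ i)
  simp only [map_sub] at h
  have h' : φ (u i) = u' i - u' i0 + φ (u i0) := sub_eq_iff_eq_add.mp h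
  rw [h']
  abel

end Cfsg.Agent.S5754
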