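import Cfsg.Statements.S5885
import Mathlib
import Cfsg.Agent.Lib.Helper9.Coatom

set_option autoImplicit false
open Cfsg

namespace Cfsg.Agent.S5885

/-- Let n be an odd positive integer such that every primitive permutation group of degree n contains the alternating group (so the symmetric and alternating groups are the only primitive groups of degree n). Let G be a finite group, M a maximal subgroup of G of index n, and H a maximal subgroup of M. Then H is a second maximal subgroup of G: H is maximal in every maximal subgroup K of G containing H. -/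
theorem result {G : Type*} [Group G]
    [Finite G] (n : ℕ) (hodd : Odd n)
    (hA : ∀ P : Subgroup (Equiv.Perm (Fin n)), MulAction.IsPreprimitive P (Fin n) → alternatingGroup (Fin n) ≤ P)
    (M : Subgroup G) (hM : IsCoatom M) (hn : M.index = n) (H : Subgroup G) (hHM : H ≤ M)
    (hmax : IsCoatom (H.subgroupOf M)) (K : Subgroup G) (hK : IsCoatom K) (hHK : H ≤ K) :
    IsCoatom (H.subgroupOf K) := by
  classical
  have hMtop : M ≠ ⊤ := hM.1
  have hstab : MulAction.stabilizer G ((1 : G) : G ⧸ M) = M := MulAction.stabilizer_quotient M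
  have hcard : Nat.card (G ⧸ M) = n := hn
  have : Nontrivial (G ⧸ M) := by
    have h1 : 1 < Nat.card (G ⧸ M) := Subgroup.one_lt_index_of_ne_top hMtop
    exact Finite.one_lt_card_iff_nontrivial.mp h1
  have hprim : MulAction.IsPreprimitive G (G ⧸ M) := by
    rw [← MulAction.isCoatom_stabilizer_iff_preprimitive G ((1 : G) : G ⧸ M), hstab]; exact hM
  let e : (G ⧸ M) ≃ Fin n := Finite.equivFinOfCardEq hcard
  let φ : G →* Equiv.Perm (Fin n) :=
    (e.permCongrHom).toMonoidHom.comp (MulAction.toPermHom G (G ⧸ M))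
  have hφ : ∀ (g : G) (x : G ⧸ M), φ g (e x) = e (g • x) := by
    intro g x
    simp [φ, Equiv.permCongrHom]
  have hP : MulAction.IsPreprimitive φ.range (Fin n) := by
    let f : (G ⧸ M) →ₑ[φ.rangeRestrict] Fin n :=
      { toFun := e
        map_smul' := fun g x => by
          change e (g • x) = (φ g) (e x)
          rw [hφ] }
    exact MulAction.IsPreprimitive.of_surjective (f := f) e.surjective
  have hAP := hA φ.range hP
  -- three-cycles are realised
  have h3 : ∀ x y z : G ⧸ M, x ≠ y → x ≠ z → y ≠ z →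
      ∃ g : G, g • x = y ∧ g • y = z ∧ g • z = x ∧ ∀ w, w ≠ x → w ≠ y → w ≠ z → g • w = w := by
    intro x y z hxy hxz hyz
    have hc : (Equiv.swap (e y) (e x) * Equiv.swap (e y) (e z)) ∈ alternatingGroup (Fin n) :=
      (Equiv.Perm.isThreeCycle_swap_mul_swap_same (e.injective.ne hxy.symm) (e.injective.ne hyz)
        (e.injective.ne hxz)).mem_alternatingGroup
    obtain ⟨g, hg⟩ := hAP hc
    have hgw : ∀ w, g • w = e.symm ((Equiv.swap (e y) (e x) * Equiv.swap (e y) (e z)) (e w)) := by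
      intro w; rw [← hg, hφ, Equiv.symm_apply_apply]
    refine ⟨g, ?_, ?_, ?_, ?_⟩
    · rw [hgw, Equiv.Perm.mul_apply,
        Equiv.swap_apply_of_ne_of_ne (e.injective.ne hxy) (e.injective.ne hxz),
        Equiv.swap_apply_right, Equiv.symm_apply_apply]
    · rw [hgw, Equiv.Perm.mul_apply, Equiv.swap_apply_left,
        Equiv.swap_apply_of_ne_of_ne (e.injective.ne hyz.symm) (e.injective.ne hxz.symm),
        Equiv.symm_apply_apply]
    · rw [hgw, Equiv.Perm.mul_apply, Equiv.swap_apply_right, Equiv.swap_apply_left,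
        Equiv.symm_apply_apply]
    · intro w hwx hwy hwz
      rw [hgw, Equiv.Perm.mul_apply,
        Equiv.swap_apply_of_ne_of_ne (e.injective.ne hwy) (e.injective.ne hwz),
        Equiv.swap_apply_of_ne_of_ne (e.injective.ne hwy) (e.injective.ne hwx),
        Equiv.symm_apply_apply]
  rw [Cfsg.Agent.Lib.Helper9.isCoatom_subgroupOf_iff hHK]
  obtain ⟨hMH, hmaxL⟩ := (Cfsg.Agent.Lib.Helper9.isCoatom_subgroupOf_iff hHM).mp hmax
  refine ⟨?_, ?_⟩
  · intro hKH
    have hKM : K ≤ M := hKH.trans hHM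
    have hKeqM : K = M := by
      rcases eq_or_lt_of_le hKM with h | h
      · exact h
      · exact absurd (hK.2 M h) hMtop
    exact hMH (hKeqM ▸ hKH)
  · intro L hHL hLK hLH
    by_cases hMK : M ≤ K
    · have hKeqM : M = K := by
        rcases eq_or_lt_of_le hMK with h | h
        · exact h
        · exact absurd (hM.2 K h) hK.1
      rw [← hKeqM] at hLK ⊢
      exact hmaxL L hHL hLK hLH
    · have hKM : K ⊓ M ≤ H := by
        by_contra hcon
        exact hMK ((hmaxL (K ⊓ M) (le_inf hHK hHM) inf_le_right hcon).trans inf_le_left)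
      by_contra hKL
      obtain ⟨l, hlL, hlH⟩ := SetLike.not_le_iff_exists.mp hLH
      obtain ⟨k, hkK, hkL⟩ := SetLike.not_le_iff_exists.mp hKL
      have hKα : ∀ g ∈ K, g • ((1 : G) : G ⧸ M) = ((1 : G) : G ⧸ M) → g ∈ H := by
        intro g hg hgα
        refine hKM ⟨hg, ?_⟩
        rw [← hstab]; exact hgα
      have hblock : ∀ k' ∈ K, ∀ l₁ ∈ L, ∀ l₂ ∈ L,
          (k' * l₁) • ((1 : G) : G ⧸ M) = l₂ • ((1 : G) : G ⧸ M) → k' ∈ L := by
        intro k' hk' l₁ hl₁ l₂ hl₂ h
        have h1 : (l₂⁻¹ * (k' * l₁)) • ((1 : G) : G ⧸ M) = ((1 : G) : G ⧸ M) := by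
          rw [mul_smul, h, ← mul_smul, inv_mul_cancel, one_smul]
        have hh := hHL (hKα _ (K.mul_mem (K.inv_mem (hLK hl₂)) (K.mul_mem hk' (hLK hl₁))) h1)
        have h2 : k' = l₂ * (l₂⁻¹ * (k' * l₁)) * l₁⁻¹ := by group
        rw [h2]
        exact L.mul_mem (L.mul_mem hl₂ hh) (L.inv_mem hl₁)
      -- the block Γ
      obtain ⟨Γ, hΓ⟩ : ∃ Γ : Set (G ⧸ M), Γ = {x | ∃ l' ∈ L, l' • ((1 : G) : G ⧸ M) = x} := ⟨_, rfl⟩
      have hαΓ : ((1 : G) : G ⧸ M) ∈ Γ := by
        rw [hΓ]; exact ⟨1, L.one_mem, one_smul _ _⟩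
      have hβΓ : l • ((1 : G) : G ⧸ M) ∈ Γ := by
        rw [hΓ]; exact ⟨l, hlL, rfl⟩
      have hLΓ : ∀ l' ∈ L, ∀ x, l' • x ∈ Γ ↔ x ∈ Γ := by
        intro l' hl' x
        rw [hΓ]
        constructor
        · rintro ⟨l'', hl'', h⟩
          refine ⟨l'⁻¹ * l'', L.mul_mem (L.inv_mem hl') hl'', ?_⟩
          rw [mul_smul, h, ← mul_smul, inv_mul_cancel, one_smul]
        · rintro ⟨l'', hl'', h⟩
          exact ⟨l' * l'', L.mul_mem hl' hl'', by rw [mul_smul, h]⟩
      have hkΓ : ∀ l' ∈ L, (k * l') • ((1 : G) : G ⧸ M) ∉ Γ := by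
        intro l' hl' hmem
        rw [hΓ] at hmem
        obtain ⟨l'', hl'', h⟩ := hmem
        exact hkL (hblock k hkK l' hl' l'' hl'' h.symm)
      have hαβ : ((1 : G) : G ⧸ M) ≠ l • ((1 : G) : G ⧸ M) := by
        intro h
        exact hlH (hKα l (hLK hlL) h.symm)
      have hδΓ : k • ((1 : G) : G ⧸ M) ∉ Γ := by
        have := hkΓ 1 L.one_mem
        rwa [mul_one] at this
      have hεΓ : (k * l) • ((1 : G) : G ⧸ M) ∉ Γ := hkΓ l hlL
      have hδε : k • ((1 : G) : G ⧸ M) ≠ (k * l) • ((1 : G) : G ⧸ M) := by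
        intro h
        rw [mul_smul] at h
        exact hαβ (smul_left_cancel k h)
      -- Step 1
      have hstar : ∀ m : G, m • ((1 : G) : G ⧸ M) = ((1 : G) : G ⧸ M) → (∀ x, m • x ∈ Γ ↔ x ∈ Γ) → m ∈ H := by
        intro m hmα hmΓ
        by_contra hmH
        obtain ⟨J, hJmem⟩ := Cfsg.Agent.Lib.Helper9.exists_setStabilizer (G := G) Γ
        have hmJ : m ∈ M ⊓ J := by
          refine ⟨?_, ?_⟩
          · rw [← hstab]; exact hmα
          · exact (hJmem m).mpr hmΓ
        have hHJ : H ≤ M ⊓ J := by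
          intro h hh
          exact ⟨hHM hh, (hJmem h).mpr (hLΓ h (hHL hh))⟩
        have hJ := hmaxL (M ⊓ J) hHJ inf_le_left (fun hle => hmH (hle hmJ))
        obtain ⟨g₁, h1, h2, h3', h4⟩ := h3 (l • ((1 : G) : G ⧸ M)) (k • ((1 : G) : G ⧸ M))
          ((k * l) • ((1 : G) : G ⧸ M)) (fun h => hδΓ (h ▸ hβΓ)) (fun h => hεΓ (h ▸ hβΓ)) hδε
        have hg₁M : g₁ ∈ M := by
          rw [← hstab]
          exact h4 _ hαβ (fun h => hδΓ (h ▸ hαΓ)) (fun h => hεΓ (h ▸ hαΓ))
        have hg₁ := (hJmem g₁).mp (hJ hg₁M).2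
        have := (hg₁ (l • ((1 : G) : G ⧸ M))).mpr hβΓ
        rw [h1] at this
        exact hδΓ this
      -- Step 2
      have hω : ∃ ω : G ⧸ M, ω ∉ Γ ∧ ∀ l' ∈ L, (k * l') • ((1 : G) : G ⧸ M) ≠ ω := by
        by_contra hcon
        push Not at hcon
        have huniv : (Set.univ : Set (G ⧸ M)) = Γ ∪ (fun x => k • x) '' Γ := by
          symm
          rw [Set.eq_univ_iff_forall]
          intro ω
          by_cases hω : ω ∈ Γ
          · exact Or.inl hω
          · obtain ⟨l', hl', h⟩ := hcon ω hω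
            refine Or.inr ⟨l' • ((1 : G) : G ⧸ M), ?_, ?_⟩
            · rw [hΓ]; exact ⟨l', hl', rfl⟩
            · change k • l' • _ = ω
              rw [← mul_smul]; exact h
        have hdisj : Disjoint Γ ((fun x => k • x) '' Γ) := by
          rw [Set.disjoint_left]
          rintro x hx ⟨y, hy, rfl⟩
          rw [hΓ] at hy
          obtain ⟨l', hl', rfl⟩ := hy
          apply hkΓ l' hl'
          rw [mul_smul]; exact hx
        have hc1 := Set.ncard_union_eq hdisj
        rw [← huniv, Set.ncard_univ, hcard,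
          Set.ncard_image_of_injective Γ (MulAction.injective k)] at hc1
        rw [hc1] at hodd
        exact (Nat.not_odd_iff_even.mpr ⟨_, rfl⟩) hodd
      obtain ⟨ω, hωΓ, hωk⟩ := hω
      have hδω : k • ((1 : G) : G ⧸ M) ≠ ω := by
        have := hωk 1 L.one_mem
        rwa [mul_one] at this
      have hεω : (k * l) • ((1 : G) : G ⧸ M) ≠ ω := hωk l hlL
      obtain ⟨g, hg1, hg2, hg3, hg4⟩ := h3 (k • ((1 : G) : G ⧸ M)) ((k * l) • ((1 : G) : G ⧸ M)) ω
        hδε hδω hεω
      have hgα : g • ((1 : G) : G ⧸ M) = ((1 : G) : G ⧸ M) :=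
        hg4 _ (fun h => hδΓ (h ▸ hαΓ)) (fun h => hεΓ (h ▸ hαΓ)) (fun h => hωΓ (h ▸ hαΓ))
      have hgΓ : ∀ x, g • x ∈ Γ ↔ x ∈ Γ := by
        have hfix : ∀ x ∈ Γ, g • x = x := fun x hx =>
          hg4 x (fun h => hδΓ (h ▸ hx)) (fun h => hεΓ (h ▸ hx)) (fun h => hωΓ (h ▸ hx))
        intro x
        constructor
        · intro hx
          by_contra hxΓ
          by_cases h1 : x = k • ((1 : G) : G ⧸ M)
          · rw [h1, hg1] at hx; exact hεΓ hx
          · by_cases h2 : x = (k * l) • ((1 : G) : G ⧸ M)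
            · rw [h2, hg2] at hx; exact hωΓ hx
            · by_cases h3'' : x = ω
              · rw [h3'', hg3] at hx; exact hδΓ hx
              · rw [hg4 x h1 h2 h3''] at hx; exact hxΓ hx
        · intro hx
          rw [hfix x hx]; exact hx
      have hgH : g ∈ H := hstar g hgα hgΓ
      have hgK : g ∈ K := hHK hgH
      have hconj : k⁻¹ * g * k ∈ L := by
        have h1 : (l⁻¹ * (k⁻¹ * g * k)) • ((1 : G) : G ⧸ M) = ((1 : G) : G ⧸ M) := by
          have : (k⁻¹ * g * k) • ((1 : G) : G ⧸ M) = l • ((1 : G) : G ⧸ M) := by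
            rw [mul_smul, mul_smul, hg1, ← mul_smul, ← mul_assoc, inv_mul_cancel, one_mul]
          rw [mul_smul, this, ← mul_smul, inv_mul_cancel, one_smul]
        have hh := hHL (hKα _ (K.mul_mem (K.inv_mem (hLK hlL))
          (K.mul_mem (K.mul_mem (K.inv_mem hkK) hgK) hkK)) h1)
        have h2 : k⁻¹ * g * k = l * (l⁻¹ * (k⁻¹ * g * k)) := by group
        rw [h2]
        exact L.mul_mem hlL hh
      apply hωk ((k⁻¹ * g * k) * l) (L.mul_mem hconj hlL)
      rw [← hg2, ← mul_smul]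
      congr 1
      group

end Cfsg.Agent.S5885
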