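import Cfsg.Statements.S5895
import Mathlib
import Cfsg.Agent.Lib.Helper9.Coatom
-- import your own Cfsg.Agent.* helpers here

set_option autoImplicit false
open Cfsg

namespace Cfsg.Agent.S5895


variable {p d : ℕ} [Fact p.Prime]

abbrev V (p d : ℕ) := Fin d → ZMod p
abbrev AG (p d : ℕ) [Fact p.Prime] := V p d ≃ᵃ[ZMod p] V p d
abbrev PV (p d : ℕ) [Fact p.Prime] := Projectivization (ZMod p) (V p d)
abbrev GLV (p d : ℕ) [Fact p.Prime] := V p d ≃ₗ[ZMod p] V p d

instance finAG : Finite (AG p d) :=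
  Finite.of_injective (fun g : AG p d => (g : V p d → V p d)) DFunLike.coe_injective

lemma decomp (g : AG p d) (v : V p d) : g v = g.linear v + g 0 := by
  have := g.map_vadd 0 v
  simpa using this

lemma inv_apply_apply (g : AG p d) (v : V p d) : g⁻¹ (g v) = v := g.symm_apply_apply v
lemma apply_inv_apply (g : AG p d) (v : V p d) : g (g⁻¹ v) = v := g.apply_symm_apply v

instance actV : MulAction (AG p d) (V p d) where
  smul g v := g v
  one_smul _ := rfl
  mul_smul _ _ _ := rfl

lemma smul_def' (g : AG p d) (v : V p d) : g • v = g v := rfl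

instance pretransAG : MulAction.IsPretransitive (AG p d) (V p d) := by
  constructor
  intro x y
  refine ⟨AffineEquiv.constVAdd (ZMod p) (V p d) (y - x), ?_⟩
  show (y - x) + x = y
  abel

/-- the point stabilizer -/
def Msub (p d : ℕ) [Fact p.Prime] : Subgroup (AG p d) := MulAction.stabilizer (AG p d) (0 : V p d)

lemma mem_Msub (g : AG p d) : g ∈ Msub p d ↔ g 0 = 0 := Iff.rfl

lemma index_Msub : (Msub p d).index = p ^ d := by
  rw [Msub, MulAction.index_stabilizer_of_transitive]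
  rw [Nat.card_eq_fintype_card, Fintype.card_fun, ZMod.card, Fintype.card_fin]

/-- the stabilizer of a projective point under the linear part -/
def Ksub (W : PV p d) : Subgroup (AG p d) :=
  (MulAction.stabilizer (GLV p d) W).comap AffineEquiv.linearHom

lemma mem_Ksub (W : PV p d) (g : AG p d) : g ∈ Ksub W ↔ (AffineEquiv.linearHom g) • W = W := Iff.rfl

lemma mem_Ksub_mk (e : V p d) (he : e ≠ 0) (g : AG p d) :
    g ∈ Ksub (Projectivization.mk (ZMod p) e he) ↔ ∃ a : (ZMod p)ˣ, a • e = g.linear e := by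
  rw [mem_Ksub, Projectivization.smul_mk, Projectivization.mk_eq_mk_iff]
  rfl

lemma lin_toAffine (h : GLV p d) : AffineEquiv.linearHom (h.toAffineEquiv) = h := rfl

lemma toAffine_mem_M (h : GLV p d) : h.toAffineEquiv ∈ Msub p d := by
  rw [mem_Msub]
  show h 0 = 0
  exact map_zero h

lemma exists_lin (v w : V p d) (hv : v ≠ 0) (hw : w ≠ 0) : ∃ h : GLV p d, h v = w := by
  have : MulAction.IsPretransitive (GLV p d) (PV p d) := MulAction.isPretransitive_of_is_two_pretransitive
  obtain ⟨h, hh⟩ := MulAction.exists_smul_eq (GLV p d) (Projectivization.mk (ZMod p) v hv)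
    (Projectivization.mk (ZMod p) w hw)
  rw [Projectivization.smul_mk, Projectivization.mk_eq_mk_iff] at hh
  obtain ⟨a, ha⟩ := hh
  refine ⟨h.trans (LinearEquiv.smulOfUnit a⁻¹), ?_⟩
  show a⁻¹ • h v = w
  have : h v = a • w := ha.symm
  rw [this, inv_smul_smul]

lemma isCoatom_Msub (e : V p d) (he : e ≠ 0) : IsCoatom (Msub p d) := by
  constructor
  · intro htop
    have : AffineEquiv.constVAdd (ZMod p) (V p d) e ∈ Msub p d := by rw [htop]; trivial
    rw [mem_Msub] at this
    apply he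
    have h2 : (AffineEquiv.constVAdd (ZMod p) (V p d) e) 0 = e + 0 := rfl
    rw [h2, add_zero] at this
    exact this
  · intro L hL
    obtain ⟨g, hgL, hgM⟩ := SetLike.exists_of_lt hL
    rw [mem_Msub] at hgM
    rw [eq_top_iff]
    intro x _
    by_cases hx : x 0 = 0
    · exact hL.le ((mem_Msub x).mpr hx)
    · obtain ⟨h, hh⟩ := exists_lin (g 0) (x 0) hgM hx
      have h1 : (h.toAffineEquiv * g)⁻¹ * x ∈ Msub p d := by
        rw [mem_Msub]
        show (h.toAffineEquiv * g)⁻¹ (x 0) = 0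
        have : (h.toAffineEquiv * g) 0 = x 0 := hh
        rw [← this, inv_apply_apply]
      have h2 : h.toAffineEquiv * g ∈ L := L.mul_mem (hL.le (toAffine_mem_M h)) hgL
      have h3 := L.mul_mem h2 (hL.le h1)
      rw [mul_inv_cancel_left] at h3
      exact h3

/-- key step from 2-transitivity on the projective space -/
lemma key_step (W : PV p d) (g x : AG p d) (hg : g ∉ Ksub W) (hx : x ∉ Ksub W) :
    ∃ h : GLV p d, h.toAffineEquiv ∈ Ksub W ∧ (h.toAffineEquiv * g)⁻¹ * x ∈ Ksub W := by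
  have h2 := Projectivization.linearEquiv_is_two_pretransitive (ZMod p) (V p d)
  rw [MulAction.is_two_pretransitive_iff] at h2
  rw [mem_Ksub] at hg hx
  obtain ⟨h, h1, h2⟩ := h2 (a := W) (b := (AffineEquiv.linearHom g) • W) (c := W)
    (d := (AffineEquiv.linearHom x) • W) (Ne.symm hg) (Ne.symm hx)
  refine ⟨h, ?_, ?_⟩
  · rw [mem_Ksub, lin_toAffine]; exact h1
  · rw [mem_Ksub, map_mul, map_inv, map_mul, lin_toAffine, mul_smul, inv_smul_eq_iff, mul_smul]
    exact h2.symm

lemma isCoatom_Ksub (W : PV p d) (g₀ : AG p d) (hg₀ : g₀ ∉ Ksub W) : IsCoatom (Ksub W) := by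
  constructor
  · intro htop
    apply hg₀; rw [htop]; trivial
  · intro L hL
    obtain ⟨g, hgL, hgK⟩ := SetLike.exists_of_lt hL
    rw [eq_top_iff]
    intro x _
    by_cases hx : x ∈ Ksub W
    · exact hL.le hx
    · obtain ⟨h, hh1, hh2⟩ := key_step W g x hgK hx
      have h2 : h.toAffineEquiv * g ∈ L := L.mul_mem (hL.le hh1) hgL
      have h3 := L.mul_mem h2 (hL.le hh2)
      rw [mul_inv_cancel_left] at h3
      exact h3

lemma isCoatom_H (W : PV p d) (g₀ : AG p d) (hg₀ : g₀ ∉ Ksub W) (hg₀M : g₀ ∈ Msub p d) :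
    IsCoatom ((Msub p d ⊓ Ksub W).subgroupOf (Msub p d)) := by
  rw [Cfsg.Agent.Lib.Helper9.isCoatom_subgroupOf_iff inf_le_left]
  constructor
  · intro hle
    exact hg₀ (hle hg₀M).2
  · intro L hHL hLM hLH x hx
    obtain ⟨g, hgL, hgH⟩ := SetLike.not_le_iff_exists.mp hLH
    have hgM : g ∈ Msub p d := hLM hgL
    have hgK : g ∉ Ksub W := fun h => hgH ⟨hgM, h⟩
    by_cases hxK : x ∈ Ksub W
    · exact hHL ⟨hx, hxK⟩
    · obtain ⟨h, hh1, hh2⟩ := key_step W g x hgK hxK
      have hhM := toAffine_mem_M (p := p) (d := d) h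
      have h2 : h.toAffineEquiv * g ∈ L := L.mul_mem (hHL ⟨hhM, hh1⟩) hgL
      have h4 : (h.toAffineEquiv * g)⁻¹ * x ∈ Msub p d :=
        (Msub p d).mul_mem ((Msub p d).inv_mem ((Msub p d).mul_mem hhM hgM)) hx
      have h3 := L.mul_mem h2 (hHL ⟨h4, hh2⟩)
      rw [mul_inv_cancel_left] at h3
      exact h3


/-- the intermediate subgroup `W ⋊ H` -/
def Jsub (e : V p d) (he : e ≠ 0) : Subgroup (AG p d) where
  carrier := {g | g ∈ Ksub (Projectivization.mk (ZMod p) e he) ∧ ∃ c : ZMod p, c • e = g 0}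
  one_mem' := ⟨Subgroup.one_mem _, 0, by rw [zero_smul]; rfl⟩
  mul_mem' := by
    rintro g g' ⟨hg, c, hc⟩ ⟨hg', c', hc'⟩
    refine ⟨Subgroup.mul_mem _ hg hg', ?_⟩
    obtain ⟨a, ha⟩ := (mem_Ksub_mk e he g).mp hg
    refine ⟨c' * (a : ZMod p) + c, ?_⟩
    show _ = g (g' 0)
    rw [decomp g (g' 0), ← hc', ← hc, map_smul, ← ha, Units.smul_def, add_smul, mul_smul]
  inv_mem' := by
    rintro g ⟨hg, c, hc⟩
    refine ⟨Subgroup.inv_mem _ hg, ?_⟩
    obtain ⟨a, ha⟩ := (mem_Ksub_mk e he g).mp hg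
    refine ⟨-(c * ((a⁻¹ : (ZMod p)ˣ) : ZMod p)), ?_⟩
    have h1 : g (g⁻¹ 0) = 0 := apply_inv_apply g 0
    rw [decomp g (g⁻¹ 0), ← hc] at h1
    apply g.linear.injective
    have h2 : g.linear (g⁻¹ 0) = -(c • e) := eq_neg_of_add_eq_zero_left h1
    rw [h2, map_smul, ← ha, Units.smul_def, smul_smul, neg_mul, mul_assoc, ← Units.val_mul,
      inv_mul_cancel, Units.val_one, mul_one, neg_smul]

lemma mem_Jsub (e : V p d) (he : e ≠ 0) (g : AG p d) :
    g ∈ Jsub e he ↔ g ∈ Ksub (Projectivization.mk (ZMod p) e he) ∧ ∃ c : ZMod p, c • e = g 0 := Iff.rfl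

lemma trans_mem_K (W : PV p d) (v : V p d) : AffineEquiv.constVAdd (ZMod p) (V p d) v ∈ Ksub W := by
  rw [mem_Ksub]
  have : AffineEquiv.linearHom (AffineEquiv.constVAdd (ZMod p) (V p d) v) = 1 := by
    ext x
    simp
  rw [this, one_smul]

lemma trans_zero (v : V p d) : (AffineEquiv.constVAdd (ZMod p) (V p d) v) 0 = v := by
  show v + 0 = v
  rw [add_zero]

lemma not_coatom_H (e e' : V p d) (he : e ≠ 0) (he' : ∀ c : ZMod p, c • e ≠ e') :
    ¬ IsCoatom ((Msub p d ⊓ Ksub (Projectivization.mk (ZMod p) e he)).subgroupOf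
      (Ksub (Projectivization.mk (ZMod p) e he))) := by
  rw [Cfsg.Agent.Lib.Helper9.isCoatom_subgroupOf_iff inf_le_right]
  rintro ⟨-, h⟩
  have hHJ : Msub p d ⊓ Ksub (Projectivization.mk (ZMod p) e he) ≤ Jsub e he := by
    rintro g ⟨hgM, hgK⟩
    refine ⟨hgK, 0, ?_⟩
    rw [zero_smul]; exact ((mem_Msub g).mp hgM).symm
  have hJK : Jsub e he ≤ Ksub (Projectivization.mk (ZMod p) e he) := fun g hg => hg.1
  have hJH : ¬ Jsub e he ≤ Msub p d ⊓ Ksub (Projectivization.mk (ZMod p) e he) := by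
    intro hle
    have h1 : AffineEquiv.constVAdd (ZMod p) (V p d) e ∈ Jsub e he :=
      ⟨trans_mem_K _ e, 1, by rw [one_smul, trans_zero]⟩
    have h2 : AffineEquiv.constVAdd (ZMod p) (V p d) e ∈ Msub p d := (hle h1).1
    rw [mem_Msub, trans_zero] at h2
    exact he h2
  have h3 := h _ hHJ hJK hJH (trans_mem_K _ e')
  obtain ⟨-, c, hc⟩ := h3
  rw [trans_zero] at hc
  exact he' c hc

/-- For every prime p and every d ≥ 2 there is a finite group G with a maximal subgroup M of index p^d and a maximal subgroup H of M that is not second maximal in G: some maximal subgroup K of G contains H without H being maximal in K. (One may take G the affine group V ⋊ GL(V) of V = 𝔽_p^d, M = GL(V), H the stabiliser in M of a line W of V, and K = V ⋊ H, with H < W ⋊ H < K.) So the prime-index hypothesis in the second-maximality criterion cannot be relaxed to prime-power index. -/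
theorem result (p d : ℕ) (hp : p.Prime)
    (hd : 2 ≤ d) :
    ∃ (G : Type) (_ : Group G) (_ : Finite G) (M H K : Subgroup G), IsCoatom M ∧ M.index = p ^ d ∧ H ≤ M ∧
      IsCoatom (H.subgroupOf M) ∧ IsCoatom K ∧ H ≤ K ∧ ¬ IsCoatom (H.subgroupOf K) := by
  haveI : Fact p.Prime := ⟨hp⟩
  let i0 : Fin d := ⟨0, by omega⟩
  let i1 : Fin d := ⟨1, by omega⟩
  have hi : i0 ≠ i1 := by
    intro h
    have := congrArg Fin.val h
    simp [i0, i1] at this
  let e : V p d := Pi.single i0 1
  let e' : V p d := Pi.single i1 1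
  have he : e ≠ 0 := by
    intro h
    have := congrFun h i0
    simp [e] at this
  have he'0 : e' ≠ 0 := by
    intro h
    have := congrFun h i1
    simp [e'] at this
  have he' : ∀ c : ZMod p, c • e ≠ e' := by
    intro c h
    have := congrFun h i1
    simp [e, e', hi.symm] at this
  obtain ⟨h, hh⟩ := exists_lin e e' he he'0
  have hg₀ : h.toAffineEquiv ∉ Ksub (Projectivization.mk (ZMod p) e he) := by
    rw [mem_Ksub_mk]
    rintro ⟨a, ha⟩
    have h1 : (h.toAffineEquiv).linear e = e' := hh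
    rw [h1] at ha
    exact he' _ ha
  refine ⟨AG p d, inferInstance, inferInstance, Msub p d,
    Msub p d ⊓ Ksub (Projectivization.mk (ZMod p) e he), Ksub (Projectivization.mk (ZMod p) e he),
    isCoatom_Msub e he, index_Msub, inf_le_left, isCoatom_H _ _ hg₀ (toAffine_mem_M h),
    isCoatom_Ksub _ _ hg₀, inf_le_right, not_coatom_H e e' he he'⟩

end Cfsg.Agent.S5895
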