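import Cfsg.Statements.S5901

set_option autoImplicit false
open Cfsg

namespace Cfsg.Agent.S5901

/-- Let G be a finite group and T ≤ X subgroups with X proper. Suppose the interval [T, X] of the subgroup lattice is complemented (every Y with T ≤ Y ≤ X has some C with T ≤ C ≤ X, Y ⊔ C = X and Y ⊓ C = T), and that X lies in exactly one maximal subgroup M of G. Then every subgroup H of G with H not contained in M and H ⊓ T = 1 has a complement in the subgroup lattice of G: some C with H ⊔ C = G and H ⊓ C = 1. -/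
theorem result {G : Type*} [Group G] [Finite G] (T X M : Subgroup G)
    (hTX : T ≤ X) (hX : X ≠ ⊤)
    (hint : ∀ Y : Subgroup G, T ≤ Y → Y ≤ X → ∃ C : Subgroup G, T ≤ C ∧ C ≤ X ∧ Y ⊔ C = X ∧ Y ⊓ C = T)
    (hM : IsCoatom M) (hXM : X ≤ M) (huniq : ∀ M' : Subgroup G, IsCoatom M' → X ≤ M' → M' = M)
    (H : Subgroup G) (hH : ¬ H ≤ M) (hHT : H ⊓ T = ⊥) :
    ∃ C : Subgroup G, H ⊔ C = ⊤ ∧ H ⊓ C = ⊥ := by
  have hHX : H ⊔ X = ⊤ := by
    by_contra hne
    obtain ⟨M', hM', hle⟩ := (eq_top_or_exists_le_coatom (H ⊔ X)).resolve_left hne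
    have h1 : M' = M := huniq M' hM' (le_trans le_sup_right hle)
    exact hH (h1 ▸ le_trans le_sup_left hle)
  obtain ⟨C, hTC, hCX, hsup, hinf⟩ := hint ((H ⊓ X) ⊔ T) le_sup_right (sup_le inf_le_right hTX)
  refine ⟨C, ?_, ?_⟩
  · have h2 : X ≤ H ⊔ C := by
      rw [← hsup]
      refine sup_le (sup_le (le_trans inf_le_left le_sup_left) (le_trans hTC le_sup_right)) le_sup_right
    have h3 : H ⊔ X ≤ H ⊔ C := sup_le le_sup_left h2
    rw [hHX] at h3
    exact top_le_iff.mp h3
  · have h4 : H ⊓ C ≤ T := by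
      rw [← hinf]
      refine le_inf (le_trans ?_ le_sup_left) inf_le_right
      exact le_inf inf_le_left (le_trans inf_le_right hCX)
    have h5 : H ⊓ C ≤ H ⊓ T := le_inf inf_le_left h4
    rw [hHT] at h5
    exact le_bot_iff.mp h5

end Cfsg.Agent.S5901
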