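import Cfsg.Statements.S5902
import Cfsg.Agent.S5901

set_option autoImplicit false
open Cfsg

namespace Cfsg.Agent.S5902

theorem part_one {G : Type*} [Group G] [Finite G] (X M : Subgroup G)
    (hK : ComplementedLattice (Subgroup X))
    (hM : IsCoatom M) (hXM : X ≤ M) (huniq : ∀ M' : Subgroup G, IsCoatom M' → X ≤ M' → M' = M) :
    (∀ H : Subgroup G, ¬ H ≤ M.normalCore → ∃ C : Subgroup G, H ⊔ C = ⊤ ∧ H ⊓ C = ⊥) := by
  intro H hH
  have hXtop : X ≠ ⊤ := by
    intro h
    rw [h] at hXM
    exact hM.1 (top_le_iff.mp hXM)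
  have hint : ∀ Y : Subgroup G, ⊥ ≤ Y → Y ≤ X → ∃ C : Subgroup G, ⊥ ≤ C ∧ C ≤ X ∧ Y ⊔ C = X ∧ Y ⊓ C = ⊥ := by
    intro Y _ hYX
    obtain ⟨C', hC'⟩ := hK.exists_isCompl (Y.subgroupOf X)
    refine ⟨C'.map X.subtype, bot_le, ?_, ?_, ?_⟩
    · exact Subgroup.map_subtype_le C'
    · have h1 : Y = (Y.subgroupOf X).map X.subtype := by
        rw [Subgroup.map_subgroupOf_eq_of_le hYX]
      rw [h1, ← Subgroup.map_sup, hC'.sup_eq_top, ← MonoidHom.range_eq_map, Subgroup.range_subtype]
    · have h1 : Y = (Y.subgroupOf X).map X.subtype := by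
        rw [Subgroup.map_subgroupOf_eq_of_le hYX]
      rw [h1, ← Subgroup.map_inf _ _ _ (Subgroup.subtype_injective X), hC'.inf_eq_bot, Subgroup.map_bot]
  have hex : ∃ b : G, ∃ h ∈ H, b * h * b⁻¹ ∉ M := by
    by_contra hcon
    push_neg at hcon
    apply hH
    intro h hh
    rw [Subgroup.normalCore]
    intro b
    exact hcon b h hh
  obtain ⟨b, h, hh, hb⟩ := hex
  let e : Subgroup G ≃o Subgroup G := (MulAut.conj b).mapSubgroup
  have hH' : ¬ e H ≤ M := by
    intro hle
    apply hb
    apply hle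
    show b * h * b⁻¹ ∈ H.map ((MulAut.conj b : G ≃* G) : G →* G)
    exact ⟨h, hh, by simp [MulAut.conj_apply]⟩
  obtain ⟨C, hC1, hC2⟩ := Cfsg.Agent.S5901.result ⊥ X M bot_le hXtop hint hM hXM huniq (e H) hH'
    (inf_bot_eq _)
  refine ⟨e.symm C, ?_, ?_⟩
  · have := congrArg e.symm hC1
    rw [OrderIso.map_sup, OrderIso.symm_apply_apply, OrderIso.map_top] at this
    exact this
  · have := congrArg e.symm hC2
    rw [OrderIso.map_inf, OrderIso.symm_apply_apply, OrderIso.map_bot] at this
    exact this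

/-- Let G be a finite group, X a subgroup whose own subgroup lattice is complemented, and suppose X lies in exactly one maximal subgroup M of G. Then every subgroup H of G not contained in the normal core of M has a complement in the subgroup lattice of G (some C with H ⊔ C = G and H ⊓ C = 1); in particular the subgroup lattice of G modulo the normal core of M is complemented. -/
theorem result {G : Type*} [Group G] [Finite G] (X M : Subgroup G)
    (hK : ComplementedLattice (Subgroup X))
    (hM : IsCoatom M) (hXM : X ≤ M) (huniq : ∀ M' : Subgroup G, IsCoatom M' → X ≤ M' → M' = M) :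
    (∀ H : Subgroup G, ¬ H ≤ M.normalCore → ∃ C : Subgroup G, H ⊔ C = ⊤ ∧ H ⊓ C = ⊥) ∧
    ComplementedLattice (Subgroup (G ⧸ M.normalCore)) := by
  have h1 := part_one X M hK hM hXM huniq
  refine ⟨h1, ⟨fun K => ?_⟩⟩
  by_cases hKbot : K = ⊥
  · subst hKbot
    exact ⟨⊤, isCompl_bot_top⟩
  · have hsurj : Function.Surjective (QuotientGroup.mk' M.normalCore) := QuotientGroup.mk'_surjective _
    have hH : ¬ K.comap (QuotientGroup.mk' M.normalCore) ≤ M.normalCore := by
      intro hle
      apply hKbot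
      rw [eq_bot_iff]
      intro x hx
      obtain ⟨g, rfl⟩ := hsurj x
      have hg : g ∈ M.normalCore := hle hx
      rw [Subgroup.mem_bot]
      exact (QuotientGroup.eq_one_iff g).mpr hg
    obtain ⟨C, hC1, hC2⟩ := h1 _ hH
    refine ⟨C.map (QuotientGroup.mk' M.normalCore), ?_⟩
    rw [isCompl_iff, disjoint_iff, codisjoint_iff]
    constructor
    · rw [eq_bot_iff]
      rintro x ⟨hxK, c, hc, rfl⟩
      have hcH : c ∈ K.comap (QuotientGroup.mk' M.normalCore) := hxK
      have : c ∈ K.comap (QuotientGroup.mk' M.normalCore) ⊓ C := ⟨hcH, hc⟩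
      rw [hC2, Subgroup.mem_bot] at this
      rw [this, map_one]
      exact Subgroup.one_mem _
    · have h2 : K = (K.comap (QuotientGroup.mk' M.normalCore)).map (QuotientGroup.mk' M.normalCore) :=
        (Subgroup.map_comap_eq_self_of_surjective hsurj K).symm
      rw [h2, ← Subgroup.map_sup, hC1, Subgroup.map_top_of_surjective _ hsurj]

end Cfsg.Agent.S5902
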