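import Cfsg.Statements.S5903
import Cfsg.Agent.S5901

set_option autoImplicit false
open Cfsg

namespace Cfsg.Agent.S5903

theorem interval_complemented {G : Type*} [Group G] (X N : Subgroup G) (hNX : N ≤ X)
    [(N.subgroupOf X).Normal] (hK : ComplementedLattice (Subgroup (X ⧸ N.subgroupOf X))) :
    ∀ Y : Subgroup G, N ≤ Y → Y ≤ X → ∃ C : Subgroup G, N ≤ C ∧ C ≤ X ∧ Y ⊔ C = X ∧ Y ⊓ C = N := by
  intro Y hNY hYX
  have hsurj : Function.Surjective (QuotientGroup.mk' (N.subgroupOf X)) := QuotientGroup.mk'_surjective _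
  obtain ⟨C', hC'⟩ := hK.exists_isCompl ((Y.subgroupOf X).map (QuotientGroup.mk' (N.subgroupOf X)))
  have hker : (QuotientGroup.mk' (N.subgroupOf X)).ker = (N.subgroupOf X) := QuotientGroup.ker_mk' (N.subgroupOf X)
  have hNY' : (N.subgroupOf X) ≤ Y.subgroupOf X := by
    intro x hx
    exact hNY hx
  have hY' : ((Y.subgroupOf X).map (QuotientGroup.mk' (N.subgroupOf X))).comap (QuotientGroup.mk' (N.subgroupOf X)) = Y.subgroupOf X := by
    rw [Subgroup.comap_map_eq, hker]
    exact sup_eq_left.mpr hNY'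
  have hNmap : (N.subgroupOf X).map X.subtype = N := Subgroup.map_subgroupOf_eq_of_le hNX
  have hYmap : (Y.subgroupOf X).map X.subtype = Y := Subgroup.map_subgroupOf_eq_of_le hYX
  refine ⟨(C'.comap (QuotientGroup.mk' (N.subgroupOf X))).map X.subtype, ?_, Subgroup.map_subtype_le _, ?_, ?_⟩
  · refine le_trans (le_of_eq hNmap.symm) (Subgroup.map_mono ?_)
    have := Subgroup.ker_le_comap (QuotientGroup.mk' (N.subgroupOf X)) C'
    rwa [hker] at this
  · rw [← hYmap, ← Subgroup.map_sup, ← hY', Subgroup.comap_sup_eq _ _ _ hsurj, hC'.sup_eq_top,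
      Subgroup.comap_top, ← MonoidHom.range_eq_map, Subgroup.range_subtype]
  · rw [← hYmap, ← Subgroup.map_inf _ _ _ (Subgroup.subtype_injective X), ← hY', ← Subgroup.comap_inf,
      hC'.inf_eq_bot, MonoidHom.comap_bot, hker, hNmap]

theorem exists_conj {G : Type*} [Group G] [Finite G] [IsSimpleGroup G] (X M N : Subgroup G)
    (hM : IsCoatom M) (hXM : X ≤ M)
    (hNX : N ≤ X) (hN : (Nat.card N).Prime) (hcen : ∀ n ∈ N, ∀ m ∈ M, m * n = n * m)
    (H : Subgroup G) (hH0 : H ≠ ⊥) (hH1 : H ≠ ⊤) :
    ∃ b : G, ¬ (H.map ((MulAut.conj b : G ≃* G) : G →* G)) ≤ M ∧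
      (H.map ((MulAut.conj b : G ≃* G) : G →* G)) ⊓ N = ⊥ := by
  by_contra hcon
  push Not at hcon
  have hNbot : N ≠ ⊥ := by
    intro h
    rw [h] at hN
    simp at hN
    exact Nat.not_prime_one hN
  set Z := Subgroup.centralizer (H : Set G) with hZ
  -- every conjugate of an element of N lies in H or in Z
  have hkey : ∀ g : G, (∀ n ∈ N, g * n * g⁻¹ ∈ H) ∨ (∀ n ∈ N, g * n * g⁻¹ ∈ Z) := by
    intro g
    by_cases hle : H.map ((MulAut.conj g⁻¹ : G ≃* G) : G →* G) ≤ M
    · right
      intro n hn
      rw [hZ, Subgroup.mem_centralizer_iff]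
      intro h hh
      have h1 : g⁻¹ * h * g ∈ M := by
        apply hle
        exact ⟨h, hh, by simp [MulAut.conj_apply]⟩
      have h2 := hcen n hn _ h1
      calc h * (g * n * g⁻¹) = g * ((g⁻¹ * h * g) * n) * g⁻¹ := by group
        _ = g * (n * (g⁻¹ * h * g)) * g⁻¹ := by rw [h2]
        _ = g * n * g⁻¹ * h := by group
    · left
      have hne := hcon g⁻¹ hle
      set J := H.map ((MulAut.conj g⁻¹ : G ≃* G) : G →* G) ⊓ N with hJ
      have hJN : J ≤ N := inf_le_right
      have hJeq : J = N := by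
        have hdvd : Nat.card J ∣ Nat.card N := Subgroup.card_dvd_of_le hJN
        rcases (Nat.dvd_prime hN).mp hdvd with h1 | h1
        · exact absurd (Subgroup.eq_bot_of_card_eq J h1) hne
        · exact Subgroup.eq_of_le_of_card_ge hJN (le_of_eq h1.symm)
      intro n hn
      have hnJ : n ∈ J := hJeq ▸ hn
      obtain ⟨h, hh, hhn⟩ := hnJ.1
      have : n = g⁻¹ * h * g := by
        rw [← hhn]
        simp [MulAut.conj_apply]
      rw [this]
      have : g * (g⁻¹ * h * g) * g⁻¹ = h := by group
      rw [this]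
      exact hh
  set A := Group.conjugatesOfSet (N : Set G) with hA
  have hAtop : Subgroup.normalClosure (N : Set G) = ⊤ := by
    rcases (Subgroup.normalClosure_normal (s := (N : Set G))).eq_bot_or_eq_top with h | h
    · exfalso
      apply hNbot
      rw [eq_bot_iff, ← h]
      exact Subgroup.subset_normalClosure
    · exact h
  set K := Subgroup.closure (A ∩ (H : Set G)) with hKdef
  set L := Subgroup.closure (A ∩ (Z : Set G)) with hLdef
  have hKH : K ≤ H := by
    rw [hKdef, Subgroup.closure_le]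
    exact Set.inter_subset_right
  have hLZ : L ≤ Z := by
    rw [hLdef, Subgroup.closure_le]
    exact Set.inter_subset_right
  have hKL : K ⊔ L = ⊤ := by
    rw [eq_top_iff, ← hAtop, Subgroup.normalClosure, Subgroup.closure_le]
    intro x hx
    rw [Group.mem_conjugatesOfSet_iff] at hx
    obtain ⟨n, hn, hconj⟩ := hx
    rw [isConj_iff] at hconj
    obtain ⟨c, rfl⟩ := hconj
    have hxA : c * n * c⁻¹ ∈ A := by
      rw [hA, Group.mem_conjugatesOfSet_iff]
      exact ⟨n, hn, isConj_iff.mpr ⟨c, rfl⟩⟩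
    rcases hkey c with h | h
    · exact (le_sup_left : K ≤ K ⊔ L) (Subgroup.subset_closure ⟨hxA, h n hn⟩)
    · exact (le_sup_right : L ≤ K ⊔ L) (Subgroup.subset_closure ⟨hxA, h n hn⟩)
  have hKnormal : K.Normal := by
    rw [← Subgroup.normalizer_eq_top_iff, eq_top_iff, ← hKL]
    refine sup_le Subgroup.le_normalizer ?_
    refine le_trans hLZ (le_trans ?_ (Subgroup.centralizer_le_normalizer (K : Set G)))
    rw [hZ]
    exact Subgroup.centralizer_le hKH
  rcases hKnormal.eq_bot_or_eq_top with hKb | hKt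
  · -- K = ⊥, so L = ⊤, so Z = ⊤
    have hLtop : L = ⊤ := by rwa [hKb, bot_sup_eq] at hKL
    have hZtop : Z = ⊤ := by
      rw [eq_top_iff, ← hLtop]
      exact hLZ
    have hHcen : H ≤ Subgroup.center G := by
      rw [hZ, Subgroup.centralizer_eq_top_iff_subset] at hZtop
      exact hZtop
    rcases (inferInstance : (Subgroup.center G).Normal).eq_bot_or_eq_top with hc | hc
    · apply hH0
      rw [eq_bot_iff, ← hc]
      exact hHcen
    · -- G is commutative, so M is normal, so M = ⊥
      have hMnormal : M.Normal := by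
        constructor
        intro n hn g
        have hg : g ∈ Subgroup.center G := by rw [hc]; trivial
        rw [Subgroup.mem_center_iff] at hg
        have : g * n * g⁻¹ = n := by
          rw [← hg n]
          group
        rw [this]
        exact hn
      rcases hMnormal.eq_bot_or_eq_top with hMb | hMt
      · apply hNbot
        rw [eq_bot_iff, ← hMb]
        exact le_trans hNX hXM
      · exact hM.1 hMt
  · apply hH1
    rw [eq_top_iff, ← hKt]
    exact hKH

/-- Let G be a finite simple group, X a subgroup lying in exactly one maximal subgroup M of G, and N a subgroup of prime order with N ≤ X that is central in M. If the subgroup lattice of X/N is complemented, then the subgroup lattice of G is complemented. -/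
theorem result {G : Type*} [Group G] [Finite G] [IsSimpleGroup G] (X M N : Subgroup G)
    (hM : IsCoatom M) (hXM : X ≤ M) (huniq : ∀ M' : Subgroup G, IsCoatom M' → X ≤ M' → M' = M)
    (hNX : N ≤ X) (hN : (Nat.card N).Prime) (hcen : ∀ n ∈ N, ∀ m ∈ M, m * n = n * m)
    [(N.subgroupOf X).Normal] (hK : ComplementedLattice (Subgroup (X ⧸ N.subgroupOf X))) :
    ComplementedLattice (Subgroup G) := by
  refine ⟨fun H => ?_⟩
  by_cases hH0 : H = ⊥
  · subst hH0
    exact ⟨⊤, isCompl_bot_top⟩
  by_cases hH1 : H = ⊤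
  · subst hH1
    exact ⟨⊥, isCompl_top_bot⟩
  have hXtop : X ≠ ⊤ := by
    intro h
    rw [h] at hXM
    exact hM.1 (top_le_iff.mp hXM)
  obtain ⟨b, hb1, hb2⟩ := exists_conj X M N hM hXM hNX hN hcen H hH0 hH1
  have hint := interval_complemented X N hNX hK
  let e : Subgroup G ≃o Subgroup G := (MulAut.conj b).mapSubgroup
  obtain ⟨C, hC1, hC2⟩ := Cfsg.Agent.S5901.result N X M hNX hXtop hint hM hXM huniq (e H) hb1 hb2
  refine ⟨e.symm C, ?_⟩
  rw [isCompl_iff, disjoint_iff, codisjoint_iff]
  constructor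
  · have := congrArg e.symm hC2
    rw [OrderIso.map_inf, OrderIso.symm_apply_apply, OrderIso.map_bot] at this
    exact this
  · have := congrArg e.symm hC1
    rw [OrderIso.map_sup, OrderIso.symm_apply_apply, OrderIso.map_top] at this
    exact this

end Cfsg.Agent.S5903
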