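import Cfsg.Statements.S5905
import Mathlib
-- import your own Cfsg.Agent.* helpers here

set_option autoImplicit false
open Cfsg

namespace Cfsg.Agent.S5905

/-- Let Ω be a finite set and f : Ω → Fin b a map onto b ≥ 2 labels whose fibres all have the same size a ≥ 2 (a partition of Ω into b blocks of size a, so |Ω| = ab). Then the stabilizer of this partition in the symmetric group on Ω — the permutations g such that x and y lie in the same block exactly when g x and g y do, a group isomorphic to the imprimitive wreath product S_a ≀ S_b — is a maximal subgroup of the symmetric group. -/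
theorem result {Ω : Type*} [Fintype Ω] [DecidableEq Ω] (a b : ℕ) (ha : 2 ≤ a) (hb : 2 ≤ b)
    (f : Ω → Fin b) (hf : ∀ i : Fin b, Nat.card {x : Ω // f x = i} = a) :
    IsCoatom (Subgroup.closure {g : Equiv.Perm Ω | ∀ x y : Ω, f x = f y ↔ f (g x) = f (g y)}) := by
  classical
  have hone : ∀ (g h : Equiv.Perm Ω), (∀ x y : Ω, f x = f y ↔ f (g x) = f (g y)) →
      (∀ x y : Ω, f x = f y ↔ f (h x) = f (h y)) →
      (∀ x y : Ω, f x = f y ↔ f ((g * h) x) = f ((g * h) y)) := by
    intro g h hg hh x y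
    rw [hh x y, hg (h x) (h y)]; rfl
  have hinv : ∀ (g : Equiv.Perm Ω), (∀ x y : Ω, f x = f y ↔ f (g x) = f (g y)) →
      (∀ x y : Ω, f x = f y ↔ f (g⁻¹ x) = f (g⁻¹ y)) := by
    intro g hg x y
    rw [hg (g⁻¹ x) (g⁻¹ y)]; simp
  let W : Subgroup (Equiv.Perm Ω) :=
    { carrier := {g | ∀ x y : Ω, f x = f y ↔ f (g x) = f (g y)}
      mul_mem' := fun {g h} hg hh => hone g h hg hh
      one_mem' := fun x y => Iff.rfl
      inv_mem' := fun {g} hg => hinv g hg }
  have hW : Subgroup.closure {g : Equiv.Perm Ω | ∀ x y : Ω, f x = f y ↔ f (g x) = f (g y)} = W :=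
    Subgroup.closure_eq W
  rw [hW]
  have hmemW : ∀ g, g ∈ W ↔ ∀ x y : Ω, f x = f y ↔ f (g x) = f (g y) := fun g => Iff.rfl
  -- swaps within fibres
  have hsw : ∀ x y, f x = f y → Equiv.swap x y ∈ W := by
    intro x y hxy
    rw [hmemW]
    intro u v
    have key : ∀ u, f (Equiv.swap x y u) = f u := by
      intro u
      by_cases h1 : u = x
      · subst h1; rw [Equiv.swap_apply_left]; exact hxy.symm
      · by_cases h2 : u = y
        · subst h2; rw [Equiv.swap_apply_right]; exact hxy
        · rw [Equiv.swap_apply_of_ne_of_ne h1 h2]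
    rw [key, key]
  -- coordinates
  obtain ⟨e, he⟩ : ∃ e : Ω ≃ Fin b × Fin a, ∀ x, (e x).1 = f x := by
    have e1 : ∀ i : Fin b, {x : Ω // f x = i} ≃ Fin a := fun i => Finite.equivFinOfCardEq (hf i)
    refine ⟨(Equiv.sigmaFiberEquiv f).symm.trans
      ((Equiv.sigmaCongrRight e1).trans (Equiv.sigmaEquivProd _ _)), ?_⟩
    intro x
    simp
  have hσ : ∀ σ : Equiv.Perm (Fin b), ∃ h ∈ W, ∀ x, f (h x) = σ (f x) := by
    intro σ
    let h : Equiv.Perm Ω := (e.trans (Equiv.prodCongr σ (Equiv.refl _))).trans e.symm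
    have hh : ∀ x, f (h x) = σ (f x) := by
      intro x
      rw [← he, ← he]
      simp [h]
    refine ⟨h, ?_, hh⟩
    rw [hmemW]
    intro x y
    rw [hh, hh]
    exact σ.injective.eq_iff.symm
  constructor
  · intro htop
    let x : Ω := e.symm (⟨0, by omega⟩, ⟨0, by omega⟩)
    let y : Ω := e.symm (⟨0, by omega⟩, ⟨1, by omega⟩)
    let z : Ω := e.symm (⟨1, by omega⟩, ⟨0, by omega⟩)
    have hfx : f x = ⟨0, by omega⟩ := by rw [← he]; simp [x]
    have hfy : f y = ⟨0, by omega⟩ := by rw [← he]; simp [y]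
    have hfz : f z = ⟨1, by omega⟩ := by rw [← he]; simp [z]
    have hxy : x ≠ y := by
      intro h
      have := e.symm.injective h
      simp [Fin.ext_iff] at this
    have hxz : x ≠ z := by
      intro h
      have := e.symm.injective h
      simp [Fin.ext_iff] at this
    have hmem : Equiv.swap y z ∈ W := by rw [htop]; trivial
    have := (hmemW _).1 hmem x y
    rw [Equiv.swap_apply_of_ne_of_ne hxy hxz, Equiv.swap_apply_left, hfx, hfy, hfz] at this
    simp [Fin.ext_iff] at this
  · intro L hL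
    obtain ⟨g, hgL, hgW⟩ := SetLike.exists_of_lt hL
    have hconj : ∀ (h : Equiv.Perm Ω) x y, h ∈ L → Equiv.swap x y ∈ L →
        Equiv.swap (h x) (h y) ∈ L := by
      intro h x y hh hs
      rw [Equiv.swap_apply_apply]
      exact L.mul_mem (L.mul_mem hh hs) (L.inv_mem hh)
    have hcross : ∃ u v, f u ≠ f v ∧ Equiv.swap u v ∈ L := by
      rw [hmemW] at hgW
      push Not at hgW
      obtain ⟨x, y, hxy⟩ := hgW
      rcases hxy with ⟨h1, h2⟩ | ⟨h1, h2⟩
      · exact ⟨g x, g y, h2, hconj g x y hgL (hL.le (hsw x y h1))⟩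
      · refine ⟨x, y, h1, ?_⟩
        have := hconj g⁻¹ (g x) (g y) (L.inv_mem hgL) (hL.le (hsw _ _ h2))
        simpa using this
    have htrans : ∀ x y z, Equiv.swap x y ∈ L → Equiv.swap y z ∈ L → Equiv.swap x z ∈ L := by
      intro x y z h1 h2
      by_cases hxy : x = y
      · subst hxy; exact h2
      by_cases hxz : x = z
      · subst hxz; rw [Equiv.swap_self]; exact L.one_mem
      have := Equiv.swap_mul_swap_mul_swap (x := x) (y := y) (z := z) hxy hxz
      rw [Equiv.swap_comm x z, ← this]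
      exact L.mul_mem (L.mul_mem h2 h1) h2
    obtain ⟨u, v, huv, hsuv⟩ := hcross
    have hfib : ∀ i j : Fin b, i ≠ j → ∃ p q, f p = i ∧ f q = j ∧ Equiv.swap p q ∈ L := by
      intro i j hij
      obtain ⟨σ, h1, h2⟩ : ∃ σ : Equiv.Perm (Fin b), σ (f u) = i ∧ σ (f v) = j := by
        let σ₁ := Equiv.swap (f u) i
        have hs1 : σ₁ (f u) = i := Equiv.swap_apply_left _ _
        refine ⟨Equiv.swap (σ₁ (f v)) j * σ₁, ?_, ?_⟩
        · simp only [Equiv.Perm.mul_apply]
          rw [hs1]
          apply Equiv.swap_apply_of_ne_of_ne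
          · intro h; rw [← hs1] at h; exact huv (σ₁.injective h)
          · exact hij
        · simp [Equiv.Perm.mul_apply]
      obtain ⟨h, hhW, hh⟩ := hσ σ
      exact ⟨h u, h v, by rw [hh, h1], by rw [hh, h2], hconj h u v (hL.le hhW) hsuv⟩
    have hall : ∀ p q, Equiv.swap p q ∈ L := by
      intro p q
      by_cases hpq : f p = f q
      · exact hL.le (hsw p q hpq)
      · obtain ⟨p', q', hp', hq', hs⟩ := hfib (f p) (f q) hpq
        exact htrans p p' q (hL.le (hsw p p' hp'.symm))
          (htrans p' q' q hs (hL.le (hsw q' q hq')))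
    rw [eq_top_iff, ← Equiv.Perm.closure_isSwap, Subgroup.closure_le]
    rintro s ⟨p, q, _, rfl⟩
    exact hall p q

end Cfsg.Agent.S5905
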