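import Cfsg.Statements.S5913
import Mathlib
-- import your own Cfsg.Agent.* helpers here

set_option autoImplicit false
open Cfsg

namespace Cfsg.Agent.S5913

/-- Let S be a non-abelian simple group and n a natural number. Every normal subgroup N of the direct power S^n (functions Fin n → S) is a subproduct: there is a set T of coordinates such that N consists exactly of the elements whose coordinates outside T are trivial. In particular the minimal normal subgroups of S^n are its n factors. -/
theorem result {S : Type*} [Group S] [IsSimpleGroup S] (hS : ¬ IsMulCommutative S) (n : ℕ)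
    (N : Subgroup (Fin n → S)) [N.Normal] :
    ∃ T : Finset (Fin n), ∀ x : Fin n → S, x ∈ N ↔ ∀ i, i ∉ T → x i = 1 := by
  classical
  have key : ∀ i, (∃ y ∈ N, y i ≠ 1) → ∀ s : S, Pi.mulSingle i s ∈ N := by
    rintro i ⟨y, hy, hyi⟩ s
    have hMn : (N.comap (MonoidHom.mulSingle (fun _ : Fin n => S) i)).Normal := inferInstance
    have hM : N.comap (MonoidHom.mulSingle (fun _ : Fin n => S) i) = ⊤ := by
      rcases hMn.eq_bot_or_eq_top with h | h
      · exfalso
        have hex : ∃ t : S, t * y i ≠ y i * t := by
          by_contra hcon
          push Not at hcon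
          have hc : y i ∈ Subgroup.center S := by
            rw [Subgroup.mem_center_iff]; exact hcon
          have hcn : (Subgroup.center S).Normal := inferInstance
          rcases hcn.eq_bot_or_eq_top with h' | h'
          · rw [h', Subgroup.mem_bot] at hc; exact hyi hc
          · apply hS
            refine ⟨⟨fun a b => ?_⟩⟩
            have hb : b ∈ Subgroup.center S := by rw [h']; trivial
            rw [Subgroup.mem_center_iff] at hb
            exact hb a
        obtain ⟨t, ht⟩ := hex
        have hmem : Pi.mulSingle i t * y * (Pi.mulSingle i t)⁻¹ * y⁻¹ ∈ N :=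
          N.mul_mem (‹N.Normal›.conj_mem y hy _) (N.inv_mem hy)
        have heq : Pi.mulSingle i t * y * (Pi.mulSingle i t)⁻¹ * y⁻¹
            = Pi.mulSingle i (t * y i * t⁻¹ * (y i)⁻¹) := by
          funext j
          by_cases hj : j = i
          · subst hj; simp
          · simp [Pi.mulSingle_eq_of_ne hj]
        rw [heq] at hmem
        have : t * y i * t⁻¹ * (y i)⁻¹ ∈ N.comap (MonoidHom.mulSingle (fun _ : Fin n => S) i) := hmem
        rw [h, Subgroup.mem_bot] at this
        apply ht
        have h2 : t * y i * t⁻¹ = y i := by
          rw [mul_inv_eq_one] at this; exact this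
        calc t * y i = t * y i * t⁻¹ * t := by group
          _ = y i * t := by rw [h2]
      · exact h
    have : s ∈ N.comap (MonoidHom.mulSingle (fun _ : Fin n => S) i) := by rw [hM]; trivial
    exact this
  refine ⟨Finset.univ.filter (fun i => ∃ x ∈ N, x i ≠ 1), fun x => ⟨fun hx i hi => ?_, fun hx => ?_⟩⟩
  · by_contra h
    exact hi (by simp only [Finset.mem_filter, Finset.mem_univ, true_and]; exact ⟨x, hx, h⟩)
  · rw [← Finset.noncommProd_mulSingle x]
    apply Subgroup.noncommProd_mem
    intro i _
    by_cases hi : ∃ y ∈ N, y i ≠ 1
    · exact key i hi _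
    · have : x i = 1 := hx i (by simp only [Finset.mem_filter, Finset.mem_univ, true_and]; exact hi)
      rw [this, Pi.mulSingle_one]; exact N.one_mem

end Cfsg.Agent.S5913
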