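import Cfsg.Statements.S5914
import Mathlib
-- import your own Cfsg.Agent.* helpers here

set_option autoImplicit false
open Cfsg

namespace Cfsg.Agent.S5914

/-- A type synonym for `Fin m` carrying no instances. -/
def Carrier (m : ℕ) : Type := Fin m

theorem sup_equiv_prod {G : Type*} [Group G] (A B : Subgroup G) (hA : A.Normal) (hB : B.Normal)
    (h : Disjoint A B) : Nonempty (↥(A ⊔ B) ≃* (A × B)) := by
  have comm : ∀ (a : A) (b : B), Commute (A.subtype a) (B.subtype b) := fun a b =>
    Subgroup.commute_of_normal_of_disjoint A B hA hB h a b a.2 b.2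
  let f : A × B →* G := MonoidHom.noncommCoprod A.subtype B.subtype comm
  have hinj : Function.Injective f := by
    rw [MonoidHom.noncommCoprod_injective]
    refine ⟨A.subtype_injective, B.subtype_injective, ?_⟩
    rw [Subgroup.range_subtype, Subgroup.range_subtype]
    exact h
  have hrange : f.range = A ⊔ B := by
    rw [MonoidHom.noncommCoprod_range, Subgroup.range_subtype, Subgroup.range_subtype]
  exact ⟨(MulEquiv.subgroupCongr hrange).symm.trans (MonoidHom.ofInjective hinj).symm⟩

def prodPiEquiv (N : Type*) [Group N] (k : ℕ) : (N × (Fin k → N)) ≃* (Fin (k + 1) → N) where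
  toFun p := Fin.cons p.1 p.2
  invFun f := (f 0, Fin.tail f)
  left_inv p := by simp
  right_inv f := Fin.cons_self_tail f
  map_mul' p q := by
    funext i
    refine Fin.cases ?_ (fun j => ?_) i <;> simp

theorem forward {G : Type*} [Group G] [Finite G] [Nontrivial G]
    (hchar : ∀ H : Subgroup G, H.Characteristic → H = ⊥ ∨ H = ⊤) :
    ∃ (N : Subgroup G) (k : ℕ), IsSimpleGroup N ∧ Nonempty (G ≃* (Fin (k + 1) → N)) := by
  classical
  -- a minimal normal subgroup
  obtain ⟨N, ⟨hNn, hN1⟩, hNmin⟩ : ∃ N : Subgroup G, (N.Normal ∧ N ≠ ⊥) ∧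
      ∀ K : Subgroup G, K.Normal → K ≠ ⊥ → Nat.card N ≤ Nat.card K := by
    have hne : Nonempty {K : Subgroup G // K.Normal ∧ K ≠ ⊥} :=
      ⟨⟨⊤, inferInstance, top_ne_bot⟩⟩
    obtain ⟨K, hK⟩ := Finite.exists_min (fun K : {K : Subgroup G // K.Normal ∧ K ≠ ⊥} => Nat.card K.1)
    exact ⟨K.1, K.2, fun K' h1 h2 => hK ⟨K', h1, h2⟩⟩
  have hNmin' : ∀ K : Subgroup G, K.Normal → K ≤ N → K = ⊥ ∨ K = N := by
    intro K hK hKN
    by_cases h : K = ⊥
    · exact Or.inl h
    · right; exact Subgroup.eq_of_le_of_card_ge hKN (hNmin K hK h)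
  have himg : ∀ α : G ≃* G, (N.map α.toMonoidHom).Normal ∧ ∀ K : Subgroup G, K.Normal →
      K ≤ N.map α.toMonoidHom → K = ⊥ ∨ K = N.map α.toMonoidHom := by
    intro α
    refine ⟨hNn.map _ α.surjective, fun K hK hKN => ?_⟩
    have h1 : K.comap α.toMonoidHom ≤ N := by
      have := Subgroup.comap_mono (f := α.toMonoidHom) hKN
      rwa [Subgroup.comap_map_eq_self_of_injective α.injective] at this
    have h2 : (K.comap α.toMonoidHom).map α.toMonoidHom = K :=
      Subgroup.map_comap_eq_self_of_surjective α.surjective K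
    rcases hNmin' _ (hK.comap _) h1 with h | h
    · left; rw [← h2, h, Subgroup.map_bot]
    · right; rw [← h2, h]
  -- the join of all images is everything
  have hT : (⨆ α : G ≃* G, N.map α.toMonoidHom) = ⊤ := by
    have hTc : (⨆ α : G ≃* G, N.map α.toMonoidHom).Characteristic := by
      rw [Subgroup.characteristic_iff_map_le]
      intro φ
      rw [Subgroup.map_iSup]
      apply iSup_le
      intro α
      rw [Subgroup.map_map]
      exact le_iSup (fun β : G ≃* G => N.map β.toMonoidHom) (α.trans φ)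
    rcases hchar _ hTc with h | h
    · exfalso
      apply hN1
      rw [eq_bot_iff, ← h]
      have := le_iSup (fun β : G ≃* G => N.map β.toMonoidHom) (MulEquiv.refl G)
      simpa using this
    · exact h
  -- a maximal complement built from copies of N
  have hne : Nonempty {M : Subgroup G // M.Normal ∧ Disjoint M N ∧ ∃ k : ℕ, Nonempty (M ≃* (Fin k → N))} :=
    ⟨⟨⊥, inferInstance, disjoint_bot_left, 0, ⟨MulEquiv.ofUnique⟩⟩⟩
  obtain ⟨⟨M, hMn, hMN, k, ⟨eM⟩⟩, hMmax⟩ := Finite.exists_max
    (fun M : {M : Subgroup G // M.Normal ∧ Disjoint M N ∧ ∃ k : ℕ, Nonempty (M ≃* (Fin k → N))} =>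
      Nat.card M.1)
  have hNMn : (N ⊔ M).Normal := Subgroup.sup_normal N M
  have htop : N ⊔ M = ⊤ := by
    by_contra hcon
    obtain ⟨α, hα⟩ : ∃ α : G ≃* G, ¬ N.map α.toMonoidHom ≤ N ⊔ M := by
      by_contra hall
      push Not at hall
      apply hcon
      rw [eq_top_iff, ← hT]
      exact iSup_le hall
    obtain ⟨hAn, hAmin⟩ := himg α
    have hdisj : Disjoint (N.map α.toMonoidHom) (N ⊔ M) := by
      rw [disjoint_iff]
      have hinfn : (N.map α.toMonoidHom ⊓ (N ⊔ M)).Normal := by
        haveI := hAn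
        haveI := hNMn
        infer_instance
      rcases hAmin _ hinfn inf_le_left with h | h
      · exact h
      · exfalso; apply hα; rw [← h]; exact inf_le_right
    have hMA : Disjoint M (N.map α.toMonoidHom) := (hdisj.mono_right le_sup_right).symm
    have hM'n : (M ⊔ N.map α.toMonoidHom).Normal := Subgroup.sup_normal _ _
    have hM'N : Disjoint (M ⊔ N.map α.toMonoidHom) N := by
      rw [Subgroup.disjoint_def]
      intro x hx hxN
      have hx' : x ∈ ((M ⊔ N.map α.toMonoidHom : Subgroup G) : Set G) := hx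
      rw [Subgroup.mul_normal] at hx'
      obtain ⟨m, hm, a, ha, rfl⟩ := Set.mem_mul.mp hx'
      have ha1 : a = 1 := by
        have h1 : a ∈ N ⊔ M := by
          have : a = m⁻¹ * (m * a) := by group
          rw [this]
          exact Subgroup.mul_mem _ (Subgroup.inv_mem _ (Subgroup.mem_sup_right hm))
            (Subgroup.mem_sup_left hxN)
        exact Subgroup.disjoint_def.mp hdisj ha h1
      rw [ha1, mul_one] at hxN ⊢
      exact Subgroup.disjoint_def.mp hMN hm hxN
    obtain ⟨e1⟩ := sup_equiv_prod M (N.map α.toMonoidHom) hMn hAn hMA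
    have e2 : ↥(M ⊔ N.map α.toMonoidHom) ≃* (Fin (k + 1) → N) :=
      (e1.trans (MulEquiv.prodCongr eM (α.subgroupMap N).symm)).trans
        (MulEquiv.prodComm.trans (prodPiEquiv N k))
    have hle := hMmax ⟨M ⊔ N.map α.toMonoidHom, hM'n, hM'N, k + 1, ⟨e2⟩⟩
    have heq : M = M ⊔ N.map α.toMonoidHom := Subgroup.eq_of_le_of_card_ge le_sup_left hle
    apply hα
    calc N.map α.toMonoidHom ≤ M ⊔ N.map α.toMonoidHom := le_sup_right
      _ = M := heq.symm
      _ ≤ N ⊔ M := le_sup_right
  have hNM : Disjoint N M := hMN.symm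
  refine ⟨N, k, ?_, ?_⟩
  · -- N is simple
    haveI : Nontrivial N := (Subgroup.nontrivial_iff_ne_bot N).mpr hN1
    refine ⟨fun K hK => ?_⟩
    have hK'n : (K.map N.subtype).Normal := by
      refine ⟨fun x hx g => ?_⟩
      obtain ⟨y, hy, rfl⟩ := Subgroup.mem_map.mp hx
      have hg : g ∈ ((N ⊔ M : Subgroup G) : Set G) := by rw [htop]; trivial
      rw [Subgroup.mul_normal] at hg
      obtain ⟨n, hn, m, hm, rfl⟩ := Set.mem_mul.mp hg
      have hcomm : Commute m (N.subtype y) :=
        (Subgroup.commute_of_normal_of_disjoint N M hNn hMn hNM _ _ y.2 hm).symm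
      have e : n * m * N.subtype y * (n * m)⁻¹ = N.subtype (⟨n, hn⟩ * y * ⟨n, hn⟩⁻¹) := by
        have h1 : m * N.subtype y = N.subtype y * m := hcomm
        simp only [Subgroup.subtype_apply, Subgroup.coe_mul, Subgroup.coe_inv, mul_inv_rev]
        simp only [Subgroup.subtype_apply] at h1
        calc n * m * ↑y * (m⁻¹ * n⁻¹) = n * (m * ↑y) * m⁻¹ * n⁻¹ := by group
          _ = n * (↑y * m) * m⁻¹ * n⁻¹ := by rw [h1]
          _ = n * ↑y * n⁻¹ := by group
      rw [e]
      exact Subgroup.mem_map_of_mem _ (hK.conj_mem y hy _)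
    rcases hNmin' _ hK'n (Subgroup.map_subtype_le K) with h | h
    · left
      exact (Subgroup.map_eq_bot_iff_of_injective K N.subtype_injective).mp h
    · right
      rw [eq_top_iff]
      intro y _
      have hy : (y : G) ∈ K.map N.subtype := by rw [h]; exact y.2
      obtain ⟨y', hy', hyy⟩ := Subgroup.mem_map.mp hy
      have : y' = y := Subtype.ext hyy
      rwa [this] at hy'
  · obtain ⟨e1⟩ := sup_equiv_prod N M hNn hMn hNM
    exact ⟨(Subgroup.topEquiv.symm.trans (MulEquiv.subgroupCongr htop.symm)).trans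
      ((e1.trans (MulEquiv.prodCongr (MulEquiv.refl N) eM)).trans (prodPiEquiv N k))⟩

/-- Permuting the coordinates. -/
def permAut {S : Type*} [Group S] {n : ℕ} (π : Equiv.Perm (Fin n)) : (Fin n → S) ≃* (Fin n → S) where
  toFun x := x ∘ π
  invFun x := x ∘ π.symm
  left_inv x := by ext a; simp
  right_inv x := by ext a; simp
  map_mul' _ _ := rfl

/-- The shear `x ↦ x * e_j (x i)` of a commutative power. -/
def shearAut {S : Type*} [Group S] {n : ℕ} (hc : ∀ a b : S, a * b = b * a) (i j : Fin n) (hij : i ≠ j) :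
    (Fin n → S) ≃* (Fin n → S) where
  toFun x := x * Pi.mulSingle j (x i)
  invFun x := x * Pi.mulSingle j (x i)⁻¹
  left_inv x := by
    funext a
    simp only [Pi.mul_apply, Pi.mulSingle_eq_of_ne hij, mul_one]
    by_cases ha : a = j
    · subst ha; simp
    · simp [Pi.mulSingle_eq_of_ne ha]
  right_inv x := by
    funext a
    simp only [Pi.mul_apply, Pi.mulSingle_eq_of_ne hij, mul_one]
    by_cases ha : a = j
    · subst ha; simp
    · simp [Pi.mulSingle_eq_of_ne ha]
  map_mul' x y := by
    funext a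
    simp only [Pi.mul_apply]
    by_cases ha : a = j
    · subst ha
      simp only [Pi.mulSingle_eq_same]
      rw [mul_assoc, mul_assoc, ← mul_assoc (y a), hc (y a) (x i), mul_assoc]
    · simp [Pi.mulSingle_eq_of_ne ha]

theorem backward_pi {S : Type*} [Group S] [IsSimpleGroup S] (n : ℕ) (H : Subgroup (Fin n → S))
    (hH : H.Characteristic) : H = ⊥ ∨ H = ⊤ := by
  classical
  by_cases hbot : H = ⊥
  · exact Or.inl hbot
  right
  have hHn : H.Normal := Subgroup.normal_of_characteristic H
  have hfix : ∀ (φ : (Fin n → S) ≃* (Fin n → S)) (x : Fin n → S), x ∈ H → φ x ∈ H := by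
    intro φ x hx
    have := (Subgroup.characteristic_iff_map_eq.mp hH) φ
    rw [← this]
    exact Subgroup.mem_map_of_mem _ hx
  obtain ⟨h₀, hh₀, hne⟩ : ∃ h₀ ∈ H, h₀ ≠ 1 := by
    by_contra hcon
    push Not at hcon
    exact hbot ((Subgroup.eq_bot_iff_forall H).mpr hcon)
  obtain ⟨i, hi⟩ : ∃ i, h₀ i ≠ 1 := by
    by_contra hcon
    push Not at hcon
    exact hne (funext hcon)
  -- Step 1: a non-trivial single-coordinate element
  obtain ⟨j, t, ht, htH⟩ : ∃ (j : Fin n) (t : S), t ≠ 1 ∧ Pi.mulSingle j t ∈ H := by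
    by_cases hc : ∀ a b : S, a * b = b * a
    · by_cases hs : h₀ = Pi.mulSingle i (h₀ i)
      · exact ⟨i, h₀ i, hi, hs ▸ hh₀⟩
      · obtain ⟨j, hj⟩ : ∃ j, h₀ j ≠ (Pi.mulSingle i (h₀ i) : Fin n → S) j := by
          by_contra hcon
          push Not at hcon
          exact hs (funext hcon)
        have hij : i ≠ j := by
          rintro rfl
          exact hj (by simp)
        refine ⟨j, h₀ i, hi, ?_⟩
        have h1 : shearAut hc i j hij h₀ * h₀⁻¹ ∈ H := H.mul_mem (hfix _ _ hh₀) (H.inv_mem hh₀)
        have e : shearAut hc i j hij h₀ * h₀⁻¹ = Pi.mulSingle j (h₀ i) := by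
          show h₀ * Pi.mulSingle j (h₀ i) * h₀⁻¹ = Pi.mulSingle j (h₀ i)
          funext a
          simp only [Pi.mul_apply, Pi.inv_apply]
          rw [hc (h₀ a), mul_assoc, mul_inv_cancel, mul_one]
        rwa [e] at h1
    · -- non-abelian: the centre is trivial
      have hcen : Subgroup.center S = ⊥ := by
        rcases (inferInstance : (Subgroup.center S).Normal).eq_bot_or_eq_top with h | h
        · exact h
        · exfalso
          apply hc
          intro a b
          have : b ∈ Subgroup.center S := by rw [h]; trivial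
          exact (Subgroup.mem_center_iff.mp this a)
      obtain ⟨s, hs⟩ : ∃ s, s * h₀ i ≠ h₀ i * s := by
        by_contra hcon
        push Not at hcon
        have : h₀ i ∈ Subgroup.center S := Subgroup.mem_center_iff.mpr hcon
        rw [hcen, Subgroup.mem_bot] at this
        exact hi this
      refine ⟨i, h₀ i * s * (h₀ i)⁻¹ * s⁻¹, ?_, ?_⟩
      · intro h1
        apply hs
        calc s * h₀ i = (h₀ i * s * (h₀ i)⁻¹ * s⁻¹)⁻¹ * (h₀ i * s) := by group
          _ = h₀ i * s := by rw [h1]; group
      · have h1 : h₀ * Pi.mulSingle i s * h₀⁻¹ * (Pi.mulSingle i s)⁻¹ ∈ H := by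
          have h2 : Pi.mulSingle i s * h₀⁻¹ * (Pi.mulSingle i s)⁻¹ ∈ H :=
            hHn.conj_mem _ (H.inv_mem hh₀) _
          have e : h₀ * Pi.mulSingle i s * h₀⁻¹ * (Pi.mulSingle i s)⁻¹ =
              h₀ * (Pi.mulSingle i s * h₀⁻¹ * (Pi.mulSingle i s)⁻¹) := by group
          rw [e]
          exact H.mul_mem hh₀ h2
        have e : h₀ * Pi.mulSingle i s * h₀⁻¹ * (Pi.mulSingle i s)⁻¹ =
            Pi.mulSingle i (h₀ i * s * (h₀ i)⁻¹ * s⁻¹) := by
          funext a
          simp only [Pi.mul_apply, Pi.inv_apply]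
          by_cases ha : a = i
          · subst ha; simp
          · simp [Pi.mulSingle_eq_of_ne ha]
        rwa [e] at h1
  -- Step 2: the whole j-th coordinate subgroup
  have hj : ∀ t' : S, Pi.mulSingle j t' ∈ H := by
    have hcn : (H.comap (MonoidHom.mulSingle (fun _ : Fin n => S) j)).Normal := hHn.comap _
    rcases hcn.eq_bot_or_eq_top with h | h
    · exfalso
      have : t ∈ H.comap (MonoidHom.mulSingle (fun _ : Fin n => S) j) := htH
      rw [h, Subgroup.mem_bot] at this
      exact ht this
    · intro t'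
      have : t' ∈ H.comap (MonoidHom.mulSingle (fun _ : Fin n => S) j) := by rw [h]; trivial
      exact this
  -- Step 3: every coordinate subgroup
  have hall : ∀ (l : Fin n) (t' : S), Pi.mulSingle l t' ∈ H := by
    intro l t'
    have h1 := hfix (permAut (Equiv.swap j l)) _ (hj t')
    have e : permAut (Equiv.swap j l) (Pi.mulSingle j t') = Pi.mulSingle l t' := by
      funext a
      show (Pi.mulSingle j t' : Fin n → S) (Equiv.swap j l a) = _
      by_cases ha : a = l
      · subst ha; simp
      · rw [Pi.mulSingle_eq_of_ne ha, Pi.mulSingle_eq_of_ne]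
        intro h2
        apply ha
        have := congrArg (Equiv.swap j l) h2
        simpa using this
    rwa [e] at h1
  -- Step 4
  rw [eq_top_iff]
  intro x _
  rw [← Finset.noncommProd_mulSingle x]
  exact Subgroup.noncommProd_mem _ _ (fun l _ => hall l (x l))

/-- A non-trivial finite group G is characteristically simple (its only characteristic subgroups are 1 and G) if and only if G is isomorphic to a direct power S^n (n ≥ 1) of some simple group S (possibly cyclic of prime order). -/
theorem result {G : Type*} [Group G] [Finite G] [Nontrivial G] :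
    (∀ H : Subgroup G, H.Characteristic → H = ⊥ ∨ H = ⊤) ↔
    ∃ (S : Type) (_ : Group S) (_ : IsSimpleGroup S) (n : ℕ), 1 ≤ n ∧ Nonempty (G ≃* (Fin n → S)) := by
  classical
  constructor
  · intro hchar
    obtain ⟨N, k, hNs, ⟨e⟩⟩ := forward hchar
    let eqv : Carrier (Nat.card N) ≃ N := (Finite.equivFin N).symm
    letI : Group (Carrier (Nat.card N)) := eqv.group
    let me : Carrier (Nat.card N) ≃* N := eqv.mulEquiv
    haveI : IsSimpleGroup (Carrier (Nat.card N)) := me.isSimpleGroup
    exact ⟨Carrier (Nat.card N), inferInstance, inferInstance, k + 1, by omega,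
      ⟨e.trans (MulEquiv.piCongrRight (fun _ => me.symm))⟩⟩
  · rintro ⟨S, _, _, n, _, ⟨e⟩⟩ H hH
    have hH' : (H.map e.toMonoidHom).Characteristic := by
      rw [Subgroup.characteristic_iff_map_eq]
      intro φ
      have h1 := (Subgroup.characteristic_iff_map_eq.mp hH) ((e.trans φ).trans e.symm)
      rw [Subgroup.map_map]
      conv_rhs => rw [← h1]
      rw [Subgroup.map_map]
      congr 1
      ext x
      simp
    rcases backward_pi n _ hH' with h | h
    · left
      exact (Subgroup.map_eq_bot_iff_of_injective H (f := e.toMonoidHom) e.injective).mp h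
    · right
      have h2 : (H.map e.toMonoidHom).comap e.toMonoidHom = H :=
        Subgroup.comap_map_eq_self_of_injective (f := e.toMonoidHom) e.injective H
      rw [← h2, h, Subgroup.comap_top]

end Cfsg.Agent.S5914
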