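import Cfsg.Statements.S5946

set_option autoImplicit false
open Cfsg

namespace Cfsg.Agent.S5946

/-- Let F ⊆ K be finite fields with [K : F] = n ≥ 2 and regard K as an n-dimensional F-vector space. The Singer group M ≤ GL_F(K) of multiplications by the non-zero elements of K is self-centralizing: every F-linear automorphism of K commuting with all of M lies in M. -/
theorem result {F K : Type*} [Field F] [Fintype F] [Field K] [Fintype K] [Algebra F K] (n : ℕ) (hn : 2 ≤ n) (hdim : Module.finrank F K = n) :
    Subgroup.centralizer (((Units.map ((Algebra.lmul F K : K →ₐ[F] Module.End F K) : K →* Module.End F K)).range : Subgroup (Module.End F K)ˣ) : Set (Module.End F K)ˣ) = (Units.map ((Algebra.lmul F K : K →ₐ[F] Module.End F K) : K →* Module.End F K)).range := by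
  ext g
  constructor
  · intro hg
    rw [Subgroup.mem_centralizer_iff] at hg
    have hcomm : ∀ u : Kˣ, ∀ y : K, (u : K) * (g : Module.End F K) y = (g : Module.End F K) ((u : K) * y) := by
      intro u y
      have h1 := hg (Units.map ((Algebra.lmul F K : K →ₐ[F] Module.End F K) : K →* Module.End F K) u) ⟨u, rfl⟩
      have h2 := congrArg (fun t : (Module.End F K)ˣ => (t : Module.End F K) y) h1
      simpa using h2
    have hinj : Function.Injective (g : Module.End F K) := by
      intro x y hxy
      have h1 : ((g⁻¹ : (Module.End F K)ˣ) : Module.End F K) ((g : Module.End F K) x) = x := by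
        rw [← Module.End.mul_apply, Units.inv_mul, Module.End.one_apply]
      have h2 : ((g⁻¹ : (Module.End F K)ˣ) : Module.End F K) ((g : Module.End F K) y) = y := by
        rw [← Module.End.mul_apply, Units.inv_mul, Module.End.one_apply]
      rw [← h1, ← h2, hxy]
    have ha : (g : Module.End F K) 1 ≠ 0 := by
      intro h0
      have : (g : Module.End F K) 1 = (g : Module.End F K) 0 := by rw [h0, map_zero]
      exact one_ne_zero (hinj this)
    refine ⟨Units.mk0 _ ha, ?_⟩
    apply Units.ext
    apply LinearMap.ext
    intro x
    by_cases hx : x = 0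
    · subst hx
      simp
    · have h3 := hcomm (Units.mk0 x hx) 1
      simp only [Units.val_mk0, mul_one] at h3
      simp [← h3, mul_comm]
  · rintro ⟨u, rfl⟩
    rw [Subgroup.mem_centralizer_iff]
    rintro _ ⟨v, rfl⟩
    rw [← map_mul, ← map_mul, mul_comm]

end Cfsg.Agent.S5946
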